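import Mathlib.RingTheory.Flat.EquationalCriterion
import Mathlib.RingTheory.LocalRing.MaximalIdeal.Basic
import Mathlib.RingTheory.Ideal.Operations

set_option autoImplicit false

namespace Groth.Agent.H28Colon

/-- Colon lemma for flat modules over a local ring: if `a ∉ I` and `a • y ∈ I • F` then
`y ∈ m • F`. -/
theorem colon_lemma {R : Type*} [CommRing R] [IsLocalRing R] {F : Type*} [AddCommGroup F]
    [Module R F] [Module.Flat R F] (I : Ideal R) (a : R) (ha : a ∉ I) (y : F)
    (hy : a • y ∈ I • (⊤ : Submodule R F)) :
    y ∈ IsLocalRing.maximalIdeal R • (⊤ : Submodule R F) := by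
  classical
  have hspan : (⊤ : Submodule R F) = Submodule.span R (Set.range (id : F → F)) := by simp
  rw [hspan, Submodule.mem_ideal_smul_span_iff_exists_sum] at hy
  obtain ⟨c, hcI, hc⟩ := hy
  let f : Option c.support → R := fun o => Option.elim o a (fun i => -c i)
  let x : Option c.support → F := fun o => Option.elim o y (fun i => (i : F))
  have hcsum : (c.sum fun i r => r • id i) = ∑ i : c.support, c i • (i : F) := by
    rw [Finsupp.sum]
    exact (Finset.sum_coe_sort c.support (fun i => c i • id i)).symm
  have hrel : ∑ o, f o • x o = 0 := by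
    rw [Fintype.sum_option]
    simp only [f, x, Option.elim]
    rw [← hc, hcsum]
    simp [neg_smul]
  obtain ⟨k, A, w, hx, hf⟩ := Module.Flat.isTrivialRelation_of_sum_smul_eq_zero hrel
  have hy' : y = ∑ j, A none j • w j := hx none
  rw [hy']
  refine Submodule.sum_mem _ (fun j _ => Submodule.smul_mem_smul ?_ Submodule.mem_top)
  by_contra hnot
  have hunit : IsUnit (A none j) := by
    rw [IsLocalRing.mem_maximalIdeal, mem_nonunits_iff, not_not] at hnot
    exact hnot
  have h1 := hf j
  rw [Fintype.sum_option] at h1
  simp only [f, Option.elim] at h1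
  have h2 : a * A none j ∈ I := by
    have e : a * A none j = ∑ i : c.support, c i * A (some i) j := by
      have : a * A none j + ∑ i : c.support, -c i * A (some i) j = 0 := h1
      simp only [neg_mul, Finset.sum_neg_distrib] at this
      exact (add_neg_eq_zero.mp this)
    rw [e]
    exact Submodule.sum_mem _ (fun i _ => Ideal.mul_mem_right _ _ (hcI i))
  apply ha
  obtain ⟨u, hu⟩ := hunit
  have e2 : a = a * A none j * ↑u⁻¹ := by
    rw [← hu, mul_assoc, Units.mul_inv, mul_one]
  rw [e2]
  exact Ideal.mul_mem_right _ _ h2

end Groth.Agent.H28Colon
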