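import Groth.Statements.S13802
import Groth.Agent.Lib.Helper20.EtaPt4

set_option autoImplicit false
universe u
open EtaPt

namespace Groth.Agent.S13802

/-- For a commutative ring A with finitely many minimal prime ideals, the canonical map q_A from A to
the pointwise ring M_η(A) is integral. Here η is a natural transformation from the identity of the
category of fields to an endofunctor F with F(η_K) bijective and η_K purely inseparable for every
field K, N_η(A) is the product of the F(k(p)) over the primes p of A with diagonal map t_A, and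
M_η(A) ⊆ N_η(A) is the subring of elements sent into the range of t_R by every ring map from A to a
valuation ring R at whose fraction field η is bijective; q_A : A → M_η(A) is the corestriction of
t_A. -/
theorem result (η : EtaPt.FieldEndo.{u}) (A : Type u) [CommRing A]
    (hA : (minimalPrimes A).Finite) : (η.q A).IsIntegral := by
  classical
  intro x
  have hloc : ∀ p ∈ minimalPrimes A, ∃ Q : Polynomial A, Q.Monic ∧
      ∀ P : PrimeSpectrum A, p ≤ P.asIdeal → (Polynomial.eval₂ (η.t A) (x : η.N A) Q) P = 0 := by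
    intro p hp
    have hpp : p.IsPrime := Ideal.IsMinimalPrime.isPrime hp
    let π : A →+* A ⧸ p := Ideal.Quotient.mk p
    have hπs : Function.Surjective π := Ideal.Quotient.mk_surjective
    have hxD : η.Nmap π x ∈ η.M (A ⧸ p) := by
      intro R _ _ _ hR g
      rw [← Groth.Agent.Lib.Helper20.Nmap_comp]
      exact x.2 R hR (g.comp π)
    obtain ⟨P₀, hP₀m, hP₀⟩ := Groth.Agent.Lib.Helper20.gen_isIntegralElem η (A ⧸ p) _ hxD
    obtain ⟨Q, hQ, -, hQm⟩ := Polynomial.lifts_and_degree_eq_and_monic
      (Polynomial.map_surjective π hπs P₀) hP₀m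
    refine ⟨Q, hQm, ?_⟩
    let z : η.M (A ⧸ p) := ⟨η.Nmap π x, hxD⟩
    let w : η.M (A ⧸ p) := Polynomial.eval₂ (η.q (A ⧸ p)) z P₀
    have hw0 : (w : η.N (A ⧸ p)) = 0 := by
      have hinj := Groth.Agent.Lib.Helper20.injOn_gen η (A ⧸ p)
      apply hinj w.2 (η.M (A ⧸ p)).zero_mem
      let ev : η.M (A ⧸ p) →+* η.obj (Groth.Agent.Lib.Helper20.gen (A ⧸ p)).asIdeal.ResidueField :=
        (Pi.evalRingHom (fun P : PrimeSpectrum (A ⧸ p) => η.obj P.asIdeal.ResidueField)
          (Groth.Agent.Lib.Helper20.gen (A ⧸ p))).comp (η.M (A ⧸ p)).subtype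
      show ev w = (0 : η.N (A ⧸ p)) (Groth.Agent.Lib.Helper20.gen (A ⧸ p))
      show ev (Polynomial.eval₂ (η.q (A ⧸ p)) z P₀) = 0
      rw [Polynomial.hom_eval₂]
      exact hP₀
    have h1 : (η.Nmap π).comp (η.t A) = (η.t (A ⧸ p)).comp π :=
      RingHom.ext (fun a => η.Nmap_t_apply π a)
    have hNw : η.Nmap π (Polynomial.eval₂ (η.t A) (x : η.N A) Q) = (w : η.N (A ⧸ p)) := by
      rw [Polynomial.hom_eval₂, h1, ← Polynomial.eval₂_map, hQ]
      show _ = (η.M (A ⧸ p)).subtype (Polynomial.eval₂ (η.q (A ⧸ p)) z P₀)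
      rw [Polynomial.hom_eval₂]
      rfl
    intro P hpP
    have hPr : P ∈ Set.range (PrimeSpectrum.comap π) := by
      rw [range_comap_of_surjective _ π hπs, PrimeSpectrum.mem_zeroLocus]
      intro a ha
      have : a ∈ p := by
        have h2 : a ∈ RingHom.ker π := ha
        rwa [Ideal.mk_ker] at h2
      exact hpP this
    obtain ⟨P', rfl⟩ := hPr
    have h2 := congrFun hNw P'
    rw [hw0, Groth.Agent.Lib.Helper20.Nmap_apply] at h2
    exact (map_eq_zero_iff _ (η.map _).injective).mp h2
  choose! Qf hQf using hloc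
  refine ⟨∏ p ∈ hA.toFinset, Qf p, Polynomial.monic_prod_of_monic _ _
    (fun p hp => (hQf p ((Set.Finite.mem_toFinset hA).mp hp)).1), ?_⟩
  apply Subtype.ext
  show (η.M A).subtype (Polynomial.eval₂ (η.q A) x _) = 0
  rw [Polynomial.hom_eval₂]
  have h3 : (η.M A).subtype.comp (η.q A) = η.t A := RingHom.ext (fun _ => rfl)
  rw [h3, Polynomial.eval₂_finsetProd]
  funext P
  rw [Finset.prod_apply]
  obtain ⟨p, hp, hpP⟩ := Ideal.exists_minimalPrimes_le (bot_le : ⊥ ≤ P.asIdeal)
  exact Finset.prod_eq_zero ((Set.Finite.mem_toFinset hA).mpr hp) ((hQf p hp).2 P hpP)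

end Groth.Agent.S13802
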