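import Groth.Statements.S13803
import Groth.Agent.Lib.Helper20.EtaPt5
import Groth.Agent.S13802

set_option autoImplicit false
universe u
open EtaPt

namespace Groth.Agent.S13803

/-- For a commutative ring A with finitely many minimal prime ideals, Spec of q_A : A → M_η(A) is a
bijection, and for a prime Q of M_η(A) over the prime P of A the map η at k(P), from k(P) to
F(k(P)), factors through the residue field map k(P) → k(Q). Here η is a natural transformation from
the identity of the category of fields to an endofunctor F with F(η_K) bijective and η_K purely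
inseparable for every field K, N_η(A) is the product of the F(k(p)) over the primes p of A with
diagonal map t_A, and M_η(A) ⊆ N_η(A) is the subring of elements sent into the range of t_R by every
ring map from A to a valuation ring R at whose fraction field η is bijective; q_A : A → M_η(A) is
the corestriction of t_A. -/
theorem result (η : EtaPt.FieldEndo.{u}) (A : Type u) [CommRing A]
    (hA : (minimalPrimes A).Finite) :
    Function.Bijective (PrimeSpectrum.comap (η.q A)) ∧
      ∀ Q : PrimeSpectrum (η.M A),
        ∃ φ : Q.asIdeal.ResidueField →+* η.obj (PrimeSpectrum.comap (η.q A) Q).asIdeal.ResidueField,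
          φ.comp (Ideal.ResidueField.map (PrimeSpectrum.comap (η.q A) Q).asIdeal Q.asIdeal (η.q A) rfl) =
            η.eta (PrimeSpectrum.comap (η.q A) Q).asIdeal.ResidueField := by
  classical
  have hfin : {P : PrimeSpectrum A | P.asIdeal ∈ minimalPrimes A}.Finite :=
    hA.preimage (fun a _ b _ h => PrimeSpectrum.ext h)
  have key : ∀ Q : PrimeSpectrum (η.M A),
      Q = Groth.Agent.Lib.Helper20.kerPt η A (PrimeSpectrum.comap (η.q A) Q) := by
    intro Q
    have hinf : hfin.toFinset.inf (fun p => RingHom.ker (Groth.Agent.Lib.Helper20.evM η A p)) ≤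
        Q.asIdeal := by
      intro x hx
      rw [Submodule.mem_finsetInf] at hx
      have h0 : (x : η.N A) = 0 :=
        Groth.Agent.Lib.Helper20.eq_zero_of_forall_minimal η A x x.2
          (fun p hp => hx p ((Set.Finite.mem_toFinset hfin).mpr hp))
      have h0' : x = 0 := Subtype.ext h0
      rw [h0']
      exact Q.asIdeal.zero_mem
    obtain ⟨p, -, hpQ⟩ := (Q.2.inf_le').mp hinf
    have hle : (Groth.Agent.Lib.Helper20.kerPt η A (PrimeSpectrum.comap (η.q A) Q)).asIdeal ≤
        Q.asIdeal := fun z hz =>
      Groth.Agent.Lib.Helper20.mem_of_ker_evM_le η A Q p hpQ z hz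
    let _ : Algebra A (η.M A) := (η.q A).toAlgebra
    have : Algebra.IsIntegral A (η.M A) := ⟨Groth.Agent.S13802.result η A hA⟩
    by_contra hne
    have hlt : (Groth.Agent.Lib.Helper20.kerPt η A (PrimeSpectrum.comap (η.q A) Q)).asIdeal <
        Q.asIdeal := lt_of_le_of_ne hle (fun h => hne (PrimeSpectrum.ext h).symm)
    have h3 := Ideal.IsIntegral.comap_lt_comap (R := A) hlt
    have h1 := Groth.Agent.Lib.Helper20.comap_kerPt η A (PrimeSpectrum.comap (η.q A) Q)
    have h2 : Ideal.comap (algebraMap A (η.M A))
        (Groth.Agent.Lib.Helper20.kerPt η A (PrimeSpectrum.comap (η.q A) Q)).asIdeal =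
        Ideal.comap (algebraMap A (η.M A)) Q.asIdeal := congrArg PrimeSpectrum.asIdeal h1
    exact (ne_of_lt h3) h2
  refine ⟨⟨fun Q₁ Q₂ h => by rw [key Q₁, key Q₂, h], fun P =>
    ⟨Groth.Agent.Lib.Helper20.kerPt η A P, Groth.Agent.Lib.Helper20.comap_kerPt η A P⟩⟩, ?_⟩
  intro Q
  have hQ : Q.asIdeal = RingHom.ker (Groth.Agent.Lib.Helper20.evM η A
      (PrimeSpectrum.comap (η.q A) Q)) := congrArg PrimeSpectrum.asIdeal (key Q)
  have hf₁ : Q.asIdeal ≤ RingHom.ker (Groth.Agent.Lib.Helper20.evM η A
      (PrimeSpectrum.comap (η.q A) Q)) := hQ.le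
  have hf₂ : Q.asIdeal.primeCompl ≤ (IsUnit.submonoid _).comap (Groth.Agent.Lib.Helper20.evM η A
      (PrimeSpectrum.comap (η.q A) Q)) := by
    intro x hx
    show IsUnit _
    apply IsUnit.mk0
    intro h0
    apply hx
    rw [hQ]
    exact h0
  refine ⟨Ideal.ResidueField.lift Q.asIdeal _ hf₁ hf₂, ?_⟩
  apply Ideal.ResidueField.ringHom_ext
  ext a
  simp only [RingHom.comp_apply]
  have h1 : Ideal.ResidueField.map (PrimeSpectrum.comap (η.q A) Q).asIdeal Q.asIdeal (η.q A) rfl
      (algebraMap A _ a) = algebraMap (η.M A) Q.asIdeal.ResidueField (η.q A a) :=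
    Ideal.ResidueField.map_algebraMap _ _ _ _ a
  exact (congrArg (Ideal.ResidueField.lift Q.asIdeal _ hf₁ hf₂) h1).trans
    (Ideal.ResidueField.lift_algebraMap Q.asIdeal _ hf₁ hf₂ (η.q A a))

end Groth.Agent.S13803
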