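import Groth.Statements.S0015
import Mathlib.AlgebraicGeometry.Limits

set_option autoImplicit false
universe u
open Coherent

namespace Groth.Agent.S0015

open TopologicalSpace


open AlgebraicGeometry in
/-- Let X be quasi-compact and quasi-separated and P a property of opens of X. If P holds for affine
opens, and P(U ∪ V) follows from P(U), P(V), P(U ∩ V) whenever U is quasi-compact open and V affine
open, then P holds for every quasi-compact open, in particular for X. -/
theorem result (X : Scheme.{u}) [CompactSpace X] [QuasiSeparatedSpace X]
    (P : X.Opens → Prop) (h₁ : ∀ U : X.Opens, IsAffineOpen U → P U)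
    (h₂ : ∀ U V : X.Opens, IsCompact (U : Set X) → IsAffineOpen V → P U → P V → P (U ⊓ V) →
      P (U ⊔ V))
    (U : X.Opens) (hU : IsCompact (U : Set X)) : P U := by
  classical
  -- Step A: finite unions of basic opens of an affine open
  have stepA : ∀ (V : X.Opens) (_ : IsAffineOpen V) (n : ℕ) (s : Finset Γ(X, V)), s.card ≤ n →
      P (⨆ f ∈ s, X.basicOpen f) := by
    intro V hV n
    induction n with
    | zero =>
      intro s hs
      rw [Nat.le_zero, Finset.card_eq_zero] at hs
      subst hs
      simp only [Finset.notMem_empty, iSup_false, iSup_bot]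
      exact h₁ _ (isAffineOpen_bot X)
    | succ n ih =>
      intro s hs
      rcases s.eq_empty_or_nonempty with rfl | ⟨a, ha⟩
      · exact ih ∅ (by simp)
      · have hs' : s = insert a (s.erase a) := (Finset.insert_erase ha).symm
        have htc : (s.erase a).card ≤ n := by
          rw [Finset.card_erase_of_mem ha]; omega
        rw [hs', Finset.iSup_insert, sup_comm]
        apply h₂
        · have : ((⨆ f ∈ s.erase a, X.basicOpen f : X.Opens) : Set X) =
              ⋃ f ∈ s.erase a, (X.basicOpen f : Set X) := by simp
          rw [this]
          exact (s.erase a).isCompact_biUnion fun f _ => (hV.basicOpen f).isCompact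
        · exact hV.basicOpen a
        · exact ih _ htc
        · exact h₁ _ (hV.basicOpen a)
        · have e : (⨆ f ∈ s.erase a, X.basicOpen f) ⊓ X.basicOpen a =
              ⨆ f ∈ (s.erase a).image (· * a), X.basicOpen f := by
            rw [Finset.iSup_finset_image, iSup₂_inf_eq]
            simp [Scheme.basicOpen_mul]
          rw [e]
          exact ih _ (Finset.card_image_le.trans htc)
  -- Step B: compact opens inside an affine open
  have stepB : ∀ (V W : X.Opens), IsAffineOpen V → W ≤ V → IsCompact (W : Set X) → P W := by
    intro V W hV hWV hW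
    choose F hF using fun x : W => hV.exists_basicOpen_le (V := W) x (hWV x.2)
    obtain ⟨s, hs⟩ := hW.elim_finite_subcover (fun x : W => (X.basicOpen (F x) : Set X))
      (fun _ => (X.basicOpen _).isOpen)
      (fun x hx => Set.mem_iUnion.mpr ⟨⟨x, hx⟩, (hF ⟨x, hx⟩).2⟩)
    have e : W = ⨆ f ∈ s.image F, X.basicOpen f := by
      apply le_antisymm
      · intro x hx
        have := hs hx
        simp only [Set.mem_iUnion] at this
        obtain ⟨i, hi, hxi⟩ := this
        simp only [Opens.mem_iSup]
        exact ⟨F i, Finset.mem_image_of_mem F hi, hxi⟩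
      · exact iSup₂_le fun f hf => by
          obtain ⟨i, -, rfl⟩ := Finset.mem_image.mp hf
          exact (hF i).1
    rw [e]
    exact stepA V hV _ _ le_rfl
  -- Step C: finite unions of affine opens
  have stepC : ∀ t : Finset X.Opens, (∀ V ∈ t, IsAffineOpen V) → P (sSup (t : Set X.Opens)) := by
    intro t
    induction t using Finset.induction_on with
    | empty =>
      intro _
      simp only [Finset.coe_empty, sSup_empty]
      exact h₁ _ (isAffineOpen_bot X)
    | insert a t hat ih =>
      intro ht
      have hcomp : IsCompact ((sSup (t : Set X.Opens) : X.Opens) : Set X) := by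
        rw [Opens.coe_sSup]
        exact t.isCompact_biUnion fun V hV => (ht V (Finset.mem_insert_of_mem hV)).isCompact
      have ha : IsAffineOpen a := ht a (Finset.mem_insert_self a t)
      rw [Finset.coe_insert, sSup_insert, sup_comm]
      apply h₂ _ _ hcomp ha (ih fun V hV => ht V (Finset.mem_insert_of_mem hV)) (h₁ _ ha)
      apply stepB a _ ha inf_le_right
      exact QuasiSeparatedSpace.inter_isCompact _ _ (Opens.isOpen _) hcomp a.isOpen ha.isCompact
  obtain ⟨Us, hUsB, hUsfin, rfl⟩ := X.isBasis_affineOpens.exists_finite_of_isCompact hU
  have := stepC hUsfin.toFinset (fun V hV => hUsB ((Set.Finite.mem_toFinset hUsfin).mp hV))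
  rwa [Set.Finite.coe_toFinset] at this

end Groth.Agent.S0015
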