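import Groth.Statements.S0079

set_option autoImplicit false
open CategoryTheory CategoryTheory.Limits AlgebraicGeometry Opposite
universe u
open EtBase

namespace Groth.Agent.S0079


/-- Quasi-compactness of a morphism descends along a quasi-compact flat surjective base change: if the
base change of a morphism g along a quasi-compact, flat, surjective morphism to its target is
quasi-compact, then g is quasi-compact. (Stated for a single quasi-compact faithfully flat cover;
combined with Zariski-locality on the target this gives the fpqc-local form.) -/
theorem result :
    MorphismProperty.DescendsAlong @QuasiCompact (@Surjective ⊓ @Flat ⊓ @QuasiCompact : MorphismProperty Scheme.{u}) := by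
  apply IsZariskiLocalAtTarget.descendsAlong_inf_quasiCompact
  · rw [inf_comm]
    exact inf_le_inf le_rfl (IsLocalIso.le_of_isZariskiLocalAtSource _)
  intro R S Y φ g h hfst
  obtain ⟨hs, -⟩ := h
  have : CompactSpace (pullback (Spec.map φ) g : Scheme.{u}) := by
    rw [← quasiCompact_iff_compactSpace (pullback.fst (Spec.map φ) g)]
    exact hfst
  have hsurj : Function.Surjective (pullback.snd (Spec.map φ) g).base :=
    (MorphismProperty.pullback_snd (P := @Surjective) _ _ hs).surj
  rw [quasiCompact_iff_compactSpace]
  constructor
  rw [← hsurj.range_eq]
  exact isCompact_range (pullback.snd (Spec.map φ) g).continuous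

end Groth.Agent.S0079
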