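import Groth.Statements.S0186
import Groth.Agent.Lib.Helper1.Cent

set_option autoImplicit false
universe u v w
open scoped TensorProduct
open Curves

namespace Groth.Agent.S0186


/-- Two algebra maps from a simple algebra into a finite central simple algebra differ by conjugation by
a unit. -/
theorem result (k : Type u) [Field k] (A : Type v) [Ring A] [Algebra k A]
    [Algebra.IsCentral k A] [IsSimpleRing A] [FiniteDimensional k A]
    (B : Type w) [Ring B] [Algebra k B] [IsSimpleRing B] (f g : B →ₐ[k] A) :
    ∃ x : Aˣ, ∀ b : B, f b = (x : A) * g b * (x⁻¹ : Aˣ) := by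
  exact Groth.Agent.Lib.Helper1.Cent.skolem_noether f g

end Groth.Agent.S0186
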