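import Groth.Statements.S0187
import Groth.Agent.Lib.Helper1.Cent

set_option autoImplicit false
universe u v w
open scoped TensorProduct
open Curves

namespace Groth.Agent.S0187


/-- In a finite central simple algebra the centralizer of a simple subalgebra is again simple. -/
theorem result (k : Type u) [Field k] (A : Type v) [Ring A] [Algebra k A]
    [Algebra.IsCentral k A] [IsSimpleRing A] [FiniteDimensional k A]
    (B : Subalgebra k A) [IsSimpleRing B] :
    IsSimpleRing (Subalgebra.centralizer k (B : Set A)) := by
  exact Groth.Agent.Lib.Helper1.Cent.isSimpleRing_centralizer B

end Groth.Agent.S0187
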