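import Groth.Statements.S0188
import Groth.Agent.Lib.Helper1.Cent

set_option autoImplicit false
universe u v w
open scoped TensorProduct
open Curves

namespace Groth.Agent.S0188


/-- For a simple subalgebra B of a finite central simple algebra A with centralizer C, dim A = dim B ·
dim C. -/
theorem result (k : Type u) [Field k] (A : Type v) [Ring A] [Algebra k A]
    [Algebra.IsCentral k A] [IsSimpleRing A] [FiniteDimensional k A]
    (B : Subalgebra k A) [IsSimpleRing B] :
    Module.finrank k A = Module.finrank k B * Module.finrank k (Subalgebra.centralizer k (B : Set A)) := by
  exact (Groth.Agent.Lib.Helper1.Cent.finrank_mul_finrank_centralizer B).symm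

end Groth.Agent.S0188
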