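import Groth.Statements.S0189
import Groth.Agent.Lib.Helper1.Cent

set_option autoImplicit false
universe u v w
open scoped TensorProduct
open Curves

namespace Groth.Agent.S0189


/-- Double centralizer: a simple subalgebra of a finite central simple algebra is the centralizer of its
centralizer. -/
theorem result (k : Type u) [Field k] (A : Type v) [Ring A] [Algebra k A]
    [Algebra.IsCentral k A] [IsSimpleRing A] [FiniteDimensional k A]
    (B : Subalgebra k A) [IsSimpleRing B] :
    Subalgebra.centralizer k (Subalgebra.centralizer k (B : Set A) : Set A) = B := by
  exact Groth.Agent.Lib.Helper1.Cent.centralizer_centralizer B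

end Groth.Agent.S0189
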