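import Groth.Statements.S0190
import Groth.Agent.Lib.Helper1.CSA

set_option autoImplicit false
universe u v w
open scoped TensorProduct
open Curves

namespace Groth.Agent.S0190


/-- The tensor product of a simple algebra with a finite central simple algebra is simple. -/
theorem result (k : Type u) [Field k] (A : Type v) [Ring A] [Algebra k A]
    [IsSimpleRing A] (A' : Type w) [Ring A'] [Algebra k A']
    [Algebra.IsCentral k A'] [IsSimpleRing A'] [FiniteDimensional k A'] :
    IsSimpleRing (A ⊗[k] A') := by
  exact Groth.Agent.Lib.Helper1.CSA.isSimpleRing_tensor k A A'

end Groth.Agent.S0190
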