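import Groth.Statements.S0191
import Groth.Agent.Lib.Helper1.CSA

set_option autoImplicit false
universe u v w
open scoped TensorProduct
open Curves

namespace Groth.Agent.S0191


/-- If K is a skew field with center k, every two-sided ideal of A ⊗ K is generated by the elements a ⊗
1 it contains. -/
theorem result (k : Type u) [Field k] (A : Type v) [Ring A] [Algebra k A]
    (K : Type w) [DivisionRing K] [Algebra k K] [Algebra.IsCentral k K]
    (I : TwoSidedIdeal (A ⊗[k] K)) :
    I = TwoSidedIdeal.span ((fun a : A => a ⊗ₜ[k] (1 : K)) '' {a : A | a ⊗ₜ[k] (1 : K) ∈ I}) := by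
  exact Groth.Agent.Lib.Helper1.CSA.twoSidedIdeal_eq_span k A K I

end Groth.Agent.S0191
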