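import Groth.Statements.S0192
import Groth.Agent.Lib.Helper1.CSA

set_option autoImplicit false
universe u v w
open scoped TensorProduct
open Curves

namespace Groth.Agent.S0192


/-- The dimension of a finite central simple algebra over its center is a square. -/
theorem result (k : Type u) [Field k] (A : Type v) [Ring A] [Algebra k A]
    [Algebra.IsCentral k A] [IsSimpleRing A] [FiniteDimensional k A] :
    IsSquare (Module.finrank k A) := by
  exact Groth.Agent.Lib.Helper1.CSA.finrank_isSquare k A

end Groth.Agent.S0192
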