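import Groth.Statements.S0193
import Groth.Agent.Lib.Helper1.MatD

set_option autoImplicit false
universe u v w
open scoped TensorProduct
open Curves

namespace Groth.Agent.S0193


/-- If matrix algebras of positive size over two finite central skew fields are isomorphic as
k-algebras, the skew fields are isomorphic. -/
theorem result (k : Type u) [Field k]
    (D : Type v) [DivisionRing D] [Algebra k D] [Algebra.IsCentral k D] [FiniteDimensional k D]
    (D' : Type w) [DivisionRing D'] [Algebra k D'] [Algebra.IsCentral k D'] [FiniteDimensional k D']
    (n m : ℕ) (hn : n ≠ 0) (hm : m ≠ 0)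
    (e : Matrix (Fin n) (Fin n) D ≃ₐ[k] Matrix (Fin m) (Fin m) D') :
    Nonempty (D ≃ₐ[k] D') := by
  exact Groth.Agent.Lib.Helper1.MatD.nonempty_algEquiv_of_matrix hn hm e

end Groth.Agent.S0193
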