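import Groth.Statements.S0194
import Groth.Agent.Lib.Helper1.Cent2

set_option autoImplicit false
universe u v w
open scoped TensorProduct
open Curves

namespace Groth.Agent.S0194


/-- A central simple subalgebra B of a finite central simple algebra A, together with its centralizer C,
decomposes A as B ⊗ C. -/
theorem result (k : Type u) [Field k] (A : Type v) [Ring A] [Algebra k A]
    [Algebra.IsCentral k A] [IsSimpleRing A] [FiniteDimensional k A]
    (B : Subalgebra k A) [IsSimpleRing B] [Algebra.IsCentral k B] :
    Function.Bijective (Algebra.TensorProduct.lift B.val (Subalgebra.centralizer k (B : Set A)).val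
      (fun x y => y.2 x.1 x.2)) := by
  exact Groth.Agent.Lib.Helper1.Cent.tensor_centralizer_bijective B

end Groth.Agent.S0194
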