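import Groth.Statements.S0196
import Groth.Agent.Lib.Helper1.Cent2

set_option autoImplicit false
universe u v w
open scoped TensorProduct
open Curves

namespace Groth.Agent.S0196


/-- In a finite central skew field D over k, a maximal commutative k-subalgebra L satisfies dim D = (dim
L)^2. -/
theorem result (k : Type u) [Field k]
    (D : Type v) [DivisionRing D] [Algebra k D] [Algebra.IsCentral k D] [FiniteDimensional k D]
    (L : Subalgebra k D) (hcomm : ∀ x ∈ L, ∀ y ∈ L, x * y = y * x)
    (hmax : ∀ L' : Subalgebra k D, (∀ x ∈ L', ∀ y ∈ L', x * y = y * x) → L ≤ L' → L' = L) :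
    Module.finrank k D = Module.finrank k L ^ 2 := by
  exact Groth.Agent.Lib.Helper1.Cent.finrank_eq_sq_of_maximal_comm L hcomm hmax

end Groth.Agent.S0196
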