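import Groth.Statements.S0197
import Groth.Agent.Lib.Helper1.Cent2

set_option autoImplicit false
universe u v w
open scoped TensorProduct
open Curves

namespace Groth.Agent.S0197


/-- If a finite central skew field D has dimension d^2, the degree of any finite splitting field of D is
divisible by d. -/
theorem result (k : Type u) [Field k]
    (D : Type u) [DivisionRing D] [Algebra k D] [Algebra.IsCentral k D] [FiniteDimensional k D]
    (d : ℕ) (hd : Module.finrank k D = d ^ 2)
    (k' : Type u) [Field k'] [Algebra k k'] [FiniteDimensional k k'] (hs : Curves.Splits k D k') :
    d ∣ Module.finrank k k' := by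
  exact Groth.Agent.Lib.Helper1.Cent.dvd_finrank_of_splits d hd k' hs

end Groth.Agent.S0197
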