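import Groth.Statements.S0199
import Groth.Agent.Lib.Helper1.Desc

set_option autoImplicit false
universe u v w
open scoped TensorProduct
open Curves

namespace Groth.Agent.S0199


/-- Every finite central simple algebra over k is split by some finite separable extension of k. -/
theorem result (k : Type u) [Field k] (A : Type v) [Ring A] [Algebra k A]
    [Algebra.IsCentral k A] [IsSimpleRing A] [FiniteDimensional k A] :
    ∃ (k' : Type u) (_ : Field k') (_ : Algebra k k'), FiniteDimensional k k' ∧
      Algebra.IsSeparable k k' ∧ Curves.Splits k A k' := by
  exact Groth.Agent.Lib.Helper1.Desc.exists_finite_separable_splitting k A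

end Groth.Agent.S0199
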