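import Groth.Statements.S0200
import Groth.Agent.Lib.Helper1.CSAI

set_option autoImplicit false
universe u v w
open scoped TensorProduct
open Curves

namespace Groth.Agent.S0200


/-- A k-algebra is finite central simple exactly when its base change to the separable closure of k is a
matrix algebra of positive size. -/
theorem result (k : Type u) [Field k] (A : Type v) [Ring A] [Algebra k A] :
    (Algebra.IsCentral k A ∧ IsSimpleRing A ∧ FiniteDimensional k A) ↔
      Curves.Splits k A (SeparableClosure k) := by
  exact Groth.Agent.Lib.Helper1.CSAI.csa_iff_splits_sepClosure A

end Groth.Agent.S0200
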