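import Groth.Statements.S0397
import Mathlib.RingTheory.LocalRing.Module

set_option autoImplicit false
universe u
open FlatMor

namespace Groth.Agent.S0397

open IsLocalRing TensorProduct


/-- Over a local ring whose maximal ideal is nilpotent, every flat module (not necessarily finitely
generated) is free. -/
theorem result {R M : Type u} [CommRing R] [IsLocalRing R] (hR : IsNilpotent (IsLocalRing.maximalIdeal R))
    [AddCommGroup M] [Module R M] [Module.Flat R M] : Module.Free R M := by
  classical
  let k := IsLocalRing.ResidueField R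
  let w := Module.Free.chooseBasis k (k ⊗[R] M)
  obtain ⟨v, hv⟩ := (TensorProduct.mk_surjective R M k Ideal.Quotient.mk_surjective).comp_left w
  have hv' : (TensorProduct.mk R k M 1) ∘ v = w := hv
  have hli : LinearIndependent R v :=
    Module.IsLocalRing.linearIndependent_of_flat _ (by rw [hv']; exact w.linearIndependent)
  set N := Submodule.span R (Set.range v) with hN
  have h1 : N ⊔ maximalIdeal R • (⊤ : Submodule R M) = ⊤ := by
    rw [eq_top_iff]
    intro x _
    let φ := TensorProduct.mk R k M 1
    have hmap : N.map φ = ⊤ := by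
      rw [hN, Submodule.map_span, ← Set.range_comp, ← Submodule.restrictScalars_span R k
        Ideal.Quotient.mk_surjective, Submodule.restrictScalars_eq_top_iff]
      have : (φ ∘ v) = w := hv
      rw [this, w.span_eq]
    obtain ⟨n, hn, hnx⟩ := (Submodule.mem_map).mp (hmap ▸ Submodule.mem_top : φ x ∈ N.map φ)
    have hker : x - n ∈ maximalIdeal R • (⊤ : Submodule R M) := by
      rw [← LinearMap.ker_tensorProductMk (Q := M) (I := maximalIdeal R)]
      rw [LinearMap.mem_ker, map_sub]
      change φ x - φ n = 0
      rw [hnx, sub_self]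
    have : x = n + (x - n) := by abel
    rw [this]
    exact Submodule.add_mem_sup hn hker
  have h2 : ∀ j : ℕ, N ⊔ (maximalIdeal R) ^ j • (⊤ : Submodule R M) = ⊤ := by
    intro j
    induction j with
    | zero => simp
    | succ j ih =>
      rw [eq_top_iff]
      calc (⊤ : Submodule R M) = N ⊔ (maximalIdeal R) ^ j • ⊤ := ih.symm
        _ = N ⊔ (maximalIdeal R) ^ j • (N ⊔ maximalIdeal R • ⊤) := by rw [h1]
        _ ≤ N ⊔ (maximalIdeal R) ^ (j + 1) • ⊤ := by
          rw [Submodule.smul_sup, ← sup_assoc, pow_succ, Submodule.mul_smul]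
          exact sup_le_sup_right (sup_le le_rfl Submodule.smul_le_right) _
  obtain ⟨n, hn⟩ := hR
  have := h2 n
  rw [hn, Ideal.zero_eq_bot, Submodule.bot_smul, sup_bot_eq] at this
  exact Module.Free.of_basis (Module.Basis.mk hli this.ge)

end Groth.Agent.S0397
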