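import Groth.Statements.S0416
import Mathlib.AlgebraicGeometry.Morphisms.UniversallyInjective
import Mathlib.AlgebraicGeometry.Morphisms.Immersion
import Mathlib.Topology.Homeomorph.Lemmas

set_option autoImplicit false
universe u
open FlatMor

namespace Groth.Agent.S0416

open AlgebraicGeometry CategoryTheory Limits MorphismProperty

lemma isHomeomorph_of_comp' {A B C : Type*} [TopologicalSpace A] [TopologicalSpace B]
    [TopologicalSpace C] (g : A → B) (h : B → C) (hg : IsHomeomorph g)
    (hgh : IsHomeomorph (h ∘ g)) : IsHomeomorph h := by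
  have e : h = (h ∘ g) ∘ hg.homeomorph.symm := by
    funext b
    simp only [Function.comp_apply]
    congr 1
    exact (hg.homeomorph.apply_symm_apply b).symm
  rw [e]
  exact hgh.comp hg.homeomorph.symm.isHomeomorph

instance topHomeo_comp : (topologically fun {α β : Type u} [TopologicalSpace α] [TopologicalSpace β]
    (f : α → β) => IsHomeomorph f).IsStableUnderComposition :=
  topologically_isStableUnderComposition _ (fun _ _ hf hg => hg.comp hf)

instance univHomeo_comp : (FlatMor.IsUnivHomeo.{u}).IsStableUnderComposition := by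
  unfold FlatMor.IsUnivHomeo; infer_instance

instance univHomeo_bc : (FlatMor.IsUnivHomeo.{u}).IsStableUnderBaseChange := by
  unfold FlatMor.IsUnivHomeo; infer_instance

instance univHomeo_id : (FlatMor.IsUnivHomeo.{u}).ContainsIdentities where
  id_mem X := by
    intro X' Y' i₁ i₂ f' H
    have : IsIso f' := H.isIso_fst_of_isIso
    exact topologically_iso_le _ (fun f => f.isHomeomorph) f' this

instance univHomeo_mult : (FlatMor.IsUnivHomeo.{u}).IsMultiplicative where

lemma isUnivHomeo_diagonal {Y Z : Scheme.{u}} (h : Y ⟶ Z) (hh : FlatMor.IsUnivHomeo h) :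
    FlatMor.IsUnivHomeo (pullback.diagonal h) := by
  have hui : UniversallyInjective h :=
    ⟨MorphismProperty.universally_mono (fun _ _ g hg => hg.injective) _ hh⟩
  have hds : Surjective (pullback.diagonal h) := (UniversallyInjective.iff_diagonal h).mp hui
  intro X' Y' i₁ i₂ f' H
  have : IsImmersion f' := MorphismProperty.of_isPullback H.flip inferInstance
  have hs : Surjective f' := MorphismProperty.of_isPullback H.flip hds
  exact (isHomeomorph_iff_isEmbedding_surjective).mpr ⟨f'.isEmbedding, hs.surj⟩

instance univHomeo_ofPostcomp :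
    (FlatMor.IsUnivHomeo.{u}).HasOfPostcompProperty FlatMor.IsUnivHomeo.{u} :=
  (hasOfPostcompProperty_iff_le_diagonal).mpr fun _ _ h hh => isUnivHomeo_diagonal h hh


open AlgebraicGeometry CategoryTheory Limits in
/-- When a composite of two morphisms is a universal homeomorphism and so is either factor, the
remaining factor is a universal homeomorphism as well. -/
theorem result {X Y Z : Scheme.{u}} (g : X ⟶ Y) (h : Y ⟶ Z) :
    (FlatMor.IsUnivHomeo (g ≫ h) → FlatMor.IsUnivHomeo g → FlatMor.IsUnivHomeo h) ∧
    (FlatMor.IsUnivHomeo (g ≫ h) → FlatMor.IsUnivHomeo h → FlatMor.IsUnivHomeo g) := by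
  refine ⟨fun hgh hg => ?_, fun hgh hh => MorphismProperty.of_postcomp _ _ h hh hgh⟩
  intro Y' Z' i₁ i₂ h' H
  -- base change g along i₁
  let g' := pullback.snd g i₁
  have Hg : IsPullback (pullback.fst g i₁) g' g i₁ := IsPullback.of_hasPullback g i₁
  have hg' : IsHomeomorph g'.base := hg _ _ _ Hg.flip
  have Hgh : IsPullback (g' ≫ h') (pullback.fst g i₁) i₂ (g ≫ h) := by
    exact Hg.flip.paste_horiz H
  have hgh' : IsHomeomorph (g' ≫ h').base := hgh _ _ _ Hgh
  refine isHomeomorph_of_comp' g'.base h'.base hg' ?_
  simpa [Scheme.Hom.comp_base, TopCat.coe_comp] using hgh'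

end Groth.Agent.S0416
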