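import Groth.Statements.S0423
import Mathlib.RingTheory.Ideal.Pure

set_option autoImplicit false
universe u
open FlatMor

namespace Groth.Agent.S0423

open scoped TensorProduct


open AlgebraicGeometry CategoryTheory Limits in
/-- A weakly étale morphism of schemes (flat with flat diagonal) is formally unramified. -/
theorem result {X Y : Scheme.{u}} (f : X ⟶ Y) [WeaklyEtale f] : FormallyUnramified f := by
  wlog hY : ∃ R, Y = Spec R
  · rw [IsZariskiLocalAtTarget.iff_of_openCover (P := @FormallyUnramified) Y.affineCover]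
    intro i
    exact this (pullback.snd _ _) ⟨_, rfl⟩
  obtain ⟨R, rfl⟩ := hY
  wlog hX : ∃ S, X = Spec S generalizing X
  · rw [IsZariskiLocalAtSource.iff_of_openCover (P := @FormallyUnramified) X.affineCover]
    intro i
    exact this (_ ≫ _) ⟨_, rfl⟩
  obtain ⟨S, rfl⟩ := hX
  obtain ⟨φ, rfl : Spec.map φ = f⟩ := Spec.homEquiv.symm.surjective f
  rw [HasRingHomProperty.Spec_iff (P := @FormallyUnramified)]
  algebraize [φ.hom]
  let F := (Algebra.TensorProduct.lmul' R (S := S)).toRingHom
  have hF : Function.Surjective F := fun x ↦ ⟨.mk _ _ _ x 1, by simp [F]⟩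
  have hflat : Flat (Spec.map (CommRingCat.ofHom F)) := by
    rw [← MorphismProperty.cancel_right_of_respectsIso (P := @Flat) _
      (pullbackSpecIso R S S).inv, ← AlgebraicGeometry.diagonal_SpecMap R S]
    infer_instance
  rw [HasRingHomProperty.Spec_iff (P := @Flat)] at hflat
  let : Algebra (S ⊗[R] S) S := F.toAlgebra
  have hflat' : Module.Flat (S ⊗[R] S) S := hflat
  have hpure : (KaehlerDifferential.ideal R S).Pure := by
    let e : ((S ⊗[R] S) ⧸ RingHom.ker (Algebra.ofId (S ⊗[R] S) S)) ≃ₐ[S ⊗[R] S] S :=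
      Ideal.quotientKerAlgEquivOfSurjective (f := Algebra.ofId (S ⊗[R] S) S) hF
    exact Module.Flat.of_linearEquiv e.toLinearEquiv
  have hid : IsIdempotentElem (KaehlerDifferential.ideal R S) :=
    Ideal.isIdempotentElem_of_pure _
  refine ⟨?_⟩
  exact (Ideal.cotangent_subsingleton_iff _).mpr hid

end Groth.Agent.S0423
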