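import Groth.Statements.S0425
import Mathlib.AlgebraicGeometry.Morphisms.FlatMono
import Mathlib.AlgebraicGeometry.Morphisms.UniversallyInjective
import Mathlib.AlgebraicGeometry.Morphisms.Immersion

set_option autoImplicit false
universe u
open FlatMor

namespace Groth.Agent.S0425

open AlgebraicGeometry CategoryTheory Limits in
lemma qc_of_isHomeomorph {X Y : Scheme.{u}} (f : X ⟶ Y) (hh : IsHomeomorph f.base) :
    QuasiCompact f :=
  ⟨fun _ _ hc ↦ hh.homeomorph.isCompact_preimage.mpr hc⟩


open AlgebraicGeometry CategoryTheory Limits in
/-- A weakly étale universal homeomorphism is an isomorphism. -/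
theorem result {X Y : Scheme.{u}} (f : X ⟶ Y) [WeaklyEtale f] (h : FlatMor.IsUnivHomeo f) : IsIso f := by
  have hh : IsHomeomorph f.base :=
    MorphismProperty.universally_le (topologically fun f => IsHomeomorph f) _ h
  have : Surjective f := ⟨hh.surjective⟩
  have : QuasiCompact f := qc_of_isHomeomorph f hh
  have hui : UniversallyInjective f :=
    ⟨MorphismProperty.universally_mono (fun _ _ g hg => hg.injective) _ h⟩
  have hds : Surjective (pullback.diagonal f) := (UniversallyInjective.iff_diagonal f).mp hui
  have hdh : IsHomeomorph (pullback.diagonal f).base :=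
    (isHomeomorph_iff_isEmbedding_surjective).mpr
      ⟨(pullback.diagonal f).isEmbedding, hds.surj⟩
  have : QuasiCompact (pullback.diagonal f) := qc_of_isHomeomorph _ hdh
  have : IsIso (pullback.diagonal f) := Flat.isIso_of_surjective_of_mono _
  have : Mono f := (pullback.isIso_diagonal_iff f).mp inferInstance
  exact Flat.isIso_of_surjective_of_mono f

end Groth.Agent.S0425
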