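import Groth.Statements.S0426
import Groth.Agent.Lib.Helper1.WeaklyEtaleField

set_option autoImplicit false
universe u
open FlatMor

namespace Groth.Agent.S0426

open IntermediateField Groth.Agent.Lib.Helper1


/-- A field extension L/K such that L is weakly étale over K (equivalently the multiplication map of L
⊗_K L is flat) is algebraic and separable. -/
theorem result {K L : Type u} [Field K] [Field L] [Algebra K L] [Algebra.WeaklyEtale K L] : Algebra.IsSeparable K L := by
  refine ⟨fun α => ?_⟩
  by_contra hsep
  obtain ⟨w, hw, hμ⟩ := exists_u K L α
  by_cases hint : IsIntegral K α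
  · obtain ⟨D, hD⟩ := exists_derivation α hint hsep
    obtain ⟨g, hg⟩ := exists_commutator K⟮α⟯ (AdjoinSimple.gen K α) D hD
    have := lmul'_eq_zero_of_commutator K L α g (by simpa using hg) w hw
    rw [hμ] at this
    exact one_ne_zero this
  · have ht : Transcendental K α := fun h => hint h.isIntegral
    have := eq_zero_of_transcendental α ht w hw
    rw [this, map_zero] at hμ
    exact zero_ne_one hμ

end Groth.Agent.S0426
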