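import Groth.Statements.S0445
import Groth.Agent.Lib.Helper1.Equalizer

set_option autoImplicit false
universe u
open FlatMor

namespace Groth.Agent.S0445


open AlgebraicGeometry CategoryTheory Limits in
/-- Two morphisms over S into an S-scheme unramified over S which agree at a point and induce the same
map on residue fields there agree on an open neighbourhood of that point. -/
theorem result {X Y S : Scheme.{u}} (p : Y ⟶ S) [FormallyUnramified p] [LocallyOfFiniteType p] (f g : X ⟶ Y) (hfg : f ≫ p = g ≫ p)
    (x : X) (h1 : f x = g x) (h2 : f.residueFieldMap x = (Y.residueFieldCongr h1).hom ≫ g.residueFieldMap x) :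
    ∃ U : X.Opens, x ∈ U ∧ U.ι ≫ f = U.ι ≫ g := by
  have hx : X.fromSpecResidueField x ≫ f = X.fromSpecResidueField x ≫ g := by
    rw [← Scheme.Hom.SpecMap_residueFieldMap_fromSpecResidueField,
      ← Scheme.Hom.SpecMap_residueFieldMap_fromSpecResidueField, h2, Spec.map_comp, Category.assoc,
      Scheme.residueFieldCongr_fromSpecResidueField]
  exact Groth.Agent.Lib.Helper1.exists_opens_eq_of_isOpenImmersion_diagonal p f g hfg x hx

end Groth.Agent.S0445
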