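import Groth.Statements.S0452
import Groth.Agent.Lib.Helper1.Flasque

set_option autoImplicit false
universe u
open CategoryTheory
open CohTop

namespace Groth.Agent.S0452


open TopologicalSpace in
/-- If every restriction map of the abelian sheaf F is surjective (F is flasque), then H^(n+1)(U, F) = 0
for every open U of X. -/
theorem result {X : TopCat.{u}} (F : CohTop.Ab X) [TopCat.Sheaf.IsFlasque F]
    (U : Opens X) (n : ℕ) : Subsingleton (CohTop.HU F (n + 1) U) := by
  exact ⟨fun a b => by
    rw [Groth.Agent.Lib.Helper1.flasque_HU_eq_zero n F inferInstance U a,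
      Groth.Agent.Lib.Helper1.flasque_HU_eq_zero n F inferInstance U b]⟩

end Groth.Agent.S0452
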