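import Groth.Statements.S0453
import Groth.Agent.Lib.Helper1.Flasque

set_option autoImplicit false
universe u
open CategoryTheory
open CohTop

namespace Groth.Agent.S0453


/-- A flasque abelian sheaf F on X has H^(n+1)(X, F) = 0. -/
theorem result {X : TopCat.{u}} (F : CohTop.Ab X) [TopCat.Sheaf.IsFlasque F]
    (n : ℕ) : Subsingleton (CohTop.H F (n + 1)) := by
  exact ⟨fun a b => by
    rw [Groth.Agent.Lib.Helper1.flasque_H_eq_zero n F inferInstance a,
      Groth.Agent.Lib.Helper1.flasque_H_eq_zero n F inferInstance b]⟩

end Groth.Agent.S0453
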