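import Groth.Statements.S0454
import Groth.Agent.Lib.Helper1.Flasque

set_option autoImplicit false
universe u
open CategoryTheory
open CohTop

namespace Groth.Agent.S0454


/-- An injective object of the category of abelian sheaves on a topological space is flasque, i.e. all
of its restriction maps are surjective. -/
theorem result {X : TopCat.{u}} (F : CohTop.Ab X) [CategoryTheory.Injective F] :
    TopCat.Sheaf.IsFlasque F := by
  exact Groth.Agent.Lib.Helper1.isFlasque_of_injective F

end Groth.Agent.S0454
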