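import Groth.Statements.S0457
import Groth.Agent.Lib.Helper1.ConstIrr

set_option autoImplicit false
universe u
open CategoryTheory
open CohTop

namespace Groth.Agent.S0457


/-- If X is an irreducible topological space and A an abelian group, then H^(p+1)(X, A) = 0 for the
constant sheaf with value A. -/
theorem result {X : TopCat.{u}} [IrreducibleSpace X]
    (A : Type u) [AddCommGroup A] (p : ℕ) : Subsingleton (CohTop.H (CohTop.const X A) (p + 1)) := by
  constructor
  intro x y
  rw [Groth.Agent.Lib.Helper1.flasque_H_eq_zero p (CohTop.const X A)
      (Groth.Agent.Lib.Helper1.isFlasque_constSh A) x,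
    Groth.Agent.Lib.Helper1.flasque_H_eq_zero p (CohTop.const X A)
      (Groth.Agent.Lib.Helper1.isFlasque_constSh A) y]

end Groth.Agent.S0457
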