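import Groth.Statements.S0460
import Groth.Agent.Lib.Helper1.KillClass

set_option autoImplicit false
universe u
open CategoryTheory
open CohTop

namespace Groth.Agent.S0460


open TopologicalSpace in
/-- Given an abelian sheaf F, an open U and a class ξ in H^(n+1)(U, F), there is an open covering of U
on each member of which ξ restricts to zero. -/
theorem result {X : TopCat.{u}} (F : CohTop.Ab X) (U : Opens X) (n : ℕ)
    (ξ : CohTop.HU F (n + 1) U) :
    ∃ (ι : Type u) (V : ι → Opens X) (hV : ∀ i, V i ≤ U), iSup V = U ∧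
      ∀ i, CohTop.res F (n + 1) (hV i) ξ = 0 := by
  obtain ⟨S, hS⟩ := Groth.Agent.Lib.Helper1.kill_class (Opens.grothendieckTopology X) n F U ξ
  refine ⟨S.Arrow, fun a => a.Y, fun a => a.f.le, ?_, fun a => ?_⟩
  · apply le_antisymm (iSup_le fun a => a.f.le)
    intro x hx
    obtain ⟨V, f, hf, hxV⟩ := S.condition x hx
    exact Opens.mem_iSup.2 ⟨⟨V, f, hf⟩, hxV⟩
  · have : homOfLE a.f.le = a.f := Subsingleton.elim _ _
    change ((Sheaf.cohomologyPresheaf.{u} F (n + 1)).map (homOfLE a.f.le).op).hom ξ = 0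
    rw [this]
    exact hS a

end Groth.Agent.S0460
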