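import Groth.Statements.S0480
import Mathlib.Algebra.Homology.HomotopyCofiber

set_option autoImplicit false
universe v u
open CategoryTheory
open CohDer

namespace Groth.Agent.S0480


open CategoryTheory.Limits in
/-- In an abelian category, if the product of a family of K-injective cochain complexes exists (it is
then the termwise product), it is again K-injective. -/
theorem result {A : Type u} [Category.{v} A] [Abelian A] {T : Type v} (I : T → CochainComplex A ℤ)
    [HasProduct I] (h : ∀ t, (I t).IsKInjective) : (∏ᶜ I).IsKInjective := by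
  constructor
  intro K f hK
  have H : ∀ t, Homotopy (f ≫ Pi.π I t) 0 := fun t =>
    ((h t).nonempty_homotopy_zero (f ≫ Pi.π I t) hK).some
  have hc : ∀ j : ℤ, ∃ i, (ComplexShape.up ℤ).Rel i j := fun j => ⟨j - 1, by simp⟩
  let φ : K.cylinder ⟶ ∏ᶜ I :=
    Pi.lift fun t => HomologicalComplex.cylinder.desc (f ≫ Pi.π I t) 0 (H t)
  have h0 : HomologicalComplex.cylinder.ι₀ K ≫ φ = f :=
    Pi.hom_ext _ _ fun t => by simp [φ]
  have h1 : HomologicalComplex.cylinder.ι₁ K ≫ φ = 0 :=
    Pi.hom_ext _ _ fun t => by simp [φ]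
  exact ⟨(Homotopy.ofEq h0.symm).trans
    (((HomologicalComplex.cylinder.homotopy₀₁ K hc).compRight φ).trans (Homotopy.ofEq h1))⟩

end Groth.Agent.S0480
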