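import Groth.Statements.S0481
import Mathlib.Algebra.Homology.Homotopy
import Mathlib.Algebra.Homology.ShortComplex.PreservesHomology

set_option autoImplicit false
universe v u
open CategoryTheory
open CohDer

namespace Groth.Agent.S0481


open CategoryTheory.Limits in
/-- Let u : A ⥤ B be right adjoint to an exact additive functor w : B ⥤ A between abelian categories.
Then u applied termwise sends K-injective complexes to K-injective complexes. -/
theorem result {A : Type u} [Category.{v} A] [Abelian A]
    {B : Type u} [Category.{v} B] [Abelian B] (u : A ⥤ B) (w : B ⥤ A) (adj : w ⊣ u)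
    [u.Additive] [w.Additive] [PreservesFiniteLimits w] [PreservesFiniteColimits w]
    (I : CochainComplex A ℤ) (h : I.IsKInjective) :
    CochainComplex.IsKInjective ((u.mapHomologicalComplex (ComplexShape.up ℤ)).obj I) := by
  constructor
  intro K f hK
  have key : ∀ i j, (adj.homEquiv (K.X i) (I.X i)).symm (f.f i) ≫ I.d i j =
      w.map (K.d i j) ≫ (adj.homEquiv (K.X j) (I.X j)).symm (f.f j) := by
    intro i j
    rw [← Adjunction.homEquiv_naturality_right_symm, ← Adjunction.homEquiv_naturality_left_symm]
    congr 1
    exact f.comm i j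
  let fb : (w.mapHomologicalComplex (ComplexShape.up ℤ)).obj K ⟶ I :=
    { f := fun n => (adj.homEquiv _ _).symm (f.f n)
      comm' := fun i j _ => key i j }
  have hFK : ((w.mapHomologicalComplex (ComplexShape.up ℤ)).obj K).Acyclic := by
    intro i
    rw [HomologicalComplex.exactAt_iff' _ (i - 1) i (i + 1) (by simp) (by simp)]
    have := hK i
    rw [HomologicalComplex.exactAt_iff' _ (i - 1) i (i + 1) (by simp) (by simp)] at this
    exact this.map w
  obtain ⟨hh⟩ := h.nonempty_homotopy_zero fb hFK
  let η : K ⟶ (u.mapHomologicalComplex (ComplexShape.up ℤ)).obj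
      ((w.mapHomologicalComplex (ComplexShape.up ℤ)).obj K) :=
    { f := fun n => adj.unit.app (K.X n)
      comm' := fun i j _ => (adj.unit.naturality (K.d i j)).symm }
  have hf : f = η ≫ (u.mapHomologicalComplex (ComplexShape.up ℤ)).map fb := by
    have aux : ∀ {X : B} {Y : A} (g : X ⟶ u.obj Y),
        g = adj.unit.app X ≫ u.map ((adj.homEquiv X Y).symm g) := fun g =>
      (Equiv.apply_symm_apply (adj.homEquiv _ _) g).symm.trans (adj.homEquiv_unit _ _ _)
    ext n
    exact aux (f.f n)
  refine ⟨(Homotopy.ofEq hf).trans (((u.mapHomotopy hh).compLeft η).trans (Homotopy.ofEq ?_))⟩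
  simp

end Groth.Agent.S0481
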