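import Groth.Statements.S0483
import Groth.Agent.Lib.Helper1.KillClass

set_option autoImplicit false
universe u
open CategoryTheory
open CohSite

namespace Groth.Agent.S0483


/-- For an abelian sheaf F on a small site, an object U and a class ξ in H^(n+1)(U, F), there is a
covering sieve of U such that ξ pulls back to zero along every arrow of the sieve. -/
theorem result {C : Type u} [SmallCategory C] (J : GrothendieckTopology C)
    (F : Sheaf J AddCommGrpCat.{u}) (U : C) (n : ℕ) (ξ : CohSite.HU F (n + 1) U) :
    ∃ (S : J.Cover U), ∀ (a : S.Arrow), CohSite.res F (n + 1) a.f ξ = 0 := by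
  obtain ⟨S, hS⟩ := Groth.Agent.Lib.Helper1.kill_class J n F U ξ
  exact ⟨S, fun a => hS a⟩

end Groth.Agent.S0483
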