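import Groth.Statements.S0495
import Groth.Agent.Lib.Helper1.Hensel

set_option autoImplicit false
universe u
open Hensel

namespace Groth.Agent.S0495


/-- A local ring whose Krull dimension is zero is henselian. -/
theorem result (R : Type u) [CommRing R] [IsLocalRing R]
    (h : ringKrullDim R = 0) : HenselianLocalRing R := by
  have : Ring.KrullDimLE 0 R := Ring.krullDimLE_iff.2 (by rw [h]; rfl)
  have hm : ∀ x ∈ IsLocalRing.maximalIdeal R, IsNilpotent x := fun x hx =>
    Ring.KrullDimLE.isNilpotent_iff_mem_maximalIdeal.2 hx
  have hH := Groth.Agent.Lib.Helper1.henselianRing_of_isNilpotent _ hm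
  exact { toIsLocalRing := inferInstance,
          is_henselian := fun f hf a₀ h₁ h₂ => hH.is_henselian f hf a₀ h₁ (h₂.map _) }

end Groth.Agent.S0495
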