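import Groth.Statements.S0498
import Mathlib.Tactic.LinearCombination
import Mathlib.Tactic.Ring

set_option autoImplicit false
universe u
open Hensel

namespace Groth.Agent.S0498

/-- In a local ring, a unit plus an element of the maximal ideal is a unit. -/
lemma isUnit_add_mem {R : Type*} [CommRing R] [IsLocalRing R] {u x : R} (hu : IsUnit u)
    (hx : x ∈ IsLocalRing.maximalIdeal R) : IsUnit (u + x) := by
  by_contra h
  have h1 : u + x ∈ IsLocalRing.maximalIdeal R := (IsLocalRing.mem_maximalIdeal _).2 h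
  have : u ∈ IsLocalRing.maximalIdeal R := by
    have := Ideal.sub_mem _ h1 hx
    simpa using this
  exact (IsLocalRing.mem_maximalIdeal _).1 this hu

lemma pow_add_mul_pow {R : Type*} [CommRing R] (t s : R) (h : t * s = 1) (a b : ℕ) :
    t ^ (a + b) * s ^ b = t ^ a := by
  rw [pow_add, mul_assoc, ← mul_pow, h, one_pow, mul_one]

open Polynomial in
lemma key_identity {R : Type*} [CommRing R] (F : R[X]) (t s : R) (h : t * s = 1) :
    t ^ (F.natDegree + 1) * F.eval (F.coeff 0 * s) =
      F.coeff 0 * ((t ^ F.natDegree * (t + F.coeff 1)) + F.coeff 0 *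
        ∑ j ∈ Finset.range F.natDegree,
          F.coeff 0 ^ j * F.coeff (j + 2) * t ^ (F.natDegree - 1 - j)) := by
  set m := F.natDegree
  rw [eval_eq_sum_range' (n := m + 2) (by omega), Finset.sum_range_succ', Finset.sum_range_succ',
    mul_add, mul_add, Finset.mul_sum]
  have hsum : ∀ j ∈ Finset.range m, t ^ (m + 1) * (F.coeff (j + 1 + 1) * (F.coeff 0 * s) ^ (j + 1 + 1))
      = F.coeff 0 * (F.coeff 0 * (F.coeff 0 ^ j * F.coeff (j + 2) * t ^ (m - 1 - j))) := by
    intro j hj
    have hj' : j < m := Finset.mem_range.1 hj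
    have e : m + 1 = (m - 1 - j) + (j + 1 + 1) := by omega
    rw [e, mul_pow, ← pow_add_mul_pow t s h (m - 1 - j) (j + 1 + 1)]
    ring
  rw [Finset.sum_congr rfl hsum]
  have h1 : t ^ (m + 1) * s = t ^ m := by
    have := pow_add_mul_pow t s h m 1
    simpa using this
  rw [← Finset.mul_sum, ← Finset.mul_sum]
  linear_combination (F.coeff 1 * F.coeff 0) * h1

/-- Over a henselian local ring, a simple root in the residue field of the reduction of an arbitrary
polynomial (monic or not) lifts to a root in the ring. -/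
theorem result (R : Type u) [CommRing R] [HenselianLocalRing R]
    (f : Polynomial R) (a₀ : IsLocalRing.ResidueField R)
    (h₁ : Polynomial.eval₂ (IsLocalRing.residue R) a₀ f = 0)
    (h₂ : Polynomial.eval₂ (IsLocalRing.residue R) a₀ (Polynomial.derivative f) ≠ 0) :
    ∃ a : R, Polynomial.IsRoot f a ∧ IsLocalRing.residue R a = a₀ := by
  classical
  obtain ⟨b, rfl⟩ := IsLocalRing.residue_surjective a₀
  rw [Polynomial.eval₂_at_apply, IsLocalRing.residue_eq_zero_iff] at h₁
  rw [Polynomial.eval₂_at_apply, IsLocalRing.residue_ne_zero_iff_isUnit] at h₂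
  obtain ⟨F, hF⟩ : ∃ F, F = Polynomial.taylor b f := ⟨_, rfl⟩
  have e0 : F.coeff 0 = f.eval b := by rw [hF]; exact Polynomial.taylor_coeff_zero b f
  have e1 : F.coeff 1 = f.derivative.eval b := by rw [hF]; exact Polynomial.taylor_coeff_one b f
  obtain ⟨m, hm⟩ : ∃ m, m = F.natDegree := ⟨_, rfl⟩
  obtain ⟨M, hM⟩ : ∃ M : Polynomial R, M = ∑ j ∈ Finset.range m,
      Polynomial.C (F.coeff 0 ^ j * F.coeff (j + 2)) * Polynomial.X ^ (m - 1 - j) := ⟨_, rfl⟩
  obtain ⟨K, hK⟩ : ∃ K : Polynomial R, K = Polynomial.X ^ m *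
      (Polynomial.X + Polynomial.C (F.coeff 1)) + Polynomial.C (F.coeff 0) * M := ⟨_, rfl⟩
  have hMdeg : M.degree < m := by
    rw [hM]
    rcases Nat.eq_zero_or_pos m with h0 | hpos
    · subst h0; simp
    · refine lt_of_le_of_lt (Polynomial.degree_sum_le _ _) ?_
      refine (Finset.sup_lt_iff (WithBot.bot_lt_coe _)).2 fun j hj => ?_
      refine lt_of_le_of_lt (Polynomial.degree_C_mul_X_pow_le _ _) ?_
      exact_mod_cast (by omega : m - 1 - j < m)
  have hmon1 : (Polynomial.X ^ m * (Polynomial.X + Polynomial.C (F.coeff 1)) :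
      Polynomial R).Monic := (Polynomial.monic_X_pow m).mul (Polynomial.monic_X_add_C _)
  have hdeg1 : (Polynomial.X ^ m * (Polynomial.X + Polynomial.C (F.coeff 1)) :
      Polynomial R).degree = (m + 1 : ℕ) := by
    rw [Polynomial.degree_eq_natDegree hmon1.ne_zero, (Polynomial.monic_X_pow m).natDegree_mul
      (Polynomial.monic_X_add_C _), Polynomial.natDegree_X_pow, Polynomial.natDegree_X_add_C]
  have hKmon : K.Monic := by
    rw [hK]
    refine hmon1.add_of_left ?_
    rw [hdeg1]
    refine lt_of_le_of_lt (Polynomial.degree_mul_le _ _) ?_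
    refine lt_of_le_of_lt (add_le_add Polynomial.degree_C_le hMdeg.le) ?_
    rw [zero_add]
    exact_mod_cast Nat.lt_succ_self m
  have he0m : F.coeff 0 ∈ IsLocalRing.maximalIdeal R := by rw [e0]; exact h₁
  have he1u : IsUnit (F.coeff 1) := by rw [e1]; exact h₂
  have hK1 : K.eval (-F.coeff 1) ∈ IsLocalRing.maximalIdeal R := by
    rw [hK]
    simp only [Polynomial.eval_add, Polynomial.eval_mul, Polynomial.eval_pow,
      Polynomial.eval_X, Polynomial.eval_C, neg_add_cancel, mul_zero, zero_add]
    exact Ideal.mul_mem_right _ _ he0m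
  have hK2 : IsUnit (K.derivative.eval (-F.coeff 1)) := by
    have : K.derivative.eval (-F.coeff 1) = (-F.coeff 1) ^ m +
        F.coeff 0 * M.derivative.eval (-F.coeff 1) := by
      rw [hK]
      simp only [Polynomial.derivative_add, Polynomial.derivative_mul,
        Polynomial.derivative_X_pow, Polynomial.derivative_X, Polynomial.derivative_C,
        Polynomial.eval_add, Polynomial.eval_mul, Polynomial.eval_pow, Polynomial.eval_X,
        Polynomial.eval_C, neg_add_cancel,
        mul_zero, zero_add, add_zero, mul_one, zero_mul]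
    rw [this]
    exact isUnit_add_mem (he1u.neg.pow m) (Ideal.mul_mem_right _ _ he0m)
  obtain ⟨t, ht, htm⟩ := HenselianLocalRing.is_henselian K hKmon (-F.coeff 1) hK1 hK2
  have htu : IsUnit t := by
    have := isUnit_add_mem he1u.neg htm
    simpa using this
  obtain ⟨tu, rfl⟩ := htu
  refine ⟨F.coeff 0 * ↑tu⁻¹ + b, ?_, ?_⟩
  · have key := key_identity F (tu : R) (↑tu⁻¹ : R) (Units.mul_inv tu)
    rw [← hm] at key
    have hKt : K.eval (tu : R) = 0 := ht
    have hKe : K.eval (tu : R) = (tu : R) ^ m * ((tu : R) + F.coeff 1) + F.coeff 0 *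
        ∑ j ∈ Finset.range m, F.coeff 0 ^ j * F.coeff (j + 2) * (tu : R) ^ (m - 1 - j) := by
      rw [hK, hM]
      simp only [Polynomial.eval_add, Polynomial.eval_mul, Polynomial.eval_pow,
        Polynomial.eval_X, Polynomial.eval_C, Polynomial.eval_finsetSum]
    rw [← hKe, hKt, mul_zero] at key
    have hF0 : F.eval (F.coeff 0 * ↑tu⁻¹) = 0 :=
      ((tu ^ (m + 1)).isUnit.mul_right_eq_zero).1 (by rwa [Units.val_pow_eq_pow_val])
    have htay := Polynomial.taylor_eval b f (F.coeff 0 * ↑tu⁻¹)
    rw [← hF] at htay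
    rw [htay] at hF0
    exact hF0
  · rw [map_add]
    have : IsLocalRing.residue R (F.coeff 0 * ↑tu⁻¹) = 0 := by
      rw [IsLocalRing.residue_eq_zero_iff]
      exact Ideal.mul_mem_right _ _ he0m
    rw [this, zero_add]

end Groth.Agent.S0498
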