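import Groth.Statements.S0525
import Groth.Agent.Lib.Helper1.Hensel

set_option autoImplicit false
universe u
open Hensel

namespace Groth.Agent.S0525


/-- If two ideals of a ring have the same radical (the same closed set), the ring is Henselian at one
exactly when it is Henselian at the other. -/
theorem result (A : Type u) [CommRing A] (I J : Ideal A)
    (h : I.radical = J.radical) : HenselianRing A I ↔ HenselianRing A J := by
  rw [Groth.Agent.Lib.Helper1.henselianRing_iff_radical I, h,
    ← Groth.Agent.Lib.Helper1.henselianRing_iff_radical J]

end Groth.Agent.S0525
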