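import Groth.Statements.S0528
import Groth.Agent.Lib.Helper1.Hensel

set_option autoImplicit false
universe u
open Hensel

namespace Groth.Agent.S0528


/-- For ideals `I ≤ J` of `A`, the ring `A` is Henselian at `J` exactly when `A` is Henselian at `I` and
`A/I` is Henselian at the image of `J`. -/
theorem result (A : Type u) [CommRing A] (I J : Ideal A) (hIJ : I ≤ J) :
    HenselianRing A J ↔
      (HenselianRing A I ∧ HenselianRing (A ⧸ I) (Ideal.map (Ideal.Quotient.mk I) J)) := by
  exact Groth.Agent.Lib.Helper1.henselianRing_iff_of_le I J hIJ

end Groth.Agent.S0528
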