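import Groth.Statements.S0529
import Groth.Agent.Lib.Helper1.HenselPi

set_option autoImplicit false
universe u
open Hensel

namespace Groth.Agent.S0529


/-- A product of rings, with the product ideal, is Henselian exactly when every factor is Henselian at
its ideal. -/
theorem result (J : Type u) (A : J → Type u) [∀ j, CommRing (A j)]
    (I : ∀ j, Ideal (A j)) :
    HenselianRing (∀ j, A j) (⨅ j, Ideal.comap (Pi.evalRingHom A j) (I j)) ↔
      ∀ j, HenselianRing (A j) (I j) := by
  exact Groth.Agent.Lib.Helper1.henselianRing_pi_iff I

end Groth.Agent.S0529
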