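import Groth.Statements.S0552
-- import your own Groth.Agent.* helpers here
import Groth.Agent.Lib.Lead.Catenary
import Mathlib.RingTheory.Localization.AtPrime.Basic

set_option autoImplicit false
universe u
open CAlg

namespace Groth.Agent.S0552

/-- A ring is catenary exactly when its localization at every maximal ideal is catenary. -/
theorem result (R : Type u) [CommRing R] :
    CAlg.IsCatenary R ↔ ∀ (m : Ideal R) [m.IsMaximal], CAlg.IsCatenary (Localization.AtPrime m) := by
  open Groth.Agent.Lib.Lead.Catenary in
  constructor
  · intro h m hm
    have e := IsLocalization.AtPrime.primeSpectrumOrderIso (Localization.AtPrime m) m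
    exact cat_of_orderIso e.symm (cat_Iic _ h)
  · intro h
    apply cat_of_Iic {p : PrimeSpectrum R | p.asIdeal.IsMaximal}
    · intro q
      obtain ⟨m, hm, hqm⟩ := Ideal.exists_le_maximal q.asIdeal q.isPrime.ne_top
      exact ⟨⟨m, hm.isPrime⟩, hm, hqm⟩
    · intro m hm
      have : m.asIdeal.IsMaximal := hm
      have e := IsLocalization.AtPrime.primeSpectrumOrderIso (Localization.AtPrime m.asIdeal)
        m.asIdeal
      exact cat_of_orderIso e (h m.asIdeal)

end Groth.Agent.S0552
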