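import Groth.Statements.S0558
-- import your own Groth.Agent.* helpers here
import Groth.Agent.Lib.Lead.RegLocal

set_option autoImplicit false
universe u
open CAlg

namespace Groth.Agent.S0558

/-- Every regular local ring is an integral domain. -/
theorem result (R : Type u) [CommRing R] [IsRegularLocalRing R] :
    IsDomain R := by
  exact Groth.Agent.Lib.Lead.RegLocal.isDomain R

end Groth.Agent.S0558
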