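import Groth.Statements.S0559
-- import your own Groth.Agent.* helpers here
import Groth.Agent.Lib.Lead.RegSeq

set_option autoImplicit false
universe u
open CAlg

namespace Groth.Agent.S0559

/-- In a regular local ring of dimension `d`, any `d` elements generating the maximal ideal form a
regular sequence. -/
theorem result (R : Type u) [CommRing R]
    [IsRegularLocalRing R] (d : ℕ) (hd : ringKrullDim R = d) (x : Fin d → R)
    (hx : Ideal.span (Set.range x) = IsLocalRing.maximalIdeal R) :
    RingTheory.Sequence.IsRegular R (List.ofFn x) := by
  exact Groth.Agent.Lib.Lead.RegSeq.isRegular_ofFn R d hd x hx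

end Groth.Agent.S0559
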