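import Groth.Statements.S0560
-- import your own Groth.Agent.* helpers here
import Mathlib.RingTheory.KrullDimension.Regular
import Mathlib.RingTheory.RegularLocalRing.Defs

set_option autoImplicit false
universe u
open CAlg

namespace Groth.Agent.S0560

/-- Regularity of a Noetherian local ring can be checked after dividing out one nonzerodivisor lying in
the maximal ideal: if that quotient is a regular local ring, so is the original ring. -/
theorem result (R : Type u) [CommRing R] [IsLocalRing R]
    [IsNoetherianRing R] (x : R) (hx : x ∈ IsLocalRing.maximalIdeal R) (hreg : x ∈ nonZeroDivisors R)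
    [IsRegularLocalRing (R ⧸ Ideal.span ({x} : Set R))] : IsRegularLocalRing R := by
  classical
  set I : Ideal R := Ideal.span ({x} : Set R) with hIdef
  have hdim := ringKrullDim_quotient_span_singleton_succ_eq_ringKrullDim_of_mem_nonZeroDivisors
    hreg hx
  have hreg' := IsRegularLocalRing.spanFinrank_maximalIdeal (R := R ⧸ I)
  have hfg : (IsLocalRing.maximalIdeal (R ⧸ I)).FG := IsNoetherian.noetherian _
  obtain ⟨s, hscard, hsspan⟩ := Submodule.FG.exists_span_finset_card_eq_spanFinrank hfg
  set f : R →+* R ⧸ I := Ideal.Quotient.mk I
  have hf : Function.Surjective f := Ideal.Quotient.mk_surjective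
  set g : R ⧸ I → R := Function.surjInv hf
  have hfg' : ∀ y, f (g y) = y := Function.surjInv_eq hf
  set t : Finset R := insert x (s.image g)
  have hlocal : IsLocalHom f := IsLocalHom.of_surjective f hf
  have hm : IsLocalRing.maximalIdeal R = Ideal.span (t : Set R) := by
    rw [← IsLocalRing.maximalIdeal_comap f]
    have hmap : Ideal.map f (Ideal.span ((s.image g : Finset R) : Set R)) =
        IsLocalRing.maximalIdeal (R ⧸ I) := by
      rw [Ideal.map_span, ← hsspan]
      congr 1
      ext y
      simp only [Finset.coe_image, Set.mem_image, Finset.mem_coe]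
      constructor
      · rintro ⟨z, ⟨w, hw, rfl⟩, rfl⟩
        rw [hfg']; exact hw
      · intro hy
        exact ⟨g y, ⟨y, hy, rfl⟩, hfg' y⟩
    rw [← hmap, Ideal.comap_map_of_surjective f hf]
    have hker : Ideal.comap f ⊥ = I := by
      rw [← RingHom.ker_eq_comap_bot]; exact Ideal.mk_ker
    rw [hker]
    change Ideal.span _ ⊔ Ideal.span ({x} : Set R) = _
    rw [← Ideal.span_union]
    congr 1
    simp [t, Set.union_comm]
  apply IsRegularLocalRing.of_spanFinrank_maximalIdeal_le
  rw [hm, ← hdim, ← hreg', ← hscard]
  have h1 : (Ideal.span (t : Set R)).spanFinrank ≤ t.card := by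
    have := Submodule.spanFinrank_span_le_ncard_of_finite (R := R) (Finset.finite_toSet t)
    simpa [Set.ncard_coe_finset] using this
  have h2 : t.card ≤ s.card + 1 := by
    calc t.card ≤ (s.image g).card + 1 := Finset.card_insert_le _ _
      _ ≤ s.card + 1 := by gcongr; exact Finset.card_image_le
  have h3 : (Ideal.span (t : Set R)).spanFinrank ≤ s.card + 1 := h1.trans h2
  exact_mod_cast h3

end Groth.Agent.S0560
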