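import Groth.Statements.S0574
-- import your own Groth.Agent.* helpers here
import Mathlib.RingTheory.DedekindDomain.IntegralClosure
import Mathlib.FieldTheory.Perfect

set_option autoImplicit false
universe u
open CAlg

namespace Groth.Agent.S0574

/-- For Noetherian domains of characteristic zero the conditions N-1 and N-2 coincide. -/
theorem result (R : Type u) [CommRing R] [IsDomain R] [IsNoetherianRing R]
    [CharZero R] : CAlg.IsN1 R ↔ CAlg.IsN2 R := by
  constructor
  · intro h1 L _ _ _ _ hfd
    let K := FractionRing R
    let A := integralClosure R K
    have hAfin : Module.Finite R A := h1
    have : IsFractionRing A K := integralClosure.isFractionRing_of_finite_extension K K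
    have : IsIntegrallyClosed A := integralClosure.isIntegrallyClosedOfFiniteExtension K (L := K)
    have : IsNoetherian R A := isNoetherian_of_isNoetherianRing_of_finite R A
    have : IsNoetherianRing A := isNoetherian_of_tower R this
    have : IsScalarTower A K L := inferInstance
    have : IsScalarTower R A L := IsScalarTower.of_algebraMap_eq (fun x => by
      change algebraMap R L x = algebraMap K L (algebraMap A K (algebraMap R A x))
      rw [IsScalarTower.algebraMap_apply R K L]
      rfl)
    have : CharZero K := charZero_of_injective_algebraMap (IsFractionRing.injective R K)
    have : Algebra.IsSeparable K L := inferInstance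
    have hfinA : Module.Finite A (integralClosure A L) :=
      IsIntegralClosure.finite A K L (integralClosure A L)
    have hfinR : Module.Finite R (integralClosure A L) := Module.Finite.trans A _
    have heq : (integralClosure A L).restrictScalars R = integralClosure R L := by
      ext x
      simp only [Subalgebra.mem_restrictScalars, mem_integralClosure_iff]
      constructor
      · intro hx
        exact isIntegral_trans x hx
      · intro hx
        exact hx.tower_top
    let e : (integralClosure A L) ≃ₗ[R] (integralClosure R L) :=
      (Subalgebra.equivOfEq _ _ heq).toLinearEquiv
    exact Module.Finite.equiv e
  · intro h2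
    exact h2 (FractionRing R) inferInstance

end Groth.Agent.S0574
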