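import Groth.Statements.S0587
import Groth.Agent.Lib.Helper1.TensorPi

set_option autoImplicit false
universe u
open CAlg

namespace Groth.Agent.S0587


/-- A module `M` is finitely generated exactly when for every family of modules `(Qᵢ)` the natural map
from `M ⊗ ∏ Qᵢ` to `∏ (M ⊗ Qᵢ)` is surjective. -/
theorem result (R : Type u) [CommRing R] (M : Type u)
    [AddCommGroup M] [Module R M] :
    Module.Finite R M ↔ ∀ (ι : Type u) (Q : ι → Type u) [∀ i, AddCommGroup (Q i)]
      [∀ i, Module R (Q i)], Function.Surjective (TensorProduct.piRightHom R R M Q) := by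
  exact ⟨fun _ ι Q _ _ => Groth.Agent.Lib.Helper1.piRightHom_surjective_of_finite Q,
    fun h => Groth.Agent.Lib.Helper1.finite_of_piRightHom_surjective (h M (fun _ => R))⟩

end Groth.Agent.S0587
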