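import Groth.Statements.S0588
import Groth.Agent.Lib.Helper1.TensorPi

set_option autoImplicit false
universe u
open CAlg

namespace Groth.Agent.S0588


/-- A module `M` is finitely presented exactly when for every family of modules `(Qᵢ)` the natural map
from `M ⊗ ∏ Qᵢ` to `∏ (M ⊗ Qᵢ)` is bijective. -/
theorem result (R : Type u) [CommRing R] (M : Type u)
    [AddCommGroup M] [Module R M] :
    Module.FinitePresentation R M ↔ ∀ (ι : Type u) (Q : ι → Type u) [∀ i, AddCommGroup (Q i)]
      [∀ i, Module R (Q i)], Function.Bijective (TensorProduct.piRightHom R R M Q) := by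
  constructor
  · intro _ ι Q _ _
    exact ⟨Groth.Agent.Lib.Helper1.piRightHom_injective_of_finitePresentation Q,
      Groth.Agent.Lib.Helper1.piRightHom_surjective_of_finite Q⟩
  · intro h
    exact Groth.Agent.Lib.Helper1.finitePresentation_of_piRightHom (h M (fun _ => R)).2
      (fun n f => (h (LinearMap.ker f) (fun _ => R)).1)

end Groth.Agent.S0588
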