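import Groth.Statements.S0643

set_option autoImplicit false
universe u
open EtCore

namespace Groth.Agent.S0643

lemma key {B : Type*} [CommRing B] (a b c r s u : B) (m : ℕ) (e1 : r * a + s * b = 1)
    (e2 : a ^ (m + 1) - 1 = c * b) (hu : u ^ (m + 1) = c * b * (r * u + s * b) ^ m) :
    IsUnit (a - u) := by
  apply isUnit_of_dvd_one
  have d1 : a - u ∣ a ^ (m + 1) - u ^ (m + 1) := sub_dvd_pow_sub_pow _ _ _
  have d2 : a - u ∣ (r * a + s * b) ^ m - (r * u + s * b) ^ m := by
    refine dvd_trans ?_ (sub_dvd_pow_sub_pow _ _ _)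
    exact ⟨r, by ring⟩
  rw [e1, one_pow] at d2
  have : (1 : B) = (a ^ (m + 1) - u ^ (m + 1)) - c * b * (1 - (r * u + s * b) ^ m) := by
    linear_combination (-1 : B) * e2 + hu
  rw [this]
  exact dvd_sub d1 (dvd_mul_of_dvd_right d2 _)

open Polynomial in
/-- Let A be a ring, assumed nonzero here (the published statement does not say so; over the zero ring
no polynomial has positive degree in Lean's sense), and a, b elements generating the unit ideal such
that some positive power of a is congruent to 1 modulo b. Then there is a monic polynomial P of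
positive degree over A such that in B = A[y]/(P) the element a - b y is a unit. -/
theorem result (A : Type u) [CommRing A] [Nontrivial A] (a b : A) (hab : IsCoprime a b)
    (hroot : ∃ n : ℕ, 0 < n ∧ a ^ n - 1 ∈ Ideal.span ({b} : Set A)) :
    ∃ P : A[X], P.Monic ∧ 0 < P.natDegree ∧
      IsUnit (algebraMap A (AdjoinRoot P) a - algebraMap A (AdjoinRoot P) b * AdjoinRoot.root P) := by
  obtain ⟨r, s, hrs⟩ := hab
  obtain ⟨n, hn, hc⟩ := hroot
  obtain ⟨c, hc⟩ := Ideal.mem_span_singleton'.1 hc
  obtain ⟨m, rfl⟩ : ∃ m, n = m + 1 := ⟨n - 1, by omega⟩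
  set Q : A[X] := C c * (C r * X + C s) ^ m with hQ
  have hQdeg : Q.natDegree ≤ m := by
    refine (natDegree_C_mul_le _ _).trans ?_
    refine (natDegree_pow_le).trans ?_
    have : (C r * X + C s).natDegree ≤ 1 := natDegree_linear_le
    nlinarith
  refine ⟨X ^ (m + 1) - Q, ?_, ?_, ?_⟩
  · apply monic_X_pow_sub
    calc Q.degree ≤ m := degree_le_of_natDegree_le hQdeg
      _ < ((m + 1 : ℕ) : WithBot ℕ) := by exact_mod_cast Nat.lt_succ_self m
  · rw [natDegree_sub_eq_left_of_natDegree_lt] <;> simp only [natDegree_X_pow] <;> omega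
  · have hθ : AdjoinRoot.root (X ^ (m + 1) - Q) ^ (m + 1) =
        algebraMap A (AdjoinRoot (X ^ (m + 1) - Q)) c *
        (algebraMap A (AdjoinRoot (X ^ (m + 1) - Q)) r * AdjoinRoot.root (X ^ (m + 1) - Q) +
          algebraMap A (AdjoinRoot (X ^ (m + 1) - Q)) s) ^ m := by
      have h0 := AdjoinRoot.eval₂_root (X ^ (m + 1) - Q)
      simp only [hQ, eval₂_sub, eval₂_mul, eval₂_C, eval₂_pow, eval₂_add, eval₂_X] at h0
      rw [sub_eq_zero] at h0
      exact h0
    refine key _ (algebraMap A _ b) (algebraMap A _ c) (algebraMap A _ r) (algebraMap A _ s) _ m ?_ ?_ ?_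
    · simp only [← map_mul, ← map_add, hrs, map_one]
    · rw [← map_mul, hc, map_sub, map_pow, map_one]
    · rw [show ∀ x y z w : AdjoinRoot (X ^ (m + 1) - Q), x * (y * z) + w * y = y * (x * z + w)
        from fun x y z w => by ring, mul_pow, mul_pow, hθ]
      ring

end Groth.Agent.S0643
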