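import Groth.Statements.S0738
-- import your own Groth.Agent.* helpers here

set_option autoImplicit false
open Topology
universe u
open ProEtW

namespace Groth.Agent.S0738

lemma compactOpen_eq_preimage {X : Type u} [TopologicalSpace X] [PrespectralSpace X]
    (Y : Set X) (U : Set Y) (hU : IsOpen U) (hUc : IsCompact U) :
    ∃ K : Set X, IsOpen K ∧ IsCompact K ∧ U = Subtype.val ⁻¹' K := by
  obtain ⟨U', hU', rfl⟩ := isOpen_induced_iff.mp hU
  have hb := PrespectralSpace.isTopologicalBasis (X := X)
  have hcov : ∀ y : (Subtype.val ⁻¹' U' : Set Y), ∃ K : Set X,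
      (IsOpen K ∧ IsCompact K) ∧ y.1.1 ∈ K ∧ K ⊆ U' := by
    intro y
    obtain ⟨K, hK, hyK, hKU⟩ := hb.exists_subset_of_mem_open y.2 hU'
    exact ⟨K, hK, hyK, hKU⟩
  choose K hK hyK hKU using hcov
  obtain ⟨t, ht⟩ := hUc.elim_finite_subcover (fun y => Subtype.val ⁻¹' K y)
    (fun y => (hK y).1.preimage continuous_subtype_val) (fun y hy => by
      simp only [Set.mem_iUnion]
      exact ⟨⟨y, hy⟩, hyK ⟨y, hy⟩⟩)
  refine ⟨⋃ y ∈ t, K y, isOpen_biUnion (fun y _ => (hK y).1),
    t.isCompact_biUnion (fun y _ => (hK y).2), ?_⟩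
  apply le_antisymm
  · intro z hz
    have := ht hz
    simp only [Set.mem_iUnion, Set.mem_preimage] at this ⊢
    exact this
  · intro z hz
    simp only [Set.mem_iUnion, Set.mem_preimage] at hz ⊢
    obtain ⟨y, _, hy⟩ := hz
    exact hKU y hy

lemma spectralSpace_of_isClosed {X : Type u} [TopologicalSpace X] [SpectralSpace X]
    (Y : Set X) (hY : IsClosed Y) : SpectralSpace Y := by
  have hce : Topology.IsClosedEmbedding (Subtype.val : Y → X) := hY.isClosedEmbedding_subtypeVal
  have hsp : IsSpectralMap (Subtype.val : Y → X) := hce.isProperMap.isSpectralMap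
  have : CompactSpace Y := isCompact_iff_compactSpace.mp hY.isCompact
  have : QuasiSober Y := hce.quasiSober
  have : PrespectralSpace Y := PrespectralSpace.of_isClosedEmbedding _ hce
  have : QuasiSeparatedSpace Y := by
    constructor
    intro U V hU hUc hV hVc
    obtain ⟨K, hK, hKc, rfl⟩ := compactOpen_eq_preimage Y U hU hUc
    obtain ⟨K', hK', hKc', rfl⟩ := compactOpen_eq_preimage Y V hV hVc
    rw [← Set.preimage_inter]
    exact hsp.isCompact_preimage_of_isOpen (hK.inter hK')
      (QuasiSeparatedSpace.inter_isCompact K K' hK hKc hK' hKc')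
  exact { }

/-- A closed subset of a w-local spectral space is w-local (with the subspace topology). -/
theorem result (X : Type u) [TopologicalSpace X] (hX : ProEtW.IsWLocal X)
    (Y : Set X) (hY : IsClosed Y) : ProEtW.IsWLocal ↥Y := by
  obtain ⟨hsp, hcl, huniq⟩ := hX
  have hce : Topology.IsClosedEmbedding (Subtype.val : Y → X) := hY.isClosedEmbedding_subtypeVal
  have hcp : ∀ y : Y, IsClosed ({y} : Set Y) ↔ IsClosed ({y.1} : Set X) := by
    intro y
    rw [hce.isClosed_iff_image_isClosed, Set.image_singleton]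
  refine ⟨spectralSpace_of_isClosed Y hY, ?_, ?_⟩
  · have : {y : Y | IsClosed ({y} : Set Y)} = Subtype.val ⁻¹' {x : X | IsClosed ({x} : Set X)} := by
      ext y; exact hcp y
    rw [this]
    exact hcl.preimage continuous_subtype_val
  · intro y
    obtain ⟨x, ⟨hxc, hyx⟩, hxu⟩ := huniq y.1
    have hxY : x ∈ Y := by
      have : x ∈ closure ({y.1} : Set X) := specializes_iff_mem_closure.mp hyx
      exact (hY.closure_subset_iff.mpr (Set.singleton_subset_iff.mpr y.2)) this
    refine ⟨⟨x, hxY⟩, ⟨(hcp _).mpr hxc, ?_⟩, ?_⟩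
    · exact (hce.isInducing.specializes_iff).mp hyx
    · rintro z ⟨hzc, hyz⟩
      apply Subtype.ext
      exact hxu z.1 ⟨(hcp z).mp hzc, (hce.isInducing.specializes_iff).mpr hyz⟩

end Groth.Agent.S0738
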