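import Groth.Statements.S0864
import Mathlib.CategoryTheory.Sites.Adjunction

set_option autoImplicit false
universe u
open CategoryTheory
open CohSite

namespace Groth.Agent.S0864

/-- A totally acyclic abelian sheaf F on a site satisfies H^p(U, F) = 0 for every object U and every p >
0. -/
theorem result {C : Type u} [SmallCategory C] {J : GrothendieckTopology C}
    (F : Sheaf J AddCommGrpCat.{u}) (hF : CohCx.IsTotallyAcyclic F) (U : C) (p : ℕ) :
    Subsingleton (CohSite.HU F (p + 1) U) := by
  let K : Sheaf J (Type u) := (presheafToSheaf J (Type u)).obj (yoneda.obj U)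
  have hK := hF K p
  have : J.PreservesSheafification AddCommGrpCat.free.{u} :=
    Sheaf.preservesSheafification_of_adjunction J AddCommGrpCat.adj
  let X₀ := (presheafToSheaf J AddCommGrpCat.{u}).obj (yoneda.obj U ⋙ AddCommGrpCat.free.{u})
  let e := (presheafToSheafCompComposeAndSheafifyIso J AddCommGrpCat.free.{u}).app (yoneda.obj U)
  refine ⟨fun x y => ?_⟩
  let φ : Abelian.Ext X₀ F (p + 1) →
      Abelian.Ext ((Sheaf.composeAndSheafify J AddCommGrpCat.free.{u}).obj K) F (p + 1) :=
    fun z => (Abelian.Ext.mk₀ e.hom).comp z (zero_add _)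
  have inj : Function.Injective φ := by
    intro a b hab
    have := congrArg (fun w => (Abelian.Ext.mk₀ e.inv).comp w (zero_add _)) hab
    simpa [φ, Abelian.Ext.mk₀_comp_mk₀_assoc] using this
  exact inj (@Subsingleton.elim _ hK _ _)

end Groth.Agent.S0864
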