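import Groth.Statements.S0904
import Mathlib.CategoryTheory.Limits.Constructions.EpiMono

set_option autoImplicit false
universe u
open CategoryTheory
open CohTop

namespace Groth.Agent.S0904

/-- Abelian sheaves, for which every continuous map is flat: for a continuous map f : X -> Y and an
injective abelian sheaf I on X, the direct image f_* I is an injective abelian sheaf on Y. -/
theorem result {X Y : TopCat.{u}} (f : X ⟶ Y) (I : CohTop.Ab X) [Injective I] :
    Injective ((CohTop.push f).obj I) := by
  have h1 : Limits.PreservesFiniteLimits (TopCat.Sheaf.pullback AddCommGrpCat.{u} f) :=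
    CategoryTheory.Functor.SmallCategories.instPreservesFiniteLimitsSheafSheafPullbackOfRepresentablyFlat
      _ _ _ _
  have h2 : (TopCat.Sheaf.pullback AddCommGrpCat.{u} f).PreservesMonomorphisms := inferInstance
  have hI : @Injective (TopCat.Sheaf AddCommGrpCat.{u} X) _ I := by assumption
  exact Injective.injective_of_adjoint (TopCat.Sheaf.pullbackPushforwardAdjunction AddCommGrpCat.{u} f) I

end Groth.Agent.S0904
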