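import Groth.Statements.S0919
import Mathlib.CategoryTheory.Adjunction.AdjointFunctorTheorems

set_option autoImplicit false
universe v u
open CategoryTheory
open CohDer

namespace Groth.Agent.S0919

open CategoryTheory.Limits in
/-- Let A be a Grothendieck abelian category and F a contravariant functor from A to sets (a functor on
the opposite category). Then F is representable if and only if F turns all small colimits of A into
limits, i.e. preserves small limits as a functor on the opposite category. -/
theorem result {A : Type u} [Category.{v} A] [Abelian A]
    [IsGrothendieckAbelian.{v} A] (F : Aᵒᵖ ⥤ Type v) :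
    F.IsRepresentable ↔ PreservesLimitsOfSize.{v, v} F := by
  refine ⟨fun h => ?_, fun h => ?_⟩
  · obtain ⟨Y, ⟨e⟩⟩ := h.has_representation
    exact preservesLimits_of_natIso e.toIso
  · have hsep := isSeparator_separator A
    have hcosep : IsCoseparator (Opposite.op (separator A)) := (isCoseparator_op_iff _).2 hsep
    have : F.IsRightAdjoint := isRightAdjoint_of_preservesLimits_of_isCoseparating hcosep F
    let adj := Adjunction.ofIsRightAdjoint F
    let e : ∀ X : A, (X ⟶ (F.leftAdjoint.obj PUnit).unop) ≃ F.obj (Opposite.op X) := fun X =>
      (Quiver.Hom.opEquiv).trans ((adj.homEquiv PUnit (Opposite.op X)).trans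
        (TypeCat.homEquiv.trans (Equiv.funUnique PUnit (F.obj (Opposite.op X)))))
    have hr : F.RepresentableBy (F.leftAdjoint.obj PUnit).unop :=
      { homEquiv := fun {X} => e X
        homEquiv_comp := by
          intro X X' f g
          have key := congrArg (fun φ => (TypeCat.homEquiv φ) PUnit.unit)
            (adj.homEquiv_naturality_right g.op f.op)
          exact key }
    exact hr.isRepresentable

end Groth.Agent.S0919
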