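import Groth.Statements.S0989
import Mathlib.Algebra.Homology.DerivedCategory.HomologySequence
import Mathlib.CategoryTheory.Triangulated.HomologicalFunctor

set_option autoImplicit false
universe w v u
open CategoryTheory CategoryTheory.Limits
open CohDer

namespace Groth.Agent.S0989

lemma prop_of_retract' {A : Type u} [Category.{v} A] [Abelian A] (P : ObjectProperty A)
    [P.IsClosedUnderIsomorphisms] (h0 : ∃ Z : A, IsZero Z ∧ P Z)
    (hP : ∀ S : ComposableArrows A 4, S.Exact → P (S.obj 0) → P (S.obj 1) → P (S.obj 3) →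
      P (S.obj 4) → P (S.obj 2))
    {X Y : A} (i : X ⟶ Y) (r : Y ⟶ X) (hir : i ≫ r = 𝟙 X) (hY : P Y) : P X := by
  obtain ⟨Z, hZ, hPZ⟩ := h0
  have hr : Epi r := ⟨fun {W} a b hab => by
    have := congrArg (fun t => i ≫ t) hab
    simpa [← Category.assoc, hir] using this⟩
  have w1 : (𝟙 Y - r ≫ i) ≫ r = 0 := by
    simp [Preadditive.sub_comp, Category.assoc, hir]
  have ex1 : (ShortComplex.mk (𝟙 Y - r ≫ i) r w1).Exact := by
    rw [ShortComplex.exact_iff_exact_up_to_refinements]
    intro W x₂ hx₂
    refine ⟨W, 𝟙 W, inferInstance, x₂, ?_⟩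
    dsimp at hx₂ ⊢
    simp [Preadditive.comp_sub, ← Category.assoc, hx₂]
  have ex2 : (ShortComplex.mk r (0 : X ⟶ Z) (by simp)).Exact := by
    rw [ShortComplex.exact_iff_epi _ rfl]
    exact hr
  have ex3 : (ShortComplex.mk (0 : X ⟶ Z) (0 : Z ⟶ Z) (by simp)).Exact :=
    ShortComplex.exact_of_isZero_X₂ _ hZ
  have hS : (ComposableArrows.mk₄ (𝟙 Y - r ≫ i) r (0 : X ⟶ Z) (0 : Z ⟶ Z)).Exact :=
    ComposableArrows.exact_of_δ₀ ex1.exact_toComposableArrows
      (ComposableArrows.exact_of_δ₀ ex2.exact_toComposableArrows ex3.exact_toComposableArrows)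
  exact hP _ hS hY hY hPZ hPZ

/-- Let P be a weak Serre class in an abelian category A: P is closed under isomorphisms, holds for a
zero object, and whenever X₀ → X₁ → X₂ → X₃ → X₄ is exact with P holding for X₀, X₁, X₃, X₄ it holds
for X₂. Then the class of objects of the derived category all of whose cohomology objects satisfy P
is a triangulated subcategory (contains zero, stable under shifts, closed under extensions) which is
moreover closed under retracts (saturated). -/
theorem result {A : Type u} [Category.{v} A] [Abelian A] [HasDerivedCategory.{w} A]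
    (P : ObjectProperty A) [P.IsClosedUnderIsomorphisms] (h0 : ∃ Z : A, IsZero Z ∧ P Z)
    (hP : ∀ S : ComposableArrows A 4, S.Exact → P (S.obj 0) → P (S.obj 1) → P (S.obj 3) → P (S.obj 4) → P (S.obj 2)) :
    ObjectProperty.IsTriangulated (fun X : DerivedCategory A => ∀ n : ℤ, P ((DerivedCategory.homologyFunctor A n).obj X)) ∧
    ObjectProperty.IsStableUnderRetracts (fun X : DerivedCategory A => ∀ n : ℤ, P ((DerivedCategory.homologyFunctor A n).obj X)) := by
  have hret := fun {X Y : A} (i : X ⟶ Y) (r : Y ⟶ X) (hir : i ≫ r = 𝟙 X) (hY : P Y) =>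
    prop_of_retract' P h0 hP i r hir hY
  let Q : ObjectProperty (DerivedCategory A) :=
    fun X => ∀ n : ℤ, P ((DerivedCategory.homologyFunctor A n).obj X)
  have hQiso : Q.IsClosedUnderIsomorphisms :=
    ⟨fun {X Y} e hX n => P.prop_of_iso ((DerivedCategory.homologyFunctor A n).mapIso e) (hX n)⟩
  have hshift : ∀ (X : DerivedCategory A) (a : ℤ), Q X → Q (X⟦a⟧) := by
    intro X a hX n
    exact P.prop_of_iso
      ((((DerivedCategory.homologyFunctor A 0).shiftIso a n (a + n) rfl).app X).symm) (hX (a + n))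
  refine ⟨?_, ⟨fun {X Y} h hY n => hret ((DerivedCategory.homologyFunctor A n).map h.i)
    ((DerivedCategory.homologyFunctor A n).map h.r)
    (by rw [← CategoryTheory.Functor.map_comp, h.retract, CategoryTheory.Functor.map_id]) (hY n)⟩⟩
  have hzero : Q.ContainsZero := by
    obtain ⟨Z, hZ, hPZ⟩ := h0
    obtain ⟨Z', hZ'⟩ := Limits.HasZeroObject.zero (C := DerivedCategory A)
    refine ⟨⟨Z', hZ', fun n => ?_⟩⟩
    exact P.prop_of_iso (hZ.iso ((DerivedCategory.homologyFunctor A n).map_isZero hZ')) hPZ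
  have hstab : Q.IsStableUnderShift ℤ := ⟨fun a => ⟨fun X hX => hshift X a hX⟩⟩
  have hext : Q.IsTriangulatedClosed₂ := by
    apply ObjectProperty.IsTriangulatedClosed₂.mk'
    intro T hT h1 h3 n
    have hT' := Pretriangulated.inv_rot_of_distTriang T hT
    have hS := (DerivedCategory.homologyFunctor A 0).homologySequenceComposableArrows₅_exact
      _ hT' n (n + 1) rfl
    have h3' := hshift _ (-1) h3
    exact hP _ hS.δlast (h3' n) (h1 n) (h3' (n + 1)) (h1 (n + 1))
  exact { }

end Groth.Agent.S0989
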