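import Groth.Statements.S10147
-- import your own Groth.Agent.* helpers here

set_option autoImplicit false
universe u v w
open LinTop

namespace Groth.Agent.S10147

/-- Let M be a topological module over a ring R whose additive group is a topological group, and let
(M_i) be a family of submodules of M forming a fundamental system of neighbourhoods of 0. For every
submodule N of M, the closure of N is the intersection over i of the submodules N + M_i. -/
theorem result
    {R : Type u} [Ring R] {M : Type v} [AddCommGroup M] [Module R M] [TopologicalSpace M]
    [IsTopologicalAddGroup M] {ι : Type w} (B : ι → Submodule R M)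
    (hB : (nhds (0 : M)).HasBasis (fun _ => True) (fun i => (B i : Set M)))
    (N : Submodule R M) :
    closure (N : Set M) = ⋂ i, ((N ⊔ B i : Submodule R M) : Set M) := by
  ext x
  rw [mem_closure_iff_nhds_basis (hB.nhds_of_zero x), Set.mem_iInter]
  refine forall_congr' fun i => ?_
  simp only [true_implies, Set.mem_setOf_eq, SetLike.mem_coe]
  constructor
  · rintro ⟨y, hy, hyx⟩
    have : x = y - (y - x) := by abel
    rw [this]
    exact Submodule.sub_mem _ (Submodule.mem_sup_left hy) (Submodule.mem_sup_right hyx)
  · intro hx
    obtain ⟨y, hy, z, hz, rfl⟩ := Submodule.mem_sup.1 hx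
    refine ⟨y, hy, ?_⟩
    have : y - (y + z) = -z := by abel
    rw [this]
    exact (B i).neg_mem hz

end Groth.Agent.S10147
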