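import Groth.Statements.S10149
-- import your own Groth.Agent.* helpers here

set_option autoImplicit false
universe u v
open LinTop

namespace Groth.Agent.S10149

theorem nilrad_closed (B : Type*) [CommRing B] [TopologicalSpace B] [IsTopologicalRing B]
    [IsLinearTopology B B] : IsClosed ((topologicalNilradical B : Ideal B) : Set B) := by
  rw [← closure_subset_iff_isClosed]
  intro g hg
  change IsTopologicallyNilpotent g
  simp only [IsTopologicallyNilpotent,
    Filter.atTop_basis.tendsto_iff IsLinearTopology.hasBasis_ideal, true_and]
  intro U hU
  have hpre : {x : B | x - g ∈ (U : Set B)} ∈ nhds g := by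
    have ht := (continuous_sub_right g).tendsto g
    rw [sub_self] at ht
    exact ht hU
  obtain ⟨n, hnU, hnN⟩ := mem_closure_iff_nhds.1 hg _ hpre
  have hn : IsTopologicallyNilpotent n := hnN
  obtain ⟨k, hk⟩ := hn.exists_pow_mem_of_mem_nhds hU
  refine ⟨k, fun m hm => ?_⟩
  have h1 : (g - n) ^ 1 ∈ U := by
    rw [pow_one, ← neg_sub]
    exact U.neg_mem hnU
  have := U.add_pow_mem_of_pow_mem_of_le (a := n) (b := g - n) (k := m) hk h1 (by simp at hm; omega)
  simpa using this

theorem nil_of_mem_closure_map {A B : Type*} [CommRing A] [TopologicalSpace A] [IsTopologicalRing A]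
    [CommRing B] [TopologicalSpace B] [IsTopologicalRing B] [IsLinearTopology B B]
    (φ : A →+* B) (hφ : Continuous φ) (I : Ideal A) (hI : ∀ f ∈ I, IsTopologicallyNilpotent f) :
    ∀ g ∈ (I.map φ).closure, IsTopologicallyNilpotent g := by
  have hle : I.map φ ≤ topologicalNilradical B := by
    rw [Ideal.map_le_iff_le_comap]
    intro f hf
    exact (hI f hf).map hφ
  intro g hg
  have : g ∈ closure ((topologicalNilradical B : Ideal B) : Set B) := closure_mono hle hg
  rw [(nilrad_closed B).closure_eq] at this
  exact this

/-- In a linearly topologized ring B the ideal of topologically nilpotent elements is closed. Moreover,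
if φ : A → B is a continuous homomorphism of linearly topologized rings and I is an ideal of A
consisting of topologically nilpotent elements, then every element of the closure of the ideal φ(I)B
is topologically nilpotent. -/
theorem result
    (A : Type u) [CommRing A] [TopologicalSpace A] [IsTopologicalRing A] [IsLinearTopology A A]
    (B : Type v) [CommRing B] [TopologicalSpace B] [IsTopologicalRing B] [IsLinearTopology B B] :
    IsClosed ((topologicalNilradical B : Ideal B) : Set B) ∧
      ∀ (φ : A →+* B), Continuous φ → ∀ I : Ideal A, (∀ f ∈ I, IsTopologicallyNilpotent f) →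
        ∀ g ∈ (I.map φ).closure, IsTopologicallyNilpotent g := by
  exact ⟨nilrad_closed B, fun φ hφ I hI => nil_of_mem_closure_map φ hφ I hI⟩

end Groth.Agent.S10149
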