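import Groth.Statements.S10150
-- import your own Groth.Agent.* helpers here

set_option autoImplicit false
universe u v
open LinTop

namespace Groth.Agent.S10150

theorem nilrad_closed (B : Type*) [CommRing B] [TopologicalSpace B] [IsTopologicalRing B]
    [IsLinearTopology B B] : IsClosed ((topologicalNilradical B : Ideal B) : Set B) := by
  rw [← closure_subset_iff_isClosed]
  intro g hg
  change IsTopologicallyNilpotent g
  simp only [IsTopologicallyNilpotent,
    Filter.atTop_basis.tendsto_iff IsLinearTopology.hasBasis_ideal, true_and]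
  intro U hU
  have hpre : {x : B | x - g ∈ (U : Set B)} ∈ nhds g := by
    have ht := (continuous_sub_right g).tendsto g
    rw [sub_self] at ht
    exact ht hU
  obtain ⟨n, hnU, hnN⟩ := mem_closure_iff_nhds.1 hg _ hpre
  have hn : IsTopologicallyNilpotent n := hnN
  obtain ⟨k, hk⟩ := hn.exists_pow_mem_of_mem_nhds hU
  refine ⟨k, fun m hm => ?_⟩
  have h1 : (g - n) ^ 1 ∈ U := by
    rw [pow_one, ← neg_sub]
    exact U.neg_mem hnU
  have := U.add_pow_mem_of_pow_mem_of_le (a := n) (b := g - n) (k := m) hk h1 (by simp at hm; omega)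
  simpa using this

theorem nil_of_mem_closure_map {A B : Type*} [CommRing A] [TopologicalSpace A] [IsTopologicalRing A]
    [CommRing B] [TopologicalSpace B] [IsTopologicalRing B] [IsLinearTopology B B]
    (φ : A →+* B) (hφ : Continuous φ) (I : Ideal A) (hI : ∀ f ∈ I, IsTopologicallyNilpotent f) :
    ∀ g ∈ (I.map φ).closure, IsTopologicallyNilpotent g := by
  have hle : I.map φ ≤ topologicalNilradical B := by
    rw [Ideal.map_le_iff_le_comap]
    intro f hf
    exact (hI f hf).map hφ
  intro g hg
  have : g ∈ closure ((topologicalNilradical B : Ideal B) : Set B) := closure_mono hle hg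
  rw [(nilrad_closed B).closure_eq] at this
  exact this

/-- Let φ : A → B be a continuous ring homomorphism between weakly pre-admissible linearly topologized
rings. Then φ is taut if and only if, for each weak ideal of definition I of A, the closure of the
ideal generated by φ(I) is again a weak ideal of definition, now of B, and every neighbourhood of 0
in B contains one of these closures. (The published statement takes A and B weakly admissible, that
is, moreover Hausdorff and complete; completeness plays no role and this row omits it.) -/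
theorem result
    (A : Type u) [CommRing A] [TopologicalSpace A] [IsTopologicalRing A] [IsLinearTopology A A]
    (B : Type v) [CommRing B] [TopologicalSpace B] [IsTopologicalRing B] [IsLinearTopology B B]
    (hA : LinTop.IsWeaklyPreadmissible A) (hB : LinTop.IsWeaklyPreadmissible B)
    (φ : A →+* B) (hφ : Continuous φ) :
    LinTop.IsTaut φ ↔
      ((∀ I : Ideal A, LinTop.IsWeakIdealOfDefinition A I →
          LinTop.IsWeakIdealOfDefinition B (I.map φ).closure) ∧
        ∀ U ∈ nhds (0 : B), ∃ I : Ideal A, LinTop.IsWeakIdealOfDefinition A I ∧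
          ((I.map φ).closure : Set B) ⊆ U) := by
  obtain ⟨_, I₀, hI₀o, hI₀n⟩ := hA
  constructor
  · rintro ⟨_, h2, h3⟩
    refine ⟨fun I ⟨hIo, hIn⟩ => ⟨h2 I hIo, nil_of_mem_closure_map φ hφ I hIn⟩, fun U hU => ?_⟩
    obtain ⟨I', hI'o, hI'U⟩ := h3 U hU
    refine ⟨I' ⊓ I₀, ⟨hI'o.inter hI₀o, fun f hf => hI₀n f hf.2⟩, subset_trans ?_ hI'U⟩
    exact closure_mono (Ideal.map_mono inf_le_left)
  · rintro ⟨h2, h3⟩
    refine ⟨hφ, fun I' hI'o => ?_, fun U hU => ?_⟩
    · have := (h2 (I' ⊓ I₀) ⟨hI'o.inter hI₀o, fun f hf => hI₀n f hf.2⟩).1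
      change IsOpen (((I'.map φ).closure : Ideal B) : Set B)
      refine Submodule.isOpen_mono (R := B) (U := ((I' ⊓ I₀).map φ).closure) ?_ this
      exact closure_mono (Ideal.map_mono inf_le_left)
    · obtain ⟨I, ⟨hIo, _⟩, hIU⟩ := h3 U hU
      exact ⟨I, hIo, hIU⟩

end Groth.Agent.S10150
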