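import Groth.Statements.S10151

set_option autoImplicit false
universe u v w
open LinTop

namespace Groth.Agent.S10151

theorem result
    (A : Type u) [CommRing A] [TopologicalSpace A] [IsTopologicalRing A] [IsLinearTopology A A]
    (B : Type v) [CommRing B] [TopologicalSpace B] [IsTopologicalRing B] [IsLinearTopology B B]
    (C : Type w) [CommRing C] [TopologicalSpace C] [IsTopologicalRing C] [IsLinearTopology C C]
    (φ : A →+* B) (ψ : B →+* C) (hφ : Continuous φ) (hψ : Continuous ψ)
    (h : LinTop.IsTaut (ψ.comp φ)) : LinTop.IsTaut ψ := by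
  obtain ⟨_, h2, h3⟩ := h
  refine ⟨hψ, ?_, ?_⟩
  · intro J hJ
    have hI : IsOpen ((J.comap φ : Ideal A) : Set A) := hJ.preimage hφ
    have hle : (J.comap φ).map (ψ.comp φ) ≤ J.map ψ := by
      rw [← Ideal.map_map]
      exact Ideal.map_mono Ideal.map_comap_le
    have ho : IsOpen (((Ideal.closure ((J.comap φ).map (ψ.comp φ))) : Ideal C) : Set C) := h2 _ hI
    change IsOpen (((Ideal.closure (J.map ψ)) : Ideal C) : Set C)
    refine Submodule.isOpen_mono (R := C) (U := Ideal.closure ((J.comap φ).map (ψ.comp φ))) ?_ ho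
    change closure (((J.comap φ).map (ψ.comp φ) : Ideal C) : Set C) ⊆ closure ((J.map ψ : Ideal C) : Set C)
    exact closure_mono hle
  · intro U hU
    obtain ⟨I, hI, hIU⟩ := h3 U hU
    have ho := h2 I hI
    let W : Ideal C := Ideal.closure (I.map (ψ.comp φ))
    refine ⟨W.comap ψ, ho.preimage hψ, ?_⟩
    have hWc : IsClosed (W : Set C) := isClosed_closure
    calc closure (((W.comap ψ).map ψ : Ideal C) : Set C) ⊆ closure (W : Set C) :=
          closure_mono Ideal.map_comap_le
      _ = (W : Set C) := hWc.closure_eq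
      _ ⊆ U := hIU

end Groth.Agent.S10151
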