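import Groth.Statements.S10152
-- import your own Groth.Agent.* helpers here

set_option autoImplicit false
universe u v
open LinTop

namespace Groth.Agent.S10152

/-- Let φ : A → B be a taut homomorphism of linearly topologized rings. If A has a countable fundamental
system of open ideals, then so does B (equivalently, the neighbourhood filters of 0 are countably
generated). -/
theorem result
    (A : Type u) [CommRing A] [TopologicalSpace A] [IsTopologicalRing A] [IsLinearTopology A A]
    (B : Type v) [CommRing B] [TopologicalSpace B] [IsTopologicalRing B] [IsLinearTopology B B]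
    (φ : A →+* B) (hφ : LinTop.IsTaut φ) (hA : (nhds (0 : A)).IsCountablyGenerated) :
    (nhds (0 : B)).IsCountablyGenerated := by
  obtain ⟨_, h2, h3⟩ := hφ
  obtain ⟨x, hx⟩ := (nhds (0 : A)).exists_antitone_basis
  have hI : ∀ n, ∃ I : Ideal A, IsOpen (I : Set A) ∧ (I : Set A) ⊆ x n := fun n =>
    (IsLinearTopology.hasBasis_open_ideal (R := A)).mem_iff.1 (hx.1.mem_of_mem trivial)
  choose I hIo hIx using hI
  have hb : (nhds (0 : B)).HasBasis (fun _ : ℕ => True)
      (fun n => closure (((I n).map φ : Ideal B) : Set B)) := by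
    refine ⟨fun U => ⟨fun hU => ?_, fun ⟨n, _, hn⟩ => ?_⟩⟩
    · obtain ⟨J, hJo, hJU⟩ := h3 U hU
      obtain ⟨n, _, hn⟩ := hx.1.mem_iff.1 (hJo.mem_nhds J.zero_mem)
      refine ⟨n, trivial, subset_trans ?_ hJU⟩
      apply closure_mono
      exact Ideal.map_mono (fun a ha => hn (hIx n ha))
    · refine Filter.mem_of_superset ((h2 _ (hIo n)).mem_nhds ?_) hn
      exact subset_closure (Ideal.zero_mem _)
  exact hb.isCountablyGenerated

end Groth.Agent.S10152
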