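import Groth.Statements.S10154
-- import your own Groth.Agent.* helpers here

set_option autoImplicit false
universe u v
open LinTop

namespace Groth.Agent.S10154

theorem closure_mul_le {B : Type*} [CommRing B] [TopologicalSpace B] [IsTopologicalRing B]
    (I J : Ideal B) : I.closure * J.closure ≤ (I * J).closure := by
  rw [Ideal.mul_le]
  intro r hr s hs
  exact map_mem_closure₂ (f := fun a b : B => a * b) continuous_mul hr hs
    (fun a ha b hb => Ideal.mul_mem_mul ha hb)

theorem closure_pow_le {B : Type*} [CommRing B] [TopologicalSpace B] [IsTopologicalRing B]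
    (I : Ideal B) (n : ℕ) : I.closure ^ n ≤ (I ^ n).closure := by
  induction n with
  | zero =>
    simp only [pow_zero, Ideal.one_eq_top, top_le_iff]
    exact eq_top_iff.2 (fun x _ => subset_closure (Submodule.mem_top))
  | succ n ih =>
    rw [pow_succ, pow_succ]
    exact (Ideal.mul_mono_left ih).trans (closure_mul_le _ _)

/-- Let φ : A → B be a taut homomorphism of linearly topologized rings. If A is pre-admissible, then B
is pre-admissible. -/
theorem result
    (A : Type u) [CommRing A] [TopologicalSpace A] [IsTopologicalRing A] [IsLinearTopology A A]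
    (B : Type v) [CommRing B] [TopologicalSpace B] [IsTopologicalRing B] [IsLinearTopology B B]
    (φ : A →+* B) (hφ : LinTop.IsTaut φ) (hA : LinTop.IsPreadmissible A) :
    LinTop.IsPreadmissible B := by
  obtain ⟨_, h2, h3⟩ := hφ
  obtain ⟨_, I, hIo, hIp⟩ := hA
  refine ⟨inferInstance, (I.map φ).closure, h2 I hIo, fun U hU => ?_⟩
  obtain ⟨I', hI'o, hI'U⟩ := h3 U hU
  obtain ⟨n, hn, hnI⟩ := hIp _ (hI'o.mem_nhds I'.zero_mem)
  refine ⟨n, hn, ?_⟩
  refine subset_trans (closure_pow_le (I.map φ) n) (subset_trans ?_ hI'U)
  change closure (((I.map φ) ^ n : Ideal B) : Set B) ⊆ closure ((I'.map φ : Ideal B) : Set B)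
  apply closure_mono
  rw [← Ideal.map_pow]
  exact Ideal.map_mono hnI

end Groth.Agent.S10154
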