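import Groth.Statements.S10156
-- import your own Groth.Agent.* helpers here

set_option autoImplicit false
universe u v w
open LinTop

namespace Groth.Agent.S10156

/-- Given pre-adic rings A, B, C and continuous ring maps ψ : B → C and φ : A → B, adicness of the
composite A → C implies that ψ is adic. -/
theorem result
    (A : Type u) [CommRing A] [TopologicalSpace A] [IsTopologicalRing A] (hA : LinTop.IsPreadic A)
    (B : Type v) [CommRing B] [TopologicalSpace B] [IsTopologicalRing B] (hB : LinTop.IsPreadic B)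
    (C : Type w) [CommRing C] [TopologicalSpace C] [IsTopologicalRing C] (hC : LinTop.IsPreadic C)
    (φ : A →+* B) (ψ : B →+* C) (hφ : Continuous φ) (hψ : Continuous ψ)
    (h : LinTop.IsAdicHom (ψ.comp φ)) : LinTop.IsAdicHom ψ := by
  obtain ⟨I, ⟨hIo, hIp⟩, hK⟩ := h
  have hK' := isAdic_iff.1 hK
  obtain ⟨J₀, hJ₀⟩ := hB
  have hJ₀' := isAdic_iff.1 hJ₀
  refine ⟨J₀ ⊔ I.map φ, ⟨?_, fun U hU => ?_⟩, ?_⟩
  · refine Submodule.isOpen_mono (R := B) (U := J₀) le_sup_left ?_
    simpa using hJ₀'.1 1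
  · obtain ⟨m, hm⟩ := hJ₀'.2 U hU
    have hpre : ((J₀ ^ m).comap φ : Set A) ∈ nhds (0 : A) :=
      ((hJ₀'.1 m).preimage hφ).mem_nhds (by simp)
    obtain ⟨k, hk, hkI⟩ := hIp _ hpre
    refine ⟨m + k, by omega, subset_trans ?_ hm⟩
    refine (Ideal.sup_pow_add_le_pow_sup_pow).trans (sup_le le_rfl ?_)
    rw [← Ideal.map_pow]
    exact (Ideal.map_mono hkI).trans Ideal.map_comap_le
  · rw [isAdic_iff]
    have hle : I.map (ψ.comp φ) ≤ (J₀ ⊔ I.map φ).map ψ := by
      rw [Ideal.map_sup, Ideal.map_map]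
      exact le_sup_right
    refine ⟨fun n => Submodule.isOpen_mono (R := C) (U := (I.map (ψ.comp φ)) ^ n)
      (Ideal.pow_right_mono hle n) (hK'.1 n), fun s hs => ?_⟩
    obtain ⟨m, hm⟩ := hK'.2 s hs
    have hpre : (((I.map (ψ.comp φ)) ^ m).comap ψ : Set B) ∈ nhds (0 : B) :=
      ((hK'.1 m).preimage hψ).mem_nhds (by simp)
    obtain ⟨k, hk⟩ := hJ₀'.2 _ hpre
    refine ⟨k + m, subset_trans ?_ hm⟩
    rw [Ideal.map_sup, Ideal.map_map]
    refine (Ideal.sup_pow_add_le_pow_sup_pow).trans (sup_le ?_ le_rfl)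
    rw [← Ideal.map_pow]
    exact (Ideal.map_mono hk).trans Ideal.map_comap_le

end Groth.Agent.S10156
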