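import Groth.Statements.S10157
-- import your own Groth.Agent.* helpers here

set_option autoImplicit false
universe u v
open LinTop

namespace Groth.Agent.S10157

theorem isOpen_pow_of_preadic {A : Type*} [CommRing A] [TopologicalSpace A] [IsTopologicalRing A]
    (hA : LinTop.IsPreadic A) (I : Ideal A) (hI : IsOpen (I : Set A)) (n : ℕ) :
    IsOpen ((I ^ n : Ideal A) : Set A) := by
  obtain ⟨J, hJ⟩ := hA
  rw [isAdic_iff] at hJ
  obtain ⟨k, hk⟩ := hJ.2 _ (hI.mem_nhds I.zero_mem)
  refine Submodule.isOpen_mono (R := A) (U := J ^ (k * n)) ?_ (hJ.1 _)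
  rw [pow_mul]
  exact Ideal.pow_right_mono hk n

/-- A continuous adic homomorphism φ : A → B between pre-adic topological rings is taut. -/
theorem result
    (A : Type u) [CommRing A] [TopologicalSpace A] [IsTopologicalRing A] (hA : LinTop.IsPreadic A)
    (B : Type v) [CommRing B] [TopologicalSpace B] [IsTopologicalRing B] (hB : LinTop.IsPreadic B)
    (φ : A →+* B) (hφ : Continuous φ) (h : LinTop.IsAdicHom φ) : LinTop.IsTaut φ := by
  obtain ⟨I, ⟨hIo, hIp⟩, hK⟩ := h
  have hK' := isAdic_iff.1 hK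
  refine ⟨hφ, fun I' hI' => ?_, fun U hU => ?_⟩
  · obtain ⟨n, _, hn⟩ := hIp _ (hI'.mem_nhds I'.zero_mem)
    have h1 : IsOpen ((I'.map φ : Ideal B) : Set B) := by
      refine Submodule.isOpen_mono (R := B) (U := (I.map φ) ^ n) ?_ (hK'.1 n)
      rw [← Ideal.map_pow]
      exact Ideal.map_mono hn
    change IsOpen (((I'.map φ).closure : Ideal B) : Set B)
    exact Submodule.isOpen_mono (R := B) (U := I'.map φ) (fun x hx => subset_closure hx) h1
  · obtain ⟨n, hn⟩ := hK'.2 U hU
    refine ⟨I ^ n, isOpen_pow_of_preadic hA I hIo n, ?_⟩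
    rw [Ideal.map_pow]
    have hc : IsClosed (((I.map φ) ^ n : Ideal B) : Set B) :=
      ((I.map φ) ^ n).toAddSubgroup.isClosed_of_isOpen (hK'.1 n)
    rw [hc.closure_eq]
    exact hn

end Groth.Agent.S10157
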