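import Groth.Statements.S10159
-- import your own Groth.Agent.* helpers here

set_option autoImplicit false
universe u
open LinTop

namespace Groth.Agent.S10159

theorem closure_mul_le {B : Type*} [CommRing B] [TopologicalSpace B] [IsTopologicalRing B]
    (I J : Ideal B) : I.closure * J.closure ≤ (I * J).closure := by
  rw [Ideal.mul_le]
  intro r hr s hs
  exact map_mem_closure₂ (f := fun a b : B => a * b) continuous_mul hr hs
    (fun a ha b hb => Ideal.mul_mem_mul ha hb)

theorem closure_pow_le {B : Type*} [CommRing B] [TopologicalSpace B] [IsTopologicalRing B]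
    (I : Ideal B) (n : ℕ) : I.closure ^ n ≤ (I ^ n).closure := by
  induction n with
  | zero =>
    simp only [pow_zero, Ideal.one_eq_top, top_le_iff]
    exact eq_top_iff.2 (fun x _ => subset_closure (Submodule.mem_top))
  | succ n ih =>
    rw [pow_succ, pow_succ]
    exact (Ideal.mul_mono_left ih).trans (closure_mul_le _ _)

/-- type synonym carrying the `I`-adic topology -/
def Syn (A : Type u) [CommRing A] (_I : Ideal A) : Type u := A

instance synCommRing (A : Type u) [CommRing A] (I : Ideal A) : CommRing (Syn A I) :=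
  inferInstanceAs (CommRing A)

instance synTop (A : Type u) [CommRing A] (I : Ideal A) : TopologicalSpace (Syn A I) :=
  (I : Ideal A).adicTopology

instance synTopRing (A : Type u) [CommRing A] (I : Ideal A) : IsTopologicalRing (Syn A I) :=
  RingFilterBasis.isTopologicalRing _

/-- the identity, from the adic synonym -/
def synHom (A : Type u) [CommRing A] (I : Ideal A) : Syn A I →+* A := RingHom.id A

theorem synHom_apply (A : Type u) [CommRing A] (I : Ideal A) (x : Syn A I) :
    synHom A I x = (x : A) := rfl

/-- the ideal `I` seen in the synonym -/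
def synIdeal (A : Type u) [CommRing A] (I : Ideal A) : Ideal (Syn A I) := I

theorem synIdeal_pow (A : Type u) [CommRing A] (I : Ideal A) (n : ℕ) :
    ((synIdeal A I ^ n : Ideal (Syn A I)) : Set (Syn A I)) = ((I ^ n : Ideal A) : Set A) := rfl

theorem syn_isAdic (A : Type u) [CommRing A] (I : Ideal A) : IsAdic (synIdeal A I) := rfl

theorem map_synHom (A : Type u) [CommRing A] (I : Ideal A) (J : Ideal (Syn A I)) :
    ((J.map (synHom A I) : Ideal A) : Set A) = ((J : Ideal (Syn A I)) : Set (Syn A I)) := by
  have : J.map (synHom A I) = (J : Ideal A) := Ideal.map_id J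
  rw [this]; rfl

/-- For a ring A carrying a linear topology, the following four conditions are equivalent: (1) A is
weakly pre-adic; (2) there exist a pre-adic topological ring A' and a taut continuous ring
homomorphism A' → A (A' is taken in the universe of A, which suffices since A with an adic topology
serves); (3) A has an ideal of definition, and for at least one ideal of definition I every closure
cl(I^n) with n ≥ 1 is open; (4) A has an ideal of definition, and for each of its ideals of
definition I every closure cl(I^n) with n ≥ 1 is open. -/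
theorem result
    (A : Type u) [CommRing A] [TopologicalSpace A] [IsTopologicalRing A] [IsLinearTopology A A] :
    List.TFAE [LinTop.IsWeaklyPreadic A,
      ∃ (A' : Type u) (_ : CommRing A') (_ : TopologicalSpace A') (_ : IsTopologicalRing A')
        (φ : A' →+* A), LinTop.IsPreadic A' ∧ LinTop.IsTaut φ,
      LinTop.IsPreadmissible A ∧ ∃ I : Ideal A, LinTop.IsIdealOfDefinition A I ∧
        ∀ n : ℕ, 0 < n → IsOpen (closure ((I ^ n : Ideal A) : Set A)),
      LinTop.IsPreadmissible A ∧ ∀ I : Ideal A, LinTop.IsIdealOfDefinition A I →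
        ∀ n : ℕ, 0 < n → IsOpen (closure ((I ^ n : Ideal A) : Set A))] := by
  tfae_have 1 → 4 := by
    rintro ⟨_, J, hJopen, hJbasis⟩
    refine ⟨⟨inferInstance, J.closure, ?_, ?_⟩, fun I ⟨hIo, _⟩ n hn => ?_⟩
    · simpa using hJopen 1
    · intro U hU
      obtain ⟨m, hm⟩ := hJbasis U hU
      refine ⟨m + 1, by omega, subset_trans (closure_pow_le J (m + 1)) (subset_trans ?_ hm)⟩
      exact closure_mono (Ideal.pow_le_pow_right (by omega))
    · obtain ⟨k, hk⟩ := hJbasis _ (hIo.mem_nhds I.zero_mem)
      have hJk : J ^ k ≤ I := fun x hx => hk (subset_closure hx)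
      change IsOpen ((((I ^ n).closure) : Ideal A) : Set A)
      refine Submodule.isOpen_mono (R := A) (U := (J ^ (k * n)).closure) ?_ (hJopen (k * n))
      change closure _ ⊆ closure _
      apply closure_mono
      rw [pow_mul]
      exact Ideal.pow_right_mono hJk n
  tfae_have 4 → 3 := by
    rintro ⟨⟨hlin, I, hI⟩, h⟩
    exact ⟨⟨hlin, I, hI⟩, I, hI, h I hI⟩
  tfae_have 3 → 1 := by
    rintro ⟨_, I, ⟨hIo, hIp⟩, h⟩
    refine ⟨inferInstance, I, fun n => ?_, fun U hU => ?_⟩
    · rcases Nat.eq_zero_or_pos n with rfl | hn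
      · simp
      · exact h n hn
    · obtain ⟨I', hI'o, hI'U⟩ := (IsLinearTopology.hasBasis_open_ideal (R := A)).mem_iff.1 hU
      obtain ⟨n, _, hn⟩ := hIp _ (hI'o.mem_nhds I'.zero_mem)
      refine ⟨n, subset_trans ?_ hI'U⟩
      have hc : IsClosed (I' : Set A) := I'.toAddSubgroup.isClosed_of_isOpen hI'o
      exact closure_minimal hn hc
  tfae_have 2 → 1 := by
    rintro ⟨A', _, _, _, φ, ⟨J, hJ⟩, h1, h2, h3⟩
    have hJ' := isAdic_iff.1 hJ
    refine ⟨inferInstance, J.map φ, fun n => ?_, fun U hU => ?_⟩
    · rw [← Ideal.map_pow]; exact h2 _ (hJ'.1 n)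
    · obtain ⟨I', hI'o, hI'U⟩ := h3 U hU
      obtain ⟨n, hn⟩ := hJ'.2 _ (hI'o.mem_nhds I'.zero_mem)
      refine ⟨n, subset_trans ?_ hI'U⟩
      rw [← Ideal.map_pow]
      exact closure_mono (Ideal.map_mono hn)
  tfae_have 1 → 2 := by
    rintro ⟨_, I, hopen, hbasis⟩
    have hadic := isAdic_iff.1 (syn_isAdic A I)
    refine ⟨Syn A I, inferInstance, inferInstance, inferInstance, synHom A I,
      ⟨synIdeal A I, syn_isAdic A I⟩, ?_, fun I' hI' => ?_, fun U hU => ?_⟩
    · refine continuous_of_tendsto_nhds_zero (synHom A I) ?_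
      rw [(syn_isAdic A I).hasBasis_nhds_zero.tendsto_iff
        (IsLinearTopology.hasBasis_open_ideal (R := A))]
      intro I'' hI''
      obtain ⟨n, hn⟩ := hbasis _ (hI''.mem_nhds I''.zero_mem)
      refine ⟨n, trivial, fun x hx => hn (subset_closure ?_)⟩
      rw [synIdeal_pow] at hx
      exact hx
    · obtain ⟨n, hn⟩ := hadic.2 _ (hI'.mem_nhds I'.zero_mem)
      rw [map_synHom]
      rw [synIdeal_pow] at hn
      have hsub : ((I ^ n : Ideal A) : Set A) ⊆ (I' : Set (Syn A I)) := hn
      exact Submodule.isOpen_mono (R := A) (U := (I ^ n).closure)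
        (P := Ideal.closure (show Ideal A from I')) (closure_mono hsub) (hopen n)
    · obtain ⟨n, hn⟩ := hbasis U hU
      refine ⟨synIdeal A I ^ n, hadic.1 n, ?_⟩
      rw [map_synHom, synIdeal_pow]
      exact hn
  tfae_finish

end Groth.Agent.S10159
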