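import Groth.Statements.S10160
-- import your own Groth.Agent.* helpers here

set_option autoImplicit false
universe u
open LinTop

namespace Groth.Agent.S10160

theorem closure_mul_le {B : Type*} [CommRing B] [TopologicalSpace B] [IsTopologicalRing B]
    (I J : Ideal B) : I.closure * J.closure ≤ (I * J).closure := by
  rw [Ideal.mul_le]
  intro r hr s hs
  exact map_mem_closure₂ (f := fun a b : B => a * b) continuous_mul hr hs
    (fun a ha b hb => Ideal.mul_mem_mul ha hb)

theorem closure_pow_le {B : Type*} [CommRing B] [TopologicalSpace B] [IsTopologicalRing B]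
    (I : Ideal B) (n : ℕ) : I.closure ^ n ≤ (I ^ n).closure := by
  induction n with
  | zero =>
    simp only [pow_zero, Ideal.one_eq_top, top_le_iff]
    exact eq_top_iff.2 (fun x _ => subset_closure (Submodule.mem_top))
  | succ n ih =>
    rw [pow_succ, pow_succ]
    exact (Ideal.mul_mono_left ih).trans (closure_mul_le _ _)

/-- A weakly adic topological ring is admissible and has a countable fundamental system of open ideals. -/
theorem result
    (A : Type u) [CommRing A] [UniformSpace A] [IsUniformAddGroup A] [IsTopologicalRing A] (hA : LinTop.IsWeaklyAdic A) :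
    LinTop.IsAdmissible A ∧ (nhds (0 : A)).IsCountablyGenerated := by
  obtain ⟨⟨hlin, I, hopen, hbasis⟩, hT2, hcomp⟩ := hA
  have hb : (nhds (0 : A)).HasBasis (fun _ : ℕ => True)
      (fun n => closure (((I ^ n : Ideal A)) : Set A)) := by
    refine ⟨fun U => ⟨fun hU => ?_, fun ⟨n, _, hn⟩ => ?_⟩⟩
    · obtain ⟨n, hn⟩ := hbasis U hU
      exact ⟨n, trivial, hn⟩
    · exact Filter.mem_of_superset ((hopen n).mem_nhds (subset_closure (Ideal.zero_mem _))) hn
  refine ⟨⟨⟨hlin, I.closure, ?_, fun U hU => ?_⟩, hT2, hcomp⟩, hb.isCountablyGenerated⟩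
  · simpa using hopen 1
  · obtain ⟨n, hn⟩ := hbasis U hU
    refine ⟨n + 1, by omega, subset_trans (closure_pow_le I (n + 1)) (subset_trans ?_ hn)⟩
    change closure ((I ^ (n + 1) : Ideal A) : Set A) ⊆ closure ((I ^ n : Ideal A) : Set A)
    exact closure_mono (Ideal.pow_le_pow_right (by omega))

end Groth.Agent.S10160
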