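import Groth.Statements.S10161
-- import your own Groth.Agent.* helpers here

set_option autoImplicit false
universe u
open LinTop

namespace Groth.Agent.S10161

open UniformSpace in
/-- the closure of the image of an ideal in the completion, as an ideal -/
noncomputable def closIdeal {A : Type*} [CommRing A] [UniformSpace A] [IsUniformAddGroup A]
    [IsTopologicalRing A] (I : Ideal A) : Ideal (Completion A) where
  carrier := closure (((↑) : A → Completion A) '' (I : Set A))
  add_mem' {a b} ha hb := map_mem_closure₂ (f := fun x y : Completion A => x + y) continuous_add ha hb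
    (fun x ⟨i, hi, hx⟩ y ⟨j, hj, hy⟩ => ⟨i + j, I.add_mem hi hj, by
      rw [← hx, ← hy]; exact Completion.coe_add i j⟩)
  zero_mem' := subset_closure ⟨0, I.zero_mem, Completion.coe_zero⟩
  smul_mem' c k hk := by
    change c * k ∈ closure (((↑) : A → Completion A) '' (I : Set A))
    refine Completion.induction_on c ?_ (fun a => ?_)
    · exact isClosed_closure.preimage (continuous_id.mul continuous_const)
    · refine map_mem_closure (continuous_const.mul continuous_id) hk ?_
      rintro y ⟨i, hi, rfl⟩
      exact ⟨a * i, I.mul_mem_left a hi, (Completion.coe_mul a i)⟩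

theorem coe_closIdeal {A : Type*} [CommRing A] [UniformSpace A] [IsUniformAddGroup A]
    [IsTopologicalRing A] (I : Ideal A) :
    ((closIdeal I : Ideal (UniformSpace.Completion A)) : Set (UniformSpace.Completion A)) =
      closure (((↑) : A → UniformSpace.Completion A) '' (I : Set A)) := rfl

theorem map_le_closIdeal {A : Type*} [CommRing A] [UniformSpace A] [IsUniformAddGroup A]
    [IsTopologicalRing A] (I : Ideal A) :
    I.map (UniformSpace.Completion.coeRingHom : A →+* UniformSpace.Completion A) ≤ closIdeal I := by
  rw [Ideal.map_le_iff_le_comap]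
  intro i hi
  exact subset_closure ⟨i, hi, rfl⟩

theorem closIdeal_mem_nhds {A : Type*} [CommRing A] [UniformSpace A] [IsUniformAddGroup A]
    [IsTopologicalRing A] (I : Ideal A) (hI : IsOpen (I : Set A)) :
    ((closIdeal I : Ideal (UniformSpace.Completion A)) : Set (UniformSpace.Completion A)) ∈
      nhds (0 : UniformSpace.Completion A) := by
  rw [coe_closIdeal, ← UniformSpace.Completion.coe_zero]
  exact (UniformSpace.Completion.isDenseInducing_coe).closure_image_mem_nhds (hI.mem_nhds I.zero_mem)

theorem exists_closed_pre {A : Type*} [CommRing A] [UniformSpace A] [IsUniformAddGroup A]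
    [IsTopologicalRing A] {U : Set (UniformSpace.Completion A)}
    (hU : U ∈ nhds (0 : UniformSpace.Completion A)) :
    ∃ V, IsClosed V ∧ V ⊆ U ∧ ((↑) : A → UniformSpace.Completion A) ⁻¹' V ∈ nhds (0 : A) := by
  obtain ⟨V, hV, hVc, hVU⟩ := exists_mem_nhds_isClosed_subset hU
  refine ⟨V, hVc, hVU, ?_⟩
  have := (UniformSpace.Completion.continuous_coe A).tendsto (0 : A)
  rw [UniformSpace.Completion.coe_zero] at this
  exact this hV

theorem closIdeal_subset {A : Type*} [CommRing A] [UniformSpace A] [IsUniformAddGroup A]
    [IsTopologicalRing A] (I : Ideal A) {V : Set (UniformSpace.Completion A)} (hVc : IsClosed V)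
    (hIV : (I : Set A) ⊆ ((↑) : A → UniformSpace.Completion A) ⁻¹' V) :
    ((closIdeal I : Ideal (UniformSpace.Completion A)) : Set (UniformSpace.Completion A)) ⊆ V := by
  rw [coe_closIdeal]
  refine closure_minimal ?_ hVc
  rintro y ⟨i, hi, rfl⟩
  exact hIV hi

theorem closure_map_subset_closIdeal {A : Type*} [CommRing A] [UniformSpace A] [IsUniformAddGroup A]
    [IsTopologicalRing A] (I : Ideal A) :
    closure ((I.map (UniformSpace.Completion.coeRingHom : A →+* UniformSpace.Completion A) :
      Ideal (UniformSpace.Completion A)) : Set (UniformSpace.Completion A)) ⊆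
      ((closIdeal I : Ideal (UniformSpace.Completion A)) : Set (UniformSpace.Completion A)) := by
  have hKc : IsClosed ((closIdeal I : Ideal (UniformSpace.Completion A)) :
      Set (UniformSpace.Completion A)) := by
    rw [coe_closIdeal]; exact isClosed_closure
  exact closure_minimal (map_le_closIdeal I) hKc

/-- The (separated) completion of a weakly pre-adic linearly topologized ring is weakly adic. -/
theorem result
    (A : Type u) [CommRing A] [UniformSpace A] [IsUniformAddGroup A] [IsTopologicalRing A] [IsLinearTopology A A] (hA : LinTop.IsWeaklyPreadic A) :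
    LinTop.IsWeaklyAdic (UniformSpace.Completion A) := by
  obtain ⟨_, I, hopen, hbasis⟩ := hA
  have hlin : IsLinearTopology (UniformSpace.Completion A) (UniformSpace.Completion A) := by
    refine IsLinearTopology.mk_of_hasBasis (R := UniformSpace.Completion A)
      (S := Ideal (UniformSpace.Completion A)) (p := fun I : Ideal A => IsOpen (I : Set A))
      (s := fun I => closIdeal I) ⟨fun U => ⟨fun hU => ?_, fun ⟨J, hJ, hJU⟩ => ?_⟩⟩
    · obtain ⟨V, hVc, hVU, hpre⟩ := exists_closed_pre hU
      obtain ⟨J, hJo, hJV⟩ := (IsLinearTopology.hasBasis_open_ideal (R := A)).mem_iff.1 hpre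
      exact ⟨J, hJo, subset_trans (closIdeal_subset J hVc hJV) hVU⟩
    · exact Filter.mem_of_superset (closIdeal_mem_nhds J hJ) hJU
  refine ⟨⟨hlin, I.map UniformSpace.Completion.coeRingHom, fun n => ?_, fun U hU => ?_⟩,
    inferInstance, inferInstance⟩
  · rw [← Ideal.map_pow]
    have hmem := closIdeal_mem_nhds (I ^ n).closure (hopen n)
    refine ((Ideal.closure ((I ^ n).map (UniformSpace.Completion.coeRingHom : A →+*
      UniformSpace.Completion A)))).toAddSubgroup.isOpen_of_mem_nhds (Filter.mem_of_superset hmem ?_)
    rw [coe_closIdeal]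
    change closure _ ⊆ closure _
    refine closure_minimal ?_ isClosed_closure
    rintro y ⟨x, hx, rfl⟩
    refine map_mem_closure (UniformSpace.Completion.continuous_coe A) hx ?_
    intro a ha
    exact Ideal.mem_map_of_mem (UniformSpace.Completion.coeRingHom : A →+* UniformSpace.Completion A) ha
  · obtain ⟨V, hVc, hVU, hpre⟩ := exists_closed_pre hU
    obtain ⟨n, hn⟩ := hbasis _ hpre
    refine ⟨n, ?_⟩
    rw [← Ideal.map_pow]
    exact subset_trans (closure_map_subset_closIdeal (I ^ n))
      (subset_trans (closIdeal_subset (I ^ n) hVc (fun x hx => hn (subset_closure hx))) hVU)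

end Groth.Agent.S10161
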