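import Groth.Statements.S10162
-- import your own Groth.Agent.* helpers here

set_option autoImplicit false
universe u
open LinTop

namespace Groth.Agent.S10162

open UniformSpace in
/-- the closure of the image of an ideal in the completion, as an ideal -/
noncomputable def closIdeal {A : Type*} [CommRing A] [UniformSpace A] [IsUniformAddGroup A]
    [IsTopologicalRing A] (I : Ideal A) : Ideal (Completion A) where
  carrier := closure (((↑) : A → Completion A) '' (I : Set A))
  add_mem' {a b} ha hb := map_mem_closure₂ (f := fun x y : Completion A => x + y) continuous_add ha hb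
    (fun x ⟨i, hi, hx⟩ y ⟨j, hj, hy⟩ => ⟨i + j, I.add_mem hi hj, by
      rw [← hx, ← hy]; exact Completion.coe_add i j⟩)
  zero_mem' := subset_closure ⟨0, I.zero_mem, Completion.coe_zero⟩
  smul_mem' c k hk := by
    change c * k ∈ closure (((↑) : A → Completion A) '' (I : Set A))
    refine Completion.induction_on c ?_ (fun a => ?_)
    · exact isClosed_closure.preimage (continuous_id.mul continuous_const)
    · refine map_mem_closure (continuous_const.mul continuous_id) hk ?_
      rintro y ⟨i, hi, rfl⟩
      exact ⟨a * i, I.mul_mem_left a hi, (Completion.coe_mul a i)⟩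

theorem coe_closIdeal {A : Type*} [CommRing A] [UniformSpace A] [IsUniformAddGroup A]
    [IsTopologicalRing A] (I : Ideal A) :
    ((closIdeal I : Ideal (UniformSpace.Completion A)) : Set (UniformSpace.Completion A)) =
      closure (((↑) : A → UniformSpace.Completion A) '' (I : Set A)) := rfl

theorem map_le_closIdeal {A : Type*} [CommRing A] [UniformSpace A] [IsUniformAddGroup A]
    [IsTopologicalRing A] (I : Ideal A) :
    I.map (UniformSpace.Completion.coeRingHom : A →+* UniformSpace.Completion A) ≤ closIdeal I := by
  rw [Ideal.map_le_iff_le_comap]
  intro i hi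
  exact subset_closure ⟨i, hi, rfl⟩

/-- For a linearly topologized ring A, the canonical map from A to its (separated) completion is taut. -/
theorem result
    (A : Type u) [CommRing A] [UniformSpace A] [IsUniformAddGroup A] [IsTopologicalRing A] [IsLinearTopology A A] :
    LinTop.IsTaut (UniformSpace.Completion.coeRingHom : A →+* UniformSpace.Completion A) := by
  refine ⟨UniformSpace.Completion.continuous_coe A, fun I hI => ?_, fun U hU => ?_⟩
  · have hmem : closure (((↑) : A → UniformSpace.Completion A) '' (I : Set A)) ∈
        nhds ((↑(0 : A)) : UniformSpace.Completion A) :=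
      (UniformSpace.Completion.isDenseInducing_coe).closure_image_mem_nhds (hI.mem_nhds I.zero_mem)
    have hsub : closure (((↑) : A → UniformSpace.Completion A) '' (I : Set A)) ⊆
        closure ((I.map (UniformSpace.Completion.coeRingHom : A →+* UniformSpace.Completion A) :
          Ideal (UniformSpace.Completion A)) : Set (UniformSpace.Completion A)) := by
      apply closure_mono
      rintro y ⟨i, hi, rfl⟩
      exact Ideal.mem_map_of_mem _ hi
    exact ((I.map (UniformSpace.Completion.coeRingHom : A →+* UniformSpace.Completion A)).closure
      ).toAddSubgroup.isOpen_of_mem_nhds (Filter.mem_of_superset hmem hsub)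
  · obtain ⟨V, hV, hVc, hVU⟩ := exists_mem_nhds_isClosed_subset hU
    have hpre : ((↑) : A → UniformSpace.Completion A) ⁻¹' V ∈ nhds (0 : A) := by
      have := (UniformSpace.Completion.continuous_coe A).tendsto (0 : A)
      rw [UniformSpace.Completion.coe_zero] at this
      exact this hV
    obtain ⟨I, hIo, hIV⟩ := (IsLinearTopology.hasBasis_open_ideal (R := A)).mem_iff.1 hpre
    refine ⟨I, hIo, ?_⟩
    have hKc : IsClosed ((closIdeal I : Ideal (UniformSpace.Completion A)) :
        Set (UniformSpace.Completion A)) := by
      rw [coe_closIdeal]; exact isClosed_closure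
    calc closure ((I.map (UniformSpace.Completion.coeRingHom : A →+* UniformSpace.Completion A) :
            Ideal (UniformSpace.Completion A)) : Set (UniformSpace.Completion A))
        ⊆ closure ((closIdeal I : Ideal (UniformSpace.Completion A)) :
            Set (UniformSpace.Completion A)) := closure_mono (map_le_closIdeal I)
      _ = (closIdeal I : Set (UniformSpace.Completion A)) := hKc.closure_eq
      _ ⊆ V := by
        rw [coe_closIdeal]
        refine closure_minimal ?_ hVc
        rintro y ⟨i, hi, rfl⟩
        exact hIV hi
      _ ⊆ U := hVU

end Groth.Agent.S10162
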