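import Groth.Statements.S10165
-- import your own Groth.Agent.* helpers here

set_option autoImplicit false
universe u v
open LinTop

namespace Groth.Agent.S10165

/-- Let φ : A → B be a taut homomorphism of linearly topologized rings. If A is weakly pre-adic, then B
is weakly pre-adic. -/
theorem result
    (A : Type u) [CommRing A] [TopologicalSpace A] [IsTopologicalRing A] [IsLinearTopology A A]
    (B : Type v) [CommRing B] [TopologicalSpace B] [IsTopologicalRing B] [IsLinearTopology B B]
    (φ : A →+* B) (hφ : LinTop.IsTaut φ) (hA : LinTop.IsWeaklyPreadic A) :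
    LinTop.IsWeaklyPreadic B := by
  obtain ⟨h1, h2, h3⟩ := hφ
  obtain ⟨_, I, hopen, hbasis⟩ := hA
  refine ⟨inferInstance, I.map φ, fun n => ?_, fun U hU => ?_⟩
  · have hK := h2 (I ^ n).closure (hopen n)
    have hle : (I ^ n).closure.map φ ≤ ((I ^ n).map φ).closure := by
      rw [Ideal.map_le_iff_le_comap]
      intro x hx
      exact map_mem_closure h1 hx (fun a ha => Ideal.mem_map_of_mem φ ha)
    rw [← Ideal.map_pow]
    change IsOpen ((((I ^ n).map φ).closure : Ideal B) : Set B)
    refine Submodule.isOpen_mono (R := B) (U := ((I ^ n).closure.map φ).closure) ?_ hK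
    intro x hx
    have : x ∈ closure ((((I ^ n).map φ).closure : Ideal B) : Set B) := closure_mono hle hx
    rwa [Ideal.coe_closure, closure_closure] at this
  · obtain ⟨I', hI'o, hI'U⟩ := h3 U hU
    obtain ⟨n, hn⟩ := hbasis _ (hI'o.mem_nhds I'.zero_mem)
    refine ⟨n, subset_trans ?_ hI'U⟩
    rw [← Ideal.map_pow]
    apply closure_mono
    exact Ideal.map_mono (fun x hx => hn (subset_closure hx))

end Groth.Agent.S10165
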