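import Groth.Statements.S10166
-- import your own Groth.Agent.* helpers here

set_option autoImplicit false
universe u v
open LinTop

namespace Groth.Agent.S10166

theorem comap_closure_map_eq {A B : Type*} [CommRing A] [TopologicalSpace A]
    [CommRing B] [TopologicalSpace B] [IsTopologicalRing B]
    (φ : A →+* B) (hφ : LinTop.IsTautFFlat φ) (I : Ideal A) (hI : IsOpen (I : Set A)) :
    ((I.map φ).closure).comap φ = I := by
  apply le_antisymm
  · intro x hx
    have hinj := (hφ.2 I hI).injective
    have h0 : LinTop.descentMap φ I (Ideal.Quotient.mk I x) = LinTop.descentMap φ I 0 := by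
      rw [map_zero]
      simp only [LinTop.descentMap, Ideal.quotientMap_mk]
      exact Ideal.Quotient.eq_zero_iff_mem.2 hx
    exact Ideal.Quotient.eq_zero_iff_mem.1 (hinj h0)
  · exact Ideal.le_comap_map.trans (Ideal.comap_mono fun _ hx => subset_closure hx)

/-- Let φ : A → B be a taut homomorphism of linearly topologized rings such that for every open ideal I
of A, with J the closure of φ(I)B, the induced map A/I → B/J is faithfully flat. If B has a
countable fundamental system of open ideals, then so does A. -/
theorem result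
    (A : Type u) [CommRing A] [TopologicalSpace A] [IsTopologicalRing A] [IsLinearTopology A A]
    (B : Type v) [CommRing B] [TopologicalSpace B] [IsTopologicalRing B] [IsLinearTopology B B]
    (φ : A →+* B) (hφ : LinTop.IsTautFFlat φ) (hB : (nhds (0 : B)).IsCountablyGenerated) :
    (nhds (0 : A)).IsCountablyGenerated := by
  obtain ⟨⟨h1, h2, _⟩, _⟩ := id hφ
  obtain ⟨x, hx⟩ := (nhds (0 : B)).exists_antitone_basis
  have hJ : ∀ n, ∃ J : Ideal B, IsOpen (J : Set B) ∧ (J : Set B) ⊆ x n := fun n =>
    (IsLinearTopology.hasBasis_open_ideal (R := B)).mem_iff.1 (hx.1.mem_of_mem trivial)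
  choose J hJo hJx using hJ
  have hb : (nhds (0 : A)).HasBasis (fun _ : ℕ => True)
      (fun n => (((J n).comap φ : Ideal A) : Set A)) := by
    refine ⟨fun U => ⟨fun hU => ?_, fun ⟨n, _, hn⟩ => ?_⟩⟩
    · obtain ⟨I', hI'o, hI'U⟩ := (IsLinearTopology.hasBasis_open_ideal (R := A)).mem_iff.1 hU
      have hKo := h2 I' hI'o
      obtain ⟨n, _, hn⟩ := hx.1.mem_iff.1 (hKo.mem_nhds (subset_closure (Ideal.zero_mem _)))
      refine ⟨n, trivial, subset_trans ?_ hI'U⟩
      rw [← comap_closure_map_eq φ hφ I' hI'o]
      exact Ideal.comap_mono (fun b hb => hn (hJx n hb))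
    · exact Filter.mem_of_superset (((hJo n).preimage h1).mem_nhds (by simp)) hn
  exact hb.isCountablyGenerated

end Groth.Agent.S10166
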