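import Groth.Statements.S10169
-- import your own Groth.Agent.* helpers here

set_option autoImplicit false
universe u v
open LinTop

namespace Groth.Agent.S10169

theorem closure_mul_le {B : Type*} [CommRing B] [TopologicalSpace B] [IsTopologicalRing B]
    (I J : Ideal B) : I.closure * J.closure ≤ (I * J).closure := by
  rw [Ideal.mul_le]
  intro r hr s hs
  exact map_mem_closure₂ (f := fun a b : B => a * b) continuous_mul hr hs
    (fun a ha b hb => Ideal.mul_mem_mul ha hb)

theorem closure_pow_le {B : Type*} [CommRing B] [TopologicalSpace B] [IsTopologicalRing B]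
    (I : Ideal B) (n : ℕ) : I.closure ^ n ≤ (I ^ n).closure := by
  induction n with
  | zero =>
    simp only [pow_zero, Ideal.one_eq_top, top_le_iff]
    exact eq_top_iff.2 (fun x _ => subset_closure (Submodule.mem_top))
  | succ n ih =>
    rw [pow_succ, pow_succ]
    exact (Ideal.mul_mono_left ih).trans (closure_mul_le _ _)

theorem comap_closure_map_eq {A B : Type*} [CommRing A] [TopologicalSpace A]
    [CommRing B] [TopologicalSpace B] [IsTopologicalRing B]
    (φ : A →+* B) (hφ : LinTop.IsTautFFlat φ) (I : Ideal A) (hI : IsOpen (I : Set A)) :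
    ((I.map φ).closure).comap φ = I := by
  apply le_antisymm
  · intro x hx
    have hinj := (hφ.2 I hI).injective
    have h0 : LinTop.descentMap φ I (Ideal.Quotient.mk I x) = LinTop.descentMap φ I 0 := by
      rw [map_zero]
      simp only [LinTop.descentMap, Ideal.quotientMap_mk]
      exact Ideal.Quotient.eq_zero_iff_mem.2 hx
    exact Ideal.Quotient.eq_zero_iff_mem.1 (hinj h0)
  · exact Ideal.le_comap_map.trans (Ideal.comap_mono fun _ hx => subset_closure hx)

theorem comap_map_ff {R S : Type*} [CommRing R] [CommRing S] (f : R →+* S) (hf : f.FaithfullyFlat)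
    (I : Ideal R) : (I.map f).comap f = I := by
  letI := f.toAlgebra
  haveI : Module.FaithfullyFlat R S := hf
  exact Ideal.comap_map_eq_self_of_faithfullyFlat I

theorem comap_closure_le_closure {A B : Type*} [CommRing A] [TopologicalSpace A]
    [IsTopologicalRing A] [IsLinearTopology A A]
    [CommRing B] [TopologicalSpace B] [IsTopologicalRing B]
    (φ : A →+* B) (hφ : LinTop.IsTautFFlat φ) (K : Ideal A) :
    ((K.map φ).closure).comap φ ≤ K.closure := by
  intro x hx
  change x ∈ closure (K : Set A)
  rw [mem_closure_iff_nhds_basis ((IsLinearTopology.hasBasis_open_ideal (R := A)).nhds_of_zero x)]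
  intro I' hI'
  have hJ'o : IsOpen (((I'.map φ).closure : Ideal B) : Set B) := hφ.1.2.1 I' hI'
  have hpre : {w : B | w - φ x ∈ (((I'.map φ).closure : Ideal B) : Set B)} ∈ nhds (φ x) := by
    have ht := (continuous_sub_right (φ x)).tendsto (φ x)
    rw [sub_self] at ht
    exact ht (hJ'o.mem_nhds (Ideal.zero_mem _))
  obtain ⟨z, hzx, hz⟩ := mem_closure_iff_nhds.1 (show φ x ∈ closure ((K.map φ : Ideal B) : Set B)
    from hx) _ hpre
  have hD := comap_map_ff (LinTop.descentMap φ I') (hφ.2 I' hI') (K.map (Ideal.Quotient.mk I'))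
  have hmem : Ideal.Quotient.mk I' x ∈ K.map (Ideal.Quotient.mk I') := by
    rw [← hD, Ideal.mem_comap, Ideal.map_map]
    have hcomp : (LinTop.descentMap φ I').comp (Ideal.Quotient.mk I') =
        (Ideal.Quotient.mk (I'.map φ).closure).comp φ := by
      ext a; simp [LinTop.descentMap, Ideal.quotientMap_mk]
    rw [hcomp, ← Ideal.map_map]
    have h1 : LinTop.descentMap φ I' (Ideal.Quotient.mk I' x) =
        Ideal.Quotient.mk (I'.map φ).closure (φ x) := by
      simp [LinTop.descentMap, Ideal.quotientMap_mk]
    rw [h1]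
    have h2 : Ideal.Quotient.mk (I'.map φ).closure (φ x) = Ideal.Quotient.mk (I'.map φ).closure z := by
      rw [Ideal.Quotient.eq]
      have : φ x - z = -(z - φ x) := by abel
      rw [this]
      exact (Ideal.neg_mem_iff _).2 hzx
    rw [h2]
    exact Ideal.mem_map_of_mem _ hz
  rw [Ideal.mem_quotient_iff_mem_sup] at hmem
  obtain ⟨k, hk, i, hi, rfl⟩ := Submodule.mem_sup.1 hmem
  refine ⟨k, hk, ?_⟩
  change k - (k + i) ∈ I'
  have : k - (k + i) = -i := by abel
  rw [this]
  exact I'.neg_mem hi

/-- Let φ : A → B be a taut homomorphism of linearly topologized rings such that for every open ideal I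
of A the induced ring map A/I → B/J, where J denotes the closure of φ(I)B, is faithfully flat. Weak
pre-adicness then descends: when B is weakly pre-adic, A is as well. -/
theorem result
    (A : Type u) [CommRing A] [TopologicalSpace A] [IsTopologicalRing A] [IsLinearTopology A A]
    (B : Type v) [CommRing B] [TopologicalSpace B] [IsTopologicalRing B] [IsLinearTopology B B]
    (φ : A →+* B) (hφ : LinTop.IsTautFFlat φ) (hB : LinTop.IsWeaklyPreadic B) :
    LinTop.IsWeaklyPreadic A := by
  obtain ⟨⟨h1, h2, h3⟩, _⟩ := id hφ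
  obtain ⟨_, J, hJopen, hJbasis⟩ := hB
  have hJc : IsOpen ((J.closure : Ideal B) : Set B) := by simpa using hJopen 1
  let I : Ideal A := J.closure.comap φ
  -- the closure of I B is open
  have hKo : IsOpen (((I.map φ).closure : Ideal B) : Set B) := by
    obtain ⟨I', hI'o, hI'J⟩ := h3 _ (hJc.mem_nhds (Ideal.zero_mem _))
    have hI'I : I' ≤ I := by
      rw [← comap_closure_map_eq φ hφ I' hI'o]
      exact Ideal.comap_mono hI'J
    refine Submodule.isOpen_mono (R := B) (U := (I'.map φ).closure) ?_ (h2 I' hI'o)
    exact closure_mono (Ideal.map_mono hI'I)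
  have hBn : ∀ n, IsOpen ((((I.map φ) ^ n).closure : Ideal B) : Set B) := by
    intro n
    obtain ⟨k, hk⟩ := hJbasis _ (hKo.mem_nhds (Ideal.zero_mem _))
    refine Submodule.isOpen_mono (R := B) (U := (J ^ (k * n)).closure) ?_ (hJopen (k * n))
    have hJk : J ^ k ≤ (I.map φ).closure := fun x hx => hk (subset_closure hx)
    have : J ^ (k * n) ≤ ((I.map φ) ^ n).closure := by
      rw [pow_mul]
      exact (Ideal.pow_right_mono hJk n).trans (closure_pow_le _ n)
    intro x hx
    have hx' : x ∈ closure ((((I.map φ) ^ n).closure : Ideal B) : Set B) := closure_mono this hx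
    rwa [Ideal.coe_closure, closure_closure] at hx'
  refine ⟨inferInstance, I, fun n => ?_, fun U hU => ?_⟩
  · have hle := comap_closure_le_closure φ hφ (I ^ n)
    refine Submodule.isOpen_mono (R := A) (U := (((I ^ n).map φ).closure).comap φ) hle ?_
    rw [Ideal.map_pow]
    exact (hBn n).preimage h1
  · obtain ⟨I', hI'o, hI'U⟩ := (IsLinearTopology.hasBasis_open_ideal (R := A)).mem_iff.1 hU
    obtain ⟨m, hm⟩ := hJbasis _ ((h2 I' hI'o).mem_nhds (subset_closure (Ideal.zero_mem _)))
    refine ⟨m, subset_trans ?_ hI'U⟩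
    have hc : IsClosed ((((J ^ m).closure).comap φ : Ideal A) : Set A) :=
      isClosed_closure.preimage h1
    have hsub : ((I ^ m : Ideal A) : Set A) ⊆ (((J ^ m).closure).comap φ : Ideal A) := by
      have : (I ^ m).map φ ≤ (J ^ m).closure := by
        rw [Ideal.map_pow]
        exact (Ideal.pow_right_mono Ideal.map_comap_le m).trans (closure_pow_le J m)
      exact Ideal.map_le_iff_le_comap.1 this
    refine subset_trans (closure_minimal hsub hc) ?_
    rw [← comap_closure_map_eq φ hφ I' hI'o]
    exact Ideal.comap_mono hm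

end Groth.Agent.S10169
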