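import Groth.Statements.S10171
-- import your own Groth.Agent.* helpers here

set_option autoImplicit false
universe u v
open LinTop

namespace Groth.Agent.S10171

/-- Let M be a linearly topologized module over a ring R and N a submodule. Write M^ for the separated
completion of M and (M/N)^ for that of M/N (quotient topology, additive uniform structure). Then the
kernel of the induced map M^ → (M/N)^ is the closure of the image of N in M^; that closure is the
completion of N, so this is the exactness of 0 → N^ → M^ → (M/N)^ at M^. -/
theorem result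
    {R : Type u} [Ring R] {M : Type v} [AddCommGroup M] [Module R M] [UniformSpace M]
    [IsUniformAddGroup M] [IsLinearTopology R M] (N : Submodule R M) :
    (@UniformSpace.Completion.map M _ (M ⧸ N.toAddSubgroup)
        (IsTopologicalAddGroup.rightUniformSpace (M ⧸ N.toAddSubgroup))
        (QuotientAddGroup.mk' N.toAddSubgroup)) ⁻¹' {0} =
      closure (Set.range (fun n : N => ((n : M) : UniformSpace.Completion M))) := by
  let uQ : UniformSpace (M ⧸ N.toAddSubgroup) :=
    IsTopologicalAddGroup.rightUniformSpace (M ⧸ N.toAddSubgroup)
  have : IsUniformAddGroup (M ⧸ N.toAddSubgroup) := isUniformAddGroup_of_addCommGroup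
  set q : M →+ M ⧸ N.toAddSubgroup := QuotientAddGroup.mk' N.toAddSubgroup with hq
  have hqc : Continuous q := continuous_quot_mk
  let φ : UniformSpace.Completion M →+ UniformSpace.Completion (M ⧸ N.toAddSubgroup) :=
    AddMonoidHom.completion q hqc
  have hφ : (⇑φ : UniformSpace.Completion M → UniformSpace.Completion (M ⧸ N.toAddSubgroup)) =
      UniformSpace.Completion.map q := rfl
  have hφc : Continuous φ := AddMonoidHom.continuous_completion q hqc
  have hφcoe : ∀ m : M, φ m = ((q m : M ⧸ N.toAddSubgroup) : UniformSpace.Completion (M ⧸ N.toAddSubgroup)) :=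
    fun m => AddMonoidHom.completion_coe q hqc m
  rw [← hφ]
  apply Set.Subset.antisymm
  · intro x hx
    simp only [Set.mem_preimage, Set.mem_singleton_iff] at hx
    rw [mem_closure_iff_nhds]
    intro t ht
    have hW : (fun y => y + x) ⁻¹' t ∈ nhds (0 : UniformSpace.Completion M) := by
      apply (continuous_id.add continuous_const).continuousAt.preimage_mem_nhds
      simpa using ht
    obtain ⟨V, hV, hVc, hVW⟩ := exists_mem_nhds_isClosed_subset hW
    have hV' : ((↑) : M → UniformSpace.Completion M) ⁻¹' V ∈ nhds (0 : M) := by
      apply (UniformSpace.Completion.continuous_coe M).continuousAt.preimage_mem_nhds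
      rw [UniformSpace.Completion.coe_zero]; exact hV
    obtain ⟨U, hUo, hUV⟩ := (IsLinearTopology.hasBasis_open_submodule R).mem_iff.1 hV'
    let V' : AddSubgroup (UniformSpace.Completion M) :=
      (U.toAddSubgroup.map (UniformSpace.Completion.toCompl : M →+ _)).topologicalClosure
    have hV'nhds : (V' : Set (UniformSpace.Completion M)) ∈ nhds 0 := by
      have := (UniformSpace.Completion.isDenseInducing_coe).closure_image_mem_nhds
        (hUo.mem_nhds U.zero_mem)
      rw [UniformSpace.Completion.coe_zero] at this
      exact this
    have hV'V : (V' : Set (UniformSpace.Completion M)) ⊆ V := by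
      change closure _ ⊆ V
      refine closure_minimal ?_ hVc
      rintro _ ⟨u, hu, rfl⟩
      exact hUV hu
    -- approximate x by an element of M
    have hx' : (fun y => x - y) ⁻¹' (V' : Set (UniformSpace.Completion M)) ∈ nhds x := by
      apply (continuous_const.sub continuous_id).continuousAt.preimage_mem_nhds
      simpa using hV'nhds
    obtain ⟨m, hm⟩ := (UniformSpace.Completion.denseRange_coe).mem_nhds hx'
    simp only [Set.mem_preimage] at hm
    -- the image in the quotient
    let S : AddSubgroup (M ⧸ N.toAddSubgroup) := U.toAddSubgroup.map q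
    have hSo : IsOpen (S : Set (M ⧸ N.toAddSubgroup)) := by
      change IsOpen (q '' U)
      exact QuotientAddGroup.isOpenMap_coe _ hUo
    have hSc : IsClosed (S : Set (M ⧸ N.toAddSubgroup)) := AddSubgroup.isClosed_of_isOpen S hSo
    have h1 : φ (x - m) ∈ closure (((↑) : M ⧸ N.toAddSubgroup → UniformSpace.Completion (M ⧸ N.toAddSubgroup)) ''
        (S : Set (M ⧸ N.toAddSubgroup))) := by
      have := image_closure_subset_closure_image hφc ⟨_, hm, rfl⟩
      refine closure_mono ?_ this
      rintro _ ⟨_, ⟨u, hu, rfl⟩, rfl⟩
      exact ⟨q u, ⟨u, hu, rfl⟩, (hφcoe u).symm⟩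
    rw [map_sub, hx, zero_sub, hφcoe] at h1
    let S' : AddSubgroup (UniformSpace.Completion (M ⧸ N.toAddSubgroup)) :=
      (S.map (UniformSpace.Completion.toCompl : _ →+ _)).topologicalClosure
    have h2 : ((q m : M ⧸ N.toAddSubgroup) : UniformSpace.Completion (M ⧸ N.toAddSubgroup)) ∈
        closure (((↑) : M ⧸ N.toAddSubgroup → UniformSpace.Completion (M ⧸ N.toAddSubgroup)) ''
          (S : Set (M ⧸ N.toAddSubgroup))) := by
      have : -(((q m : M ⧸ N.toAddSubgroup) : UniformSpace.Completion (M ⧸ N.toAddSubgroup))) ∈ S' :=
        h1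
      have := S'.neg_mem this
      rw [neg_neg] at this
      exact this
    have h3 : q m ∈ closure (S : Set (M ⧸ N.toAddSubgroup)) := by
      rw [(UniformSpace.Completion.isUniformInducing_coe _).isInducing.closure_eq_preimage_closure_image]
      exact h2
    rw [hSc.closure_eq] at h3
    obtain ⟨u, hu, hqu⟩ := h3
    have hn : -u + m ∈ N := by
      have := (QuotientAddGroup.eq (s := N.toAddSubgroup)).1 hqu
      exact this
    refine ⟨((⟨-u + m, hn⟩ : N) : M), ?_, ⟨⟨-u + m, hn⟩, rfl⟩⟩
    have hu' : ((u : M) : UniformSpace.Completion M) ∈ V' := subset_closure ⟨u, hu, rfl⟩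
    have e : ((-u + m : M) : UniformSpace.Completion M) - x =
        -((u : M) : UniformSpace.Completion M) - (x - m) := by
      rw [UniformSpace.Completion.coe_add, UniformSpace.Completion.coe_neg]; abel
    have hmem : ((-u + m : M) : UniformSpace.Completion M) - x ∈ V' := by
      rw [e]; exact V'.sub_mem (V'.neg_mem hu') hm
    have := hVW (hV'V hmem)
    simpa using this
  · apply closure_minimal
    · rintro _ ⟨n, rfl⟩
      simp only [Set.mem_preimage, Set.mem_singleton_iff]
      rw [hφcoe]
      have : q n = 0 := (QuotientAddGroup.eq_zero_iff _).2 n.2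
      rw [this, UniformSpace.Completion.coe_zero]
    · exact isClosed_singleton.preimage hφc

end Groth.Agent.S10171
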