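import Groth.Statements.S10172
import Mathlib.Topology.Algebra.IsUniformGroup.Basic
-- import your own Groth.Agent.* helpers here

set_option autoImplicit false
universe u v
open LinTop

namespace Groth.Agent.S10172

/-- Let M be a linearly topologized module over a ring R having a countable fundamental system of
neighbourhoods of 0, and N a submodule. With M^ and (M/N)^ the separated completions of M and of M/N
(quotient topology, additive uniform structure), the induced map M^ → (M/N)^ is surjective and open
(so, its kernel being the completion of N, the sequence 0 → N^ → M^ → (M/N)^ → 0 is exact). -/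
theorem result
    {R : Type u} [Ring R] {M : Type v} [AddCommGroup M] [Module R M] [UniformSpace M]
    [IsUniformAddGroup M] [IsLinearTopology R M] (hc : (nhds (0 : M)).IsCountablyGenerated)
    (N : Submodule R M) :
    Function.Surjective (@UniformSpace.Completion.map M _ (M ⧸ N.toAddSubgroup)
        (IsTopologicalAddGroup.rightUniformSpace (M ⧸ N.toAddSubgroup))
        (QuotientAddGroup.mk' N.toAddSubgroup)) ∧
      IsOpenMap (@UniformSpace.Completion.map M _ (M ⧸ N.toAddSubgroup)
        (IsTopologicalAddGroup.rightUniformSpace (M ⧸ N.toAddSubgroup))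
        (QuotientAddGroup.mk' N.toAddSubgroup)) := by
  let uQ : UniformSpace (M ⧸ N.toAddSubgroup) :=
    IsTopologicalAddGroup.rightUniformSpace (M ⧸ N.toAddSubgroup)
  have : IsUniformAddGroup (M ⧸ N.toAddSubgroup) := isUniformAddGroup_of_addCommGroup
  set q : M →+ M ⧸ N.toAddSubgroup := QuotientAddGroup.mk' N.toAddSubgroup with hq
  have hqc : Continuous q := continuous_quot_mk
  have hqo : IsOpenMap q := QuotientAddGroup.isOpenMap_coe
  let φ : UniformSpace.Completion M →+ UniformSpace.Completion (M ⧸ N.toAddSubgroup) :=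
    AddMonoidHom.completion q hqc
  have hφ : (⇑φ : UniformSpace.Completion M → UniformSpace.Completion (M ⧸ N.toAddSubgroup)) =
      UniformSpace.Completion.map q := rfl
  have hφc : Continuous φ := AddMonoidHom.continuous_completion q hqc
  have hφcoe : ∀ m : M, φ m = ((q m : M ⧸ N.toAddSubgroup) :
      UniformSpace.Completion (M ⧸ N.toAddSubgroup)) :=
    fun m => AddMonoidHom.completion_coe q hqc m
  rw [← hφ]
  -- a decreasing basis of open submodules
  obtain ⟨B, hBo, hB⟩ := (IsLinearTopology.hasBasis_open_submodule R (M := M)).exists_antitone_subbasis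
  -- closures in the quotient completion
  have hV''nhds : ∀ U : Submodule R M, IsOpen (U : Set M) →
      closure (((↑) : M ⧸ N.toAddSubgroup → UniformSpace.Completion (M ⧸ N.toAddSubgroup)) ''
        (q '' U)) ∈ nhds (0 : UniformSpace.Completion (M ⧸ N.toAddSubgroup)) := by
    intro U hU
    have := (UniformSpace.Completion.isDenseInducing_coe).closure_image_mem_nhds
      ((hqo _ hU).mem_nhds ⟨0, U.zero_mem, map_zero q⟩)
    rw [UniformSpace.Completion.coe_zero] at this
    exact this
  have hQclosed : ∀ U : Submodule R M, IsOpen (U : Set M) →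
      ((↑) : M ⧸ N.toAddSubgroup → UniformSpace.Completion (M ⧸ N.toAddSubgroup)) ⁻¹'
        closure (((↑) : M ⧸ N.toAddSubgroup → UniformSpace.Completion (M ⧸ N.toAddSubgroup)) ''
          (q '' U)) = q '' U := by
    intro U hU
    rw [← (UniformSpace.Completion.isUniformInducing_coe _).isInducing.closure_eq_preimage_closure_image]
    have : IsOpen ((U.toAddSubgroup.map q : AddSubgroup _) : Set (M ⧸ N.toAddSubgroup)) := hqo _ hU
    exact (AddSubgroup.isClosed_of_isOpen _ this).closure_eq
  -- the key lifting lemma
  have hlift : ∀ U : Submodule R M, IsOpen (U : Set M) →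
      ∀ y ∈ closure (((↑) : M ⧸ N.toAddSubgroup → UniformSpace.Completion (M ⧸ N.toAddSubgroup)) ''
        (q '' U)), ∃ x ∈ closure (((↑) : M → UniformSpace.Completion M) '' U),
          UniformSpace.Completion.map q x = y := by
    intro U hU y hy
    let Uk : ℕ → Submodule R M := fun k => U ⊓ B k
    have hUko : ∀ k, IsOpen (Uk k : Set M) := fun k => (hU.inter (hBo k))
    have hUk_anti : Antitone Uk := fun i j hij => inf_le_inf_left U (by
      intro z hz; exact hB.antitone hij hz)
    have hUkU : ∀ k, Uk k ≤ U := fun k => inf_le_left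
    have hUkbasis : (nhds (0 : M)).HasBasis (fun _ => True) (fun k => (Uk k : Set M)) := by
      refine ⟨fun t => ⟨fun ht => ?_, fun ⟨k, _, hk⟩ => ?_⟩⟩
      · obtain ⟨k, -, hk⟩ := hB.toHasBasis.mem_iff.1 (Filter.inter_mem (hU.mem_nhds U.zero_mem) ht)
        exact ⟨k, trivial, fun z hz => (hk hz.2).2⟩
      · exact Filter.mem_of_superset ((hUko k).mem_nhds (Uk k).zero_mem) hk
    -- V''_k form a basis at 0 of the quotient completion
    have hV''basis : ∀ W ∈ nhds (0 : UniformSpace.Completion (M ⧸ N.toAddSubgroup)), ∃ k,
        closure (((↑) : M ⧸ N.toAddSubgroup → UniformSpace.Completion (M ⧸ N.toAddSubgroup)) ''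
          (q '' Uk k)) ⊆ W := by
      intro W hW
      obtain ⟨W', hW', hW'c, hW'W⟩ := exists_mem_nhds_isClosed_subset hW
      have h1 : q ⁻¹' (((↑) : M ⧸ N.toAddSubgroup → UniformSpace.Completion (M ⧸ N.toAddSubgroup)) ⁻¹' W') ∈
          nhds (0 : M) := by
        apply ((UniformSpace.Completion.continuous_coe _).comp hqc).continuousAt.preimage_mem_nhds
        simp only [Function.comp_apply, map_zero, UniformSpace.Completion.coe_zero]
        exact hW'
      obtain ⟨k, -, hk⟩ := hUkbasis.mem_iff.1 h1
      refine ⟨k, (closure_minimal ?_ hW'c).trans hW'W⟩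
      rintro _ ⟨_, ⟨u, hu, rfl⟩, rfl⟩
      exact hk hu
    -- approximations
    have hz : ∀ k, ∃ z : M ⧸ N.toAddSubgroup, y - z ∈ closure
        (((↑) : M ⧸ N.toAddSubgroup → UniformSpace.Completion (M ⧸ N.toAddSubgroup)) '' (q '' Uk k)) := by
      intro k
      have : (fun w => y - w) ⁻¹' closure
          (((↑) : M ⧸ N.toAddSubgroup → UniformSpace.Completion (M ⧸ N.toAddSubgroup)) '' (q '' Uk k)) ∈
          nhds y := by
        apply (continuous_const.sub continuous_id).continuousAt.preimage_mem_nhds
        simpa using hV''nhds (Uk k) (hUko k)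
      exact (UniformSpace.Completion.denseRange_coe).mem_nhds this
    choose z hz using hz
    -- closures of images of subgroups are subgroups
    let G'' : ℕ → AddSubgroup (UniformSpace.Completion (M ⧸ N.toAddSubgroup)) := fun k =>
      (((Uk k).toAddSubgroup.map q).map (UniformSpace.Completion.toCompl : _ →+ _)).topologicalClosure
    have hG'' : ∀ k, ((G'' k : AddSubgroup _) : Set (UniformSpace.Completion (M ⧸ N.toAddSubgroup))) =
        closure (((↑) : M ⧸ N.toAddSubgroup → UniformSpace.Completion (M ⧸ N.toAddSubgroup)) ''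
          (q '' Uk k)) := fun k => rfl
    have hG''anti : ∀ i j, i ≤ j → G'' j ≤ G'' i := by
      intro i j hij w hw
      change w ∈ closure _ at hw ⊢
      refine closure_mono ?_ hw
      rintro _ ⟨_, ⟨u, hu, rfl⟩, rfl⟩
      exact ⟨_, ⟨u, hUk_anti hij hu, rfl⟩, rfl⟩
    -- differences
    have hd : ∀ k, ∃ d ∈ Uk k, q d = z (k + 1) - z k := by
      intro k
      have h1 : ((z (k + 1) - z k : M ⧸ N.toAddSubgroup) : UniformSpace.Completion (M ⧸ N.toAddSubgroup))
          ∈ G'' k := by
        have e : ((z (k + 1) - z k : M ⧸ N.toAddSubgroup) :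
            UniformSpace.Completion (M ⧸ N.toAddSubgroup)) = (y - z k) - (y - z (k + 1)) := by
          rw [UniformSpace.Completion.coe_sub]; abel
        rw [e]
        exact (G'' k).sub_mem (hz k) (hG''anti k (k + 1) (Nat.le_succ k) (hz (k + 1)))
      have h2 : z (k + 1) - z k ∈ q '' Uk k := by
        rw [← hQclosed (Uk k) (hUko k)]
        exact h1
      obtain ⟨d, hd, hd'⟩ := h2
      exact ⟨d, hd, hd'⟩
    choose d hdU hdq using hd
    have hz0 : z 0 ∈ q '' U := by
      rw [← hQclosed U hU]
      have e : ((z 0 : M ⧸ N.toAddSubgroup) : UniformSpace.Completion (M ⧸ N.toAddSubgroup)) =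
          y - (y - z 0) := by abel
      rw [Set.mem_preimage, e]
      let G : AddSubgroup (UniformSpace.Completion (M ⧸ N.toAddSubgroup)) :=
        ((U.toAddSubgroup.map q).map (UniformSpace.Completion.toCompl : _ →+ _)).topologicalClosure
      have hsub : ((G'' 0 : AddSubgroup _) : Set (UniformSpace.Completion (M ⧸ N.toAddSubgroup))) ⊆
          (G : Set (UniformSpace.Completion (M ⧸ N.toAddSubgroup))) := by
        change closure _ ⊆ closure _
        refine closure_mono ?_
        rintro _ ⟨_, ⟨u, hu, rfl⟩, rfl⟩
        exact ⟨_, ⟨u, hUkU 0 hu, rfl⟩, rfl⟩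
      exact G.sub_mem hy (hsub (hz 0))
    obtain ⟨c, hcU, hcq⟩ := hz0
    let m : ℕ → M := fun k => Nat.rec c (fun k mk => mk + d k) k
    have hm0 : m 0 = c := rfl
    have hmS : ∀ k, m (k + 1) = m k + d k := fun k => rfl
    have hmq : ∀ k, q (m k) = z k := by
      intro k
      induction k with
      | zero => rw [hm0, hcq]
      | succ k ih => rw [hmS, map_add, ih, hdq]; abel
    have hmdiff : ∀ k l, k ≤ l → m l - m k ∈ Uk k := by
      intro k l hkl
      induction l, hkl using Nat.le_induction with
      | base => simp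
      | succ l hkl ih =>
        rw [hmS, add_sub_right_comm]
        exact (Uk k).add_mem ih (hUk_anti hkl (hdU l))
    have hmU : ∀ k, m k ∈ U := by
      intro k
      have := hmdiff 0 k (Nat.zero_le k)
      have h2 := U.add_mem (hUkU 0 this) hcU
      rwa [hm0, sub_add_cancel] at h2
    have hcauchy : CauchySeq m := by
      rw [CauchySeq, IsUniformAddGroup.cauchy_map_iff_tendsto_swapped]
      refine ⟨inferInstance, ?_⟩
      rw [Filter.prod_atTop_atTop_eq, hUkbasis.tendsto_right_iff]
      intro K _
      rw [Filter.eventually_atTop_prod_self]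
      refine ⟨K, fun k l hk hl => ?_⟩
      have : m l - m k = (m l - m K) - (m k - m K) := by abel
      simp only
      rw [this]
      exact (Uk K).sub_mem (hmdiff K l hl) (hmdiff K k hk)
    obtain ⟨x, hx⟩ := cauchySeq_tendsto_of_complete
      ((UniformSpace.Completion.uniformContinuous_coe M).comp_cauchySeq hcauchy)
    refine ⟨x, mem_closure_of_tendsto hx (Filter.Eventually.of_forall fun k => ⟨m k, hmU k, rfl⟩), ?_⟩
    rw [← hφ]
    have h1 := (hφc.tendsto x).comp hx
    have h2 : Filter.Tendsto (fun k => ((z k : M ⧸ N.toAddSubgroup) :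
        UniformSpace.Completion (M ⧸ N.toAddSubgroup))) Filter.atTop (nhds y) := by
      have : Filter.Tendsto (fun k => y - ((z k : M ⧸ N.toAddSubgroup) :
          UniformSpace.Completion (M ⧸ N.toAddSubgroup))) Filter.atTop (nhds 0) := by
        intro W hW
        obtain ⟨k, hk⟩ := hV''basis W hW
        rw [Filter.mem_map, Filter.mem_atTop_sets]
        exact ⟨k, fun l hl => hk (hG''anti k l hl (hz l))⟩
      have := (tendsto_const_nhds (x := y)).sub this
      simpa using this
    refine tendsto_nhds_unique ?_ h2
    refine h1.congr (fun k => ?_)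
    simp only [Function.comp_apply]
    rw [hφcoe, hmq]
  constructor
  · intro y
    have hy : y ∈ closure (((↑) : M ⧸ N.toAddSubgroup → UniformSpace.Completion (M ⧸ N.toAddSubgroup)) ''
        (q '' (⊤ : Submodule R M))) := by
      have : q '' ((⊤ : Submodule R M) : Set M) = Set.univ := by
        rw [Submodule.top_coe, Set.image_univ]
        exact Set.range_eq_univ.2 (QuotientAddGroup.mk'_surjective _)
      rw [this, Set.image_univ, (UniformSpace.Completion.denseRange_coe).closure_eq]
      trivial
    obtain ⟨x, -, hx⟩ := hlift ⊤ isOpen_univ y hy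
    exact ⟨x, by rw [hφ]; exact hx⟩
  · intro W hW
    rw [isOpen_iff_mem_nhds]
    rintro _ ⟨x, hxW, rfl⟩
    have h1 : (fun w => x + w) ⁻¹' W ∈ nhds (0 : UniformSpace.Completion M) := by
      apply (continuous_const.add continuous_id).continuousAt.preimage_mem_nhds
      simpa using hW.mem_nhds hxW
    obtain ⟨V, hV, hVc, hVW⟩ := exists_mem_nhds_isClosed_subset h1
    have hV' : ((↑) : M → UniformSpace.Completion M) ⁻¹' V ∈ nhds (0 : M) := by
      apply (UniformSpace.Completion.continuous_coe M).continuousAt.preimage_mem_nhds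
      rw [UniformSpace.Completion.coe_zero]; exact hV
    obtain ⟨U, hUo, hUV⟩ := (IsLinearTopology.hasBasis_open_submodule R).mem_iff.1 hV'
    have hsub : (fun y => y - φ x) ⁻¹' closure
        (((↑) : M ⧸ N.toAddSubgroup → UniformSpace.Completion (M ⧸ N.toAddSubgroup)) '' (q '' U)) ⊆
        φ '' W := by
      intro y hy
      obtain ⟨x', hx'U, hx'⟩ := hlift U hUo _ hy
      refine ⟨x + x', ?_, ?_⟩
      · have : x' ∈ V := closure_minimal (by rintro _ ⟨u, hu, rfl⟩; exact hUV hu) hVc hx'U
        exact hVW this
      · have e : φ x' = y - φ x := by rw [hφ]; exact hx'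
        rw [map_add, e]; abel
    apply Filter.mem_of_superset _ hsub
    apply (continuous_id.sub continuous_const).continuousAt.preimage_mem_nhds
    simpa using hV''nhds U hUo

end Groth.Agent.S10172
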