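import Groth.Statements.S10174
import Groth.Agent.Lib.Helper15.AlgSpChart
-- import your own Groth.Agent.* helpers here

set_option autoImplicit false
universe u
open CategoryTheory CategoryTheory.Limits AlgebraicGeometry Topology TopologicalSpace
open AlgSp

namespace Groth.Agent.S10174

/-- An algebraic space X over a scheme S is quasi-compact (that is, it has a surjective etale chart from
a scheme whose underlying space is quasi-compact) if and only if the space of points |X| is
quasi-compact. -/
theorem result {S : Scheme.{u}} (X : AlgSp.Space S) :
    AlgSp.IsQuasiCompactSp X.obj ↔ CompactSpace (AlgSp.Points X.obj) := by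
  exact Groth.Agent.Lib.Helper15.AlgSpChart.isQuasiCompactSp_iff_compactSpace X.property

end Groth.Agent.S10174
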