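import Groth.Statements.S10175
import Groth.Agent.Lib.Helper15.AlgSpChart
-- import your own Groth.Agent.* helpers here

set_option autoImplicit false
universe u
open CategoryTheory CategoryTheory.Limits AlgebraicGeometry Topology TopologicalSpace
open AlgSp AlgSp.Points

namespace Groth.Agent.S10175

/-- For a cartesian diagram of algebraic spaces over S with corner P = Z ×_Y X (a pullback square of
fppf sheaves), the map of sets of points |P| → |Z| ×_{|Y|} |X| is surjective: any points z of Z and
x of X with the same image in |Y| are the images of a common point of P. -/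
theorem result {S : Scheme.{u}} {X Y Z P : AlgSp.Space S} (f : X ⟶ Y) (g : Z ⟶ Y)
    (fst : P ⟶ Z) (snd : P ⟶ X) (h : IsPullback fst.hom snd.hom g.hom f.hom)
    (z : AlgSp.Points Z.obj) (x : AlgSp.Points X.obj)
    (e : AlgSp.Points.map g.hom z = AlgSp.Points.map f.hom x) :
    ∃ p : AlgSp.Points P.obj, AlgSp.Points.map fst.hom p = z ∧ AlgSp.Points.map snd.hom p = x := by
  exact Groth.Agent.Lib.Helper15.AlgSpChart.points_exists_of_isPullback h z x e

end Groth.Agent.S10175
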