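import Groth.Statements.S10176
import Groth.Agent.Lib.Helper15.AlgSpChart
-- import your own Groth.Agent.* helpers here

set_option autoImplicit false
universe u
open CategoryTheory CategoryTheory.Limits AlgebraicGeometry Topology TopologicalSpace
open AlgSp AlgSp.Points

namespace Groth.Agent.S10176

/-- For an algebraic space X over a scheme S and a representable etale map a : h_U ⟶ X from a scheme U
over S, the induced continuous map from the underlying topological space of U to the space of points
|X| is an open map. -/
theorem result {S : Scheme.{u}} (X : AlgSp.Space S) {U : Over S}
    (a : (AlgSp.yon S).obj U ⟶ X.obj) (ha : AlgSp.RepWith @Etale a) :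
    IsOpenMap (AlgSp.Points.ofPt a) := by
  exact Groth.Agent.Lib.Helper15.AlgSpChart.isOpenMap_ofPt_of_repWith_etale a ha

end Groth.Agent.S10176
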