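import Groth.Statements.S10179
import Groth.Agent.Lib.Helper15.AlgSpChart
-- import your own Groth.Agent.* helpers here

set_option autoImplicit false
universe u
open CategoryTheory CategoryTheory.Limits AlgebraicGeometry Topology TopologicalSpace
open AlgSp AlgSp.Points

namespace Groth.Agent.S10179

/-- For an algebraic space X over a scheme S, every point x of |X| has a fundamental system of
quasi-compact open neighbourhoods: every open subset of |X| containing x contains a quasi-compact
open subset containing x. In particular |X| is locally quasi-compact. -/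
theorem result {S : Scheme.{u}} (X : AlgSp.Space S) (x : AlgSp.Points X.obj)
    (W : Set (AlgSp.Points X.obj)) (hW : IsOpen W) (hx : x ∈ W) :
    ∃ V : Set (AlgSp.Points X.obj), IsOpen V ∧ IsCompact V ∧ x ∈ V ∧ V ⊆ W := by
  obtain ⟨U, p, hpe, hps⟩ := X.property.atlas
  have hs := Groth.Agent.Lib.Helper15.AlgSpChart.surjective_ofPt_of_repWith_surjective p hps
  have ho := Groth.Agent.Lib.Helper15.AlgSpChart.isOpenMap_ofPt_of_repWith_etale p hpe
  obtain ⟨u, rfl⟩ := hs x
  have hpre : IsOpen (AlgSp.Points.ofPt p ⁻¹' W) := hW.preimage (AlgSp.Points.continuous_ofPt p)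
  obtain ⟨_, ⟨V, hV, rfl⟩, huV, hVW⟩ :=
    U.left.isBasis_affineOpens.exists_subset_of_mem_open (a := u) hx hpre
  refine ⟨AlgSp.Points.ofPt p '' (V : Set U.left), ho _ V.isOpen,
    hV.isCompact.image (AlgSp.Points.continuous_ofPt p), ⟨u, huV, rfl⟩, ?_⟩
  rintro _ ⟨v, hv, rfl⟩
  exact hVW hv

end Groth.Agent.S10179
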