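import Groth.Statements.S10180
import Groth.Agent.Lib.Helper15.AlgSpChart
-- import your own Groth.Agent.* helpers here

set_option autoImplicit false
universe u
open CategoryTheory CategoryTheory.Limits AlgebraicGeometry Topology TopologicalSpace
open AlgSp

namespace Groth.Agent.S10180

/-- An algebraic space X over a scheme S is quasi-compact if and only if there exist an affine scheme U
over S and a representable etale, representable surjective map h_U ⟶ X. -/
theorem result {S : Scheme.{u}} (X : AlgSp.Space S) :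
    AlgSp.IsQuasiCompactSp X.obj ↔
      ∃ (U : Over S) (p : (AlgSp.yon S).obj U ⟶ X.obj),
        IsAffine U.left ∧ AlgSp.RepWith @Etale p ∧ AlgSp.RepWith @Surjective p := by
  constructor
  · rintro ⟨U, p, hpe, hps, hU⟩
    obtain ⟨t, ht⟩ := isCompact_univ.elim_finite_subcover
      (fun V : U.left.affineOpens => ((V : U.left.Opens) : Set U.left))
      (fun V => V.1.isOpen) (by
        intro u _
        have hu : u ∈ (⨆ V : U.left.affineOpens, (V : U.left.Opens)) := by
          rw [iSup_affineOpens_eq_top]; trivial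
        obtain ⟨V, hV⟩ := TopologicalSpace.Opens.mem_iSup.1 hu
        exact Set.mem_iUnion.2 ⟨V, hV⟩)
    let g : t → Scheme.{u} := fun i => (i.1 : U.left.Opens).toScheme
    have : ∀ i, IsAffine (g i) := fun i => i.1.2
    let d : ∐ g ⟶ U.left := Sigma.desc (fun i => (i.1 : U.left.Opens).ι)
    have : IsZariskiLocalAtSource @Etale :=
      HasRingHomProperty.instIsZariskiLocalAtSource (Q := RingHom.Etale)
    have hd : Etale d := IsZariskiLocalAtSource.sigmaDesc (fun i => inferInstance)
    let U' : Over S := Over.mk (d ≫ U.hom)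
    let i : U' ⟶ U := Over.homMk d rfl
    have := AlgSp.repWith_isMultiplicative (S := S) @Etale
    have hie : AlgSp.RepWith @Etale ((AlgSp.yon S).map i) :=
      (AlgSp.repWith_yon_map_iff _ _).2 (show Etale d from hd)
    refine ⟨U', (AlgSp.yon S).map i ≫ p, (inferInstance : IsAffine (∐ g)),
      MorphismProperty.comp_mem _ _ _ hie hpe, ?_⟩
    rw [Groth.Agent.Lib.Helper15.AlgSpChart.repWith_surjective_iff (MorphismProperty.comp_mem _ _ _
      (AlgSp.representable_yon_map i) hpe.1)]
    intro x
    obtain ⟨u, rfl⟩ :=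
      Groth.Agent.Lib.Helper15.AlgSpChart.surjective_ofPt_of_repWith_surjective p hps x
    obtain ⟨V, hVt, huV⟩ : ∃ V ∈ t, u ∈ ((V : U.left.Opens) : Set U.left) := by
      have := ht (Set.mem_univ u)
      simpa using this
    have huV' := huV
    rw [← Scheme.Opens.range_ι (V : U.left.Opens)] at huV'
    obtain ⟨w, hw⟩ := huV'
    have hdz : d ((Sigma.ι g ⟨V, hVt⟩) w) = u := by
      rw [← Scheme.Hom.comp_apply, Sigma.ι_desc]
      exact hw
    refine ⟨AlgSp.Points.ofScheme U' ((Sigma.ι g ⟨V, hVt⟩) w), ?_⟩
    rw [← AlgSp.Points.ofPt_eq_map_ofScheme, Groth.Agent.Lib.Helper15.AlgSpChart.ofPt_yon_map_comp]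
    show AlgSp.Points.ofPt p (d _) = _
    rw [hdz]
  · rintro ⟨U, p, hU, hpe, hps⟩
    exact ⟨U, p, hpe, hps, inferInstance⟩

end Groth.Agent.S10180
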