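import Groth.Statements.S10194
import Groth.Agent.Lib.Helper15.AlgSpChart
-- import your own Groth.Agent.* helpers here

set_option autoImplicit false
universe u
open CategoryTheory CategoryTheory.Limits AlgebraicGeometry Topology TopologicalSpace
open AlgSp

namespace Groth.Agent.S10194

/-- Let X, Y be algebraic spaces over a scheme S and j : X' ⟶ X an open subspace (a morphism
representable by open immersions). Then a morphism f : Y ⟶ X factors through X' if and only if
|f|(|Y|) is contained in |X'|. -/
theorem result {S : Scheme.{u}} {X X' Y : AlgSp.Space S}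
    (j : X' ⟶ X) (hj : AlgSp.RepWith @IsOpenImmersion j.hom) (f : Y ⟶ X) :
    (∃ g : Y ⟶ X', g ≫ j = f) ↔
      Set.range (AlgSp.Points.map f.hom) ⊆ Set.range (AlgSp.Points.map j.hom) := by
  constructor
  · rintro ⟨g, rfl⟩ _ ⟨y, rfl⟩
    exact ⟨AlgSp.Points.map g.hom y, (AlgSp.Points.map_comp g.hom j.hom y).symm⟩
  · intro hr
    have hpb := IsPullback.of_hasPullback j.hom f.hom
    have := AlgSp.repWith_isStableUnderBaseChange (S := S) @IsOpenImmersion
    have hsnd : AlgSp.RepWith @IsOpenImmersion (pullback.snd j.hom f.hom) :=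
      MorphismProperty.of_isPullback hpb hj
    have hs : Function.Surjective (AlgSp.Points.map (pullback.snd j.hom f.hom)) := by
      intro y
      obtain ⟨x', hx'⟩ := hr ⟨y, rfl⟩
      obtain ⟨q, -, hq⟩ :=
        Groth.Agent.Lib.Helper15.AlgSpChart.points_exists_of_isPullback hpb x' y hx'
      exact ⟨q, hq⟩
    have : IsIso (pullback.snd j.hom f.hom) :=
      Groth.Agent.Lib.Helper15.AlgSpChart.isIso_of_repWith_openImmersion hsnd hs
    refine ⟨ObjectProperty.homMk (inv (pullback.snd j.hom f.hom) ≫ pullback.fst j.hom f.hom), ?_⟩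
    apply ObjectProperty.hom_ext
    change (inv (pullback.snd j.hom f.hom) ≫ pullback.fst j.hom f.hom) ≫ j.hom = f.hom
    rw [Category.assoc, pullback.condition, IsIso.inv_hom_id_assoc]

end Groth.Agent.S10194
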