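import Groth.Statements.S10211
import Groth.Agent.Lib.Helper15.AlgSpChart
-- import your own Groth.Agent.* helpers here

set_option autoImplicit false
universe u
open CategoryTheory CategoryTheory.Limits AlgebraicGeometry Topology TopologicalSpace
open AlgSp

namespace Groth.Agent.S10211

/-- If f : X ⟶ Y is an etale morphism of algebraic spaces over a scheme S, then the induced map of
topological spaces |X| → |Y| is open. -/
theorem result {S : Scheme.{u}} {X Y : AlgSp.Space S} (f : X ⟶ Y)
    (hf : AlgSp.IsEtaleMor f.hom) :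
    IsOpenMap (AlgSp.Points.map f.hom) := by
  obtain ⟨U, p, hpe, hps⟩ := X.property.atlas
  have hs := Groth.Agent.Lib.Helper15.AlgSpChart.surjective_ofPt_of_repWith_surjective p hps
  intro W hW
  have e : AlgSp.Points.map f.hom '' W =
      AlgSp.Points.ofPt (p ≫ f.hom) '' (AlgSp.Points.ofPt p ⁻¹' W) := by
    rw [show AlgSp.Points.ofPt (p ≫ f.hom) = AlgSp.Points.map f.hom ∘ AlgSp.Points.ofPt p from
      funext (fun t => (AlgSp.Points.map_ofPt p f.hom t).symm), Set.image_comp,
      Set.image_preimage_eq W hs]
  rw [e]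
  exact Groth.Agent.Lib.Helper15.AlgSpChart.isOpenMap_ofPt_of_repWith_etale (p ≫ f.hom)
    (hf p hpe) _ (hW.preimage (AlgSp.Points.continuous_ofPt p))

end Groth.Agent.S10211
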