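import Groth.Statements.S1024
import Mathlib.CategoryTheory.Adjunction.PartialAdjoint

set_option autoImplicit false
universe v u u'
open CategoryTheory Opposite
open CohDer

namespace Groth.Agent.S1024

/-- Let u : A ⥤ B be a functor between abelian categories and P a family of objects of B such that each
object of B receives an epimorphism from some member of P, and such that for every member Pᵢ there
is an object Q of A with Hom_A(Q, -) ≅ Hom_B(Pᵢ, u(-)) naturally. Then u is a right adjoint (has a
left adjoint). -/
theorem result {A : Type u} [Category.{v} A] [Abelian A] {B : Type u'} [Category.{v} B] [Abelian B]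
    (u : A ⥤ B) {ι : Type*} (P : ι → B)
    (h1 : ∀ X : B, ∃ (i : ι) (π : P i ⟶ X), Epi π)
    (h2 : ∀ i : ι, ∃ Q : A, Nonempty (coyoneda.obj (op Q) ≅ u ⋙ coyoneda.obj (op (P i)))) :
    u.IsRightAdjoint := by
  apply Functor.isRightAdjoint_of_leftAdjointObjIsDefined_eq_top
  have hP : ∀ i, u.leftAdjointObjIsDefined (P i) := by
    intro i
    obtain ⟨Q, ⟨e⟩⟩ := h2 i
    exact Functor.IsCorepresentable.mk' e
  funext X
  simp only [Pi.top_apply, Prop.top_eq_true, eq_iff_iff, iff_true]
  obtain ⟨i, π, hπ⟩ := h1 X
  obtain ⟨j, ρ, hρ⟩ := h1 (Limits.kernel π)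
  have hc := Limits.isCokernelEpiComp (Abelian.epiIsCokernelOfKernel _ (Limits.kernelIsKernel π)) ρ rfl
  refine Functor.leftAdjointObjIsDefined_of_isColimit hc ?_
  rintro (_ | _)
  · exact hP j
  · exact hP i

end Groth.Agent.S1024
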