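import Groth.Statements.S10264
import Groth.Agent.Lib.Helper15.AlgSpChart
-- import your own Groth.Agent.* helpers here

set_option autoImplicit false
universe u
open CategoryTheory CategoryTheory.Limits AlgebraicGeometry
open AlgSp

namespace Groth.Agent.S10264

/-- An immersion of algebraic spaces is unramified. -/
theorem result {S : Scheme.{u}} {X Y : AlgSp.Space S} (i : X ⟶ Y)
    (hi : AlgSp.RepWith @IsImmersion i.hom) :
    AlgSp.LocP (@LocallyOfFiniteType ⊓ @FormallyUnramified) i.hom := by
  have hc : MorphismProperty.IsStableUnderComposition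
      ((@LocallyOfFiniteType ⊓ @FormallyUnramified : MorphismProperty Scheme.{u})) :=
    ⟨fun f g hf hg => by
      have := hf.1; have := hg.1
      exact ⟨inferInstance, MorphismProperty.comp_mem @FormallyUnramified f g hf.2 hg.2⟩⟩
  have hQ : ∀ {X Y : Scheme.{u}} (g : X ⟶ Y), IsImmersion g →
      (@LocallyOfFiniteType ⊓ @FormallyUnramified : MorphismProperty Scheme.{u}) g := by
    intro X Y g hg
    have := hg
    have : IsIso (pullback.diagonal g) := inferInstance
    exact ⟨inferInstance, inferInstance⟩
  exact Groth.Agent.Lib.Helper15.AlgSpChart.locP_of_repWith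
    (P := @LocallyOfFiniteType ⊓ @FormallyUnramified)
    (fun g hg => by have := hg; exact ⟨inferInstance, inferInstance⟩) hQ hi

end Groth.Agent.S10264
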