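import Groth.Statements.S10277
import Groth.Agent.Lib.Helper15.AlgSpChart
-- import your own Groth.Agent.* helpers here

set_option autoImplicit false
universe u
open CategoryTheory CategoryTheory.Limits AlgebraicGeometry
open AlgSp

namespace Groth.Agent.S10277

/-- A closed immersion of algebraic spaces is proper. -/
theorem result {S : Scheme.{u}} {X Y : AlgSp.Space S} (i : X ⟶ Y)
    (hi : AlgSp.RepWith @IsClosedImmersion i.hom) : AlgSp.IsProperMor i.hom := by
  refine ⟨?_, ⟨?_, ?_⟩, ?_⟩
  · have hm : Mono i.hom := Groth.Agent.Lib.Helper15.AlgSpChart.mono_of_repWith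
      (Q := @IsClosedImmersion) (fun g hg => by have := hg; infer_instance) hi
    have : IsIso (pullback.diagonal i.hom) := inferInstance
    have := AlgSp.repWith_isMultiplicative (S := S) @IsClosedImmersion
    have : (AlgSp.RepWith (S := S) @IsClosedImmersion).RespectsIso :=
      MorphismProperty.relative_respectsIso _
    show AlgSp.RepWith @IsClosedImmersion (pullback.diagonal i.hom)
    exact MorphismProperty.of_isIso (AlgSp.RepWith (S := S) @IsClosedImmersion) _
  · exact Groth.Agent.Lib.Helper15.AlgSpChart.locP_of_repWith (P := @LocallyOfFiniteType)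
      (fun g hg => by have := hg; infer_instance) (fun g hg => by have := hg; infer_instance) hi
  · intro Z Z' _ hZc g fst snd hpb
    exact Groth.Agent.Lib.Helper15.AlgSpChart.etaleLocally_of_isPullback
      (P := fun U => CompactSpace ↥U) (Q := @IsClosedImmersion)
      (fun g hg hY => by have := hg; exact g.isClosedEmbedding.compactSpace) hi hpb hZc
  · intro Z Z' _ g fst snd hpb
    have := AlgSp.repWith_isStableUnderBaseChange (S := S) @IsClosedImmersion
    exact Groth.Agent.Lib.Helper15.AlgSpChart.isClosedMap_of_repWith_closedImmersion
      (MorphismProperty.of_isPullback hpb hi)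

end Groth.Agent.S10277
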