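import Groth.Statements.S1033
import Mathlib.Algebra.Homology.DerivedCategory.Ext.ExactSequences
import Mathlib.Algebra.Homology.DerivedCategory.Fractions

set_option autoImplicit false
universe w v u
open CategoryTheory CategoryTheory.Abelian
open CohDer

namespace Groth.Agent.S1033

open DerivedCategory in
lemma epi_f_zero_of_quasiIso {A : Type u} [Category.{v} A] [Abelian A]
    {X' : CochainComplex A ℤ} [X'.IsStrictlyLE 0] {B : A}
    (s : X' ⟶ (HomologicalComplex.single A (ComplexShape.up ℤ) 0).obj B) [QuasiIso s] :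
    Epi (s.f 0) := by
  let S := (HomologicalComplex.single A (ComplexShape.up ℤ) 0).obj B
  have hX1 : X'.d 0 1 = 0 := (X'.isZero_of_isStrictlyLE 0 1 (by omega)).eq_of_tgt _ _
  have hS1 : S.d 0 1 = 0 :=
    (HomologicalComplex.isZero_single_obj_X (ComplexShape.up ℤ) 0 B 1 (by omega)).eq_of_tgt _ _
  have hS0 : S.d (-1) 0 = 0 :=
    (HomologicalComplex.isZero_single_obj_X (ComplexShape.up ℤ) 0 B (-1) (by omega)).eq_of_src _ _
  have h1 : IsIso (X'.iCycles 0) := X'.isIso_iCycles 0 1 (by simp) hX1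
  have h2 : IsIso (S.iCycles 0) := S.isIso_iCycles 0 1 (by simp) hS1
  have h3 : IsIso (S.homologyπ 0) := S.isIso_homologyπ (-1) 0 (by simp) hS0
  have h4 : IsIso (HomologicalComplex.homologyMap s 0) := by
    rw [← quasiIsoAt_iff_isIso_homologyMap]; infer_instance
  have e1 : HomologicalComplex.cyclesMap s 0 ≫ S.homologyπ 0 =
      X'.homologyπ 0 ≫ HomologicalComplex.homologyMap s 0 :=
    (HomologicalComplex.homologyπ_naturality s 0).symm
  have h5 : Epi (HomologicalComplex.cyclesMap s 0) := by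
    have : Epi (HomologicalComplex.cyclesMap s 0 ≫ S.homologyπ 0) := by
      rw [e1]; infer_instance
    have e : HomologicalComplex.cyclesMap s 0 =
        (HomologicalComplex.cyclesMap s 0 ≫ S.homologyπ 0) ≫ inv (S.homologyπ 0) := by simp
    rw [e]; infer_instance
  have e2 : s.f 0 = inv (X'.iCycles 0) ≫ HomologicalComplex.cyclesMap s 0 ≫ S.iCycles 0 := by
    rw [HomologicalComplex.cyclesMap_i, IsIso.inv_hom_id_assoc]
  rw [e2]
  infer_instance

open DerivedCategory in
lemma effaceable {A : Type u} [Category.{v} A] [Abelian A] [HasExt.{w} A] {B C : A} {m : ℕ}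
    (x : Abelian.Ext B C (m + 1)) :
    ∃ (E : A) (π : E ⟶ B), Epi π ∧ (Abelian.Ext.mk₀ π).comp x (zero_add _) = 0 := by
  letI := HasDerivedCategory.standard A
  let X := (HomologicalComplex.single A (ComplexShape.up ℤ) 0).obj B
  let C₀ := (HomologicalComplex.single A (ComplexShape.up ℤ) 0).obj C
  let n : ℤ := ((m + 1 : ℕ) : ℤ)
  let φ : Q.obj X ⟶ (Q.obj C₀)⟦n⟧ := x.hom
  let ψ : Q.obj X ⟶ Q.obj (C₀⟦n⟧) := φ ≫ (Q.commShiftIso n).inv.app C₀
  obtain ⟨X', hX', s, hs, g, hψ⟩ := right_fac_of_isStrictlyLE ψ 0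
  have hqs : QuasiIso s := (isIso_Q_map_iff_quasiIso (C := A) s).mp hs
  have hepi := epi_f_zero_of_quasiIso s
  let π := s.f 0 ≫ (HomologicalComplex.singleObjXSelf (ComplexShape.up ℤ) 0 B).hom
  refine ⟨X'.X 0, π, inferInstance, ?_⟩
  let ι : (HomologicalComplex.single A (ComplexShape.up ℤ) 0).obj (X'.X 0) ⟶ X' :=
    HomologicalComplex.mkHomFromSingle (𝟙 _) (fun k hk => by
      have : k = 1 := by simp at hk; omega
      subst this
      exact (X'.isZero_of_isStrictlyLE 0 1 (by omega)).eq_of_tgt _ _)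
  have hιs : ι ≫ s = (HomologicalComplex.single A (ComplexShape.up ℤ) 0).map π := by
    ext
    simp [ι, π, HomologicalComplex.single_map_f_self]
  have hιg : ι ≫ g = 0 := by
    ext
    apply Limits.IsZero.eq_of_tgt
    exact HomologicalComplex.isZero_single_obj_X (ComplexShape.up ℤ) 0 C (0 + n) (by omega)
  apply Abelian.Ext.ext
  rw [← Abelian.Ext.singleFunctor_map_comp_hom, Abelian.Ext.zero_hom]
  have e : φ = ψ ≫ (Q.commShiftIso n).hom.app C₀ := by simp [ψ]
  change Q.map ((HomologicalComplex.single A (ComplexShape.up ℤ) 0).map π) ≫ φ = 0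
  rw [e, hψ, ← hιs, Q.map_comp]
  simp only [Category.assoc, IsIso.hom_inv_id_assoc]
  rw [← Q.map_comp_assoc, hιg, Q.map_zero, Limits.zero_comp]

/-- Let A be an abelian category (with Ext groups in some universe) and p ≥ 0. If Extᵖ(B, C) = 0 for all
objects B, C, then Extⁱ(B, C) = 0 for all i ≥ p and all B, C. -/
theorem result {A : Type u} [Category.{v} A] [Abelian A] [HasExt.{w} A] (p : ℕ)
    (h : ∀ (B C : A) (x : Ext B C p), x = 0) (i : ℕ) (hi : p ≤ i) (B C : A) (x : Ext B C i) : x = 0 := by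
  induction i, hi using Nat.le_induction generalizing B C with
  | base => exact h B C x
  | succ k hk ih =>
    obtain ⟨E, π, hπ, hx⟩ := effaceable x
    let S := ShortComplex.mk (Limits.kernel.ι π) π (Limits.kernel.condition π)
    have hS : S.ShortExact :=
      { exact := ShortComplex.exact_of_f_is_kernel _ (Limits.kernelIsKernel π)
        mono_f := inferInstanceAs (Mono (Limits.kernel.ι π))
        epi_g := hπ }
    obtain ⟨x₁, hx₁⟩ := Abelian.Ext.contravariant_sequence_exact₃ hS C x hx (add_comm 1 k)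
    rw [← hx₁, ih _ _ x₁, Abelian.Ext.comp_zero]

end Groth.Agent.S1033
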