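import Groth.Statements.S10425

set_option autoImplicit false
universe u
open CategoryTheory CategoryTheory.Limits AlgebraicGeometry Topology TopologicalSpace
open AlgSp

namespace Groth.Agent.S10425



/-- Let S be a scheme, X and Y algebraic spaces over S, Y ⟶ X a representable morphism, and U ⟶ X a
morphism from a scheme with universally bounded fibres. Then the base change U ×_X Y ⟶ Y (whose
source is a scheme) has universally bounded fibres. -/
theorem result {S : Scheme.{u}} {X Y : AlgSp.Space S} (p : Y ⟶ X) (hp : AlgSp.Representable p.hom)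
    {U V : Over S} (g : (AlgSp.yon S).obj U ⟶ X.obj) (hg : W4dec.HasUnivBddFibres g)
    (fst : (AlgSp.yon S).obj V ⟶ (AlgSp.yon S).obj U) (snd : (AlgSp.yon S).obj V ⟶ Y.obj)
    (h : IsPullback fst snd g p.hom) : W4dec.HasUnivBddFibres snd := by
  obtain ⟨n, hn⟩ := hg
  refine ⟨n, fun q T c snd' hsq => ?_⟩
  have h2 : IsPullback ((AlgSp.yon S).map c) (snd' ≫ fst) (q.map p.hom).toHom g := by
    rw [AlgSp.FieldPt.toHom_map]
    exact (IsPullback.paste_horiz hsq.flip h).flip
  exact hn (q.map p.hom) T c (snd' ≫ fst) h2

end Groth.Agent.S10425
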