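import Groth.Statements.S1043
-- import your own Groth.Agent.* helpers here

set_option autoImplicit false
universe v u
open CategoryTheory
open CohDer

namespace Groth.Agent.S1043

open CategoryTheory.Pretriangulated in
/-- Let φ, ψ : T ⟶ T' be two morphisms between distinguished triangles T = (X, Y, Z) and T' = (X', Y',
Z') of a pretriangulated category which agree on the first and third components. If one of the
following holds — (1) Hom(Y, X') = 0; (2) Hom(Z, Y') = 0; (3) Hom(X, X') = 0 and Hom(Z, X') = 0; (4)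
Hom(Z, X') = 0 and Hom(Z, Z') = 0; (5) Hom(X[1], Z') = 0 and Hom(Z, X') = 0 — then φ and ψ also
agree on the middle component. -/
theorem result {D : Type u} [Category.{v} D] [Preadditive D] [Limits.HasZeroObject D] [HasShift D ℤ]
    [∀ n : ℤ, (shiftFunctor D n).Additive] [Pretriangulated D]
    (T T' : Triangle D) (hT : T ∈ distinguishedTriangles) (hT' : T' ∈ distinguishedTriangles)
    (φ ψ : T ⟶ T') (h₁ : φ.hom₁ = ψ.hom₁) (h₃ : φ.hom₃ = ψ.hom₃)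
    (hc : (∀ u : T.obj₂ ⟶ T'.obj₁, u = 0) ∨ (∀ u : T.obj₃ ⟶ T'.obj₂, u = 0) ∨
      ((∀ u : T.obj₁ ⟶ T'.obj₁, u = 0) ∧ (∀ u : T.obj₃ ⟶ T'.obj₁, u = 0)) ∨
      ((∀ u : T.obj₃ ⟶ T'.obj₁, u = 0) ∧ (∀ u : T.obj₃ ⟶ T'.obj₃, u = 0)) ∨
      ((∀ u : (shiftFunctor D (1 : ℤ)).obj T.obj₁ ⟶ T'.obj₃, u = 0) ∧ (∀ u : T.obj₃ ⟶ T'.obj₁, u = 0))) :
    φ.hom₂ = ψ.hom₂ := by
  rw [← sub_eq_zero]
  set δ := φ.hom₂ - ψ.hom₂ with hδ
  have e1 : T.mor₁ ≫ δ = 0 := by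
    rw [hδ, Preadditive.comp_sub, φ.comm₁, ψ.comm₁, h₁, sub_self]
  have e2 : δ ≫ T'.mor₂ = 0 := by
    rw [hδ, Preadditive.sub_comp, ← φ.comm₂, ← ψ.comm₂, h₃, sub_self]
  obtain ⟨a, ha⟩ := Triangle.yoneda_exact₂ T hT δ e1
  obtain ⟨b, hb⟩ := Triangle.coyoneda_exact₂ T' hT' δ e2
  rcases hc with hc | hc | ⟨hc1, hc2⟩ | ⟨hc1, hc2⟩ | ⟨hc1, hc2⟩
  · rw [hb, hc b, Limits.zero_comp]
  · rw [ha, hc a, Limits.comp_zero]
  · have hb0 : T.mor₁ ≫ b = 0 := hc1 _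
    obtain ⟨c, hc'⟩ := Triangle.yoneda_exact₂ T hT b hb0
    rw [hb, hc', hc2 c, Limits.comp_zero, Limits.zero_comp]
  · have ha0 : a ≫ T'.mor₂ = 0 := hc2 _
    obtain ⟨d, hd⟩ := Triangle.coyoneda_exact₂ T' hT' a ha0
    rw [ha, hd, hc1 d, Limits.zero_comp, Limits.comp_zero]
  · have ha1 : T.mor₂ ≫ (a ≫ T'.mor₂) = 0 := by
      rw [← Category.assoc, ← ha, e2]
    obtain ⟨e, he⟩ := Triangle.yoneda_exact₃ T hT (a ≫ T'.mor₂) ha1
    have ha0 : a ≫ T'.mor₂ = 0 := by rw [he, hc1 e, Limits.comp_zero]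
    obtain ⟨d, hd⟩ := Triangle.coyoneda_exact₂ T' hT' a ha0
    rw [ha, hd, hc2 d, Limits.zero_comp, Limits.comp_zero]

end Groth.Agent.S1043
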