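import Groth.Statements.S1053
import Mathlib.Algebra.Homology.DerivedCategory.KProjective

set_option autoImplicit false
universe w v u
open CategoryTheory CategoryTheory.Limits
open CohDer

namespace Groth.Agent.S1053

/-- Let P and K be cochain complexes in an abelian category with P bounded, consisting of projective
objects and zero in degrees below n, and with Hⁱ(K) = 0 for all i ≥ n. Then every morphism P ⟶ K in
the homotopy category and every morphism P ⟶ K in the derived category is zero. -/
theorem result {A : Type u} [Category.{v} A] [Abelian A] [HasDerivedCategory.{w} A]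
    (P K : CochainComplex A ℤ) (n b : ℤ) [P.IsStrictlyGE n] [P.IsStrictlyLE b] (hP : ∀ i : ℤ, Projective (P.X i))
    (hK : ∀ i : ℤ, n ≤ i → IsZero (K.homology i)) :
    (∀ φ : (HomotopyCategory.quotient A (ComplexShape.up ℤ)).obj P ⟶ (HomotopyCategory.quotient A (ComplexShape.up ℤ)).obj K, φ = 0) ∧
    (∀ φ : DerivedCategory.Q.obj P ⟶ DerivedCategory.Q.obj K, φ = 0) := by
  have : ∀ i : ℤ, Projective (P.X i) := hP
  have hPK : P.IsKProjective := CochainComplex.isKProjective_of_projective P b
  have hKle : K.IsLE (n - 1) := by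
    rw [CochainComplex.isLE_iff]
    intro i hi
    rw [HomologicalComplex.exactAt_iff_isZero_homology]
    exact hK i (by omega)
  have hzero : ∀ g : P ⟶ K.truncLE (n - 1), g = 0 := by
    intro g
    ext i
    by_cases hi : i < n
    · exact (P.isZero_of_isStrictlyGE n i hi).eq_of_src _ _
    · exact ((K.truncLE (n - 1)).isZero_of_isStrictlyLE (n - 1) i (by omega)).eq_of_tgt _ _
  have hD' : ∀ φ : DerivedCategory.Q.obj P ⟶ DerivedCategory.Q.obj (K.truncLE (n - 1)), φ = 0 := by
    intro φ
    obtain ⟨ψ, hψ⟩ := (CochainComplex.IsKProjective.Qh_map_bijective P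
      ((HomotopyCategory.quotient _ _).obj (K.truncLE (n - 1)))).2
      ((DerivedCategory.quotientCompQhIso A).hom.app P ≫ φ ≫
        (DerivedCategory.quotientCompQhIso A).inv.app (K.truncLE (n - 1)))
    obtain ⟨g, rfl⟩ := (HomotopyCategory.quotient _ _).map_surjective ψ
    rw [hzero g, Functor.map_zero, Functor.map_zero] at hψ
    have h2 : φ = (DerivedCategory.quotientCompQhIso A).inv.app P ≫
        ((DerivedCategory.quotientCompQhIso A).hom.app P ≫ φ ≫
        (DerivedCategory.quotientCompQhIso A).inv.app (K.truncLE (n - 1))) ≫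
        (DerivedCategory.quotientCompQhIso A).hom.app (K.truncLE (n - 1)) := by
      simp
    rw [h2, ← hψ]
    simp
  have hD : ∀ φ : DerivedCategory.Q.obj P ⟶ DerivedCategory.Q.obj K, φ = 0 := by
    intro φ
    have : QuasiIso (K.ιTruncLE (n - 1)) := (CochainComplex.quasiIso_ιTruncLE_iff K (n - 1)).mpr hKle
    have hiso : IsIso (DerivedCategory.Q.map (K.ιTruncLE (n - 1))) := inferInstance
    have h0 := hD' (φ ≫ inv (DerivedCategory.Q.map (K.ιTruncLE (n - 1))))
    calc φ = (φ ≫ inv (DerivedCategory.Q.map (K.ιTruncLE (n - 1)))) ≫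
          DerivedCategory.Q.map (K.ιTruncLE (n - 1)) := by simp
      _ = 0 := by rw [h0, zero_comp]
  refine ⟨fun φ => ?_, hD⟩
  apply (CochainComplex.IsKProjective.Qh_map_bijective P _).1
  rw [Functor.map_zero]
  have h0 := hD ((DerivedCategory.quotientCompQhIso A).inv.app P ≫ DerivedCategory.Qh.map φ ≫
    (DerivedCategory.quotientCompQhIso A).hom.app K)
  have h2 : DerivedCategory.Qh.map φ = (DerivedCategory.quotientCompQhIso A).hom.app P ≫
      ((DerivedCategory.quotientCompQhIso A).inv.app P ≫ DerivedCategory.Qh.map φ ≫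
      (DerivedCategory.quotientCompQhIso A).hom.app K) ≫
      (DerivedCategory.quotientCompQhIso A).inv.app K := by
    simp
  rw [h2, h0]
  simp

end Groth.Agent.S1053
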