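import Groth.Statements.S10618

set_option autoImplicit false
universe u
open CategoryTheory CategoryTheory.Limits AlgebraicGeometry
open AlgSp

namespace Groth.Agent.S10618

/-- Replace top and bottom arrows of an infinitesimal lifting square. -/
noncomputable def reSq {S : Scheme.{u}} {F G F' G' : AlgSp.Sp S} {f : F ⟶ G} (sq : AlgSp.InfSq f) (f' : F' ⟶ G')
    (top : (AlgSp.yon S).obj sq.ptT ⟶ F') (bot : (AlgSp.yon S).obj sq.ptT' ⟶ G')
    (comm : top ≫ f' = (AlgSp.yon S).map sq.j ≫ bot) : AlgSp.InfSq f' where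
  A := sq.A
  I := sq.I
  sq_zero := sq.sq_zero
  str := sq.str
  top := top
  bot := bot
  comm := comm

theorem reSq_hasLift {S : Scheme.{u}} {F G F' G' : AlgSp.Sp S} {f : F ⟶ G} (sq : AlgSp.InfSq f)
    (f' : F' ⟶ G') (top : (AlgSp.yon S).obj sq.ptT ⟶ F') (bot : (AlgSp.yon S).obj sq.ptT' ⟶ G')
    (comm : top ≫ f' = (AlgSp.yon S).map sq.j ≫ bot) :
    (reSq sq f' top bot comm).HasLift ↔
      ∃ l : (AlgSp.yon S).obj sq.ptT' ⟶ F', (AlgSp.yon S).map sq.j ≫ l = top ∧ l ≫ f' = bot :=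
  Iff.rfl

theorem reSq_hasUniq {S : Scheme.{u}} {F G F' G' : AlgSp.Sp S} {f : F ⟶ G} (sq : AlgSp.InfSq f)
    (f' : F' ⟶ G') (top : (AlgSp.yon S).obj sq.ptT ⟶ F') (bot : (AlgSp.yon S).obj sq.ptT' ⟶ G')
    (comm : top ≫ f' = (AlgSp.yon S).map sq.j ≫ bot) :
    (reSq sq f' top bot comm).HasUniq ↔
      ∀ l l' : (AlgSp.yon S).obj sq.ptT' ⟶ F', (AlgSp.yon S).map sq.j ≫ l = top → l ≫ f' = bot →
        (AlgSp.yon S).map sq.j ≫ l' = top → l' ≫ f' = bot → l = l' :=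
  Iff.rfl

theorem reSq_hasUniqLift {S : Scheme.{u}} {F G F' G' : AlgSp.Sp S} {f : F ⟶ G} (sq : AlgSp.InfSq f)
    (f' : F' ⟶ G') (top : (AlgSp.yon S).obj sq.ptT ⟶ F') (bot : (AlgSp.yon S).obj sq.ptT' ⟶ G')
    (comm : top ≫ f' = (AlgSp.yon S).map sq.j ≫ bot) :
    (reSq sq f' top bot comm).HasUniqLift ↔
      ∃! l : (AlgSp.yon S).obj sq.ptT' ⟶ F', (AlgSp.yon S).map sq.j ≫ l = top ∧ l ≫ f' = bot :=
  Iff.rfl


/-- Let a : F ⟶ G and b : G ⟶ H be morphisms of fppf sheaves on (Sch/S) with b formally unramified. If a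
≫ b is formally unramified, resp. formally etale, resp. formally smooth, then so is a. (The
published statement is for transformations of arbitrary presheaves of sets on (Sch/S)_fppf; this row
takes fppf sheaves, the case of algebraic spaces.) -/
theorem result {S : Scheme.{u}} {F G H : AlgSp.Sp S} (a : F ⟶ G) (b : G ⟶ H)
    (hb : AlgSp.IsFormallyUnramifiedMor b) :
    (AlgSp.IsFormallyUnramifiedMor (a ≫ b) → AlgSp.IsFormallyUnramifiedMor a) ∧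
    (AlgSp.IsFormallyEtaleMor (a ≫ b) → AlgSp.IsFormallyEtaleMor a) ∧
    (AlgSp.IsFormallySmoothMor (a ≫ b) → AlgSp.IsFormallySmoothMor a) := by
  have hcomm : ∀ sq : AlgSp.InfSq a, sq.top ≫ a ≫ b = (AlgSp.yon S).map sq.j ≫ sq.bot ≫ b := by
    intro sq; rw [← Category.assoc, sq.comm, Category.assoc]
  have hcomm2 : ∀ sq : AlgSp.InfSq a, (sq.top ≫ a) ≫ b = (AlgSp.yon S).map sq.j ≫ sq.bot ≫ b := by
    intro sq; rw [sq.comm, Category.assoc]
  -- a lift for `a ≫ b` is a lift for `a`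
  have key : ∀ (sq : AlgSp.InfSq a) (l : (AlgSp.yon S).obj sq.ptT' ⟶ F),
      (AlgSp.yon S).map sq.j ≫ l = sq.top → l ≫ a ≫ b = sq.bot ≫ b → l ≫ a = sq.bot := by
    intro sq l h1 h2
    exact (reSq_hasUniq sq b (sq.top ≫ a) (sq.bot ≫ b) (hcomm2 sq)).1 (hb _) (l ≫ a) sq.bot
      (by rw [← Category.assoc, h1]) (by rw [Category.assoc, h2]) sq.comm.symm rfl
  refine ⟨fun h sq l l' h1 h2 h3 h4 => ?_, fun h sq => ?_, fun h sq => ?_⟩
  · exact (reSq_hasUniq sq (a ≫ b) sq.top (sq.bot ≫ b) (hcomm sq)).1 (h _) l l' h1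
      (by rw [← Category.assoc, h2]) h3 (by rw [← Category.assoc, h4])
  · obtain ⟨l, ⟨hl1, hl2⟩, hl3⟩ := (reSq_hasUniqLift sq (a ≫ b) sq.top (sq.bot ≫ b) (hcomm sq)).1 (h _)
    refine ⟨l, ⟨hl1, key sq l hl1 hl2⟩, fun l' hl' => hl3 l' ⟨hl'.1, ?_⟩⟩
    rw [← Category.assoc, hl'.2]
  · obtain ⟨l, hl1, hl2⟩ := (reSq_hasLift sq (a ≫ b) sq.top (sq.bot ≫ b) (hcomm sq)).1 (h _)
    exact ⟨l, hl1, key sq l hl1 hl2⟩

end Groth.Agent.S10618
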