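import Groth.Statements.S10619

set_option autoImplicit false
universe u
open CategoryTheory CategoryTheory.Limits AlgebraicGeometry
open AlgSp

namespace Groth.Agent.S10619

/-- Replace top and bottom arrows of an infinitesimal lifting square. -/
noncomputable def reSq {S : Scheme.{u}} {F G F' G' : AlgSp.Sp S} {f : F ⟶ G} (sq : AlgSp.InfSq f) (f' : F' ⟶ G')
    (top : (AlgSp.yon S).obj sq.ptT ⟶ F') (bot : (AlgSp.yon S).obj sq.ptT' ⟶ G')
    (comm : top ≫ f' = (AlgSp.yon S).map sq.j ≫ bot) : AlgSp.InfSq f' where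
  A := sq.A
  I := sq.I
  sq_zero := sq.sq_zero
  str := sq.str
  top := top
  bot := bot
  comm := comm

theorem reSq_hasLift {S : Scheme.{u}} {F G F' G' : AlgSp.Sp S} {f : F ⟶ G} (sq : AlgSp.InfSq f)
    (f' : F' ⟶ G') (top : (AlgSp.yon S).obj sq.ptT ⟶ F') (bot : (AlgSp.yon S).obj sq.ptT' ⟶ G')
    (comm : top ≫ f' = (AlgSp.yon S).map sq.j ≫ bot) :
    (reSq sq f' top bot comm).HasLift ↔
      ∃ l : (AlgSp.yon S).obj sq.ptT' ⟶ F', (AlgSp.yon S).map sq.j ≫ l = top ∧ l ≫ f' = bot :=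
  Iff.rfl

theorem reSq_hasUniq {S : Scheme.{u}} {F G F' G' : AlgSp.Sp S} {f : F ⟶ G} (sq : AlgSp.InfSq f)
    (f' : F' ⟶ G') (top : (AlgSp.yon S).obj sq.ptT ⟶ F') (bot : (AlgSp.yon S).obj sq.ptT' ⟶ G')
    (comm : top ≫ f' = (AlgSp.yon S).map sq.j ≫ bot) :
    (reSq sq f' top bot comm).HasUniq ↔
      ∀ l l' : (AlgSp.yon S).obj sq.ptT' ⟶ F', (AlgSp.yon S).map sq.j ≫ l = top → l ≫ f' = bot →
        (AlgSp.yon S).map sq.j ≫ l' = top → l' ≫ f' = bot → l = l' :=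
  Iff.rfl

/-- A composition of formally smooth, resp. formally etale, resp. formally unramified morphisms of fppf
sheaves on (Sch/S) is again formally smooth, resp. formally etale, resp. formally unramified. (The
published statement is for transformations of arbitrary presheaves of sets on (Sch/S)_fppf; this row
takes fppf sheaves, the case of algebraic spaces.) -/
theorem result {S : Scheme.{u}} {F G H : AlgSp.Sp S} (a : F ⟶ G) (b : G ⟶ H) :
    (AlgSp.IsFormallySmoothMor a → AlgSp.IsFormallySmoothMor b → AlgSp.IsFormallySmoothMor (a ≫ b)) ∧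
    (AlgSp.IsFormallyEtaleMor a → AlgSp.IsFormallyEtaleMor b → AlgSp.IsFormallyEtaleMor (a ≫ b)) ∧
    (AlgSp.IsFormallyUnramifiedMor a → AlgSp.IsFormallyUnramifiedMor b → AlgSp.IsFormallyUnramifiedMor (a ≫ b)) := by
  -- existence of lifts
  have hex : ∀ (sq : AlgSp.InfSq (a ≫ b)), (∀ sq' : AlgSp.InfSq a, sq'.HasLift) →
      (∀ sq' : AlgSp.InfSq b, sq'.HasLift) → sq.HasLift := by
    intro sq ha hb
    obtain ⟨l1, hl1, hl1'⟩ :=
      (reSq_hasLift sq b (sq.top ≫ a) sq.bot (by simpa using sq.comm)).1 (hb _)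
    obtain ⟨l2, hl2, hl2'⟩ := (reSq_hasLift sq a sq.top l1 hl1.symm).1 (ha _)
    exact ⟨l2, hl2, by rw [← Category.assoc, hl2', hl1']⟩
  have huniq : ∀ (sq : AlgSp.InfSq (a ≫ b)), (∀ sq' : AlgSp.InfSq a, sq'.HasUniq) →
      (∀ sq' : AlgSp.InfSq b, sq'.HasUniq) → sq.HasUniq := by
    intro sq ha hb l l' h1 h2 h3 h4
    have e : l ≫ a = l' ≫ a :=
      (reSq_hasUniq sq b (sq.top ≫ a) sq.bot (by simpa using sq.comm)).1 (hb _) (l ≫ a) (l' ≫ a)
        (by rw [← Category.assoc, h1]) (by simpa using h2)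
        (by rw [← Category.assoc, h3]) (by simpa using h4)
    exact (reSq_hasUniq sq a sq.top (l ≫ a) (by rw [← Category.assoc, h1])).1 (ha _) l l' h1 rfl h3 e.symm
  have toLift : ∀ {F' G' : AlgSp.Sp S} {f' : F' ⟶ G'} (sq : AlgSp.InfSq f'), sq.HasUniqLift → sq.HasLift := by
    intro F' G' f' sq h
    obtain ⟨l, hl, _⟩ := h
    exact ⟨l, hl⟩
  have toUniq : ∀ {F' G' : AlgSp.Sp S} {f' : F' ⟶ G'} (sq : AlgSp.InfSq f'), sq.HasUniqLift → sq.HasUniq := by
    intro F' G' f' sq h l l' h1 h2 h3 h4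
    obtain ⟨m, _, hm⟩ := h
    rw [hm l ⟨h1, h2⟩, hm l' ⟨h3, h4⟩]
  refine ⟨fun ha hb sq => hex sq ha hb, fun ha hb sq => ?_, fun ha hb sq => huniq sq ha hb⟩
  obtain ⟨l, hl⟩ := hex sq (fun sq' => toLift sq' (ha sq')) (fun sq' => toLift sq' (hb sq'))
  exact ⟨l, hl, fun l' hl' => huniq sq (fun sq' => toUniq sq' (ha sq')) (fun sq' => toUniq sq' (hb sq'))
    l' l hl'.1 hl'.2 hl.1 hl.2⟩

end Groth.Agent.S10619
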