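import Groth.Statements.S10620

set_option autoImplicit false
universe u
open CategoryTheory CategoryTheory.Limits AlgebraicGeometry
open AlgSp

namespace Groth.Agent.S10620

/-- Replace top and bottom arrows of an infinitesimal lifting square. -/
noncomputable def reSq {S : Scheme.{u}} {F G F' G' : AlgSp.Sp S} {f : F ⟶ G} (sq : AlgSp.InfSq f) (f' : F' ⟶ G')
    (top : (AlgSp.yon S).obj sq.ptT ⟶ F') (bot : (AlgSp.yon S).obj sq.ptT' ⟶ G')
    (comm : top ≫ f' = (AlgSp.yon S).map sq.j ≫ bot) : AlgSp.InfSq f' where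
  A := sq.A
  I := sq.I
  sq_zero := sq.sq_zero
  str := sq.str
  top := top
  bot := bot
  comm := comm

theorem reSq_hasLift {S : Scheme.{u}} {F G F' G' : AlgSp.Sp S} {f : F ⟶ G} (sq : AlgSp.InfSq f)
    (f' : F' ⟶ G') (top : (AlgSp.yon S).obj sq.ptT ⟶ F') (bot : (AlgSp.yon S).obj sq.ptT' ⟶ G')
    (comm : top ≫ f' = (AlgSp.yon S).map sq.j ≫ bot) :
    (reSq sq f' top bot comm).HasLift ↔
      ∃ l : (AlgSp.yon S).obj sq.ptT' ⟶ F', (AlgSp.yon S).map sq.j ≫ l = top ∧ l ≫ f' = bot :=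
  Iff.rfl

theorem reSq_hasUniq {S : Scheme.{u}} {F G F' G' : AlgSp.Sp S} {f : F ⟶ G} (sq : AlgSp.InfSq f)
    (f' : F' ⟶ G') (top : (AlgSp.yon S).obj sq.ptT ⟶ F') (bot : (AlgSp.yon S).obj sq.ptT' ⟶ G')
    (comm : top ≫ f' = (AlgSp.yon S).map sq.j ≫ bot) :
    (reSq sq f' top bot comm).HasUniq ↔
      ∀ l l' : (AlgSp.yon S).obj sq.ptT' ⟶ F', (AlgSp.yon S).map sq.j ≫ l = top → l ≫ f' = bot →
        (AlgSp.yon S).map sq.j ≫ l' = top → l' ≫ f' = bot → l = l' :=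
  Iff.rfl

theorem reSq_hasUniqLift {S : Scheme.{u}} {F G F' G' : AlgSp.Sp S} {f : F ⟶ G} (sq : AlgSp.InfSq f)
    (f' : F' ⟶ G') (top : (AlgSp.yon S).obj sq.ptT ⟶ F') (bot : (AlgSp.yon S).obj sq.ptT' ⟶ G')
    (comm : top ≫ f' = (AlgSp.yon S).map sq.j ≫ bot) :
    (reSq sq f' top bot comm).HasUniqLift ↔
      ∃! l : (AlgSp.yon S).obj sq.ptT' ⟶ F', (AlgSp.yon S).map sq.j ≫ l = top ∧ l ≫ f' = bot :=
  Iff.rfl


/-- Let a : F ⟶ G and b : H ⟶ G be morphisms of fppf sheaves on (Sch/S) and let a' : P ⟶ H be the base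
change of a along b (any pullback square). If a is formally smooth, resp. formally etale, resp.
formally unramified, then so is a'. (The published statement is for transformations of arbitrary
presheaves of sets on (Sch/S)_fppf; this row takes fppf sheaves, the case of algebraic spaces.) -/
theorem result {S : Scheme.{u}} {F G H P : AlgSp.Sp S} (a : F ⟶ G) (b : H ⟶ G)
    (b' : P ⟶ F) (a' : P ⟶ H) (hP : IsPullback b' a' a b) :
    (AlgSp.IsFormallySmoothMor a → AlgSp.IsFormallySmoothMor a') ∧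
    (AlgSp.IsFormallyEtaleMor a → AlgSp.IsFormallyEtaleMor a') ∧
    (AlgSp.IsFormallyUnramifiedMor a → AlgSp.IsFormallyUnramifiedMor a') := by
  have hw : b' ≫ a = a' ≫ b := hP.w
  have hc : ∀ sq : AlgSp.InfSq a', (sq.top ≫ b') ≫ a = (AlgSp.yon S).map sq.j ≫ sq.bot ≫ b := by
    intro sq; rw [Category.assoc, hw, ← Category.assoc, sq.comm, Category.assoc]
  -- existence
  have hex : ∀ sq : AlgSp.InfSq a', (reSq sq a (sq.top ≫ b') (sq.bot ≫ b) (hc sq)).HasLift → sq.HasLift := by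
    intro sq h
    obtain ⟨l, hl1, hl2⟩ := (reSq_hasLift sq a (sq.top ≫ b') (sq.bot ≫ b) (hc sq)).1 h
    refine ⟨hP.lift l sq.bot hl2, ?_, hP.lift_snd _ _ _⟩
    apply hP.hom_ext
    · rw [Category.assoc, hP.lift_fst, hl1]
    · rw [Category.assoc, hP.lift_snd, sq.comm]
  -- uniqueness
  have huniq : ∀ sq : AlgSp.InfSq a', (reSq sq a (sq.top ≫ b') (sq.bot ≫ b) (hc sq)).HasUniq → sq.HasUniq := by
    intro sq h l1 l2 h1 h2 h3 h4
    have e : l1 ≫ b' = l2 ≫ b' :=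
      (reSq_hasUniq sq a (sq.top ≫ b') (sq.bot ≫ b) (hc sq)).1 h (l1 ≫ b') (l2 ≫ b')
        (by rw [← Category.assoc, h1]) (by rw [Category.assoc, hw, ← Category.assoc, h2])
        (by rw [← Category.assoc, h3]) (by rw [Category.assoc, hw, ← Category.assoc, h4])
    exact hP.hom_ext e (h2.trans h4.symm)
  refine ⟨fun ha sq => hex sq (ha _), fun ha sq => ?_, fun ha sq => huniq sq (ha _)⟩
  have h := ha (reSq sq a (sq.top ≫ b') (sq.bot ≫ b) (hc sq))
  have h1 : (reSq sq a (sq.top ≫ b') (sq.bot ≫ b) (hc sq)).HasLift := by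
    obtain ⟨l, hl, _⟩ := h; exact ⟨l, hl⟩
  have h2 : (reSq sq a (sq.top ≫ b') (sq.bot ≫ b) (hc sq)).HasUniq := by
    intro l l' e1 e2 e3 e4
    obtain ⟨m, _, hm⟩ := h
    rw [hm l ⟨e1, e2⟩, hm l' ⟨e3, e4⟩]
  obtain ⟨l, hl⟩ := hex sq h1
  exact ⟨l, hl, fun l' hl' => huniq sq h2 l' l hl'.1 hl'.2 hl.1 hl.2⟩

end Groth.Agent.S10620
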