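import Groth.Statements.S1080
import Groth.Agent.Lib.Helper2.FilD

set_option autoImplicit false
universe v u
open CategoryTheory CategoryTheory.Limits Opposite
open FilD

namespace Groth.Agent.S1080

/-- Let A be an abelian category and u : I ⟶ X a strict monomorphism of finite filtered objects with I
filtered injective (all graded pieces injective). Then u admits a retraction. -/
theorem result {A : Type u} [Category.{v} A] [Abelian A] {I X : FilD.FilF A} (u : I ⟶ X) [Mono u]
    (hu : FilD.IsStrict u) (hI : FilD.IsFilteredInjective I) : ∃ r : X ⟶ I, u ≫ r = 𝟙 I := by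
  exact Groth.Agent.Lib.Helper2.FilDLib.exists_ext_of_mono u hu hI (𝟙 I)

end Groth.Agent.S1080
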