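import Groth.Statements.S1083
import Groth.Agent.Lib.Helper2.FilD

set_option autoImplicit false
universe v u
open CategoryTheory CategoryTheory.Limits Opposite
open FilD

namespace Groth.Agent.S1083

/-- Let A be an abelian category, K a filtered acyclic complex of finite filtered objects and I a
bounded below complex of filtered injective objects. Every morphism of complexes K ⟶ I is homotopic
to zero. -/
theorem result {A : Type u} [Category.{v} A] [Abelian A] (K I : CochainComplex (FilD.FilF A) ℤ)
    (hK : FilD.IsFilteredAcyclic K) (a : ℤ) [I.IsStrictlyGE a] (hI : ∀ n, FilD.IsFilteredInjective (I.X n)) (φ : K ⟶ I) :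
    Nonempty (Homotopy φ 0) := by
  exact Groth.Agent.Lib.Helper2.FilDLib.nullHomotopic_of_filteredAcyclic hK a hI φ

end Groth.Agent.S1083
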