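import Groth.Statements.S1084
import Groth.Agent.Lib.Helper2.FilD

set_option autoImplicit false
universe v u
open CategoryTheory CategoryTheory.Limits Opposite
open FilD

namespace Groth.Agent.S1084

/-- Let A be an abelian category, I a bounded below complex of filtered injective objects, and α : K ⟶ L
a filtered quasi-isomorphism of complexes of finite filtered objects. Then precomposition with α is
a bijection from homotopy classes of maps L ⟶ I to homotopy classes of maps K ⟶ I. -/
theorem result {A : Type u} [Category.{v} A] [Abelian A] (I : CochainComplex (FilD.FilF A) ℤ)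
    (a : ℤ) [I.IsStrictlyGE a] (hI : ∀ n, FilD.IsFilteredInjective (I.X n))
    {K L : CochainComplex (FilD.FilF A) ℤ} (α : K ⟶ L) (hα : FilD.IsFilteredQuasiIso α) :
    Function.Bijective (fun β : (HomotopyCategory.quotient (FilD.FilF A) (ComplexShape.up ℤ)).obj L ⟶
        (HomotopyCategory.quotient (FilD.FilF A) (ComplexShape.up ℤ)).obj I =>
      (HomotopyCategory.quotient (FilD.FilF A) (ComplexShape.up ℤ)).map α ≫ β) := by
  exact Groth.Agent.Lib.Helper2.FilDLib.bijective_precomp_of_filteredQuasiIso a hI α hα

end Groth.Agent.S1084
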