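import Groth.Statements.S1085
import Groth.Agent.Lib.Helper2.FilD

set_option autoImplicit false
universe v u
open CategoryTheory CategoryTheory.Limits Opposite
open FilD

namespace Groth.Agent.S1085

/-- Let A be an abelian category and S = (X ⟶ Y ⟶ Z) a short complex (composite zero) of finite filtered
objects such that grᵖ X ⟶ grᵖ Y ⟶ grᵖ Z is exact for every p. Then for every p the sequence of p-th
filtration steps Fᵖ X ⟶ Fᵖ Y ⟶ Fᵖ Z is exact, and both morphisms of S are strict. -/
theorem result {A : Type u} [Category.{v} A] [Abelian A] (S : ShortComplex (FilD.FilF A))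
    (hS : ∀ p : ℤ, (S.map (FilD.grF A p)).Exact) :
    (∀ p : ℤ, (S.map ((FilD.IsFinFil A).ι ⋙ (evaluation ℤᵒᵖ A).obj (op p))).Exact) ∧
      FilD.IsStrict S.f ∧ FilD.IsStrict S.g := by
  exact Groth.Agent.Lib.Helper2.FilDLib.levelExact_and_strict_of_gr S hS

end Groth.Agent.S1085
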