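import Groth.Statements.S1086
import Groth.Agent.Lib.Helper2.FilD

set_option autoImplicit false
universe v u
open CategoryTheory CategoryTheory.Limits Opposite
open FilD

namespace Groth.Agent.S1086

/-- Let φ : X ⟶ Y be a morphism of finite filtered objects of an abelian category and let Ker φ carry
the induced filtration (the kernel computed levelwise). Then φ is strict if and only if for every p
the sequence grᵖ(Ker φ) ⟶ grᵖ X ⟶ grᵖ Y is exact. -/
theorem result {A : Type u} [Category.{v} A] [Abelian A] {X Y : FilD.FilF A} (φ : X ⟶ Y) :
    FilD.IsStrict φ ↔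
      ∀ p : ℤ, ((ShortComplex.mk (kernel.ι φ.hom) φ.hom (kernel.condition φ.hom)).map (FilD.gr A p)).Exact := by
  exact Groth.Agent.Lib.Helper2.FilDLib.isStrict_iff_gr_kernel_exact φ

end Groth.Agent.S1086
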