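import Groth.Statements.S1090
import Groth.Agent.Lib.Helper2.FilD

set_option autoImplicit false
universe v u
open CategoryTheory CategoryTheory.Limits Opposite
open FilD

namespace Groth.Agent.S1090

/-- Let A be an abelian category with enough injectives, f : X ⟶ Y a morphism of finite filtered
objects, and X[0] ⟶ I, Y[0] ⟶ J filtered quasi-isomorphisms into complexes of filtered injective
objects vanishing in negative degrees. Then there is a morphism of complexes I ⟶ J making the
evident square with f[0] commute. -/
theorem result {A : Type u} [Category.{v} A] [Abelian A] [EnoughInjectives A] {X Y : FilD.FilF A} (f : X ⟶ Y)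
    (I : CochainComplex (FilD.FilF A) ℤ) [I.IsStrictlyGE 0] (hI : ∀ n, FilD.IsFilteredInjective (I.X n))
    (a : (CochainComplex.singleFunctor (FilD.FilF A) 0).obj X ⟶ I) (ha : FilD.IsFilteredQuasiIso a)
    (J : CochainComplex (FilD.FilF A) ℤ) [J.IsStrictlyGE 0] (hJ : ∀ n, FilD.IsFilteredInjective (J.X n))
    (b : (CochainComplex.singleFunctor (FilD.FilF A) 0).obj Y ⟶ J) (hb : FilD.IsFilteredQuasiIso b) :
    ∃ φ : I ⟶ J, a ≫ φ = (CochainComplex.singleFunctor (FilD.FilF A) 0).map f ≫ b := by
  exact Groth.Agent.Lib.Helper2.FilDLib.exists_comparison f I a ha J hJ b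

end Groth.Agent.S1090
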