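import Groth.Statements.S1126
import Mathlib.AlgebraicGeometry.Morphisms.FlatDescent

set_option autoImplicit false
open CategoryTheory CategoryTheory.Limits AlgebraicGeometry Opposite
universe u
open Desc

namespace Groth.Agent.S1126

theorem isUnivHomeo_eq_h2 : FlatMor.IsUnivHomeo.{u} =
    (@UniversallyInjective ⊓ @Surjective ⊓ @UniversallyClosed : MorphismProperty Scheme.{u}) := by
  ext X Y f
  constructor
  · intro h
    refine ⟨⟨⟨fun X' Y' i₁ i₂ f' H => (h i₁ i₂ f' H).injective⟩, ?_⟩,
      ⟨fun X' Y' i₁ i₂ f' H => (h i₁ i₂ f' H).isClosedMap⟩⟩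
    exact ⟨(h _ _ _ .of_id_snd).surjective⟩
  · rintro ⟨⟨hi, hs⟩, hc⟩ X' Y' i₁ i₂ f' H
    have hs' : Surjective f' :=
      MorphismProperty.IsStableUnderBaseChange.of_isPullback (P := @Surjective) H.flip hs
    exact isHomeomorph_iff_continuous_isClosedMap_bijective.mpr
      ⟨f'.continuous, hc.1 _ _ _ H, hi.1 _ _ _ H, hs'.1⟩

/-- If the base change of a morphism along a quasi-compact flat surjective morphism to its target is a
universal homeomorphism, then the morphism is a universal homeomorphism. (Stated for a single
quasi-compact flat surjective base change; combined with Zariski-locality on the target this gives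
the fpqc-local form.) -/
theorem result :
    MorphismProperty.DescendsAlong (FlatMor.IsUnivHomeo.{u})
      (@Surjective ⊓ @Flat ⊓ @QuasiCompact : MorphismProperty Scheme.{u}) := by
  rw [isUnivHomeo_eq_h2]
  infer_instance

end Groth.Agent.S1126
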