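import Groth.Statements.S1128
import Groth.Agent.Lib.Helper2.FlatDesc

set_option autoImplicit false
open CategoryTheory CategoryTheory.Limits AlgebraicGeometry Opposite
universe u
open Desc

namespace Groth.Agent.S1128

/-- If f is flat and surjective and the composite of f with g is flat, then g is flat; together with
stability of flatness under composition this says flatness is fpqc local on the source. -/
theorem result {X' X Y : Scheme.{u}} (f : X' ⟶ X) (g : X ⟶ Y) [Flat f]
    [Surjective f] [Flat (f ≫ g)] : Flat g := by
  exact Groth.Agent.Lib.Helper2.flat_of_comp_of_surjective f g

end Groth.Agent.S1128
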