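import Groth.Statements.S1131
import Mathlib.AlgebraicGeometry.Sites.Fpqc

set_option autoImplicit false
open CategoryTheory CategoryTheory.Limits AlgebraicGeometry Opposite
universe u
open Desc

namespace Groth.Agent.S1131

/-- If p : X ⟶ S is surjective, flat and quasi-compact, then the functor sending a scheme over S to its
canonical descent datum relative to p is full. (Faithfulness, which needs no quasi-compactness, is a
companion statement.) (Descent data are taken in functor-of-points form, equivalent by the Yoneda
lemma to the usual form of an isomorphism over X ×_S X satisfying the cocycle condition.) -/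
theorem result {X S : Scheme.{u}} (p : X ⟶ S) [Surjective p] [Flat p] [QuasiCompact p] :
    (Desc.toDD p).Full := by
  constructor
  intro U U' φ
  let ψ : pullback p U.hom ⟶ pullback p U'.hom := φ.hom.left
  have hφ : ψ ≫ pullback.fst p U'.hom = pullback.fst p U.hom := Over.w φ.hom
  have hw : ∀ {Z : Scheme.{u}} (a b : Z ⟶ pullback p U.hom),
      a ≫ pullback.snd p U.hom = b ≫ pullback.snd p U.hom →
        a ≫ (ψ ≫ pullback.snd p U'.hom) = b ≫ (ψ ≫ pullback.snd p U'.hom) := by
    intro Z a b hab
    have hx : (a ≫ pullback.fst p U.hom) ≫ p = (b ≫ pullback.fst p U.hom) ≫ p := by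
      simp only [Category.assoc, pullback.condition]
      rw [← Category.assoc, hab, Category.assoc]
    have hA : (a ≫ ψ) ≫ pullback.fst p U'.hom = a ≫ pullback.fst p U.hom := by
      rw [Category.assoc, hφ]
    have hc := φ.comm (a ≫ pullback.fst p U.hom) (b ≫ pullback.fst p U.hom) hx ⟨a, rfl⟩
      ⟨a ≫ ψ, hA⟩ rfl
    have e1 : ((Desc.toDD p).obj U).φ (a ≫ pullback.fst p U.hom) (b ≫ pullback.fst p U.hom) hx
        ⟨a, rfl⟩ = ⟨b, rfl⟩ := by
      apply Subtype.ext
      change (Desc.canMap p U _ _ hx ⟨a, rfl⟩).1 = b
      rw [Desc.canMap_val]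
      apply pullback.hom_ext
      · rw [pullback.lift_fst]
      · rw [pullback.lift_snd]
        exact hab
    rw [e1] at hc
    have hc' : (Desc.canMap p U' (a ≫ pullback.fst p U.hom) (b ≫ pullback.fst p U.hom) hx
        ⟨a ≫ ψ, hA⟩).1 = b ≫ ψ := hc
    rw [Desc.canMap_val] at hc'
    have hc2 := congrArg (· ≫ pullback.snd p U'.hom) hc'
    simp only at hc2
    rw [pullback.lift_snd] at hc2
    rw [← Category.assoc, ← Category.assoc]
    exact hc2
  let g : U.left ⟶ U'.left := EffectiveEpi.desc (pullback.snd p U.hom)
    (ψ ≫ pullback.snd p U'.hom) (fun a b hab => hw a b hab)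
  have hg : pullback.snd p U.hom ≫ g = ψ ≫ pullback.snd p U'.hom :=
    EffectiveEpi.fac _ _ _
  have hgS : g ≫ U'.hom = U.hom := by
    rw [← cancel_epi (pullback.snd p U.hom), ← Category.assoc, hg, Category.assoc,
      ← pullback.condition, ← Category.assoc, hφ, pullback.condition]
  refine ⟨Over.homMk g hgS, ?_⟩
  ext : 1
  apply Over.OverMorphism.ext
  apply pullback.hom_ext
  · change pullback.lift _ _ _ ≫ pullback.fst p U'.hom = ψ ≫ pullback.fst p U'.hom
    rw [pullback.lift_fst, hφ, Category.comp_id]
  · change pullback.lift _ _ _ ≫ pullback.snd p U'.hom = ψ ≫ pullback.snd p U'.hom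
    rw [pullback.lift_snd]
    exact hg

end Groth.Agent.S1131
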