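import Groth.Statements.S1156
-- import your own Groth.Agent.* helpers here

set_option autoImplicit false
universe u
open scoped TensorProduct
open Desc

namespace Groth.Agent.S1156

/-- Exactness of the extended Amitsur complex in degree 0 (injectivity in degree −1 being standard). Let
R → A be faithfully flat and M an R-module. An element x of A ⊗_R M with 1 ⊗ x = (a ⊗ m ↦ a ⊗ 1 ⊗
m)(x) in A ⊗_R A ⊗_R M lies in the image of m ↦ 1 ⊗ m. -/
theorem result (R A : Type u) [CommRing R] [CommRing A] [Algebra R A] [Module.FaithfullyFlat R A]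
    (M : Type u) [AddCommGroup M] [Module R M] (x : A ⊗[R] M)
    (hx : TensorProduct.mk R A (A ⊗[R] M) 1 x = LinearMap.lTensor A (TensorProduct.mk R A M 1) x) :
    x ∈ LinearMap.range (TensorProduct.mk R A M 1) := by
  classical
  let f : M →ₗ[R] A ⊗[R] M := TensorProduct.mk R A M 1
  let d : A ⊗[R] M →ₗ[R] A ⊗[R] (A ⊗[R] M) :=
    TensorProduct.mk R A (A ⊗[R] M) 1 - LinearMap.lTensor A f
  let μ : ∀ (N : Type u) [AddCommGroup N] [Module R N], A ⊗[R] (A ⊗[R] N) →ₗ[R] A ⊗[R] N :=
    fun N _ _ => (LinearMap.rTensor N (LinearMap.mul' R A)) ∘ₗ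
      (TensorProduct.assoc R A A N).symm.toLinearMap
  have hμ : ∀ (N : Type u) [AddCommGroup N] [Module R N] (a b : A) (n : N),
      μ N (a ⊗ₜ (b ⊗ₜ n)) = (a * b) ⊗ₜ n := by
    intro N _ _ a b n
    simp [μ]
  have key : ∀ y : A ⊗[R] (A ⊗[R] M),
      μ (A ⊗[R] M) (LinearMap.lTensor A d y) = y - LinearMap.lTensor A f (μ M y) := by
    intro y
    induction y using TensorProduct.induction_on with
    | zero => simp
    | tmul a z =>
      induction z using TensorProduct.induction_on with
      | zero => simp
      | tmul b m =>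
        simp only [LinearMap.lTensor_tmul, d, f, LinearMap.sub_apply, TensorProduct.tmul_sub,
          map_sub, TensorProduct.mk_apply, hμ, mul_one]
      | add z₁ z₂ h₁ h₂ =>
        simp only [TensorProduct.tmul_add, map_add] at h₁ h₂ ⊢
        rw [h₁, h₂]; abel
    | add y₁ y₂ h₁ h₂ =>
      simp only [map_add, h₁, h₂]; abel
  have hdf : d ∘ₗ f = 0 := by
    ext m; simp [d, f]
  have hex : Function.Exact f d := by
    apply Module.FaithfullyFlat.lTensor_reflects_exact R A
    intro y
    constructor
    · intro hy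
      refine ⟨μ M y, ?_⟩
      have := key y
      rw [hy, map_zero] at this
      exact (sub_eq_zero.mp this.symm).symm
    · rintro ⟨z, rfl⟩
      rw [← LinearMap.lTensor_comp_apply, hdf]
      simp
  have : d x = 0 := by simp [d, f, hx]
  exact (hex x).mp this

end Groth.Agent.S1156
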