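import Groth.Statements.S1163
import Groth.Agent.Lib.Helper2.FlatDesc

set_option autoImplicit false
open CategoryTheory CategoryTheory.Limits AlgebraicGeometry Opposite
universe u
open Desc

namespace Groth.Agent.S1163

/-- The case P = flat, single fppf cover: Let f : X ⟶ Y and q : Y ⟶ Z be morphisms of schemes, and
suppose there is a flat, surjective morphism g : Y' ⟶ Y locally of finite presentation which factors
through f. If f ≫ q is flat, then q is flat. -/
theorem result {X Y Z Y' : Scheme.{u}} (f : X ⟶ Y) (q : Y ⟶ Z) (g : Y' ⟶ Y) [Flat g] [Surjective g]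
    [LocallyOfFinitePresentation g] (l : Y' ⟶ X) (hl : l ≫ f = g) [Flat (f ≫ q)] : Flat q := by
  subst hl
  rw [Flat.iff_flat_stalkMap]
  intro y
  obtain ⟨y', rfl⟩ := (l ≫ f).surjective y
  have h1 : ((f.stalkMap (l y')).hom.comp (q.stalkMap (f (l y'))).hom).Flat := by
    have e := Scheme.Hom.stalkMap_comp f q (l y')
    have := Flat.stalkMap (f ≫ q) (l y')
    rw [e] at this
    exact this
  have h2 : ((l.stalkMap y').hom.comp (f.stalkMap (l y')).hom).Flat := by
    have e := Scheme.Hom.stalkMap_comp l f y'
    have := Flat.stalkMap (l ≫ f) y'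
    rw [e] at this
    exact this
  exact Groth.Agent.Lib.Helper2.ringHom_flat_of_comp_of_comp (q.stalkMap (f (l y'))).hom
    (f.stalkMap (l y')).hom (l.stalkMap y').hom h1 h2

end Groth.Agent.S1163
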