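import Groth.Statements.S1206
import Mathlib.RingTheory.Nakayama
import Mathlib.RingTheory.Jacobson.Ideal
import Mathlib.RingTheory.LocalRing.MaximalIdeal.Basic
import Mathlib.Order.CompactlyGenerated.Basic
import Mathlib.RingTheory.Finiteness.Basic

set_option autoImplicit false
universe u
open FlatMor

namespace Groth.Agent.S1206

/-- Let A be a local domain which is not a field and 𝒮 a set of finitely generated ideals of A, closed
under products, such that the union of the closed sets V(I), I ∈ 𝒮, is exactly the set of nonzero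
primes (every nonzero prime contains a member of 𝒮 and no member is zero). Then the intersection of
all members of 𝒮 is zero. -/
theorem result (A : Type u) [CommRing A] [IsDomain A] [IsLocalRing A] (hA : ¬ IsField A)
    (𝒮 : Set (Ideal A)) (hfg : ∀ I ∈ 𝒮, I.FG) (hmul : ∀ I ∈ 𝒮, ∀ J ∈ 𝒮, I * J ∈ 𝒮)
    (hne : ∀ I ∈ 𝒮, I ≠ ⊥) (hcov : ∀ (p : Ideal A), p.IsPrime → p ≠ ⊥ → ∃ I ∈ 𝒮, I ≤ p) :
    sInf 𝒮 = ⊥ := by
  rw [eq_bot_iff]
  intro x hx
  rw [Submodule.mem_bot]
  by_contra hx0
  have hxS : ∀ I ∈ 𝒮, x ∈ I := fun I hI => (sInf_le hI : sInf 𝒮 ≤ I) hx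
  have hm : IsLocalRing.maximalIdeal A ≠ ⊥ := by
    intro h; exact hA (IsLocalRing.isField_iff_maximalIdeal_eq.mpr h)
  obtain ⟨I0, hI0, hI0m⟩ := hcov _ (IsLocalRing.maximalIdeal.isMaximal A).isPrime hm
  have hxm : x ∈ IsLocalRing.maximalIdeal A := hI0m (hxS I0 hI0)
  by_cases hcase : ∃ I ∈ 𝒮, I ≤ Ideal.span {x}
  · obtain ⟨I, hI, hIx⟩ := hcase
    have hII : I ≤ I • I := by
      refine hIx.trans ?_
      rw [Ideal.span_le, Set.singleton_subset_iff]
      exact hxS _ (hmul I hI I hI)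
    have hIjac : I ≤ Ideal.jacobson ⊥ := by
      rw [IsLocalRing.jacobson_eq_maximalIdeal (⊥ : Ideal A) bot_ne_top]
      exact hIx.trans ((Ideal.span_singleton_le_iff_mem _).2 hxm)
    exact hne I hI (Submodule.eq_bot_of_le_smul_of_le_jacobson_bot I I (hfg I hI) hII hIjac)
  · push Not at hcase
    obtain ⟨P, hxP, hPmax⟩ := zorn_le_nonempty₀ {J : Ideal A | Ideal.span {x} ≤ J ∧ ∀ I ∈ 𝒮, ¬ I ≤ J}
      (fun c hc hchain y hy => by
        refine ⟨sSup c, ⟨(hc hy).1.trans (le_sSup hy), fun I hI hIc => ?_⟩, fun z hz => le_sSup hz⟩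
        have hcomp := (Submodule.fg_iff_compact I).mp (hfg I hI)
        obtain ⟨J, hJc, hIJ⟩ := (CompleteLattice.isCompactElement_iff_le_of_directed_sSup_le _ I).mp
          hcomp c ⟨y, hy⟩ hchain.directedOn hIc
        exact (hc hJc).2 I hI hIJ) (Ideal.span {x}) ⟨le_rfl, fun I hI => hcase I hI⟩
    have hPT := hPmax.prop
    have hbig : ∀ a, a ∉ P → ∃ I ∈ 𝒮, I ≤ P ⊔ Ideal.span {a} := by
      intro a ha
      have hlt : P < P ⊔ Ideal.span {a} := by
        refine lt_of_le_of_ne le_sup_left (fun h => ha ?_)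
        rw [h]; exact Ideal.mem_sup_right (Ideal.mem_span_singleton_self a)
      have hnot := hPmax.not_prop_of_gt hlt
      simp only [Set.mem_ofPred_eq, not_and, not_forall, not_not] at hnot
      obtain ⟨I, hI, hIle⟩ := hnot (hPT.1.trans le_sup_left)
      exact ⟨I, hI, hIle⟩
    have hPprime : P.IsPrime := by
      refine ⟨fun htop => hPT.2 I0 hI0 (htop ▸ le_top), fun {a b} hab => ?_⟩
      by_contra hcon
      push Not at hcon
      obtain ⟨I1, hI1, h1⟩ := hbig a hcon.1
      obtain ⟨I2, hI2, h2⟩ := hbig b hcon.2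
      apply hPT.2 _ (hmul I1 hI1 I2 hI2)
      refine (Ideal.mul_mono h1 h2).trans ?_
      rw [Ideal.sup_mul, Ideal.mul_sup, Ideal.mul_sup]
      refine sup_le (sup_le Ideal.mul_le_left Ideal.mul_le_left) (sup_le Ideal.mul_le_right ?_)
      rw [Ideal.span_singleton_mul_span_singleton, Ideal.span_le, Set.singleton_subset_iff]
      exact hab
    have hP0 : P ≠ ⊥ := by
      intro h
      apply hx0
      have : x ∈ P := hPT.1 (Ideal.mem_span_singleton_self x)
      rw [h] at this
      exact (Submodule.mem_bot A).mp this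
    obtain ⟨I, hI, hIP⟩ := hcov P hPprime hP0
    exact hPT.2 I hI hIP

end Groth.Agent.S1206
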