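import Groth.Statements.S1207
import Mathlib.RingTheory.Nakayama
import Mathlib.RingTheory.Jacobson.Ideal
import Mathlib.RingTheory.LocalRing.MaximalIdeal.Basic

set_option autoImplicit false
universe u
open FlatMor

namespace Groth.Agent.S1207

/-- Let A be a local ring and I, J ideals of A with J finitely generated, J ≠ A, and I ⊆ J^n for all n ≥
1. Then every prime p not containing J which is maximal among the primes not containing J (a closed
point of Spec A ∖ V(J)) contains I. (The published statement leaves the hypothesis J ≠ A implicit;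
for J = A the assertion fails.) -/
theorem result (A : Type u) [CommRing A] [IsLocalRing A] (I J : Ideal A) (hJ : J.FG) (hJ1 : J ≠ ⊤)
    (hI : ∀ n : ℕ, 1 ≤ n → I ≤ J ^ n) (p : Ideal A) [p.IsPrime] (hp : ¬ J ≤ p)
    (hmax : ∀ (p' : Ideal A), p'.IsPrime → p ≤ p' → ¬ J ≤ p' → p' = p) : I ≤ p := by
    by_contra hIp
    have hrad : J ≤ (p ⊔ I).radical := by
      intro a ha
      by_contra hna
      have hdisj : Disjoint ((p ⊔ I : Ideal A) : Set A) (Submonoid.powers a) := by
        rw [Set.disjoint_left]
        rintro x hx ⟨n, rfl⟩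
        exact hna ⟨n, hx⟩
      obtain ⟨q, hq, hle, hqd⟩ := Ideal.exists_le_prime_disjoint _ (Submonoid.powers a) hdisj
      have hJq : ¬ J ≤ q := fun h => Set.disjoint_left.mp hqd (h ha) ⟨1, pow_one a⟩
      have := hmax q hq (le_sup_left.trans hle) hJq
      exact hIp (this ▸ (le_sup_right.trans hle))
    obtain ⟨M, hM⟩ := Ideal.exists_pow_le_of_le_radical_of_fg hrad hJ
    have hJM : J ^ M ≤ p ⊔ J • J ^ M := by
      refine hM.trans (sup_le_sup_left ?_ _)
      have := hI (M + 1) (by omega)
      rw [pow_succ'] at this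
      exact this
    have hjac : J ≤ Ideal.jacobson ⊥ := by
      rw [IsLocalRing.jacobson_eq_maximalIdeal (⊥ : Ideal A) bot_ne_top]
      exact IsLocalRing.le_maximalIdeal hJ1
    have := Submodule.le_of_le_smul_of_le_jacobson_bot (hJ.pow (n := M)) hjac hJM
    exact hp (Ideal.IsPrime.le_of_pow_le this)

end Groth.Agent.S1207
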