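import Groth.Statements.S12078
-- import your own Groth.Agent.* helpers here

set_option autoImplicit false
universe u
open CAlg

namespace Groth.Agent.S12078

/-- An elementary divisor domain is Bézout. Here `R` is a domain such that for all `n, m ≥ 1` and every
`n × m` matrix `A` there are invertible matrices `U` (`n × n`) and `V` (`m × m`) with `U * A * V`
zero off the diagonal and with diagonal entries `f 0 ∣ f 1 ∣ f 2 ∣ …`; the conclusion is that every
finitely generated ideal of `R` is principal. -/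
theorem result (R : Type u) [CommRing R] [IsDomain R]
    (hR : ∀ n m : ℕ, 1 ≤ n → 1 ≤ m → ∀ A : Matrix (Fin n) (Fin m) R,
      ∃ (U : (Matrix (Fin n) (Fin n) R)ˣ) (V : (Matrix (Fin m) (Fin m) R)ˣ) (f : ℕ → R),
        (∀ k : ℕ, f k ∣ f (k + 1)) ∧
        ∀ (i : Fin n) (j : Fin m), ((U : Matrix (Fin n) (Fin n) R) * A * (V : Matrix (Fin m) (Fin m) R)) i j =
          if (i : ℕ) = (j : ℕ) then f i else 0) :
    IsBezout R := by
  rw [IsBezout.iff_span_pair_isPrincipal]
  intro x y
  obtain ⟨U, V, f, -, hD⟩ := hR 1 2 le_rfl (by norm_num) (Matrix.of ![![x, y]])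
  have key : ∀ {m n p q : Type} [Fintype n] [Fintype p] (I : Ideal R)
      (P : Matrix m n R) (D : Matrix n p R) (Q : Matrix p q R), (∀ i j, D i j ∈ I) →
      ∀ i j, (P * D * Q) i j ∈ I := by
    intro m n p q _ _ I P D Q hDI i j
    rw [Matrix.mul_apply]
    refine Submodule.sum_mem _ fun k _ => Ideal.mul_mem_right _ _ ?_
    rw [Matrix.mul_apply]
    exact Submodule.sum_mem _ fun l _ => Ideal.mul_mem_left _ _ (hDI l k)
  refine ⟨⟨f 0, ?_⟩⟩
  change Ideal.span {x, y} = Ideal.span {f 0}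
  apply le_antisymm
  · have hA : Matrix.of ![![x, y]] = ((U⁻¹ : (Matrix (Fin 1) (Fin 1) R)ˣ) : Matrix (Fin 1) (Fin 1) R) *
        ((U : Matrix (Fin 1) (Fin 1) R) * Matrix.of ![![x, y]] * (V : Matrix (Fin 2) (Fin 2) R)) *
        ((V⁻¹ : (Matrix (Fin 2) (Fin 2) R)ˣ) : Matrix (Fin 2) (Fin 2) R) := by
      simp only [← Matrix.mul_assoc, Units.inv_mul, Matrix.one_mul]
      simp only [Matrix.mul_assoc, Units.mul_inv, Matrix.mul_one]
    have hmem : ∀ i j, ((U : Matrix (Fin 1) (Fin 1) R) * Matrix.of ![![x, y]] *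
        (V : Matrix (Fin 2) (Fin 2) R)) i j ∈ Ideal.span {f 0} := by
      intro i j
      rw [hD i j]
      split_ifs with h
      · have : (i : ℕ) = 0 := by omega
        rw [this]
        exact Ideal.subset_span rfl
      · exact Ideal.zero_mem _
    rw [Ideal.span_le]
    intro z hz
    rcases hz with rfl | rfl
    · have := key (Ideal.span {f 0}) ((U⁻¹ : (Matrix (Fin 1) (Fin 1) R)ˣ) : Matrix (Fin 1) (Fin 1) R) _
        ((V⁻¹ : (Matrix (Fin 2) (Fin 2) R)ˣ) : Matrix (Fin 2) (Fin 2) R) hmem 0 0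
      rw [← hA] at this
      simpa using this
    · have := key (Ideal.span {f 0}) ((U⁻¹ : (Matrix (Fin 1) (Fin 1) R)ˣ) : Matrix (Fin 1) (Fin 1) R) _
        ((V⁻¹ : (Matrix (Fin 2) (Fin 2) R)ˣ) : Matrix (Fin 2) (Fin 2) R) hmem 0 1
      rw [← hA] at this
      simpa using this
  · have hAmem : ∀ i j, (Matrix.of ![![x, y]] : Matrix (Fin 1) (Fin 2) R) i j ∈ Ideal.span {x, y} := by
      intro i j
      fin_cases i; fin_cases j
      · exact Ideal.subset_span (by simp)
      · exact Ideal.subset_span (by simp)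
    have h00 := key (Ideal.span {x, y}) (U : Matrix (Fin 1) (Fin 1) R) _ (V : Matrix (Fin 2) (Fin 2) R) hAmem 0 0
    rw [hD 0 0] at h00
    simp only [Fin.val_zero, if_true] at h00
    rw [Ideal.span_le]
    intro z hz
    rw [Set.mem_singleton_iff] at hz
    rw [hz]
    exact h00

end Groth.Agent.S12078
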