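import Groth.Statements.S12079
import Mathlib.Algebra.Module.FinitePresentation
import Mathlib.LinearAlgebra.Contraction
import Mathlib.LinearAlgebra.LeftExact
import Mathlib.RingTheory.Flat.Basic
-- import your own Groth.Agent.* helpers here

set_option autoImplicit false
universe u
open TensorProduct
open CAlg

namespace Groth.Agent.S12079

/-- For a finitely presented `R`-module `M`, any `R`-module `N` and a flat `R`-module `L`, the canonical
map `Hom_R(M, N) ⊗_R L → Hom_R(M, N ⊗_R L)` sending `f ⊗ l` to `m ↦ f m ⊗ l` is bijective. -/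
theorem result (R : Type u) [CommRing R]
    (M N L : Type u) [AddCommGroup M] [Module R M] [AddCommGroup N] [Module R N] [AddCommGroup L] [Module R L]
    [Module.FinitePresentation R M] [Module.Flat R L] :
    Function.Bijective (TensorProduct.rTensorHomToHomRTensor (RingHom.id R) M N L) := by
  obtain ⟨n, m, g, f, hg, hfg⟩ := Module.FinitePresentation.exists_fin' R M
  have hαn : Function.Bijective
      (TensorProduct.rTensorHomToHomRTensor (RingHom.id R) (Fin n → R) N L) := by
    have := (rTensorHomEquivHomRTensor R (Fin n → R) N L).bijective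
    rwa [← LinearEquiv.coe_toLinearMap, rTensorHomEquivHomRTensor_toLinearMap] at this
  have hαm : Function.Bijective
      (TensorProduct.rTensorHomToHomRTensor (RingHom.id R) (Fin m → R) N L) := by
    have := (rTensorHomEquivHomRTensor R (Fin m → R) N L).bijective
    rwa [← LinearEquiv.coe_toLinearMap, rTensorHomEquivHomRTensor_toLinearMap] at this
  let gs : (M →ₗ[R] N) →ₗ[R] ((Fin n → R) →ₗ[R] N) := LinearMap.lcomp R N g
  let fs : ((Fin n → R) →ₗ[R] N) →ₗ[R] ((Fin m → R) →ₗ[R] N) := LinearMap.lcomp R N f
  let gsL : (M →ₗ[R] N ⊗[R] L) →ₗ[R] ((Fin n → R) →ₗ[R] N ⊗[R] L) :=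
    LinearMap.lcomp R (N ⊗[R] L) g
  let fsL : ((Fin n → R) →ₗ[R] N ⊗[R] L) →ₗ[R] ((Fin m → R) →ₗ[R] N ⊗[R] L) :=
    LinearMap.lcomp R (N ⊗[R] L) f
  have hex : Function.Exact gs fs := LinearMap.exact_lcomp_of_exact_of_surjective N hfg hg
  have hgs : Function.Injective gs := LinearMap.lcomp_injective_of_surjective g hg
  have hgsL : Function.Injective gsL := LinearMap.lcomp_injective_of_surjective g hg
  have hex' : Function.Exact (gs.rTensor L) (fs.rTensor L) := Module.Flat.rTensor_exact L hex
  have hgs' : Function.Injective (gs.rTensor L) :=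
    Module.Flat.rTensor_preserves_injective_linearMap gs hgs
  have nat_g : ∀ x, TensorProduct.rTensorHomToHomRTensor (RingHom.id R) (Fin n → R) N L
      (gs.rTensor L x) = gsL (TensorProduct.rTensorHomToHomRTensor (RingHom.id R) M N L x) := by
    intro x
    induction x using TensorProduct.induction_on with
    | zero => simp
    | tmul φ l =>
      ext v
      simp [gs, gsL]
    | add x y hx hy => rw [map_add, map_add, hx, hy, map_add, map_add]
  have nat_f : ∀ x, TensorProduct.rTensorHomToHomRTensor (RingHom.id R) (Fin m → R) N L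
      (fs.rTensor L x) =
        fsL (TensorProduct.rTensorHomToHomRTensor (RingHom.id R) (Fin n → R) N L x) := by
    intro x
    induction x using TensorProduct.induction_on with
    | zero => simp
    | tmul φ l =>
      ext v
      simp [fs, fsL]
    | add x y hx hy => rw [map_add, map_add, hx, hy, map_add, map_add]
  have hfg0 : ∀ y, fsL (gsL y) = 0 := by
    intro y
    ext v
    simp [fsL, gsL, hfg.apply_apply_eq_zero]
  constructor
  · intro x y hxy
    apply hgs'
    apply hαn.1
    rw [nat_g, nat_g, hxy]
  · intro y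
    obtain ⟨z, hz⟩ := hαn.2 (gsL y)
    have h0 : fs.rTensor L z = 0 := by
      apply hαm.1
      rw [nat_f, hz, hfg0, map_zero]
    obtain ⟨x, hx⟩ := (hex' z).1 h0
    refine ⟨x, ?_⟩
    apply hgsL
    rw [← nat_g, hx, hz]

end Groth.Agent.S12079
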