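import Groth.Statements.S12081
-- import your own Groth.Agent.* helpers here

set_option autoImplicit false
universe u
open TensorProduct
open EtAlg

namespace Groth.Agent.S12081

/-- Let `B' = B ×_A A'` be a fibre square of rings with `A' → A` surjective with kernel `I`, let `J =
Ker(B' → B)`, let `D'` be a `B'`-algebra and `C' = D' ⊗_{B'} A'`. Then the ideal `I C'` is, as a
subset of `C'`, the image of the ideal `J D'` under `D' → C'`; that is, the map `J D' → I C'` is
surjective. -/
theorem result (B' B A' A : Type u) [CommRing B'] [CommRing B] [CommRing A'] [CommRing A]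
    [Algebra B' B] [Algebra B' A'] [Algebra B A] [Algebra A' A] [Algebra B' A] [IsScalarTower B' B A] [IsScalarTower B' A' A]
    (hsq : EtMil.IsFibreSquare B' B A' A)
    (D' C' : Type u) [CommRing D'] [CommRing C'] [Algebra B' D'] [Algebra A' C']
    [Algebra D' C'] [Algebra B' C'] [IsScalarTower B' A' C'] [IsScalarTower B' D' C'] [Algebra.IsPushout B' A' D' C'] :
    (algebraMap D' C') '' ((RingHom.ker (algebraMap B' B)).map (algebraMap B' D') : Set D') =
      ((RingHom.ker (algebraMap A' A)).map (algebraMap A' C') : Set C') := by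
  classical
  obtain ⟨_, hfib⟩ := hsq
  set J := RingHom.ker (algebraMap B' B) with hJdef
  set I := RingHom.ker (algebraMap A' A) with hIdef
  have hIJ : ∀ j ∈ J, algebraMap B' A' j ∈ I := by
    intro j hj
    rw [RingHom.mem_ker] at hj ⊢
    rw [← IsScalarTower.algebraMap_apply, IsScalarTower.algebraMap_apply B' B A, hj, map_zero]
  have hJI : ∀ i ∈ I, ∃ j ∈ J, algebraMap B' A' j = i := by
    intro i hi
    rw [RingHom.mem_ker] at hi
    obtain ⟨j, ⟨hj1, hj2⟩, -⟩ := hfib 0 i (by rw [map_zero, hi])
    exact ⟨j, by rw [RingHom.mem_ker]; exact hj1, hj2⟩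
  have hpush := (inferInstance : Algebra.IsPushout B' A' D' C').out
  set T : Submodule D' C' := Submodule.map (Algebra.linearMap D' C') (J.map (algebraMap B' D'))
    with hT
  have hgen : ∀ j ∈ J, algebraMap B' C' j ∈ T := by
    intro j hj
    rw [IsScalarTower.algebraMap_apply B' D' C']
    exact Submodule.mem_map_of_mem (Ideal.mem_map_of_mem _ hj)
  have hA'T : ∀ (a : A'), ∀ t ∈ T, a • t ∈ T := by
    intro a t ht
    obtain ⟨x, hx, rfl⟩ := Submodule.mem_map.1 ht
    clear ht
    induction hx using Submodule.span_induction generalizing a with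
    | mem y hy =>
      obtain ⟨j, hj, rfl⟩ := hy
      show a • algebraMap D' C' (algebraMap B' D' j) ∈ T
      rw [← IsScalarTower.algebraMap_apply, IsScalarTower.algebraMap_apply B' A' C',
        Algebra.smul_def, ← map_mul]
      obtain ⟨j', hj', hj'eq⟩ := hJI _ (Ideal.mul_mem_left _ a (hIJ j hj))
      rw [← hj'eq, ← IsScalarTower.algebraMap_apply]
      exact hgen j' hj'
    | zero => simp
    | add y z _ _ hy hz =>
      rw [map_add, smul_add]
      exact T.add_mem (hy a) (hz a)
    | smul d y _ hy =>
      show a • algebraMap D' C' (d * y) ∈ T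
      rw [map_mul, ← mul_smul_comm, ← Algebra.smul_def]
      exact T.smul_mem d (hy a)
  have hmulT : ∀ c : C', ∀ t ∈ T, c * t ∈ T := by
    intro c
    refine hpush.inductionOn c (fun c => ∀ t ∈ T, c * t ∈ T) ?_ ?_ ?_ ?_
    · intro t _; rw [zero_mul]; exact T.zero_mem
    · intro d t ht
      show algebraMap D' C' d * t ∈ T
      rw [← Algebra.smul_def]
      exact T.smul_mem d ht
    · intro a c hc t ht
      rw [smul_mul_assoc, ← mul_smul_comm]
      exact hc _ (hA'T a t ht)
    · intro c₁ c₂ h₁ h₂ t ht
      rw [add_mul]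
      exact T.add_mem (h₁ t ht) (h₂ t ht)
  ext c
  constructor
  · rintro ⟨x, hx, rfl⟩
    have hle : Ideal.map (algebraMap D' C') (J.map (algebraMap B' D')) ≤ I.map (algebraMap A' C') := by
      rw [Ideal.map_map, ← IsScalarTower.algebraMap_eq, IsScalarTower.algebraMap_eq B' A' C',
        ← Ideal.map_map]
      exact Ideal.map_mono (Ideal.map_le_iff_le_comap.2 hIJ)
    exact hle (Ideal.mem_map_of_mem _ hx)
  · intro hc
    have hcT : c ∈ T := by
      induction hc using Submodule.span_induction with
      | mem y hy =>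
        obtain ⟨i, hi, rfl⟩ := hy
        obtain ⟨j, hj, rfl⟩ := hJI i hi
        rw [← IsScalarTower.algebraMap_apply]
        exact hgen j hj
      | zero => exact T.zero_mem
      | add y z _ _ hy hz => exact T.add_mem hy hz
      | smul a y _ hy => exact hmulT a y hy
    obtain ⟨x, hx, hxc⟩ := Submodule.mem_map.1 hcT
    exact ⟨x, hx, hxc⟩

end Groth.Agent.S12081
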