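import Groth.Statements.S12096
import Mathlib.Tactic.LinearCombination
-- import your own Groth.Agent.* helpers here

set_option autoImplicit false
universe u
open BlowUp

namespace Groth.Agent.S12096

/-- Néron's blowup is compatible with localization. For a ring `A`, an ideal `I`, elements `π, a ∈ A`,
`A' = A[I/π] ⊆ A_π` the affine blowup algebra and `(A_a)' = A_a[I A_a/π]` that of the localization,
the canonical map `A' → (A_a)'` (the restriction of `A_π → (A_a)_π`, given here as a datum with that
compatibility) identifies `(A_a)'` with the localization `A'_a`. In Néron's situation (`I` the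
inverse image of the maximal ideal of `Λ`, `π` a uniformizer, `a ∉ I`) this reads: the Néron blowup
of `A_a` is `A'_a`; the identity holds for arbitrary `A, I, π, a`. -/
theorem result (A : Type u) [CommRing A] (I : Ideal A) (π a : A) (hπ : π ∈ I)
    (ψ : BlowUp.affineAlgebra A I π →+*
      BlowUp.affineAlgebra (Localization.Away a) (I.map (algebraMap A (Localization.Away a))) (algebraMap A (Localization.Away a) π))
    (hψ : ∀ x : BlowUp.affineAlgebra A I π,
      ((ψ x : BlowUp.affineAlgebra (Localization.Away a) (I.map (algebraMap A (Localization.Away a))) (algebraMap A (Localization.Away a) π)) :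
          Localization.Away (algebraMap A (Localization.Away a) π)) =
        Localization.awayMap (algebraMap A (Localization.Away a)) π (x : Localization.Away π)) :
    letI := ψ.toAlgebra
    IsLocalization.Away (algebraMap A (BlowUp.affineAlgebra A I π) a)
      (BlowUp.affineAlgebra (Localization.Away a) (I.map (algebraMap A (Localization.Away a))) (algebraMap A (Localization.Away a) π)) := by
  let _ := ψ.toAlgebra
  classical
  have hΦalg0 : ∀ b : A, Localization.awayMap (algebraMap A (Localization.Away a)) π
      (algebraMap A (Localization.Away π) b) = algebraMap (Localization.Away a)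
        (Localization.Away (algebraMap A (Localization.Away a) π)) (algebraMap A (Localization.Away a) b) :=
    fun b => IsLocalization.map_eq _ _
  set Φ : Localization.Away π →+* Localization.Away (algebraMap A (Localization.Away a) π) :=
    Localization.awayMap (algebraMap A (Localization.Away a)) π with hΦ
  have hΦalg : ∀ b : A, Φ ((algebraMap A (Localization.Away π)) b) = (algebraMap (Localization.Away a) (Localization.Away (algebraMap A (Localization.Away a) π))) ((algebraMap A (Localization.Away a)) b) := hΦalg0
  have hψ' : ∀ x : BlowUp.affineAlgebra A I π,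
      ((ψ x : BlowUp.affineAlgebra (Localization.Away a) (I.map (algebraMap A (Localization.Away a))) ((algebraMap A (Localization.Away a)) π)) :
        Localization.Away ((algebraMap A (Localization.Away a)) π)) = Φ (x : Localization.Away π) := hψ
  have halg : ∀ x : BlowUp.affineAlgebra A I π,
      algebraMap (BlowUp.affineAlgebra A I π) (BlowUp.affineAlgebra (Localization.Away a)
        (I.map (algebraMap A (Localization.Away a))) ((algebraMap A (Localization.Away a)) π)) x = ψ x := fun x => rfl
  set u := (algebraMap (Localization.Away a) (Localization.Away (algebraMap A (Localization.Away a) π))) ((algebraMap A (Localization.Away a)) a) with hu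
  have hψa : ψ (algebraMap A (BlowUp.affineAlgebra A I π) a) =
      algebraMap (Localization.Away a) (BlowUp.affineAlgebra (Localization.Away a)
        (I.map (algebraMap A (Localization.Away a))) ((algebraMap A (Localization.Away a)) π)) ((algebraMap A (Localization.Away a)) a) := by
    apply Subtype.ext
    rw [hψ']
    exact hΦalg a
  have hψa' : ((ψ (algebraMap A (BlowUp.affineAlgebra A I π) a) :
      BlowUp.affineAlgebra (Localization.Away a) (I.map (algebraMap A (Localization.Away a))) ((algebraMap A (Localization.Away a)) π)) : Localization.Away ((algebraMap A (Localization.Away a)) π)) = u := by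
    rw [hψ']; exact hΦalg a
  have hua : IsUnit (ψ (algebraMap A (BlowUp.affineAlgebra A I π) a)) := by
    rw [hψa]
    exact (IsLocalization.Away.algebraMap_isUnit a).map _
  constructor
  constructor
  · rintro ⟨_, n, rfl⟩
    rw [halg, map_pow]
    exact hua.pow n
  · rintro ⟨z, hz⟩
    have key : ∃ (x : BlowUp.affineAlgebra A I π) (n : ℕ), z * u ^ n = Φ (x : Localization.Away π) := by
      induction hz using Algebra.adjoin_induction with
      | mem w hw =>
        obtain ⟨y, hy, rfl⟩ := hw
        obtain ⟨⟨⟨x, hx⟩, ⟨_, n, rfl⟩⟩, hxy⟩ :=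
          (IsLocalization.mem_map_algebraMap_iff (Submonoid.powers a) (Localization.Away a)).1 hy
        refine ⟨⟨IsLocalization.mk' (Localization.Away π) x ⟨π, Submonoid.mem_powers π⟩,
          Algebra.subset_adjoin ⟨x, hx, rfl⟩⟩, n, ?_⟩
        show _ = Φ (IsLocalization.mk' (Localization.Away π) x ⟨π, Submonoid.mem_powers π⟩)
        rw [hΦ, Localization.awayMap, IsLocalization.Away.map, IsLocalization.map_mk']
        simp only at hxy
        rw [mul_comm, hu, ← map_pow, IsLocalization.mul_mk'_eq_mk'_of_mul, ← map_pow, mul_comm, hxy]
      | algebraMap r =>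
        obtain ⟨⟨b, ⟨_, n, rfl⟩⟩, hb⟩ := IsLocalization.surj (Submonoid.powers a) r
        refine ⟨algebraMap A _ b, n, ?_⟩
        show (algebraMap (Localization.Away a) (Localization.Away (algebraMap A (Localization.Away a) π))) r * u ^ n = Φ ((algebraMap A (Localization.Away π)) b)
        rw [hΦalg, hu, ← map_pow, ← map_mul, ← map_pow]
        exact congrArg (algebraMap (Localization.Away a) (Localization.Away (algebraMap A (Localization.Away a) π))) hb
      | add z₁ z₂ _ _ h₁ h₂ =>
        obtain ⟨x₁, n₁, e₁⟩ := h₁
        obtain ⟨x₂, n₂, e₂⟩ := h₂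
        refine ⟨x₁ * (algebraMap A _ a) ^ n₂ + x₂ * (algebraMap A _ a) ^ n₁, n₁ + n₂, ?_⟩
        simp only [Subalgebra.coe_add, Subalgebra.coe_mul, Subalgebra.coe_pow,
          Subalgebra.coe_algebraMap, map_add, map_mul, map_pow]
        rw [hΦalg, ← hu]
        linear_combination u ^ n₂ * e₁ + u ^ n₁ * e₂
      | mul z₁ z₂ _ _ h₁ h₂ =>
        obtain ⟨x₁, n₁, e₁⟩ := h₁
        obtain ⟨x₂, n₂, e₂⟩ := h₂
        refine ⟨x₁ * x₂, n₁ + n₂, ?_⟩
        simp only [Subalgebra.coe_mul, map_mul]
        linear_combination (z₂ * u ^ n₂) * e₁ + Φ (x₁ : Localization.Away π) * e₂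
    obtain ⟨x, n, hx⟩ := key
    refine ⟨⟨x, ⟨_, n, rfl⟩⟩, ?_⟩
    apply Subtype.ext
    show z * ((algebraMap (BlowUp.affineAlgebra A I π) _ ((algebraMap A _ a) ^ n) :
      BlowUp.affineAlgebra (Localization.Away a) (I.map (algebraMap A (Localization.Away a))) ((algebraMap A (Localization.Away a)) π)) : Localization.Away ((algebraMap A (Localization.Away a)) π)) =
      ((algebraMap (BlowUp.affineAlgebra A I π) _ x :
      BlowUp.affineAlgebra (Localization.Away a) (I.map (algebraMap A (Localization.Away a))) ((algebraMap A (Localization.Away a)) π)) : Localization.Away ((algebraMap A (Localization.Away a)) π))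
    rw [halg, halg, map_pow, Subalgebra.coe_pow, hψa', hψ']
    exact hx
  · intro x y hxy
    rw [halg, halg] at hxy
    have h0 : Φ ((x - y : BlowUp.affineAlgebra A I π) : Localization.Away π) = 0 := by
      rw [← hψ', map_sub, hxy, sub_self]; rfl
    obtain ⟨⟨c, ⟨_, N, rfl⟩⟩, hc⟩ :=
      IsLocalization.surj (Submonoid.powers π) ((x - y : BlowUp.affineAlgebra A I π) : Localization.Away π)
    simp only at hc
    have e2 : (algebraMap (Localization.Away a) (Localization.Away (algebraMap A (Localization.Away a) π))) ((algebraMap A (Localization.Away a)) c) = 0 := by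
      rw [← hΦalg, ← hc, map_mul, h0, zero_mul]
    obtain ⟨⟨_, k, rfl⟩, hk⟩ := (IsLocalization.map_eq_zero_iff (Submonoid.powers ((algebraMap A (Localization.Away a)) π)) _ _).1 e2
    simp only at hk
    have e3 : (algebraMap A (Localization.Away a)) (π ^ k * c) = 0 := by rw [map_mul, map_pow]; exact hk
    obtain ⟨⟨_, j, rfl⟩, hj⟩ := (IsLocalization.map_eq_zero_iff (Submonoid.powers a) _ _).1 e3
    simp only at hj
    refine ⟨⟨(algebraMap A (BlowUp.affineAlgebra A I π) a) ^ j, j, rfl⟩, ?_⟩
    rw [← sub_eq_zero, ← mul_sub]
    apply Subtype.ext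
    simp only [Subalgebra.coe_mul, Subalgebra.coe_pow, Subalgebra.coe_algebraMap, Subalgebra.coe_zero]
    have hunit : IsUnit ((algebraMap A (Localization.Away π)) (π ^ N) * (algebraMap A (Localization.Away π)) π ^ k) :=
      ((IsLocalization.map_units (Localization.Away π) (⟨π ^ N, N, rfl⟩ : Submonoid.powers π))).mul
        ((IsLocalization.Away.algebraMap_isUnit π).pow k)
    apply (hunit.mul_left_eq_zero).1
    have : (algebraMap A (Localization.Away π)) (a ^ j * (π ^ k * c)) = 0 := by rw [hj, map_zero]
    rw [← this, map_mul, map_mul, ← hc]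
    simp only [map_pow]
    ring

end Groth.Agent.S12096
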