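import Groth.Statements.S12097
-- import your own Groth.Agent.* helpers here

set_option autoImplicit false
universe u
open BlowUp

namespace Groth.Agent.S12097

/-- Néron's blowup is compatible with closed immersions. For a surjective ring map `B → A` with kernel
`J`, an ideal `I ⊆ B` containing `π`, and the affine blowup algebras `B' = B[I/π] ⊆ B_π`, `A' =
A[IA/π] ⊆ A_π`, the canonical map `B' → A'` (the restriction of `B_π → A_π`, given as a datum with
that compatibility) is surjective with kernel the elements `x` such that `π^n x ∈ J B'` for some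
`n`: `A'` is the quotient of `B'/JB'` by its `π`-power torsion. In Néron's situation (`I` the
inverse image of the maximal ideal of `Λ`, `π` a uniformizer) this is the printed functoriality; the
identity holds for any surjection. -/
theorem result (B A : Type u) [CommRing B] [CommRing A] [Algebra B A]
    (hq : Function.Surjective (algebraMap B A)) (I : Ideal B) (π : B) (hπ : π ∈ I)
    (ψ : BlowUp.affineAlgebra B I π →+* BlowUp.affineAlgebra A (I.map (algebraMap B A)) (algebraMap B A π))
    (hψ : ∀ x : BlowUp.affineAlgebra B I π,
      ((ψ x : BlowUp.affineAlgebra A (I.map (algebraMap B A)) (algebraMap B A π)) : Localization.Away (algebraMap B A π)) =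
        Localization.awayMap (algebraMap B A) π (x : Localization.Away π)) :
    Function.Surjective ψ ∧
      ∀ x : BlowUp.affineAlgebra B I π, x ∈ RingHom.ker ψ ↔
        ∃ n : ℕ, algebraMap B (BlowUp.affineAlgebra B I π) π ^ n * x ∈
          (RingHom.ker (algebraMap B A)).map (algebraMap B (BlowUp.affineAlgebra B I π)) := by
  classical
  set Φ : Localization.Away π →+* Localization.Away (algebraMap B A π) := Localization.awayMap (algebraMap B A) π with hΦ
  have hΦalg : ∀ b : B, Φ (algebraMap B (Localization.Away π) b) =
      algebraMap A (Localization.Away (algebraMap B A π)) (algebraMap B A b) := fun b => IsLocalization.map_eq _ _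
  have hψ' : ∀ x : BlowUp.affineAlgebra B I π, ((ψ x : BlowUp.affineAlgebra A (I.map (algebraMap B A)) (algebraMap B A π)) :
      Localization.Away (algebraMap B A π)) = Φ (x : Localization.Away π) := hψ
  constructor
  · rintro ⟨z, hz⟩
    suffices h : ∃ x : BlowUp.affineAlgebra B I π, Φ (x : Localization.Away π) = z by
      obtain ⟨x, hx⟩ := h
      exact ⟨x, Subtype.ext ((hψ' x).trans hx)⟩
    induction hz using Algebra.adjoin_induction with
    | mem w hw =>
      obtain ⟨y, hy, rfl⟩ := hw
      obtain ⟨x, hx, rfl⟩ := (Ideal.mem_map_iff_of_surjective (algebraMap B A) hq).1 hy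
      refine ⟨⟨IsLocalization.mk' (Localization.Away π) x ⟨π, Submonoid.mem_powers π⟩,
        Algebra.subset_adjoin ⟨x, hx, rfl⟩⟩, ?_⟩
      show Φ (IsLocalization.mk' (Localization.Away π) x ⟨π, Submonoid.mem_powers π⟩) = _
      rw [hΦ, Localization.awayMap, IsLocalization.Away.map, IsLocalization.map_mk']
    | algebraMap a =>
      obtain ⟨b, rfl⟩ := hq a
      refine ⟨algebraMap B _ b, ?_⟩
      show Φ (algebraMap B (Localization.Away π) b) = _
      rw [hΦalg]
    | add u v _ _ hu hv =>
      obtain ⟨x, hx⟩ := hu
      obtain ⟨y, hy⟩ := hv
      exact ⟨x + y, by rw [Subalgebra.coe_add, map_add, hx, hy]⟩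
    | mul u v _ _ hu hv =>
      obtain ⟨x, hx⟩ := hu
      obtain ⟨y, hy⟩ := hv
      exact ⟨x * y, by rw [Subalgebra.coe_mul, map_mul, hx, hy]⟩
  · intro x
    constructor
    · intro hx
      rw [RingHom.mem_ker] at hx
      have h0 : Φ (x : Localization.Away π) = 0 := by
        rw [← hψ' x, hx]; rfl
      obtain ⟨⟨c, s⟩, hc⟩ := IsLocalization.surj (Submonoid.powers π) (x : Localization.Away π)
      obtain ⟨N, hN⟩ := s.2
      have hN' : π ^ N = (s : B) := hN
      have e1' : (algebraMap B (Localization.Away π) π) ^ N * (x : Localization.Away π) =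
          algebraMap B (Localization.Away π) c := by
        rw [← map_pow, hN', mul_comm]; exact hc
      have e1 : algebraMap B (Localization.Away π) (π ^ N) * (x : Localization.Away π) =
          algebraMap B (Localization.Away π) c := by rw [map_pow]; exact e1'
      have e2 : algebraMap A (Localization.Away (algebraMap B A π)) (algebraMap B A c) = 0 := by
        rw [← hΦalg, ← e1, map_mul, h0, mul_zero]
      obtain ⟨⟨m, k, rfl⟩, hk⟩ :=
        (IsLocalization.map_eq_zero_iff (Submonoid.powers (algebraMap B A π)) _ _).1 e2
      refine ⟨k + N, ?_⟩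
      have hmem : π ^ k * c ∈ RingHom.ker (algebraMap B A) := by
        rw [RingHom.mem_ker, map_mul, map_pow]; exact hk
      have e3 : algebraMap B (BlowUp.affineAlgebra B I π) π ^ (k + N) * x =
          algebraMap B (BlowUp.affineAlgebra B I π) (π ^ k * c) := by
        apply Subtype.ext
        simp only [Subalgebra.coe_mul, Subalgebra.coe_pow, Subalgebra.coe_algebraMap]
        rw [map_mul, ← e1', map_pow, pow_add, mul_assoc]
      rw [e3]
      exact Ideal.mem_map_of_mem _ hmem
    · rintro ⟨n, hn⟩
      have hker : Ideal.map (algebraMap B (BlowUp.affineAlgebra B I π)) (RingHom.ker (algebraMap B A)) ≤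
          RingHom.ker ψ := by
        rw [Ideal.map_le_iff_le_comap]
        intro j hj
        rw [Ideal.mem_comap, RingHom.mem_ker]
        apply Subtype.ext
        rw [hψ']
        show Φ (algebraMap B (Localization.Away π) j) = 0
        rw [hΦalg, RingHom.mem_ker.1 hj, map_zero]
      have h1 := hker hn
      rw [RingHom.mem_ker, map_mul, map_pow] at h1
      have h2 : (algebraMap A (Localization.Away (algebraMap B A π)) (algebraMap B A π)) ^ n *
          ((ψ x : BlowUp.affineAlgebra A (I.map (algebraMap B A)) (algebraMap B A π)) : Localization.Away (algebraMap B A π)) = 0 := by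
        have := congrArg (fun w : BlowUp.affineAlgebra A (I.map (algebraMap B A)) (algebraMap B A π) =>
          (w : Localization.Away (algebraMap B A π))) h1
        simp only [Subalgebra.coe_mul, Subalgebra.coe_pow, Subalgebra.coe_zero] at this
        rw [hψ' (algebraMap B _ π)] at this
        rw [← this]
        congr 2
        show _ = Φ (algebraMap B (Localization.Away π) π)
        rw [hΦalg]
      have hu : IsUnit ((algebraMap A (Localization.Away (algebraMap B A π)) (algebraMap B A π)) ^ n) :=
        (IsLocalization.Away.algebraMap_isUnit (algebraMap B A π)).pow n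
      rw [RingHom.mem_ker]
      apply Subtype.ext
      rw [Subalgebra.coe_zero]
      exact (hu.mul_right_eq_zero).1 h2

end Groth.Agent.S12097
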