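import Groth.Statements.S12206
import Groth.Agent.Lib.H18.Coherent
-- import your own Groth.Agent.* helpers here

set_option autoImplicit false
universe u
open CAlg

namespace Groth.Agent.S12206

/-- Let φ : N → M be a linear map from a finite R-module N to a coherent R-module M, where coherent
means finitely generated with every finitely generated submodule finitely presented. Then the kernel
of φ is finitely generated, and the image of φ and the cokernel M/φ(N) are coherent. -/
theorem result (R : Type u) [CommRing R] {N M : Type u}
    [AddCommGroup N] [Module R N] [AddCommGroup M] [Module R M] [Module.Finite R N]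
    (hM : Module.Finite R M ∧ ∀ P : Submodule R M, P.FG → Module.FinitePresentation R P)
    (φ : N →ₗ[R] M) :
    (LinearMap.ker φ).FG ∧
    (Module.Finite R (LinearMap.range φ) ∧
      ∀ P : Submodule R (LinearMap.range φ), P.FG → Module.FinitePresentation R P) ∧
    (Module.Finite R (M ⧸ LinearMap.range φ) ∧
      ∀ P : Submodule R (M ⧸ LinearMap.range φ), P.FG → Module.FinitePresentation R P) := by
  have hM' : Groth.Agent.H18.IsCoh (R := R) M := hM
  have hfg : (LinearMap.range φ).FG := by
    rw [LinearMap.range_eq_map]
    exact (Module.Finite.fg_top).map φ
  exact ⟨Groth.Agent.H18.fg_ker_of_isCoh hM' φ, Groth.Agent.H18.isCoh_submodule hM' _ hfg,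
    Groth.Agent.H18.isCoh_quotient hM' _ hfg⟩

end Groth.Agent.S12206
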