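import Groth.Statements.S12216
import Groth.Agent.Lib.Helper1.CSAI

set_option autoImplicit false
universe u v w
open scoped TensorProduct
open Curves

namespace Groth.Agent.S12216


/-- (1) ⇔ (3): a K-algebra A is finite central simple over the field K (finite-dimensional, with centre
K and no non-trivial two-sided ideals) if and only if, for an algebraic closure K̄ of K, the
K̄-algebra K̄ ⊗_K A is isomorphic to a matrix algebra Mat(d × d, K̄) for some d ≥ 1. -/
theorem result (K : Type u) [Field K] (A : Type v) [Ring A] [Algebra K A] :
    (Algebra.IsCentral K A ∧ IsSimpleRing A ∧ FiniteDimensional K A) ↔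
      Curves.Splits K A (AlgebraicClosure K) := by
  exact Groth.Agent.Lib.Helper1.CSAI.csa_iff_splits_algClosure A

end Groth.Agent.S12216
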