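import Groth.Statements.S12482
-- import your own Groth.Agent.* helpers here

set_option autoImplicit false
universe u
open Dual

namespace Groth.Agent.S12482

open RingTheory.Sequence

theorem syz_aux (A : Type u) [CommRing A] : ∀ (p : ℕ) (x : Fin p → A),
    IsWeaklyRegular A (List.ofFn x) → ∀ c : Fin p → A, ∑ i, c i * x i = 0 →
      ∀ i, c i ∈ Ideal.span (Set.range x) := by
  intro p
  induction p with
  | zero => intro x _ c _ i; exact i.elim0
  | succ p ih =>
    intro x hx c hc
    set x' : Fin p → A := fun i => x (Fin.castSucc i) with hx'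
    have hl : List.ofFn x = List.ofFn x' ++ [x (Fin.last p)] := by
      rw [List.ofFn_succ', List.concat_eq_append]
    rw [hl, isWeaklyRegular_append_iff, isWeaklyRegular_singleton_iff] at hx
    obtain ⟨hx1, hx2⟩ := hx
    have hJ : Ideal.ofList (List.ofFn x') = Ideal.span (Set.range x') := by
      simp [Ideal.ofList, List.mem_ofFn]
      rfl
    rw [Fin.sum_univ_castSucc] at hc
    -- c_last * x_last ∈ J
    have hJs : (Ideal.ofList (List.ofFn x') • ⊤ : Submodule A A) = Ideal.span (Set.range x') := by
      rw [hJ, Ideal.smul_top_eq_map, Algebra.algebraMap_self, Ideal.map_id]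
      rfl
    have hmem : c (Fin.last p) ∈ Ideal.span (Set.range x') := by
      have h1 : x (Fin.last p) * c (Fin.last p) ∈ Ideal.span (Set.range x') := by
        have : x (Fin.last p) * c (Fin.last p) = -∑ i : Fin p, c (Fin.castSucc i) * x' i := by
          rw [eq_neg_iff_add_eq_zero, mul_comm, add_comm]; exact hc
        rw [this]
        refine (Ideal.neg_mem_iff _).2 (Ideal.sum_mem _ fun i _ => ?_)
        exact Ideal.mul_mem_left _ _ (Ideal.subset_span (Set.mem_range_self i))
      have h2 : x (Fin.last p) • (Submodule.Quotient.mk (c (Fin.last p)) :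
          A ⧸ (Ideal.ofList (List.ofFn x') • ⊤ : Submodule A A)) =
          x (Fin.last p) • (0 : A ⧸ (Ideal.ofList (List.ofFn x') • ⊤ : Submodule A A)) := by
        rw [smul_zero, ← Submodule.Quotient.mk_smul, Submodule.Quotient.mk_eq_zero, hJs]
        exact h1
      have h3 := hx2 h2
      rw [Submodule.Quotient.mk_eq_zero, hJs] at h3
      exact h3
    obtain ⟨d, hd⟩ := (Ideal.mem_span_range_iff_exists_fun).1 hmem
    have hc' : ∑ i : Fin p, (c (Fin.castSucc i) + d i * x (Fin.last p)) * x' i = 0 := by
      have : ∑ i : Fin p, (c (Fin.castSucc i) + d i * x (Fin.last p)) * x' i =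
          ∑ i : Fin p, c (Fin.castSucc i) * x (Fin.castSucc i) + c (Fin.last p) * x (Fin.last p) := by
        rw [← hd, Finset.sum_mul, ← Finset.sum_add_distrib]
        refine Finset.sum_congr rfl fun i _ => ?_
        simp only [hx']; ring
      rw [this]; exact hc
    have hle : Ideal.span (Set.range x') ≤ Ideal.span (Set.range x) := by
      apply Ideal.span_mono
      rintro _ ⟨i, rfl⟩; exact ⟨Fin.castSucc i, rfl⟩
    have hlast : x (Fin.last p) ∈ Ideal.span (Set.range x) :=
      Ideal.subset_span (Set.mem_range_self _)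
    intro i
    refine Fin.lastCases ?_ (fun i => ?_) i
    · exact hle hmem
    · have h4 := hle (ih x' hx1 _ hc' i)
      have h5 : c (Fin.castSucc i) = (c (Fin.castSucc i) + d i * x (Fin.last p)) -
          d i * x (Fin.last p) := by ring
      rw [h5]
      exact Ideal.sub_mem _ h4 (Ideal.mul_mem_left _ _ hlast)

theorem basis_aux (A : Type u) [CommRing A] (p : ℕ) (x : Fin p → A)
    (hreg : RingTheory.Sequence.IsWeaklyRegular A (List.ofFn x)) :
    ∃ b : Module.Basis (Fin p) (A ⧸ Ideal.span (Set.range x)) (Ideal.span (Set.range x)).Cotangent,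
      ∀ i, b i = (Ideal.span (Set.range x)).toCotangent ⟨x i, Ideal.subset_span (Set.mem_range_self i)⟩ := by
  set I := Ideal.span (Set.range x) with hI
  let v : Fin p → I.Cotangent := fun i => I.toCotangent ⟨x i, Ideal.subset_span (Set.mem_range_self i)⟩
  have hsmul : ∀ (a : A) (w : I.Cotangent), (Ideal.Quotient.mk I a) • w = a • w := fun a w => by
    rw [← Ideal.Quotient.algebraMap_eq, IsScalarTower.algebraMap_smul]
  have hsum : ∀ a : Fin p → A, ∑ i, a i • v i =
      I.toCotangent ⟨∑ i, a i * x i, Ideal.sum_mem _ fun i _ =>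
        Ideal.mul_mem_left _ _ (Ideal.subset_span (Set.mem_range_self i))⟩ := by
    intro a
    simp only [v, ← map_smul, ← map_sum]
    congr 1
    apply Subtype.ext
    simp [smul_eq_mul]
  have hli : LinearIndependent (A ⧸ I) v := by
    rw [Fintype.linearIndependent_iff]
    intro g hg i
    set a : Fin p → A := fun i => Function.surjInv Ideal.Quotient.mk_surjective (g i) with ha
    have hga : ∀ i, g i = Ideal.Quotient.mk I (a i) := fun i =>
      (Function.surjInv_eq (f := Ideal.Quotient.mk I) Ideal.Quotient.mk_surjective (g i)).symm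
    simp only [hga, hsmul, hsum] at hg
    rw [Ideal.toCotangent_eq_zero] at hg
    have hg' : ∑ i, a i * x i ∈ I • Submodule.span A (Set.range x) := by
      rw [pow_two] at hg; exact hg
    obtain ⟨e, he, hex⟩ := (Submodule.mem_ideal_smul_span_iff_exists_sum I x _).1 hg'
    have hz : ∑ j, (a j - e j) * x j = 0 := by
      rw [Finsupp.sum_fintype _ _ (by simp)] at hex
      simp only [sub_mul, Finset.sum_sub_distrib, smul_eq_mul] at hex ⊢
      rw [hex, sub_self]
    have h1 := syz_aux A p x hreg _ hz i
    have h2 : a i ∈ I := by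
      have : a i = (a i - e i) + e i := by ring
      rw [this]; exact Ideal.add_mem _ h1 (he i)
    rw [hga, Ideal.Quotient.eq_zero_iff_mem]
    exact h2
  have hsp : ⊤ ≤ Submodule.span (A ⧸ I) (Set.range v) := by
    rintro w -
    obtain ⟨⟨y, hy⟩, rfl⟩ := Ideal.toCotangent_surjective I w
    obtain ⟨c, hc⟩ := (Ideal.mem_span_range_iff_exists_fun).1 hy
    have : I.toCotangent ⟨y, hy⟩ = ∑ i, (Ideal.Quotient.mk I (c i)) • v i := by
      simp only [hsmul, hsum]
      congr 1
      exact Subtype.ext hc.symm
    rw [this]
    exact Submodule.sum_mem _ fun i _ => Submodule.smul_mem _ _ (Submodule.subset_span ⟨i, rfl⟩)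
  exact ⟨Module.Basis.mk hli hsp, fun i => Module.Basis.mk_apply hli hsp i⟩

/-- Let `A` be a commutative ring, `x_1, …, x_p` a sequence of elements of `A` such that each `x_i` is a
non-zero-divisor on `A/(x_1, …, x_{i-1})`, and `J` the ideal generated by the `x_i`. Then `J/J²` is
a free `(A/J)`-module with basis the classes of the `x_i`: there is a basis of `J/J²` over `A/J`,
indexed by `1, …, p`, whose `i`-th vector is the class of `x_i`. (The other assertions of the
published statement, on the Koszul complex and on Ext and Tor against `A/J`, are stated separately.) -/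
theorem result (A : Type u) [CommRing A] (p : ℕ) (x : Fin p → A)
    (hreg : RingTheory.Sequence.IsWeaklyRegular A (List.ofFn x)) :
    ∃ b : Module.Basis (Fin p) (A ⧸ Ideal.span (Set.range x)) (Ideal.span (Set.range x)).Cotangent,
      ∀ i, b i = (Ideal.span (Set.range x)).toCotangent ⟨x i, Ideal.subset_span (Set.mem_range_self i)⟩ := by
  exact basis_aux A p x hreg

end Groth.Agent.S12482
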