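import Groth.Statements.S12707
import Groth.Agent.Lib.Helper19.ArtFunQuot
-- import your own Groth.Agent.* helpers here

set_option autoImplicit false
universe u v
open CategoryTheory
open ArtFun ArtFun.Art

namespace Groth.Agent.S12707

/-- In the category of Artinian local Λ-algebras with residue field k (Λ Noetherian, Λ → k finite),
every surjective morphism is a composite of small extensions. Stated as the equivalent induction
principle: a property of morphisms that holds for isomorphisms and for small extensions and is
stable under composition holds for every surjective morphism. -/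
theorem result {Λ : Type u} {k : Type u} [CommRing Λ] [Field k] [Algebra Λ k]
    [IsNoetherianRing Λ] [Module.Finite Λ k]
    (P : ∀ ⦃A B : ArtFun.Art Λ k⦄, (B ⟶ A) → Prop)
    (hiso : ∀ ⦃A B : ArtFun.Art Λ k⦄ (e : B ⟶ A), IsIso e → P e)
    (hsmall : ∀ ⦃A B : ArtFun.Art Λ k⦄ (p : B ⟶ A), ArtFun.Art.IsSmallExt p → P p)
    (hcomp : ∀ ⦃A B C : ArtFun.Art Λ k⦄ (p : C ⟶ B) (q : B ⟶ A), P p → P q → P (p ≫ q))
    ⦃A B : ArtFun.Art Λ k⦄ (f : B ⟶ A) (hf : Function.Surjective f) : P f := by
  exact Groth.Agent.Lib.Helper19.surj_induction P hiso hsmall hcomp f hf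

end Groth.Agent.S12707
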