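import Groth.Statements.S12717
import Groth.Agent.Lib.Helper19.ArtFunQuot
-- import your own Groth.Agent.* helpers here

set_option autoImplicit false
universe u v
open CategoryTheory
open ArtFun

namespace Groth.Agent.S12717

/-- For functors, a morphism η : F → G of functors on the category of Artinian local Λ-algebras with
residue field k is smooth (F(B) → F(A) ×_{G(A)} G(B) surjective for every surjection B → A) as soon
as this lifting condition holds for all small extensions B → A. -/
theorem result {Λ : Type u} {k : Type u} [CommRing Λ] [Field k] [Algebra Λ k]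
    [IsNoetherianRing Λ] [Module.Finite Λ k]
    {F G : ArtFun.Art Λ k ⥤ Type v} (η : F ⟶ G)
    (h : ∀ ⦃B A : ArtFun.Art Λ k⦄ (μ : B ⟶ A), ArtFun.Art.IsSmallExt μ →
      Function.Surjective (ArtFun.relCmp η μ)) :
    ArtFun.IsSmooth η := by
  intro B A μ hμ
  refine Groth.Agent.Lib.Helper19.surj_induction
    (fun A B (μ : B ⟶ A) => Function.Surjective (ArtFun.relCmp η μ)) ?_ ?_ ?_ μ hμ
  · intro A B e he ⟨⟨x, y⟩, hxy⟩
    refine ⟨F.map (inv e) x, ?_⟩
    apply Subtype.ext
    apply Prod.ext
    · change F.map e (F.map (inv e) x) = x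
      rw [← FunctorToTypes.map_comp_apply, IsIso.inv_hom_id, FunctorToTypes.map_id_apply]
    · change η.app B (F.map (inv e) x) = y
      rw [NatTrans.naturality_apply, hxy, ← FunctorToTypes.map_comp_apply, IsIso.hom_inv_id,
        FunctorToTypes.map_id_apply]
  · intro A B p hp
    exact h p hp
  · intro A B C p q hp hq ⟨⟨x, z⟩, hxz⟩
    have hxz' : η.app A x = G.map q (G.map p z) := by
      rw [← FunctorToTypes.map_comp_apply]; exact hxz
    obtain ⟨y, hy⟩ := hq ⟨(x, G.map p z), hxz'⟩
    have hy1 : F.map q y = x := congrArg (fun t => t.1.1) hy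
    have hy2 : η.app B y = G.map p z := congrArg (fun t => t.1.2) hy
    obtain ⟨w, hw⟩ := hp ⟨(y, z), hy2⟩
    have hw1 : F.map p w = y := congrArg (fun t => t.1.1) hw
    have hw2 : η.app C w = z := congrArg (fun t => t.1.2) hw
    refine ⟨w, ?_⟩
    apply Subtype.ext
    apply Prod.ext
    · change F.map (p ≫ q) w = x
      rw [FunctorToTypes.map_comp_apply, hw1, hy1]
    · exact hw2

end Groth.Agent.S12717
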