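import Groth.Statements.S12719
-- import your own Groth.Agent.* helpers here

set_option autoImplicit false
universe u v
open CategoryTheory
open ArtFun

namespace Groth.Agent.S12719

/-- For functors, a smooth morphism η : F → G of functors on the category of Artinian local Λ-algebras
with residue field k which is surjective on F(k) → G(k) is surjective on every object. -/
theorem result {Λ : Type u} {k : Type u} [CommRing Λ] [Field k] [Algebra Λ k]
    [IsNoetherianRing Λ] [Module.Finite Λ k]
    {F G : ArtFun.Art Λ k ⥤ Type v} (η : F ⟶ G) (hη : ArtFun.IsSmooth η)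
    (h0 : Function.Surjective (η.app (ArtFun.Art.base Λ k))) (A : ArtFun.Art Λ k) :
    Function.Surjective (η.app A) := by
  intro y
  obtain ⟨x, hx⟩ := h0 (G.map (ArtFun.Art.toBase A) y)
  have hμ : Function.Surjective (ArtFun.Art.toBase A) := A.res_surjective
  obtain ⟨z, hz⟩ := hη (ArtFun.Art.toBase A) hμ ⟨(x, y), hx⟩
  exact ⟨z, congrArg (fun t => t.1.2) hz⟩

end Groth.Agent.S12719
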