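import Groth.Statements.S12727
import Groth.Agent.Lib.Helper19.ArtFun
-- import your own Groth.Agent.* helpers here

set_option autoImplicit false
universe u v
open CategoryTheory
open ArtFun

namespace Groth.Agent.S12727

/-- For functors, a functor on Artinian local Λ-algebras with residue field k with F(k) a point which
admits a versal family (over a complete local Noetherian ring with residue field k) satisfies
condition (S1). -/
theorem result {Λ : Type u} {k : Type u} [CommRing Λ] [Field k] [Algebra Λ k]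
    [IsNoetherianRing Λ] [Module.Finite Λ k]
    (F : ArtFun.Art Λ k ⥤ Type v) (h0 : ArtFun.H0 F) (hv : ArtFun.HasVersal F) :
    ArtFun.S1 F := by
  obtain ⟨V⟩ := hv
  intro B A A' A'' p' p'' f' f'' h hf'' ⟨⟨x', x''⟩, hx⟩
  obtain ⟨φ', hφ'⟩ := Groth.Agent.Lib.Helper19.versal_surjective h0 V.family V.versal A' x'
  have hx2 : F.map f'' x'' = V.family.app A (HomSet.map f' φ') := by
    rw [V.family.natural, hφ']; exact hx.symm
  obtain ⟨ψ'', hψ1, hψ2⟩ := V.versal f'' hf'' (HomSet.map f' φ') x'' hx2
  have hcomp : ∀ r, f' (φ'.1 r) = f'' (ψ''.1 r) := by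
    intro r
    have := congrArg (fun t : HomSet V.ring.carrier V.ring.res A => t.1 r) hψ1
    exact this.symm
  let χ : HomSet V.ring.carrier V.ring.res B :=
    ⟨Groth.Agent.Lib.Helper19.fibLift h φ'.1 ψ''.1 hcomp, by
      apply AlgHom.ext; intro r
      change B.res (Groth.Agent.Lib.Helper19.fibLiftFun h φ'.1 ψ''.1 hcomp r) = V.ring.res r
      rw [← ArtFun.Art.res_app p', (Groth.Agent.Lib.Helper19.fibLiftFun_spec h φ'.1 ψ''.1 hcomp r).1]
      exact congrArg (fun g => g r) φ'.2⟩
  have hχ1 : HomSet.map p' χ = φ' := Subtype.ext (Groth.Agent.Lib.Helper19.fibLift_fst h φ'.1 ψ''.1 hcomp)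
  have hχ2 : HomSet.map p'' χ = ψ'' := Subtype.ext (Groth.Agent.Lib.Helper19.fibLift_snd h φ'.1 ψ''.1 hcomp)
  refine ⟨V.family.app B χ, ?_⟩
  apply Subtype.ext
  apply Prod.ext
  · change F.map p' (V.family.app B χ) = x'
    rw [← V.family.natural, hχ1, hφ']
  · change F.map p'' (V.family.app B χ) = x''
    rw [← V.family.natural, hχ2, hψ2]

end Groth.Agent.S12727
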