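import Groth.Statements.S12744
-- import your own Groth.Agent.* helpers here

set_option autoImplicit false
universe u v
open CategoryTheory
open ArtFun

namespace Groth.Agent.S12744

theorem surj_app_aux {Λ : Type u} {k : Type u} [CommRing Λ] [Field k] [Algebra Λ k]
    {F G : ArtFun.Art Λ k ⥤ Type v} (η : F ⟶ G) (hη : ArtFun.IsSmooth η)
    (h0 : Function.Surjective (η.app (ArtFun.Art.base Λ k))) (A : ArtFun.Art Λ k) :
    Function.Surjective (η.app A) := by
  intro y
  obtain ⟨x, hx⟩ := h0 (G.map (ArtFun.Art.toBase A) y)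
  have hμ : Function.Surjective (ArtFun.Art.toBase A) := A.res_surjective
  obtain ⟨z, hz⟩ := hη (ArtFun.Art.toBase A) hμ ⟨(x, y), hx⟩
  exact ⟨z, congrArg (fun t => t.1.2) hz⟩

theorem truncMap_surj {Λ : Type u} {k : Type u} [CommRing Λ] [Field k] [Algebra Λ k]
    (R : ArtFun.CRing Λ k) (n : ℕ) : Function.Surjective (R.truncMap n) := by
  intro x
  obtain ⟨a, rfl⟩ := Ideal.Quotient.mk_surjective x
  exact ⟨Ideal.Quotient.mk _ a, rfl⟩

/-- For functors, if η : F → G is a smooth morphism of functors on Artinian local Λ-algebras with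
residue field k and F(k) → G(k) is surjective, then for every complete local Noetherian R with
residue field k the induced map on formal elements over R (compatible systems of elements over the
truncations R/m^(n+1)) is surjective. -/
theorem result {Λ : Type u} {k : Type u} [CommRing Λ] [Field k] [Algebra Λ k]
    [IsNoetherianRing Λ] [Module.Finite Λ k]
    {F G : ArtFun.Art Λ k ⥤ Type v} (η : F ⟶ G) (hη : ArtFun.IsSmooth η)
    (h0 : Function.Surjective (η.app (ArtFun.Art.base Λ k))) (R : ArtFun.CRing Λ k) :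
    Function.Surjective (fun u : ArtFun.FormalElt F R => u.map η) := by
  intro v
  have lift : ∀ (n : ℕ) (x : F.obj (R.trunc n)), η.app _ x = v.elt n →
      ∃ y : F.obj (R.trunc (n + 1)), η.app _ y = v.elt (n + 1) ∧ F.map (R.truncMap n) y = x := by
    intro n x hx
    have hrel : η.app _ x = G.map (R.truncMap n) (v.elt (n + 1)) := by rw [hx, v.compat]
    obtain ⟨w, hw⟩ := hη (R.truncMap n) (truncMap_surj R n) ⟨(x, v.elt (n + 1)), hrel⟩
    exact ⟨w, congrArg (fun t => t.1.2) hw, congrArg (fun t => t.1.1) hw⟩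
  let seq : ∀ n : ℕ, {x : F.obj (R.trunc n) // η.app _ x = v.elt n} := fun n =>
    Nat.rec (motive := fun n => {x : F.obj (R.trunc n) // η.app _ x = v.elt n})
      ⟨Classical.choose (surj_app_aux η hη h0 (R.trunc 0) (v.elt 0)),
        Classical.choose_spec (surj_app_aux η hη h0 (R.trunc 0) (v.elt 0))⟩
      (fun n s => ⟨Classical.choose (lift n s.1 s.2), (Classical.choose_spec (lift n s.1 s.2)).1⟩) n
  have hseq : ∀ n, F.map (R.truncMap n) (seq (n + 1)).1 = (seq n).1 := fun n =>
    (Classical.choose_spec (lift n (seq n).1 (seq n).2)).2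
  refine ⟨⟨fun n => (seq n).1, hseq⟩, ?_⟩
  apply ArtFun.FormalElt.ext'
  intro n
  exact (seq n).2

end Groth.Agent.S12744
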