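import Groth.Statements.S12745
import Groth.Agent.Lib.Helper19.ArtFun
-- import your own Groth.Agent.* helpers here

set_option autoImplicit false
universe u v
open CategoryTheory
open ArtFun

namespace Groth.Agent.S12745

/-- For functors, let F satisfy (S2), let B = A ×_k k[ε] (with projections p', p'') in the category of
Artinian local Λ-algebras with residue field k, and let y ∈ F(B) have images x ∈ F(A) and x_ε ∈
F(k[ε]). Then x maps to y along some section A → B of p' if and only if x maps to x_ε along some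
morphism A → k[ε]. -/
theorem result {Λ : Type u} {k : Type u} [CommRing Λ] [Field k] [Algebra Λ k]
    [IsNoetherianRing Λ] [Module.Finite Λ k]
    {F : ArtFun.Art Λ k ⥤ Type v} (h2 : ArtFun.Heps F)
    {B A : ArtFun.Art Λ k} (p' : B ⟶ A) (p'' : B ⟶ ArtFun.Art.dual Λ k)
    (h : ArtFun.Art.IsFibreProd p' p'' (ArtFun.Art.toBase A) (ArtFun.Art.toBase (ArtFun.Art.dual Λ k)))
    (y : F.obj B) :
    (∃ σ : A ⟶ B, σ ≫ p' = 𝟙 A ∧ F.map σ (F.map p' y) = y) ↔
      ∃ τ : A ⟶ ArtFun.Art.dual Λ k, F.map τ (F.map p' y) = F.map p'' y := by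
  constructor
  · rintro ⟨σ, hσ, hy⟩
    refine ⟨σ ≫ p'', ?_⟩
    rw [FunctorToTypes.map_comp_apply, hy]
  · rintro ⟨τ, hτ⟩
    have hcomp : ∀ a, ArtFun.Art.toBase A ((AlgHom.id Λ A) a) =
        ArtFun.Art.toBase (ArtFun.Art.dual Λ k) (τ.toAlgHom a) := by
      intro a
      change A.res a = (ArtFun.Art.dual Λ k).res (τ a)
      rw [ArtFun.Art.res_app]
    let σ : A ⟶ B := ⟨Groth.Agent.Lib.Helper19.fibLift h (AlgHom.id Λ A) τ.toAlgHom hcomp, by
      apply AlgHom.ext; intro a
      change B.res (Groth.Agent.Lib.Helper19.fibLiftFun h (AlgHom.id Λ A) τ.toAlgHom hcomp a) = A.res a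
      rw [← ArtFun.Art.res_app p',
        (Groth.Agent.Lib.Helper19.fibLiftFun_spec h (AlgHom.id Λ A) τ.toAlgHom hcomp a).1]
      rfl⟩
    have hσ1 : σ ≫ p' = 𝟙 A := by
      apply ArtFun.Art.hom_ext
      exact Groth.Agent.Lib.Helper19.fibLift_fst h (AlgHom.id Λ A) τ.toAlgHom hcomp
    have hσ2 : σ ≫ p'' = τ := by
      apply ArtFun.Art.hom_ext
      exact Groth.Agent.Lib.Helper19.fibLift_snd h (AlgHom.id Λ A) τ.toAlgHom hcomp
    refine ⟨σ, hσ1, ?_⟩
    apply (h2 p' p'' h).1
    apply Subtype.ext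
    apply Prod.ext
    · change F.map p' (F.map σ (F.map p' y)) = F.map p' y
      rw [← FunctorToTypes.map_comp_apply, hσ1, FunctorToTypes.map_id_apply]
    · change F.map p'' (F.map σ (F.map p' y)) = F.map p'' y
      rw [← FunctorToTypes.map_comp_apply, hσ2, hτ]

end Groth.Agent.S12745
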