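import Groth.Statements.S12755
-- import your own Groth.Agent.* helpers here

set_option autoImplicit false
universe u v
open CategoryTheory
open ArtFun

namespace Groth.Agent.S12755

/-- For functors on Artinian local Λ-algebras with residue field k, the composite of two smooth
morphisms φ : F → G and ψ : G → H is smooth. -/
theorem result {Λ : Type u} {k : Type u} [CommRing Λ] [Field k] [Algebra Λ k]
    [IsNoetherianRing Λ] [Module.Finite Λ k]
    {F G H : ArtFun.Art Λ k ⥤ Type v} (φ : F ⟶ G) (ψ : G ⟶ H)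
    (hφ : ArtFun.IsSmooth φ) (hψ : ArtFun.IsSmooth ψ) : ArtFun.IsSmooth (φ ≫ ψ) := by
  intro B A μ hμ ⟨⟨x, z⟩, hxz⟩
  have hxz' : ψ.app A (φ.app A x) = H.map μ z := by
    simpa [NatTrans.comp_app] using hxz
  obtain ⟨y, hy⟩ := hψ μ hμ ⟨(φ.app A x, z), hxz'⟩
  have hy1 : G.map μ y = φ.app A x := congrArg (fun t => t.1.1) hy
  have hy2 : ψ.app B y = z := congrArg (fun t => t.1.2) hy
  obtain ⟨w, hw⟩ := hφ μ hμ ⟨(x, y), hy1.symm⟩
  have hw1 : F.map μ w = x := congrArg (fun t => t.1.1) hw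
  have hw2 : φ.app B w = y := congrArg (fun t => t.1.2) hw
  refine ⟨w, ?_⟩
  apply Subtype.ext
  apply Prod.ext
  · exact hw1
  · change (φ ≫ ψ).app B w = z
    simp [NatTrans.comp_app, hw2, hy2]

end Groth.Agent.S12755
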