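import Groth.Statements.S12756
-- import your own Groth.Agent.* helpers here

set_option autoImplicit false
universe u v
open CategoryTheory
open ArtFun

namespace Groth.Agent.S12756

/-- For functors on Artinian local Λ-algebras with residue field k, if φ : F → G is surjective on every
object and ψ ∘ φ : F → H is smooth, then ψ : G → H is smooth. -/
theorem result {Λ : Type u} {k : Type u} [CommRing Λ] [Field k] [Algebra Λ k]
    [IsNoetherianRing Λ] [Module.Finite Λ k]
    {F G H : ArtFun.Art Λ k ⥤ Type v} (φ : F ⟶ G) (ψ : G ⟶ H)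
    (hφ : ∀ A : ArtFun.Art Λ k, Function.Surjective (φ.app A)) (h : ArtFun.IsSmooth (φ ≫ ψ)) :
    ArtFun.IsSmooth ψ := by
  intro B A μ hμ ⟨⟨y, z⟩, hyz⟩
  obtain ⟨x, hx⟩ := hφ A y
  have hxz : (φ ≫ ψ).app A x = H.map μ z := by
    simp only [NatTrans.comp_app] at hyz ⊢
    simpa [hx] using hyz
  obtain ⟨w, hw⟩ := h μ hμ ⟨(x, z), hxz⟩
  have hw1 : F.map μ w = x := congrArg (fun t => t.1.1) hw
  have hw2 : (φ ≫ ψ).app B w = z := congrArg (fun t => t.1.2) hw
  refine ⟨φ.app B w, ?_⟩
  apply Subtype.ext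
  apply Prod.ext
  · change G.map μ (φ.app B w) = y
    rw [← NatTrans.naturality_apply φ μ w, hw1, hx]
  · change ψ.app B (φ.app B w) = z
    simpa [NatTrans.comp_app] using hw2

end Groth.Agent.S12756
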