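import Groth.Statements.S12925
-- import your own Groth.Agent.* helpers here

set_option autoImplicit false
universe u w
open HopfRep

namespace Groth.Agent.S12925

/-- Let `k` be a commutative ring, `M` a commutative group and `B` a commutative `k`-algebra with a
coaction of the group algebra `k[M]` that is an algebra map (an action of the diagonalizable group
scheme `D(M) = Spec k[M]` on `Spec B`). Then the action is tame: there is a comodule map `α : k[M] →
B`, for the regular coaction on `k[M]`, with `α 1 = 1`. -/
theorem result
    (k : Type u) [CommRing k] (M : Type u) [CommGroup M]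
    (B : Type w) [CommRing B] [Algebra k B] [HopfRep.Comod k (MonoidAlgebra k M) B]
    [GLin.IsCoactAlg k (MonoidAlgebra k M) B] :
    ∃ α : MonoidAlgebra k M →ₗ[k] B, Hoch.IsComodHom (MonoidAlgebra k M) α ∧ α 1 = 1 := by
  classical
  refine ⟨(Algebra.linearMap k B) ∘ₗ (Finsupp.lapply 1) ∘ₗ
    (MonoidAlgebra.coeffLinearEquiv k).toLinearMap, ?_, ?_⟩
  · unfold Hoch.IsComodHom
    apply LinearMap.ext; intro x
    induction x using MonoidAlgebra.induction_linear with
    | zero => simp
    | add x y hx hy => rw [map_add, hx, hy, map_add]
    | single m r =>
      change HopfRep.Comod.coact (k := k) (A := MonoidAlgebra k M) _ =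
        LinearMap.rTensor _ _ (Coalgebra.comul (R := k) (MonoidAlgebra.single m r))
      rw [MonoidAlgebra.comul_single, CommSemiring.comul_apply, TensorProduct.map_tmul,
        LinearMap.rTensor_tmul]
      simp only [LinearMap.comp_apply, LinearEquiv.coe_coe, Finsupp.lapply_apply,
        Algebra.linearMap_apply, MonoidAlgebra.lsingle_apply]
      have hc : ∀ x : MonoidAlgebra k M, MonoidAlgebra.coeffLinearEquiv k x = x.coeff :=
        fun x => rfl
      rw [hc, hc, MonoidAlgebra.coeff_single, MonoidAlgebra.coeff_single]
      by_cases hm : m = 1
      · subst hm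
        rw [Finsupp.single_eq_same, Finsupp.single_eq_same, map_one,
          Algebra.algebraMap_eq_smul_one, map_smul, GLin.IsCoactAlg.coact_one,
          Algebra.TensorProduct.one_def]
        have : (MonoidAlgebra.single (1 : M) r : MonoidAlgebra k M) = r • (1 : MonoidAlgebra k M) := by
          rw [MonoidAlgebra.one_def, MonoidAlgebra.smul_single, smul_eq_mul, mul_one]
        rw [this, TensorProduct.tmul_smul]
      · rw [Finsupp.single_eq_of_ne' hm, Finsupp.single_eq_of_ne' hm, map_zero, map_zero,
          TensorProduct.zero_tmul]
  · simp

end Groth.Agent.S12925
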