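import Groth.Statements.S12926
-- import your own Groth.Agent.* helpers here

set_option autoImplicit false
universe u v
open HopfRep

namespace Groth.Agent.S12926

/-- Let `k` be a commutative ring and `A` a commutative bialgebra over `k`, flat as a `k`-module. If the
submodule `k · 1` of the regular comodule `A` has a complement `H` which is a subcomodule — the case
used when `A` is cosemisimple, i.e. every subcomodule of every comodule is a direct summand as a
comodule — then the trivial action of `Spec A` on `Spec k` is tame: there is a comodule map `α : A →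
k`, for the regular coaction on `A` and the trivial coaction `r ↦ r ⊗ 1` on `k`, with `α 1 = 1`. -/
theorem result
    (k : Type u) [CommRing k] (A : Type v) [CommRing A] [Bialgebra k A] [Module.Flat k A]
    (H : Submodule k A) (hH : HopfRep.IsSubcomod (k := k) (A := A) H)
    (hc : IsCompl (Submodule.span k {(1 : A)}) H) :
    ∃ α : A →ₗ[k] k, @Hoch.IsComodHom k _ A _ _ _ A _ _ _ k _ _ (HopfRep.Comod.trivial k A k) α ∧ α 1 = 1 := by
  set p := Submodule.span k {(1 : A)} with hp
  let α : A →ₗ[k] k := Coalgebra.counit (R := k) (A := A) ∘ₗ p.projection H hc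
  have hα1 : α 1 = 1 := by
    simp only [α, LinearMap.comp_apply,
      Submodule.projection_apply_of_mem_left hc (Submodule.subset_span rfl), Bialgebra.counit_one]
  have hαH : ∀ h ∈ H, α h = 0 := by
    intro h hh
    simp only [α, LinearMap.comp_apply, Submodule.projection_apply_of_mem_right hc hh, map_zero]
  refine ⟨α, ?_, hα1⟩
  unfold Hoch.IsComodHom
  apply LinearMap.ext; intro a
  have hP : ∀ x ∈ p, ((TensorProduct.mk k k A).flip 1) (α x) =
      α.rTensor A (CoalgebraStruct.comul (R := k) (A := A) x) := by
    intro x hx
    obtain ⟨c, rfl⟩ := Submodule.mem_span_singleton.mp hx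
    rw [map_smul, map_smul, map_smul, Bialgebra.comul_one, Algebra.TensorProduct.one_def, map_smul,
      LinearMap.rTensor_tmul, hα1]
    rfl
  have hH' : ∀ x ∈ H, ((TensorProduct.mk k k A).flip 1) (α x) =
      α.rTensor A (CoalgebraStruct.comul (R := k) (A := A) x) := by
    intro x hx
    rw [hαH x hx, map_zero]
    obtain ⟨z, hz⟩ := hH x hx
    change _ = α.rTensor A (HopfRep.Comod.coact (k := k) (A := A) x)
    rw [← hz, ← LinearMap.comp_apply, ← LinearMap.rTensor_comp]
    have : α ∘ₗ H.subtype = 0 := by
      ext ⟨h, hh⟩; exact hαH h hh
    rw [this, LinearMap.rTensor_zero, LinearMap.zero_apply]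
  have hdec := Submodule.projection_add_projection_eq_self hc a
  change ((TensorProduct.mk k k A).flip 1) (α a) =
      α.rTensor A (CoalgebraStruct.comul (R := k) (A := A) a)
  rw [← hdec, map_add, map_add, map_add, map_add, hP _ (Submodule.projection_apply_mem _ _),
    hH' _ (Submodule.projection_apply_mem _ _)]

end Groth.Agent.S12926
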