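import Groth.Statements.S12929
-- import your own Groth.Agent.* helpers here

set_option autoImplicit false
universe u v w w'
open HopfRep

namespace Groth.Agent.S12929

open scoped TensorProduct

/-- Let `k` be a commutative ring, `A` a commutative Hopf algebra over `k`, `M` a right `A`-comodule and
`N` a `k`-module; give `N ⊗ A` the coaction `id ⊗ Δ`. Then for every `k`-linear map `h : M → N` the
composite `(h ⊗ id_A) ∘ ρ_M : M → N ⊗ A` is a comodule map, and every comodule map `f : M → N ⊗ A`
is of this form for exactly one `h` (which is `(id_N ⊗ ε) ∘ f`): comodule maps `M → N ⊗ A`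
correspond bijectively to linear maps `M → N`. -/
theorem result
    (k : Type u) [CommRing k] (A : Type v) [CommRing A] [HopfAlgebra k A]
    (M : Type w) [AddCommGroup M] [Module k M] [HopfRep.Comod k A M]
    (N : Type w') [AddCommGroup N] [Module k N] :
    (∀ h : M →ₗ[k] N, Hoch.IsComodHom A
        ((Hoch.Ind.equiv k A N).toLinearMap ∘ₗ h.rTensor A ∘ₗ HopfRep.Comod.coact (k := k) (A := A))) ∧
      ∀ f : M →ₗ[k] Hoch.Ind k A N, Hoch.IsComodHom A f →
        ∃! h : M →ₗ[k] N,
          f = (Hoch.Ind.equiv k A N).toLinearMap ∘ₗ h.rTensor A ∘ₗ HopfRep.Comod.coact (k := k) (A := A) := by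
  have hcoassoc := (HopfRep.Comod.coassoc (k := k) (A := A) (V := M))
  have hcounit := (HopfRep.Comod.counit_comp (k := k) (A := A) (V := M))
  set ρM := HopfRep.Comod.coact (k := k) (A := A) (V := M) with hρM
  let c' : N ⊗[k] A →ₗ[k] N :=
    (TensorProduct.rid k N).toLinearMap ∘ₗ (Coalgebra.counit (R := k) (A := A)).lTensor N
  -- key identity for the induced comodule, in plain types
  have F1 : ∀ y : N ⊗[k] A, (c'.rTensor A) (Hoch.Ind.coactAux k A N y) = y := by
    intro y
    induction y using TensorProduct.induction_on with
    | zero => simp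
    | tmul n a =>
      rw [Hoch.Ind.coactAux_tmul]
      have : ∀ w : A ⊗[k] A, (c'.rTensor A)
          ((TensorProduct.assoc k N A A).symm (n ⊗ₜ w)) =
          n ⊗ₜ (TensorProduct.lid k A ((Coalgebra.counit (R := k) (A := A)).rTensor A w)) := by
        intro w
        induction w using TensorProduct.induction_on with
        | zero => simp
        | tmul x z =>
          simp [c', TensorProduct.smul_tmul]
        | add w₁ w₂ h₁ h₂ => rw [TensorProduct.tmul_add, map_add, map_add, h₁, h₂, map_add,
            map_add, TensorProduct.tmul_add]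
      rw [this, Coalgebra.rTensor_counit_comul, TensorProduct.lid_tmul, one_smul]
    | add y₁ y₂ h₁ h₂ => rw [map_add, map_add, h₁, h₂]
  have hc' : ∀ m : M, ρM.rTensor A (ρM m) =
      (TensorProduct.assoc k M A A).symm ((CoalgebraStruct.comul (R := k) (A := A)).lTensor M
        (ρM m)) := by
    intro m
    have hc := LinearMap.congr_fun hcoassoc m
    simp only [LinearMap.comp_apply, LinearEquiv.coe_coe] at hc
    rw [← hc, LinearEquiv.symm_apply_apply]
  refine ⟨?_, ?_⟩
  · intro h
    unfold Hoch.IsComodHom
    apply LinearMap.ext; intro m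
    change Hoch.Ind.coactAux k A N (h.rTensor A (ρM m)) = ((h.rTensor A ∘ₗ ρM).rTensor A) (ρM m)
    rw [LinearMap.rTensor_comp_apply, hc']
    generalize ρM m = z
    induction z using TensorProduct.induction_on with
    | zero => simp
    | tmul x a =>
      rw [LinearMap.rTensor_tmul, Hoch.Ind.coactAux_tmul, LinearMap.lTensor_tmul]
      generalize CoalgebraStruct.comul (R := k) (A := A) a = w
      induction w using TensorProduct.induction_on with
      | zero => simp
      | tmul y z => simp
      | add w₁ w₂ h₁ h₂ =>
        rw [TensorProduct.tmul_add, map_add, h₁, h₂, TensorProduct.tmul_add, map_add, map_add]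
    | add z₁ z₂ h₁ h₂ => rw [map_add, map_add, h₁, h₂, map_add, map_add, map_add]
  · intro f hf
    refine ⟨Hoch.Ind.counit k A N ∘ₗ f, ?_, ?_⟩
    · apply LinearMap.ext; intro m
      let f' : M →ₗ[k] N ⊗[k] A := f
      have := LinearMap.congr_fun hf m
      change Hoch.Ind.coactAux k A N (f' m) = (f'.rTensor A) (ρM m) at this
      change f' m = ((c' ∘ₗ f').rTensor A) (ρM m)
      rw [LinearMap.rTensor_comp_apply, ← this, F1]
    · intro h' hh'
      apply LinearMap.ext; intro m
      rw [hh']
      have hcm := LinearMap.congr_fun hcounit m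
      simp only [LinearMap.comp_apply, LinearMap.flip_apply, TensorProduct.mk_apply] at hcm
      have nat : ∀ z : M ⊗[k] A, c' (h'.rTensor A z) =
          h' (TensorProduct.rid k M ((Coalgebra.counit (R := k) (A := A)).lTensor M z)) := by
        intro z
        induction z using TensorProduct.induction_on with
        | zero => simp
        | tmul x a => simp [c']
        | add z₁ z₂ h₁ h₂ => simp only [map_add, h₁, h₂]
      change h' m = c' (h'.rTensor A (ρM m))
      rw [nat]
      change h' m = h' (TensorProduct.rid k M ((CoalgebraStruct.counit (R := k) (A := A)).lTensor M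
        (ρM m)))
      rw [hcm, TensorProduct.rid_tmul, one_smul]

end Groth.Agent.S12929
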