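import Groth.Statements.S12931
import Mathlib.Algebra.BigOperators.Pi
import Mathlib.Algebra.Algebra.Basic
-- import your own Groth.Agent.* helpers here

set_option autoImplicit false
universe u v w
open HopfRep

namespace Groth.Agent.S12931

/-- Let `R` be a commutative ring, `Γ` a finite set and `T` a commutative `R`-algebra which is
connected: nonzero, with no idempotents other than `0` and `1`. Then `γ ↦ (evaluation at γ : (Γ → R)
→ R → T)` is a bijection from `Γ` onto the `R`-algebra maps `(Γ → R) → T`: every such map sends
exactly one of the indicator functions to `1` and the others to `0`. (Only the bijection of sets is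
stated; when `Γ` is a group, the compatibility with the group structures on both sides is not.) -/
theorem result
    (R : Type u) [CommRing R] (Γ : Type v) [Finite Γ]
    (T : Type w) [CommRing T] [Algebra R T] [Nontrivial T]
    (hT : ∀ e : T, IsIdempotentElem e → e = 0 ∨ e = 1) :
    Function.Bijective (fun γ : Γ => (Algebra.ofId R T).comp (Pi.evalAlgHom R (fun _ : Γ => R) γ)) := by
  classical
  cases nonempty_fintype Γ
  let e : Γ → (Γ → R) := fun γ => Pi.single γ 1
  have he_idem : ∀ γ, e γ * e γ = e γ := by
    intro γ; funext δ; by_cases h : δ = γ <;> simp [e, Pi.single_apply, h]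
  have he_orth : ∀ γ δ, γ ≠ δ → e γ * e δ = 0 := by
    intro γ δ hγδ; funext ε
    by_cases h1 : ε = γ
    · subst h1; simp [e, Pi.single_apply, hγδ]
    · simp [e, Pi.single_apply, h1]
  have he_sum : ∑ γ, e γ = 1 := by
    funext δ; simp [e, Pi.single_apply, Finset.sum_apply]
  have hdecomp : ∀ f : Γ → R, f = ∑ γ, f γ • e γ := by
    intro f; funext δ; simp [e, Pi.single_apply, Finset.sum_apply]
  constructor
  · intro γ δ h
    by_contra hne
    have := congrArg (fun φ : (Γ → R) →ₐ[R] T => φ (e γ)) h
    simp only [AlgHom.comp_apply, Pi.evalAlgHom_apply, e, Pi.single_eq_same,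
      Pi.single_eq_of_ne' hne, map_one, map_zero] at this
    exact one_ne_zero this
  · intro φ
    have hidem : ∀ γ, IsIdempotentElem (φ (e γ)) := by
      intro γ; rw [IsIdempotentElem, ← map_mul, he_idem]
    have hex : ∃ γ, φ (e γ) = 1 := by
      by_contra hno
      push_neg at hno
      have h0 : ∀ γ, φ (e γ) = 0 := fun γ => ((hT _ (hidem γ)).resolve_right (hno γ))
      have : φ (∑ γ, e γ) = 0 := by rw [map_sum]; exact Finset.sum_eq_zero (fun γ _ => h0 γ)
      rw [he_sum, map_one] at this
      exact one_ne_zero this
    obtain ⟨γ, hγ⟩ := hex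
    have hother : ∀ δ, δ ≠ γ → φ (e δ) = 0 := by
      intro δ hδ
      have : φ (e δ) = φ (e δ) * φ (e γ) := by rw [hγ, mul_one]
      rw [this, ← map_mul, he_orth δ γ hδ, map_zero]
    refine ⟨γ, ?_⟩
    ext f
    simp only [AlgHom.comp_apply, Pi.evalAlgHom_apply]
    conv_rhs => rw [hdecomp f]
    rw [map_sum, Finset.sum_eq_single γ]
    · rw [map_smul, hγ, Algebra.ofId_apply, Algebra.algebraMap_eq_smul_one]
    · intro δ _ hδ; rw [map_smul, hother δ hδ, smul_zero]
    · intro h; exact absurd (Finset.mem_univ γ) h

end Groth.Agent.S12931
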