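import Groth.Statements.S12933
import Mathlib.LinearAlgebra.TensorProduct.Pi
import Mathlib.Algebra.Exact.Basic
-- import your own Groth.Agent.* helpers here

set_option autoImplicit false
universe u v w w'
open TensorProduct
open InvTh

namespace Groth.Agent.S12933

/-- Let `R` be a commutative ring, `B` a commutative `R`-algebra with an action of a finite group `Γ` by
`R`-algebra automorphisms, and `R'` a flat commutative `R`-algebra; let `Γ` act on `R' ⊗_R B`
through the factor `B`. Then an element of `R' ⊗_R B` is fixed by every element of `Γ` if and only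
if it lies in the `R'`-submodule spanned by the tensors `1 ⊗ b` with `b ∈ B^Γ`: taking invariants
commutes with flat base change (the map `R' ⊗_R B^Γ → R' ⊗_R B` being moreover injective by
flatness). -/
theorem result
    (R : Type u) [CommRing R] (B : Type v) [CommRing B] [Algebra R B]
    (Γ : Type w) [Group Γ] [Finite Γ] [MulSemiringAction Γ B] [SMulCommClass Γ R B]
    (R' : Type w') [CommRing R'] [Algebra R R'] [Module.Flat R R']
    (x : R' ⊗[R] B) :
    (∀ γ : Γ, Algebra.TensorProduct.map (AlgHom.id R R') (MulSemiringAction.toAlgHom R B γ) x = x) ↔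
      x ∈ Submodule.span R' ((fun b : B => (1 : R') ⊗ₜ[R] b) '' {b : B | ∀ γ : Γ, γ • b = b}) := by
  classical
  cases nonempty_fintype Γ
  -- the R'-linearity of the action maps
  have hsmul : ∀ (γ : Γ) (r : R') (z : R' ⊗[R] B),
      Algebra.TensorProduct.map (AlgHom.id R R') (MulSemiringAction.toAlgHom R B γ) (r • z) =
        r • Algebra.TensorProduct.map (AlgHom.id R R') (MulSemiringAction.toAlgHom R B γ) z := by
    intro γ r z
    induction z using TensorProduct.induction_on with
    | zero => simp
    | tmul a b =>
      rw [TensorProduct.smul_tmul', Algebra.TensorProduct.map_tmul,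
        Algebra.TensorProduct.map_tmul, TensorProduct.smul_tmul']
      rfl
    | add z w hz hw => rw [smul_add, map_add, hz, hw, map_add, smul_add]
  have hlT : ∀ (γ : Γ) (z : R' ⊗[R] B),
      Algebra.TensorProduct.map (AlgHom.id R R') (MulSemiringAction.toAlgHom R B γ) z =
        (MulSemiringAction.toAlgHom R B γ).toLinearMap.lTensor R' z := by
    intro γ z
    induction z using TensorProduct.induction_on with
    | zero => simp
    | tmul a b => rfl
    | add z w hz hw => rw [map_add, hz, hw, map_add]
  constructor
  · intro hx
    let d : B →ₗ[R] (Γ → B) :=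
      LinearMap.pi (fun γ => (MulSemiringAction.toAlgHom R B γ).toLinearMap - LinearMap.id)
    have hex := Module.Flat.lTensor_exact R' (LinearMap.exact_subtype_ker_map d)
    have hdx : d.lTensor R' x = 0 := by
      apply (TensorProduct.piRight R R R' (fun _ : Γ => B)).injective
      rw [map_zero]
      funext γ
      have key : ∀ z : R' ⊗[R] (Γ → B),
          TensorProduct.piRight R R R' (fun _ : Γ => B) z γ = (LinearMap.proj γ).lTensor R' z := by
        intro z
        induction z using TensorProduct.induction_on with
        | zero => simp
        | tmul a b => rfl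
        | add z w hz hw => rw [map_add, Pi.add_apply, hz, hw, map_add]
      rw [key, ← LinearMap.comp_apply, ← LinearMap.lTensor_comp]
      have : (LinearMap.proj γ : (Γ → B) →ₗ[R] B) ∘ₗ d =
          (MulSemiringAction.toAlgHom R B γ).toLinearMap - LinearMap.id := by
        ext b; simp [d]
      rw [this, LinearMap.lTensor_sub, LinearMap.sub_apply, LinearMap.lTensor_id,
        LinearMap.id_apply, ← hlT, hx γ, sub_self, Pi.zero_apply]
    obtain ⟨y, rfl⟩ := (hex x).mp hdx
    clear hx hdx
    induction y using TensorProduct.induction_on with
    | zero => simp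
    | tmul a v =>
      rw [LinearMap.lTensor_tmul]
      have hv : ((LinearMap.ker d).subtype v) ∈ {b : B | ∀ γ : Γ, γ • b = b} := by
        intro γ
        have h := congrFun (LinearMap.mem_ker.mp v.2) γ
        simp only [d, LinearMap.pi_apply, LinearMap.sub_apply, AlgHom.toLinearMap_apply,
          LinearMap.id_apply, Pi.zero_apply, sub_eq_zero] at h
        exact h
      have : a ⊗ₜ[R] ((LinearMap.ker d).subtype v) = a • ((1 : R') ⊗ₜ[R] ((LinearMap.ker d).subtype v)) := by
        rw [TensorProduct.smul_tmul', smul_eq_mul, mul_one]
      rw [this]
      exact Submodule.smul_mem _ _ (Submodule.subset_span ⟨_, hv, rfl⟩)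
    | add z w hz hw =>
      rw [map_add]
      exact Submodule.add_mem _ hz hw
  · intro hx γ
    induction hx using Submodule.span_induction with
    | mem z hz =>
      obtain ⟨b, hb, rfl⟩ := hz
      rw [Algebra.TensorProduct.map_tmul]
      simp only [AlgHom.id_apply]
      congr 1
      exact hb γ
    | zero => simp
    | add z w _ _ hz hw => rw [map_add, hz, hw]
    | smul r z _ hz => rw [hsmul, hz]

end Groth.Agent.S12933
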