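import Groth.Statements.S12935
import Mathlib.RingTheory.Invariant.Basic
-- import your own Groth.Agent.* helpers here

set_option autoImplicit false
universe u v
open InvTh

namespace Groth.Agent.S12935

/-- Let `B` be a commutative ring with an action of a finite group `Γ` by ring automorphisms, `Ω` a
normal subgroup of `Γ`, `B^Ω` the subring of `Ω`-invariants (stable under `Γ`, with the induced
action of `Γ/Ω`), and `P` a prime ideal of `B`. Then (decomposition groups) an element `γ` maps `P ∩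
B^Ω` onto itself if and only if `γω` maps `P` onto itself for some `ω ∈ Ω`; and (inertia groups) `γ`
fixes `B^Ω` modulo `P ∩ B^Ω` if and only if `γω` fixes `B` modulo `P` for some `ω ∈ Ω`. In other
words the decomposition and inertia groups of `P ∩ B^Ω` under `Γ/Ω` are the images of those of `P`.
(The published statement also asserts the same for the ramification groups, the Sylow subgroups of
the inertia groups at the residue characteristic; that clause is not included here.) -/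
theorem result
    (B : Type u) [CommRing B] (Γ : Type v) [Group Γ] [Finite Γ] [MulSemiringAction Γ B]
    (Ω : Subgroup Γ) [Ω.Normal] (P : Ideal B) [P.IsPrime] (γ : Γ) :
    ((∀ x : B, (∀ ω ∈ Ω, ω • x = x) → (x ∈ P ↔ γ • x ∈ P)) ↔
        ∃ ω ∈ Ω, ∀ x : B, x ∈ P ↔ (γ * ω) • x ∈ P) ∧
      ((∀ x : B, (∀ ω ∈ Ω, ω • x = x) → γ • x - x ∈ P) ↔
        ∃ ω ∈ Ω, ∀ x : B, (γ * ω) • x - x ∈ P) := by
  classical
  let A := FixedPoints.subring B Ω
  haveI : Algebra.IsInvariant A B Ω := ⟨fun b hb => ⟨⟨b, fun ω => hb ω⟩, rfl⟩⟩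
  have hinvA : ∀ x : B, (∀ ω ∈ Ω, ω • x = x) → x ∈ A := fun x h ω => h ω.1 ω.2
  have hAinv : ∀ a : A, ∀ ω ∈ Ω, ω • (a : B) = a := fun a ω hω => a.2 ⟨ω, hω⟩
  -- part 1 forward, as a standalone fact
  have part1 : ∀ γ : Γ, (∀ x : B, (∀ ω ∈ Ω, ω • x = x) → (x ∈ P ↔ γ • x ∈ P)) →
      ∃ ω ∈ Ω, ∀ x : B, x ∈ P ↔ (γ * ω) • x ∈ P := by
    intro γ h
    let P' : Ideal B := P.comap (MulSemiringAction.toRingHom Γ B γ)
    have hP' : ∀ x, x ∈ P' ↔ γ • x ∈ P := fun x => Iff.rfl
    haveI : P'.IsPrime := Ideal.comap_isPrime _ _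
    have hunder : P.under A = P'.under A := by
      ext a
      rw [Ideal.mem_under, Ideal.mem_under, hP']
      exact h _ (hAinv a)
    obtain ⟨g, hg⟩ := Algebra.IsInvariant.exists_smul_of_under_eq A B Ω P P' hunder
    refine ⟨g, g.2, fun x => ?_⟩
    have := (hP' ((g : Γ) • x))
    rw [hg, Ideal.mem_pointwise_smul_iff_inv_smul_mem] at this
    have h3 : (g⁻¹ : Ω) • ((g : Γ) • x) = x := by
      rw [Subgroup.smul_def, Subgroup.coe_inv, inv_smul_smul]
    rw [h3] at this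
    rw [mul_smul]
    exact this
  refine ⟨⟨part1 γ, ?_⟩, ⟨?_, ?_⟩⟩
  · rintro ⟨ω, hω, h⟩ x hx
    have := h x
    rwa [mul_smul, hx ω hω] at this
  · intro h2
    have h1 : ∀ x : B, (∀ ω ∈ Ω, ω • x = x) → (x ∈ P ↔ γ • x ∈ P) := by
      intro x hx
      constructor
      · intro hxP
        have := P.add_mem (h2 x hx) hxP
        rwa [sub_add_cancel] at this
      · intro hγ
        have := P.sub_mem hγ (h2 x hx)
        rwa [sub_sub_cancel] at this
    obtain ⟨ω₁, hω₁, hτ⟩ := part1 γ h1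
    set τ := γ * ω₁ with hτdef
    have hPP : P = P.map (MulSemiringAction.toRingEquiv Γ B τ) := by
      ext x
      rw [Ideal.mem_map_of_equiv]
      constructor
      · intro hx
        refine ⟨τ⁻¹ • x, (hτ _).mpr (by rw [smul_inv_smul]; exact hx), ?_⟩
        change τ • (τ⁻¹ • x) = x
        rw [smul_inv_smul]
      · rintro ⟨y, hy, rfl⟩
        exact (hτ y).mp hy
    let σ₀ : (B ⧸ P) ≃+* (B ⧸ P) := Ideal.quotientEquiv P P (MulSemiringAction.toRingEquiv Γ B τ) hPP
    have hσ₀ : ∀ x : B, σ₀ (Ideal.Quotient.mk P x) = Ideal.Quotient.mk P (τ • x) := fun x =>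
      Ideal.quotientEquiv_mk _ _ _ _ x
    let p := P.under A
    have hcomm : ∀ r : A ⧸ p, σ₀ (algebraMap (A ⧸ p) (B ⧸ P) r) = algebraMap (A ⧸ p) (B ⧸ P) r := by
      intro r
      obtain ⟨a, rfl⟩ := Ideal.Quotient.mk_surjective r
      rw [Ideal.Quotient.algebraMap_mk_of_liesOver, hσ₀, Ideal.Quotient.eq]
      have hinv : ω₁ • (a : B) = a := hAinv a ω₁ hω₁
      change τ • (a : B) - (a : B) ∈ P
      rw [hτdef, mul_smul, hinv]
      exact h2 _ (hAinv a)
    let σ : (B ⧸ P) ≃ₐ[A ⧸ p] (B ⧸ P) := AlgEquiv.ofRingEquiv (f := σ₀) hcomm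
    obtain ⟨g₂, hg₂⟩ := Ideal.Quotient.stabilizerHom_surjective Ω p P σ
    have key : ∀ x : B, τ • x - (g₂ : Ω) • x ∈ P := by
      intro x
      have := congrArg (fun f => f (Ideal.Quotient.mk P x)) hg₂
      simp only [Ideal.Quotient.stabilizerHom_apply] at this
      have this2 : Ideal.Quotient.mk P ((g₂ : Ω) • x) = σ₀ (Ideal.Quotient.mk P x) := this
      rw [← Ideal.Quotient.eq, ← hσ₀, this2]
    refine ⟨ω₁ * ((g₂ : Ω) : Γ)⁻¹, Ω.mul_mem hω₁ (Ω.inv_mem (g₂ : Ω).2), fun x => ?_⟩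
    have := key (((g₂ : Ω) : Γ)⁻¹ • x)
    rw [← mul_assoc, mul_smul]
    have h3 : (g₂ : Ω) • (((g₂ : Ω) : Γ)⁻¹ • x) = x := by
      rw [Subgroup.smul_def, smul_inv_smul]
    rwa [h3] at this
  · rintro ⟨ω, hω, h⟩ x hx
    have := h x
    rwa [mul_smul, hx ω hω] at this

end Groth.Agent.S12935
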