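import Groth.Statements.S12936
import Mathlib.RingTheory.Ideal.Operations
import Mathlib.RingTheory.Ideal.Maps
import Mathlib.RingTheory.Ideal.Quotient.Operations
import Mathlib.Algebra.BigOperators.GroupWithZero.Action
import Mathlib.Algebra.BigOperators.Ring.Finset
-- import your own Groth.Agent.* helpers here

set_option autoImplicit false
universe u v
open InvTh

namespace Groth.Agent.S12936

/-- Let `B` be a commutative ring with an action of a finite group `Γ` by ring automorphisms and `P` a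
maximal ideal of `B`, with decomposition group `D_P = {γ | γP = P}` and decomposition ring `D =
B^{D_P}`. Then `D = B^Γ + (P ∩ D)`: every element of `B` fixed by `D_P` is congruent modulo `P` to a
`Γ`-invariant element. Hence the residue field of `D` at `P ∩ D` is that of `B^Γ` at `P ∩ B^Γ`; for
an arbitrary prime `P` the same equality of residue fields follows by localising at `P ∩ B^Γ`. (The
published statement prints this residue field as `k(P)`; the proof establishes the equality with the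
residue field of `B^Γ` stated here.) -/
theorem result
    (B : Type u) [CommRing B] (Γ : Type v) [Group Γ] [Finite Γ] [MulSemiringAction Γ B]
    (P : Ideal B) [P.IsMaximal] (x : B)
    (hx : ∀ γ : Γ, (∀ y : B, y ∈ P ↔ γ • y ∈ P) → γ • x = x) :
    ∃ c : B, (∀ γ : Γ, γ • c = c) ∧ x - c ∈ P := by
  classical
  cases nonempty_fintype Γ
  -- the decomposition set
  let D : Finset Γ := Finset.univ.filter (fun σ => ∀ y : B, y ∈ P ↔ σ • y ∈ P)
  have hD : ∀ σ, σ ∈ D ↔ ∀ y : B, y ∈ P ↔ σ • y ∈ P := fun σ => by simp [D]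
  have hDmul : ∀ γ δ, γ ∈ D → δ ∈ D → γ * δ ∈ D := by
    intro γ δ hγ hδ
    rw [hD] at hγ hδ ⊢
    intro y
    rw [mul_smul, ← hγ, ← hδ]
  have hDinv : ∀ γ, γ ∈ D → γ⁻¹ ∈ D := by
    intro γ hγ
    rw [hD] at hγ ⊢
    intro y
    rw [hγ (γ⁻¹ • y), smul_inv_smul]
  have h1D : (1 : Γ) ∈ D := by rw [hD]; intro y; rw [one_smul]
  -- the conjugate ideals
  let Q : Γ → Ideal B := fun σ => P.comap (MulSemiringAction.toRingEquiv Γ B σ).toRingHom
  have hQmem : ∀ σ y, y ∈ Q σ ↔ σ • y ∈ P := fun σ y => by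
    simp [Q, Ideal.mem_comap]
  have hQmax : ∀ σ, (Q σ).IsMaximal := fun σ =>
    Ideal.comap_isMaximal_of_surjective _ (MulSemiringAction.toRingEquiv Γ B σ).surjective
  have hQne : ∀ σ, σ ∉ D → P ≠ Q σ := by
    intro σ hσ hPQ
    apply hσ
    rw [hD]
    intro y
    rw [← hQmem, ← hPQ]
  have hcop : IsCoprime P (⨅ σ ∈ Finset.univ.filter (fun σ => σ ∉ D), Q σ) := by
    refine Ideal.isCoprime_biInf (fun σ hσ => ?_)
    have := hQmax σ
    exact Ideal.isCoprime_of_isMaximal (hQne σ (Finset.mem_filter.mp hσ).2)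
  obtain ⟨a, ha, e, he, hae⟩ := Ideal.isCoprime_iff_exists.mp hcop
  have he1 : e - 1 ∈ P := by
    have : e - 1 = -a := by rw [← hae]; ring
    rw [this]; exact P.neg_mem ha
  have heQ : ∀ σ, σ ∉ D → σ • e ∈ P := by
    intro σ hσ
    rw [← hQmem]
    have := he
    simp only [Submodule.mem_iInf, Finset.mem_filter, Finset.mem_univ, true_and] at this
    exact this σ hσ
  -- the D-invariant modification
  set e' : B := ∏ δ ∈ D, δ • e with he'
  have he'inv : ∀ γ ∈ D, γ • e' = e' := by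
    intro γ hγ
    rw [he', Finset.smul_prod']
    simp only [smul_smul]
    refine Finset.prod_nbij' (γ * ·) (γ⁻¹ * ·) (fun δ hδ => hDmul _ _ hγ hδ)
      (fun δ hδ => hDmul _ _ (hDinv _ hγ) hδ) (fun δ _ => by simp) (fun δ _ => by simp)
      (fun δ _ => rfl)
  have he'1 : e' - 1 ∈ P := by
    rw [← Ideal.Quotient.eq_zero_iff_mem, map_sub, map_one, sub_eq_zero, he', map_prod]
    refine Finset.prod_eq_one (fun δ hδ => ?_)
    rw [← map_one (Ideal.Quotient.mk P), Ideal.Quotient.eq]
    have : δ • e - 1 = δ • (e - 1) := by rw [smul_sub, smul_one]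
    rw [this, ← (hD δ).mp hδ]
    exact he1
  have he'Q : ∀ σ, σ ∉ D → σ • e' ∈ P := by
    intro σ hσ
    obtain ⟨r, hr⟩ := Finset.dvd_prod_of_mem (fun δ => δ • e) h1D
    rw [he', hr, one_smul, smul_mul', ]
    exact P.mul_mem_right _ (heQ σ hσ)
  set y : B := e' * x with hy
  have hyinv : ∀ γ ∈ D, γ • y = y := by
    intro γ hγ
    rw [hy, smul_mul', he'inv γ hγ, hx γ ((hD γ).mp hγ)]
  have hyQ : ∀ σ, σ ∉ D → σ • y ∈ P := by
    intro σ hσ
    rw [hy, smul_mul']
    exact P.mul_mem_right _ (he'Q σ hσ)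
  -- the orbit sum
  let S : Finset B := Finset.univ.image (fun σ : Γ => σ • y)
  refine ⟨∑ z ∈ S, z, ?_, ?_⟩
  · intro γ
    rw [Finset.smul_sum]
    refine Finset.sum_nbij' (γ • ·) (γ⁻¹ • ·) ?_ ?_ (fun z _ => by simp) (fun z _ => by simp)
      (fun z _ => rfl)
    · intro z hz
      obtain ⟨σ, -, rfl⟩ := Finset.mem_image.mp hz
      exact Finset.mem_image.mpr ⟨γ * σ, Finset.mem_univ _, by rw [mul_smul]⟩
    · intro z hz
      obtain ⟨σ, -, rfl⟩ := Finset.mem_image.mp hz
      exact Finset.mem_image.mpr ⟨γ⁻¹ * σ, Finset.mem_univ _, by rw [mul_smul]⟩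
  · have hyS : y ∈ S := Finset.mem_image.mpr ⟨1, Finset.mem_univ _, one_smul _ _⟩
    rw [← Finset.add_sum_erase S (fun z => z) hyS]
    have hrest : ∑ z ∈ S.erase y, z ∈ P := by
      refine P.sum_mem (fun z hz => ?_)
      obtain ⟨hzy, hzS⟩ := Finset.mem_erase.mp hz
      obtain ⟨σ, -, rfl⟩ := Finset.mem_image.mp hzS
      by_cases hσ : σ ∈ D
      · exact absurd (hyinv σ hσ) hzy
      · exact hyQ σ hσ
    have : x - (y + ∑ z ∈ S.erase y, z) = -((e' - 1) * x) - ∑ z ∈ S.erase y, z := by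
      rw [hy]; ring
    rw [this]
    exact P.sub_mem (P.neg_mem (P.mul_mem_right _ he'1)) hrest

end Groth.Agent.S12936
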