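import Groth.Statements.S12946
import Mathlib.RingTheory.Unramified.LocalStructure
import Mathlib.AlgebraicGeometry.Morphisms.QuasiFinite
-- import your own Groth.Agent.* helpers here

set_option autoImplicit false
universe u
open CategoryTheory AlgebraicGeometry
open AlgSt

namespace Groth.Agent.S12946

theorem lqf_of_lft_fu {X Y : Scheme.{u}} (f : X ⟶ Y) (h1 : LocallyOfFiniteType f)
    (h2 : FormallyUnramified f) : LocallyQuasiFinite f := by
  rw [HasRingHomProperty.iff_appLE (P := @LocallyQuasiFinite)]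
  intro U V e
  have a := HasRingHomProperty.appLE (P := @LocallyOfFiniteType) f h1 U V e
  have b := HasRingHomProperty.appLE (P := @FormallyUnramified) f h2 U V e
  algebraize [(f.appLE U V e).hom]
  exact (inferInstance : Algebra.QuasiFinite Γ(Y, U) Γ(X, V))

/-- A DM morphism of algebraic stacks is quasi-DM (an unramified morphism of algebraic spaces being
locally quasi-finite). -/
theorem result
    (S : Scheme.{u}) (𝒳 : AlgSt.Cat S) (𝒴 : AlgSt.Cat S)
    (h𝒳 : AlgSt.IsAlgStack Scheme.fppfPrecoverage 𝒳)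
    (h𝒴 : AlgSt.IsAlgStack Scheme.fppfPrecoverage 𝒴)
    (f : 𝒳 ⥤ᵇ 𝒴) :
    AlgSt.IsDMMor f → AlgSt.IsQuasiDMMor f := by
  intro h U y
  obtain ⟨F, e, he, hP⟩ := h U y
  refine ⟨F, e, he, ?_⟩
  intro U' V' a b g ha hb hab
  have h' := hP a b g ha hb hab
  exact ⟨lqf_of_lft_fu _ h'.1 h'.2, h'.1⟩

end Groth.Agent.S12946
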