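import Groth.Statements.S1303
import Groth.Agent.Lib.Helper2.Thick

set_option autoImplicit false
universe u
open FlatMor

namespace Groth.Agent.S1303

open AlgebraicGeometry CategoryTheory Limits in
/-- For a morphism of thickenings, that is a commutative square whose horizontal maps are thickenings
(closed immersions that are surjective on points), the morphism between the thin schemes is
quasi-compact if and only if the morphism between the thick ones is. -/
theorem result {X X' S S' : Scheme.{u}} (iX : X ⟶ X') (iS : S ⟶ S') (f : X ⟶ S) (f' : X' ⟶ S')
    (hX : MoreMor.IsThickening iX) (hS : MoreMor.IsThickening iS) (w : iX ≫ f' = f ≫ iS) :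
    QuasiCompact f ↔ QuasiCompact f' := by
  rw [quasiCompact_iff_isSpectralMap, quasiCompact_iff_isSpectralMap]
  exact Groth.Agent.Lib.Helper2.spectral_iff_of_homeo iX iS f f'
    (Groth.Agent.Lib.Helper2.thick_isHomeomorph iX hX)
    (Groth.Agent.Lib.Helper2.thick_isHomeomorph iS hS)
    (Groth.Agent.Lib.Helper2.comm_apply iX iS f f' w)

end Groth.Agent.S1303
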