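import Groth.Statements.S1307
import Groth.Agent.Lib.Helper2.Thick

set_option autoImplicit false
universe u
open FlatMor

namespace Groth.Agent.S1307

open AlgebraicGeometry CategoryTheory Limits in
/-- For a morphism of thickenings, that is a commutative square whose horizontal maps are thickenings
(closed immersions that are surjective on points), the morphism between the thin schemes is
universally injective if and only if the morphism between the thick ones is. -/
theorem result {X X' S S' : Scheme.{u}} (iX : X ⟶ X') (iS : S ⟶ S') (f : X ⟶ S) (f' : X' ⟶ S')
    (hX : MoreMor.IsThickening iX) (hS : MoreMor.IsThickening iS) (w : iX ≫ f' = f ≫ iS) :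
    UniversallyInjective f ↔ UniversallyInjective f' := by
  obtain ⟨hXc, hXs⟩ := hX
  obtain ⟨hSc, hSs⟩ := hS
  constructor
  · intro hf
    have : UniversallyInjective (iX ≫ f') := by
      rw [w]; exact MorphismProperty.comp_mem @UniversallyInjective _ _ hf inferInstance
    exact Groth.Agent.Lib.Helper2.universallyInjective_of_comp_surjective iX f'
  · intro hf'
    have : UniversallyInjective (f ≫ iS) := by
      rw [← w]; exact MorphismProperty.comp_mem @UniversallyInjective _ _ inferInstance hf'
    exact Groth.Agent.Lib.Helper2.universallyInjective_of_comp f iS

end Groth.Agent.S1307
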