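import Groth.Statements.S1308
import Groth.Agent.Lib.Helper2.Thick

set_option autoImplicit false
universe u
open FlatMor

namespace Groth.Agent.S1308

open AlgebraicGeometry CategoryTheory Limits in
/-- For a morphism of thickenings, that is a commutative square whose horizontal maps are thickenings
(closed immersions that are surjective on points), the morphism between the thin schemes is
universally open if and only if the morphism between the thick ones is. -/
theorem result {X X' S S' : Scheme.{u}} (iX : X ⟶ X') (iS : S ⟶ S') (f : X ⟶ S) (f' : X' ⟶ S')
    (hX : MoreMor.IsThickening iX) (hS : MoreMor.IsThickening iS) (w : iX ≫ f' = f ≫ iS) :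
    UniversallyOpen f ↔ UniversallyOpen f' := by
  have hSo := Groth.Agent.Lib.Helper2.thick_universallyOpen iS hS
  have hXo := Groth.Agent.Lib.Helper2.thick_universallyOpen iX hX
  obtain ⟨hXc, hXs⟩ := hX
  obtain ⟨hSc, hSs⟩ := hS
  constructor
  · intro hf
    have : UniversallyOpen (iX ≫ f') := by
      rw [w]; exact MorphismProperty.comp_mem @UniversallyOpen _ _ hf hSo
    exact Groth.Agent.Lib.Helper2.universallyOpen_of_comp_surjective iX f'
  · intro hf'
    have : UniversallyOpen (f ≫ iS) := by
      rw [← w]; exact MorphismProperty.comp_mem @UniversallyOpen _ _ hXo hf'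
    exact Groth.Agent.Lib.Helper2.universallyOpen_of_comp_mono f iS

end Groth.Agent.S1308
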