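import Groth.Statements.S13098
import Mathlib.Tactic.Module
import Mathlib.Tactic.Abel
import Mathlib.Tactic.FinCases
import Mathlib.LinearAlgebra.LinearIndependent.Defs
import Mathlib.LinearAlgebra.Basis.Basic
-- import your own Groth.Agent.* helpers here

set_option autoImplicit false
universe u v
open Lie3Mod

namespace Groth.Agent.S13098

/-- Let R be a commutative ring, M an R-module with a basis x = bs 0, y = bs 1, z = bs 2 indexed by Fin
3, and B an R-bilinear alternating map on M (B m m = 0) with B x y = a x + b y + c z, B x z = d x +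
e y + f z and B y z = g x + h y + i z. Then B satisfies the Jacobi identity for all triples if and
only if the three Jacobi polynomials vanish: ah + di − fg − bg = 0, ie + bd − fh − ae = 0 and hc +
dc − af − bi = 0. (This is the statement that Lie brackets on a based free module of rank 3 are the
points of the closed subscheme of affine 9-space defined by these three equations.) -/
theorem result (R : Type u) [CommRing R] (M : Type v) [AddCommGroup M] [Module R M]
    (bs : Module.Basis (Fin 3) R M) (B : M →ₗ[R] M →ₗ[R] M) (halt : ∀ m : M, B m m = 0)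
    (a b c d e f g h i : R)
    (hxy : B (bs 0) (bs 1) = a • bs 0 + b • bs 1 + c • bs 2)
    (hxz : B (bs 0) (bs 2) = d • bs 0 + e • bs 1 + f • bs 2)
    (hyz : B (bs 1) (bs 2) = g • bs 0 + h • bs 1 + i • bs 2) :
    (∀ u v w : M, B u (B v w) + B v (B w u) + B w (B u v) = 0) ↔
      (a * h + d * i - f * g - b * g = 0 ∧ i * e + b * d - f * h - a * e = 0 ∧
        h * c + d * c - a * f - b * i = 0) := by
  have anti : ∀ u v : M, B u v = - B v u := by
    intro u v
    have := halt (u + v)
    simp only [map_add, LinearMap.add_apply, halt, zero_add, add_zero] at this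
    rw [add_comm] at this
    exact eq_neg_of_add_eq_zero_left this
  have h10 : B (bs 1) (bs 0) = -(a • bs 0 + b • bs 1 + c • bs 2) := by rw [anti, hxy]
  have h20 : B (bs 2) (bs 0) = -(d • bs 0 + e • bs 1 + f • bs 2) := by rw [anti, hxz]
  have h21 : B (bs 2) (bs 1) = -(g • bs 0 + h • bs 1 + i • bs 2) := by rw [anti, hyz]
  set J : M → M → M → M := fun u v w => B u (B v w) + B v (B w u) + B w (B u v) with hJ
  have hxyz : J (bs 0) (bs 1) (bs 2) = (a * h + d * i - f * g - b * g) • bs 0 +
      (i * e + b * d - f * h - a * e) • bs 1 + (h * c + d * c - a * f - b * i) • bs 2 := by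
    simp only [hJ, map_add, map_smul, map_neg, LinearMap.add_apply, LinearMap.smul_apply,
      LinearMap.neg_apply, halt, hxy, hxz, hyz, h10, h20, h21, smul_zero, add_zero, zero_add]
    module
  have cyc : ∀ u v w, J u v w = J v w u := by
    intro u v w; simp only [hJ]; abel
  have Jswap : ∀ u v w, J v u w = - J u v w := by
    intro u v w
    simp only [hJ]
    rw [anti w v, anti v u, anti u w]
    simp only [map_neg, LinearMap.neg_apply]
    abel
  have J12 : ∀ u w, J u u w = 0 := by
    intro u w
    simp only [hJ, halt, map_zero]
    rw [anti w u]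
    simp
  have step : ∀ u v w, (∀ k, J (bs k) v w = 0) → J u v w = 0 := by
    intro u v w hk
    let L : M →ₗ[R] M := B.flip (B v w) + (B v) ∘ₗ (B w) + (B w) ∘ₗ (B.flip v)
    have hL : ∀ u, L u = J u v w := fun u => by simp [L, hJ]
    have : L = 0 := bs.ext (fun k => by rw [hL, hk k, LinearMap.zero_apply])
    rw [← hL, this, LinearMap.zero_apply]
  constructor
  · intro hall
    have h0 : J (bs 0) (bs 1) (bs 2) = 0 := hall _ _ _
    rw [hxyz] at h0
    have := Fintype.linearIndependent_iff.mp bs.linearIndependent
      ![a * h + d * i - f * g - b * g, i * e + b * d - f * h - a * e,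
        h * c + d * c - a * f - b * i] (by simpa [Fin.sum_univ_three] using h0)
    exact ⟨by simpa using this 0, by simpa using this 1, by simpa using this 2⟩
  · rintro ⟨e1, e2, e3⟩
    have hJ0 : J (bs 0) (bs 1) (bs 2) = 0 := by
      rw [hxyz, e1, e2, e3]; simp
    have hall : ∀ u v w, J u v w = 0 := by
      intro u v w
      apply step; intro k
      rw [cyc]
      apply step; intro j
      rw [cyc]
      apply step; intro l
      fin_cases l <;> fin_cases k <;> fin_cases j <;>
        first
        | exact J12 _ _
        | (rw [cyc]; exact J12 _ _)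
        | (rw [← cyc]; exact J12 _ _)
        | exact hJ0
        | (rw [cyc]; exact hJ0)
        | (rw [← cyc]; exact hJ0)
        | (rw [Jswap]; rw [neg_eq_zero]; exact hJ0)
        | (rw [Jswap]; rw [neg_eq_zero]; rw [cyc]; exact hJ0)
        | (rw [Jswap]; rw [neg_eq_zero]; rw [← cyc]; exact hJ0)
    exact hall

end Groth.Agent.S13098
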