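import Groth.Statements.S13100
import Mathlib.RingTheory.Henselian
import Mathlib.RingTheory.AdicCompletion.Completeness
import Mathlib.Tactic.LinearCombination
-- import your own Groth.Agent.* helpers here

set_option autoImplicit false
universe u
open GrpSch

namespace Groth.Agent.S13100

/-- Let k be an algebraically closed field of characteristic different from 2 and K = k((t)) the field
of Laurent series over k. Then a non-zero Laurent series f is a square in K if and only if its order
in t is even; consequently the group Kˣ/Kˣ² of non-zero elements modulo squares has exactly two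
elements, represented by 1 and t. -/
theorem result (k : Type u) [Field k] [IsAlgClosed k] (h2 : (2 : k) ≠ 0)
    (f : LaurentSeries k) (hf : f ≠ 0) : IsSquare f ↔ Even f.order := by
  constructor
  · rintro ⟨g, rfl⟩
    have hg : g ≠ 0 := by rintro rfl; simp at hf
    rw [HahnSeries.order_mul hg hg]
    exact ⟨g.order, rfl⟩
  · rintro ⟨m, hm⟩
    set P := f.powerSeriesPart with hP
    have hc : PowerSeries.constantCoeff P ≠ 0 := by
      rw [← PowerSeries.coeff_zero_eq_constantCoeff_apply, hP, LaurentSeries.powerSeriesPart_coeff,
        Nat.cast_zero, add_zero]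
      rw [← HahnSeries.leadingCoeff_eq]
      exact HahnSeries.leadingCoeff_ne_zero.mpr hf
    obtain ⟨z, hz⟩ := IsAlgClosed.exists_pow_nat_eq (PowerSeries.constantCoeff P)
      (by norm_num : 0 < 2)
    have hz0 : z ≠ 0 := by
      rintro rfl; apply hc; rw [← hz]; ring
    have hmem : (Polynomial.X ^ 2 - Polynomial.C P).eval (PowerSeries.C z) ∈
        Ideal.span {(PowerSeries.X : PowerSeries k)} := by
      rw [Ideal.mem_span_singleton, PowerSeries.X_dvd_iff]
      simp [hz]
    have hunit : IsUnit (Ideal.Quotient.mk (Ideal.span {(PowerSeries.X : PowerSeries k)})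
        ((Polynomial.X ^ 2 - Polynomial.C P).derivative.eval (PowerSeries.C z))) := by
      apply IsUnit.map
      rw [PowerSeries.isUnit_iff_constantCoeff]
      simp only [Polynomial.derivative_sub, Polynomial.derivative_X_pow, Polynomial.derivative_C,
        sub_zero, Polynomial.eval_mul, Polynomial.eval_C, Polynomial.eval_pow, Polynomial.eval_X]
      simp only [map_mul, map_pow, PowerSeries.constantCoeff_C, map_natCast]
      exact isUnit_iff_ne_zero.mpr (by simpa [h2] using hz0)
    obtain ⟨Q, hQ, -⟩ := HenselianRing.is_henselian (I := Ideal.span {PowerSeries.X})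
      (Polynomial.X ^ 2 - Polynomial.C P) (Polynomial.monic_X_pow_sub_C P (by norm_num))
      (PowerSeries.C z) hmem hunit
    have hQ2 : Q ^ 2 = P := by
      have := hQ.eq_zero
      simp only [Polynomial.eval_sub, Polynomial.eval_pow, Polynomial.eval_X,
        Polynomial.eval_C] at this
      linear_combination this
    refine ⟨HahnSeries.single m (1 : k) * HahnSeries.ofPowerSeries ℤ k Q, ?_⟩
    conv_lhs => rw [← LaurentSeries.single_order_mul_powerSeriesPart f]
    rw [hm, ← hP, ← hQ2, map_pow]
    have hs : (HahnSeries.single (m + m) (1 : k) : LaurentSeries k) =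
        HahnSeries.single m 1 * HahnSeries.single m 1 := by
      rw [HahnSeries.single_mul_single, one_mul]
    rw [hs]
    ring

end Groth.Agent.S13100
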