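import Groth.Statements.S13101
import Mathlib.Tactic.Module
import Mathlib.Tactic.LinearCombination
import Mathlib.LinearAlgebra.Determinant
import Mathlib.LinearAlgebra.Matrix.Determinant.Basic
-- import your own Groth.Agent.* helpers here

set_option autoImplicit false
universe u v
open GrpSch

namespace Groth.Agent.S13101

/-- Let A be a commutative ring in which 2 is a unit, and L a Lie algebra over A, free as a module with
basis x = bs 0, y = bs 1, z = bs 2 and brackets [x,y] = y, [x,z] = y + z, [y,z] = 0. Then for every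
Lie algebra automorphism φ of L over A there are b, c, h ∈ A and a unit i of A with φ(x) = x + b y +
c z, φ(y) = i y and φ(z) = h y + i z. Only the form of an automorphism is stated, not that every map
of this form is one. (The published statement identifies the automorphism group scheme with a
semidirect product of two additive groups by the product of the multiplicative and additive group,
for algebras over a field of Laurent series of characteristic not 2, and deduces the vanishing of
its first cohomology; this row records the determination of the automorphisms, over any base ring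
with 2 invertible; the cohomological consequence is not restated.) -/
theorem result (A : Type u) [CommRing A] (h2 : IsUnit (2 : A))
    (L : Type v) [LieRing L] [LieAlgebra A L] (bs : Module.Basis (Fin 3) A L)
    (hxy : ⁅bs 0, bs 1⁆ = bs 1) (hxz : ⁅bs 0, bs 2⁆ = bs 1 + bs 2) (hyz : ⁅bs 1, bs 2⁆ = 0)
    (φ : L ≃ₗ⁅A⁆ L) :
    ∃ b c h i : A, IsUnit i ∧ φ (bs 0) = bs 0 + b • bs 1 + c • bs 2 ∧ φ (bs 1) = i • bs 1 ∧
      φ (bs 2) = h • bs 1 + i • bs 2 := by
  set co : L → Fin 3 → A := fun v k => bs.repr v k with hco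
  have expand : ∀ v : L, v = co v 0 • bs 0 + co v 1 • bs 1 + co v 2 • bs 2 := by
    intro v
    have := bs.sum_repr v
    rw [Fin.sum_univ_three] at this
    exact this.symm
  have h10 : ⁅bs 1, bs 0⁆ = -bs 1 := by rw [← lie_skew, hxy]
  have h20 : ⁅bs 2, bs 0⁆ = -(bs 1 + bs 2) := by rw [← lie_skew, hxz]
  have h21 : ⁅bs 2, bs 1⁆ = 0 := by rw [← lie_skew, hyz, neg_zero]
  have brk : ∀ u v : L, ⁅u, v⁆ = (co u 0 * co v 1 - co u 1 * co v 0 + co u 0 * co v 2 -
      co u 2 * co v 0) • bs 1 + (co u 0 * co v 2 - co u 2 * co v 0) • bs 2 := by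
    intro u v
    conv_lhs => rw [expand u, expand v]
    simp only [lie_add, add_lie, lie_smul, smul_lie, lie_self, hxy, hxz, hyz, h10, h20, h21,
      smul_zero, add_zero, zero_add]
    module
  have coe : ∀ (α β : A), co (α • bs 1 + β • bs 2) 0 = 0 ∧ co (α • bs 1 + β • bs 2) 1 = α ∧
      co (α • bs 1 + β • bs 2) 2 = β := by
    intro α β
    simp [co, Finsupp.single_apply]
  have hmap : ∀ u v : L, φ ⁅u, v⁆ = ⁅φ u, φ v⁆ := fun u v => (φ : L →ₗ⁅A⁆ L).map_lie u v
  have hadd : ∀ u v : L, φ (u + v) = φ u + φ v := fun u v => (φ : L ≃ₗ[A] L).map_add u v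
  have E1 : φ (bs 1) = ⁅φ (bs 0), φ (bs 1)⁆ := by rw [← hmap, hxy]
  have E2 : φ (bs 1) + φ (bs 2) = ⁅φ (bs 0), φ (bs 2)⁆ := by rw [← hmap, hxz, hadd]
  rw [brk] at E1 E2
  have hco_add : ∀ (u v : L) (k : Fin 3), co (u + v) k = co u k + co v k := by
    intro u v k; simp [co]
  obtain ⟨E10, E11, E12⟩ := coe (co (φ (bs 0)) 0 * co (φ (bs 1)) 1 -
      co (φ (bs 0)) 1 * co (φ (bs 1)) 0 + co (φ (bs 0)) 0 * co (φ (bs 1)) 2 -
      co (φ (bs 0)) 2 * co (φ (bs 1)) 0) (co (φ (bs 0)) 0 * co (φ (bs 1)) 2 -
      co (φ (bs 0)) 2 * co (φ (bs 1)) 0)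
  rw [← E1] at E10 E11 E12
  obtain ⟨E20, E21, E22⟩ := coe (co (φ (bs 0)) 0 * co (φ (bs 2)) 1 -
      co (φ (bs 0)) 1 * co (φ (bs 2)) 0 + co (φ (bs 0)) 0 * co (φ (bs 2)) 2 -
      co (φ (bs 0)) 2 * co (φ (bs 2)) 0) (co (φ (bs 0)) 0 * co (φ (bs 2)) 2 -
      co (φ (bs 0)) 2 * co (φ (bs 2)) 0)
  rw [← E2, hco_add] at E20 E21 E22
  have hdet := LinearEquiv.isUnit_det (φ : L ≃ₗ[A] L) bs bs
  have hM : ∀ i j, LinearMap.toMatrix bs bs (φ : L ≃ₗ[A] L).toLinearMap i j = co (φ (bs j)) i :=
    fun i j => by simp only [LinearMap.toMatrix_apply, LinearEquiv.coe_coe]; rfl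
  rw [Matrix.det_fin_three] at hdet
  simp only [hM] at hdet
  have x0 := expand (φ (bs 0))
  have x1 := expand (φ (bs 1))
  have x2 := expand (φ (bs 2))
  generalize co (φ (bs 0)) 0 = a at *
  generalize co (φ (bs 0)) 1 = b at *
  generalize co (φ (bs 0)) 2 = c at *
  generalize co (φ (bs 1)) 0 = p at *
  generalize co (φ (bs 1)) 1 = e at *
  generalize co (φ (bs 1)) 2 = f at *
  generalize co (φ (bs 2)) 0 = q at *
  generalize co (φ (bs 2)) 1 = hh at *
  generalize co (φ (bs 2)) 2 = ii at *
  subst E10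
  have hq : q = 0 := by linear_combination E20
  subst hq
  set t := a - 1 with ht
  have F1 : t * f = 0 := by linear_combination -E12
  have F2 : t * e = -(a * f) := by linear_combination -E11
  have F3 : t * ii = f := by linear_combination -E22
  have F4 : t * hh = e - a * ii := by linear_combination -E21
  have hdet' : IsUnit (a * (e * ii - hh * f)) := by
    convert hdet using 1; ring
  have hua : IsUnit a := isUnit_of_mul_isUnit_left hdet'
  have huu : IsUnit (e * ii - hh * f) := isUnit_of_mul_isUnit_right hdet'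
  have ht2 : t ^ 2 = 0 := by
    have : t ^ 2 * (e * ii - hh * f) = 0 := by
      linear_combination (t * ii) * F2 - (a * ii) * F1 - (t * hh) * F1 + 0 * F3
    exact (huu.mul_left_eq_zero).mp this
  have hf0 : f = 0 := by
    have h3 : 2 * a * f + t ^ 2 * hh = 0 := by linear_combination t * F4 + F2 - a * F3
    rw [ht2, zero_mul, add_zero] at h3
    have h4 : (2 * a) * f = 0 := h3
    exact ((h2.mul hua).mul_right_eq_zero).mp h4
  subst hf0
  have hui : IsUnit ii := by
    have : IsUnit (e * ii) := by simpa using huu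
    exact isUnit_of_mul_isUnit_right this
  have ht0 : t = 0 := by
    have : t * ii = 0 := by rw [F3]
    exact (hui.mul_left_eq_zero).mp this
  have ha : a = 1 := by linear_combination ht0 + ht
  subst ha
  have hei : e = ii := by linear_combination -F4 + hh * ht0
  subst hei
  refine ⟨b, c, hh, e, hui, ?_, ?_, ?_⟩
  · rw [x0, one_smul]
  · rw [x1]; simp
  · rw [x2]; simp

end Groth.Agent.S13101
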