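import Groth.Statements.S13102
import Mathlib.Tactic.Module
import Mathlib.Tactic.LinearCombination
import Mathlib.LinearAlgebra.Determinant
import Mathlib.LinearAlgebra.Matrix.Determinant.Basic
-- import your own Groth.Agent.* helpers here

set_option autoImplicit false
universe u v w
open GrpSch

namespace Groth.Agent.S13102

/-- Let K be a field, α ∈ K, A a commutative K-algebra and L a Lie algebra over A which is free as an
A-module with basis x = bs 0, y = bs 1, z = bs 2 and brackets [x,y] = y, [x,z] = α z, [y,z] = 0. If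
α² ≠ 1 then every Lie algebra automorphism φ of L over A satisfies φ(x) = x + b y + c z, φ(y) = e y,
φ(z) = i z for some b, c ∈ A and units e, i of A. If α = 1 then every such φ satisfies φ(x) = x + b
y + c z, φ(y) = e y + f z, φ(z) = h y + i z with e i − f h a unit of A. (The printed statement
identifies the automorphism group schemes with the corresponding semidirect products, treats also α
= −1 in characteristic not 2, and computes first cohomology over a field of Laurent series; those
clauses are not restated here.) -/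
theorem result (K : Type u) [Field K] (α : K) (A : Type v) [CommRing A] [Algebra K A]
    (L : Type w) [LieRing L] [LieAlgebra A L] (bs : Module.Basis (Fin 3) A L)
    (hxy : ⁅bs 0, bs 1⁆ = bs 1) (hxz : ⁅bs 0, bs 2⁆ = algebraMap K A α • bs 2) (hyz : ⁅bs 1, bs 2⁆ = 0)
    (φ : L ≃ₗ⁅A⁆ L) :
    (α ^ 2 ≠ 1 → ∃ b c e i : A, IsUnit e ∧ IsUnit i ∧ φ (bs 0) = bs 0 + b • bs 1 + c • bs 2 ∧
        φ (bs 1) = e • bs 1 ∧ φ (bs 2) = i • bs 2) ∧
    (α = 1 → ∃ b c e f h i : A, IsUnit (e * i - f * h) ∧ φ (bs 0) = bs 0 + b • bs 1 + c • bs 2 ∧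
        φ (bs 1) = e • bs 1 + f • bs 2 ∧ φ (bs 2) = h • bs 1 + i • bs 2) := by
  set α' : A := algebraMap K A α with hα'
  set co : L → Fin 3 → A := fun v k => bs.repr v k with hco
  have expand : ∀ v : L, v = co v 0 • bs 0 + co v 1 • bs 1 + co v 2 • bs 2 := by
    intro v
    have := bs.sum_repr v
    rw [Fin.sum_univ_three] at this
    exact this.symm
  have h10 : ⁅bs 1, bs 0⁆ = -bs 1 := by rw [← lie_skew, hxy]
  have h20 : ⁅bs 2, bs 0⁆ = -(α' • bs 2) := by rw [← lie_skew, hxz]
  have h21 : ⁅bs 2, bs 1⁆ = 0 := by rw [← lie_skew, hyz, neg_zero]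
  have brk : ∀ u v : L, ⁅u, v⁆ = (co u 0 * co v 1 - co u 1 * co v 0) • bs 1 +
      (α' * (co u 0 * co v 2 - co u 2 * co v 0)) • bs 2 := by
    intro u v
    conv_lhs => rw [expand u, expand v]
    simp only [lie_add, add_lie, lie_smul, smul_lie, lie_self, hxy, hxz, hyz, h10, h20, h21,
      smul_zero, add_zero, zero_add]
    module
  have coe : ∀ (α β : A), co (α • bs 1 + β • bs 2) 0 = 0 ∧ co (α • bs 1 + β • bs 2) 1 = α ∧
      co (α • bs 1 + β • bs 2) 2 = β := by
    intro α β
    simp [co]
  have hmap : ∀ u v : L, φ ⁅u, v⁆ = ⁅φ u, φ v⁆ := fun u v => (φ : L →ₗ⁅A⁆ L).map_lie u v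
  have hsmul : ∀ (r : A) (u : L), φ (r • u) = r • φ u :=
    fun r u => (φ : L ≃ₗ[A] L).map_smul r u
  have E1 : φ (bs 1) = ⁅φ (bs 0), φ (bs 1)⁆ := by rw [← hmap, hxy]
  have E2 : α' • φ (bs 2) = ⁅φ (bs 0), φ (bs 2)⁆ := by rw [← hmap, hxz, hsmul]
  have E3 : (0 : L) = ⁅φ (bs 1), φ (bs 2)⁆ := by
    rw [← hmap, hyz]; exact ((φ : L ≃ₗ[A] L).map_zero).symm
  rw [brk] at E1 E2 E3
  have hco_smul : ∀ (r : A) (u : L) (k : Fin 3), co (r • u) k = r * co u k := by
    intro r u k; simp [co]
  have hco_zero : ∀ k : Fin 3, co 0 k = 0 := by intro k; simp [co]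
  obtain ⟨E10, E11, E12⟩ := coe (co (φ (bs 0)) 0 * co (φ (bs 1)) 1 -
      co (φ (bs 0)) 1 * co (φ (bs 1)) 0) (α' * (co (φ (bs 0)) 0 * co (φ (bs 1)) 2 -
      co (φ (bs 0)) 2 * co (φ (bs 1)) 0))
  rw [← E1] at E10 E11 E12
  obtain ⟨E20, E21, E22⟩ := coe (co (φ (bs 0)) 0 * co (φ (bs 2)) 1 -
      co (φ (bs 0)) 1 * co (φ (bs 2)) 0) (α' * (co (φ (bs 0)) 0 * co (φ (bs 2)) 2 -
      co (φ (bs 0)) 2 * co (φ (bs 2)) 0))
  rw [← E2, hco_smul] at E20 E21 E22
  obtain ⟨E30, E31, E32⟩ := coe (co (φ (bs 1)) 0 * co (φ (bs 2)) 1 -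
      co (φ (bs 1)) 1 * co (φ (bs 2)) 0) (α' * (co (φ (bs 1)) 0 * co (φ (bs 2)) 2 -
      co (φ (bs 1)) 2 * co (φ (bs 2)) 0))
  rw [← E3, hco_zero] at E31 E32
  have hdet := LinearEquiv.isUnit_det (φ : L ≃ₗ[A] L) bs bs
  have hM : ∀ i j, LinearMap.toMatrix bs bs (φ : L ≃ₗ[A] L).toLinearMap i j = co (φ (bs j)) i :=
    fun i j => by simp only [LinearMap.toMatrix_apply, LinearEquiv.coe_coe]; rfl
  rw [Matrix.det_fin_three] at hdet
  simp only [hM] at hdet
  have x0 := expand (φ (bs 0))
  have x1 := expand (φ (bs 1))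
  have x2 := expand (φ (bs 2))
  clear_value co
  generalize co (φ (bs 0)) 0 = a at *
  generalize co (φ (bs 0)) 1 = b at *
  generalize co (φ (bs 0)) 2 = c at *
  generalize co (φ (bs 1)) 0 = p at *
  generalize co (φ (bs 1)) 1 = e at *
  generalize co (φ (bs 1)) 2 = f at *
  generalize co (φ (bs 2)) 0 = q at *
  generalize co (φ (bs 2)) 1 = hh at *
  generalize co (φ (bs 2)) 2 = ii at *
  subst E10
  have F1 : (a - 1) * e = 0 := by linear_combination -E11
  have F2 : f = α' * a * f := by linear_combination E12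
  have F3 : e * q = 0 := by linear_combination E31
  constructor
  · intro hα2
    by_cases hα0 : α = 0
    · have h0 : α' = 0 := by rw [hα', hα0, map_zero]
      rw [h0] at F2 E21
      have hf : f = 0 := by simpa using F2
      subst hf
      have hdet2 : IsUnit (a * e * ii) := by
        convert hdet using 1; linear_combination c * F3
      have hue : IsUnit e := isUnit_of_mul_isUnit_right (isUnit_of_mul_isUnit_left hdet2)
      have hua : IsUnit a := isUnit_of_mul_isUnit_left (isUnit_of_mul_isUnit_left hdet2)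
      have hui : IsUnit ii := isUnit_of_mul_isUnit_right hdet2
      have hq : q = 0 := (hue.mul_right_eq_zero).mp F3
      subst hq
      have ha : a = 1 := by
        have := (hue.mul_left_eq_zero).mp F1
        linear_combination this
      subst ha
      have hh0 : hh = 0 := by linear_combination -E21
      subst hh0
      refine ⟨b, c, e, ii, hue, hui, ?_, ?_, ?_⟩
      · rw [x0, one_smul]
      · rw [x1]; simp
      · rw [x2]; simp
    · have hαu : IsUnit α' := (Ne.isUnit hα0).map (algebraMap K A)
      have hq : q = 0 := (hαu.mul_right_eq_zero).mp E20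
      subst hq
      have hdet2 : IsUnit (a * (e * ii - hh * f)) := by convert hdet using 1; ring
      have hua : IsUnit a := isUnit_of_mul_isUnit_left hdet2
      have huu : IsUnit (e * ii - hh * f) := isUnit_of_mul_isUnit_right hdet2
      have G1 : hh * (a - α') = 0 := by linear_combination -E21
      have G2 : f * (1 - α' * a) = 0 := by linear_combination F2
      have G4 : (α' ^ 2 - 1) * (hh * f) = 0 := by
        linear_combination (-(α' * f)) * G1 - hh * G2
      have hu2 : IsUnit (α' ^ 2 - 1) := by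
        have := (sub_ne_zero.mpr hα2).isUnit.map (algebraMap K A)
        simpa [hα', map_sub, map_pow, map_one] using this
      have hhf : hh * f = 0 := (hu2.mul_right_eq_zero).mp G4
      have ha : a = 1 := by
        have h5 : (a - 1) * (e * ii - hh * f) = 0 := by
          linear_combination ii * F1 - (a - 1) * hhf
        have := (huu.mul_left_eq_zero).mp h5
        linear_combination this
      subst ha
      have hα1 : α ≠ 1 := by
        rintro rfl; exact hα2 (one_pow 2)
      have hu1 : IsUnit (1 - α') := by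
        have := (sub_ne_zero.mpr (Ne.symm hα1)).isUnit.map (algebraMap K A)
        simpa [hα', map_sub, map_one] using this
      have hh0 : hh = 0 := by
        have : hh * (1 - α') = 0 := by simpa using G1
        exact (hu1.mul_left_eq_zero).mp this
      have hf0 : f = 0 := by
        have : f * (1 - α') = 0 := by simpa using G2
        exact (hu1.mul_left_eq_zero).mp this
      subst hh0 hf0
      have hei : IsUnit (e * ii) := by simpa using huu
      refine ⟨b, c, e, ii, isUnit_of_mul_isUnit_left hei, isUnit_of_mul_isUnit_right hei,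
        ?_, ?_, ?_⟩
      · rw [x0, one_smul]
      · rw [x1]; simp
      · rw [x2]; simp
  · intro hα1
    have h1 : α' = 1 := by rw [hα', hα1, map_one]
    rw [h1] at E20 E21 E22 F2
    have hq : q = 0 := by simpa using E20
    subst hq
    have hdet2 : IsUnit (a * (e * ii - hh * f)) := by convert hdet using 1; ring
    have huu : IsUnit (e * ii - hh * f) := isUnit_of_mul_isUnit_right hdet2
    have ha : a = 1 := by
      have h5 : (a - 1) * (e * ii - hh * f) = 0 := by
        linear_combination ii * F1 + hh * F2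
      have := (huu.mul_left_eq_zero).mp h5
      linear_combination this
    subst ha
    refine ⟨b, c, e, f, hh, ii, ?_, ?_, ?_, ?_⟩
    · convert huu using 1; ring
    · rw [x0, one_smul]
    · rw [x1]; simp
    · rw [x2]; simp

end Groth.Agent.S13102
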