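import Groth.Statements.S13103
-- import your own Groth.Agent.* helpers here

set_option autoImplicit false
universe u v
open GrpSch

namespace Groth.Agent.S13103

open TensorProduct in
/-- Let A be a commutative ring and H an algebra over the power series ring A[[t]] (not assumed
commutative) which is flat as an A[[t]]-module, as a finite locally free algebra is. If the base
change A((t)) ⊗ H of H to the ring of Laurent series is commutative, then H itself is commutative.
(The published statement says that prolongations over A[[t]] of a commutative finite Hopf algebra
over the Laurent series are commutative, and adds that taking spectra is then an equivalence of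
categories between prolongations of the Hopf algebra and prolongations of the corresponding group
scheme; this row states the commutativity only, for any flat algebra, the Hopf structure playing no
role; the equivalence of categories is not stated.) -/
theorem result (A : Type u) [CommRing A]
    (H : Type v) [Ring H] [Algebra (PowerSeries A) H] [Module.Flat (PowerSeries A) H]
    (hcomm : ∀ x y : LaurentSeries A ⊗[PowerSeries A] H, x * y = y * x) :
    ∀ x y : H, x * y = y * x := by
  intro x y
  let f : PowerSeries A →ₗ[PowerSeries A] LaurentSeries A :=
    Algebra.linearMap (PowerSeries A) (LaurentSeries A)
  have hf : Function.Injective f := by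
    intro a b hab
    have hab' : HahnSeries.ofPowerSeries ℤ A a = HahnSeries.ofPowerSeries ℤ A b := by
      simpa [f, LaurentSeries.coe_algebraMap] using hab
    exact HahnSeries.ofPowerSeries_injective hab'
  have hinj : Function.Injective (fun h : H => (1 : LaurentSeries A) ⊗ₜ[PowerSeries A] h) := by
    have h1 := Module.Flat.rTensor_preserves_injective_linearMap (M := H) f hf
    intro a b hab
    have : (f.rTensor H) ((TensorProduct.lid (PowerSeries A) H).symm a) =
        (f.rTensor H) ((TensorProduct.lid (PowerSeries A) H).symm b) := by
      simpa [TensorProduct.lid_symm_apply, f] using hab
    exact (TensorProduct.lid (PowerSeries A) H).symm.injective (h1 this)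
  apply hinj
  have := hcomm ((1 : LaurentSeries A) ⊗ₜ[PowerSeries A] x) ((1 : LaurentSeries A) ⊗ₜ[PowerSeries A] y)
  simpa [Algebra.TensorProduct.tmul_mul_tmul] using this

end Groth.Agent.S13103
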