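import Groth.Statements.S13107
import Mathlib.Tactic.Module
import Mathlib.Tactic.LinearCombination
import Mathlib.Tactic.FieldSimp
import Mathlib.LinearAlgebra.Determinant
import Mathlib.LinearAlgebra.Matrix.Determinant.Basic
-- import your own Groth.Agent.* helpers here

set_option autoImplicit false
universe u v w
open GrpSch

namespace Groth.Agent.S13107

theorem brk_gen {R : Type*} [CommRing R] {F : Type*} [LieRing F] [LieAlgebra R F]
    (bF : Module.Basis (Fin 3) R F) (s : R) (h01 : ⁅bF 0, bF 1⁆ = bF 2)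
    (h02 : ⁅bF 0, bF 2⁆ = s • bF 1) (h12 : ⁅bF 1, bF 2⁆ = 0) (u v : F) :
    ⁅u, v⁆ = (s * (bF.repr u 0 * bF.repr v 2 - bF.repr u 2 * bF.repr v 0)) • bF 1 +
      (bF.repr u 0 * bF.repr v 1 - bF.repr u 1 * bF.repr v 0) • bF 2 := by
  have expand' : ∀ v : F, v = bF.repr v 0 • bF 0 + bF.repr v 1 • bF 1 + bF.repr v 2 • bF 2 := by
    intro v
    have := bF.sum_repr v
    rw [Fin.sum_univ_three] at this
    exact this.symm
  have h10' : ⁅bF 1, bF 0⁆ = -bF 2 := by rw [← lie_skew, h01]
  have h20' : ⁅bF 2, bF 0⁆ = -(s • bF 1) := by rw [← lie_skew, h02]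
  have h21' : ⁅bF 2, bF 1⁆ = 0 := by rw [← lie_skew, h12, neg_zero]
  conv_lhs => rw [expand' u, expand' v]
  simp only [lie_add, add_lie, lie_smul, smul_lie, lie_self, h01, h02, h12, h10', h20', h21',
    smul_zero, add_zero, zero_add]
  module

/-- Let k be a field, K = k((t)) the field of Laurent series over k, F a Lie algebra over K with a basis
x' = bF 0, y' = bF 1, z' = bF 2 and brackets [x',y'] = z', [x',z'] = t y', [y',z'] = 0, and L a Lie
algebra over K with a basis x = bL 0, y = bL 1, z = bL 2 and brackets [x,y] = y, [x,z] = −z, [y,z] =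
0. Then there is no K-linear isomorphism of Lie algebras between L and F: F is a non-trivial form of
L over K. (The published result is the classification of three-dimensional Lie algebras over k((t))
for k algebraically closed of characteristic not 2, with F its only non-split entry; this row states
the non-isomorphism of F and L over k((t)) for every field k.) -/
theorem result (k : Type u) [Field k]
    (F : Type v) [LieRing F] [LieAlgebra (LaurentSeries k) F] (bF : Module.Basis (Fin 3) (LaurentSeries k) F)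
    (hF01 : ⁅bF 0, bF 1⁆ = bF 2) (hF02 : ⁅bF 0, bF 2⁆ = (HahnSeries.single 1 (1 : k) : LaurentSeries k) • bF 1)
    (hF12 : ⁅bF 1, bF 2⁆ = 0)
    (L : Type w) [LieRing L] [LieAlgebra (LaurentSeries k) L] (bL : Module.Basis (Fin 3) (LaurentSeries k) L)
    (hL01 : ⁅bL 0, bL 1⁆ = bL 1) (hL02 : ⁅bL 0, bL 2⁆ = -bL 2) (hL12 : ⁅bL 1, bL 2⁆ = 0) :
    IsEmpty (L ≃ₗ⁅LaurentSeries k⁆ F) := by
  constructor
  intro φ
  set t : LaurentSeries k := HahnSeries.single 1 (1 : k) with ht
  set co : F → Fin 3 → LaurentSeries k := fun v j => bF.repr v j with hco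
  have brk' : ∀ u v : F, ⁅u, v⁆ = (t * (co u 0 * co v 2 - co u 2 * co v 0)) • bF 1 +
      (co u 0 * co v 1 - co u 1 * co v 0) • bF 2 := fun u v => brk_gen bF t hF01 hF02 hF12 u v
  have coe : ∀ (α β : LaurentSeries k), co (α • bF 1 + β • bF 2) 0 = 0 ∧
      co (α • bF 1 + β • bF 2) 1 = α ∧ co (α • bF 1 + β • bF 2) 2 = β := by
    intro α β
    simp [co]
  have hmap : ∀ u v : L, φ ⁅u, v⁆ = ⁅φ u, φ v⁆ := fun u v => (φ : L →ₗ⁅LaurentSeries k⁆ F).map_lie u v
  have hneg : ∀ u : L, φ (-u) = -φ u := fun u => (φ : L ≃ₗ[LaurentSeries k] F).map_neg u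
  have E1 : φ (bL 1) = ⁅φ (bL 0), φ (bL 1)⁆ := by rw [← hmap, hL01]
  have E2 : -φ (bL 2) = ⁅φ (bL 0), φ (bL 2)⁆ := by rw [← hmap, hL02, hneg]
  rw [brk'] at E1 E2
  have hco_neg : ∀ (u : F) (j : Fin 3), co (-u) j = -co u j := by
    intro u j; simp [co]
  obtain ⟨E10, E11, E12⟩ := coe (t * (co (φ (bL 0)) 0 * co (φ (bL 1)) 2 -
      co (φ (bL 0)) 2 * co (φ (bL 1)) 0)) (co (φ (bL 0)) 0 * co (φ (bL 1)) 1 -
      co (φ (bL 0)) 1 * co (φ (bL 1)) 0)
  rw [← E1] at E10 E11 E12
  obtain ⟨E20, E21, E22⟩ := coe (t * (co (φ (bL 0)) 0 * co (φ (bL 2)) 2 -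
      co (φ (bL 0)) 2 * co (φ (bL 2)) 0)) (co (φ (bL 0)) 0 * co (φ (bL 2)) 1 -
      co (φ (bL 0)) 1 * co (φ (bL 2)) 0)
  rw [← E2, hco_neg] at E20 E21 E22
  have hdet := LinearEquiv.isUnit_det (φ : L ≃ₗ[LaurentSeries k] F) bL bF
  have hM : ∀ i j, LinearMap.toMatrix bL bF (φ : L ≃ₗ[LaurentSeries k] F).toLinearMap i j =
      co (φ (bL j)) i :=
    fun i j => by simp only [LinearMap.toMatrix_apply, LinearEquiv.coe_coe]; rfl
  rw [Matrix.det_fin_three] at hdet
  simp only [hM] at hdet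
  clear_value co
  generalize co (φ (bL 0)) 0 = a at *
  generalize co (φ (bL 0)) 1 = bb at *
  generalize co (φ (bL 0)) 2 = c at *
  generalize co (φ (bL 1)) 0 = p at *
  generalize co (φ (bL 1)) 1 = e at *
  generalize co (φ (bL 1)) 2 = f at *
  generalize co (φ (bL 2)) 0 = q at *
  generalize co (φ (bL 2)) 1 = hh at *
  generalize co (φ (bL 2)) 2 = ii at *
  subst E10
  have hq : q = 0 := by simpa using E20
  subst hq
  have hdet2 : a * (e * ii - hh * f) ≠ 0 := by
    have := hdet.ne_zero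
    intro h0; apply this; linear_combination h0
  have ha : a ≠ 0 := left_ne_zero_of_mul hdet2
  have hu : e * ii - hh * f ≠ 0 := right_ne_zero_of_mul hdet2
  -- t a² = 1
  have key : t * a ^ 2 = 1 := by
    by_contra hne
    have hne' : 1 - t * a ^ 2 ≠ 0 := sub_ne_zero.mpr (Ne.symm hne)
    have he0 : e = 0 := by
      have : e * (1 - t * a ^ 2) = 0 := by linear_combination E11 + t * a * E12
      exact (mul_eq_zero.mp this).resolve_right hne'
    have hf0 : f = 0 := by rw [E12, he0]; ring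
    apply hu; rw [he0, hf0]; ring
  -- t is a square: contradiction with the order
  have hsq : t = a⁻¹ * a⁻¹ := by
    field_simp
    linear_combination key
  have hainv : a⁻¹ ≠ 0 := inv_ne_zero ha
  have hord := HahnSeries.order_mul hainv hainv
  rw [← hsq, ht, HahnSeries.order_single one_ne_zero] at hord
  omega

end Groth.Agent.S13107
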