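import Groth.Statements.S13108
import Mathlib.Tactic.Module
import Mathlib.Tactic.LinearCombination
import Mathlib.Tactic.FieldSimp
import Mathlib.LinearAlgebra.Determinant
import Mathlib.LinearAlgebra.Matrix.Determinant.Basic
-- import your own Groth.Agent.* helpers here

set_option autoImplicit false
universe u v w
open GrpSch

namespace Groth.Agent.S13108

/-- Let k be a field and t, t' ∈ k both non-zero; let L be a Lie algebra over k with a basis x = b 0, y
= b 1, z = b 2 and brackets [x,y] = y, [x,z] = t z, [y,z] = 0, and L' a Lie algebra over k with a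
basis x' = b' 0, y' = b' 1, z' = b' 2 and brackets [x',y'] = y', [x',z'] = t' z', [y',z'] = 0. Then
L and L' are isomorphic Lie algebras over k if and only if t' = t or t' = t⁻¹. -/
theorem result (k : Type u) [Field k] (t t' : k) (ht : t ≠ 0) (ht' : t' ≠ 0)
    (L : Type v) [LieRing L] [LieAlgebra k L] (b : Module.Basis (Fin 3) k L)
    (h01 : ⁅b 0, b 1⁆ = b 1) (h02 : ⁅b 0, b 2⁆ = t • b 2) (h12 : ⁅b 1, b 2⁆ = 0)
    (L' : Type w) [LieRing L'] [LieAlgebra k L'] (b' : Module.Basis (Fin 3) k L')
    (h01' : ⁅b' 0, b' 1⁆ = b' 1) (h02' : ⁅b' 0, b' 2⁆ = t' • b' 2) (h12' : ⁅b' 1, b' 2⁆ = 0) :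
    Nonempty (L ≃ₗ⁅k⁆ L') ↔ (t' = t ∨ t' = t⁻¹) := by
  have expand : ∀ v : L, v = b.repr v 0 • b 0 + b.repr v 1 • b 1 + b.repr v 2 • b 2 := by
    intro v
    have := b.sum_repr v
    rw [Fin.sum_univ_three] at this
    exact this.symm
  set co : L' → Fin 3 → k := fun v j => b'.repr v j with hco
  have expand' : ∀ v : L', v = co v 0 • b' 0 + co v 1 • b' 1 + co v 2 • b' 2 := by
    intro v
    have := b'.sum_repr v
    rw [Fin.sum_univ_three] at this
    exact this.symm
  have h10 : ⁅b 1, b 0⁆ = -b 1 := by rw [← lie_skew, h01]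
  have h20 : ⁅b 2, b 0⁆ = -(t • b 2) := by rw [← lie_skew, h02]
  have h21 : ⁅b 2, b 1⁆ = 0 := by rw [← lie_skew, h12, neg_zero]
  have h10' : ⁅b' 1, b' 0⁆ = -b' 1 := by rw [← lie_skew, h01']
  have h20' : ⁅b' 2, b' 0⁆ = -(t' • b' 2) := by rw [← lie_skew, h02']
  have h21' : ⁅b' 2, b' 1⁆ = 0 := by rw [← lie_skew, h12', neg_zero]
  have brk : ∀ u v : L, ⁅u, v⁆ = (b.repr u 0 * b.repr v 1 - b.repr u 1 * b.repr v 0) • b 1 +
      (t * (b.repr u 0 * b.repr v 2 - b.repr u 2 * b.repr v 0)) • b 2 := by
    intro u v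
    conv_lhs => rw [expand u, expand v]
    simp only [lie_add, add_lie, lie_smul, smul_lie, lie_self, h01, h02, h12, h10, h20, h21,
      smul_zero, add_zero, zero_add]
    module
  have brk' : ∀ u v : L', ⁅u, v⁆ = (co u 0 * co v 1 - co u 1 * co v 0) • b' 1 +
      (t' * (co u 0 * co v 2 - co u 2 * co v 0)) • b' 2 := by
    intro u v
    conv_lhs => rw [expand' u, expand' v]
    simp only [lie_add, add_lie, lie_smul, smul_lie, lie_self, h01', h02', h12', h10', h20', h21',
      smul_zero, add_zero, zero_add]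
    module
  constructor
  · rintro ⟨φ⟩
    have coe : ∀ (α β : k), co (α • b' 1 + β • b' 2) 0 = 0 ∧ co (α • b' 1 + β • b' 2) 1 = α ∧
        co (α • b' 1 + β • b' 2) 2 = β := by
      intro α β
      simp [co]
    have hmap : ∀ u v : L, φ ⁅u, v⁆ = ⁅φ u, φ v⁆ := fun u v => (φ : L →ₗ⁅k⁆ L').map_lie u v
    have hsmul : ∀ (r : k) (u : L), φ (r • u) = r • φ u :=
      fun r u => (φ : L ≃ₗ[k] L').map_smul r u
    have E1 : φ (b 1) = ⁅φ (b 0), φ (b 1)⁆ := by rw [← hmap, h01]
    have E2 : t • φ (b 2) = ⁅φ (b 0), φ (b 2)⁆ := by rw [← hmap, h02, hsmul]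
    rw [brk'] at E1 E2
    have hco_smul : ∀ (r : k) (u : L') (j : Fin 3), co (r • u) j = r * co u j := by
      intro r u j; simp [co]
    obtain ⟨E10, E11, E12⟩ := coe (co (φ (b 0)) 0 * co (φ (b 1)) 1 -
        co (φ (b 0)) 1 * co (φ (b 1)) 0) (t' * (co (φ (b 0)) 0 * co (φ (b 1)) 2 -
        co (φ (b 0)) 2 * co (φ (b 1)) 0))
    rw [← E1] at E10 E11 E12
    obtain ⟨E20, E21, E22⟩ := coe (co (φ (b 0)) 0 * co (φ (b 2)) 1 -
        co (φ (b 0)) 1 * co (φ (b 2)) 0) (t' * (co (φ (b 0)) 0 * co (φ (b 2)) 2 -
        co (φ (b 0)) 2 * co (φ (b 2)) 0))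
    rw [← E2, hco_smul] at E20 E21 E22
    have hdet := LinearEquiv.isUnit_det (φ : L ≃ₗ[k] L') b b'
    have hM : ∀ i j, LinearMap.toMatrix b b' (φ : L ≃ₗ[k] L').toLinearMap i j = co (φ (b j)) i :=
      fun i j => by simp only [LinearMap.toMatrix_apply, LinearEquiv.coe_coe]; rfl
    rw [Matrix.det_fin_three] at hdet
    simp only [hM] at hdet
    clear_value co
    generalize co (φ (b 0)) 0 = a at *
    generalize co (φ (b 0)) 1 = bb at *
    generalize co (φ (b 0)) 2 = c at *
    generalize co (φ (b 1)) 0 = p at *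
    generalize co (φ (b 1)) 1 = e at *
    generalize co (φ (b 1)) 2 = f at *
    generalize co (φ (b 2)) 0 = q at *
    generalize co (φ (b 2)) 1 = hh at *
    generalize co (φ (b 2)) 2 = ii at *
    subst E10
    have hq : q = 0 := by
      have : t * q = 0 := E20
      exact (mul_eq_zero.mp this).resolve_left ht
    subst hq
    have hdet2 : a * (e * ii - hh * f) ≠ 0 := by
      have := hdet.ne_zero
      intro h0; apply this; linear_combination h0
    have F1 : e * (1 - a) = 0 := by linear_combination E11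
    have F2 : f * (1 - t' * a) = 0 := by linear_combination E12
    have F3 : hh * (t - a) = 0 := by linear_combination E21
    have F4 : ii * (t - t' * a) = 0 := by linear_combination E22
    have hu : e * ii - hh * f ≠ 0 := right_ne_zero_of_mul hdet2
    by_cases hA : e ≠ 0 ∧ ii ≠ 0
    · have ha : 1 - a = 0 := (mul_eq_zero.mp F1).resolve_left hA.1
      have h4 : t - t' * a = 0 := (mul_eq_zero.mp F4).resolve_left hA.2
      left
      rw [show a = 1 by linear_combination -ha] at h4
      linear_combination -h4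
    · have hei : e * ii = 0 := by
        by_contra hne
        exact hA ⟨left_ne_zero_of_mul hne, right_ne_zero_of_mul hne⟩
      have hhf : hh * f ≠ 0 := by
        intro h0; apply hu; rw [hei, h0, sub_zero]
      have h1 : 1 - t' * a = 0 := (mul_eq_zero.mp F2).resolve_left (right_ne_zero_of_mul hhf)
      have h2 : t - a = 0 := (mul_eq_zero.mp F3).resolve_left (left_ne_zero_of_mul hhf)
      right
      have hta : a = t := by linear_combination -h2
      rw [hta] at h1
      field_simp
      linear_combination -h1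
  · rintro (h | h)
    · subst h
      let e : L ≃ₗ[k] L' := b.equiv b' (Equiv.refl _)
      have he : ∀ i, e (b i) = b' i := fun i => by simp [e, Module.Basis.equiv_apply]
      have key : ∀ u v : L, e ⁅u, v⁆ = ⁅e u, e v⁆ := by
        intro u v
        rw [brk u v]
        conv_rhs => rw [expand u, expand v]
        simp only [map_add, map_smul, he, lie_add, add_lie, lie_smul, smul_lie, lie_self, h01',
          h02', h12', h10', h20', h21', smul_zero, add_zero, zero_add]
        module
      exact ⟨{ e.toLinearMap with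
        map_lie' := fun {u v} => key u v
        invFun := e.symm
        left_inv := e.left_inv
        right_inv := e.right_inv }⟩
    · let w : Fin 3 → kˣ := ![Units.mk0 t ht, 1, 1]
      let b'' : Module.Basis (Fin 3) k L' := (b'.reindex (Equiv.swap 1 2)).unitsSMul w
      have hb0 : b'' 0 = t • b' 0 := by
        simp [b'', w, Module.Basis.unitsSMul_apply, Module.Basis.reindex_apply, Equiv.swap_apply_of_ne_of_ne]
      have hb1 : b'' 1 = b' 2 := by
        simp [b'', w, Module.Basis.unitsSMul_apply, Module.Basis.reindex_apply]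
      have hb2 : b'' 2 = b' 1 := by
        simp [b'', w, Module.Basis.unitsSMul_apply, Module.Basis.reindex_apply]
      let e : L ≃ₗ[k] L' := b.equiv b'' (Equiv.refl _)
      have he0 : e (b 0) = t • b' 0 := by rw [← hb0]; simp [e, Module.Basis.equiv_apply]
      have he1 : e (b 1) = b' 2 := by rw [← hb1]; simp [e, Module.Basis.equiv_apply]
      have he2 : e (b 2) = b' 1 := by rw [← hb2]; simp [e, Module.Basis.equiv_apply]
      have htt : t' * t = 1 := by rw [h]; exact inv_mul_cancel₀ ht
      have key : ∀ u v : L, e ⁅u, v⁆ = ⁅e u, e v⁆ := by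
        intro u v
        rw [brk u v]
        conv_rhs => rw [expand u, expand v]
        simp only [map_add, map_smul, he0, he1, he2, lie_add, add_lie, lie_smul, smul_lie,
          lie_self, h01', h02', h12', h10', h20', h21', smul_zero, add_zero, zero_add]
        linear_combination (norm := module)
          (-(b.repr u 0 * b.repr v 1 - b.repr u 1 * b.repr v 0)) • htt • b' 2
      exact ⟨{ e.toLinearMap with
        map_lie' := fun {u v} => key u v
        invFun := e.symm
        left_inv := e.left_inv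
        right_inv := e.right_inv }⟩

end Groth.Agent.S13108
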