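import Groth.Statements.S13114
import Mathlib.LinearAlgebra.Eigenspace.Zero
import Mathlib.RingTheory.Artinian.Ring
import Mathlib.Tactic.Ring
-- import your own Groth.Agent.* helpers here

set_option autoImplicit false
universe u
open HilbChow

namespace Groth.Agent.S13114

/-- Let k be an algebraically closed field, A a commutative local k-algebra of finite dimension n over k
and u a unit of A. Then the determinant of multiplication by u on the k-vector space A, mapped to
the residue field of A, equals the n-th power of the residue class of u. -/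
theorem result
    (k A : Type u) [Field k] [IsAlgClosed k] [CommRing A] [Algebra k A] [IsLocalRing A]
    [Module.Finite k A] (u : Aˣ) :
    algebraMap k (IsLocalRing.ResidueField A) (Algebra.norm k (u : A)) =
      IsLocalRing.residue A (u : A) ^ Module.finrank k A := by
  classical
  set n := Module.finrank k A
  have : Module.Finite k (IsLocalRing.ResidueField A) :=
    Module.Finite.of_surjective (IsScalarTower.toAlgHom k A (IsLocalRing.ResidueField A)).toLinearMap
      IsLocalRing.residue_surjective
  have : Algebra.IsIntegral k (IsLocalRing.ResidueField A) := Algebra.IsIntegral.of_finite _ _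
  obtain ⟨c, hc⟩ := (IsAlgClosed.algebraMap_bijective_of_isIntegral (k := k)
    (K := IsLocalRing.ResidueField A)).2 (IsLocalRing.residue A (u : A))
  have : IsArtinianRing A := IsArtinianRing.of_finite k A
  set ν : A := (u : A) - algebraMap k A c with hν
  have hνm : ν ∈ IsLocalRing.maximalIdeal A := by
    rw [← IsLocalRing.residue_eq_zero_iff, hν, map_sub, ← hc]
    rw [IsScalarTower.algebraMap_apply k A (IsLocalRing.ResidueField A)]
    simp
  obtain ⟨N, hN⟩ := IsArtinianRing.isNilpotent_jacobson_bot (R := A)
  rw [IsLocalRing.jacobson_eq_maximalIdeal ⊥ bot_ne_top] at hN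
  have hνN : ν ^ N = 0 := by
    have := Ideal.pow_mem_pow hνm N
    rw [hN, Ideal.zero_eq_bot, Ideal.mem_bot] at this
    exact this
  have hnil : IsNilpotent (Algebra.lmul k A ν) := ⟨N, by rw [← map_pow, hνN, map_zero]⟩
  have hcp := IsNilpotent.charpoly_eq_X_pow_finrank hnil
  have hev := LinearMap.eval_charpoly (Algebra.lmul k A ν) (-c)
  rw [hcp, Polynomial.eval_pow, Polynomial.eval_X] at hev
  have hu : (u : A) = algebraMap k A c + ν := by rw [hν]; ring
  have hlin : algebraMap k (Module.End k A) (-c) - Algebra.lmul k A ν =
      (-1 : k) • Algebra.lmul k A (u : A) := by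
    apply LinearMap.ext; intro z
    rw [hu]
    simp only [LinearMap.sub_apply, LinearMap.smul_apply, map_add, LinearMap.add_apply,
      Algebra.coe_lmul_eq_mul, LinearMap.mul_apply', Module.algebraMap_end_apply, map_neg,
      LinearMap.neg_apply]
    rw [neg_smul, one_smul]
    rw [Algebra.smul_def]
    ring
  rw [hlin, LinearMap.det_smul] at hev
  have hdet : LinearMap.det (Algebra.lmul k A (u : A)) = c ^ n := by
    have h2 : ((-1 : k) ^ n) * ((-1 : k) ^ n) = 1 := by
      rw [← mul_pow, neg_one_mul, neg_neg, one_pow]
    have : (-c) ^ n = (-1) ^ n * c ^ n := by rw [neg_eq_neg_one_mul, mul_pow]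
    rw [this] at hev
    calc LinearMap.det (Algebra.lmul k A (u : A))
        = ((-1 : k) ^ n * (-1) ^ n) * LinearMap.det (Algebra.lmul k A (u : A)) := by rw [h2, one_mul]
      _ = (-1) ^ n * ((-1) ^ n * c ^ n) := by rw [mul_assoc, ← hev]
      _ = c ^ n := by rw [← mul_assoc, h2, one_mul]
  rw [Algebra.norm_apply, hdet, map_pow, hc]

end Groth.Agent.S13114
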