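import Groth.Statements.S13361
import Groth.Agent.Lib.Helper20.Cocyclic

set_option autoImplicit false
universe u
open ProCompl

namespace Groth.Agent.S13361

/-- A finite abelian group with a nonzero element contained in every nonzero subgroup is isomorphic to a
cyclic group of prime-power order Z/p^n. -/
theorem result {A : Type u} [AddCommGroup A] [Finite A]
    (a : A) (ha : a ≠ 0) (h : ∀ B : AddSubgroup A, B ≠ ⊥ → a ∈ B) :
    ∃ p n : ℕ, p.Prime ∧ Nonempty (A ≃+ ZMod (p ^ n)) := by
  obtain ⟨x, hx, p, n, hp, hxn⟩ :=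
    Groth.Agent.Lib.Helper20.cocyclic_core AddMonoid.exponent_ne_zero_of_finite a ha h
  have hcard : Nat.card A = p ^ n := by
    rw [← addOrderOf_eq_card_of_forall_mem_zmultiples hx, hxn]
  exact ⟨p, n, hp, ⟨(zmodAddEquivOfGenerator hx hcard).symm⟩⟩

end Groth.Agent.S13361
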