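import Groth.Statements.S13362
import Groth.Agent.Lib.Helper20.Cocyclic

set_option autoImplicit false
universe u
open ProCompl

namespace Groth.Agent.S13362

/-- An abelian group of finite exponent having a nonzero element contained in every nonzero subgroup is
finite. -/
theorem result {A : Type u} [AddCommGroup A]
    (hA : AddMonoid.exponent A ≠ 0) (a : A) (ha : a ≠ 0) (h : ∀ B : AddSubgroup A, B ≠ ⊥ → a ∈ B) :
    Finite A := by
  classical
  obtain ⟨x, hx, -⟩ := Groth.Agent.Lib.Helper20.cocyclic_core hA a ha h
  have hfx : IsOfFinAddOrder x := (AddMonoid.exponent_ne_zero.mp hA).isOfFinAddOrder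
  have hsub : (Set.univ : Set A) ⊆ ↑((Finset.range (addOrderOf x)).image (fun i => i • x)) := by
    intro y _
    rw [Finset.mem_coe, ← hfx.mem_zmultiples_iff_mem_range_addOrderOf]
    exact hx y
  exact Set.finite_univ_iff.mp ((Finset.finite_toSet _).subset hsub)

end Groth.Agent.S13362
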