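import Groth.Statements.S13363
import Mathlib.Algebra.Module.CharacterModule
import Mathlib.Topology.Instances.AddCircle.Defs
import Mathlib.GroupTheory.Index
import Mathlib.Topology.Algebra.OpenSubgroup

set_option autoImplicit false
universe u
open ProCompl

namespace Groth.Agent.S13363

/-- Let A be a topological abelian group such that the subgroup n·A is open for each n > 0, and a ∈ A.
Then A has an open subgroup of finite index not containing a if and only if a does not lie in the
subgroup of divisible elements ∩_n nA. -/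
theorem result {A : Type u} [AddCommGroup A]
    [TopologicalSpace A] [IsTopologicalAddGroup A]
    (hn : ∀ n : ℕ, 0 < n → IsOpen (Set.range (fun x : A => n • x))) (a : A) :
    (∃ B : AddSubgroup A, IsOpen (B : Set A) ∧ B.FiniteIndex ∧ a ∉ B) ↔
      ¬ (∀ n : ℕ, 0 < n → ∃ b : A, n • b = a) := by
  classical
  constructor
  · rintro ⟨B, -, hBf, haB⟩ hdiv
    obtain ⟨b, hb⟩ := hdiv B.index (Nat.pos_of_ne_zero hBf.index_ne_zero)
    apply haB
    rw [← hb]
    exact B.nsmul_index_mem b
  · intro hnd
    push Not at hnd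
    obtain ⟨n, hn0, hna⟩ := hnd
    let B₀ : AddSubgroup A := (nsmulAddMonoidHom n : A →+ A).range
    have haB₀ : (QuotientAddGroup.mk' B₀ a) ≠ 0 := by
      rw [Ne, QuotientAddGroup.mk'_apply, QuotientAddGroup.eq_zero_iff]
      rintro ⟨b, hb⟩
      exact hna b hb
    obtain ⟨c, hc⟩ := CharacterModule.exists_character_apply_ne_zero_of_ne_zero haB₀
    let φ : A →+ AddCircle (1 : ℚ) := (c : (A ⧸ B₀) →+ AddCircle (1 : ℚ)).comp (QuotientAddGroup.mk' B₀)
    have hle : B₀ ≤ φ.ker := by
      rintro _ ⟨y, rfl⟩
      rw [AddMonoidHom.mem_ker]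
      show c (QuotientAddGroup.mk' B₀ ((nsmulAddMonoidHom n : A →+ A) y)) = 0
      have h0 : QuotientAddGroup.mk' B₀ ((nsmulAddMonoidHom n : A →+ A) y) = 0 :=
        (QuotientAddGroup.eq_zero_iff _).mpr ⟨y, rfl⟩
      rw [h0, map_zero]
    refine ⟨φ.ker, ?_, ?_, ?_⟩
    · exact AddSubgroup.isOpen_mono hle (hn n hn0)
    · rw [AddSubgroup.finiteIndex_iff, AddSubgroup.index_ker]
      have hfin : (Set.range φ).Finite := by
        refine (AddCircle.finite_torsion (1 : ℚ) hn0).subset ?_
        rintro _ ⟨y, rfl⟩
        show n • φ y = 0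
        rw [← map_nsmul]
        exact hle (AddMonoidHom.mem_range.mpr ⟨y, rfl⟩)
      have : Finite φ.range := by
        rw [← AddMonoidHom.coe_range] at hfin
        exact hfin.to_subtype
      exact Nat.card_pos.ne'
    · intro h
      exact hc h

end Groth.Agent.S13363
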