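import Groth.Statements.S13365
import Mathlib.Topology.Algebra.ClopenNhdofOne
import Mathlib.Topology.Algebra.Group.Quotient

set_option autoImplicit false
universe u
open ProCompl

namespace Groth.Agent.S13365

/-- The quotient of a profinite (compact, Hausdorff, totally disconnected) abelian topological group by
a compact subgroup is profinite. -/
theorem result {A : Type u} [AddCommGroup A] [TopologicalSpace A]
    [IsTopologicalAddGroup A] [CompactSpace A] [T2Space A] [TotallyDisconnectedSpace A]
    (B : AddSubgroup A) (hB : IsCompact (B : Set A)) :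
    CompactSpace (A ⧸ B) ∧ T2Space (A ⧸ B) ∧ TotallyDisconnectedSpace (A ⧸ B) := by
  have hBc : IsClosed (B : Set A) := hB.isClosed
  refine ⟨inferInstance, ?_, ?_⟩
  · have : IsClosed (B : Set A) := hBc
    infer_instance
  · have : TotallySeparatedSpace (A ⧸ B) := by
      rw [totallySeparatedSpace_iff_exists_isClopen]
      intro x y hxy
      induction x using QuotientAddGroup.induction_on with | H x => ?_
      induction y using QuotientAddGroup.induction_on with | H y => ?_
      have hz : y - x ∉ B := by
        intro h
        apply hxy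
        rw [QuotientAddGroup.eq]
        simpa [sub_eq_neg_add] using h
      let H : ClosedAddSubgroup A := ⟨B, hBc⟩
      have hH := ProfiniteGrp.closedAddSubgroup_eq_sInf_open H
      have hz' : y - x ∉ sInf {N : AddSubgroup A | IsOpen (N : Set A) ∧ H.toAddSubgroup ≤ N} := by
        rw [← hH]; exact hz
      rw [AddSubgroup.mem_sInf] at hz'
      push Not at hz'
      obtain ⟨N, ⟨hNo, hBN⟩, hzN⟩ := hz'
      let W : AddSubgroup (A ⧸ B) := N.map (QuotientAddGroup.mk' B)
      have hWo : IsOpen (W : Set (A ⧸ B)) := by
        rw [AddSubgroup.coe_map]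
        exact QuotientAddGroup.isOpenMap_coe _ hNo
      have hWc : IsClopen (W : Set (A ⧸ B)) := ⟨AddSubgroup.isClosed_of_isOpen W hWo, hWo⟩
      refine ⟨(fun q : A ⧸ B => q - (x : A ⧸ B)) ⁻¹' (W : Set (A ⧸ B)),
        hWc.preimage (continuous_sub_right _), ?_, ?_⟩
      · simp only [Set.mem_preimage, sub_self, SetLike.mem_coe]
        exact W.zero_mem
      · simp only [Set.mem_compl_iff, Set.mem_preimage, SetLike.mem_coe]
        rintro ⟨n, hn, hn'⟩
        apply hzN
        have h1 : ((y - x : A) : A ⧸ B) = (n : A ⧸ B) := by
          rw [QuotientAddGroup.mk_sub]; exact hn'.symm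
        rw [QuotientAddGroup.eq] at h1
        have h2 : -(y - x) + n ∈ N := hBN h1
        have h3 : -(-(y - x) + n) + n ∈ N := N.add_mem (N.neg_mem h2) hn
        simpa using h3
    infer_instance

end Groth.Agent.S13365
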