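import Groth.Statements.S13603
import Mathlib.Algebra.BigOperators.Group.Finset.Piecewise

set_option autoImplicit false
universe u v
open CAlg

namespace Groth.Agent.S13603

/-- Let a group G act on a commutative ring B by ring automorphisms so that every element of B has a
finite orbit, and let S ⊆ B be a multiplicative set of G-fixed elements (so each g ∈ G induces an
endomorphism of the localization S⁻¹B; the hypothesis that g maps S into S is implied by the
previous one and is only carried to name that endomorphism). Then an element of S⁻¹B is fixed by all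
of G if and only if it is a fraction b/s with b fixed by G and s ∈ S: the canonical map S⁻¹(B^G) →
(S⁻¹B)^G is onto. -/
theorem result {B : Type u} [CommRing B]
    {G : Type v} [Group G] [MulSemiringAction G B] (hfin : ∀ b : B, (MulAction.orbit G b).Finite)
    (S : Submonoid B) (hS : ∀ (g : G) (s : B), s ∈ S → g • s = s)
    (hS' : ∀ g : G, S ≤ S.comap (MulSemiringAction.toRingHom G B g)) (x : Localization S) :
    (∀ g : G, IsLocalization.map (Localization S) (MulSemiringAction.toRingHom G B g) (hS' g) x = x) ↔
      ∃ (b : B) (s : S), (∀ g : G, g • b = b) ∧ x = IsLocalization.mk' (Localization S) b s := by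
  classical
  constructor
  · intro hx
    obtain ⟨b, s, rfl⟩ := IsLocalization.exists_mk'_eq S x
    have key : ∀ c ∈ MulAction.orbit G b, ∃ t : S, (t : B) * c = t * b := by
      rintro c ⟨g, rfl⟩
      have h := hx g
      rw [IsLocalization.map_mk'] at h
      have hs : (⟨MulSemiringAction.toRingHom G B g (s : B), hS' g s.2⟩ : S) = s :=
        Subtype.ext (hS g s s.2)
      rw [hs, IsLocalization.mk'_eq_iff_eq, IsLocalization.eq_iff_exists S (Localization S)] at h
      obtain ⟨c, hc⟩ := h
      refine ⟨c * s, ?_⟩
      simp only [MulSemiringAction.toRingHom_apply] at hc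
      simp only [Submonoid.coe_mul]
      calc (c : B) * s * (g • b) = c * (s * (g • b)) := by ring
        _ = c * (s * b) := hc
        _ = c * s * b := by ring
    choose! T hT using key
    let F := (hfin b).toFinset
    let t : B := ∏ c ∈ F, (T c : B)
    have ht : t ∈ S := S.prod_mem (fun c _ => (T c).2)
    have htb : ∀ g : G, t * (g • b) = t * b := by
      intro g
      have hmem : g • b ∈ MulAction.orbit G b := ⟨g, rfl⟩
      have hF : g • b ∈ F := (Set.Finite.mem_toFinset _).mpr hmem
      obtain ⟨k, hk⟩ := Finset.dvd_prod_of_mem (fun c => (T c : B)) hF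
      have hk' : t = (T (g • b) : B) * k := hk
      rw [hk']
      calc (T (g • b) : B) * k * (g • b) = k * ((T (g • b) : B) * (g • b)) := by ring
        _ = k * ((T (g • b) : B) * b) := by rw [hT _ hmem]
        _ = (T (g • b) : B) * k * b := by ring
    refine ⟨t * b, ⟨t, ht⟩ * s, ?_, ?_⟩
    · intro g
      rw [smul_mul', hS g t ht, htb g]
    · rw [mul_comm (⟨t, ht⟩ : S) s]
      have := IsLocalization.mk'_cancel (S := Localization S) b s ⟨t, ht⟩
      rw [← this, mul_comm b t]
  · rintro ⟨b, s, hb, rfl⟩ g
    rw [IsLocalization.map_mk']
    have hs : (⟨MulSemiringAction.toRingHom G B g (s : B), hS' g s.2⟩ : S) = s :=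
      Subtype.ext (hS g s s.2)
    rw [hs]
    simp only [MulSemiringAction.toRingHom_apply, hb g]

end Groth.Agent.S13603
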