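import Groth.Statements.S13631
import Mathlib.LinearAlgebra.Matrix.ToLinearEquiv
import Mathlib.LinearAlgebra.FreeModule.Finite.Basic
import Mathlib.RingTheory.Noetherian.Basic

set_option autoImplicit false
universe u v w
open CAlg

namespace Groth.Agent.S13631

/-- Let k be a field, R an integral domain which is a k-algebra of infinite dimension over k, M a finite
free R-module, σ a ring automorphism of R mapping the image of k onto itself, and φ : M → M a
σ-semilinear map. If the cokernel of φ is finite-dimensional over k, in the sense that some finitely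
generated k-subspace N of M satisfies M = N + φ(M), then φ is injective. -/
theorem result
    {k : Type u} {R : Type v} {M : Type w} [Field k] [CommRing R] [IsDomain R] [Algebra k R]
    (hR : ¬ Module.Finite k R)
    [AddCommGroup M] [Module R M] [Module k M] [IsScalarTower k R M]
    [Module.Finite R M] [Module.Free R M]
    (σ : R ≃+* R)
    (hσ : ∀ x : k, ∃ y : k, σ (algebraMap k R x) = algebraMap k R y)
    (hσ' : ∀ y : k, ∃ x : k, σ (algebraMap k R x) = algebraMap k R y)
    (φ : M →ₛₗ[(σ : R →+* R)] M)
    (hcoker : ∃ N : Submodule k M, N.FG ∧ ∀ m : M, ∃ n ∈ N, ∃ m' : M, m = n + φ m') :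
    Function.Injective φ := by
  classical
  let ι := Module.Free.ChooseBasisIndex R M
  let b : Module.Basis ι R M := Module.Free.chooseBasis R M
  let A : Matrix ι ι R := fun i j => b.repr (φ (b j)) i
  have hcoord : ∀ m : M, ∀ i, b.repr (φ m) i = (A.mulVec (fun j => σ (b.repr m j))) i := by
    intro m i
    conv_lhs => rw [← b.sum_repr m]
    simp only [map_sum, map_smulₛₗ, Finsupp.coe_finsetSum, Finset.sum_apply,
      Finsupp.smul_apply, smul_eq_mul, Matrix.mulVec, dotProduct, A]
    refine Finset.sum_congr rfl (fun j _ => ?_)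
    rw [mul_comm]
    rfl
  refine (injective_iff_map_eq_zero φ).mpr (fun z hz => ?_)
  by_contra hz0
  have hy0 : (fun j => σ (b.repr z j)) ≠ 0 := by
    intro h
    apply hz0
    apply b.repr.injective
    ext j
    have := congrFun h j
    simp only [Pi.zero_apply, map_eq_zero_iff _ σ.injective] at this
    simpa using this
  have hAy : A.mulVec (fun j => σ (b.repr z j)) = 0 := by
    ext i
    rw [← hcoord, hz, map_zero, Finsupp.coe_zero, Pi.zero_apply]
  have hdet : A.det = 0 := Matrix.exists_mulVec_eq_zero_iff.mp ⟨_, hy0, hAy⟩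
  obtain ⟨w, hw0, hwA⟩ := Matrix.exists_vecMul_eq_zero_iff.mpr hdet
  let ψ : M →ₗ[R] R := (Fintype.linearCombination R w).comp b.equivFun.toLinearMap
  have hψ : ∀ m : M, ψ m = ∑ i, b.repr m i * w i := by
    intro m
    simp only [ψ, LinearMap.comp_apply, Fintype.linearCombination_apply, smul_eq_mul,
      LinearEquiv.coe_coe, Module.Basis.equivFun_apply]
  have hψφ : ∀ m : M, ψ (φ m) = 0 := by
    intro m
    rw [hψ]
    simp only [hcoord]
    have : ∑ i, (A.mulVec (fun j => σ (b.repr m j))) i * w i =
        dotProduct w (A.mulVec (fun j => σ (b.repr m j))) := by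
      rw [dotProduct_comm, dotProduct]
    rw [this, Matrix.dotProduct_mulVec, hwA, zero_dotProduct]
  obtain ⟨i₀, hi₀⟩ : ∃ i, w i ≠ 0 := by
    by_contra h
    push Not at h
    exact hw0 (funext h)
  have hψb : ∀ r : R, ψ (r • b i₀) = r * w i₀ := by
    intro r
    rw [map_smul, hψ, smul_eq_mul]
    congr 1
    rw [Finset.sum_eq_single i₀]
    · rw [b.repr_self, Finsupp.single_eq_same, one_mul]
    · intro j _ hj
      rw [b.repr_self, Finsupp.single_eq_of_ne hj, zero_mul]
    · intro h; exact absurd (Finset.mem_univ i₀) h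
  obtain ⟨N, hNfg, hN⟩ := hcoker
  let N' : Submodule k R := N.map (ψ.restrictScalars k)
  have hN'fg : N'.FG := hNfg.map _
  have hμ : ∀ r : R, LinearMap.mulRight k (w i₀) r ∈ N' := by
    intro r
    obtain ⟨n, hn, m', hm'⟩ := hN (r • b i₀)
    refine ⟨n, hn, ?_⟩
    have := congrArg ψ hm'
    rw [map_add, hψφ, add_zero, hψb] at this
    rw [LinearMap.mulRight_apply]
    exact this.symm
  let μ : R →ₗ[k] N' := (LinearMap.mulRight k (w i₀)).codRestrict N' hμ
  have hμinj : Function.Injective μ := by
    intro r₁ r₂ h
    have h' : r₁ * w i₀ = r₂ * w i₀ := congrArg Subtype.val h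
    exact mul_right_cancel₀ hi₀ h'
  have : Module.Finite k N' := Module.Finite.iff_fg.mpr hN'fg
  exact hR (Module.Finite.of_injective μ hμinj)

end Groth.Agent.S13631
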