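import Groth.Statements.S13683
-- import your own Groth.Agent.* helpers here

set_option autoImplicit false
universe u v
open BTGrp

namespace Groth.Agent.S13683


theorem iter_nsmul {X : Type*} [AddCommGroup X] (f : X →+ X) (k : ℕ) (c : ℕ) (x : X) :
    (⇑f)^[k] (c • x) = c • (⇑f)^[k] x := by
  induction k with
  | zero => rfl
  | succ k ih => rw [Function.iterate_succ_apply', Function.iterate_succ_apply', ih, map_nsmul]

theorem iter_VF {X : Type*} [AddCommGroup X] (p : ℕ) (f g : X →+ X) (hgf : ∀ x, g (f x) = p • x)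
    (k : ℕ) (x : X) : (⇑g)^[k] ((⇑f)^[k] x) = p ^ k • x := by
  induction k generalizing x with
  | zero => simp
  | succ k ih =>
    rw [Function.iterate_succ_apply, Function.iterate_succ_apply', hgf, iter_nsmul, ih, ← mul_nsmul,
      pow_succ, mul_comm]

/-- Let p be a natural number and r ≥ 1; let M_1, …, M_r and N be abelian groups carrying additive
endomorphisms F_i, V_i (on M_i) and F_0, V_0 (on N) with V_i ∘ F_i and V_0 ∘ F_0 equal to
multiplication by p and V_0 injective; let φ : M_1 × ⋯ × M_r → N be additive in each variable with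
φ(V_1 x_1, …, V_r x_r) = V_0 φ(x_1, …, x_r). If y_i, z_i ∈ M_i satisfy F_i^N z_i = V_i^M y_i for all
i, then for every d ∈ N^r one has F_0^N (p^{(r-1)N} φ(V_1^{d_1} z_1, …, V_r^{d_r} z_r)) = V_0^M
φ(V_1^{d_1} y_1, …, V_r^{d_r} y_r). (The published statement is the case of Dieudonné modules over a
perfect field of characteristic p, with F and V the Frobenius and Verschiebung and φ a multilinear
morphism of the associated displays; only the structure listed here enters its proof. For r = 0 the
assertion fails, so r ≥ 1 is required.) -/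
theorem result (p : ℕ) {r : ℕ} (hr : 0 < r)
    (M : Fin r → Type u) (N : Type v) [∀ i, AddCommGroup (M i)] [AddCommGroup N]
    (F V : ∀ i, M i →+ M i) (F₀ V₀ : N →+ N)
    (hVF : ∀ i (x : M i), V i (F i x) = p • x) (hVF₀ : ∀ x : N, V₀ (F₀ x) = p • x)
    (hV₀ : Function.Injective V₀)
    (φ : MultilinearMap ℤ M N) (hφ : ∀ x : ∀ i, M i, φ (fun i => V i (x i)) = V₀ (φ x))
    (Nn Mm : ℕ) (d : Fin r → ℕ) (y z : ∀ i, M i)
    (hyz : ∀ i, (⇑(F i))^[Nn] (z i) = (⇑(V i))^[Mm] (y i)) :
    (⇑F₀)^[Nn] (p ^ ((r - 1) * Nn) • φ (fun i => (⇑(V i))^[d i] (z i))) =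
      (⇑V₀)^[Mm] (φ (fun i => (⇑(V i))^[d i] (y i))) := by
  have hφit : ∀ (k : ℕ) (x : ∀ i, M i), (⇑V₀)^[k] (φ x) = φ (fun i => (⇑(V i))^[k] (x i)) := by
    intro k
    induction k with
    | zero => intro x; rfl
    | succ k ih =>
      intro x
      rw [Function.iterate_succ_apply', ih, ← hφ]
      congr 1
      funext i
      rw [Function.iterate_succ_apply']
  apply (hV₀.iterate Nn)
  rw [iter_VF p F₀ V₀ hVF₀, ← Function.iterate_add_apply, hφit]
  have hcomp : ∀ i, (⇑(V i))^[Nn + Mm] ((⇑(V i))^[d i] (y i)) =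
      ((p ^ Nn : ℕ) : ℤ) • (⇑(V i))^[d i] (z i) := by
    intro i
    rw [← Function.iterate_add_apply, add_comm, Function.iterate_add_apply, Function.iterate_add_apply,
      ← hyz i, iter_VF p (F i) (V i) (hVF i), iter_nsmul, natCast_zsmul]
  simp_rw [hcomp]
  rw [MultilinearMap.map_smul_univ, Finset.prod_const, Finset.card_univ, Fintype.card_fin,
    smul_smul, ← natCast_zsmul]
  congr 1
  push_cast
  rw [← pow_mul, ← pow_add]
  congr 1
  obtain ⟨s, rfl⟩ : ∃ s, r = s + 1 := ⟨r - 1, by omega⟩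
  simp only [Nat.add_sub_cancel]
  ring

end Groth.Agent.S13683
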