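import Groth.Statements.S13771
import Groth.Agent.Lib.Helper20.PLie

set_option autoImplicit false
universe u v w
open PLie

namespace Groth.Agent.S13771

/-- Let R be a commutative ring of prime characteristic p, L₁ and L₂ Lie algebras over R, φ a p-mapping
on L₁ and f : L₁ → L₂ a morphism of Lie algebras whose kernel is stable under φ (a p-ideal). Then
the image f(L₁), a Lie subalgebra of L₂, carries exactly one p-mapping ψ for which the corestriction
of f to its image is a morphism of p-Lie algebras, i.e. ψ (f x) = f (φ x) for all x. -/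
theorem result (R : Type u) [CommRing R] (p : ℕ) [Fact p.Prime] [CharP R p]
    (L₁ : Type v) [LieRing L₁] [LieAlgebra R L₁] (L₂ : Type w) [LieRing L₂] [LieAlgebra R L₂]
    (φ : PLie.PMap R p L₁) (f : L₁ →ₗ⁅R⁆ L₂) (hker : ∀ x : L₁, f x = 0 → f (φ x) = 0) :
    ∃! ψ : PLie.PMap R p f.range, PLie.IsPHom φ ψ f.rangeRestrict := by
  classical
  have wd : ∀ x y : L₁, f x = f y → f (φ x) = f (φ y) := by
    intro x y hxy
    have h0 : f (x - y) = 0 := by rw [map_sub, hxy, sub_self]
    have e : φ x = φ (x - y) + φ y - PLie.jacobson R p (x - y) y := by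
      have := φ.map_add (x - y) y
      rw [sub_add_cancel] at this
      exact this
    rw [e, map_sub, map_add, hker _ h0, Groth.Agent.Lib.Helper20.jacobson_map, h0,
      Groth.Agent.Lib.Helper20.jacobson_zero_left, zero_add, sub_zero]
  have hsurj := f.surjective_rangeRestrict
  let pre : f.range → L₁ := Function.surjInv hsurj
  have hpre : ∀ z, f.rangeRestrict (pre z) = z := Function.surjInv_eq hsurj
  let F : f.range → f.range := fun z => f.rangeRestrict (φ (pre z))
  have hF : ∀ x, F (f.rangeRestrict x) = f.rangeRestrict (φ x) := by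
    intro x
    apply Subtype.ext
    show f (φ (pre (f.rangeRestrict x))) = f (φ x)
    apply wd
    have := congrArg Subtype.val (hpre (f.rangeRestrict x))
    exact this
  let ψ : PLie.PMap R p f.range :=
    { toFun := F
      map_smul := by
        intro c z
        obtain ⟨x, rfl⟩ := hsurj z
        rw [← map_smul, hF, hF, φ.map_smul, map_smul]
      ad_map := by
        intro z
        obtain ⟨x, rfl⟩ := hsurj z
        ext w
        obtain ⟨y, rfl⟩ := hsurj w
        have e : ⁅φ x, y⁆ = ((LieAlgebra.ad R L₁ x) ^ p) y := by rw [← φ.ad_map x]; rfl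
        rw [LieAlgebra.ad_apply, hF, ← LieHom.map_lie, e, Groth.Agent.Lib.Helper20.ad_pow_map]
      map_add := by
        intro z₁ z₂
        obtain ⟨x₁, rfl⟩ := hsurj z₁
        obtain ⟨x₂, rfl⟩ := hsurj z₂
        rw [← map_add, hF, hF, hF, φ.map_add, map_sub, map_add,
          Groth.Agent.Lib.Helper20.jacobson_map] }
  refine ⟨ψ, fun x => (hF x).symm, fun ψ' hψ' => ?_⟩
  apply Groth.Agent.Lib.Helper20.pmap_ext
  intro z
  obtain ⟨x, rfl⟩ := hsurj z
  rw [← hψ' x]
  exact (hF x).symm

end Groth.Agent.S13771
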