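import Groth.Statements.S13772
-- import your own Groth.Agent.* helpers here

set_option autoImplicit false
universe u v
open PLie

namespace Groth.Agent.S13772

/-- Let R be a commutative ring of prime characteristic p and L a Lie algebra over R with a p-mapping γ.
For a map g : L → L, there is a p-mapping γ' on L with γ' x = γ x + g x for every x if and only if g
is additive, g (c • x) = c ^ p • g x for all scalars c, and every value g x lies in the centre of L.
(Both parts of the published statement at once: the difference of two p-mappings is a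
Frobenius-semilinear map into the centre, and adding such a map to a p-mapping gives a p-mapping.) -/
theorem result (R : Type u) [CommRing R] (p : ℕ) [Fact p.Prime] [CharP R p]
    (L : Type v) [LieRing L] [LieAlgebra R L] (γ : PLie.PMap R p L) (g : L → L) :
    (∃ γ' : PLie.PMap R p L, ∀ x : L, γ' x = γ x + g x) ↔
      ((∀ x y : L, g (x + y) = g x + g y) ∧ (∀ (c : R) (x : L), g (c • x) = c ^ p • g x) ∧
        ∀ x : L, g x ∈ LieAlgebra.center R L) := by
  constructor
  · rintro ⟨γ', hγ'⟩
    have hg : ∀ x, g x = γ' x - γ x := fun x => by rw [hγ' x]; abel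
    refine ⟨fun x y => ?_, fun c x => ?_, fun x => ?_⟩
    · rw [hg, hg, hg]
      have h1 : γ' (x + y) = γ' x + γ' y - PLie.jacobson R p x y := γ'.map_add x y
      have h2 : γ (x + y) = γ x + γ y - PLie.jacobson R p x y := γ.map_add x y
      rw [h1, h2]; abel
    · rw [hg, hg]
      have h1 : γ' (c • x) = c ^ p • γ' x := γ'.map_smul c x
      have h2 : γ (c • x) = c ^ p • γ x := γ.map_smul c x
      rw [h1, h2, smul_sub]
    · rw [LieAlgebra.center, LieModule.mem_maxTrivSubmodule]
      intro y
      have h1 := congrArg (fun F : Module.End R L => F y) (γ'.ad_map x)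
      have h2 := congrArg (fun F : Module.End R L => F y) (γ.ad_map x)
      simp only [LieAlgebra.ad_apply] at h1 h2
      rw [hg, ← lie_skew, sub_lie]
      change -(⁅γ'.toFun x, y⁆ - ⁅γ.toFun x, y⁆) = 0
      rw [h1, h2, sub_self, neg_zero]
  · rintro ⟨hadd, hsmul, hcen⟩
    have hc : ∀ x y : L, ⁅g x, y⁆ = 0 := by
      intro x y
      have := hcen x
      rw [LieAlgebra.center, LieModule.mem_maxTrivSubmodule] at this
      rw [← lie_skew, this y, neg_zero]
    refine ⟨⟨fun x => γ x + g x, ?_, ?_, ?_⟩, fun x => rfl⟩
    · intro c x
      show γ.toFun (c • x) + g (c • x) = c ^ p • (γ.toFun x + g x)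
      rw [γ.map_smul, hsmul, smul_add]
    · intro x
      rw [← γ.ad_map x]
      ext y
      simp only [LieAlgebra.ad_apply, add_lie, hc, add_zero]
    · intro x y
      show γ.toFun (x + y) + g (x + y) = (γ.toFun x + g x) + (γ.toFun y + g y) - PLie.jacobson R p x y
      rw [γ.map_add, hadd]
      abel

end Groth.Agent.S13772
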