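import Groth.Statements.S13784
import Mathlib.RingTheory.LocalRing.ResidueField.Basic
import Mathlib.RingTheory.IntegralDomain

set_option autoImplicit false
universe u
open CAlg

namespace Groth.Agent.S13784

/-- Let A be a commutative local ring and G a finite subgroup of Aˣ. If the order of G is invertible in
A, then G is cyclic. -/
theorem result {A : Type u} [CommRing A] [IsLocalRing A]
    (G : Subgroup Aˣ) [Finite G] (hG : IsUnit ((Nat.card G : ℕ) : A)) : IsCyclic G := by
  let f : G →* IsLocalRing.ResidueField A :=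
    (IsLocalRing.residue A).toMonoidHom.comp ((Units.coeHom A).comp G.subtype)
  apply isCyclic_of_injective_ringHom f
  rw [injective_iff_map_eq_one]
  intro g hg
  have hu1 : IsLocalRing.residue A ((g : Aˣ) : A) = 1 := hg
  have hn : ((g : Aˣ) : A) ^ Nat.card G = 1 := by
    have h := pow_card_eq_one' (G := G) (x := g)
    rw [← Units.val_pow_eq_pow_val, ← Subgroup.coe_pow, h]
    rfl
  have hs : (∑ i ∈ Finset.range (Nat.card G), ((g : Aˣ) : A) ^ i) * (((g : Aˣ) : A) - 1) = 0 := by
    rw [geom_sum_mul, hn, sub_self]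
  have hsu : IsUnit (∑ i ∈ Finset.range (Nat.card G), ((g : Aˣ) : A) ^ i) := by
    rw [← IsLocalRing.residue_ne_zero_iff_isUnit, map_sum]
    simp only [map_pow, hu1, one_pow, Finset.sum_const, Finset.card_range, nsmul_eq_mul, mul_one]
    have : IsLocalRing.residue A ((Nat.card G : ℕ) : A) ≠ 0 :=
      (IsLocalRing.residue_ne_zero_iff_isUnit _).mpr hG
    simpa using this
  have h0 : ((g : Aˣ) : A) - 1 = 0 := (hsu.mul_right_eq_zero).mp hs
  apply Subtype.ext
  apply Units.ext
  simpa [sub_eq_zero] using h0

end Groth.Agent.S13784
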