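import Groth.Statements.S13785
import Mathlib.RingTheory.MvPolynomial.MonomialOrder
import Mathlib.Data.Finsupp.MonomialOrder

set_option autoImplicit false
universe u
open CAlg

namespace Groth.Agent.S13785


theorem eval_d {n : ℕ} (τ : Equiv.Perm (Fin n)) (a b : Fin n) :
    (∑ i, Finsupp.single (τ i, i) 1 : Fin n × Fin n →₀ ℕ) (a, b) = if τ b = a then 1 else 0 := by
  classical
  rw [Finsupp.finsetSum_apply, Finset.sum_eq_single b]
  · rw [Finsupp.single_apply]
    by_cases h : τ b = a
    · simp [h]
    · rw [if_neg, if_neg h]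
      intro h'
      exact h (Prod.mk.inj h').1
  · intro i _ hi
    rw [Finsupp.single_apply, if_neg]
    intro h'
    exact hi (Prod.mk.inj h').2
  · intro h; exact absurd (Finset.mem_univ b) h

theorem d_inj {n : ℕ} (τ σ : Equiv.Perm (Fin n))
    (h : (∑ i, Finsupp.single (τ i, i) 1 : Fin n × Fin n →₀ ℕ) = ∑ i, Finsupp.single (σ i, i) 1) :
    τ = σ := by
  ext j
  have := congrArg (fun d : Fin n × Fin n →₀ ℕ => d (σ j, j)) h
  simp only [eval_d, if_true] at this
  by_contra hne
  rw [if_neg (fun h => hne (congrArg Fin.val h))] at this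
  exact zero_ne_one this

/-- For any commutative ring A, the determinant of the generic n × n matrix is a nonzerodivisor of the
polynomial ring over A in the n² matrix entries. -/
theorem result (A : Type u) [CommRing A] (n : ℕ) :
    (Matrix.mvPolynomialX (Fin n) (Fin n) A).det ∈ nonZeroDivisors (MvPolynomial (Fin n × Fin n) A) := by
  classical
  rcases subsingleton_or_nontrivial A with hA | hA
  · exact ⟨fun x _ => Subsingleton.elim _ _, fun x _ => Subsingleton.elim _ _⟩
  let lo : LinearOrder (Fin n × Fin n) :=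
    LinearOrder.lift' (fun p => toLex p) (fun a b h => by simpa using h)
  let m : MonomialOrder (Fin n × Fin n) := @MonomialOrder.lex _ lo
    (@Finite.to_wellFoundedGT _ _ (@PartialOrder.toPreorder _ (@LinearOrder.toPartialOrder _ lo)))
  apply m.mem_nonZeroDivisors_of_leadingCoeff_mem_nonZeroDivisors
  apply IsUnit.mem_nonZeroDivisors
  have hm : ∀ σ : Equiv.Perm (Fin n), (∏ i, (MvPolynomial.X (σ i, i) : MvPolynomial (Fin n × Fin n) A)) =
      MvPolynomial.monomial (∑ i, Finsupp.single (σ i, i) 1) 1 := by
    intro σ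
    rw [MvPolynomial.monomial_sum_one]
    rfl
  have hcoeff : ∀ d, (Matrix.mvPolynomialX (Fin n) (Fin n) A).det.coeff d = 0 ∨
      IsUnit ((Matrix.mvPolynomialX (Fin n) (Fin n) A).det.coeff d) := by
    intro d
    rw [Matrix.det_apply]
    simp only [Matrix.mvPolynomialX_apply, hm, MvPolynomial.coeff_sum, MvPolynomial.coeff_smul,
      MvPolynomial.coeff_monomial]
    by_cases hex : ∃ σ₀ : Equiv.Perm (Fin n), (∑ i, Finsupp.single (σ₀ i, i) 1) = d
    · obtain ⟨σ₀, hσ₀⟩ := hex
      right
      rw [Finset.sum_eq_single σ₀]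
      · rw [if_pos hσ₀]
        rcases Int.units_eq_one_or (Equiv.Perm.sign σ₀) with h | h
        · rw [h, one_smul]; exact isUnit_one
        · rw [h, Units.neg_smul, one_smul]; exact isUnit_one.neg
      · intro τ _ hτ
        rw [if_neg, smul_zero]
        intro h
        exact hτ (d_inj τ σ₀ (h.trans hσ₀.symm))
      · intro h; exact absurd (Finset.mem_univ σ₀) h
    · left
      apply Finset.sum_eq_zero
      intro σ _
      rw [if_neg (fun h => hex ⟨σ, h⟩), smul_zero]
  have hne : m.leadingCoeff (Matrix.mvPolynomialX (Fin n) (Fin n) A).det ≠ 0 :=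
    m.leadingCoeff_ne_zero_iff.mpr (Matrix.det_mvPolynomialX_ne_zero (Fin n) A)
  rcases hcoeff (m.degree (Matrix.mvPolynomialX (Fin n) (Fin n) A).det) with h | h
  · exact absurd h hne
  · exact h

end Groth.Agent.S13785
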