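import Groth.Statements.S13787
import Groth.Agent.S13785

set_option autoImplicit false
universe u
open CAlg

namespace Groth.Agent.S13787


theorem key (A : Type u) [CommRing A] [Nontrivial A] (n : ℕ) (hn : 0 < n) (a a' : Aˣ) (e' : ℤ) (k : ℕ)
    (h : Units.map (algebraMap A (Localization.Away (Matrix.mvPolynomialX (Fin n) (Fin n) A).det)).toMonoidHom a *
          (IsLocalization.Away.algebraMap_isUnit (S := Localization.Away (Matrix.mvPolynomialX (Fin n) (Fin n) A).det)
            (Matrix.mvPolynomialX (Fin n) (Fin n) A).det).unit ^ (e' + k) =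
        Units.map (algebraMap A (Localization.Away (Matrix.mvPolynomialX (Fin n) (Fin n) A).det)).toMonoidHom a' *
          (IsLocalization.Away.algebraMap_isUnit (S := Localization.Away (Matrix.mvPolynomialX (Fin n) (Fin n) A).det)
            (Matrix.mvPolynomialX (Fin n) (Fin n) A).det).unit ^ e') :
    a = a' ∧ k = 0 := by
  set D := (Matrix.mvPolynomialX (Fin n) (Fin n) A).det with hD
  set u := (IsLocalization.Away.algebraMap_isUnit (S := Localization.Away D) D).unit with hu
  have hDnzd : D ∈ nonZeroDivisors _ := Groth.Agent.S13785.result A n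
  have hinjL : Function.Injective (algebraMap (MvPolynomial (Fin n × Fin n) A) (Localization.Away D)) :=
    IsLocalization.injective (Localization.Away D) (Submonoid.powers_le.mpr hDnzd)
  have h1 : Units.map (algebraMap A (Localization.Away D)).toMonoidHom a * u ^ k =
      Units.map (algebraMap A (Localization.Away D)).toMonoidHom a' := by
    rw [zpow_add, zpow_natCast, ← mul_assoc, mul_right_comm] at h
    exact mul_right_cancel h
  have h2 := congrArg Units.val h1
  simp only [Units.val_mul, Units.val_pow_eq_pow_val, Units.coe_map, RingHom.toMonoidHom_eq_coe,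
    MonoidHom.coe_coe, hu, IsUnit.unit_spec] at h2
  rw [IsScalarTower.algebraMap_apply A (MvPolynomial (Fin n × Fin n) A) (Localization.Away D) (a : A),
    IsScalarTower.algebraMap_apply A (MvPolynomial (Fin n × Fin n) A) (Localization.Away D) (a' : A),
    ← map_pow, ← map_mul] at h2
  have h3 := hinjL h2
  rcases Nat.eq_zero_or_pos k with hk | hk
  · subst hk
    rw [pow_zero, mul_one] at h3
    refine ⟨Units.ext (MvPolynomial.C_injective _ _ h3), rfl⟩
  · exfalso
    have h4 := congrArg (MvPolynomial.eval (0 : Fin n × Fin n → A)) h3
    rw [map_mul, map_pow, hD, Matrix.eval_det_mvPolynomialX] at h4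
    have : Nonempty (Fin n) := ⟨⟨0, hn⟩⟩
    have h5 : (Matrix.of fun i j : Fin n => (0 : Fin n × Fin n → A) (i, j)).det = 0 := by
      have : (Matrix.of fun i j : Fin n => (0 : Fin n × Fin n → A) (i, j)) = 0 := by
        ext i j; rfl
      rw [this, Matrix.det_zero]
    rw [h5, zero_pow hk.ne', mul_zero] at h4
    have h6 : ((a' : Aˣ) : A) = 0 := by
      have := h4.symm
      simpa [MvPolynomial.algebraMap_eq] using this
    exact a'.ne_zero h6

/-- Let A be a nonzero commutative ring and n ≥ 1, let det be the determinant of the generic n × n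
matrix in the polynomial ring A[X] in its n² entries, and let A[X, 1/det] be the localization at det
(the coordinate ring of GL_n over A). The homomorphism Aˣ × ℤ → (A[X, 1/det])ˣ sending (a, e) to a ·
det^e is injective. (The published statement takes the exponent in the group of locally constant
ℤ-valued functions on Spec A, which also covers A = 0; with integer exponents as here, A must be
nonzero and n ≥ 1.) -/
theorem result (A : Type u) [CommRing A] [Nontrivial A] (n : ℕ) (hn : 0 < n) :
    Function.Injective (fun p : Aˣ × ℤ =>
        Units.map (algebraMap A (Localization.Away (Matrix.mvPolynomialX (Fin n) (Fin n) A).det)).toMonoidHom p.1 *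
          (IsLocalization.Away.algebraMap_isUnit (S := Localization.Away (Matrix.mvPolynomialX (Fin n) (Fin n) A).det)
            (Matrix.mvPolynomialX (Fin n) (Fin n) A).det).unit ^ p.2) := by
  rintro ⟨a, e⟩ ⟨a', e'⟩ h
  simp only at h
  rcases le_total e' e with hle | hle
  · obtain ⟨k, hk⟩ := Int.eq_ofNat_of_zero_le (sub_nonneg.mpr hle)
    have hk' : e = e' + k := by omega
    rw [hk'] at h
    obtain ⟨rfl, hk0⟩ := key A n hn a a' e' k h
    subst hk0
    simp [hk']
  · obtain ⟨k, hk⟩ := Int.eq_ofNat_of_zero_le (sub_nonneg.mpr hle)
    have hk' : e' = e + k := by omega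
    rw [hk'] at h
    obtain ⟨rfl, hk0⟩ := key A n hn a' a e k h.symm
    subst hk0
    simp [hk']

end Groth.Agent.S13787
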