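import Groth.Statements.S13789
-- import your own Groth.Agent.* helpers here

set_option autoImplicit false
universe u
open CAlg

namespace Groth.Agent.S13789

/-- Let A be a commutative ring with total ring of fractions Q and let B be a ring with A ⊆ B ⊆ Q. Then
the inclusion A ⊆ B carries nonzerodivisors of A to nonzerodivisors of B, and every nonzerodivisor
of B has the form r/u with r and u nonzerodivisors of A. -/
theorem result {A Q : Type u} [CommRing A] [CommRing Q] [Algebra A Q] [IsFractionRing A Q] (B : Subalgebra A Q) :
    (∀ a : A, a ∈ nonZeroDivisors A → algebraMap A B a ∈ nonZeroDivisors B) ∧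
    (∀ b : B, b ∈ nonZeroDivisors B → ∃ r u : A, r ∈ nonZeroDivisors A ∧ u ∈ nonZeroDivisors A ∧
      (b : Q) * algebraMap A Q u = algebraMap A Q r) := by
  constructor
  · intro a ha
    rw [mem_nonZeroDivisors_iff_right]
    intro b hb
    have hu : IsUnit (algebraMap A Q a) := IsLocalization.map_units Q (⟨a, ha⟩ : nonZeroDivisors A)
    have h1 : (b : Q) * algebraMap A Q a = 0 := by
      have := congrArg (fun x : B => (x : Q)) hb
      simpa using this
    apply Subtype.ext
    simpa using (hu.mul_left_eq_zero).mp h1
  · intro b hb
    obtain ⟨⟨r, u⟩, h⟩ := IsLocalization.surj (nonZeroDivisors A) (b : Q)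
    refine ⟨r, u, ?_, u.2, h⟩
    rw [mem_nonZeroDivisors_iff_right]
    intro a ha
    have hc : b * algebraMap A B ((u : A) * a) = 0 := by
      apply Subtype.ext
      have e : ((b * algebraMap A B ((u : A) * a) : B) : Q)
          = (b : Q) * algebraMap A Q (u : A) * algebraMap A Q a := by
        simp [mul_assoc]
      rw [e, h, ← map_mul, mul_comm r a, ha, map_zero]
      rfl
    have hc2 : algebraMap A B ((u : A) * a) = 0 :=
      (mem_nonZeroDivisors_iff_left.mp hb) _ hc
    have hc3 : algebraMap A Q ((u : A) * a) = 0 := by
      have := congrArg (fun x : B => (x : Q)) hc2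
      simpa using this
    have hinj := IsFractionRing.injective A Q
    have hc4 : (u : A) * a = 0 := hinj (by rw [hc3, map_zero])
    exact (mem_nonZeroDivisors_iff_left.mp u.2) a hc4

end Groth.Agent.S13789
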