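import Groth.Statements.S13790
import Groth.Agent.S13789

set_option autoImplicit false
universe u
open CAlg

namespace Groth.Agent.S13790

/-- Let A be a commutative ring with total ring of fractions Q and let B be a ring with A ⊆ B ⊆ Q. Then
Q, with the inclusion B ⊆ Q, is the total ring of fractions of B. -/
theorem result {A Q : Type u} [CommRing A] [CommRing Q] [Algebra A Q] [IsFractionRing A Q] (B : Subalgebra A Q) :
    IsFractionRing B Q := by
  have H := Groth.Agent.S13789.result B
  have hB : ∀ b : B, algebraMap B Q b = (b : Q) := fun _ => rfl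
  refine (isLocalization_iff (nonZeroDivisors B) Q).mpr ?_
  refine ⟨?_, ?_, ?_⟩
  · rintro ⟨b, hb⟩
    obtain ⟨r, u, hr, hu, h⟩ := H.2 b hb
    have hr' : IsUnit (algebraMap A Q r) := IsLocalization.map_units Q (⟨r, hr⟩ : nonZeroDivisors A)
    rw [← h] at hr'
    exact isUnit_of_mul_isUnit_left hr'
  · intro z
    obtain ⟨⟨r, u⟩, h⟩ := IsLocalization.surj (nonZeroDivisors A) z
    refine ⟨⟨algebraMap A B r, ⟨algebraMap A B u, H.1 u u.2⟩⟩, ?_⟩
    simpa [hB] using h
  · intro x y hxy
    refine ⟨1, ?_⟩
    have : x = y := Subtype.ext hxy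
    rw [this]

end Groth.Agent.S13790
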