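import Groth.Statements.S13794
import Mathlib.Tactic.FieldSimp
import Mathlib.Algebra.Polynomial.Coeff
import Mathlib.Tactic.LinearCombination
import Mathlib.Tactic.NormNum

set_option autoImplicit false
universe u
open Polynomial
open Curves

namespace Groth.Agent.S13794

/-- Let k be a field of characteristic not 3 and β ∈ k. If a line ax + by + c = 0 with a³ ≠ b³ is the
tangent line at a flex point of the affine cubic x³ + y³ + β = 3xy, then β is a cube in k. Here the
line is normalised to b ≠ 0 (the roles of x and y are symmetric) and the flex-tangency is expressed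
by the restriction of the cubic to the line being λ (x − x₀)³. -/
theorem result {k : Type u} [Field k] (h3 : (3 : k) ≠ 0)
    (β a b c : k) (hb : b ≠ 0) (hab : a ^ 3 ≠ b ^ 3) (lam x₀ : k)
    (hflex : (X : k[X]) ^ 3 + (C (-a / b) * X + C (-c / b)) ^ 3 + C β - 3 * X * (C (-a / b) * X + C (-c / b)) =
      C lam * (X - C x₀) ^ 3) :
    ∃ γ : k, β = γ ^ 3 := by
  set α : k := -a / b with hα
  set γ : k := -c / b with hγ
  have hL : (X : k[X]) ^ 3 + (C α * X + C γ) ^ 3 + C β - 3 * X * (C α * X + C γ) =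
      C (1 + α ^ 3) * X ^ 3 + C (3 * α ^ 2 * γ - 3 * α) * X ^ 2 + C (3 * α * γ ^ 2 - 3 * γ) * X +
        C (γ ^ 3 + β) := by
    simp only [map_add, map_mul, map_pow, map_sub, map_one, map_ofNat]
    ring
  have hR : C lam * (X - C x₀) ^ 3 =
      C lam * X ^ 3 + C (-3 * lam * x₀) * X ^ 2 + C (3 * lam * x₀ ^ 2) * X + C (-lam * x₀ ^ 3) := by
    simp only [map_add, map_mul, map_pow, map_neg, map_ofNat]
    ring
  rw [hL, hR] at hflex
  have hc : ∀ n : ℕ, (C (1 + α ^ 3) * X ^ 3 + C (3 * α ^ 2 * γ - 3 * α) * X ^ 2 +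
      C (3 * α * γ ^ 2 - 3 * γ) * X + C (γ ^ 3 + β) : k[X]).coeff n =
      (C lam * X ^ 3 + C (-3 * lam * x₀) * X ^ 2 + C (3 * lam * x₀ ^ 2) * X +
        C (-lam * x₀ ^ 3) : k[X]).coeff n := fun n => by rw [hflex]
  have e3 := hc 3
  have e2 := hc 2
  have e1 := hc 1
  have e0 := hc 0
  simp only [coeff_add, coeff_C_mul, coeff_X_pow, coeff_X, coeff_C] at e3 e2 e1 e0
  norm_num at e3 e2 e1 e0
  have hlam : lam ≠ 0 := by
    rw [← e3, hα]
    intro h0
    apply hab
    have hb3 : b ^ 3 ≠ 0 := pow_ne_zero 3 hb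
    field_simp at h0
    linear_combination -h0
  have e2' : α ^ 2 * γ - α = -lam * x₀ := by
    have : (3 : k) * (α ^ 2 * γ - α) = 3 * (-lam * x₀) := by linear_combination e2
    exact mul_left_cancel₀ h3 this
  have e1' : α * γ ^ 2 - γ = lam * x₀ ^ 2 := by
    have : (3 : k) * (α * γ ^ 2 - γ) = 3 * (lam * x₀ ^ 2) := by linear_combination e1
    exact mul_left_cancel₀ h3 this
  by_cases hx : x₀ = 0
  · refine ⟨-γ, ?_⟩
    subst hx
    linear_combination e0
  · have hg : γ = -x₀ * α := by
      have : (lam * x₀) * γ = (lam * x₀) * (-x₀ * α) := by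
        linear_combination γ * e2' - α * e1'
      exact mul_left_cancel₀ (mul_ne_zero hlam hx) this
    have ha : α = x₀ := by
      rw [hg] at e2'
      linear_combination -e2' - x₀ * e3
    refine ⟨-x₀, ?_⟩
    rw [hg, ha] at e0
    rw [ha] at e3
    linear_combination e0 + x₀ ^ 3 * e3

end Groth.Agent.S13794
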