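import Groth.Statements.S13801
import Mathlib.Data.Nat.Choose.Multinomial

set_option autoImplicit false
open ChowMon

namespace Groth.Agent.S13801


theorem pv_prod {ι : Type*} (p : ℕ) [Fact p.Prime] (s : Finset ι) (f : ι → ℕ)
    (hf : ∀ i ∈ s, f i ≠ 0) :
    padicValNat p (∏ i ∈ s, f i) = ∑ i ∈ s, padicValNat p (f i) := by
  classical
  induction s using Finset.induction_on with
  | empty => simp
  | insert a s ha ih =>
    rw [Finset.prod_insert ha, Finset.sum_insert ha,
      padicValNat.mul (hf a (Finset.mem_insert_self _ _))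
        (Finset.prod_ne_zero_iff.mpr (fun i hi => hf i (Finset.mem_insert_of_mem hi))),
      ih (fun i hi => hf i (Finset.mem_insert_of_mem hi))]

theorem pv_choose_pos (p : ℕ) [Fact p.Prime] (N A : ℕ) (hA : 0 < A) (hAN : A ≤ N)
    (h : ¬ p ^ padicValNat p N ∣ A) : 0 < padicValNat p (N.choose A) := by
  obtain ⟨N', rfl⟩ : ∃ N', N = N' + 1 := ⟨N - 1, by omega⟩
  obtain ⟨A', rfl⟩ : ∃ A', A = A' + 1 := ⟨A - 1, by omega⟩
  have e := Nat.add_one_mul_choose_eq N' A'
  have h1 : (N' + 1).choose (A' + 1) ≠ 0 := (Nat.choose_pos hAN).ne'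
  have h2 : N'.choose A' ≠ 0 := (Nat.choose_pos (by omega)).ne'
  have e2 := congrArg (padicValNat p) e
  rw [padicValNat.mul (by omega) h2, padicValNat.mul h1 (by omega)] at e2
  by_contra hc
  have hle : padicValNat p (N' + 1) ≤ padicValNat p (A' + 1) := by omega
  exact h ((pow_dvd_pow p hle).trans pow_padicValNat_dvd)

/-- For a prime p and positive natural numbers a_1, ..., a_k with sum n one has v_p(a_1!) + ... +
v_p(a_k!) ≤ v_p(n!), and the inequality is strict whenever some a_i is not divisible by p^(v_p(n)). -/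
theorem result {k : ℕ} (p : ℕ) [Fact p.Prime]
    (a : Fin k → ℕ) (ha : ∀ i, 0 < a i) :
    (∑ i, padicValNat p (a i).factorial ≤ padicValNat p (∑ i, a i).factorial) ∧
      ((∃ i, ¬ p ^ padicValNat p (∑ j, a j) ∣ a i) →
        ∑ i, padicValNat p (a i).factorial < padicValNat p (∑ i, a i).factorial) := by
  classical
  have hspec := Nat.multinomial_spec Finset.univ a
  have hmul_ne : Nat.multinomial Finset.univ a ≠ 0 := (Nat.multinomial_pos _ _).ne'
  have hprod_ne : (∏ i, (a i).factorial) ≠ 0 :=
    Finset.prod_ne_zero_iff.mpr (fun i _ => Nat.factorial_ne_zero _)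
  have key : padicValNat p (∑ i, a i).factorial =
      ∑ i, padicValNat p (a i).factorial + padicValNat p (Nat.multinomial Finset.univ a) := by
    rw [← hspec, padicValNat.mul hprod_ne hmul_ne,
      pv_prod p _ _ (fun i _ => Nat.factorial_ne_zero _)]
  constructor
  · rw [key]; omega
  · rintro ⟨i, hi⟩
    rw [key]
    suffices 0 < padicValNat p (Nat.multinomial Finset.univ a) by omega
    have hm := Nat.multinomial_insert (s := Finset.univ.erase i) (a := i)
      (Finset.notMem_erase i Finset.univ) a
    rw [Finset.insert_erase (Finset.mem_univ i), Finset.add_sum_erase _ _ (Finset.mem_univ i)] at hm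
    have hC : 0 < padicValNat p ((∑ j, a j).choose (a i)) :=
      pv_choose_pos p _ _ (ha i)
        (Finset.single_le_sum (fun j _ => Nat.zero_le (a j)) (Finset.mem_univ i)) hi
    have hr : Nat.multinomial (Finset.univ.erase i) a ≠ 0 := (Nat.multinomial_pos _ _).ne'
    have hc0 : (∑ j, a j).choose (a i) ≠ 0 := by
      intro h0; rw [h0] at hC; simp at hC
    rw [hm, padicValNat.mul hc0 hr]
    omega

end Groth.Agent.S13801
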