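import Groth.Statements.S13804
import Groth.Agent.Lib.Helper20.EtaPt6
import Groth.Agent.S13803

set_option autoImplicit false
universe u
open EtaPt

namespace Groth.Agent.S13804

/-- For a commutative ring A with finitely many minimal prime ideals, the map N_η(q_A) : N_η(A) →
N_η(M_η(A)) is bijective. Here η is a natural transformation from the identity of the category of
fields to an endofunctor F with F(η_K) bijective and η_K purely inseparable for every field K,
N_η(A) is the product of the F(k(p)) over the primes p of A with diagonal map t_A, and M_η(A) ⊆
N_η(A) is the subring of elements sent into the range of t_R by every ring map from A to a valuation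
ring R at whose fraction field η is bijective; q_A : A → M_η(A) is the corestriction of t_A. -/
theorem result (η : EtaPt.FieldEndo.{u}) (A : Type u) [CommRing A]
    (hA : (minimalPrimes A).Finite) : Function.Bijective (η.Nmap (η.q A)) := by
  have h := Groth.Agent.S13803.result η A hA
  refine Groth.Agent.Lib.Helper20.Nmap_bijective_of η (η.q A) h.1 (fun Q => ?_)
  obtain ⟨ψ, hψ⟩ := h.2 Q
  exact Groth.Agent.Lib.Helper20.map_bijective_of_comp_eq_eta η _ ψ hψ

end Groth.Agent.S13804
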