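import Groth.Statements.S13816
import Groth.Agent.Lib.Helper20.EtaPt9

set_option autoImplicit false
universe u
open EtaPt

namespace Groth.Agent.S13816

/-- If f : A → B is an integral ring map with Spec(f) surjective, then an element of N_η(A) lies in
M_η(A) if and only if its image under N_η(f) lies in M_η(B). Here η is a natural transformation from
the identity of the category of fields to an endofunctor F with F(η_K) bijective and η_K purely
inseparable for every field K, N_η(A) is the product of the F(k(p)) over the primes p of A with
diagonal map t_A, and M_η(A) ⊆ N_η(A) is the subring of elements sent into the range of t_R by every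
ring map from A to a valuation ring R at whose fraction field η is bijective; q_A : A → M_η(A) is
the corestriction of t_A. -/
theorem result (η : EtaPt.FieldEndo.{u}) {A B : Type u} [CommRing A] [CommRing B] (f : A →+* B)
    (hf : f.IsIntegral) (hs : Function.Surjective (PrimeSpectrum.comap f)) (x : η.N A) :
    x ∈ η.M A ↔ η.Nmap f x ∈ η.M B := by
  constructor
  · intro hx R _ _ _ hR g
    rw [← Groth.Agent.Lib.Helper20.Nmap_comp]
    exact hx R hR (g.comp f)
  · intro hx R _ _ _ hR g
    exact Groth.Agent.Lib.Helper20.Nmap_mem_range_of η f hf hs x hx R hR g

end Groth.Agent.S13816
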