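import Groth.Statements.S13805
import Groth.Agent.Lib.Helper20.EtaPt9
import Groth.Agent.Lib.Helper20.EtaPt7
import Groth.Agent.S13804
import Groth.Agent.S13816

set_option autoImplicit false
universe u
open EtaPt

namespace Groth.Agent.S13805

/-- For a commutative ring A with finitely many minimal prime ideals, every integral ring map f from
M_η(A) to a reduced ring B with N_η(f) bijective is itself bijective. Here η is a natural
transformation from the identity of the category of fields to an endofunctor F with F(η_K) bijective
and η_K purely inseparable for every field K, N_η(A) is the product of the F(k(p)) over the primes p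
of A with diagonal map t_A, and M_η(A) ⊆ N_η(A) is the subring of elements sent into the range of
t_R by every ring map from A to a valuation ring R at whose fraction field η is bijective; q_A : A →
M_η(A) is the corestriction of t_A. -/
theorem result (η : EtaPt.FieldEndo.{u}) (A : Type u) [CommRing A]
    (hA : (minimalPrimes A).Finite) (B : Type u) [CommRing B] [IsReduced B] (f : η.M A →+* B)
    (hf : f.IsIntegral) (hN : Function.Bijective (η.Nmap f)) : Function.Bijective f := by
  have hb := Groth.Agent.S13804.result η A hA
  have h1 := Groth.Agent.Lib.Helper20.Nmap_q_eq_t η A hA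
  have htB := Groth.Agent.Lib.Helper20.t_injective_of_isReduced η B
  have hNt : ∀ z : η.M A, η.Nmap f (η.t (η.M A) z) = η.t B (f z) := fun z => η.Nmap_t_apply f z
  constructor
  · intro x y hxy
    have e1 : η.Nmap f (η.t (η.M A) x) = η.Nmap f (η.t (η.M A) y) := by rw [hNt, hNt, hxy]
    have e2 := hN.1 e1
    rw [← h1, ← h1] at e2
    exact Subtype.ext (hb.1 e2)
  · intro b
    obtain ⟨w, hw⟩ := hN.2 (η.t B b)
    obtain ⟨x, hx⟩ := hb.2 w
    have hsurj : Function.Surjective (PrimeSpectrum.comap (f.comp (η.q A))) := by
      intro P
      obtain ⟨Q, hQ⟩ := (Groth.Agent.S13803.result η A hA).1.2 P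
      obtain ⟨Q', hQ'⟩ := Groth.Agent.Lib.Helper20.exists_comap_eq_of_injective_Nmap η f hN.1 Q
      exact ⟨Q', by rw [PrimeSpectrum.comap_comp_apply, hQ', hQ]⟩
    have hint : (f.comp (η.q A)).IsIntegral :=
      RingHom.IsIntegral.trans _ _ (Groth.Agent.S13802.result η A hA) hf
    have hxM : x ∈ η.M A := by
      rw [Groth.Agent.S13816.result η (f.comp (η.q A)) hint hsurj x,
        Groth.Agent.Lib.Helper20.Nmap_comp, hx, hw]
      exact η.t_mem_M B b
    refine ⟨⟨x, hxM⟩, htB ?_⟩
    rw [← hNt, ← h1]
    show η.Nmap f (η.Nmap (η.q A) x) = η.t B b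
    rw [hx, hw]

end Groth.Agent.S13805
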