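import Groth.Statements.S13811
import Groth.Agent.Lib.Helper20.EtaPt3

set_option autoImplicit false
universe u
open EtaPt

namespace Groth.Agent.S13811

/-- If f : A → B is an integral ring map with N_η(f) bijective, then every ring map from A to a
valuation ring R at whose fraction field η is bijective factors through f. Here η is a natural
transformation from the identity of the category of fields to an endofunctor F with F(η_K) bijective
and η_K purely inseparable for every field K, N_η(A) is the product of the F(k(p)) over the primes p
of A with diagonal map t_A, and M_η(A) ⊆ N_η(A) is the subring of elements sent into the range of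
t_R by every ring map from A to a valuation ring R at whose fraction field η is bijective; q_A : A →
M_η(A) is the corestriction of t_A. -/
theorem result (η : EtaPt.FieldEndo.{u}) {A B : Type u} [CommRing A] [CommRing B] (f : A →+* B)
    (hf : f.IsIntegral) (hN : Function.Bijective (η.Nmap f))
    (R : Type u) [CommRing R] [IsDomain R] [ValuationRing R] (hR : η.InV R) (g : A →+* R) :
    ∃ g' : B →+* R, g'.comp f = g := by
  classical
  let K := (⊥ : Ideal R).ResidueField
  let p : PrimeSpectrum A := PrimeSpectrum.comap g (Groth.Agent.Lib.Helper20.gen R)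
  obtain ⟨q, hq⟩ := Groth.Agent.Lib.Helper20.exists_comap_eq_of_injective_Nmap η f hN.1 p
  have hsurj := Groth.Agent.Lib.Helper20.map_surjective_of_surjective_Nmap η f hN.2 q p hq
  let φ := Ideal.ResidueField.map p.asIdeal q.asIdeal f (by rw [← hq]; rfl)
  have hFφ : Function.Bijective (η.map φ) := ⟨(η.map φ).injective, hsurj⟩
  let ι := Ideal.ResidueField.map p.asIdeal (Groth.Agent.Lib.Helper20.gen R).asIdeal g rfl
  have hηK : Function.Bijective (η.eta K) := Groth.Agent.Lib.Helper20.eta_bijective_bot η R hR
  let eF := RingEquiv.ofBijective (η.map φ) hFφ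
  let eK := RingEquiv.ofBijective (η.eta K) hηK
  let ψ : q.asIdeal.ResidueField →+* K :=
    (eK.symm.toRingHom).comp ((η.map ι).comp ((eF.symm.toRingHom).comp (η.eta _)))
  let G : B →+* K := ψ.comp (algebraMap B q.asIdeal.ResidueField)
  have hGf : ∀ a, G (f a) = algebraMap R K (g a) := by
    intro a
    show eK.symm (η.map ι (eF.symm (η.eta _ (algebraMap B _ (f a))))) = _
    rw [← Ideal.ResidueField.map_algebraMap p.asIdeal q.asIdeal f (by rw [← hq]; rfl) a]
    rw [← Groth.Agent.Lib.Helper20.eta_natural_apply η φ]
    have h1 : eF.symm (η.map φ (η.eta _ (algebraMap A _ a))) = η.eta _ (algebraMap A _ a) :=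
      eF.symm_apply_apply _
    have hι : ι (algebraMap A _ a) = algebraMap R (Groth.Agent.Lib.Helper20.gen R).asIdeal.ResidueField (g a) :=
      Ideal.ResidueField.map_algebraMap _ _ _ _ a
    rw [h1, Groth.Agent.Lib.Helper20.eta_natural_apply η ι, hι]
    exact eK.symm_apply_apply _
  have hint : ∀ b, ∃ r : R, algebraMap R K r = G b := by
    intro b
    have hb : IsIntegral R (G b) := by
      obtain ⟨P, hPm, hP⟩ := hf b
      refine ⟨P.map g, hPm.map g, ?_⟩
      rw [Polynomial.eval₂_map]
      have : (algebraMap R K).comp g = G.comp f := by
        ext a; exact (hGf a).symm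
      rw [this, ← Polynomial.hom_eval₂, hP, map_zero]
    exact (IsIntegrallyClosed.isIntegral_iff (K := K)).mp hb
  choose r hr using hint
  have hinjK : Function.Injective (algebraMap R K) :=
    Groth.Agent.Lib.Helper20.algebraMap_residueField_bot_injective R
  let g' : B →+* R :=
    { toFun := r
      map_one' := hinjK (by rw [hr, map_one, map_one])
      map_mul' := fun a b => hinjK (by rw [hr, map_mul, map_mul, hr, hr])
      map_zero' := hinjK (by rw [hr, map_zero, map_zero])
      map_add' := fun a b => hinjK (by rw [hr, map_add, map_add, hr, hr]) }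
  refine ⟨g', ?_⟩
  ext a
  apply hinjK
  show algebraMap R K (r (f a)) = _
  rw [hr, hGf]

end Groth.Agent.S13811
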