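import Groth.Statements.S13806
import Groth.Agent.Lib.Helper20.EtaPt3
import Groth.Agent.S13811

set_option autoImplicit false
universe u
open EtaPt

namespace Groth.Agent.S13806

/-- For a commutative ring A with finitely many minimal prime ideals and an integral ring map g : A → B
with N_η(g) bijective, there is exactly one ring map g' : B → M_η(A) with g' ∘ g = q_A. Here η is a
natural transformation from the identity of the category of fields to an endofunctor F with F(η_K)
bijective and η_K purely inseparable for every field K, N_η(A) is the product of the F(k(p)) over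
the primes p of A with diagonal map t_A, and M_η(A) ⊆ N_η(A) is the subring of elements sent into
the range of t_R by every ring map from A to a valuation ring R at whose fraction field η is
bijective; q_A : A → M_η(A) is the corestriction of t_A. -/
theorem result (η : EtaPt.FieldEndo.{u}) (A : Type u) [CommRing A]
    (hA : (minimalPrimes A).Finite) (B : Type u) [CommRing B] (g : A →+* B)
    (hg : g.IsIntegral) (hN : Function.Bijective (η.Nmap g)) :
    ∃! g' : B →+* η.M A, g'.comp g = η.q A := by
  classical
  let e := RingEquiv.ofBijective (η.Nmap g) hN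
  let G : B →+* η.N A := e.symm.toRingHom.comp (η.t B)
  have hGt : ∀ b, η.Nmap g (G b) = η.t B b := fun b => e.apply_symm_apply _
  have hGmem : ∀ b, G b ∈ η.M A := by
    intro b R _ _ _ hR h
    obtain ⟨h', hh'⟩ := Groth.Agent.S13811.result η g hg hN R hR h
    rw [← hh', Groth.Agent.Lib.Helper20.Nmap_comp, hGt, η.Nmap_t_apply]
    exact ⟨h' b, rfl⟩
  let g' : B →+* η.M A := G.codRestrict (η.M A) hGmem
  refine ⟨g', ?_, ?_⟩
  · refine RingHom.ext (fun a => Subtype.ext ?_)
    show G (g a) = η.t A a
    show e.symm (η.t B (g a)) = η.t A a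
    rw [← η.Nmap_t_apply g a]
    exact e.symm_apply_apply _
  · intro g'' hg''
    refine RingHom.ext (fun b => Subtype.ext ?_)
    show (g'' b : η.N A) = G b
    apply hN.1
    show η.Nmap g (g'' b) = η.Nmap g (G b)
    rw [hGt]
    funext q
    let σ : B →+* η.obj q.asIdeal.ResidueField :=
      (Pi.evalRingHom (fun q : PrimeSpectrum B => η.obj q.asIdeal.ResidueField) q).comp
        ((η.Nmap g).comp ((η.M A).subtype.comp g''))
    let τ : B →+* η.obj q.asIdeal.ResidueField :=
      (Pi.evalRingHom (fun q : PrimeSpectrum B => η.obj q.asIdeal.ResidueField) q).comp (η.t B)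
    have hστ : ∀ a, σ (g a) = τ (g a) := by
      intro a
      show η.Nmap g ((g'' (g a) : η.M A) : η.N A) q = η.t B (g a) q
      have h1 : g'' (g a) = η.q A a := RingHom.congr_fun hg'' a
      rw [h1]
      show η.Nmap g (η.t A a) q = _
      rw [η.Nmap_t_apply]
    have hker : ∀ c, σ c = 0 → τ c = 0 := by
      intro c hc
      let Q : PrimeSpectrum B := ⟨RingHom.ker σ, RingHom.ker_isPrime σ⟩
      have hQ : PrimeSpectrum.comap g Q = PrimeSpectrum.comap g q := by
        ext a
        simp only [PrimeSpectrum.comap_asIdeal, Ideal.mem_comap, RingHom.mem_ker, Q]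
        rw [hστ a]
        show η.eta _ (algebraMap B q.asIdeal.ResidueField (g a)) = 0 ↔ g a ∈ q.asIdeal
        rw [map_eq_zero, Ideal.algebraMap_residueField_eq_zero]
      have hQq := Groth.Agent.Lib.Helper20.comap_injective_of_surjective_Nmap η g hN.2 hQ
      have hcQ : c ∈ Q.asIdeal := hc
      rw [hQq] at hcQ
      show η.eta _ (algebraMap B q.asIdeal.ResidueField c) = 0
      rw [Ideal.algebraMap_residueField_eq_zero.mpr hcQ, map_zero]
    show σ b = τ b
    let p := PrimeSpectrum.comap g q
    let φ := Ideal.ResidueField.map p.asIdeal q.asIdeal g rfl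
    have hsurj := Groth.Agent.Lib.Helper20.map_surjective_of_surjective_Nmap η g hN.2 q p rfl
    obtain ⟨z', hz'⟩ := hsurj (σ b)
    obtain ⟨n, c, hc⟩ := η.exists_pow_mem_range_eta _ z'
    obtain ⟨x, y, hy, hxy⟩ := IsFractionRing.div_surjective (A := A ⧸ p.asIdeal) c
    obtain ⟨a, rfl⟩ := Ideal.Quotient.mk_surjective x
    obtain ⟨s, rfl⟩ := Ideal.Quotient.mk_surjective y
    rw [Ideal.algebraMap_quotient_residueField_mk, Ideal.algebraMap_quotient_residueField_mk] at hxy
    have hs : s ∉ p.asIdeal := by
      intro hs
      apply nonZeroDivisors.ne_zero hy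
      exact Ideal.Quotient.eq_zero_iff_mem.mpr hs
    have hsne : algebraMap A p.asIdeal.ResidueField s ≠ 0 := fun h =>
      hs (Ideal.algebraMap_residueField_eq_zero.mp h)
    have hca : c * algebraMap A _ s = algebraMap A _ a := by
      rw [← hxy, div_mul_cancel₀ _ hsne]
    have hτg : ∀ x, τ (g x) = η.eta _ (φ (algebraMap A _ x)) := by
      intro x
      show η.eta _ (algebraMap B _ (g x)) = _
      congr 1
      exact (Ideal.ResidueField.map_algebraMap p.asIdeal q.asIdeal g rfl x).symm
    have hσN : σ b ^ (ringExpChar p.asIdeal.ResidueField ^ n) = η.eta _ (φ c) := by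
      rw [← hz', ← map_pow, ← hc, Groth.Agent.Lib.Helper20.eta_natural_apply]
    have h1 : σ (b ^ (ringExpChar p.asIdeal.ResidueField ^ n) * g s - g a) = 0 := by
      rw [map_sub, map_mul, map_pow, hσN, hστ, hστ, hτg, hτg, ← map_mul, ← map_mul, hca, sub_self]
    have h2 := hker _ h1
    rw [map_sub, map_mul, map_pow, hτg, hτg, sub_eq_zero] at h2
    have h3 : σ b ^ (ringExpChar p.asIdeal.ResidueField ^ n) * η.eta _ (φ (algebraMap A _ s)) =
        η.eta _ (φ (algebraMap A _ a)) := by
      rw [hσN, ← map_mul, ← map_mul, hca]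
    have hne : η.eta _ (φ (algebraMap A _ s)) ≠ 0 := by
      rw [Ne, map_eq_zero, map_eq_zero]
      exact hsne
    have h4 : σ b ^ (ringExpChar p.asIdeal.ResidueField ^ n) =
        τ b ^ (ringExpChar p.asIdeal.ResidueField ^ n) :=
      mul_right_cancel₀ hne (h3.trans h2.symm)
    exact Groth.Agent.Lib.Helper20.pow_expChar_pow_injective_of_field
      ((η.eta q.asIdeal.ResidueField).comp φ) n h4

end Groth.Agent.S13806
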