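import Groth.Statements.S13807
import Groth.Agent.Lib.Helper20.EtaPt

set_option autoImplicit false
universe u
open EtaPt

namespace Groth.Agent.S13807

/-- For a field K the pointwise ring M_η(K) is all of N_η(K) = F(k((0))). Here η is a natural
transformation from the identity of the category of fields to an endofunctor F with F(η_K) bijective
and η_K purely inseparable for every field K, N_η(A) is the product of the F(k(p)) over the primes p
of A with diagonal map t_A, and M_η(A) ⊆ N_η(A) is the subring of elements sent into the range of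
t_R by every ring map from A to a valuation ring R at whose fraction field η is bijective; q_A : A →
M_η(A) is the corestriction of t_A. -/
theorem result (η : EtaPt.FieldEndo.{u}) (K : Type u) [Field K] : η.M K = ⊤ := by
  classical
  rw [eq_top_iff]
  intro x _
  intro R _ _ _ hR g
  let P0 : PrimeSpectrum K := default
  have hP : ∀ P : PrimeSpectrum K, P = P0 := fun P => Subsingleton.elim _ _
  have : P0.asIdeal.IsMaximal := by
    rw [Ideal.eq_bot_of_prime P0.asIdeal]; exact Ideal.bot_isMaximal
  obtain ⟨n, z, hz⟩ := η.exists_pow_mem_range_eta P0.asIdeal.ResidueField (x P0)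
  obtain ⟨a, rfl⟩ := Ideal.algebraMap_residueField_surjective P0.asIdeal z
  set e := ringExpChar P0.asIdeal.ResidueField with he_def
  have he : ExpChar P0.asIdeal.ResidueField e := ringExpChar.of_eq rfl
  -- the key identity at every prime of R
  have claim : ∀ (q : PrimeSpectrum R) (P : PrimeSpectrum K) (h : P.asIdeal = q.asIdeal.comap g),
      (η.map (Ideal.ResidueField.map P.asIdeal q.asIdeal g h) (x P)) ^ e ^ n =
        η.eta q.asIdeal.ResidueField (algebraMap R q.asIdeal.ResidueField (g a)) := by
    intro q P h
    obtain rfl : P = P0 := hP P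
    rw [← map_pow, ← hz, Groth.Agent.Lib.Helper20.eta_natural_apply,
      Ideal.ResidueField.map_algebraMap]
  have hw : ∀ q : PrimeSpectrum R, (η.Nmap g x q) ^ e ^ n =
      η.eta q.asIdeal.ResidueField (algebraMap R q.asIdeal.ResidueField (g a)) :=
    fun q => claim q (PrimeSpectrum.comap g q) rfl
  -- exponential characteristic of each `F(k(q))`
  have hexp : ∀ q : PrimeSpectrum R, ExpChar (η.obj q.asIdeal.ResidueField) e := by
    intro q
    have h0 : P0.asIdeal = q.asIdeal.comap g := by
      rw [← hP (PrimeSpectrum.comap g q)]; rfl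
    exact expChar_of_injective_ringHom
      (f := (η.eta q.asIdeal.ResidueField).comp (Ideal.ResidueField.map P0.asIdeal q.asIdeal g h0))
      (RingHom.injective _) e
  -- the generic point of R
  let q₀ : PrimeSpectrum R := ⟨⊥, Ideal.isPrime_bot⟩
  obtain ⟨y, hy⟩ := (Groth.Agent.Lib.Helper20.eta_bijective_bot η R hR).2 (η.Nmap g x q₀)
  have hy2 : y ^ e ^ n = algebraMap R (⊥ : Ideal R).ResidueField (g a) := by
    apply (η.eta (⊥ : Ideal R).ResidueField).injective
    rw [map_pow, hy]
    exact hw q₀
  have he0 : e ^ n ≠ 0 := pow_ne_zero _ (expChar_pos P0.asIdeal.ResidueField e).ne'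
  have hyint : IsIntegral R y := by
    refine ⟨Polynomial.X ^ (e ^ n) - Polynomial.C (g a), Polynomial.monic_X_pow_sub_C _ he0, ?_⟩
    rw [Polynomial.eval₂_sub, Polynomial.eval₂_X_pow, Polynomial.eval₂_C, hy2, sub_self]
  obtain ⟨r, hr⟩ := (IsIntegrallyClosed.isIntegral_iff (R := R)
    (K := (⊥ : Ideal R).ResidueField)).mp hyint
  have hr2 : r ^ e ^ n = g a := by
    apply IsFractionRing.injective R (⊥ : Ideal R).ResidueField
    rw [map_pow, hr, hy2]
  refine ⟨r, ?_⟩
  funext q
  haveI := hexp q
  apply iterateFrobenius_inj (η.obj q.asIdeal.ResidueField) e n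
  rw [iterateFrobenius_def, iterateFrobenius_def, hw q]
  show (η.eta q.asIdeal.ResidueField (algebraMap R q.asIdeal.ResidueField r)) ^ e ^ n = _
  rw [← map_pow, ← map_pow, hr2]

end Groth.Agent.S13807
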