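import Groth.Statements.S13808
import Groth.Agent.Lib.Helper20.EtaPt2

set_option autoImplicit false
universe u
open EtaPt

namespace Groth.Agent.S13808

/-- For an integral domain A such that η is bijective at the fraction field of A, the projection of
N_η(A) onto its factor F(k((0))) at the generic point is injective on M_η(A). Here η is a natural
transformation from the identity of the category of fields to an endofunctor F with F(η_K) bijective
and η_K purely inseparable for every field K, N_η(A) is the product of the F(k(p)) over the primes p
of A with diagonal map t_A, and M_η(A) ⊆ N_η(A) is the subring of elements sent into the range of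
t_R by every ring map from A to a valuation ring R at whose fraction field η is bijective; q_A : A →
M_η(A) is the corestriction of t_A. -/
theorem result (η : EtaPt.FieldEndo.{u}) (A : Type u) [CommRing A] [IsDomain A] (hA : η.InV A) :
    Set.InjOn (fun x : η.N A => x ⟨⊥, Ideal.isPrime_bot⟩) (η.M A) := by
  intro x hx x' hx' hxx'
  simp only at hxx'
  funext P
  obtain ⟨V, g, hginj, hgP, -⟩ := Groth.Agent.Lib.Helper20.exists_valuationSubring_dominating A P
  have hV := Groth.Agent.Lib.Helper20.inV_valuationSubring η A hA V
  obtain ⟨r, hr⟩ := hx V hV g
  obtain ⟨r', hr'⟩ := hx' V hV g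
  have hgen := Groth.Agent.Lib.Helper20.comap_gen_of_injective g hginj
  -- equality at the generic point of V
  have e1 : x (PrimeSpectrum.comap g (Groth.Agent.Lib.Helper20.gen V)) =
      x' (PrimeSpectrum.comap g (Groth.Agent.Lib.Helper20.gen V)) := by
    rw [hgen]; exact hxx'
  have e2 : η.Nmap g x (Groth.Agent.Lib.Helper20.gen V) =
      η.Nmap g x' (Groth.Agent.Lib.Helper20.gen V) := by
    rw [Groth.Agent.Lib.Helper20.Nmap_apply, Groth.Agent.Lib.Helper20.Nmap_apply, e1]
  rw [← hr, ← hr'] at e2
  have hrr : r = r' := by
    rw [Groth.Agent.Lib.Helper20.t_apply, Groth.Agent.Lib.Helper20.t_apply] at e2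
    exact Groth.Agent.Lib.Helper20.algebraMap_residueField_bot_injective V
      ((η.eta _).injective e2)
  have e3 : η.Nmap g x = η.Nmap g x' := by rw [← hr, ← hr', hrr]
  have e4 := congrFun e3 (IsLocalRing.closedPoint V)
  rw [Groth.Agent.Lib.Helper20.Nmap_apply, Groth.Agent.Lib.Helper20.Nmap_apply] at e4
  have e5 := (η.map _).injective e4
  rw [hgP] at e5
  exact e5

end Groth.Agent.S13808
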