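import Groth.Statements.S13809
import Groth.Agent.Lib.Helper20.EtaPt2
import Groth.Agent.S13808

set_option autoImplicit false
universe u
open EtaPt

namespace Groth.Agent.S13809

/-- For an integrally closed domain A such that η is bijective at the fraction field of A, the map q_A :
A → M_η(A) is bijective. Here η is a natural transformation from the identity of the category of
fields to an endofunctor F with F(η_K) bijective and η_K purely inseparable for every field K,
N_η(A) is the product of the F(k(p)) over the primes p of A with diagonal map t_A, and M_η(A) ⊆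
N_η(A) is the subring of elements sent into the range of t_R by every ring map from A to a valuation
ring R at whose fraction field η is bijective; q_A : A → M_η(A) is the corestriction of t_A. -/
theorem result (η : EtaPt.FieldEndo.{u}) (A : Type u) [CommRing A] [IsDomain A] [IsIntegrallyClosed A]
    (hA : η.InV A) : Function.Bijective (η.q A) := by
  classical
  refine ⟨?_, ?_⟩
  · intro a b hab
    exact Groth.Agent.Lib.Helper20.t_injective η A (congrArg Subtype.val hab)
  · rintro ⟨x, hx⟩
    have hbij := Groth.Agent.Lib.Helper20.eta_bijective_bot η A hA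
    obtain ⟨c, hc⟩ := hbij.2 (x (Groth.Agent.Lib.Helper20.gen A))
    have hclaim : c ∈ (algebraMap A (⊥ : Ideal A).ResidueField).range := by
      by_contra hnot
      let R : Subring (⊥ : Ideal A).ResidueField := (algebraMap A (⊥ : Ideal A).ResidueField).range
      have hRint : IsIntegrallyClosedIn R (⊥ : Ideal A).ResidueField := by
        rw [isIntegrallyClosedIn_iff]
        refine ⟨Subtype.val_injective, fun {z} hz => ?_⟩
        have hzA : IsIntegral A z := by
          obtain ⟨p, hpm, hp⟩ := hz
          let f : A →+* R := (algebraMap A (⊥ : Ideal A).ResidueField).rangeRestrict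
          have hfs : Function.Surjective f :=
            (algebraMap A (⊥ : Ideal A).ResidueField).rangeRestrict_surjective
          obtain ⟨q, hq, -, hqm⟩ := Polynomial.lifts_and_degree_eq_and_monic
            (Polynomial.map_surjective f hfs p) hpm
          refine ⟨q, hqm, ?_⟩
          rw [← hp, ← hq, Polynomial.eval₂_map]
          rfl
        obtain ⟨y, hy⟩ := (IsIntegrallyClosed.isIntegral_iff
          (K := (⊥ : Ideal A).ResidueField)).mp hzA
        exact ⟨⟨algebraMap A _ y, y, rfl⟩, hy⟩
      obtain ⟨V, hRV, hcV⟩ := Subring.exists_le_valuationSubring_of_isIntegrallyClosedIn hnot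
      let g : A →+* V := (algebraMap A (⊥ : Ideal A).ResidueField).codRestrict V.toSubring
        (fun a => hRV ⟨a, rfl⟩)
      have hgval : ∀ a, (g a : (⊥ : Ideal A).ResidueField) = algebraMap A _ a := fun a => rfl
      have hginj : Function.Injective g := fun a b h =>
        (IsFractionRing.injective A (⊥ : Ideal A).ResidueField) (by rw [← hgval, ← hgval, h])
      have hV : η.InV V := Groth.Agent.Lib.Helper20.eta_bijective_of_equiv η
        ((IsLocalization.algEquiv (nonZeroDivisors A) (FractionRing A)
          (⊥ : Ideal A).ResidueField).toRingEquiv.trans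
          (IsLocalization.algEquiv (nonZeroDivisors V) (⊥ : Ideal A).ResidueField
            (FractionRing V)).toRingEquiv) hA
      obtain ⟨r, hr⟩ := hx V hV g
      have hgen := Groth.Agent.Lib.Helper20.comap_gen_of_injective g hginj
      have e1 := Groth.Agent.Lib.Helper20.Nmap_apply_of_eq η g x
        (Groth.Agent.Lib.Helper20.gen V) (Groth.Agent.Lib.Helper20.gen A) hgen
      rw [← hr, Groth.Agent.Lib.Helper20.t_apply, ← hc] at e1
      have e1' := e1.trans (Groth.Agent.Lib.Helper20.eta_natural_apply η _ c)
      have e2 := (η.eta (Groth.Agent.Lib.Helper20.gen V).asIdeal.ResidueField).injective e1'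
      let ψ := IsLocalization.algEquiv (nonZeroDivisors V) (⊥ : Ideal V).ResidueField
        (⊥ : Ideal A).ResidueField
      have hψφ : (ψ.toRingEquiv.toRingHom).comp (Ideal.ResidueField.map
          (Groth.Agent.Lib.Helper20.gen A).asIdeal (Groth.Agent.Lib.Helper20.gen V).asIdeal g
          (by rw [← hgen]; rfl)) = RingHom.id _ := by
        apply IsLocalization.ringHom_ext (nonZeroDivisors A)
        ext a
        simp only [RingHom.comp_apply, RingHom.id_apply]
        rw [Ideal.ResidueField.map_algebraMap]
        show ψ (algebraMap V _ (g a)) = _
        rw [AlgEquiv.commutes]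
        rfl
      have hcr : c = (r : (⊥ : Ideal A).ResidueField) := by
        have h1 := congrArg ψ e2
        have h2 := RingHom.congr_fun hψφ c
        simp only [RingHom.comp_apply, RingHom.id_apply] at h2
        rw [← h2]
        show ψ _ = _
        rw [← h1, AlgEquiv.commutes]
        rfl
      exact hcV (hcr ▸ r.2)
    obtain ⟨a, rfl⟩ := hclaim
    refine ⟨a, Subtype.ext ?_⟩
    show η.t A a = x
    apply Groth.Agent.S13808.result η A hA (η.t_mem_M A a) hx
    show η.t A a (Groth.Agent.Lib.Helper20.gen A) = x (Groth.Agent.Lib.Helper20.gen A)
    rw [Groth.Agent.Lib.Helper20.t_apply]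
    exact hc

end Groth.Agent.S13809
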