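import Groth.Statements.S13810
import Groth.Agent.Lib.Helper20.EtaPt3
import Mathlib.RingTheory.Spectrum.Prime.Topology
import Mathlib.RingTheory.SurjectiveOnStalks

set_option autoImplicit false
universe u
open EtaPt

namespace Groth.Agent.S13810

/-- For commutative rings A and B, the pair of maps N_η of the two projections restricts to a bijection
from M_η(A × B) onto M_η(A) × M_η(B). Here η is a natural transformation from the identity of the
category of fields to an endofunctor F with F(η_K) bijective and η_K purely inseparable for every
field K, N_η(A) is the product of the F(k(p)) over the primes p of A with diagonal map t_A, and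
M_η(A) ⊆ N_η(A) is the subring of elements sent into the range of t_R by every ring map from A to a
valuation ring R at whose fraction field η is bijective; q_A : A → M_η(A) is the corestriction of
t_A. -/
theorem result (η : EtaPt.FieldEndo.{u}) (A B : Type u) [CommRing A] [CommRing B] :
    Set.BijOn (fun x : η.N (A × B) => (η.Nmap (RingHom.fst A B) x, η.Nmap (RingHom.snd A B) x))
      (η.M (A × B)) ((η.M A : Set (η.N A)) ×ˢ (η.M B : Set (η.N B))) := by
  classical
  have hfst : Function.Surjective (RingHom.fst A B) := fun a => ⟨(a, 0), rfl⟩
  have hsnd : Function.Surjective (RingHom.snd A B) := fun b => ⟨(0, b), rfl⟩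
  have hcases : ∀ P : PrimeSpectrum (A × B),
      (∃ p, PrimeSpectrum.comap (RingHom.fst A B) p = P) ∨
        (∃ p, PrimeSpectrum.comap (RingHom.snd A B) p = P) := by
    intro P
    rcases h : PrimeSpectrum.primeSpectrumProd A B P with p | p
    · left
      refine ⟨p, ?_⟩
      rw [← PrimeSpectrum.primeSpectrumProd_symm_inl, ← h, Equiv.symm_apply_apply]
    · right
      refine ⟨p, ?_⟩
      rw [← PrimeSpectrum.primeSpectrumProd_symm_inr, ← h, Equiv.symm_apply_apply]
  have hdisj : ∀ (p : PrimeSpectrum A) (p' : PrimeSpectrum B),
      PrimeSpectrum.comap (RingHom.fst A B) p ≠ PrimeSpectrum.comap (RingHom.snd A B) p' := by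
    intro p p' h
    have h1 : ((0 : A), (1 : B)) ∈ (PrimeSpectrum.comap (RingHom.fst A B) p).asIdeal := by
      show (0 : A) ∈ p.asIdeal
      exact p.asIdeal.zero_mem
    rw [h] at h1
    exact p'.isPrime.ne_top ((Ideal.eq_top_iff_one _).mpr h1)
  have hbij : ∀ {C : Type u} [CommRing C] (f : A × B →+* C) (_ : Function.Surjective f)
      (P : PrimeSpectrum (A × B)) (p : PrimeSpectrum C) (hP : P.asIdeal = Ideal.comap f p.asIdeal),
      Function.Bijective (η.map (Ideal.ResidueField.map P.asIdeal p.asIdeal f hP)) := by
    intro C _ f hf P p hP
    have hb := RingHom.SurjectiveOnStalks.residueFieldMap_bijective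
      (RingHom.surjectiveOnStalks_of_surjective hf) P.asIdeal p.asIdeal hP
    exact Groth.Agent.Lib.Helper20.map_bijective_of_equiv η (RingEquiv.ofBijective _ hb)
  have gen : ∀ {K L : Type u} [Field K] [Field L] (F : K →+* L) (hF : Function.Bijective F)
      (w : L), F ((RingEquiv.ofBijective F hF).symm w) = w :=
    fun F hF w => (RingEquiv.ofBijective F hF).apply_symm_apply w
  refine ⟨?_, ?_, ?_⟩
  · -- maps to
    intro x hx
    refine ⟨?_, ?_⟩
    · intro R _ _ _ hR g
      show η.Nmap g (η.Nmap (RingHom.fst A B) x) ∈ (η.t R).range
      rw [← Groth.Agent.Lib.Helper20.Nmap_comp]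
      exact hx R hR (g.comp (RingHom.fst A B))
    · intro R _ _ _ hR g
      show η.Nmap g (η.Nmap (RingHom.snd A B) x) ∈ (η.t R).range
      rw [← Groth.Agent.Lib.Helper20.Nmap_comp]
      exact hx R hR (g.comp (RingHom.snd A B))
  · -- injective
    intro x _ x' _ hxx'
    funext P
    rcases hcases P with ⟨p, rfl⟩ | ⟨p, rfl⟩
    · have h1 := congrFun (congrArg Prod.fst hxx') p
      simp only at h1
      rw [Groth.Agent.Lib.Helper20.Nmap_apply, Groth.Agent.Lib.Helper20.Nmap_apply] at h1
      exact (η.map _).injective h1
    · have h1 := congrFun (congrArg Prod.snd hxx') p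
      simp only at h1
      rw [Groth.Agent.Lib.Helper20.Nmap_apply, Groth.Agent.Lib.Helper20.Nmap_apply] at h1
      exact (η.map _).injective h1
  · -- surjective
    rintro ⟨y, z⟩ ⟨hy, hz⟩
    let invF : ∀ (P : PrimeSpectrum (A × B)) (p : PrimeSpectrum A)
        (_ : PrimeSpectrum.comap (RingHom.fst A B) p = P),
        η.obj p.asIdeal.ResidueField → η.obj P.asIdeal.ResidueField :=
      fun P p hP => (RingEquiv.ofBijective _ (hbij (RingHom.fst A B) hfst P p
        (by rw [← hP]; rfl))).symm
    let invS : ∀ (P : PrimeSpectrum (A × B)) (p : PrimeSpectrum B)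
        (_ : PrimeSpectrum.comap (RingHom.snd A B) p = P),
        η.obj p.asIdeal.ResidueField → η.obj P.asIdeal.ResidueField :=
      fun P p hP => (RingEquiv.ofBijective _ (hbij (RingHom.snd A B) hsnd P p
        (by rw [← hP]; rfl))).symm
    let x : η.N (A × B) := fun P =>
      if h : ∃ p, PrimeSpectrum.comap (RingHom.fst A B) p = P then
        invF P h.choose h.choose_spec (y h.choose)
      else if h' : ∃ p, PrimeSpectrum.comap (RingHom.snd A B) p = P then
        invS P h'.choose h'.choose_spec (z h'.choose)
      else 0
    have hxF : η.Nmap (RingHom.fst A B) x = y := by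
      funext p
      rw [Groth.Agent.Lib.Helper20.Nmap_apply]
      have hex : ∃ p', PrimeSpectrum.comap (RingHom.fst A B) p' =
          PrimeSpectrum.comap (RingHom.fst A B) p := ⟨p, rfl⟩
      have hxP : x (PrimeSpectrum.comap (RingHom.fst A B) p) =
          invF _ hex.choose hex.choose_spec (y hex.choose) := dif_pos hex
      rw [hxP]
      have key : ∀ (p₀ : PrimeSpectrum A)
          (h₀ : PrimeSpectrum.comap (RingHom.fst A B) p₀ = PrimeSpectrum.comap (RingHom.fst A B) p),
          η.map (Ideal.ResidueField.map (PrimeSpectrum.comap (RingHom.fst A B) p).asIdeal p.asIdeal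
            (RingHom.fst A B) rfl) (invF _ p₀ h₀ (y p₀)) = y p := by
        intro p₀ h₀
        have : p₀ = p := PrimeSpectrum.comap_injective_of_surjective _ hfst h₀
        subst this
        exact gen _ _ (y p₀)
      exact key _ hex.choose_spec
    have hxS : η.Nmap (RingHom.snd A B) x = z := by
      funext p
      rw [Groth.Agent.Lib.Helper20.Nmap_apply]
      have hnex : ¬ ∃ p', PrimeSpectrum.comap (RingHom.fst A B) p' =
          PrimeSpectrum.comap (RingHom.snd A B) p := fun ⟨p', hp'⟩ => hdisj p' p hp'
      have hex : ∃ p', PrimeSpectrum.comap (RingHom.snd A B) p' =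
          PrimeSpectrum.comap (RingHom.snd A B) p := ⟨p, rfl⟩
      have hxP : x (PrimeSpectrum.comap (RingHom.snd A B) p) =
          invS _ hex.choose hex.choose_spec (z hex.choose) := by
        show dite _ _ _ = _
        rw [dif_neg hnex, dif_pos hex]
      rw [hxP]
      have key : ∀ (p₀ : PrimeSpectrum B)
          (h₀ : PrimeSpectrum.comap (RingHom.snd A B) p₀ = PrimeSpectrum.comap (RingHom.snd A B) p),
          η.map (Ideal.ResidueField.map (PrimeSpectrum.comap (RingHom.snd A B) p).asIdeal p.asIdeal
            (RingHom.snd A B) rfl) (invS _ p₀ h₀ (z p₀)) = z p := by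
        intro p₀ h₀
        have : p₀ = p := PrimeSpectrum.comap_injective_of_surjective _ hsnd h₀
        subst this
        exact gen _ _ (z p₀)
      exact key _ hex.choose_spec
    refine ⟨x, ?_, ?_⟩
    · intro R _ _ _ hR h
      have h10 : h ((1 : A), (0 : B)) * h ((0 : A), (1 : B)) = 0 := by
        rw [← map_mul]
        have : ((1 : A), (0 : B)) * ((0 : A), (1 : B)) = 0 := by ext <;> simp
        rw [this, map_zero]
      rcases mul_eq_zero.mp h10 with h0 | h0
      · -- h factors through snd
        have hsplit : ∀ a : A, ∀ b : B, h (a, b) = h (0, b) := by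
          intro a b
          have e1 : (a, b) = ((a, 0) : A × B) * ((1 : A), (0 : B)) + ((0 : A), b) := by
            ext <;> simp
          rw [e1, map_add, map_mul, h0, mul_zero, zero_add]
        let h₁ : B →+* R :=
          { toFun := fun b => h (0, b)
            map_one' := by
              rw [← hsplit 1 1]; exact map_one h
            map_mul' := fun a b => by
              show h (0, a * b) = h (0, a) * h (0, b)
              rw [← map_mul]; congr 1; ext <;> simp
            map_zero' := by
              show h (0, 0) = 0
              exact map_zero h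
            map_add' := fun a b => by
              show h (0, a + b) = h (0, a) + h (0, b)
              rw [← map_add]; congr 1; ext <;> simp }
        have hh : h₁.comp (RingHom.snd A B) = h := by
          ext ⟨a, b⟩
          exact (hsplit a b).symm
        rw [← hh, Groth.Agent.Lib.Helper20.Nmap_comp, hxS]
        exact hz R hR h₁
      · -- h factors through fst
        have hsplit : ∀ a : A, ∀ b : B, h (a, b) = h (a, 0) := by
          intro a b
          have e1 : (a, b) = ((a, 0) : A × B) + ((0 : A), b) * ((0 : A), (1 : B)) := by
            ext <;> simp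
          rw [e1, map_add, map_mul, h0, mul_zero, add_zero]
        let h₁ : A →+* R :=
          { toFun := fun a => h (a, 0)
            map_one' := by
              rw [← hsplit 1 1]; exact map_one h
            map_mul' := fun a b => by
              show h (a * b, 0) = h (a, 0) * h (b, 0)
              rw [← map_mul]; congr 1; ext <;> simp
            map_zero' := by
              show h (0, 0) = 0
              exact map_zero h
            map_add' := fun a b => by
              show h (a + b, 0) = h (a, 0) + h (b, 0)
              rw [← map_add]; congr 1; ext <;> simp }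
        have hh : h₁.comp (RingHom.fst A B) = h := by
          ext ⟨a, b⟩
          exact (hsplit a b).symm
        rw [← hh, Groth.Agent.Lib.Helper20.Nmap_comp, hxF]
        exact hy R hR h₁
    · show (η.Nmap (RingHom.fst A B) x, η.Nmap (RingHom.snd A B) x) = (y, z)
      rw [hxF, hxS]

end Groth.Agent.S13810
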