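import Groth.Statements.S13812
import Groth.Agent.Lib.Helper20.EtaPt3
import Groth.Agent.S13811

set_option autoImplicit false
universe u
open EtaPt

namespace Groth.Agent.S13812

/-- If f : A → B is an integral ring map (A any commutative ring) with N_η(f) bijective, then N_η(f)
restricts to a bijection from M_η(A) onto M_η(B). Here η is a natural transformation from the
identity of the category of fields to an endofunctor F with F(η_K) bijective and η_K purely
inseparable for every field K, N_η(A) is the product of the F(k(p)) over the primes p of A with
diagonal map t_A, and M_η(A) ⊆ N_η(A) is the subring of elements sent into the range of t_R by every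
ring map from A to a valuation ring R at whose fraction field η is bijective; q_A : A → M_η(A) is
the corestriction of t_A. -/
theorem result (η : EtaPt.FieldEndo.{u}) {A B : Type u} [CommRing A] [CommRing B] (f : A →+* B)
    (hf : f.IsIntegral) (hN : Function.Bijective (η.Nmap f)) :
    Set.BijOn (η.Nmap f) (η.M A) (η.M B) := by
  refine ⟨?_, hN.1.injOn, ?_⟩
  · intro x hx R _ _ _ hR h
    rw [← Groth.Agent.Lib.Helper20.Nmap_comp]
    exact hx R hR (h.comp f)
  · intro y hy
    obtain ⟨x, rfl⟩ := hN.2 y
    refine ⟨x, ?_, rfl⟩
    intro R _ _ _ hR g
    obtain ⟨g', rfl⟩ := Groth.Agent.S13811.result η f hf hN R hR g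
    rw [Groth.Agent.Lib.Helper20.Nmap_comp]
    exact hy R hR g'

end Groth.Agent.S13812
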