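import Groth.Statements.S13813
import Groth.Agent.Lib.Helper20.EtaPt4
import Mathlib.FieldTheory.Perfect

set_option autoImplicit false
universe u
open EtaPt

namespace Groth.Agent.S13813

/-- Let R be a valuation ring with fraction field K such that η is bijective at K, or such that every
field of the same characteristic as R at which η is bijective is perfect. Then evaluation at the
generic point maps M_η(R) injectively into F(K), with image exactly the elements of F(K) integral
over R (through η_K composed with R → K); here K is realised as the residue field of R at (0). (The
published statement assumes nothing about η beyond the standing conditions, and then fails: for the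
endofunctor equal to the perfect closure on the fields of characteristic 2 and transcendence degree
at least 2 over the prime field and to the identity on every other field, and R = F_2(s)[t]
localised at (t), the element s^(1/2) of F(K) is integral over R but is the generic component of no
element of M_η(R). This row assumes that η is bijective at Frac R, or that every field of the same
characteristic as R at which η is bijective is perfect; both the identity and the perfect closure
satisfy this.) Here η is a natural transformation from the identity of the category of fields to an
endofunctor F with F(η_K) bijective and η_K purely inseparable for every field K, N_η(A) is the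
product of the F(k(p)) over the primes p of A with diagonal map t_A, and M_η(A) ⊆ N_η(A) is the
subring of elements sent into the range of t_R by every ring map from A to a valuation ring R at
whose fraction field η is bijective; q_A : A → M_η(A) is the corestriction of t_A. -/
theorem result (η : EtaPt.FieldEndo.{u}) (R : Type u) [CommRing R] [IsDomain R] [ValuationRing R]
    (hη : η.InV R ∨ ∀ (k : Type u) [Field k], ringChar k = ringChar R →
      Function.Bijective (η.eta k) → PerfectField k) :
    Set.InjOn (fun x : η.N R => x ⟨⊥, Ideal.isPrime_bot⟩) (η.M R) ∧
      (fun x : η.N R => x ⟨⊥, Ideal.isPrime_bot⟩) '' (η.M R : Set (η.N R)) =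
        {y | ((η.eta (⊥ : Ideal R).ResidueField).comp (algebraMap R (⊥ : Ideal R).ResidueField)).IsIntegralElem y} := by
  classical
  refine ⟨Groth.Agent.Lib.Helper20.injOn_gen η R, ?_⟩
  set K := (⊥ : Ideal R).ResidueField with hK
  set ρ : R →+* η.obj K := (η.eta K).comp (algebraMap R K) with hρ
  have hcase1 : η.InV R → ∀ y, ρ.IsIntegralElem y →
      ∃ x ∈ η.M R, x ⟨⊥, Ideal.isPrime_bot⟩ = y := by
    intro hR y hy
    have hbij := Groth.Agent.Lib.Helper20.eta_bijective_bot η R hR
    obtain ⟨c, rfl⟩ := hbij.2 y
    obtain ⟨P, hPm, hP⟩ := hy
    have h0 : Polynomial.eval₂ (algebraMap R K) c P = 0 := by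
      apply (η.eta K).injective
      rw [map_zero, Polynomial.hom_eval₂]
      exact hP
    have hci : IsIntegral R c := ⟨P, hPm, h0⟩
    obtain ⟨r, rfl⟩ := (IsIntegrallyClosed.isIntegral_iff (K := K)).mp hci
    exact ⟨η.t R r, η.t_mem_M R r, rfl⟩
  ext y
  constructor
  · rintro ⟨x, hx, rfl⟩
    exact Groth.Agent.Lib.Helper20.gen_isIntegralElem η R x hx
  · intro hy
    show ∃ x ∈ η.M R, x ⟨⊥, Ideal.isPrime_bot⟩ = y
    rcases hη with hR | hperf
    · exact hcase1 hR y hy
    · set p := ringChar R with hpdef
      have hinjK : Function.Injective (algebraMap R K) :=
        Groth.Agent.Lib.Helper20.algebraMap_residueField_bot_injective R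
      rcases CharP.char_is_prime_or_zero R p with hp | h0
      · have hfact : Fact p.Prime := ⟨hp⟩
        have hKp : CharP K p := charP_of_injective_algebraMap hinjK p
        have hexpK : ringExpChar K = p := by
          have : ExpChar K p := ExpChar.prime hp
          exact ringExpChar.eq K p
        obtain ⟨n, c, hc⟩ := η.exists_pow_mem_range_eta K y
        rw [hexpK] at hc
        let alg : Algebra R (η.obj K) := ρ.toAlgebra
        have hyI : IsIntegral R y := hy
        have hyI' : IsIntegral R (η.eta K c) := by rw [hc]; exact hyI.pow _
        let φK : K →ₐ[R] η.obj K := { η.eta K with commutes' := fun r => rfl }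
        have hcI : IsIntegral R c := (isIntegral_algHom_iff φK (η.eta K).injective).mp hyI'
        obtain ⟨a, ha⟩ := (IsIntegrallyClosed.isIntegral_iff (K := K)).mp hcI
        have hroot : ∀ P : PrimeSpectrum R, ∃ w : η.obj P.asIdeal.ResidueField,
            w ^ p ^ n = η.eta _ (algebraMap R _ a) := by
          intro P
          have hcharP : CharP (η.obj P.asIdeal.ResidueField) p := by
            rw [CharP.charP_iff_prime_eq_zero hp,
              ← map_natCast ((η.eta _).comp (algebraMap R P.asIdeal.ResidueField)) p,
              CharP.cast_eq_zero, map_zero]
          have : ExpChar (η.obj P.asIdeal.ResidueField) p := ExpChar.prime hp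
          have hperfP : PerfectField (η.obj P.asIdeal.ResidueField) :=
            hperf _ (ringChar.eq _ p) (Groth.Agent.Lib.Helper20.eta_obj_bijective η _)
          have : PerfectRing (η.obj P.asIdeal.ResidueField) p := inferInstance
          obtain ⟨w, hw⟩ := ((bijective_frobenius (η.obj P.asIdeal.ResidueField) p).2.iterate n)
            (η.eta _ (algebraMap R _ a))
          refine ⟨w, ?_⟩
          rw [← iterate_frobenius]
          exact hw
        choose w hw using hroot
        refine ⟨w, ?_, ?_⟩
        · intro V _ _ _ hV h
          have hVp : CharP V p := by
            rw [CharP.charP_iff_prime_eq_zero hp, ← map_natCast h, CharP.cast_eq_zero, map_zero]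
          have hFp : CharP (FractionRing V) p :=
            charP_of_injective_algebraMap (IsFractionRing.injective V (FractionRing V)) p
          have : ExpChar (FractionRing V) p := ExpChar.prime hp
          have hFperf : PerfectField (FractionRing V) := hperf _ (ringChar.eq _ p) hV
          have : PerfectRing (FractionRing V) p := inferInstance
          obtain ⟨v, hv⟩ : ∃ v : V, v ^ p ^ n = h a := by
            obtain ⟨z, hz⟩ := ((bijective_frobenius (FractionRing V) p).2.iterate n)
              (algebraMap V (FractionRing V) (h a))
            rw [iterate_frobenius] at hz
            have hzI : IsIntegral V z := by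
              refine ⟨Polynomial.X ^ (p ^ n) - Polynomial.C (h a),
                Polynomial.monic_X_pow_sub_C _ (pow_ne_zero _ hp.ne_zero), ?_⟩
              simp [hz]
            obtain ⟨v, hv⟩ := (IsIntegrallyClosed.isIntegral_iff (K := FractionRing V)).mp hzI
            refine ⟨v, IsFractionRing.injective V (FractionRing V) ?_⟩
            rw [map_pow, hv, hz]
          refine ⟨v, ?_⟩
          funext Q
          have hQp : CharP Q.asIdeal.ResidueField p := by
            rw [CharP.charP_iff_prime_eq_zero hp,
              ← map_natCast (algebraMap V Q.asIdeal.ResidueField), CharP.cast_eq_zero, map_zero]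
          have hexpQ : ringExpChar Q.asIdeal.ResidueField = p := by
            have : ExpChar Q.asIdeal.ResidueField p := ExpChar.prime hp
            exact ringExpChar.eq _ p
          apply Groth.Agent.Lib.Helper20.pow_expChar_pow_injective_of_field
            (η.eta Q.asIdeal.ResidueField) n
          simp only
          rw [hexpQ, Groth.Agent.Lib.Helper20.t_apply, Groth.Agent.Lib.Helper20.Nmap_apply,
            ← map_pow, ← map_pow, ← map_pow, hw, Groth.Agent.Lib.Helper20.eta_natural_apply, hv]
          exact congrArg (η.eta _) (Ideal.ResidueField.map_algebraMap _ _ _ _ a).symm
        · apply Groth.Agent.Lib.Helper20.pow_expChar_pow_injective_of_field (η.eta K) n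
          simp only
          rw [hexpK]
          show w (Groth.Agent.Lib.Helper20.gen R) ^ p ^ n = y ^ p ^ n
          rw [hw, ← hc, ← ha]
      · -- characteristic zero
        have hK0 : CharP K 0 := by
          have : CharP R 0 := by rw [← h0]; exact ringChar.charP R
          exact charP_of_injective_algebraMap hinjK 0
        have hexpK : ringExpChar K = 1 := by
          have : CharZero K := CharP.charP_to_charZero K
          have : ExpChar K 1 := ExpChar.zero
          exact ringExpChar.eq K 1
        have hsurj : Function.Surjective (η.eta K) := by
          intro z
          obtain ⟨n, hn⟩ := η.exists_pow_mem_range_eta K z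
          rw [hexpK, one_pow, pow_one] at hn
          exact hn
        have hbijK : Function.Bijective (η.eta K) := ⟨(η.eta K).injective, hsurj⟩
        have hInV : η.InV R := Groth.Agent.Lib.Helper20.eta_bijective_of_equiv η
          (IsLocalization.algEquiv (nonZeroDivisors R) K (FractionRing R)).toRingEquiv hbijK
        exact hcase1 hInV y hy

end Groth.Agent.S13813
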