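import Groth.Statements.S13814
import Groth.Agent.Lib.Helper20.EtaPt4
import Groth.Agent.S13813

set_option autoImplicit false
universe u
open EtaPt

namespace Groth.Agent.S13814

/-- Let R be a valuation ring with fraction field K = k((0)) such that η is bijective at K, or such that
every field of the same characteristic as R at which η is bijective is perfect. Then the ring M_η(R)
is again a valuation ring, every element of F(K) is a quotient of generic components of elements of
M_η(R), and an element of F(K) that is both the generic component of an element of M_η(R) and in the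
image of K comes from R. (The published statement assumes nothing about η beyond the standing
conditions, and then fails: for the endofunctor equal to the perfect closure on the fields of
characteristic 2 and transcendence degree at least 2 over the prime field and to the identity on
every other field, and R = F_2(s)[t] localised at (t), neither of the elements (s^(1/2) t, 0) and
(t, 0) of M_η(R) ⊆ F(K) × F_2(s) divides the other, so M_η(R) is not a valuation ring. This row
assumes that η is bijective at Frac R, or that every field of the same characteristic as R at which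
η is bijective is perfect; both the identity and the perfect closure satisfy this.) Here η is a
natural transformation from the identity of the category of fields to an endofunctor F with F(η_K)
bijective and η_K purely inseparable for every field K, N_η(A) is the product of the F(k(p)) over
the primes p of A with diagonal map t_A, and M_η(A) ⊆ N_η(A) is the subring of elements sent into
the range of t_R by every ring map from A to a valuation ring R at whose fraction field η is
bijective; q_A : A → M_η(A) is the corestriction of t_A. -/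
theorem result (η : EtaPt.FieldEndo.{u}) (R : Type u) [CommRing R] [IsDomain R] [ValuationRing R]
    (hη : η.InV R ∨ ∀ (k : Type u) [Field k], ringChar k = ringChar R →
      Function.Bijective (η.eta k) → PerfectField k) :
    IsDomain (η.M R) ∧ PreValuationRing (η.M R) ∧
      (∀ y : η.obj (⊥ : Ideal R).ResidueField, ∃ a b : η.M R,
        (b : η.N R) ⟨⊥, Ideal.isPrime_bot⟩ ≠ 0 ∧
          y * (b : η.N R) ⟨⊥, Ideal.isPrime_bot⟩ = (a : η.N R) ⟨⊥, Ideal.isPrime_bot⟩) ∧
      (fun x : η.N R => x ⟨⊥, Ideal.isPrime_bot⟩) '' (η.M R : Set (η.N R)) ∩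
          Set.range (η.eta (⊥ : Ideal R).ResidueField) =
        Set.range ((η.eta (⊥ : Ideal R).ResidueField).comp (algebraMap R (⊥ : Ideal R).ResidueField)) := by
  classical
  obtain ⟨hinj, himg⟩ := Groth.Agent.S13813.result η R hη
  set K := (⊥ : Ideal R).ResidueField with hK
  set ρ : R →+* η.obj K := (η.eta K).comp (algebraMap R K) with hρ
  have hinjK : Function.Injective (algebraMap R K) :=
    Groth.Agent.Lib.Helper20.algebraMap_residueField_bot_injective R
  let ev : η.M R →+* η.obj K :=
    (Pi.evalRingHom (fun P : PrimeSpectrum R => η.obj P.asIdeal.ResidueField)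
      ⟨⊥, Ideal.isPrime_bot⟩).comp (η.M R).subtype
  have hevinj : Function.Injective ev := fun a b h => Subtype.ext (hinj a.2 b.2 h)
  have hmemimg : ∀ y, ρ.IsIntegralElem y → ∃ x : η.M R, ev x = y := by
    intro y hy
    have : y ∈ (fun x : η.N R => x ⟨⊥, Ideal.isPrime_bot⟩) '' (η.M R : Set (η.N R)) := by
      rw [himg]; exact hy
    obtain ⟨x, hx, rfl⟩ := this
    exact ⟨⟨x, hx⟩, rfl⟩
  have hintev : ∀ x : η.M R, ρ.IsIntegralElem (ev x) := by
    intro x
    have : ev x ∈ (fun x : η.N R => x ⟨⊥, Ideal.isPrime_bot⟩) '' (η.M R : Set (η.N R)) :=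
      ⟨x, x.2, rfl⟩
    rw [himg] at this
    exact this
  have hpow_int : ∀ (z : η.obj K) (m : ℕ) (r : R), m ≠ 0 → z ^ m = ρ r → ρ.IsIntegralElem z := by
    intro z m r hm hz
    refine ⟨Polynomial.X ^ m - Polynomial.C r, Polynomial.monic_X_pow_sub_C r hm, ?_⟩
    rw [Polynomial.eval₂_sub, Polynomial.eval₂_X_pow, Polynomial.eval₂_C, hz, sub_self]
  have hexp_pos : ∀ n, ringExpChar K ^ n ≠ 0 := by
    intro n
    apply pow_ne_zero
    have : 1 ≤ ringExpChar K := le_max_right _ _
    omega
  have hval : ∀ z : η.obj K, ρ.IsIntegralElem z ∨ ρ.IsIntegralElem z⁻¹ := by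
    intro z
    obtain ⟨n, c, hc⟩ := η.exists_pow_mem_range_eta K z
    rcases ValuationRing.isInteger_or_isInteger R c with ⟨r, hr⟩ | ⟨r, hr⟩
    · left
      exact hpow_int z _ r (hexp_pos n) (by rw [← hc, ← hr]; rfl)
    · right
      refine hpow_int z⁻¹ _ r (hexp_pos n) ?_
      rw [inv_pow, ← hc, ← map_inv₀, ← hr]
      rfl
  have hnontriv : Nontrivial (η.M R) := ⟨⟨0, 1, fun h => by
    have := congrArg ev h
    rw [map_zero, map_one] at this
    exact zero_ne_one this⟩⟩
  refine ⟨hevinj.isDomain ev, ?_, ?_, ?_⟩
  · constructor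
    intro a b
    by_cases ha : ev a = 0
    · refine ⟨0, Or.inr ?_⟩
      apply hevinj
      rw [map_mul, map_zero, mul_zero, ha]
    · rcases hval (ev b / ev a) with h | h
      · obtain ⟨c, hc⟩ := hmemimg _ h
        refine ⟨c, Or.inl ?_⟩
        apply hevinj
        rw [map_mul, hc, mul_div_cancel₀ _ ha]
      · by_cases hb : ev b = 0
        · refine ⟨0, Or.inl ?_⟩
          apply hevinj
          rw [map_mul, map_zero, mul_zero, hb]
        · rw [inv_div] at h
          obtain ⟨c, hc⟩ := hmemimg _ h
          refine ⟨c, Or.inr ?_⟩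
          apply hevinj
          rw [map_mul, hc, mul_div_cancel₀ _ hb]
  · intro y
    obtain ⟨n, c, hc⟩ := η.exists_pow_mem_range_eta K y
    obtain ⟨r, s, hs, hrs⟩ := IsFractionRing.div_surjective (A := R) c
    have hm := hexp_pos n
    have hs0 : algebraMap R K s ≠ 0 := fun h0 =>
      nonZeroDivisors.ne_zero hs (hinjK (by rw [h0, map_zero]))
    have hyint : ρ.IsIntegralElem (y * ρ s) := by
      refine hpow_int _ (ringExpChar K ^ n) (r * s ^ (ringExpChar K ^ n - 1)) hm ?_
      rw [mul_pow, ← hc, ← hrs]
      simp only [ρ, RingHom.comp_apply]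
      rw [← map_pow, ← map_mul]
      congr 1
      obtain ⟨k, hk⟩ : ∃ k, ringExpChar K ^ n = k + 1 := ⟨ringExpChar K ^ n - 1, by omega⟩
      rw [hk, Nat.add_sub_cancel, map_mul, map_pow, pow_succ,
        mul_comm (algebraMap R K s ^ k) (algebraMap R K s), ← mul_assoc, div_mul_cancel₀ _ hs0]
    obtain ⟨a, ha⟩ := hmemimg _ hyint
    refine ⟨a, η.q R s, ?_, ?_⟩
    · show η.eta K (algebraMap R K s) ≠ 0
      rw [Ne, map_eq_zero]
      exact hs0
    · show y * η.eta K (algebraMap R K s) = ev a
      rw [ha]
      rfl
  · ext z
    constructor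
    · rintro ⟨⟨x, hx, rfl⟩, ⟨c, hc⟩⟩
      have hzint := hintev ⟨x, hx⟩
      have hz : ev ⟨x, hx⟩ = η.eta K c := hc.symm
      rw [hz] at hzint
      obtain ⟨P, hPm, hP⟩ := hzint
      have h0 : Polynomial.eval₂ (algebraMap R K) c P = 0 := by
        apply (η.eta K).injective
        rw [map_zero, Polynomial.hom_eval₂]
        exact hP
      have hci : IsIntegral R c := ⟨P, hPm, h0⟩
      obtain ⟨r, hr⟩ := (IsIntegrallyClosed.isIntegral_iff (K := K)).mp hci
      refine ⟨r, ?_⟩
      show η.eta K (algebraMap R K r) = x ⟨⊥, Ideal.isPrime_bot⟩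
      rw [hr]
      exact hc
    · rintro ⟨r, rfl⟩
      exact ⟨⟨η.t R r, η.t_mem_M R r, rfl⟩, ⟨algebraMap R K r, rfl⟩⟩

end Groth.Agent.S13814
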