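import Groth.Statements.S13815
import Groth.Agent.Lib.Helper20.EtaPt7
import Groth.Agent.S13804

set_option autoImplicit false
universe u
open EtaPt

namespace Groth.Agent.S13815

/-- For a commutative ring A with finitely many minimal prime ideals, the two maps M_η(A) → M_η(M_η(A)),
namely q at the ring M_η(A) and the restriction of N_η(q_A), coincide, and this map is bijective.
Here η is a natural transformation from the identity of the category of fields to an endofunctor F
with F(η_K) bijective and η_K purely inseparable for every field K, N_η(A) is the product of the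
F(k(p)) over the primes p of A with diagonal map t_A, and M_η(A) ⊆ N_η(A) is the subring of elements
sent into the range of t_R by every ring map from A to a valuation ring R at whose fraction field η
is bijective; q_A : A → M_η(A) is the corestriction of t_A. -/
theorem result (η : EtaPt.FieldEndo.{u}) (A : Type u) [CommRing A] (hA : (minimalPrimes A).Finite) :
    (∀ x : η.M A, η.Nmap (η.q A) (x : η.N A) = η.t (η.M A) x) ∧ Function.Bijective (η.q (η.M A)) := by
  have h1 : ∀ x : η.M A, η.Nmap (η.q A) (x : η.N A) = η.t (η.M A) x :=
    Groth.Agent.Lib.Helper20.Nmap_q_eq_t η A hA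
  have hb := Groth.Agent.S13804.result η A hA
  refine ⟨h1, ?_, ?_⟩
  · intro x y hxy
    have h2 : η.t (η.M A) x = η.t (η.M A) y := congrArg Subtype.val hxy
    rw [← h1, ← h1] at h2
    exact Subtype.ext (hb.1 h2)
  · intro w
    obtain ⟨x, hx⟩ := hb.2 (w : η.N (η.M A))
    have hxM : x ∈ η.M A := by
      intro R _ _ _ hR g
      obtain ⟨h, hh⟩ := Groth.Agent.Lib.Helper20.exists_extend η A R hR g
      rw [← hh, Groth.Agent.Lib.Helper20.Nmap_comp, hx]
      exact w.2 R hR h
    refine ⟨⟨x, hxM⟩, Subtype.ext ?_⟩
    show η.t (η.M A) ⟨x, hxM⟩ = (w : η.N (η.M A))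
    rw [← h1]
    exact hx

end Groth.Agent.S13815
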