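import Groth.Statements.S13817
import Groth.Agent.Lib.Helper20.EtaPt11

set_option autoImplicit false
universe u
open EtaPt

namespace Groth.Agent.S13817

/-- For a ring map f : A → B with A having finitely many minimal prime ideals and Spec(f) surjective,
the map q_{B/A} : A → (B/A)_η is integral and induces a bijection on prime spectra. Here η is a
natural transformation from the identity of the category of fields to an endofunctor F with F(η_K)
bijective and η_K purely inseparable for every field K, N_η(A) is the product of the F(k(p)) over
the primes p of A with diagonal map t_A, and M_η(A) ⊆ N_η(A) is the subring of elements sent into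
the range of t_R by every ring map from A to a valuation ring R at whose fraction field η is
bijective; q_A : A → M_η(A) is the corestriction of t_A. For a ring map f : A → B, (B/A)_η ⊆ B
denotes the subring of elements b with t_B(b) in N_η(f)(M_η(A)) (the image in B of the fibre product
of M_η(A) and B over M_η(B)), and q_{B/A} : A → (B/A)_η the corestriction of f. -/
theorem result (η : EtaPt.FieldEndo.{u}) {A B : Type u} [CommRing A] [CommRing B] (hA : (minimalPrimes A).Finite)
    (f : A →+* B) (hs : Function.Surjective (PrimeSpectrum.comap f)) :
    (η.qRel f).IsIntegral ∧ Function.Bijective (PrimeSpectrum.comap (η.qRel f)) := by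
  exact ⟨Groth.Agent.Lib.Helper20.qRel_isIntegral η hA f,
    Groth.Agent.Lib.Helper20.comap_qRel_bijective η hA f hs⟩

end Groth.Agent.S13817
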