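import Groth.Statements.S13818
import Groth.Agent.Lib.Helper20.EtaPt11

set_option autoImplicit false
universe u
open EtaPt

namespace Groth.Agent.S13818

/-- For a ring map f : A → B with A having finitely many minimal prime ideals and Spec(f) surjective:
for every prime Q of (B/A)_η over the prime P of A, η at k(P) factors through the residue field map
k(P) → k(Q), and N_η(q_{B/A}) is bijective. Here η is a natural transformation from the identity of
the category of fields to an endofunctor F with F(η_K) bijective and η_K purely inseparable for
every field K, N_η(A) is the product of the F(k(p)) over the primes p of A with diagonal map t_A,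
and M_η(A) ⊆ N_η(A) is the subring of elements sent into the range of t_R by every ring map from A
to a valuation ring R at whose fraction field η is bijective; q_A : A → M_η(A) is the corestriction
of t_A. For a ring map f : A → B, (B/A)_η ⊆ B denotes the subring of elements b with t_B(b) in
N_η(f)(M_η(A)) (the image in B of the fibre product of M_η(A) and B over M_η(B)), and q_{B/A} : A →
(B/A)_η the corestriction of f. -/
theorem result (η : EtaPt.FieldEndo.{u}) {A B : Type u} [CommRing A] [CommRing B] (hA : (minimalPrimes A).Finite)
    (f : A →+* B) (hs : Function.Surjective (PrimeSpectrum.comap f)) :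
    (∀ Q : PrimeSpectrum (η.rel f),
        ∃ φ : Q.asIdeal.ResidueField →+* η.obj (PrimeSpectrum.comap (η.qRel f) Q).asIdeal.ResidueField,
          φ.comp (Ideal.ResidueField.map (PrimeSpectrum.comap (η.qRel f) Q).asIdeal Q.asIdeal (η.qRel f) rfl) =
            η.eta (PrimeSpectrum.comap (η.qRel f) Q).asIdeal.ResidueField) ∧
      Function.Bijective (η.Nmap (η.qRel f)) := by
  refine ⟨Groth.Agent.Lib.Helper20.qRel_residue η hA f hs, ?_⟩
  refine Groth.Agent.Lib.Helper20.Nmap_bijective_of η (η.qRel f)
    (Groth.Agent.Lib.Helper20.comap_qRel_bijective η hA f hs) (fun Q => ?_)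
  obtain ⟨ψ, hψ⟩ := Groth.Agent.Lib.Helper20.qRel_residue η hA f hs Q
  exact Groth.Agent.Lib.Helper20.map_bijective_of_comp_eq_eta η _ ψ hψ

end Groth.Agent.S13818
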