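import Groth.Statements.S13820
import Groth.Agent.Lib.Helper20.EtaPt12

set_option autoImplicit false
universe u
open EtaPt

namespace Groth.Agent.S13820

/-- Let A have finitely many minimal prime ideals and let B be an A-algebra with Spec B → Spec A
surjective, C the integral closure of A in B; then the inclusion C ⊆ B carries (C/A)_η onto (B/A)_η.
Here η is a natural transformation from the identity of the category of fields to an endofunctor F
with F(η_K) bijective and η_K purely inseparable for every field K, N_η(A) is the product of the
F(k(p)) over the primes p of A with diagonal map t_A, and M_η(A) ⊆ N_η(A) is the subring of elements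
sent into the range of t_R by every ring map from A to a valuation ring R at whose fraction field η
is bijective; q_A : A → M_η(A) is the corestriction of t_A. For a ring map f : A → B, (B/A)_η ⊆ B
denotes the subring of elements b with t_B(b) in N_η(f)(M_η(A)) (the image in B of the fibre product
of M_η(A) and B over M_η(B)), and q_{B/A} : A → (B/A)_η the corestriction of f. -/
theorem result (η : EtaPt.FieldEndo.{u}) (A B : Type u) [CommRing A] [CommRing B] [Algebra A B]
    (hA : (minimalPrimes A).Finite) (hs : Function.Surjective (PrimeSpectrum.comap (algebraMap A B))) :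
    (η.rel (algebraMap A (integralClosure A B))).map (integralClosure A B).val.toRingHom =
      η.rel (algebraMap A B) := by
  let i : A →+* integralClosure A B := algebraMap A (integralClosure A B)
  let ι : integralClosure A B →+* B := (integralClosure A B).val.toRingHom
  have hιi : ι.comp i = algebraMap A B := RingHom.ext fun a => rfl
  have hιinj : Function.Injective ι := Subtype.val_injective
  ext b
  constructor
  · rintro ⟨b', ⟨x, hxM, hx⟩, rfl⟩
    refine ⟨x, hxM, ?_⟩
    show η.Nmap (algebraMap A B) x = η.t B (ι b')
    rw [← hιi, Groth.Agent.Lib.Helper20.Nmap_comp, hx, η.Nmap_t_apply]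
  · rintro ⟨x, hxM, hx⟩
    have hbint : b ∈ integralClosure A B :=
      Groth.Agent.Lib.Helper20.isIntegralElem_of_mem_rel η hA (algebraMap A B) b ⟨x, hxM, hx⟩
    refine ⟨⟨b, hbint⟩, ⟨x, hxM, ?_⟩, rfl⟩
    have hz := Groth.Agent.Lib.Helper20.eq_zero_of_vanish_on_image η ι hιinj
      (η.Nmap i x - η.t (integralClosure A B) ⟨b, hbint⟩)
      (Subring.sub_mem _ (Groth.Agent.Lib.Helper20.Nmap_mem_M η i hxM) (η.t_mem_M _ _))
      (fun Q => by
        have e1 : η.Nmap ι (η.Nmap i x - η.t (integralClosure A B) ⟨b, hbint⟩) = 0 := by
          rw [map_sub, ← Groth.Agent.Lib.Helper20.Nmap_comp, hιi, hx, η.Nmap_t_apply]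
          exact sub_self _
        have e2 := congrFun e1 Q
        rw [Groth.Agent.Lib.Helper20.Nmap_apply] at e2
        exact (map_eq_zero_iff _ (η.map _).injective).mp e2)
    exact sub_eq_zero.mp hz

end Groth.Agent.S13820
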