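import Groth.Statements.S13821
import Groth.Agent.Lib.Helper20.EtaPt10

set_option autoImplicit false
universe u
open EtaPt

namespace Groth.Agent.S13821

/-- Let A and B have finitely many minimal prime ideals and let f : A → B, g : B → C be ring maps with
Spec(f) and Spec(g) surjective. If q_{B/A} and q_{C/B} are bijective then so is q_{C/A}; and if g is
injective and q_{C/A} is bijective then q_{B/A} is bijective. Here η is a natural transformation
from the identity of the category of fields to an endofunctor F with F(η_K) bijective and η_K purely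
inseparable for every field K, N_η(A) is the product of the F(k(p)) over the primes p of A with
diagonal map t_A, and M_η(A) ⊆ N_η(A) is the subring of elements sent into the range of t_R by every
ring map from A to a valuation ring R at whose fraction field η is bijective; q_A : A → M_η(A) is
the corestriction of t_A. For a ring map f : A → B, (B/A)_η ⊆ B denotes the subring of elements b
with t_B(b) in N_η(f)(M_η(A)) (the image in B of the fibre product of M_η(A) and B over M_η(B)), and
q_{B/A} : A → (B/A)_η the corestriction of f. (The published statement assumes finitely many minimal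
primes only for A; this row also assumes it for B, under which the relative ring of g is
introduced.) -/
theorem result (η : EtaPt.FieldEndo.{u}) {A B C : Type u} [CommRing A] [CommRing B] [CommRing C]
    (hA : (minimalPrimes A).Finite) (hB : (minimalPrimes B).Finite) (f : A →+* B) (g : B →+* C)
    (hf : Function.Surjective (PrimeSpectrum.comap f)) (hg : Function.Surjective (PrimeSpectrum.comap g)) :
    (Function.Bijective (η.qRel f) → Function.Bijective (η.qRel g) → Function.Bijective (η.qRel (g.comp f))) ∧
      (Function.Injective g → Function.Bijective (η.qRel (g.comp f)) → Function.Bijective (η.qRel f)) := by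
  have hNg := Groth.Agent.Lib.Helper20.Nmap_injective_of_comap_surjective η g hg
  refine ⟨fun hbf hbg => ?_, fun hginj hbgf => ?_⟩
  · rw [Groth.Agent.Lib.Helper20.qRel_bijective_iff] at hbf hbg ⊢
    refine ⟨hbg.1.comp hbf.1, fun c hc => ?_⟩
    obtain ⟨x, hxM, hx⟩ := hc
    rw [Groth.Agent.Lib.Helper20.Nmap_comp] at hx
    obtain ⟨b, rfl⟩ := hbg.2 c ⟨η.Nmap f x, Groth.Agent.Lib.Helper20.Nmap_mem_M η f hxM, hx⟩
    have hb : η.Nmap f x = η.t B b := by
      apply hNg
      rw [hx, η.Nmap_t_apply]
    obtain ⟨a, rfl⟩ := hbf.2 b ⟨x, hxM, hb⟩
    exact ⟨a, rfl⟩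
  · rw [Groth.Agent.Lib.Helper20.qRel_bijective_iff] at hbgf ⊢
    refine ⟨fun a a' h => hbgf.1 (by rw [RingHom.comp_apply, RingHom.comp_apply, h]),
      fun b hb => ?_⟩
    obtain ⟨x, hxM, hx⟩ := hb
    have hgb : g b ∈ η.rel (g.comp f) := by
      refine ⟨x, hxM, ?_⟩
      show η.Nmap (g.comp f) x = η.t C (g b)
      rw [Groth.Agent.Lib.Helper20.Nmap_comp, hx, η.Nmap_t_apply]
    obtain ⟨a, ha⟩ := hbgf.2 (g b) hgb
    exact ⟨a, hginj ha⟩

end Groth.Agent.S13821
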