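import Groth.Statements.S13822
import Groth.Agent.Lib.Helper20.EtaPt10
import Mathlib.RingTheory.Flat.FaithfullyFlat.Algebra

set_option autoImplicit false
universe u
open scoped TensorProduct
open EtaPt

namespace Groth.Agent.S13822

/-- Let A → A' be faithfully flat with A and A' having finitely many minimal prime ideals, and B an
A-algebra with Spec B → Spec A surjective; if q_{(A' ⊗ B)/A'} is bijective then q_{B/A} is
bijective. Here η is a natural transformation from the identity of the category of fields to an
endofunctor F with F(η_K) bijective and η_K purely inseparable for every field K, N_η(A) is the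
product of the F(k(p)) over the primes p of A with diagonal map t_A, and M_η(A) ⊆ N_η(A) is the
subring of elements sent into the range of t_R by every ring map from A to a valuation ring R at
whose fraction field η is bijective; q_A : A → M_η(A) is the corestriction of t_A. For a ring map f
: A → B, (B/A)_η ⊆ B denotes the subring of elements b with t_B(b) in N_η(f)(M_η(A)) (the image in B
of the fibre product of M_η(A) and B over M_η(B)), and q_{B/A} : A → (B/A)_η the corestriction of f. -/
theorem result (η : EtaPt.FieldEndo.{u}) (A A' B : Type u) [CommRing A] [CommRing A'] [CommRing B]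
    [Algebra A A'] [Algebra A B] [Module.FaithfullyFlat A A']
    (hA : (minimalPrimes A).Finite) (hA' : (minimalPrimes A').Finite)
    (hs : Function.Surjective (PrimeSpectrum.comap (algebraMap A B)))
    (h : Function.Bijective (η.qRel (Algebra.TensorProduct.includeLeftRingHom : A' →+* A' ⊗[A] B))) :
    Function.Bijective (η.qRel (algebraMap A B)) := by
  classical
  rw [Groth.Agent.Lib.Helper20.qRel_bijective_iff] at h ⊢
  have hinjA : Function.Injective (algebraMap A A') := FaithfulSMul.algebraMap_injective A A'
  refine ⟨?_, fun b hb => ?_⟩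
  · rw [injective_iff_map_eq_zero]
    intro a ha
    apply hinjA
    apply h.1
    rw [map_zero, map_zero]
    show (algebraMap A A' a) ⊗ₜ[A] (1 : B) = 0
    rw [Algebra.algebraMap_eq_smul_one, TensorProduct.smul_tmul, ← Algebra.algebraMap_eq_smul_one,
      ha, TensorProduct.tmul_zero]
  · obtain ⟨x, hxM, hx⟩ := hb
    have e : (Algebra.TensorProduct.includeLeftRingHom : A' →+* A' ⊗[A] B).comp (algebraMap A A') =
        (Algebra.TensorProduct.includeRight : B →ₐ[A] A' ⊗[A] B).toRingHom.comp
          (algebraMap A B) := by
      ext a
      show algebraMap A A' a ⊗ₜ[A] (1 : B) =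
        (Algebra.TensorProduct.includeRight : B →ₐ[A] A' ⊗[A] B) (algebraMap A B a)
      rw [AlgHom.commutes, Algebra.TensorProduct.algebraMap_apply]
    have h1 : ((1 : A') ⊗ₜ[A] b) ∈
        η.rel (Algebra.TensorProduct.includeLeftRingHom : A' →+* A' ⊗[A] B) := by
      refine ⟨η.Nmap (algebraMap A A') x, Groth.Agent.Lib.Helper20.Nmap_mem_M η _ hxM, ?_⟩
      rw [← Groth.Agent.Lib.Helper20.Nmap_comp, e, Groth.Agent.Lib.Helper20.Nmap_comp, hx,
        η.Nmap_t_apply]
      rfl
    obtain ⟨a', ha'⟩ := h.2 _ h1
    let N : Submodule A B := LinearMap.range (Algebra.linearMap A B)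
    have h2 : (1 : A') ⊗ₜ[A] (N.mkQ b) = 0 := by
      have h3 := congrArg (LinearMap.lTensor A' N.mkQ) ha'
      rw [Algebra.TensorProduct.includeLeftRingHom_apply, LinearMap.lTensor_tmul,
        LinearMap.lTensor_tmul] at h3
      have hπ1 : N.mkQ 1 = 0 := (Submodule.Quotient.mk_eq_zero N).mpr ⟨1, map_one (algebraMap A B)⟩
      rw [hπ1, TensorProduct.tmul_zero] at h3
      exact h3.symm
    rw [Module.FaithfullyFlat.one_tmul_eq_zero_iff] at h2
    obtain ⟨a, ha⟩ := (Submodule.Quotient.mk_eq_zero N).mp h2
    exact ⟨a, ha⟩

end Groth.Agent.S13822
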