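import Groth.Statements.S13823
import Groth.Agent.Lib.Helper20.EtaPt10
import Mathlib.RingTheory.Flat.FaithfullyFlat.Algebra
import Mathlib.RingTheory.Flat.TorsionFree

set_option autoImplicit false
universe u
open EtaPt

namespace Groth.Agent.S13823

/-- Let A → A' be faithfully flat with A and A' having finitely many minimal prime ideals, and let Ā, Ā'
be the integral closures of A, A' in their total rings of fractions; if q_{Ā'/A'} is bijective then
q_{Ā/A} is bijective. Here η is a natural transformation from the identity of the category of fields
to an endofunctor F with F(η_K) bijective and η_K purely inseparable for every field K, N_η(A) is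
the product of the F(k(p)) over the primes p of A with diagonal map t_A, and M_η(A) ⊆ N_η(A) is the
subring of elements sent into the range of t_R by every ring map from A to a valuation ring R at
whose fraction field η is bijective; q_A : A → M_η(A) is the corestriction of t_A. For a ring map f
: A → B, (B/A)_η ⊆ B denotes the subring of elements b with t_B(b) in N_η(f)(M_η(A)) (the image in B
of the fibre product of M_η(A) and B over M_η(B)), and q_{B/A} : A → (B/A)_η the corestriction of f. -/
theorem result (η : EtaPt.FieldEndo.{u}) (A A' : Type u) [CommRing A] [CommRing A'] [Algebra A A'] [Module.FaithfullyFlat A A']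
    (hA : (minimalPrimes A).Finite) (hA' : (minimalPrimes A').Finite)
    (h : Function.Bijective (η.qRel (algebraMap A' (integralClosure A' (FractionRing A'))))) :
    Function.Bijective (η.qRel (algebraMap A (integralClosure A (FractionRing A)))) := by
  classical
  rw [Groth.Agent.Lib.Helper20.qRel_bijective_iff] at h ⊢
  have hM : nonZeroDivisors A ≤ (nonZeroDivisors A').comap (algebraMap A A') := by
    intro s hs
    rw [Submonoid.mem_comap, mem_nonZeroDivisors_iff_right]
    intro a' ha'
    have hreg := Module.Flat.isSMulRegular_of_nonZeroDivisors (M := A') hs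
    apply hreg
    show s • a' = s • (0 : A')
    rw [smul_zero, Algebra.smul_def, mul_comm]
    exact ha'
  let κ : FractionRing A →+* FractionRing A' :=
    IsLocalization.map (FractionRing A') (algebraMap A A') hM
  have hκ : ∀ a : A, κ (algebraMap A (FractionRing A) a) =
      algebraMap A' (FractionRing A') (algebraMap A A' a) := fun a => IsLocalization.map_eq hM a
  have hκint : ∀ b : integralClosure A (FractionRing A),
      κ (b : FractionRing A) ∈ integralClosure A' (FractionRing A') := by
    rintro ⟨b, hb⟩
    obtain ⟨P, hPm, hP⟩ := hb
    refine ⟨P.map (algebraMap A A'), hPm.map _, ?_⟩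
    rw [Polynomial.eval₂_map]
    have e : (algebraMap A' (FractionRing A')).comp (algebraMap A A') =
        κ.comp (algebraMap A (FractionRing A)) := RingHom.ext fun a => (hκ a).symm
    rw [e, ← Polynomial.hom_eval₂, hP, map_zero]
  let β : integralClosure A (FractionRing A) →+* integralClosure A' (FractionRing A') :=
    (κ.comp (integralClosure A (FractionRing A)).val.toRingHom).codRestrict
      (integralClosure A' (FractionRing A')) hκint
  have hβ : β.comp (algebraMap A (integralClosure A (FractionRing A))) =
      (algebraMap A' (integralClosure A' (FractionRing A'))).comp (algebraMap A A') := by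
    ext a
    exact hκ a
  refine ⟨?_, fun b hb => ?_⟩
  · intro a₁ a₂ h12
    apply IsFractionRing.injective A (FractionRing A)
    exact congrArg Subtype.val h12
  · obtain ⟨x, hxM, hx⟩ := hb
    have hβb : β b ∈ η.rel (algebraMap A' (integralClosure A' (FractionRing A'))) := by
      refine ⟨η.Nmap (algebraMap A A') x, Groth.Agent.Lib.Helper20.Nmap_mem_M η _ hxM, ?_⟩
      rw [← Groth.Agent.Lib.Helper20.Nmap_comp, ← hβ, Groth.Agent.Lib.Helper20.Nmap_comp, hx,
        η.Nmap_t_apply]
    obtain ⟨a', ha'⟩ := h.2 _ hβb
    have hκb : κ (b : FractionRing A) = algebraMap A' (FractionRing A') a' :=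
      (congrArg Subtype.val ha').symm
    obtain ⟨⟨c, s⟩, hcs⟩ := IsLocalization.mk'_surjective (nonZeroDivisors A) (b : FractionRing A)
    dsimp only at hcs
    rw [← hcs, IsLocalization.map_mk', IsLocalization.mk'_eq_iff_eq_mul, ← map_mul] at hκb
    have hc' : algebraMap A A' c = a' * algebraMap A A' s :=
      IsFractionRing.injective A' (FractionRing A') hκb
    have hcmem : c ∈ ((Ideal.span {(s : A)}).map (algebraMap A A')).comap (algebraMap A A') := by
      rw [Ideal.mem_comap, Ideal.map_span, Set.image_singleton, hc']
      exact Ideal.mul_mem_left _ _ (Ideal.subset_span rfl)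
    rw [Ideal.comap_map_eq_self_of_faithfullyFlat, Ideal.mem_span_singleton'] at hcmem
    obtain ⟨a, ha⟩ := hcmem
    refine ⟨a, Subtype.ext ?_⟩
    show algebraMap A (FractionRing A) a = (b : FractionRing A)
    rw [← hcs, IsLocalization.eq_mk'_iff_mul_eq, ← map_mul, ha]

end Groth.Agent.S13823
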