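import Groth.Statements.S13824
-- import your own Groth.Agent.* helpers here
import Mathlib.Tactic

set_option autoImplicit false
universe u
open EtaPt

namespace Groth.Agent.S13824

/-- For a commutative ring A and f ∈ A, N_η(A)[1/t_A(f)] → N_η(A_f) is bijective: every element of
N_η(A_f) times a power of the image of f comes from N_η(A), and an element of N_η(A) dies in
N_η(A_f) only if a power of t_A(f) kills it. Here η is a natural transformation from the identity of
the category of fields to an endofunctor F with F(η_K) bijective and η_K purely inseparable for
every field K, N_η(A) is the product of the F(k(p)) over the primes p of A with diagonal map t_A,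
and M_η(A) ⊆ N_η(A) is the subring of elements sent into the range of t_R by every ring map from A
to a valuation ring R at whose fraction field η is bijective; q_A : A → M_η(A) is the corestriction
of t_A. -/
theorem result (η : EtaPt.FieldEndo.{u}) (A : Type u) [CommRing A] (f : A) :
    (∀ y : η.N (Localization.Away f), ∃ (x : η.N A) (n : ℕ),
        y * η.t (Localization.Away f) (algebraMap A (Localization.Away f) f) ^ n =
          η.Nmap (algebraMap A (Localization.Away f)) x) ∧
      ∀ x : η.N A, η.Nmap (algebraMap A (Localization.Away f)) x = 0 → ∃ n : ℕ, η.t A f ^ n * x = 0 := by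
  classical
  set L := Localization.Away f
  set ι : A →+* L := algebraMap A L with hι
  have hinj : Function.Injective (PrimeSpectrum.comap ι) :=
    PrimeSpectrum.localization_comap_injective L (Submonoid.powers f)
  -- residue field maps are bijective
  have hres : ∀ q : PrimeSpectrum L, Function.Bijective
      (Ideal.ResidueField.map (PrimeSpectrum.comap ι q).asIdeal q.asIdeal ι rfl) := fun q =>
    (RingHom.surjectiveOnStalks_of_isLocalization (M := Submonoid.powers f) L).residueFieldMap_bijective
      _ _ rfl
  -- F preserves bijections
  have hFbij : ∀ {K K' : Type u} [Field K] [Field K'] (e : K →+* K'), Function.Bijective e →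
      Function.Bijective (η.map e) := by
    intro K K' _ _ e he
    let e' : K' →+* K := (RingEquiv.ofBijective e he).symm.toRingHom
    have h1 : e.comp e' = RingHom.id K' := by
      ext x; exact (RingEquiv.ofBijective e he).apply_symm_apply x
    have h2 : e'.comp e = RingHom.id K := by
      ext x; exact (RingEquiv.ofBijective e he).symm_apply_apply x
    have k1 : (η.map e).comp (η.map e') = RingHom.id _ := by rw [← η.map_comp, h1, η.map_id]
    have k2 : (η.map e').comp (η.map e) = RingHom.id _ := by rw [← η.map_comp, h2, η.map_id]
    constructor
    · intro a b hab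
      have := congrArg (η.map e') hab
      have ha := congrArg (fun g => g a) k2
      have hb := congrArg (fun g => g b) k2
      simp only [RingHom.comp_apply, RingHom.id_apply] at ha hb
      rw [← ha, ← hb]; exact this
    · intro b
      refine ⟨η.map e' b, ?_⟩
      have := congrArg (fun g => g b) k1
      simpa using this
  have hNmap : ∀ (x : η.N A) (q : PrimeSpectrum L), η.Nmap ι x q =
      η.map (Ideal.ResidueField.map (PrimeSpectrum.comap ι q).asIdeal q.asIdeal ι rfl)
        (x (PrimeSpectrum.comap ι q)) := fun x q => rfl
  constructor
  · intro y
    let G : ∀ q : PrimeSpectrum L, η.obj (PrimeSpectrum.comap ι q).asIdeal.ResidueField := fun q =>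
      (RingEquiv.ofBijective _ (hFbij _ (hres q))).symm (y q)
    have hG : ∀ q, η.map (Ideal.ResidueField.map (PrimeSpectrum.comap ι q).asIdeal q.asIdeal ι rfl)
        (G q) = y q := fun q => (RingEquiv.ofBijective _ (hFbij _ (hres q))).apply_symm_apply (y q)
    let x : η.N A := fun p =>
      if h : ∃ q : PrimeSpectrum L, PrimeSpectrum.comap ι q = p then
        cast (congrArg (fun p : PrimeSpectrum A => η.obj p.asIdeal.ResidueField) h.choose_spec)
          (G h.choose)
      else 0
    have htrans : ∀ (q q' : PrimeSpectrum L) (hq' : PrimeSpectrum.comap ι q' = PrimeSpectrum.comap ι q),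
        cast (congrArg (fun p : PrimeSpectrum A => η.obj p.asIdeal.ResidueField) hq') (G q') = G q := by
      intro q q' hq'
      obtain rfl := hinj hq'
      rfl
    refine ⟨x, 0, ?_⟩
    rw [pow_zero, mul_one]
    funext q
    rw [hNmap]
    have hx : x (PrimeSpectrum.comap ι q) = G q := by
      have h : ∃ q' : PrimeSpectrum L, PrimeSpectrum.comap ι q' = PrimeSpectrum.comap ι q := ⟨q, rfl⟩
      simp only [x, dif_pos h]
      exact htrans q h.choose h.choose_spec
    rw [hx, hG]
  · intro x hx
    refine ⟨1, ?_⟩
    rw [pow_one]
    funext p
    show (η.t A f) p * x p = 0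
    by_cases hfp : f ∈ p.asIdeal
    · have : (η.t A f) p = 0 := by
        show η.eta p.asIdeal.ResidueField (algebraMap A p.asIdeal.ResidueField f) = 0
        rw [(Ideal.algebraMap_residueField_eq_zero).2 hfp, map_zero]
      rw [this, zero_mul]
    · have hp : p ∈ Set.range (PrimeSpectrum.comap ι) := by
        rw [PrimeSpectrum.localization_away_comap_range L f]
        exact hfp
      obtain ⟨q, rfl⟩ := hp
      have h0 := congrFun hx q
      rw [hNmap] at h0
      have : x (PrimeSpectrum.comap ι q) = 0 := by
        apply (η.map (Ideal.ResidueField.map (PrimeSpectrum.comap ι q).asIdeal q.asIdeal ι rfl)).injective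
        rw [h0, map_zero]; rfl
      rw [this, mul_zero]

end Groth.Agent.S13824
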