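import Groth.Statements.S13825
import Groth.Agent.Lib.Helper20.EtaPt15

set_option autoImplicit false
universe u
open EtaPt

namespace Groth.Agent.S13825

/-- For a commutative ring A with finitely many minimal prime ideals and f ∈ A, M_η(A)[1/f] → M_η(A_f)
is bijective: every element of M_η(A_f) times a power of the image of f is the image of an element
of M_η(A), and an element of M_η(A) with zero image in N_η(A_f) is killed by a power of t_A(f). Here
η is a natural transformation from the identity of the category of fields to an endofunctor F with
F(η_K) bijective and η_K purely inseparable for every field K, N_η(A) is the product of the F(k(p))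
over the primes p of A with diagonal map t_A, and M_η(A) ⊆ N_η(A) is the subring of elements sent
into the range of t_R by every ring map from A to a valuation ring R at whose fraction field η is
bijective; q_A : A → M_η(A) is the corestriction of t_A. -/
theorem result (η : EtaPt.FieldEndo.{u}) (A : Type u) [CommRing A] (hA : (minimalPrimes A).Finite) (f : A) :
    (∀ y ∈ η.M (Localization.Away f), ∃ x ∈ η.M A, ∃ n : ℕ,
        y * η.t (Localization.Away f) (algebraMap A (Localization.Away f) f) ^ n =
          η.Nmap (algebraMap A (Localization.Away f)) x) ∧
      ∀ x ∈ η.M A, η.Nmap (algebraMap A (Localization.Away f)) x = 0 → ∃ n : ℕ, η.t A f ^ n * x = 0 := by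
  refine ⟨fun y hy => Groth.Agent.Lib.Helper20.exists_M_of_away η A hA f y hy,
    fun x hx h0 => ⟨1, ?_⟩⟩
  funext P
  rw [pow_one, Pi.mul_apply, Pi.zero_apply]
  by_cases hP : f ∈ P.asIdeal
  · rw [Groth.Agent.Lib.Helper20.t_apply, Ideal.algebraMap_residueField_eq_zero.mpr hP, map_zero,
      zero_mul]
  · have hr : P ∈ Set.range (PrimeSpectrum.comap (algebraMap A (Localization.Away f))) := by
      rw [PrimeSpectrum.localization_away_comap_range (Localization.Away f) f]
      exact hP
    obtain ⟨Q, hQ⟩ := hr
    have h1 : η.Nmap (algebraMap A (Localization.Away f)) x =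
        η.Nmap (algebraMap A (Localization.Away f)) 0 := by rw [h0, map_zero]
    have h2 := Groth.Agent.Lib.Helper20.apply_eq_of_Nmap_eq η _ h1 Q P hQ
    rw [h2, Pi.zero_apply, mul_zero]

end Groth.Agent.S13825
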