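import Groth.Statements.S13827
import Groth.Agent.Lib.Helper20.EtaPt17

set_option autoImplicit false
universe u
open EtaPt

namespace Groth.Agent.S13827

/-- For a normal ring A (every localization at a prime is an integrally closed domain) with finitely
many minimal prime ideals such that η is bijective at the residue field of every minimal prime, q_A
: A → M_η(A) is bijective. Here η is a natural transformation from the identity of the category of
fields to an endofunctor F with F(η_K) bijective and η_K purely inseparable for every field K,
N_η(A) is the product of the F(k(p)) over the primes p of A with diagonal map t_A, and M_η(A) ⊆
N_η(A) is the subring of elements sent into the range of t_R by every ring map from A to a valuation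
ring R at whose fraction field η is bijective; q_A : A → M_η(A) is the corestriction of t_A. -/
theorem result (η : EtaPt.FieldEndo.{u}) (A : Type u) [CommRing A] (hn : EGA4.IsNormalRing A)
    (hA : (minimalPrimes A).Finite)
    (hη : ∀ p : PrimeSpectrum A, p.asIdeal ∈ minimalPrimes A → Function.Bijective (η.eta p.asIdeal.ResidueField)) :
    Function.Bijective (η.q A) := by
  exact Groth.Agent.Lib.Helper20.q_bijective_of_normal η A hn hA hη

end Groth.Agent.S13827
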