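import Groth.Statements.S13828
import Groth.Agent.Lib.Helper20.EtaPt10

set_option autoImplicit false
universe u
open EtaPt

namespace Groth.Agent.S13828

/-- Let a commutative square of rings j : A → B, f : A → A', g : B → B', j' : A' → B' be cartesian (A is
the fibre product of A' and B over B'), with A and A' having finitely many minimal prime ideals and
Spec(j), Spec(j') surjective. If q_{B'/A'} is bijective then q_{B/A} is bijective. Here η is a
natural transformation from the identity of the category of fields to an endofunctor F with F(η_K)
bijective and η_K purely inseparable for every field K, N_η(A) is the product of the F(k(p)) over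
the primes p of A with diagonal map t_A, and M_η(A) ⊆ N_η(A) is the subring of elements sent into
the range of t_R by every ring map from A to a valuation ring R at whose fraction field η is
bijective; q_A : A → M_η(A) is the corestriction of t_A. For a ring map f : A → B, (B/A)_η ⊆ B
denotes the subring of elements b with t_B(b) in N_η(f)(M_η(A)) (the image in B of the fibre product
of M_η(A) and B over M_η(B)), and q_{B/A} : A → (B/A)_η the corestriction of f. -/
theorem result (η : EtaPt.FieldEndo.{u}) {A A' B B' : Type u} [CommRing A] [CommRing A'] [CommRing B] [CommRing B']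
    (j : A →+* B) (f : A →+* A') (g : B →+* B') (j' : A' →+* B') (hcomm : j'.comp f = g.comp j)
    (hcart : ∀ (a' : A') (b : B), j' a' = g b → ∃! a : A, f a = a' ∧ j a = b)
    (hA : (minimalPrimes A).Finite) (hA' : (minimalPrimes A').Finite)
    (hj : Function.Surjective (PrimeSpectrum.comap j)) (hj' : Function.Surjective (PrimeSpectrum.comap j'))
    (h : Function.Bijective (η.qRel j')) : Function.Bijective (η.qRel j) := by
  rw [Groth.Agent.Lib.Helper20.qRel_bijective_iff] at h ⊢
  refine ⟨?_, fun b hb => ?_⟩
  · rw [injective_iff_map_eq_zero]
    intro a ha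
    have hfa : f a = 0 := by
      apply h.1
      rw [map_zero]
      have := RingHom.congr_fun hcomm a
      rw [RingHom.comp_apply, RingHom.comp_apply, ha, map_zero] at this
      exact this
    obtain ⟨a0, -, huniq⟩ := hcart 0 0 (by rw [map_zero, map_zero])
    have h1 := huniq a ⟨hfa, ha⟩
    have h2 := huniq 0 ⟨map_zero f, map_zero j⟩
    rw [h1, h2]
  · obtain ⟨x, hxM, hx⟩ := hb
    have hgb : g b ∈ η.rel j' := by
      refine ⟨η.Nmap f x, Groth.Agent.Lib.Helper20.Nmap_mem_M η f hxM, ?_⟩
      rw [← Groth.Agent.Lib.Helper20.Nmap_comp, hcomm, Groth.Agent.Lib.Helper20.Nmap_comp, hx,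
        η.Nmap_t_apply]
    obtain ⟨a', ha'⟩ := h.2 (g b) hgb
    obtain ⟨a, ⟨-, ha⟩, -⟩ := hcart a' b ha'
    exact ⟨a, ha⟩

end Groth.Agent.S13828
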