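import Groth.Statements.S13829
import Groth.Agent.Lib.Helper20.EtaPt16

set_option autoImplicit false
universe u
open EtaPt

namespace Groth.Agent.S13829

/-- For A with finitely many minimal prime ideals, f ∈ A and a ring map φ : A → B with Spec(φ)
surjective, the localization of (B/A)_η at f is (B_f/A_f)_η: the image of (B/A)_η in B_f lies in
(B_f/A_f)_η, and every element of (B_f/A_f)_η times a power of the image of f is the image of an
element of (B/A)_η. Here η is a natural transformation from the identity of the category of fields
to an endofunctor F with F(η_K) bijective and η_K purely inseparable for every field K, N_η(A) is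
the product of the F(k(p)) over the primes p of A with diagonal map t_A, and M_η(A) ⊆ N_η(A) is the
subring of elements sent into the range of t_R by every ring map from A to a valuation ring R at
whose fraction field η is bijective; q_A : A → M_η(A) is the corestriction of t_A. For a ring map f
: A → B, (B/A)_η ⊆ B denotes the subring of elements b with t_B(b) in N_η(f)(M_η(A)) (the image in B
of the fibre product of M_η(A) and B over M_η(B)), and q_{B/A} : A → (B/A)_η the corestriction of f. -/
theorem result (η : EtaPt.FieldEndo.{u}) {A B : Type u} [CommRing A] [CommRing B] (hA : (minimalPrimes A).Finite)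
    (φ : A →+* B) (hs : Function.Surjective (PrimeSpectrum.comap φ)) (f : A) :
    (η.rel φ).map (algebraMap B (Localization.Away (φ f))) ≤ η.rel (Localization.awayMap φ f) ∧
      ∀ y ∈ η.rel (Localization.awayMap φ f), ∃ x ∈ η.rel φ, ∃ n : ℕ,
        y * algebraMap B (Localization.Away (φ f)) (φ f) ^ n = algebraMap B (Localization.Away (φ f)) x := by
  exact ⟨Groth.Agent.Lib.Helper20.rel_away_le η φ f,
    fun y hy => Groth.Agent.Lib.Helper20.rel_away_exists η hA φ f y hy⟩

end Groth.Agent.S13829
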