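import Groth.Statements.S13860
-- import your own Groth.Agent.* helpers here
import Mathlib.Tactic

set_option autoImplicit false
universe u v w
open ModRep

namespace Groth.Agent.S13860

/-- For k a field of characteristic p > 0, G a finite group and P a Sylow p-subgroup of G, a short exact
sequence of k[G]-modules has a k[G]-linear splitting exactly when it has a k[P]-linear one. Stated
here for the surjection of the sequence: a G-equivariant k-linear map g : B → C between k-linear
representations of G admits a G-equivariant k-linear section if and only if it admits a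
P-equivariant k-linear section. -/
theorem result {k : Type u} [Field k] (p : ℕ) [Fact p.Prime]
    [CharP k p] {G : Type v} [Group G] [Finite G] (P : Sylow p G)
    {B C : Type w} [AddCommGroup B] [Module k B] [AddCommGroup C] [Module k C]
    (ρB : Representation k G B) (ρC : Representation k G C)
    (g : B →ₗ[k] C) (hg : ∀ x : G, g ∘ₗ ρB x = ρC x ∘ₗ g) :
    (∃ s : C →ₗ[k] B, g ∘ₗ s = LinearMap.id ∧ ∀ x : G, s ∘ₗ ρC x = ρB x ∘ₗ s) ↔
      (∃ s : C →ₗ[k] B, g ∘ₗ s = LinearMap.id ∧ ∀ x : G, x ∈ P → s ∘ₗ ρC x = ρB x ∘ₗ s) := by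
  classical
  constructor
  · rintro ⟨s, hs, hsG⟩
    exact ⟨s, hs, fun x _ => hsG x⟩
  · rintro ⟨s, hs, hsP⟩
    have : Fintype G := Fintype.ofFinite G
    set H : Subgroup G := (P : Subgroup G) with hH
    have : Fintype (G ⧸ H) := Fintype.ofFinite _
    have hρB : ∀ (x y : G) (v : B), ρB (x * y) v = ρB x (ρB y v) := fun x y v => by
      rw [map_mul, Module.End.mul_apply]
    have hρC : ∀ (x y : G) (v : C), ρC (x * y) v = ρC x (ρC y v) := fun x y v => by
      rw [map_mul, Module.End.mul_apply]
    have hρC1 : ∀ (v : C), ρC 1 v = v := fun v => by rw [map_one, Module.End.one_apply]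
    have hsP' : ∀ h ∈ H, ∀ w : C, s (ρC h w) = ρB h (s w) := fun h hh w => by
      have := LinearMap.congr_fun (hsP h hh) w
      simpa using this
    let T : G ⧸ H → (C →ₗ[k] B) := fun q => Quotient.liftOn' q
      (fun x => ρB x ∘ₗ s ∘ₗ ρC x⁻¹) (by
        intro x y hxy
        rw [QuotientGroup.leftRel_apply] at hxy
        have hy : y = x * (x⁻¹ * y) := by group
        refine LinearMap.ext fun v => ?_
        simp only [LinearMap.comp_apply]
        rw [hy, mul_inv_rev, hρB, hρC]
        congr 1
        rw [← hsP' _ hxy, ← hρC, mul_inv_cancel, hρC1])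
    have hT : ∀ x : G, T (x : G ⧸ H) = ρB x ∘ₗ s ∘ₗ ρC x⁻¹ := fun x => rfl
    have hgT : ∀ q, g ∘ₗ T q = LinearMap.id := by
      intro q
      induction q using QuotientGroup.induction_on with
      | H x =>
        rw [hT]
        refine LinearMap.ext fun v => ?_
        have h1 := LinearMap.congr_fun (hg x) (s (ρC x⁻¹ v))
        have h2 := LinearMap.congr_fun hs (ρC x⁻¹ v)
        simp only [LinearMap.comp_apply, LinearMap.id_apply] at h1 h2 ⊢
        rw [h1, h2, ← hρC, mul_inv_cancel, hρC1]
    have hTsmul : ∀ (y : G) (q : G ⧸ H), T (y • q) ∘ₗ ρC y = ρB y ∘ₗ T q := by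
      intro y q
      induction q using QuotientGroup.induction_on with
      | H x =>
        rw [MulAction.Quotient.smul_coe, smul_eq_mul, hT, hT]
        refine LinearMap.ext fun v => ?_
        simp only [LinearMap.comp_apply]
        rw [hρB, mul_inv_rev, ← hρC (x⁻¹ * y⁻¹) y, mul_assoc, inv_mul_cancel, mul_one]
    have hidx : ((Fintype.card (G ⧸ H) : ℕ) : k) ≠ 0 := by
      have hnd : ¬ p ∣ H.index := P.not_dvd_index
      rw [Subgroup.index_eq_card, Nat.card_eq_fintype_card] at hnd
      intro h0
      exact hnd ((CharP.cast_eq_zero_iff k p _).1 h0)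
    refine ⟨((Fintype.card (G ⧸ H) : ℕ) : k)⁻¹ • ∑ q, T q, ?_, ?_⟩
    · have e1 : g ∘ₗ (∑ q, T q) = ∑ q, g ∘ₗ T q := by
        refine LinearMap.ext fun v => ?_
        simp only [LinearMap.comp_apply, LinearMap.sum_apply, map_sum]
      rw [LinearMap.comp_smul, e1]
      simp only [hgT, Finset.sum_const, Finset.card_univ]
      rw [← Nat.cast_smul_eq_nsmul k, smul_smul, inv_mul_cancel₀ hidx, one_smul]
    · intro y
      have e2 : (∑ q, T q) ∘ₗ ρC y = ∑ q, T q ∘ₗ ρC y := by
        refine LinearMap.ext fun v => ?_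
        simp only [LinearMap.comp_apply, LinearMap.sum_apply]
      have e3 : ρB y ∘ₗ (∑ q, T q) = ∑ q, ρB y ∘ₗ T q := by
        refine LinearMap.ext fun v => ?_
        simp only [LinearMap.comp_apply, LinearMap.sum_apply, map_sum]
      rw [LinearMap.smul_comp, LinearMap.comp_smul, e2, e3]
      congr 1
      have e4 : ∑ q, T q ∘ₗ ρC y = ∑ q, T (y • q) ∘ₗ ρC y :=
        (Fintype.sum_equiv (MulAction.toPerm y) (fun q => T (y • q) ∘ₗ ρC y)
          (fun q => T q ∘ₗ ρC y) (fun q => rfl)).symm
      rw [e4]
      exact Finset.sum_congr rfl fun q _ => hTsmul y q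

end Groth.Agent.S13860
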