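import Groth.Statements.S13904
-- import your own Groth.Agent.* helpers here
import Mathlib.Tactic
import Mathlib.RingTheory.KrullDimension.Polynomial
import Mathlib.RingTheory.KrullDimension.NonZeroDivisors
import Mathlib.RingTheory.KrullDimension.Field

set_option autoImplicit false
universe u
open CAlg

namespace Groth.Agent.S13904

/-- Let k be a field, A a commutative k-algebra and φ : k[x_1, …, x_r] → A a finite k-algebra map such
that A/p has Krull dimension r for every minimal prime p of A (an equidimensional affine scheme of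
dimension r, finite over affine r-space). Then for every minimal prime p of A and every prime q of
k[x_1, …, x_r] there is a prime P ⊇ p of A with φ⁻¹(P) = q: the finite map restricted to each
irreducible component of Spec A is surjective onto affine r-space. (The published statement is over
an algebraically closed field with φ a Noether normalisation; this row allows any field and any
finite k-algebra map φ.) -/
theorem result (k : Type u) [Field k] (r : ℕ)
    (A : Type u) [CommRing A] [Algebra k A] (φ : MvPolynomial (Fin r) k →ₐ[k] A)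
    (hφ : φ.toRingHom.Finite)
    (hdim : ∀ p ∈ minimalPrimes A, ringKrullDim (A ⧸ p) = r)
    (p : Ideal A) (hp : p ∈ minimalPrimes A)
    (q : Ideal (MvPolynomial (Fin r) k)) [q.IsPrime] :
    ∃ P : Ideal A, P.IsPrime ∧ p ≤ P ∧ P.comap φ.toRingHom = q := by
  classical
  have dimle : ∀ {C B : Type u} [CommRing C] [CommRing B] (ψ : C →+* B), ψ.IsIntegral →
      ringKrullDim B ≤ ringKrullDim C := by
    intro C B _ _ ψ hψ
    letI : Algebra C B := ψ.toAlgebra
    haveI : Algebra.IsIntegral C B := ⟨hψ⟩
    refine Order.krullDim_le_of_strictMono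
      (fun P : PrimeSpectrum B => (⟨P.asIdeal.comap (algebraMap C B), inferInstance⟩ : PrimeSpectrum C)) ?_
    intro P Q hPQ
    rw [← PrimeSpectrum.asIdeal_lt_asIdeal] at hPQ ⊢
    exact Ideal.IsIntegral.comap_lt_comap (R := C) hPQ
  letI : Algebra (MvPolynomial (Fin r) k) A := φ.toRingHom.toAlgebra
  haveI : Algebra.IsIntegral (MvPolynomial (Fin r) k) A := ⟨hφ.to_isIntegral⟩
  haveI hpp : p.IsPrime := hp.1.1
  have hdimP : ringKrullDim (MvPolynomial (Fin r) k) = r := by
    rw [MvPolynomial.ringKrullDim_of_isNoetherianRing, ringKrullDim_eq_zero_of_field,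
      Nat.card_eq_fintype_card, Fintype.card_fin, zero_add]
  have hbot : p.comap (algebraMap (MvPolynomial (Fin r) k) A) = ⊥ := by
    by_contra hne
    obtain ⟨x, hx, hx0⟩ := Submodule.exists_mem_ne_zero_of_ne_bot hne
    have hspan : Ideal.span {x} ≤ p.comap φ.toRingHom := (Ideal.span_singleton_le_iff_mem _).2 hx
    let ψ := Ideal.quotientMap p φ.toRingHom hspan
    have hψ : ψ.IsIntegral := by
      have h1 : (ψ.comp (Ideal.Quotient.mk (Ideal.span {x}))).IsIntegral := by
        rw [Ideal.quotientMap_comp_mk]
        exact RingHom.IsIntegral.trans _ _ hφ.to_isIntegral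
          (RingHom.isIntegral_of_surjective _ Ideal.Quotient.mk_surjective)
      exact RingHom.IsIntegral.tower_top _ _ h1
    have h1 := dimle ψ hψ
    have h2 := ringKrullDim_quotient_succ_le_of_nonZeroDivisor (mem_nonZeroDivisors_of_ne_zero hx0)
    rw [hdim p hp] at h1
    rw [hdimP] at h2
    have h3 : ((r : ℕ) : WithBot ℕ∞) + 1 ≤ r := le_trans (add_le_add_left h1 1) h2
    have h4 : (((r + 1 : ℕ) : ℕ∞) : WithBot ℕ∞) ≤ ((r : ℕ∞) : WithBot ℕ∞) := by
      exact_mod_cast h3
    rw [WithBot.coe_le_coe, Nat.cast_le] at h4
    omega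
  obtain ⟨P, hPp, hP, hPq⟩ := Ideal.exists_ideal_over_prime_of_isIntegral q p (by rw [hbot]; exact bot_le)
  exact ⟨P, hP, hPp, hPq⟩

end Groth.Agent.S13904
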