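import Groth.Statements.S13905
-- import your own Groth.Agent.* helpers here
import Mathlib.Tactic

set_option autoImplicit false
universe u
open ProjGeom

namespace Groth.Agent.S13905

open W4c1etcurveeff3b in
/-- Hyperplanes of projective n-space in general position, in linear-algebra form (V of dimension n + 1
over a field k, hyperplanes as n-dimensional subspaces, points as nonzero vectors): if S is a finite
set of hyperplanes in general position with at least n members and H is a hyperplane containing none
of the lines cut out by n members of S, then S with H added is again in general position. (The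
published statement is for hyperplanes of P^n_k and closed points; a closed point lying on n + 1
members is automatically one of the rational points cut out by n of them, so the condition on
nonzero vectors of V is the same condition.) -/
theorem result (k V : Type u) [Field k]
    [AddCommGroup V] [Module k V] [DecidableEq (Submodule k V)] (n : ℕ) (S : Finset (Submodule k V))
    (hS : InGeneralPosition k V n S) (hn : n ≤ S.card) (H : Submodule k V)
    (hH : Module.finrank k H = n)
    (havoid : ∀ T ⊆ S, T.card = n → ¬ (T.inf id ≤ H)) :
    InGeneralPosition k V n (insert H S) := by
  classical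
  obtain ⟨hV, hdim, hinf, hpt⟩ := hS
  by_cases hHS : H ∈ S
  · rw [Finset.insert_eq_of_mem hHS]
    exact ⟨hV, hdim, hinf, hpt⟩
  have : Module.Finite k V := Module.finite_of_finrank_pos (by rw [hV]; omega)
  -- every subset of S of size < n has intersection not contained in H
  have hnot : ∀ T' ⊆ S, T'.card ≤ n → ¬ (T'.inf id ≤ H) := by
    intro T' hT' hc hle
    obtain ⟨U, hTU, hUS, hUc⟩ := Finset.exists_subsuperset_card_eq hT' hc hn
    exact havoid U hUS hUc ((Finset.inf_mono hTU).trans hle)
  refine ⟨hV, ?_, ?_, ?_⟩
  · intro H' hH'
    rcases Finset.mem_insert.1 hH' with rfl | h
    · exact hH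
    · exact hdim H' h
  · intro T hT hc
    by_cases hHT : H ∈ T
    · have hT' : T.erase H ⊆ S := by
        intro x hx
        have hx' := Finset.mem_erase.1 hx
        rcases Finset.mem_insert.1 (hT hx'.2) with h | h
        · exact absurd h hx'.1
        · exact h
      have hc' : (T.erase H).card = T.card - 1 := Finset.card_erase_of_mem hHT
      have hTc : 1 ≤ T.card := Finset.card_pos.2 ⟨H, hHT⟩
      set W := (T.erase H).inf id with hW
      have hWd : Module.finrank k W = n + 1 - (T.erase H).card := hinf _ hT' (by omega)
      have hWH : ¬ W ≤ H := hnot _ hT' (by omega)
      rw [← Finset.insert_erase hHT, Finset.inf_insert, id]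
      rw [← hW]
      have hsup := Submodule.finrank_sup_add_finrank_inf_eq H W
      have hlt : H < H ⊔ W := lt_of_le_of_ne le_sup_left (fun he => hWH (he ▸ le_sup_right))
      have h1 := Submodule.finrank_lt_finrank_of_lt hlt
      have h2 := Submodule.finrank_le (H ⊔ W)
      rw [hV] at h2
      rw [Finset.card_insert_of_notMem (Finset.notMem_erase H T)]
      omega
    · have hT' : T ⊆ S := by
        intro x hx
        rcases Finset.mem_insert.1 (hT hx) with h | h
        · exact absurd (h ▸ hx) hHT
        · exact h
      exact hinf T hT' hc
  · intro v hv T hT hvT
    by_cases hHT : H ∈ T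
    · have hT' : T.erase H ⊆ S := by
        intro x hx
        have hx' := Finset.mem_erase.1 hx
        rcases Finset.mem_insert.1 (hT hx'.2) with h | h
        · exact absurd h hx'.1
        · exact h
      have hc' : (T.erase H).card = T.card - 1 := Finset.card_erase_of_mem hHT
      have hle := hpt v hv (T.erase H) hT' (fun H' hH' => hvT H' (Finset.mem_of_mem_erase hH'))
      have hTc : 1 ≤ T.card := Finset.card_pos.2 ⟨H, hHT⟩
      by_contra hcon
      have heqn : (T.erase H).card = n := by omega
      set W := (T.erase H).inf id with hW
      have hWd : Module.finrank k W = 1 := by
        rw [hinf _ hT' (by omega), heqn]; omega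
      have hvW : v ∈ W := by
        have hle' : Submodule.span k {v} ≤ (T.erase H).inf id := Finset.le_inf (fun H' hH' => by
          rw [Submodule.span_le, Set.singleton_subset_iff]
          exact hvT H' (Finset.mem_of_mem_erase hH'))
        exact hle' (Submodule.subset_span rfl)
      have hspan : Submodule.span k {v} = W := by
        apply Submodule.eq_of_le_of_finrank_eq
        · rw [Submodule.span_le, Set.singleton_subset_iff]; exact hvW
        · rw [finrank_span_singleton hv, hWd]
      apply havoid _ hT' heqn
      rw [← hW, ← hspan, Submodule.span_le, Set.singleton_subset_iff]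
      exact hvT H hHT
    · have hT' : T ⊆ S := by
        intro x hx
        rcases Finset.mem_insert.1 (hT hx) with h | h
        · exact absurd (h ▸ hx) hHT
        · exact h
      exact hpt v hv T hT' hvT

end Groth.Agent.S13905
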