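import Groth.Statements.S13953
-- import your own Groth.Agent.* helpers here
import Mathlib.Tactic
import Mathlib.Algebra.Group.Pi.Units

set_option autoImplicit false
universe u
open TateLoc

namespace Groth.Agent.S13953

/-- Let (R_i) be a family of local commutative rings and R = ∏ R_i. Any open cover of Spec R can be
refined by one coming from a finite partition of the index set: there is a map c from the index set
to a finite set such that, for each value m, the basic open subset of Spec R defined by the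
idempotent which is 1 at the indices with c i = m and 0 elsewhere (this open is the spectrum of the
product of the R_i over that class) is contained in some member of the cover. -/
theorem result {ι : Type u} (R : ι → Type u)
    [∀ i, CommRing (R i)] [∀ i, IsLocalRing (R i)] {J : Type u}
    (U : J → TopologicalSpace.Opens (PrimeSpectrum (∀ i, R i))) (hU : ⨆ j, U j = ⊤) :
    ∃ (n : ℕ) (c : ι → Fin n), ∀ m : Fin n, ∃ j : J,
      PrimeSpectrum.basicOpen (fun i => if c i = m then (1 : R i) else 0) ≤ U j := by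
  classical
  -- indicator idempotents
  let e : Set ι → (∀ i, R i) := fun S i => if i ∈ S then 1 else 0
  have he_le : ∀ S T : Set ι, S ⊆ T →
      PrimeSpectrum.basicOpen (e S) ≤ PrimeSpectrum.basicOpen (e T) := by
    intro S T hST
    have : e S = e S * e T := by
      funext i
      by_cases hi : i ∈ S
      · simp [e, hi, hST hi]
      · simp [e, hi]
    rw [this, PrimeSpectrum.basicOpen_mul]
    exact inf_le_right
  -- step 1: local refinement
  have step1 : ∀ q : PrimeSpectrum (∀ i, R i), ∃ S : Set ι,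
      q ∈ PrimeSpectrum.basicOpen (e S) ∧ ∃ j, PrimeSpectrum.basicOpen (e S) ≤ U j := by
    intro q
    obtain ⟨𝔪, h𝔪, hq𝔪⟩ := Ideal.exists_le_maximal q.asIdeal q.isPrime.ne_top
    let pt : PrimeSpectrum (∀ i, R i) := ⟨𝔪, h𝔪.isPrime⟩
    have hpt : pt ∈ ⨆ j, U j := by rw [hU]; trivial
    obtain ⟨j, hj⟩ := TopologicalSpace.Opens.mem_iSup.1 hpt
    obtain ⟨V, ⟨f, rfl⟩, hptV, hVU⟩ :=
      (TopologicalSpace.Opens.isBasis_iff_nbhd.1 PrimeSpectrum.isBasis_basic_opens) hj
    let S : Set ι := {i | IsUnit (f i)}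
    let h : ∀ i, R i := fun i => if hi : IsUnit (f i) then ((hi.unit⁻¹ : (R i)ˣ) : R i) else 0
    have hfe : e S = f * h := by
      funext i
      by_cases hi : IsUnit (f i)
      · simp [e, S, h, hi]
      · simp [e, S, h, hi]
    have hDle : PrimeSpectrum.basicOpen (e S) ≤ PrimeSpectrum.basicOpen f := by
      rw [hfe, PrimeSpectrum.basicOpen_mul]
      exact inf_le_left
    refine ⟨S, ?_, j, hDle.trans hVU⟩
    -- e S ∉ 𝔪
    have hf𝔪 : f ∉ 𝔪 := hptV
    have hx : f - f * e S ∈ 𝔪 := by
      by_contra hx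
      obtain ⟨y, i0, hi0, hyi⟩ := h𝔪.exists_inv hx
      have hunit : IsUnit (1 - y * (f - f * e S)) := by
        rw [Pi.isUnit_iff]
        intro i
        apply IsLocalRing.isUnit_one_sub_self_of_mem_nonunits
        by_cases hi : IsUnit (f i)
        · simp [e, S, hi]
        · have : (f - f * e S) i = f i := by simp [e, S, hi]
          simp only [Pi.mul_apply, this]
          exact mem_nonunits_iff.2 fun hu => hi (isUnit_of_mul_isUnit_right hu)
      have : 1 - y * (f - f * e S) = i0 := by rw [← hyi]; ring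
      rw [this] at hunit
      exact h𝔪.ne_top (Ideal.eq_top_of_isUnit_mem _ hi0 hunit)
    have heS : e S ∉ 𝔪 := by
      intro hin
      apply hf𝔪
      have := 𝔪.add_mem hx (𝔪.mul_mem_left f hin)
      simpa using this
    exact fun hq => heS (hq𝔪 hq)
  -- step 2: compactness
  let 𝒮 := {S : Set ι // ∃ j, PrimeSpectrum.basicOpen (e S) ≤ U j}
  have hcover : (Set.univ : Set (PrimeSpectrum (∀ i, R i))) ⊆
      ⋃ S : 𝒮, (PrimeSpectrum.basicOpen (e S.1) : Set (PrimeSpectrum (∀ i, R i))) := by
    intro q _
    obtain ⟨S, hqS, hSU⟩ := step1 q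
    exact Set.mem_iUnion.2 ⟨⟨S, hSU⟩, hqS⟩
  obtain ⟨t, ht⟩ := isCompact_univ.elim_finite_subcover
    (fun S : 𝒮 => (PrimeSpectrum.basicOpen (e S.1) : Set (PrimeSpectrum (∀ i, R i))))
    (fun S => (PrimeSpectrum.basicOpen (e S.1)).isOpen) hcover
  -- step 3: every index lies in some member of t
  have step3 : ∀ i : ι, ∃ S ∈ t, i ∈ S.1 := by
    intro i
    let qi : PrimeSpectrum (∀ i, R i) :=
      PrimeSpectrum.comap (Pi.evalRingHom R i) (IsLocalRing.closedPoint (R i))
    obtain ⟨S, hSt, hqS⟩ := Set.mem_iUnion₂.1 (ht (Set.mem_univ qi))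
    refine ⟨S, hSt, ?_⟩
    by_contra hiS
    apply hqS
    show e S.1 ∈ (IsLocalRing.closedPoint (R i)).asIdeal.comap (Pi.evalRingHom R i)
    rw [Ideal.mem_comap]
    simp [e, hiS]
  -- step 4: enumerate and build the partition
  let σ := t.equivFin
  have hne : ∀ i : ι, (Finset.univ.filter fun m : Fin t.card => i ∈ (σ.symm m).1.1).Nonempty := by
    intro i
    obtain ⟨S, hSt, hiS⟩ := step3 i
    refine ⟨σ ⟨S, hSt⟩, ?_⟩
    simp [hiS]
  let c : ι → Fin t.card := fun i =>
    (Finset.univ.filter fun m : Fin t.card => i ∈ (σ.symm m).1.1).min' (hne i)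
  refine ⟨t.card, c, fun m => ?_⟩
  obtain ⟨j, hj⟩ := (σ.symm m).1.2
  refine ⟨j, le_trans ?_ hj⟩
  have hsub : {i | c i = m} ⊆ (σ.symm m).1.1 := by
    intro i hi
    have hmem := Finset.min'_mem _ (hne i)
    change c i ∈ _ at hmem
    rw [show c i = m from hi] at hmem
    simpa using hmem
  have hfun : (fun i => if c i = m then (1 : R i) else 0) = e {i | c i = m} := by
    funext i
    by_cases h : c i = m
    · simp [e, h]
    · simp [e, h]
  rw [hfun]
  exact he_le _ _ hsub

end Groth.Agent.S13953
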