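import Groth.Statements.S13963
-- import your own Groth.Agent.* helpers here
import Mathlib.Tactic
import Mathlib.Topology.Algebra.Group.OpenMapping
import Mathlib.Topology.Baire.LocallyCompactRegular

set_option autoImplicit false
universe u
open TateLoc

namespace Groth.Agent.S13963

/-- Let A' → A → A'' be continuous homomorphisms of locally compact, second-countable, Hausdorff abelian
topological groups which form a short exact sequence of abstract groups (the first injective, the
second surjective, image equal to kernel). If A' and A'' are compact, then A is compact. -/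
theorem result (A' A A'' : Type u)
    [AddCommGroup A'] [TopologicalSpace A'] [IsTopologicalAddGroup A'] [SecondCountableTopology A'] [T2Space A']
    [CompactSpace A']
    [AddCommGroup A] [TopologicalSpace A] [IsTopologicalAddGroup A] [LocallyCompactSpace A]
    [SecondCountableTopology A] [T2Space A]
    [AddCommGroup A''] [TopologicalSpace A''] [IsTopologicalAddGroup A''] [SecondCountableTopology A''] [T2Space A'']
    [CompactSpace A'']
    (f : A' →+ A) (g : A →+ A'') (hf : Continuous f) (hg : Continuous g)
    (hinj : Function.Injective f) (hsurj : Function.Surjective g) (hex : g.ker = f.range) :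
    CompactSpace A := by
  classical
  have hopen : IsOpenMap g := AddMonoidHom.isOpenMap_of_sigmaCompact g hsurj hg
  have hK : ∀ a : A, ∃ K : Set A, IsCompact K ∧ K ∈ nhds a := fun a => exists_compact_mem_nhds a
  choose K hKc hKn using hK
  have hcov : (Set.univ : Set A'') ⊆ ⋃ a : A, g '' interior (K a) := by
    intro y _
    obtain ⟨a, rfl⟩ := hsurj y
    exact Set.mem_iUnion.2 ⟨a, a, mem_interior_iff_mem_nhds.2 (hKn a), rfl⟩
  obtain ⟨t, ht⟩ := isCompact_univ.elim_finite_subcover (fun a : A => g '' interior (K a))
    (fun a => hopen _ isOpen_interior) hcov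
  let L : A → Set A := fun a => (fun p : A × A' => p.1 + f p.2) '' (K a ×ˢ Set.univ)
  have hL : ∀ a, IsCompact (L a) := fun a =>
    ((hKc a).prod isCompact_univ).image (continuous_fst.add (hf.comp continuous_snd))
  have hsub : (Set.univ : Set A) ⊆ ⋃ a ∈ t, L a := by
    intro x _
    have hx : g x ∈ ⋃ a ∈ t, g '' interior (K a) := ht (Set.mem_univ _)
    obtain ⟨b, hb, hxb⟩ := Set.mem_iUnion₂.1 hx
    obtain ⟨v, hv, hgv⟩ := hxb
    have hker : x - v ∈ g.ker := by
      rw [AddMonoidHom.mem_ker, map_sub, hgv, sub_self]
    rw [hex] at hker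
    obtain ⟨w, hw⟩ := hker
    refine Set.mem_iUnion₂.2 ⟨b, hb, ⟨(v, w), ⟨interior_subset hv, Set.mem_univ _⟩, ?_⟩⟩
    simp only [hw]
    abel
  exact ⟨(t.finite_toSet.isCompact_biUnion fun a _ => hL a).of_isClosed_subset isClosed_univ hsub⟩

end Groth.Agent.S13963
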