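import Groth.Statements.S1398
-- import your own Groth.Agent.* helpers here

set_option autoImplicit false
universe u
open FlatMor

namespace Groth.Agent.S1398

open AlgebraicGeometry CategoryTheory Limits in
/-- An immersion is ind-quasi-affine, and so is any quasi-affine morphism. -/
theorem result {X Y : Scheme.{u}} (f : X ⟶ Y) :
    (IsImmersion f → MoreMor.IsIndQuasiAffineHom f) ∧ (MoreMor.IsQuasiAffineHom f → MoreMor.IsIndQuasiAffineHom f) := by
  constructor
  · intro hf V hV U hU
    have : CompactSpace (U : Scheme.{u}) := isCompact_iff_compactSpace.mp hU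
    have : IsAffine (V : Scheme.{u}) := hV
    exact Scheme.IsQuasiAffine.of_isImmersion (U.ι ≫ (f ∣_ V))
  · rintro ⟨-, hf⟩ V hV U hU
    have : CompactSpace (U : Scheme.{u}) := isCompact_iff_compactSpace.mp hU
    have : Scheme.IsQuasiAffine (f ⁻¹ᵁ V : Scheme.{u}) := hf V hV
    exact Scheme.IsQuasiAffine.of_isImmersion U.ι

end Groth.Agent.S1398
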