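import Groth.Statements.S14005
-- import your own Groth.Agent.* helpers here
import Groth.Agent.Lib.Helper21.NoethTop
import Mathlib.Topology.Sheaves.Stalks
import Mathlib.AlgebraicGeometry.Properties

set_option autoImplicit false
universe u
open CategoryTheory AlgebraicGeometry
open CohTop

namespace Groth.Agent.S14005

/-- Take a scheme X with a locally Noetherian underlying topological space, F a sheaf of abelian groups
on X, x a point of X and s an element of the stalk F_x. Then the following are equivalent: (i) s is
the germ of a section t over some open neighbourhood U of x whose support in U is contained in the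
closure of {x} (that is, s belongs to the subgroup Γ_x(F) of F_x); (ii) for every generization y ≠ x
of x the image of s under the cospecialisation map F_x → F_y is zero (that is, viewed as a global
section of the inverse image of F on Spec O_{X,x}, s is supported at the closed point). -/
theorem result {X : Scheme.{u}}
    (hX : ∀ x : X, ∃ U : X.Opens, x ∈ U ∧ TopologicalSpace.NoetherianSpace U)
    (F : TopCat.Sheaf AddCommGrpCat.{u} X.carrier) (x : X) (s : F.presheaf.stalk x) :
    (∃ (U : X.Opens) (hx : x ∈ U) (t : F.presheaf.obj (Opposite.op U)),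
        F.presheaf.germ U x hx t = s ∧
          ∀ (u : X) (hu : u ∈ U), F.presheaf.germ U u hu t ≠ 0 → u ∈ closure ({x} : Set X)) ↔
      ∀ (y : X) (h : y ⤳ x), y ≠ x → F.presheaf.stalkSpecializes h s = 0 := by
  constructor
  · rintro ⟨U, hx, t, hts, hsupp⟩ y h hyx
    have hyU : y ∈ U := h.mem_open U.isOpen hx
    have e : F.presheaf.stalkSpecializes h s = F.presheaf.germ U y hyU t := by
      rw [← hts]
      exact TopCat.Presheaf.germ_stalkSpecializes_apply F.presheaf hx h t
    rw [e]
    by_contra hne
    have hcl := hsupp y hyU hne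
    have hxy : x ⤳ y := specializes_iff_mem_closure.mpr hcl
    exact hyx (h.antisymm hxy).eq
  · intro H
    obtain ⟨U₀, hxU₀, hU₀⟩ := hX x
    obtain ⟨W, hWU₀, hxW, t, hts⟩ := TopCat.Presheaf.exists_le_germ_eq F.presheaf s hxU₀
    have : TopologicalSpace.NoetherianSpace (U₀ : Set X) := hU₀
    have : TopologicalSpace.NoetherianSpace (W : Set X) :=
      TopologicalSpace.NoetherianSpace.of_subset (W := (U₀ : Set X)) hWU₀
    set T : Set X := {u | ∃ hu : u ∈ W, F.presheaf.germ W u hu t ≠ 0} with hT
    have hTW : T ⊆ W := fun u hu => hu.1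
    have hTc : IsClosed ((Subtype.val : ↥(W : Set X) → X) ⁻¹' T) := by
      rw [← isOpen_compl_iff, isOpen_iff_forall_mem_open]
      rintro ⟨u, huW⟩ hu
      have hu0 : F.presheaf.germ W u huW t = 0 := by
        by_contra hne
        exact hu ⟨huW, hne⟩
      have hu0' : F.presheaf.germ W u huW t = F.presheaf.germ W u huW 0 := by
        rw [hu0, map_zero]
      obtain ⟨O, huO, iO, iO', hO⟩ := TopCat.Presheaf.germ_eq F.presheaf u huW huW t 0 hu0'
      refine ⟨Subtype.val ⁻¹' (O : Set X), ?_, O.isOpen.preimage continuous_subtype_val, huO⟩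
      rintro ⟨v, hvW⟩ hvO ⟨_, hv⟩
      apply hv
      have : F.presheaf.germ W v hvW t = F.presheaf.germ O v hvO (F.presheaf.map iO.op t) :=
        (TopCat.Presheaf.germ_res_apply F.presheaf iO v hvO t).symm
      rw [this, hO, map_zero, map_zero]
    have hgen : ∀ y ∈ T, y ⤳ x → y = x := by
      rintro y ⟨hyW, hy⟩ h
      by_contra hyx
      apply hy
      have := H y h hyx
      rw [← hts, TopCat.Presheaf.germ_stalkSpecializes_apply F.presheaf hxW h t] at this
      exact this
    obtain ⟨W', hW'o, hxW', hW'W, hW'T⟩ :=
      Groth.Agent.Lib.Helper21.NoethTop.exists_open_inter_subset_closure (W : Set X) W.isOpen x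
        hxW T hTW hTc hgen
    let U : X.Opens := ⟨W', hW'o⟩
    have hUW : U ≤ W := hW'W
    refine ⟨U, hxW', F.presheaf.map (homOfLE hUW).op t, ?_, ?_⟩
    · rw [TopCat.Presheaf.germ_res_apply]
      exact hts
    · intro u hu hne
      rw [TopCat.Presheaf.germ_res_apply] at hne
      exact hW'T ⟨⟨hUW hu, hne⟩, hu⟩

end Groth.Agent.S14005
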