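import Groth.Statements.S14085
-- import your own Groth.Agent.* helpers here
import Mathlib.Tactic
import Mathlib.LinearAlgebra.TensorProduct.Prod
import Mathlib.RingTheory.Flat.Equalizer
import Mathlib.RingTheory.Flat.Stability

set_option autoImplicit false
universe u
open FlatMor

namespace Groth.Agent.S14085

/-- Let R be a ring, A and B flat R-algebras, I an ideal of A and B → A/I an injective finite flat map
of R-algebras. Then the fibre product ring B ×_{A/I} A, realised as the subalgebra of B × A of pairs
with equal image in A/I, is flat over R. (This is the affine statement behind flatness over the base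
of the pushout of a closed immersion along a finite flat morphism.) -/
theorem result (R A B : Type u) [CommRing R] [CommRing A] [CommRing B]
    [Algebra R A] [Algebra R B] [Module.Flat R A] [Module.Flat R B] (I : Ideal A)
    [Algebra B (A ⧸ I)] [IsScalarTower R B (A ⧸ I)] [Module.Finite B (A ⧸ I)] [Module.Flat B (A ⧸ I)]
    (hinj : Function.Injective (algebraMap B (A ⧸ I))) :
    Module.Flat R ↥(AlgHom.equalizer ((IsScalarTower.toAlgHom R B (A ⧸ I)).comp (AlgHom.fst R B A))
          ((Ideal.Quotient.mkₐ R I).comp (AlgHom.snd R B A))) := by
  classical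
  have hprod : Module.Flat R (B × A) := by
    rw [Module.Flat.iff_rTensor_preserves_injective_linearMap]
    intro X Y _ _ _ _ u hu
    have key : (TensorProduct.prodRight R R Y B A).toLinearMap ∘ₗ u.rTensor (B × A) =
        (LinearMap.prodMap (u.rTensor B) (u.rTensor A)) ∘ₗ
          (TensorProduct.prodRight R R X B A).toLinearMap := by
      apply TensorProduct.ext'
      intro x y
      simp [TensorProduct.prodRight_tmul]
    have hinj : Function.Injective ((LinearMap.prodMap (u.rTensor B) (u.rTensor A)) ∘ₗ
        (TensorProduct.prodRight R R X B A).toLinearMap) := by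
      rw [LinearMap.coe_comp]
      apply Function.Injective.comp _ (TensorProduct.prodRight R R X B A).injective
      rw [LinearMap.coe_prodMap]
      exact Function.Injective.prodMap (Module.Flat.rTensor_preserves_injective_linearMap u hu)
        (Module.Flat.rTensor_preserves_injective_linearMap u hu)
    rw [← key, LinearMap.coe_comp] at hinj
    exact hinj.of_comp
  have hker : ∀ {N P : Type u} [AddCommGroup N] [Module R N] [AddCommGroup P] [Module R P],
      Module.Flat R N → Module.Flat R P → ∀ f : N →ₗ[R] P, Function.Surjective f →
        Module.Flat R (LinearMap.ker f) := by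
    intro N P _ _ _ _ hN hP f hf
    rw [Module.Flat.iff_rTensor_preserves_injective_linearMap]
    intro X Y _ _ _ _ u hu
    have h1 : Function.Injective ((LinearMap.ker f).subtype.lTensor X) :=
      LinearMap.lTensor_injective_of_exact_of_flat f hf _ (LinearMap.ker f).subtype_injective
        (LinearMap.exact_subtype_ker_map f) X
    have h2 : Function.Injective (u.rTensor N) := Module.Flat.rTensor_preserves_injective_linearMap u hu
    have h3 : (LinearMap.ker f).subtype.lTensor Y ∘ₗ u.rTensor (LinearMap.ker f) =
        u.rTensor N ∘ₗ (LinearMap.ker f).subtype.lTensor X := by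
      rw [LinearMap.lTensor_comp_rTensor, LinearMap.rTensor_comp_lTensor]
    have h4 : Function.Injective (u.rTensor N ∘ₗ (LinearMap.ker f).subtype.lTensor X) := by
      rw [LinearMap.coe_comp]; exact h2.comp h1
    rw [← h3, LinearMap.coe_comp] at h4
    exact h4.of_comp
  have hQ : Module.Flat R (A ⧸ I) := Module.Flat.trans R B (A ⧸ I)
  set α := (IsScalarTower.toAlgHom R B (A ⧸ I)).comp (AlgHom.fst R B A) with hα
  set β := (Ideal.Quotient.mkₐ R I).comp (AlgHom.snd R B A) with hβ
  let f : (B × A) →ₗ[R] (A ⧸ I) := α.toLinearMap - β.toLinearMap
  have hf : Function.Surjective f := by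
    intro y
    obtain ⟨a, rfl⟩ := Ideal.Quotient.mk_surjective y
    refine ⟨(0, -a), ?_⟩
    simp [f, α, β]
  have hE : Subalgebra.toSubmodule (AlgHom.equalizer α β) = LinearMap.ker f := by
    ext x
    simp [f, sub_eq_zero]
  haveI := hker hprod hQ f hf
  exact Module.Flat.of_linearEquiv ((Subalgebra.toSubmoduleEquiv _).symm ≪≫ₗ LinearEquiv.ofEq _ _ hE)

end Groth.Agent.S14085
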