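import Groth.Statements.S14088
-- import your own Groth.Agent.* helpers here
import Mathlib.Tactic

set_option autoImplicit false
universe u
open ArSing

namespace Groth.Agent.S14088

/-- The identity behind the torus-equivariant classes h_i = h_0 + i τ of the coordinate hyperplanes of a
projective space of binary forms, stated in an arbitrary commutative ring: for n ≤ m, (h_0 ⋯
h_(n-1))^2 · h_n ⋯ h_(m-1) equals the sum over s = 0, …, n of (-1)^s s! (n choose s) (m choose s)
τ^s h_0 ⋯ h_(m+n-s-1), where h_i = h + i τ. (The published statement is in the equivariant Chow ring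
of that projective space; only the relations h_i = h_j + (j - i) τ are used, so it holds in any
commutative ring.) -/
theorem result (A : Type u) [CommRing A] (h τ : A) (n m : ℕ) (hnm : n ≤ m) :
    (∏ i ∈ Finset.range n, (h + (i : A) * τ) ^ 2) * ∏ i ∈ Finset.Ico n m, (h + (i : A) * τ) =
      ∑ s ∈ Finset.range (n + 1), (-1 : A) ^ s * (Nat.factorial s : A) * (Nat.choose n s : A) *
        (Nat.choose m s : A) * τ ^ s * ∏ i ∈ Finset.range (m + n - s), (h + (i : A) * τ) := by
  set P : ℕ → A := fun a => ∏ i ∈ Finset.range a, (h + (i : A) * τ) with hP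
  have hPs : ∀ a, P (a+1) = P a * (h + (a:A) * τ) := fun a => Finset.prod_range_succ _ _
  have lhs : (∏ i ∈ Finset.range n, (h + (i : A) * τ) ^ 2) *
      ∏ i ∈ Finset.Ico n m, (h + (i : A) * τ) = P n * P m := by
    rw [Finset.prod_pow, sq, mul_assoc, Finset.prod_range_mul_prod_Ico _ hnm]
  rw [lhs]
  have key : ∀ s : ℕ, ((m:A) - s) * (Nat.choose m s : A) = (s + 1) * (Nat.choose m (s+1) : A) := by
    intro s
    have e := Nat.choose_succ_right_eq m s
    by_cases hs : s ≤ m
    · have e' : ((Nat.choose m (s+1) * (s+1) : ℕ) : A) = ((Nat.choose m s * (m - s) : ℕ) : A) := by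
        rw [e]
      push_cast [Nat.cast_sub hs] at e'
      linear_combination -e'
    · push Not at hs
      rw [Nat.choose_eq_zero_of_lt hs, Nat.choose_eq_zero_of_lt (by omega)]
      simp
  have coef : ∀ N s : ℕ, (-1 : A) ^ (s+1) * (Nat.factorial (s+1) : A) * (Nat.choose (N+1) (s+1) : A) *
      (Nat.choose m (s+1) : A) = (-1 : A) ^ (s+1) * (Nat.factorial (s+1) : A) * (Nat.choose N (s+1) : A) *
      (Nat.choose m (s+1) : A) - ((m:A) - s) * ((-1 : A) ^ s * (Nat.factorial s : A) *
      (Nat.choose N s : A) * (Nat.choose m s : A)) := by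
    intro N s
    rw [Nat.factorial_succ, Nat.choose_succ_succ]
    push_cast
    linear_combination (-1 : A) ^ s * (Nat.factorial s : A) * (Nat.choose N s : A) * key s
  suffices H : ∀ N, P N * P m = ∑ s ∈ Finset.range (N + 1), (-1 : A) ^ s * (Nat.factorial s : A) *
      (Nat.choose N s : A) * (Nat.choose m s : A) * τ ^ s * P (m + N - s) from H n
  intro N
  induction N with
  | zero => simp [hP]
  | succ N ih =>
    have e1 : P (N+1) * P m = (h + (N:A)*τ) * (P N * P m) := by rw [hPs]; ring
    rw [e1, ih, Finset.mul_sum]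
    have e2 : ∀ s ∈ Finset.range (N+1), (h + (N:A)*τ) * ((-1 : A) ^ s * (Nat.factorial s : A) *
        (Nat.choose N s : A) * (Nat.choose m s : A) * τ ^ s * P (m + N - s)) =
        (-1 : A) ^ s * (Nat.factorial s : A) * (Nat.choose N s : A) * (Nat.choose m s : A) * τ ^ s *
          P (m + (N+1) - s) - ((m:A) - s) * ((-1 : A) ^ s * (Nat.factorial s : A) *
          (Nat.choose N s : A) * (Nat.choose m s : A)) * τ^(s+1) * P (m + N - s) := by
      intro s hs
      have hs' : s ≤ N := Nat.lt_succ_iff.mp (Finset.mem_range.mp hs)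
      rw [show m + (N+1) - s = (m + N - s) + 1 by omega, hPs]
      rw [Nat.cast_sub (by omega : s ≤ m + N)]
      push_cast
      ring
    rw [Finset.sum_congr rfl e2, Finset.sum_sub_distrib]
    have ext : ∑ s ∈ Finset.range (N+1), (-1 : A) ^ s * (Nat.factorial s : A) * (Nat.choose N s : A) *
        (Nat.choose m s : A) * τ ^ s * P (m + (N+1) - s) = ∑ s ∈ Finset.range (N+1+1), (-1 : A) ^ s *
        (Nat.factorial s : A) * (Nat.choose N s : A) * (Nat.choose m s : A) * τ ^ s *
        P (m + (N+1) - s) := by
      rw [Finset.sum_range_succ _ (N+1), Nat.choose_eq_zero_of_lt (by omega : N < N + 1)]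
      simp
    rw [ext, Finset.sum_range_succ' _ (N+1), Finset.sum_range_succ' _ (N+1)]
    simp only [pow_zero, Nat.factorial_zero, Nat.choose_zero_right, Nat.cast_one, one_mul, mul_one,
      Nat.sub_zero]
    rw [add_sub_right_comm, ← Finset.sum_sub_distrib]
    congr 1
    refine Finset.sum_congr rfl fun s hs => ?_
    rw [show m + (N+1) - (s+1) = m + N - s by omega, coef N s]
    ring

end Groth.Agent.S14088
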