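import Groth.Statements.S14091
-- import your own Groth.Agent.* helpers here
import Mathlib.Tactic
import Mathlib.RingTheory.Artinian.Ring
import Mathlib.RingTheory.Ideal.Cotangent

set_option autoImplicit false
universe u
open ArSing

namespace Groth.Agent.S14091

open Polynomial in
/-- Over an algebraically closed field k, a finite local k-algebra B whose cotangent space m/m^2 has
dimension at most one over the residue field is isomorphic, as a k-algebra, to k[t]/(t^n) with n =
dim_k B (curvilinear pointed algebras of degree n have a single isomorphism class). -/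
theorem result (k B : Type u) [Field k] [IsAlgClosed k]
    [CommRing B] [IsLocalRing B] [Algebra k B] [Module.Finite k B]
    (hcurv : Module.finrank (IsLocalRing.ResidueField B) (IsLocalRing.CotangentSpace B) ≤ 1) :
    Nonempty (B ≃ₐ[k] (Polynomial k ⧸ Ideal.span {(X : Polynomial k) ^ Module.finrank k B})) := by
  classical
  haveI : IsArtinianRing B := IsArtinianRing.of_finite k B
  haveI : IsNoetherianRing B := isNoetherian_of_tower k (IsNoetherian.iff_fg.mpr inferInstance)
  obtain ⟨t, ht⟩ := (IsLocalRing.finrank_cotangentSpace_le_one_iff.mp hcurv).principal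
  set m := IsLocalRing.maximalIdeal B with hmdef
  have htm : t ∈ m := by rw [ht]; exact Submodule.mem_span_singleton_self t
  obtain ⟨N, hN⟩ : ∃ N, m ^ N = ⊥ := by
    have := IsArtinianRing.isNilpotent_jacobson_bot (R := B)
    rwa [IsLocalRing.jacobson_eq_maximalIdeal ⊥ bot_ne_top] at this
  have htN : t ^ N = 0 := by
    have : t ^ N ∈ m ^ N := Ideal.pow_mem_pow htm N
    rwa [hN, Ideal.mem_bot] at this
  have hres : ∀ b : B, ∃ c : k, b - algebraMap k B c ∈ m := by
    intro b
    haveI : Module.Finite k (IsLocalRing.ResidueField B) :=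
      Module.Finite.of_surjective (IsScalarTower.toAlgHom k B (IsLocalRing.ResidueField B)).toLinearMap
        IsLocalRing.residue_surjective
    obtain ⟨c, hc⟩ := (IsAlgClosed.algebraMap_bijective_of_isIntegral (k := k)
      (K := IsLocalRing.ResidueField B)).2 (IsLocalRing.residue B b)
    refine ⟨c, ?_⟩
    rw [← IsLocalRing.residue_eq_zero_iff, map_sub, ← hc, IsScalarTower.algebraMap_apply k B
      (IsLocalRing.ResidueField B), IsLocalRing.ResidueField.algebraMap_eq, sub_self]
  have hmj : ∀ j, m ^ j = Ideal.span {t ^ j} := by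
    intro j
    rw [ht, ← Ideal.span_singleton_pow]
  have hsurj_aux : ∀ j (b : B), ∃ p : k[X], b - aeval t p ∈ m ^ j := by
    intro j
    induction j with
    | zero => intro b; exact ⟨0, by simp⟩
    | succ j ih =>
      intro b
      obtain ⟨p, hp⟩ := ih b
      rw [hmj, Ideal.mem_span_singleton'] at hp
      obtain ⟨c, hc⟩ := hp
      obtain ⟨c₀, hc₀⟩ := hres c
      refine ⟨p + C c₀ * X ^ j, ?_⟩
      have : b - aeval t (p + C c₀ * X ^ j) = (c - algebraMap k B c₀) * t ^ j := by
        rw [map_add, map_mul, aeval_C, map_pow, aeval_X]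
        linear_combination -hc
      rw [this, pow_succ']
      exact Ideal.mul_mem_mul hc₀ (by rw [hmj]; exact Ideal.mem_span_singleton_self _)
  have hsurj : Function.Surjective (aeval t : k[X] →ₐ[k] B) := by
    intro b
    obtain ⟨p, hp⟩ := hsurj_aux N b
    rw [hN, Ideal.mem_bot, sub_eq_zero] at hp
    exact ⟨p, hp.symm⟩
  obtain ⟨g, hg⟩ := Submodule.IsPrincipal.principal (RingHom.ker (aeval t : k[X] →ₐ[k] B))
  have hXN : (X : k[X]) ^ N ∈ RingHom.ker (aeval t : k[X] →ₐ[k] B) := by
    rw [RingHom.mem_ker, map_pow, aeval_X, htN]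
  rw [hg, Ideal.submodule_span_eq, Ideal.mem_span_singleton] at hXN
  obtain ⟨i, hiN, hassoc⟩ := (dvd_prime_pow Polynomial.prime_X N).mp hXN
  have hker : RingHom.ker (aeval t : k[X] →ₐ[k] B) = Ideal.span {X ^ i} := by
    rw [hg, Ideal.submodule_span_eq]
    exact Ideal.span_singleton_eq_span_singleton.mpr hassoc
  let e := Ideal.quotientKerAlgEquivOfSurjective hsurj
  let e' : (k[X] ⧸ Ideal.span {(X : k[X]) ^ i}) ≃ₐ[k] B :=
    (Ideal.quotientEquivAlgOfEq k hker.symm).trans e
  have hfin : Module.finrank k B = i := by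
    rw [← e'.toLinearEquiv.finrank_eq, finrank_quotient_span_eq_natDegree, natDegree_X_pow]
  rw [hfin]
  exact ⟨e'.symm⟩

end Groth.Agent.S14091
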