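import Groth.Statements.S14097
-- import your own Groth.Agent.* helpers here
import Mathlib.Tactic

set_option autoImplicit false
universe u
open ArSing

namespace Groth.Agent.S14097

/-- In any commutative ring, if h_0, …, h_(k-1) (k ≥ 2) and τ satisfy h_i^2 + τ h_i = 0, then ∏_(i ≤
k-2) (h_i + h_(i+1) + τ) = Σ_(j ≤ k-1) τ^(k-1-j) e_j(h), e_j the elementary symmetric functions.
(The published statement is the resulting formula for the class of the small diagonal in the Chow
ring of (P^1)^k, where the h_i are the hyperplane classes of the factors and satisfy these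
relations; only the ring identity is asserted here.) -/
theorem result (A : Type u) [CommRing A] (k : ℕ) (hk : 2 ≤ k) (τ : A)
    (h : ℕ → A) (hrel : ∀ i, i < k → h i ^ 2 + τ * h i = 0) :
    ∏ i ∈ Finset.range (k - 1), (h i + h (i + 1) + τ) =
      ∑ j ∈ Finset.range k, τ ^ (k - 1 - j) * (((Finset.range k).val.map h).esymm j) := by
  set E : ℕ → ℕ → A := fun m j => ((Finset.range m).val.map h).esymm j with hE
  set S : ℕ → A := fun m => ∑ j ∈ Finset.range m, τ ^ (m - 1 - j) * E m j with hS
  have hmul : ∀ m, (Finset.range (m + 1)).val.map h = h m ::ₘ (Finset.range m).val.map h := by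
    intro m
    rw [Finset.range_val, Finset.range_val, Multiset.range_succ, Multiset.map_cons]
  have Econs : ∀ m j, E (m + 1) (j + 1) = E m (j + 1) + h m * E m j := by
    intro m j
    simp only [hE, hmul, Multiset.esymm, Multiset.powersetCard_cons, Multiset.map_add,
      Multiset.sum_add, Multiset.map_map, Function.comp_def, Multiset.prod_cons,
      Multiset.sum_map_mul_left]
  have Ezero : ∀ m, E m 0 = 1 := by
    intro m
    simp [hE, Multiset.esymm, Multiset.powersetCard_zero_left]
  have Ebig : ∀ m j, m < j → E m j = 0 := by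
    intro m j hmj
    simp only [hE, Multiset.esymm]
    rw [Multiset.powersetCard_eq_empty]
    · simp
    · simpa using hmj
  have Etop : ∀ m, E (m + 1) (m + 1) = h m * E m m := by
    intro m
    rw [Econs, Ebig m (m + 1) (by omega), zero_add]
  have hSdef : ∀ m, S (m + 1) = ∑ j ∈ Finset.range (m + 1), τ ^ (m - j) * E (m + 1) j := by
    intro m
    simp only [hS]
    refine Finset.sum_congr rfl fun j _ => ?_
    rw [Nat.add_sub_cancel]
  have claim1 : ∀ m, S (m + 1) = (τ + h m) * S m + E m m := by
    intro m
    have hA : S (m + 1) = ∑ j ∈ Finset.range m, τ ^ (m - 1 - j) * E m (j + 1) +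
        h m * S m + τ ^ m := by
      rw [hSdef, Finset.sum_range_succ', Ezero, Nat.sub_zero, mul_one]
      congr 1
      simp only [hS]
      rw [Finset.mul_sum, ← Finset.sum_add_distrib]
      refine Finset.sum_congr rfl fun j _ => ?_
      rw [Econs, show m - (j + 1) = m - 1 - j by omega]
      ring
    have hB : ∑ j ∈ Finset.range (m + 1), τ ^ (m - j) * E m j =
        ∑ j ∈ Finset.range m, τ ^ (m - 1 - j) * E m (j + 1) + τ ^ m := by
      rw [Finset.sum_range_succ']
      simp only [Ezero, mul_one, Nat.sub_zero]
      congr 1
      refine Finset.sum_congr rfl fun j _ => ?_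
      congr 2
      omega
    have hC : ∑ j ∈ Finset.range (m + 1), τ ^ (m - j) * E m j =
        τ * S m + E m m := by
      rw [Finset.sum_range_succ]
      simp only [hS, Nat.sub_self, pow_zero, one_mul, Finset.mul_sum]
      congr 1
      refine Finset.sum_congr rfl fun j hj => ?_
      rw [← mul_assoc, ← pow_succ']
      congr 2
      have := Finset.mem_range.mp hj
      omega
    rw [hA]
    linear_combination hB.symm.trans hC
  have claim2 : ∀ m, h m ^ 2 + τ * h m = 0 → h m * S (m + 1) = E (m + 1) (m + 1) := by
    intro m hm
    rw [claim1, Etop]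
    have : h m * ((τ + h m) * S m) = (h m ^ 2 + τ * h m) * S m := by ring
    rw [mul_add, this, hm, zero_mul, zero_add]
  have main : ∀ m, m + 1 ≤ k →
      ∏ i ∈ Finset.range m, (h i + h (i + 1) + τ) = S (m + 1) := by
    intro m
    induction m with
    | zero =>
      intro _
      simp [hS, Ezero]
    | succ m ih =>
      intro hmk
      rw [Finset.prod_range_succ, ih (by omega), claim1 (m + 1), ← claim2 m (hrel m (by omega))]
      ring
  obtain ⟨m, rfl⟩ : ∃ m, k = m + 1 := ⟨k - 1, by omega⟩
  rw [Nat.add_sub_cancel, main m le_rfl]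
  exact hSdef m

end Groth.Agent.S14097
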