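import Groth.Statements.S14103
-- import your own Groth.Agent.* helpers here
import Mathlib.AlgebraicGeometry.Morphisms.Preimmersion

set_option autoImplicit false
universe u
open CategoryTheory CategoryTheory.Limits AlgebraicGeometry Opposite TopologicalSpace
open CInt

namespace Groth.Agent.S14103

/-- Let f : X → S be a morphism of locally Noetherian schemes and Y a closed subset of X. The
codimension of Y in X relative to f, namely the infimum over the points y of Y of the Krull
dimension of the local ring at y of the fibre of f through y, is at most the codimension of Y in X,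
the infimum over y ∈ Y of the Krull dimension of O_{X,y}. -/
theorem result {X S : Scheme.{u}} [IsLocallyNoetherian X] [IsLocallyNoetherian S]
    (f : X ⟶ S) (Y : Set ↥X) (hY : IsClosed Y) :
    (⨅ y : Y, ringKrullDim ↑(CInt.fiberStalk f y.1)) ≤ ⨅ y : Y, ringKrullDim ↑(X.presheaf.stalk y.1) := by
  have key : ∀ x : X, ringKrullDim (CInt.fiberStalk f x) ≤ ringKrullDim (X.presheaf.stalk x) := by
    intro x
    have h := ringKrullDim_le_of_surjective ((f.fiberι (f x)).stalkMap (f.asFiber x)).hom
      ((f.fiberι (f x)).stalkMap_surjective (f.asFiber x))
    have e : (f.fiberι (f x)) (f.asFiber x) = x := f.fiberι_asFiber x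
    rw [e] at h
    exact h
  exact iInf_mono fun y => key y.1

end Groth.Agent.S14103
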