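import Groth.Statements.S14115
-- import your own Groth.Agent.* helpers here
import Mathlib.Tactic

set_option autoImplicit false
universe u v
open SuperComm

namespace Groth.Agent.S14115

/-- Let S be an associative unital algebra over a commutative ring R, x an element and y_0, …, y_n
elements such that the anticommutator x y_i + y_i x equals r_i · 1 for scalars r_i ∈ R. Then the
graded commutator of x with the ordered product y_0 ⋯ y_n, namely x (y_0 ⋯ y_n) + (-1)^n (y_0 ⋯ y_n)
x, equals the sum over p of (-1)^p r_p times the ordered product of the y_q with q ≠ p. (The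
published statement takes x homogeneous of degree 1 and the y_i homogeneous of degree -1 in a graded
algebra with unit in degree 0, the signs being those of the supercommutator; this row states the
identity for arbitrary elements satisfying the anticommutation relations, which is what the
computation proves.) -/
theorem result {R : Type u} {S : Type v} [CommRing R] [Ring S]
    [Algebra R S] (n : ℕ) (x : S) (y : Fin (n + 1) → S) (r : Fin (n + 1) → R)
    (h : ∀ i : Fin (n + 1), x * y i + y i * x = algebraMap R S (r i)) :
    x * (List.ofFn y).prod + (-1 : S) ^ n * ((List.ofFn y).prod * x) =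
      ∑ p : Fin (n + 1), (-1 : S) ^ (p : ℕ) * (r p • (List.ofFn (fun q : Fin n => y (p.succAbove q))).prod) := by
  induction n with
  | zero =>
    simp only [List.ofFn_succ, List.ofFn_zero, List.prod_cons, List.prod_nil, mul_one,
      pow_zero, one_mul]
    rw [h 0, Algebra.algebraMap_eq_smul_one]
    simp
  | succ n ih =>
    have hsplit : ∀ z : Fin (n + 2) → S,
        (List.ofFn z).prod = (List.ofFn (fun i : Fin (n + 1) => z i.castSucc)).prod * z (Fin.last _) := by
      intro z
      rw [List.ofFn_succ', List.concat_eq_append, List.prod_append, List.prod_singleton]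
    set P := (List.ofFn (fun i : Fin (n + 1) => y i.castSucc)).prod with hP
    set y' := y (Fin.last (n + 1)) with hy'
    have IH := ih (fun i => y i.castSucc) (fun i => r i.castSucc) (fun i => h i.castSucc)
    rw [← hP] at IH
    have hyx : y' * x = algebraMap R S (r (Fin.last (n + 1))) - x * y' := by
      rw [← h (Fin.last (n + 1))]; abel
    have hcomm : P * algebraMap R S (r (Fin.last (n + 1))) =
        algebraMap R S (r (Fin.last (n + 1))) * P := (Algebra.commutes _ _).symm
    rw [hsplit, ← hP, ← hy', Fin.sum_univ_castSucc]
    have hlast : ∀ q : Fin (n + 1), (Fin.last (n + 1)).succAbove q = q.castSucc :=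
      fun q => Fin.succAbove_last_apply q
    simp only [hlast, Fin.val_last]
    rw [← hP]
    have hcs : ∀ p : Fin (n + 1),
        (List.ofFn (fun q : Fin (n + 1) => y (p.castSucc.succAbove q))).prod =
          (List.ofFn (fun q : Fin n => y (p.succAbove q).castSucc)).prod * y' := by
      intro p
      rw [List.ofFn_succ', List.concat_eq_append, List.prod_append, List.prod_singleton]
      congr 1
      · simp only [Fin.castSucc_succAbove_castSucc]
      · rw [hy', Fin.succAbove_of_le_castSucc _ _ (Fin.castSucc_le_castSucc_iff.mpr (Fin.le_last p)),
          Fin.succ_last]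
    simp only [hcs, Fin.val_castSucc]
    have hsum : ∑ p : Fin (n + 1), (-1 : S) ^ (p : ℕ) *
        (r p.castSucc • ((List.ofFn (fun q : Fin n => y (p.succAbove q).castSucc)).prod * y')) =
        (∑ p : Fin (n + 1), (-1 : S) ^ (p : ℕ) *
          (r p.castSucc • (List.ofFn (fun q : Fin n => y (p.succAbove q).castSucc)).prod)) * y' := by
      rw [Finset.sum_mul]
      refine Finset.sum_congr rfl fun p _ => ?_
      rw [← smul_mul_assoc, ← mul_assoc]
    rw [hsum, ← IH]
    rw [Algebra.smul_def]
    calc x * (P * y') + (-1 : S) ^ (n + 1) * (P * y' * x)
        = x * (P * y') + (-1 : S) ^ (n + 1) * (P * (y' * x)) := by rw [mul_assoc P]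
      _ = x * (P * y') + (-1 : S) ^ (n + 1) * (P * (algebraMap R S (r (Fin.last (n + 1))) - x * y')) := by
          rw [hyx]
      _ = (x * P + (-1 : S) ^ n * (P * x)) * y' +
            (-1 : S) ^ (n + 1) * (algebraMap R S (r (Fin.last (n + 1))) * P) := by
          rw [mul_sub, hcomm, pow_succ]
          noncomm_ring

end Groth.Agent.S14115
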