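import Groth.Statements.S14117
-- import your own Groth.Agent.* helpers here
import Mathlib.Tactic

set_option autoImplicit false
universe u v w
open SuperComm

namespace Groth.Agent.S14117

/-- Let R be a commutative ring and M a finitely ℤ-graded R-module with finitely many nonzero graded
pieces, each finite free, presented as a finite family of finite free R-modules M_i with integer
degrees deg i (the piece of degree n being the product of the M_i with deg i = n); an endomorphism φ
of the total module Π_i M_i has degree a when its (i, j) block vanishes unless deg j = deg i + a;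
the supertrace of an endomorphism is the trace of its composite with the grading involution ε = Σ_i
(-1)^{deg i} pr_i. If φ has degree a ≠ 0 then its supertrace vanishes. (The published statement
allows the graded pieces to be finitely generated projective; this row takes them finite free, where
the trace is the ordinary trace of a free module.) -/
theorem result {R : Type u} [CommRing R] {ι : Type v} [Fintype ι] [DecidableEq ι]
    (deg : ι → ℤ) (M : ι → Type w) [∀ i, AddCommGroup (M i)] [∀ i, Module R (M i)]
    [∀ i, Module.Free R (M i)] [∀ i, Module.Finite R (M i)]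
    (a : ℤ) (ha : a ≠ 0) (φ : (Π k, M k) →ₗ[R] (Π k, M k))
    (hφ : ∀ i j : ι, deg j ≠ deg i + a → (LinearMap.proj j) ∘ₗ φ ∘ₗ (LinearMap.single R M i) = 0) :
    LinearMap.trace R (Π k, M k) ((∑ i : ι, (LinearMap.single R M i) ∘ₗ (((-1 : R) ^ (deg i).natAbs) • (LinearMap.proj i : (Π k, M k) →ₗ[R] M i))) ∘ₗ φ) = 0 := by
  have hsum : ∀ (F : ι → ((Π k, M k) →ₗ[R] (Π k, M k))) (g : (Π k, M k) →ₗ[R] (Π k, M k)),
      (∑ i, F i) ∘ₗ g = ∑ i, (F i ∘ₗ g) := by
    intro F g
    refine LinearMap.ext fun x => ?_
    simp only [LinearMap.comp_apply, LinearMap.sum_apply]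
  rw [hsum, map_sum]
  refine Finset.sum_eq_zero fun i _ => ?_
  rw [LinearMap.comp_assoc, LinearMap.trace_comp_comm', LinearMap.comp_assoc,
    LinearMap.smul_comp, hφ i i (by omega), smul_zero, map_zero]

end Groth.Agent.S14117
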