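import Groth.Statements.S14118
-- import your own Groth.Agent.* helpers here
import Mathlib.Tactic

set_option autoImplicit false
universe u v w
open SuperComm

namespace Groth.Agent.S14118

/-- Let R be a commutative ring and M a finitely ℤ-graded R-module with finitely many nonzero graded
pieces, each finite free, presented as a finite family of finite free R-modules M_i with integer
degrees deg i (the piece of degree n being the product of the M_i with deg i = n); an endomorphism φ
of the total module Π_i M_i has degree a when its (i, j) block vanishes unless deg j = deg i + a;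
the supertrace of an endomorphism is the trace of its composite with the grading involution ε = Σ_i
(-1)^{deg i} pr_i. If φ and ψ have degrees a and b, the supertrace of the supercommutator φψ -
(-1)^{ab} ψφ vanishes. (The published statement allows the graded pieces to be finitely generated
projective; this row takes them finite free, where the trace is the ordinary trace of a free
module.) -/
theorem result {R : Type u} [CommRing R] {ι : Type v} [Fintype ι] [DecidableEq ι]
    (deg : ι → ℤ) (M : ι → Type w) [∀ i, AddCommGroup (M i)] [∀ i, Module R (M i)]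
    [∀ i, Module.Free R (M i)] [∀ i, Module.Finite R (M i)]
    (a b : ℤ) (φ ψ : (Π k, M k) →ₗ[R] (Π k, M k))
    (hφ : ∀ i j : ι, deg j ≠ deg i + a → (LinearMap.proj j) ∘ₗ φ ∘ₗ (LinearMap.single R M i) = 0)
    (hψ : ∀ i j : ι, deg j ≠ deg i + b → (LinearMap.proj j) ∘ₗ ψ ∘ₗ (LinearMap.single R M i) = 0) :
    LinearMap.trace R (Π k, M k)
      ((∑ i : ι, (LinearMap.single R M i) ∘ₗ (((-1 : R) ^ (deg i).natAbs) • (LinearMap.proj i : (Π k, M k) →ₗ[R] M i))) ∘ₗ (φ ∘ₗ ψ - ((-1 : R) ^ (a * b).natAbs) • (ψ ∘ₗ φ))) = 0 := by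
  classical
  have par : ∀ m : ℤ, (-1 : R) ^ m.natAbs = if Even m then 1 else -1 := by
    intro m
    split_ifs with h
    · exact (Int.natAbs_even.mpr h).neg_one_pow
    · exact (Int.natAbs_odd.mpr (Int.not_even_iff_odd.mp h)).neg_one_pow
  set ε := ∑ i : ι, (LinearMap.single R M i) ∘ₗ (((-1 : R) ^ (deg i).natAbs) •
    (LinearMap.proj i : (Π k, M k) →ₗ[R] M i)) with hε
  have hεapp : ∀ y : Π k, M k, ε y = fun j => ((-1 : R) ^ (deg j).natAbs) • y j := by
    intro y
    have : ε y = ∑ i, Pi.single i (((-1 : R) ^ (deg i).natAbs) • y i) := by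
      simp only [hε, LinearMap.sum_apply, LinearMap.comp_apply, LinearMap.smul_apply,
        LinearMap.proj_apply, LinearMap.coe_single]
    rw [this, Finset.univ_sum_single]
  have comm : ∀ (χ : (Π k, M k) →ₗ[R] (Π k, M k)) (e : ℤ),
      (∀ i j : ι, deg j ≠ deg i + e → (LinearMap.proj j) ∘ₗ χ ∘ₗ (LinearMap.single R M i) = 0) →
      χ ∘ₗ ε = ((-1 : R) ^ e.natAbs) • (ε ∘ₗ χ) := by
    intro χ e hχ
    refine LinearMap.pi_ext fun i x => ?_
    simp only [LinearMap.comp_apply, LinearMap.smul_apply]
    rw [hεapp, hεapp]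
    have hs : (fun j => ((-1 : R) ^ (deg j).natAbs) • (Pi.single i x : Π k, M k) j) =
        ((-1 : R) ^ (deg i).natAbs) • (Pi.single i x : Π k, M k) := by
      funext j
      by_cases hji : j = i
      · subst hji; simp
      · simp [hji]
    rw [hs, map_smul]
    funext j
    simp only [Pi.smul_apply, smul_smul]
    by_cases hj : deg j = deg i + e
    · congr 1
      rw [hj, par, par, par]
      by_cases h1 : Even (deg i) <;> by_cases h2 : Even e <;> simp [h1, h2, Int.even_add]
    · have h0 := LinearMap.congr_fun (hχ i j hj) x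
      simp only [LinearMap.comp_apply, LinearMap.proj_apply, LinearMap.coe_single,
        LinearMap.zero_apply] at h0
      rw [h0, smul_zero, smul_zero]
  have hX : LinearMap.trace R (Π k, M k) (ε ∘ₗ (φ ∘ₗ ψ)) =
      ((-1 : R) ^ b.natAbs) * LinearMap.trace R (Π k, M k) (ε ∘ₗ (ψ ∘ₗ φ)) := by
    rw [← LinearMap.comp_assoc, LinearMap.trace_comp_comm', ← LinearMap.comp_assoc, comm ψ b hψ,
      LinearMap.smul_comp, map_smul, smul_eq_mul, LinearMap.comp_assoc]
  have hY : LinearMap.trace R (Π k, M k) (ε ∘ₗ (ψ ∘ₗ φ)) =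
      ((-1 : R) ^ a.natAbs) * LinearMap.trace R (Π k, M k) (ε ∘ₗ (φ ∘ₗ ψ)) := by
    rw [← LinearMap.comp_assoc, LinearMap.trace_comp_comm', ← LinearMap.comp_assoc, comm φ a hφ,
      LinearMap.smul_comp, map_smul, smul_eq_mul, LinearMap.comp_assoc]
  rw [LinearMap.comp_sub, LinearMap.comp_smul, map_sub, map_smul, smul_eq_mul]
  set X := LinearMap.trace R (Π k, M k) (ε ∘ₗ (φ ∘ₗ ψ))
  set Y := LinearMap.trace R (Π k, M k) (ε ∘ₗ (ψ ∘ₗ φ))
  rw [par] at hX hY
  rw [par]
  by_cases ha : Even a <;> by_cases hb : Even b <;>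
    simp only [ha, hb, Int.even_mul, if_true, if_false, or_true, or_false]
      at hX hY ⊢
  all_goals first
    | linear_combination hX
    | linear_combination -hY

end Groth.Agent.S14118
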