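import Groth.Statements.S1413
import Mathlib.RingTheory.Flat.FaithfullyFlat.Algebra
import Mathlib.RingTheory.Flat.Stability
-- import your own Groth.Agent.* helpers here

set_option autoImplicit false
universe u
open FlatMor

namespace Groth.Agent.S1413

open AlgebraicGeometry CategoryTheory

-- The next three lemmas are copied from helper2's `Groth/Agent/Lib/Helper2/FlatDesc.lean`.

open TensorProduct in
theorem flat_of_faithfullyFlat_tower (R S T : Type*) [CommRing R] [CommRing S] [CommRing T]
    [Algebra R S] [Algebra S T] [Algebra R T] [IsScalarTower R S T]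
    [Module.FaithfullyFlat S T] [Module.Flat R T] : Module.Flat R S := by
  rw [Module.Flat.iff_lTensor_preserves_injective_linearMap]
  intro N P _ _ _ _ f hf
  have hT : Function.Injective (LinearMap.lTensor T f) :=
    Module.Flat.lTensor_preserves_injective_linearMap f hf
  have hcomm : ∀ x : T ⊗[S] (S ⊗[R] N),
      AlgebraTensorModule.cancelBaseChange R S T T P (LinearMap.lTensor T (f.baseChange S) x) =
        LinearMap.lTensor T f (AlgebraTensorModule.cancelBaseChange R S T T N x) := by
    intro x
    induction x using TensorProduct.induction_on with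
    | zero => simp
    | tmul t y =>
      induction y using TensorProduct.induction_on with
      | zero => simp
      | tmul s n => simp [AlgebraTensorModule.cancelBaseChange_tmul]
      | add y₁ y₂ h₁ h₂ =>
        simp only [TensorProduct.tmul_add, map_add] at h₁ h₂ ⊢
        rw [h₁, h₂]
    | add x₁ x₂ h₁ h₂ => simp only [map_add, h₁, h₂]
  have hinj : Function.Injective (LinearMap.lTensor T (f.baseChange S)) := by
    intro x y hxy
    apply (AlgebraTensorModule.cancelBaseChange R S T T N).injective
    apply hT
    rw [← hcomm, ← hcomm, hxy]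
  have := (Module.FaithfullyFlat.lTensor_injective_iff_injective S T (f.baseChange S)).mp hinj
  rwa [LinearMap.baseChange_eq_ltensor] at this

open TensorProduct in
theorem ringHom_flat_of_comp {R S T : Type*} [CommRing R] [CommRing S] [CommRing T]
    [IsLocalRing S] [IsLocalRing T]
    (φ : R →+* S) (ψ : S →+* T) [IsLocalHom ψ] (hψ : ψ.Flat) (h : (ψ.comp φ).Flat) : φ.Flat := by
  let := φ.toAlgebra
  let := ψ.toAlgebra
  let := (ψ.comp φ).toAlgebra
  have : IsScalarTower R S T := IsScalarTower.of_algebraMap_eq (fun _ => rfl)
  have : Module.Flat S T := hψ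
  have : Module.Flat R T := h
  have : IsLocalHom (algebraMap S T) := ‹IsLocalHom ψ›
  have : Module.FaithfullyFlat S T := Module.FaithfullyFlat.of_flat_of_isLocalHom
  exact flat_of_faithfullyFlat_tower R S T

open TensorProduct in
theorem flat_of_comp_of_surjective {X' X Y : Scheme.{u}} (f : X' ⟶ X) (g : X ⟶ Y) [Flat f]
    [Surjective f] [Flat (f ≫ g)] : Flat g := by
  rw [Flat.iff_flat_stalkMap]
  intro x
  obtain ⟨x', rfl⟩ := f.surjective x
  have h1 := Flat.stalkMap f x'
  have h2 : ((f.stalkMap x').hom.comp (g.stalkMap (f x')).hom).Flat := by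
    have e := Scheme.Hom.stalkMap_comp f g x'
    have := Flat.stalkMap (f ≫ g) x'
    rw [e] at this
    exact this
  exact ringHom_flat_of_comp (g.stalkMap (f x')).hom (f.stalkMap x').hom h1 h2


open AlgebraicGeometry CategoryTheory Limits in
/-- Let X → Y → Z be morphisms with X → Y flat and surjective and with the diagonal of X over Z flat.
Then the diagonal of Y over Z is flat. -/
theorem result {X Y Z : Scheme.{u}} (f : X ⟶ Y) (g : Y ⟶ Z) [Flat f] [Surjective f] [Flat (pullback.diagonal (f ≫ g))] :
    Flat (pullback.diagonal g) := by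
  have hφ : Flat (pullback.map (f ≫ g) (f ≫ g) g g f f (𝟙 Z) (by simp) (by simp)) :=
    MorphismProperty.pullbackMap (P := @Flat) (f := f ≫ g) (g := f ≫ g) (f' := g) (g' := g)
      (i₁ := f) (i₂ := f) ‹Flat f› ‹Flat f› rfl rfl
  have e : f ≫ pullback.diagonal g =
      pullback.diagonal (f ≫ g) ≫ pullback.map (f ≫ g) (f ≫ g) g g f f (𝟙 Z) (by simp) (by simp) := by
    apply pullback.hom_ext
    · rw [Category.assoc, Category.assoc, pullback.lift_fst, pullback.diagonal_fst_assoc]
      simp
    · rw [Category.assoc, Category.assoc, pullback.lift_snd, pullback.diagonal_snd_assoc]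
      simp
  have : Flat (f ≫ pullback.diagonal g) := by
    rw [e]; infer_instance
  exact flat_of_comp_of_surjective f (pullback.diagonal g)

end Groth.Agent.S1413
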