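import Groth.Statements.S1414
-- import your own Groth.Agent.* helpers here

set_option autoImplicit false
universe u
open FlatMor

namespace Groth.Agent.S1414

open AlgebraicGeometry CategoryTheory Limits in
/-- Let f : X → Y and g : Y → Z with f ≫ g smooth and g étale. Then f is smooth. -/
theorem result {X Y Z : Scheme.{u}} (f : X ⟶ Y) (g : Y ⟶ Z) [Smooth (f ≫ g)] [Etale g] : Smooth f := by
  have hdiag : (@Etale : MorphismProperty Scheme.{u}) ≤ MorphismProperty.diagonal (@Smooth : MorphismProperty Scheme.{u}) := by
    intro A B h hh
    have : Etale h := hh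
    exact (inferInstance : Smooth (pullback.diagonal h))
  have : MorphismProperty.IsMultiplicative (@Smooth : MorphismProperty Scheme.{u}) :=
    { id_mem := fun A => (inferInstance : Smooth (𝟙 A)) }
  have : MorphismProperty.HasOfPostcompProperty (@Smooth : MorphismProperty Scheme.{u}) @Etale :=
    (MorphismProperty.hasOfPostcompProperty_iff_le_diagonal).mpr hdiag
  exact MorphismProperty.of_postcomp (W := @Smooth) (W' := @Etale) f g ‹Etale g› ‹Smooth (f ≫ g)›

end Groth.Agent.S1414
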