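import Groth.Statements.S14175
-- import your own Groth.Agent.* helpers here
import Mathlib.Tactic

set_option autoImplicit false
universe u v w
open GalCoh

namespace Groth.Agent.S14175

/-- Let G be a finite cyclic group generated by t, let m be a natural number dividing the order of G,
and let ρ be a linear representation of G on a module V over a commutative ring k such that m·V = 0
and every element of G whose m-th power is the identity acts trivially on V. Then evaluating a
crossed homomorphism at t induces a bijection from the first cohomology of G with values in V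
(crossed homomorphisms f, i.e. f(gh) = ρ(g)f(h) + f(g), modulo the principal ones g ↦ ρ(g)x − x)
onto the coinvariants V_G (the quotient of V by the span of all ρ(g)v − v): the class of f(t) in V_G
vanishes exactly when f is principal, and every class of V_G is the class of f(t) for some crossed
homomorphism f. The bijection depends on the choice of the generator t. -/
theorem result
    {k : Type u} {G : Type v} {V : Type w} [CommRing k] [Group G] [Finite G]
    [AddCommGroup V] [Module k V] (ρ : Representation k G V)
    (t : G) (ht : ∀ g : G, g ∈ Subgroup.zpowers t)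
    (m : ℕ) (hm : m ∣ Nat.card G) (htors : ∀ v : V, m • v = 0)
    (htriv : ∀ g : G, g ^ m = 1 → ∀ v : V, ρ g v = v) :
    (∀ f : G → V, (∀ g h : G, f (g * h) = ρ g (f h) + f g) →
        (Representation.Coinvariants.mk ρ (f t) = 0 ↔ ∃ x : V, ∀ g : G, f g = ρ g x - x)) ∧
    (∀ v : V, ∃ f : G → V, (∀ g h : G, f (g * h) = ρ g (f h) + f g) ∧
        Representation.Coinvariants.mk ρ (f t) = Representation.Coinvariants.mk ρ v) := by
  classical
  have hpow : ∀ g : G, ∃ k : ℕ, t ^ k = g := by
    intro g
    have := ht g
    rw [← mem_powers_iff_mem_zpowers] at this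
    obtain ⟨k, hk⟩ := this
    exact ⟨k, hk⟩
  have hρpow : ∀ (a b : ℕ) (v : V), ρ (t ^ (a + b)) v = ρ (t ^ a) (ρ (t ^ b) v) := by
    intro a b v; rw [pow_add, map_mul, Module.End.mul_apply]
  let S : ℕ → V → V := fun k y => ∑ i ∈ Finset.range k, ρ (t ^ i) y
  have hS_add : ∀ a b y, S (a + b) y = S a y + ρ (t ^ a) (S b y) := by
    intro a b y
    simp only [S, Finset.sum_range_add, map_sum, hρpow]
  have hS1 : ∀ y, S 1 y = y := by intro y; simp [S]
  have hS0 : ∀ y, S 0 y = 0 := by intro y; simp [S]
  have htele : ∀ k x, S k (ρ t x - x) = ρ (t ^ k) x - x := by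
    intro k x
    induction k with
    | zero => simp [S]
    | succ k ih =>
      rw [hS_add, ih, hS1, map_sub, pow_succ, map_mul, Module.End.mul_apply]
      abel
  have hSsub : ∀ k a b, S k (a - b) = S k a - S k b := by
    intro k a b; simp only [S, map_sub, Finset.sum_sub_distrib]
  have hcomm : ∀ k y, ρ t (S k y) = S k (ρ t y) := by
    intro k y
    simp only [S, map_sum]
    refine Finset.sum_congr rfl fun i _ => ?_
    rw [← Module.End.mul_apply, ← map_mul, ← Module.End.mul_apply, ← map_mul, ← pow_succ',
      ← pow_succ]
  have hcross : ∀ f : G → V, (∀ g h : G, f (g * h) = ρ g (f h) + f g) →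
      ∀ k, f (t ^ k) = S k (f t) := by
    intro f hf k
    induction k with
    | zero =>
      have h11 := hf 1 1
      simp only [mul_one, map_one, Module.End.one_apply] at h11
      have : f 1 = 0 := by
        have := congrArg (fun z => z - f 1) h11
        simpa using this.symm
      simp [this, hS0]
    | succ k ih =>
      rw [pow_succ, hf, ih, hS_add, hS1]
      abel
  constructor
  · intro f hf
    constructor
    · intro h0
      rw [Representation.Coinvariants.mk_eq_zero] at h0
      have hker : Representation.Coinvariants.ker ρ ≤ LinearMap.range (ρ t - LinearMap.id) := by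
        apply Submodule.span_le.2
        rintro _ ⟨⟨g, y⟩, rfl⟩
        obtain ⟨k, rfl⟩ := hpow g
        refine ⟨S k y, ?_⟩
        simp only [LinearMap.sub_apply, LinearMap.id_apply]
        rw [hcomm, ← hSsub, htele]
      obtain ⟨x, hx⟩ := hker h0
      refine ⟨x, fun g => ?_⟩
      obtain ⟨k, rfl⟩ := hpow g
      rw [hcross f hf k, ← hx]
      simp only [LinearMap.sub_apply, LinearMap.id_apply]
      exact htele k x
    · rintro ⟨x, hx⟩
      rw [hx t, Representation.Coinvariants.mk_eq_zero]
      exact Representation.Coinvariants.sub_mem_ker t x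
  · intro v
    have hn : orderOf t = Nat.card G := orderOf_eq_card_of_forall_mem_zpowers ht
    obtain ⟨d, hd⟩ : m ∣ orderOf t := hn ▸ hm
    have htd : ∀ y, ρ (t ^ d) y = y := by
      apply htriv
      rw [← pow_mul, mul_comm, ← hd, pow_orderOf_eq_one]
    have htdj : ∀ j y, ρ (t ^ (j * d)) y = y := by
      intro j
      induction j with
      | zero => intro y; simp
      | succ j ih => intro y; rw [add_mul, one_mul, hρpow, htd, ih]
    have hSd : ∀ j y, S (j * d) y = j • S d y := by
      intro j y
      induction j with
      | zero => simp [hS0]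
      | succ j ih => rw [add_mul, one_mul, hS_add, ih, htdj, succ_nsmul]
    have hSn : ∀ y, S (orderOf t) y = 0 := by
      intro y; rw [hd, hSd, htors]
    have hper : ∀ a q, S (a + orderOf t * q) v = S a v := by
      intro a q
      induction q with
      | zero => simp
      | succ q ih => rw [mul_add, mul_one, ← add_assoc, hS_add, hSn, map_zero, add_zero, ih]
    have hmod : ∀ a, S a v = S (a % orderOf t) v := by
      intro a
      conv_lhs => rw [← Nat.mod_add_div a (orderOf t)]
      exact hper _ _
    let kk : G → ℕ := fun g => Classical.choose (hpow g)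
    have hkk : ∀ g, t ^ (kk g) = g := fun g => Classical.choose_spec (hpow g)
    let f : G → V := fun g => S (kk g) v
    have hf_pow : ∀ a, f (t ^ a) = S a v := by
      intro a
      have h1 : t ^ (kk (t ^ a)) = t ^ a := hkk _
      rw [pow_eq_pow_iff_modEq] at h1
      show S (kk (t ^ a)) v = S a v
      rw [hmod (kk _), hmod a, h1]
    refine ⟨f, ?_, ?_⟩
    · intro g h
      obtain ⟨a, rfl⟩ := hpow g
      obtain ⟨b, rfl⟩ := hpow h
      rw [← pow_add, hf_pow, hf_pow, hf_pow, hS_add, add_comm]
    · rw [show t = t ^ 1 from (pow_one t).symm, hf_pow, hS1]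

end Groth.Agent.S14175
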