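import Groth.Statements.S14256
-- import your own Groth.Agent.* helpers here
import Mathlib.Tactic

set_option autoImplicit false
universe u
open FrobAlg

namespace Groth.Agent.S14256

/-- Let p be a prime, φ : A → B a map of commutative rings of characteristic p, i : A → A' and j : B →
B' perfect closures (A', B' perfect rings of characteristic p, every element of A' resp. B' has a
p^n-th power in the image of i resp. j, the kernels of i and j consist of nilpotent elements), and
φ' : A' → B' the induced map, φ' ∘ i = j ∘ φ. Then φ is integral if and only if φ' is integral. (The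
published statement is that a morphism of schemes over the prime field is integral exactly when its
perfection is; this row is its affine case, to which the published proof reduces.) -/
theorem result (p : ℕ) [Fact p.Prime]
    {A B A' B' : Type u} [CommRing A] [CommRing B] [CommRing A'] [CommRing B']
    [CharP A p] [CharP B p] [CharP A' p] [CharP B' p] [PerfectRing A' p] [PerfectRing B' p]
    (φ : A →+* B) (i : A →+* A') (j : B →+* B') [IsPerfectClosure i p] [IsPerfectClosure j p]
    (φ' : A' →+* B') (hφ : φ'.comp i = j.comp φ) : φ.IsIntegral ↔ φ'.IsIntegral := by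
  classical
  have hp : 0 < p := (Fact.out : p.Prime).pos
  constructor
  · intro hφi b'
    obtain ⟨n, b, hb⟩ := IsPRadical.pow_mem j p b'
    obtain ⟨P, hPm, hP⟩ := hφi b
    have h1 : φ'.IsIntegralElem (j b) := by
      refine ⟨P.map i, hPm.map i, ?_⟩
      rw [Polynomial.eval₂_map, hφ, ← Polynomial.hom_eval₂, hP, map_zero]
    rw [hb] at h1
    letI : Algebra A' B' := φ'.toAlgebra
    have h2 : IsIntegral A' (b' ^ p ^ n) := h1
    exact IsIntegral.of_pow (pow_pos hp n) h2
  · intro hφi b
    obtain ⟨P', hP'm, hP'⟩ := hφi (j b)
    -- uniform exponent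
    have hco : ∀ k, ∃ (n : ℕ) (a : A), i a = P'.coeff k ^ p ^ n := fun k => IsPRadical.pow_mem i p _
    choose nk ak hak using hco
    set N := (Finset.range (P'.natDegree + 1)).sup nk with hN
    have hcoefN : ∀ k, P'.coeff k ^ p ^ N ∈ Set.range i := by
      intro k
      by_cases hk : k ≤ P'.natDegree
      · have hle : nk k ≤ N := Finset.le_sup (Finset.mem_range.2 (Nat.lt_succ_of_le hk))
        refine ⟨ak k ^ p ^ (N - nk k), ?_⟩
        rw [map_pow, hak, ← pow_mul, ← pow_add, Nat.add_sub_cancel' hle]
      · rw [Polynomial.coeff_eq_zero_of_natDegree_lt (by omega), zero_pow (pow_pos hp N).ne']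
        exact ⟨0, map_zero i⟩
    set FA := iterateFrobenius A' p N
    set FB := iterateFrobenius B' p N
    have hlifts : P'.map FA ∈ Polynomial.lifts i := by
      rw [Polynomial.lifts_iff_coeff_lifts]
      intro k
      rw [Polynomial.coeff_map]
      exact hcoefN k
    obtain ⟨Q, hQ, -, hQm⟩ := Polynomial.lifts_and_natDegree_eq_and_monic hlifts (hP'm.map FA)
    have hcomm : FB.comp φ' = φ'.comp FA := by
      ext x; simp [FA, FB, iterateFrobenius_def, map_pow]
    have h1 : j (Polynomial.eval₂ φ (b ^ p ^ N) Q) = 0 := by
      rw [Polynomial.hom_eval₂, ← hφ, ← Polynomial.eval₂_map, hQ, map_pow, Polynomial.eval₂_map,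
        ← hcomm]
      have : (j b) ^ p ^ N = FB (j b) := rfl
      rw [this, ← Polynomial.hom_eval₂, hP', map_zero]
    have h2 : Polynomial.eval₂ φ (b ^ p ^ N) Q ∈ pNilradical B p := by
      rw [← IsPerfectClosure.ker_eq j p]; exact h1
    obtain ⟨M, hM⟩ := mem_pNilradical.1 h2
    have h3 : φ.IsIntegralElem (b ^ p ^ N) := by
      refine ⟨Q ^ p ^ M, hQm.pow _, ?_⟩
      rw [Polynomial.eval₂_pow, hM]
    letI : Algebra A B := φ.toAlgebra
    have h4 : IsIntegral A (b ^ p ^ N) := h3
    exact IsIntegral.of_pow (pow_pos hp N) h4

end Groth.Agent.S14256
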