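import Groth.Statements.S14262
-- import your own Groth.Agent.* helpers here
import Mathlib.Tactic
import Mathlib.RingTheory.Flat.EquationalCriterion

set_option autoImplicit false
universe u
open FrobAlg

namespace Groth.Agent.S14262

/-- Let p be a prime, A a perfect ring of characteristic p and f ∈ A. The radical of the principal ideal
(f) — equivalently the ideal generated by all p^n-th roots of f, n ≥ 0 — is a flat A-module. -/
theorem result (p : ℕ) [Fact p.Prime] (A : Type u) [CommRing A]
    [CharP A p] [PerfectRing A p] (f : A) :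
    Module.Flat A ((Ideal.span {f}).radical) := by
  classical
  have hp : p.Prime := Fact.out
  set φ := frobeniusEquiv A p with hφdef
  have hφ : ∀ x : A, (φ.symm x) ^ p = x := fun x => frobeniusEquiv_symm_pow_p A p x
  have L1 : ∀ a b : A, a * b = 0 → a * φ.symm b = 0 := by
    intro a b hab
    have h1 : (φ.symm a * φ.symm b) ^ p = 0 := by rw [mul_pow, hφ, hφ, hab]
    have h2 : φ.symm a * φ.symm b = 0 := by
      apply φ.injective
      rw [hφdef, frobeniusEquiv_def, frobeniusEquiv_def, h1, zero_pow hp.ne_zero]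
    calc a * φ.symm b = (φ.symm a) ^ p * φ.symm b := by rw [hφ]
      _ = (φ.symm a) ^ (p - 1) * (φ.symm a * φ.symm b) := by
          rw [← mul_assoc, ← pow_succ, Nat.sub_add_cancel hp.one_le]
      _ = 0 := by rw [h2, mul_zero]
  refine Module.Flat.of_forall_isTrivialRelation ?_
  intro l r x hx
  have hk : ∀ i, ∃ k, (x i : A) ^ k ∈ Ideal.span {f} := fun i => (x i).2
  choose k hk using hk
  set N := ∑ i, k i with hN
  have hkN : ∀ i, k i ≤ p ^ N := by
    intro i
    have h1 : k i ≤ N := Finset.single_le_sum (f := k) (fun _ _ => Nat.zero_le _) (Finset.mem_univ i)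
    have h2 : N < p ^ N := Nat.lt_pow_self hp.one_lt
    omega
  have hxN : ∀ i, (x i : A) ^ (p ^ N) ∈ Ideal.span {f} := by
    intro i
    have := Ideal.mul_mem_right ((x i : A) ^ (p ^ N - k i)) _ (hk i)
    rwa [← pow_add, Nat.add_sub_cancel' (hkN i)] at this
  have hc : ∀ i, ∃ c, (x i : A) ^ (p ^ N) = c * f := by
    intro i
    obtain ⟨c, hc⟩ := Ideal.mem_span_singleton'.mp (hxN i)
    exact ⟨c, hc.symm⟩
  choose c hc using hc
  set ψ := (iterateFrobeniusEquiv A p N).symm with hψdef
  have hψ : ∀ y : A, (ψ y) ^ (p ^ N) = y := by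
    intro y
    have := (iterateFrobeniusEquiv A p N).apply_symm_apply y
    rwa [iterateFrobeniusEquiv_def] at this
  have hψ' : ∀ y : A, ψ (y ^ (p ^ N)) = y := by
    intro y
    apply (iterateFrobeniusEquiv A p N).injective
    rw [RingEquiv.apply_symm_apply, iterateFrobeniusEquiv_def]
  set g := ψ f with hg
  have hxg : ∀ i, (x i : A) = ψ (c i) * g := by
    intro i
    rw [← hψ' (x i : A), hc i, map_mul]
  set h := φ.symm g with hhdef
  have hh : h ^ p = g := hφ g
  have hmem : h ∈ (Ideal.span {f}).radical := by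
    refine ⟨p ^ (N + 1), ?_⟩
    rw [pow_succ', pow_mul, hh, hψ]
    exact Ideal.subset_span rfl
  have hsum : (∑ i, r i * ψ (c i)) * g = 0 := by
    have := congrArg Subtype.val hx
    simp only [Submodule.coe_sum, Submodule.coe_smul, smul_eq_mul, Submodule.coe_zero] at this
    rw [Finset.sum_mul]
    rw [← this]
    refine Finset.sum_congr rfl (fun i _ => ?_)
    rw [hxg i, mul_assoc]
  have hsum' := L1 _ _ hsum
  refine ⟨1, fun i _ => ψ (c i) * h ^ (p - 1), fun _ => ⟨h, hmem⟩, ?_, ?_⟩
  · intro i
    apply Subtype.ext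
    simp only [Fin.sum_univ_one, Submodule.coe_smul, smul_eq_mul]
    rw [hxg i, mul_assoc, ← pow_succ, Nat.sub_add_cancel hp.one_le, hh]
  · intro j
    have : ∑ i, r i * (ψ (c i) * h ^ (p - 1)) = ((∑ i, r i * ψ (c i)) * h) * h ^ (p - 2) := by
      rw [Finset.sum_mul, Finset.sum_mul]
      refine Finset.sum_congr rfl (fun i _ => ?_)
      have : p - 1 = (p - 2) + 1 := by have := hp.two_le; omega
      rw [this, pow_succ]
      ring
    rw [this, hsum', zero_mul]

end Groth.Agent.S14262
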