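import Groth.Statements.S14294
-- import your own Groth.Agent.* helpers here
import Groth.Agent.Lib.Helper21.PtDeg

set_option autoImplicit false
universe u v
open PtDeg

namespace Groth.Agent.S14294

/-- Let A and G be abelian groups, written additively, and f : A → G a map which is pointed of degree 2,
that is f(x+y+z) + f(x) + f(y) + f(z) = f(x+y) + f(x+z) + f(y+z) for all x, y, z in A. If an integer
n satisfies n·x = 0 for every x in A, then 2n·f(x) = 0 for every x in A, and if moreover n is odd
then n·f(x) = 0 for every x in A. -/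
theorem result {A : Type u} {G : Type v} [AddCommGroup A] [AddCommGroup G]
    (f : A → G) (hf : ∀ x y z : A, f (x + y + z) + f x + f y + f z = f (x + y) + f (x + z) + f (y + z))
    (n : ℤ) (hn : ∀ x : A, n • x = 0) :
    (∀ x : A, (2 * n) • f x = 0) ∧ (Odd n → ∀ x : A, n • f x = 0) := by
  have hf' : Groth.Agent.Lib.Helper21.PtDeg.IsDegTwo f := hf
  have key : ∀ x : A, n • Groth.Agent.Lib.Helper21.PtDeg.polar f x x = 0 := by
    intro x
    rw [← Groth.Agent.Lib.Helper21.PtDeg.polar_zsmul_left_self hf', hn x,
      Groth.Agent.Lib.Helper21.PtDeg.polar_zero_left hf']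
  have hmain : ∀ x : A, n • f x + (n * (n - 1) / 2) • Groth.Agent.Lib.Helper21.PtDeg.polar f x x = 0 := by
    intro x
    rw [← Groth.Agent.Lib.Helper21.PtDeg.map_zsmul_eq hf', hn x,
      Groth.Agent.Lib.Helper21.PtDeg.map_zero_of hf']
  refine ⟨fun x => ?_, fun hodd x => ?_⟩
  · have h2 : (2 : ℤ) * (n * (n - 1) / 2) = (n - 1) * n := by
      rw [Int.mul_ediv_cancel' (Int.even_mul_pred_self n).two_dvd]; ring
    have := congrArg (fun t => (2 : ℤ) • t) (hmain x)
    simp only [smul_add, smul_zero, smul_smul, h2] at this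
    rw [mul_smul (n - 1) n, key x, smul_zero, add_zero] at this
    exact this
  · obtain ⟨k, hk⟩ := hodd
    have hb : n * (n - 1) / 2 = k * n := by
      rw [hk, show (2 * k + 1) * (2 * k + 1 - 1) = (k * (2 * k + 1)) * 2 by ring]
      exact Int.mul_ediv_cancel _ (by norm_num)
    have := hmain x
    rw [hb, mul_smul, key x, smul_zero, add_zero] at this
    exact this

end Groth.Agent.S14294
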