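import Groth.Statements.S14296
-- import your own Groth.Agent.* helpers here
import Groth.Agent.Lib.Helper21.PtDeg

set_option autoImplicit false
universe u v
open PtDeg

namespace Groth.Agent.S14296

/-- Let G and H be abelian groups, written additively, n an integer such that 2n²·x = 0 for every x in
G, and d : G → H a quadratic map, meaning that d is pointed of degree 2 (d(x+y+z) + d(x) + d(y) +
d(z) = d(x+y) + d(x+z) + d(y+z) for all x, y, z) and even (d(−x) = d(x) for all x). Then d(2n·x) = 0
for every x in G. -/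
theorem result {G : Type u} {H : Type v} [AddCommGroup G] [AddCommGroup H]
    (n : ℤ) (hn : ∀ x : G, (2 * n ^ 2) • x = 0)
    (d : G → H) (hd : ∀ x y z : G, d (x + y + z) + d x + d y + d z = d (x + y) + d (x + z) + d (y + z))
    (heven : ∀ x : G, d (-x) = d x) (x : G) :
    d ((2 * n) • x) = 0 := by
  have hd' : Groth.Agent.Lib.Helper21.PtDeg.IsDegTwo d := hd
  have hP : Groth.Agent.Lib.Helper21.PtDeg.polar d x x = (2 : ℤ) • d x := by
    rw [Groth.Agent.Lib.Helper21.PtDeg.polar_self hd', heven, two_zsmul]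
  have key : (2 * n ^ 2) • Groth.Agent.Lib.Helper21.PtDeg.polar d x x = 0 := by
    rw [← Groth.Agent.Lib.Helper21.PtDeg.polar_zsmul_left_self hd', hn x,
      Groth.Agent.Lib.Helper21.PtDeg.polar_zero_left hd']
  rw [Groth.Agent.Lib.Helper21.PtDeg.map_zsmul_eq hd', hP]
  rw [hP, smul_smul] at key
  have hb : 2 * n * (2 * n - 1) / 2 = n * (2 * n - 1) := by
    rw [show 2 * n * (2 * n - 1) = (n * (2 * n - 1)) * 2 by ring]
    exact Int.mul_ediv_cancel _ (by norm_num)
  rw [hb, smul_smul, ← add_smul]
  rw [show 2 * n + n * (2 * n - 1) * 2 = 2 * n ^ 2 * 2 by ring]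
  exact key

end Groth.Agent.S14296
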