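import Groth.Statements.S14305
-- import your own Groth.Agent.* helpers here
import Groth.Agent.Lib.Helper21.Deviation

set_option autoImplicit false
universe u v
open PtDeg

namespace Groth.Agent.S14305

/-- Let A and G be abelian groups, written additively, f : A → G a map and n ≥ 1. For k ≥ 0 the k-th
deviation of f is the map A^k → G, (y_1, …, y_k) ↦ Σ_{∅ ≠ I ⊆ {1,…,k}} (−1)^{k+|I|} f(Σ_{i ∈ I}
y_i). Then f is pointed of degree n, meaning that its (n+1)-st deviation vanishes identically, if
and only if its n-th deviation is additive in each variable separately (with the other variables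
fixed). -/
theorem result {A : Type u} {G : Type v} [AddCommGroup A] [AddCommGroup G]
    (f : A → G) (n : ℕ) (hn : 1 ≤ n) :
    (∀ x : Fin (n + 1) → A, ∑ I ∈ ((Finset.univ : Finset (Fin (n + 1))).powerset.erase ∅), ((-1 : ℤ) ^ (n + 1 + I.card)) • f (∑ i ∈ I, x i) = 0) ↔
      (∀ (j : Fin n) (y : Fin n → A) (a b : A),
        ∑ I ∈ ((Finset.univ : Finset (Fin n)).powerset.erase ∅), ((-1 : ℤ) ^ (n + I.card)) • f (∑ i ∈ I, (Function.update y j (a + b)) i) =
          ∑ I ∈ ((Finset.univ : Finset (Fin n)).powerset.erase ∅), ((-1 : ℤ) ^ (n + I.card)) • f (∑ i ∈ I, (Function.update y j a) i) + ∑ I ∈ ((Finset.univ : Finset (Fin n)).powerset.erase ∅), ((-1 : ℤ) ^ (n + I.card)) • f (∑ i ∈ I, (Function.update y j b) i)) := by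
  classical
  open Groth.Agent.Lib.Helper21.Deviation in
  constructor
  · intro h j y a b
    have hid := dev_identity f y j a b
    rw [← dev_eq f (Fin.cons b (Function.update y j a) : Fin (n + 1) → A), h] at hid
    rw [dev_eq, dev_eq, dev_eq]
    rw [sub_sub, sub_eq_zero] at hid
    exact hid
  · intro h x
    have hx : x = (Fin.cons (x 0) (Function.update (Fin.tail x) ⟨0, hn⟩ (Fin.tail x ⟨0, hn⟩)) :
        Fin (n + 1) → A) := by
      rw [Function.update_eq_self, Fin.cons_self_tail]
    rw [hx, dev_eq, ← dev_identity, ← dev_eq, ← dev_eq, ← dev_eq, h, sub_sub, sub_self]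

end Groth.Agent.S14305
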