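import Groth.Statements.S14307
-- import your own Groth.Agent.* helpers here
import Mathlib.Algebra.BigOperators.Group.Finset.Powerset
import Mathlib.Tactic

set_option autoImplicit false
universe u v
open PtDeg

namespace Groth.Agent.S14307

/-- Let A and G be abelian groups, written additively, f : A → G a map and n ≥ 1. If a tuple x ∈ A^n has
some coordinate equal to 0, then the n-th deviation of f at x, namely Σ_{∅ ≠ I ⊆ {1,…,n}}
(−1)^{n+|I|} f(Σ_{i ∈ I} x_i), equals (−1)^{n+1} f(0). -/
theorem result {A : Type u} {G : Type v} [AddCommGroup A] [AddCommGroup G]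
    (f : A → G) (n : ℕ) (hn : 1 ≤ n) (x : Fin n → A) (i : Fin n) (hx : x i = 0) :
    ∑ I ∈ ((Finset.univ : Finset (Fin n)).powerset.erase ∅), ((-1 : ℤ) ^ (n + I.card)) • f (∑ j ∈ I, x j) =
      ((-1 : ℤ) ^ (n + 1)) • f 0 := by
  classical
  set g : Finset (Fin n) → G := fun I => ((-1 : ℤ) ^ (n + I.card)) • f (∑ j ∈ I, x j) with hg
  have htot : ∑ I ∈ (Finset.univ : Finset (Fin n)).powerset, g I = 0 := by
    have hu : (Finset.univ : Finset (Fin n)) = insert i (Finset.univ.erase i) := by
      simp
    rw [hu, Finset.sum_powerset_insert (Finset.notMem_erase i _)]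
    rw [← Finset.sum_add_distrib]
    apply Finset.sum_eq_zero
    intro t ht
    have hit : i ∉ t := by
      intro h
      have := Finset.mem_powerset.mp ht h
      simp at this
    simp only [hg]
    rw [Finset.sum_insert hit, hx, zero_add, Finset.card_insert_of_notMem hit]
    rw [← add_smul, show n + (t.card + 1) = (n + t.card) + 1 by ring, pow_succ]
    simp
  have hsplit := Finset.sum_erase_add ((Finset.univ : Finset (Fin n)).powerset) g
    (Finset.empty_mem_powerset _)
  rw [htot] at hsplit
  have : ∑ I ∈ (Finset.univ : Finset (Fin n)).powerset.erase ∅, g I = - g ∅ :=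
    eq_neg_of_add_eq_zero_left hsplit
  simp only [hg] at this
  rw [this]
  simp [pow_succ]

end Groth.Agent.S14307
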