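import Groth.Statements.S14309
-- import your own Groth.Agent.* helpers here
import Mathlib.Tactic

set_option autoImplicit false
universe u v w x y
open CAlg

namespace Groth.Agent.S14309

/-- Let R be a commutative ring; A, B, C commutative R-algebras; i : A → B and j : A → C jointly
injective R-algebra maps; c a non-zero-divisor of B; u : C → B/(c) a ring map with u ∘ j equal to i
followed by reduction modulo c; ζ in A with i ζ = c and j ζ = 0; η : R[X_σ, Z] → A an R-algebra map
with η(Z) = ζ; a : R[Y_τ] → B a surjective R-algebra map; η_Z : R[X_σ, Z] → R[Y_τ] a surjective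
R-algebra map with a ∘ η_Z = i ∘ η. Fix c̃ in R[Y_τ] with a(c̃) = c, a family (p_h) generating the
kernel of the composite R[X_σ] → R[X_σ, Z] → A → C, a family (q'_h) generating the kernel of a
together with lifts q_h along η_Z, a family (v_h) generating the kernel of η_Z, and elements g'_h of
R[Y_τ] with η_Z(p_h) + g'_h c̃ in the ideal (q'_h), together with lifts g_h along η_Z. Then the
kernel of η is the ideal generated by the elements Z q_h, Z v_h and p_h + Z g_h. (The published
statement is for the rings of cycle classes, with coefficients ℤ[1/6], of a smooth quotient stack, a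
smooth closed substack whose normal bundle has top Chern class c a non-zero-divisor, and the open
complement; this row states the ring-theoretic content for any such square of commutative rings in
which A embeds in B × C.) -/
theorem result
    {R : Type u} [CommRing R] {A : Type v} {B : Type w} {C : Type x}
    [CommRing A] [CommRing B] [CommRing C] [Algebra R A] [Algebra R B] [Algebra R C]
    (i : A →ₐ[R] B) (j : A →ₐ[R] C)
    (hinj : ∀ t : A, i t = 0 → j t = 0 → t = 0)
    (c : B) (hc : c ∈ nonZeroDivisors B) (u : C →+* B ⧸ Ideal.span ({c} : Set B))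
    (hu : ∀ t : A, u (j t) = Ideal.Quotient.mk (Ideal.span ({c} : Set B)) (i t))
    (ζ : A) (hiζ : i ζ = c) (hjζ : j ζ = 0)
    {σ τ ιp ιq ιv : Type y}
    (η : MvPolynomial (Option σ) R →ₐ[R] A) (hη : η (MvPolynomial.X none) = ζ)
    (a : MvPolynomial τ R →ₐ[R] B) (ha : Function.Surjective a)
    (ηZ : MvPolynomial (Option σ) R →ₐ[R] MvPolynomial τ R)
    (hcomm : ∀ t, a (ηZ t) = i (η t)) (hηZ : Function.Surjective ηZ)
    (cZ : MvPolynomial τ R) (hcZ : a cZ = c)
    (p : ιp → MvPolynomial σ R)
    (hp : Ideal.span (Set.range p) =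
      RingHom.ker ((j.comp η).comp (MvPolynomial.rename (Option.some : σ → Option σ))))
    (q' : ιq → MvPolynomial τ R) (hq' : Ideal.span (Set.range q') = RingHom.ker a)
    (q : ιq → MvPolynomial (Option σ) R) (hq : ∀ h, ηZ (q h) = q' h)
    (v : ιv → MvPolynomial (Option σ) R) (hv : Ideal.span (Set.range v) = RingHom.ker ηZ)
    (g' : ιp → MvPolynomial τ R)
    (hg' : ∀ h, ηZ (MvPolynomial.rename (Option.some : σ → Option σ) (p h)) + g' h * cZ ∈
      Ideal.span (Set.range q'))
    (g : ιp → MvPolynomial (Option σ) R) (hg : ∀ h, ηZ (g h) = g' h) :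
    RingHom.ker η = Ideal.span
      (Set.range (fun h : ιq => MvPolynomial.X none * q h) ∪
        Set.range (fun h : ιv => MvPolynomial.X none * v h) ∪
        Set.range (fun h : ιp =>
          MvPolynomial.rename (Option.some : σ → Option σ) (p h) + MvPolynomial.X none * g h)) := by
  classical
  set J := Ideal.span
    (Set.range (fun h : ιq => MvPolynomial.X none * q h) ∪
      Set.range (fun h : ιv => MvPolynomial.X none * v h) ∪
      Set.range (fun h : ιp =>
        MvPolynomial.rename (Option.some : σ → Option σ) (p h) + MvPolynomial.X none * g h)) with hJ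
  have hZ : ∀ f, η (MvPolynomial.X none * f) = ζ * η f := by
    intro f; rw [map_mul, hη]
  have hle : J ≤ RingHom.ker η := by
    rw [hJ, Ideal.span_le]
    rintro x ((⟨h, rfl⟩ | ⟨h, rfl⟩) | ⟨h, rfl⟩)
    · rw [SetLike.mem_coe, RingHom.mem_ker, hZ]
      apply hinj
      · have : q' h ∈ RingHom.ker a := by rw [← hq']; exact Ideal.subset_span ⟨h, rfl⟩
        rw [RingHom.mem_ker] at this
        rw [map_mul, ← hcomm, hq, this, mul_zero]
      · rw [map_mul, hjζ, zero_mul]
    · rw [SetLike.mem_coe, RingHom.mem_ker, hZ]
      apply hinj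
      · have : v h ∈ RingHom.ker ηZ := by rw [← hv]; exact Ideal.subset_span ⟨h, rfl⟩
        rw [RingHom.mem_ker] at this
        rw [map_mul, ← hcomm, this, map_zero, mul_zero]
      · rw [map_mul, hjζ, zero_mul]
    · rw [SetLike.mem_coe, RingHom.mem_ker, map_add, hZ]
      have hph : p h ∈ RingHom.ker ((j.comp η).comp (MvPolynomial.rename (Option.some : σ → Option σ))) := by
        rw [← hp]; exact Ideal.subset_span ⟨h, rfl⟩
      rw [RingHom.mem_ker] at hph
      have hph' : j (η (MvPolynomial.rename (Option.some : σ → Option σ) (p h))) = 0 := hph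
      apply hinj
      · have hmem := hg' h
        rw [hq'] at hmem
        rw [RingHom.mem_ker, map_add, map_mul, hcZ, hcomm] at hmem
        rw [map_add, map_mul, hiζ, ← hcomm (g h), hg]
        linear_combination hmem
      · rw [map_add, map_mul, hjζ, hph']; ring
  -- decomposition
  have hdec : ∀ f : MvPolynomial (Option σ) R, ∃ f0 : MvPolynomial σ R, ∃ f1,
      f = MvPolynomial.rename (Option.some : σ → Option σ) f0 + MvPolynomial.X none * f1 := by
    intro f
    induction f using MvPolynomial.induction_on with
    | C r => exact ⟨MvPolynomial.C r, 0, by simp⟩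
    | add f g hf hg =>
      obtain ⟨f0, f1, rfl⟩ := hf
      obtain ⟨g0, g1, rfl⟩ := hg
      exact ⟨f0 + g0, f1 + g1, by rw [map_add]; ring⟩
    | mul_X f n hf =>
      obtain ⟨f0, f1, rfl⟩ := hf
      cases n with
      | none => exact ⟨0, MvPolynomial.rename Option.some f0 + MvPolynomial.X none * f1, by simp; ring⟩
      | some s =>
        exact ⟨f0 * MvPolynomial.X s, f1 * MvPolynomial.X (some s), by
          rw [map_mul, MvPolynomial.rename_X]; ring⟩
  -- Claim A
  have hA : ∀ f0 ∈ Ideal.span (Set.range p), ∃ e,
      MvPolynomial.rename (Option.some : σ → Option σ) f0 + MvPolynomial.X none * e ∈ J := by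
    intro f0 hf0
    induction hf0 using Submodule.span_induction with
    | mem x hx =>
      obtain ⟨h, rfl⟩ := hx
      exact ⟨g h, Ideal.subset_span (Or.inr ⟨h, rfl⟩)⟩
    | zero => exact ⟨0, by simp⟩
    | add x y _ _ hx hy =>
      obtain ⟨e1, he1⟩ := hx
      obtain ⟨e2, he2⟩ := hy
      refine ⟨e1 + e2, ?_⟩
      have := J.add_mem he1 he2
      rw [map_add]
      convert this using 1; ring
    | smul r x _ hx =>
      obtain ⟨e, he⟩ := hx
      refine ⟨MvPolynomial.rename Option.some r * e, ?_⟩
      have := J.mul_mem_left (MvPolynomial.rename Option.some r) he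
      rw [smul_eq_mul, map_mul]
      convert this using 1; ring
  -- Claim D
  have hD : ∀ y ∈ Ideal.span (Set.range v), MvPolynomial.X none * y ∈ J := by
    intro y hy
    induction hy using Submodule.span_induction with
    | mem x hx =>
      obtain ⟨h, rfl⟩ := hx
      exact Ideal.subset_span (Or.inl (Or.inr ⟨h, rfl⟩))
    | zero => simp
    | add x y _ _ hx hy => rw [mul_add]; exact J.add_mem hx hy
    | smul r x _ hx =>
      rw [smul_eq_mul, mul_left_comm]; exact J.mul_mem_left r hx
  -- Claim C
  have hC : ∀ y ∈ Ideal.span (Set.range q'), ∃ w, ηZ w = y ∧ MvPolynomial.X none * w ∈ J := by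
    intro y hy
    induction hy using Submodule.span_induction with
    | mem x hx =>
      obtain ⟨h, rfl⟩ := hx
      exact ⟨q h, hq h, Ideal.subset_span (Or.inl (Or.inl ⟨h, rfl⟩))⟩
    | zero => exact ⟨0, map_zero _, by simp⟩
    | add x y _ _ hx hy =>
      obtain ⟨w1, hw1, hw1'⟩ := hx
      obtain ⟨w2, hw2, hw2'⟩ := hy
      exact ⟨w1 + w2, by rw [map_add, hw1, hw2], by rw [mul_add]; exact J.add_mem hw1' hw2'⟩
    | smul r x _ hx =>
      obtain ⟨w, hw, hw'⟩ := hx
      obtain ⟨r', rfl⟩ := hηZ r
      refine ⟨r' * w, by rw [map_mul, hw, smul_eq_mul], ?_⟩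
      rw [mul_left_comm]; exact J.mul_mem_left r' hw'
  -- Claim B
  have hB : ∀ f2, η (MvPolynomial.X none * f2) = 0 → MvPolynomial.X none * f2 ∈ J := by
    intro f2 hf2
    rw [hZ] at hf2
    have h1 : c * i (η f2) = 0 := by
      have := congrArg i hf2
      rwa [map_mul, hiζ, map_zero] at this
    have h2 : i (η f2) = 0 := (mem_nonZeroDivisors_iff.1 hc).1 _ h1
    have h3 : ηZ f2 ∈ Ideal.span (Set.range q') := by
      rw [hq', RingHom.mem_ker, hcomm]; exact h2
    obtain ⟨w, hw, hw'⟩ := hC _ h3
    have h4 : f2 - w ∈ Ideal.span (Set.range v) := by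
      rw [hv, RingHom.mem_ker, map_sub, hw, sub_self]
    have := J.add_mem hw' (hD _ h4)
    convert this using 1; ring
  apply le_antisymm
  · intro f hf
    rw [RingHom.mem_ker] at hf
    obtain ⟨f0, f1, rfl⟩ := hdec f
    have hj0 : f0 ∈ Ideal.span (Set.range p) := by
      rw [hp, RingHom.mem_ker]
      have := congrArg j hf
      simp only [map_add, map_mul, hη, hjζ, zero_mul, add_zero, map_zero] at this
      exact this
    obtain ⟨e, he⟩ := hA f0 hj0
    have hηe : η (MvPolynomial.rename (Option.some : σ → Option σ) f0 + MvPolynomial.X none * e) = 0 :=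
      (RingHom.mem_ker).1 (hle he)
    have h5 : η (MvPolynomial.X none * (f1 - e)) = 0 := by
      have : MvPolynomial.X none * (f1 - e) =
          (MvPolynomial.rename (Option.some : σ → Option σ) f0 + MvPolynomial.X none * f1) -
          (MvPolynomial.rename (Option.some : σ → Option σ) f0 + MvPolynomial.X none * e) := by ring
      rw [this, map_sub, hf, hηe, sub_self]
    have := J.add_mem he (hB _ h5)
    convert this using 1; ring
  · exact hle

end Groth.Agent.S14309
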