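import Groth.Statements.S1432
import Mathlib.AlgebraicGeometry.Morphisms.ClosedImmersion
import Mathlib.AlgebraicGeometry.Morphisms.Preimmersion
import Mathlib.AlgebraicGeometry.Limits
-- import your own Groth.Agent.* helpers here

set_option autoImplicit false
universe u
open FlatMor

namespace Groth.Agent.S1432

open AlgebraicGeometry CategoryTheory Limits

/-- The lifting property in the statement. -/
def LiftProp {X Y : Scheme.{u}} (f : X ⟶ Y) : Prop :=
  ∀ (A B : Type u) [CommRing A] [CommRing B] (φ : A →+* B), Function.Injective φ →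
    ∀ (a : Spec (CommRingCat.of B) ⟶ X) (b : Spec (CommRingCat.of A) ⟶ Y),
      Spec.map (CommRingCat.ofHom φ) ≫ b = a ≫ f →
        ∃ l : Spec (CommRingCat.of A) ⟶ X, Spec.map (CommRingCat.ofHom φ) ≫ l = a ∧ l ≫ f = b

theorem appTop_specMap_injective {A B : Type u} [CommRing A] [CommRing B] (φ : A →+* B)
    (hφ : Function.Injective φ) :
    Function.Injective (Spec.map (CommRingCat.ofHom φ)).appTop := by
  intro x y hxy
  have hnat := Scheme.ΓSpecIso_naturality (CommRingCat.ofHom φ)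
  have h1 := congrArg (fun g => g.hom x) hnat
  have h2 := congrArg (fun g => g.hom y) hnat
  simp only [CommRingCat.hom_comp, RingHom.comp_apply, CommRingCat.hom_ofHom] at h1 h2
  have hinj : Function.Injective (Scheme.ΓSpecIso (CommRingCat.of A)).hom :=
    (ConcreteCategory.bijective_of_isIso _).1
  apply hinj
  apply hφ
  rw [← h1, ← h2]
  exact congrArg _ hxy

theorem forward {X Y : Scheme.{u}} (f : X ⟶ Y) [IsClosedImmersion f] : LiftProp f := by
  intro A B _ _ φ hφ a b w
  let lft := pullback.lift a (Spec.map (CommRingCat.ofHom φ)) w.symm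
  have hl : lft ≫ pullback.snd f b = Spec.map (CommRingCat.ofHom φ) := pullback.lift_snd _ _ _
  have hinj : Function.Injective (pullback.snd f b).appTop := by
    have h1 := appTop_specMap_injective φ hφ
    rw [← hl, Scheme.Hom.comp_appTop] at h1
    intro x y hxy
    apply h1
    simp only [CommRingCat.hom_comp, RingHom.comp_apply]
    rw [hxy]
  have : IsIso (pullback.snd f b) := IsClosedImmersion.isIso_of_injective_of_isAffine hinj
  refine ⟨inv (pullback.snd f b) ≫ pullback.fst f b, ?_, ?_⟩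
  · rw [← hl, Category.assoc, IsIso.hom_inv_id_assoc, pullback.lift_fst]
  · rw [Category.assoc, pullback.condition, IsIso.inv_hom_id_assoc]

theorem backward_affine {X Y : Scheme.{u}} (f : X ⟶ Y) [QuasiCompact f] [IsAffine Y]
    (H : LiftProp f) : IsClosedImmersion f := by
  have : CompactSpace X := QuasiCompact.compactSpace_of_compactSpace f
  let 𝒰 := X.affineCover.finiteSubcover
  have h𝒰aff : ∀ i, IsAffine (𝒰.X i) := fun i => by
    dsimp [𝒰, Scheme.OpenCover.finiteSubcover]
    infer_instance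
  let X' := ∐ 𝒰.X
  have : IsAffine X' := inferInstance
  let p : X' ⟶ X := Sigma.desc 𝒰.f
  have hpι : ∀ i, Sigma.ι 𝒰.X i ≫ p = 𝒰.f i := fun i => Sigma.ι_desc _ _
  have hp_epi : ∀ {Z : Scheme.{u}} (g₁ g₂ : X ⟶ Z), p ≫ g₁ = p ≫ g₂ → g₁ = g₂ := by
    intro Z g₁ g₂ h
    refine 𝒰.hom_ext _ _ fun i => ?_
    rw [← hpι, Category.assoc, Category.assoc, h]
  have hp_inj : ∀ s : Γ(X, ⊤), p.appTop s = 0 → s = 0 := by
    intro s hs
    apply Scheme.zero_of_zero_cover s 𝒰
    intro i
    have h := hpι i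
    have : (𝒰.f i).appTop s = 0 := by
      rw [← h, Scheme.Hom.comp_appTop]
      simp only [CommRingCat.hom_comp, RingHom.comp_apply]
      rw [hs, map_zero]
    exact this
  let φ₀ : Γ(Y, ⊤) ⟶ Γ(X', ⊤) := (p ≫ f).appTop
  let K := RingHom.ker φ₀.hom
  let φ : Γ(Y, ⊤) ⧸ K →+* Γ(X', ⊤) := RingHom.kerLift φ₀.hom
  let a : Spec (CommRingCat.of Γ(X', ⊤)) ⟶ X := X'.isoSpec.inv ≫ p
  let b : Spec (CommRingCat.of (Γ(Y, ⊤) ⧸ K)) ⟶ Y :=
    Spec.map (CommRingCat.ofHom (Ideal.Quotient.mk K)) ≫ Y.isoSpec.inv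
  have hφ₀ : CommRingCat.ofHom (Ideal.Quotient.mk K) ≫ CommRingCat.ofHom φ = φ₀ := by
    ext r
    rfl
  have w : Spec.map (CommRingCat.ofHom φ) ≫ b = a ≫ f := by
    simp only [b, a]
    rw [← Category.assoc, ← Spec.map_comp, hφ₀, Category.assoc,
      ← Scheme.isoSpec_inv_naturality]
  obtain ⟨l, hl1, hl2⟩ := H _ _ φ (RingHom.kerLift_injective _) a b w
  have hK : ∀ r ∈ K, f.appTop r = 0 := by
    intro r hr
    apply hp_inj
    have : φ₀ r = 0 := hr
    simp only [φ₀, Scheme.Hom.comp_appTop, CommRingCat.hom_comp, RingHom.comp_apply] at this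
    exact this
  let ψ : Γ(Y, ⊤) ⧸ K →+* Γ(X, ⊤) := Ideal.Quotient.lift K f.appTop.hom hK
  let g : X ⟶ Spec (CommRingCat.of (Γ(Y, ⊤) ⧸ K)) := X.toSpecΓ ≫ Spec.map (CommRingCat.ofHom ψ)
  have hψ : CommRingCat.ofHom (Ideal.Quotient.mk K) ≫ CommRingCat.ofHom ψ = f.appTop := by
    ext r
    rfl
  have hg : g ≫ b = f := by
    simp only [g, b]
    rw [Category.assoc, ← Category.assoc (Spec.map _), ← Spec.map_comp, hψ,
      ← Scheme.toSpecΓ_naturality_assoc]
    simp [Scheme.isoSpec]
  have hbm : Mono b := by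
    have : IsClosedImmersion (Spec.map (CommRingCat.ofHom (Ideal.Quotient.mk K))) :=
      IsClosedImmersion.spec_of_surjective _ Ideal.Quotient.mk_surjective
    infer_instance
  have hlg : l ≫ g = 𝟙 _ := by
    rw [← cancel_mono b, Category.assoc, hg, hl2, Category.id_comp]
  have hgl : g ≫ l = 𝟙 _ := by
    apply hp_epi
    have h1 : p ≫ g = X'.isoSpec.hom ≫ Spec.map (CommRingCat.ofHom φ) := by
      rw [← cancel_mono b, Category.assoc, hg, Category.assoc, w]
      simp [a]
    rw [← Category.assoc, h1, Category.assoc, hl1, Category.comp_id]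
    simp [a]
  have : IsIso g := ⟨⟨l, hgl, hlg⟩⟩
  rw [← hg]
  have : IsClosedImmersion b := by
    have : IsClosedImmersion (Spec.map (CommRingCat.ofHom (Ideal.Quotient.mk K))) :=
      IsClosedImmersion.spec_of_surjective _ Ideal.Quotient.mk_surjective
    infer_instance
  infer_instance

theorem liftProp_restrict {X Y : Scheme.{u}} (f : X ⟶ Y) (H : LiftProp f) (V : Y.Opens) :
    LiftProp (f ∣_ V) := by
  intro A B _ _ φ hφ a b w
  have w' : Spec.map (CommRingCat.ofHom φ) ≫ (b ≫ V.ι) = (a ≫ (f ⁻¹ᵁ V).ι) ≫ f := by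
    rw [← Category.assoc, w, Category.assoc, morphismRestrict_ι, Category.assoc]
  obtain ⟨l, hl1, hl2⟩ := H A B φ hφ _ _ w'
  have hrange : Set.range l ⊆ Set.range (f ⁻¹ᵁ V).ι := by
    rintro _ ⟨q, rfl⟩
    rw [Scheme.Opens.range_ι]
    show f (l q) ∈ V
    rw [← Scheme.Hom.comp_apply, hl2, Scheme.Hom.comp_apply]
    exact (b q).2
  let l' := IsOpenImmersion.lift (f ⁻¹ᵁ V).ι l hrange
  have hl' : l' ≫ (f ⁻¹ᵁ V).ι = l := IsOpenImmersion.lift_fac _ _ _
  refine ⟨l', ?_, ?_⟩
  · rw [← cancel_mono (f ⁻¹ᵁ V).ι, Category.assoc, hl', hl1]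
  · rw [← cancel_mono V.ι, Category.assoc, morphismRestrict_ι, ← Category.assoc, hl', hl2]

theorem backward {X Y : Scheme.{u}} (f : X ⟶ Y) [QuasiCompact f] (H : LiftProp f) :
    IsClosedImmersion f := by
  apply IsZariskiLocalAtTarget.of_forall_exists_morphismRestrict
  intro y
  obtain ⟨_, ⟨V, hV, rfl⟩, hyV, -⟩ :=
    Y.isBasis_affineOpens.exists_subset_of_mem_open (Set.mem_univ y) isOpen_univ
  refine ⟨V, hyV, ?_⟩
  have : IsAffine (V : Scheme) := hV
  exact backward_affine (f ∣_ V) (liftProp_restrict f H V)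


open AlgebraicGeometry CategoryTheory Limits in
/-- For a quasi-compact morphism f : X → Y, being a closed immersion is equivalent to the following
lifting property: for each injective ring map A → B and each commutative square with Spec B → X on
top and Spec A → Y at the bottom there is a lift Spec A → X making both triangles commute. -/
theorem result {X Y : Scheme.{u}} (f : X ⟶ Y) [QuasiCompact f] :
    IsClosedImmersion f ↔ ∀ (A B : Type u) [CommRing A] [CommRing B] (φ : A →+* B), Function.Injective φ →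
      ∀ (a : Spec (CommRingCat.of B) ⟶ X) (b : Spec (CommRingCat.of A) ⟶ Y), Spec.map (CommRingCat.ofHom φ) ≫ b = a ≫ f →
        ∃ l : Spec (CommRingCat.of A) ⟶ X, Spec.map (CommRingCat.ofHom φ) ≫ l = a ∧ l ≫ f = b :=
  ⟨fun _ => forward f, fun H => backward f H⟩

end Groth.Agent.S1432
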