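import Groth.Statements.S1433
-- import your own Groth.Agent.* helpers here

set_option autoImplicit false
universe u
open FlatMor

namespace Groth.Agent.S1433

open AlgebraicGeometry CategoryTheory Limits in
/-- If the canonical morphism X → Spec Γ(X, O_X) has a retraction, then X is affine. -/
theorem result (X : Scheme.{u}) (r : Spec Γ(X, ⊤) ⟶ X) (h : X.toSpecΓ ≫ r = 𝟙 X) : IsAffine X := by
  have h2 : r ≫ X.toSpecΓ = 𝟙 _ := by
    apply ext_of_isAffine
    have e1 : (X.toSpecΓ ≫ r ≫ X.toSpecΓ).appTop = X.toSpecΓ.appTop := by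
      rw [← Category.assoc, h, Category.id_comp]
    rw [Scheme.Hom.comp_appTop] at e1
    have : IsIso X.toSpecΓ.appTop := by rw [Scheme.toSpecΓ_appTop]; infer_instance
    rw [← cancel_mono X.toSpecΓ.appTop, e1]
    simp
  exact ⟨⟨⟨r, h, h2⟩⟩⟩

end Groth.Agent.S1433
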