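import Groth.Statements.S14346
-- import your own Groth.Agent.* helpers here
import Mathlib.RingTheory.Grassmannian
import Mathlib.Tactic

set_option autoImplicit false
universe u v
open TensorProduct
open QuotLF

namespace Groth.Agent.S14346

/-- Let R be a commutative ring, M an R-module, k ≥ 0, and A an R-algebra for which A ⊗_R M is finite
projective of constant rank k, i.e. Spec A → Spec R factors through the locally closed stratum where
M is locally free of rank k. Then A ⊗_R M has exactly one rank-k locally free quotient: the zero
submodule has finite projective quotient of constant rank k, and every submodule with such a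
quotient is zero. In other words the Quot scheme of rank-k locally free quotients of M restricted to
that stratum maps isomorphically onto it. -/
theorem result (R : Type u) [CommRing R]
    (M : Type v) [AddCommGroup M] [Module R M] (k : ℕ)
    (A : Type u) [CommRing A] [Algebra R A] [Module.Finite A (A ⊗[R] M)] [Module.Projective A (A ⊗[R] M)]
    (hk : ∀ p : PrimeSpectrum A, Module.rankAtStalk (R := A) (A ⊗[R] M) p = k) :
    (∃ N : Module.Grassmannian A (A ⊗[R] M) k, N.toSubmodule = ⊥) ∧
      ∀ N : Module.Grassmannian A (A ⊗[R] M) k, N.toSubmodule = ⊥ := by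
  set M' := A ⊗[R] M
  refine ⟨?_, ?_⟩
  · let e : (M' ⧸ (⊥ : Submodule A M')) ≃ₗ[A] M' := Submodule.quotEquivOfEqBot ⊥ rfl
    refine ⟨{ toSubmodule := ⊥
              finite_quotient := Module.Finite.equiv e.symm
              projective_quotient := Module.Projective.of_equiv e.symm
              rankAtStalk_eq := fun p => by
                rw [Module.rankAtStalk_eq_of_equiv e]
                exact hk p }, rfl⟩
  · intro N
    have hproj : Module.Projective A (M' ⧸ N.toSubmodule) := N.projective_quotient
    obtain ⟨s, hs⟩ := Module.projective_lifting_property N.toSubmodule.mkQ LinearMap.id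
      N.toSubmodule.mkQ_surjective
    have hs' : ∀ y, N.toSubmodule.mkQ (s y) = y := fun y => LinearMap.congr_fun hs y
    have hs'' : ∀ y, (Submodule.Quotient.mk (s y) : M' ⧸ N.toSubmodule) = y := hs'
    let r : M' →ₗ[A] N.toSubmodule :=
      LinearMap.codRestrict N.toSubmodule (LinearMap.id - s ∘ₗ N.toSubmodule.mkQ) (by
        intro x
        rw [← Submodule.Quotient.mk_eq_zero, ← Submodule.mkQ_apply]
        simp [hs''])
    have hri : ∀ n : N.toSubmodule, r n = n := by
      intro n
      apply Subtype.ext
      simp [r, (Submodule.Quotient.mk_eq_zero _).mpr n.2]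
    let F : (N.toSubmodule × (M' ⧸ N.toSubmodule)) →ₗ[A] M' := N.toSubmodule.subtype.coprod s
    let G : M' →ₗ[A] (N.toSubmodule × (M' ⧸ N.toSubmodule)) := r.prod N.toSubmodule.mkQ
    have hFG : ∀ x, F (G x) = x := by
      intro x
      simp [F, G, r]
    have hGF : ∀ z, G (F z) = z := by
      intro ⟨n, y⟩
      ext
      · simp only [F, G, LinearMap.prod_apply, LinearMap.coprod_apply, map_add, hri]
        simp [r, hs'', (Submodule.Quotient.mk_eq_zero _).mpr n.2]
      · simp [F, G, hs'', (Submodule.Quotient.mk_eq_zero _).mpr n.2]
    let e : (N.toSubmodule × (M' ⧸ N.toSubmodule)) ≃ₗ[A] M' :=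
      LinearEquiv.ofLinearMap F G (LinearMap.ext hFG) (LinearMap.ext hGF)
    have hrsurj : Function.Surjective r := fun n => ⟨n, hri n⟩
    have : Module.Finite A N.toSubmodule := Module.Finite.of_surjective r hrsurj
    have : Module.Flat A N.toSubmodule :=
      Module.Flat.of_retract N.toSubmodule.subtype r (LinearMap.ext hri)
    have hrank : Module.rankAtStalk (R := A) (N.toSubmodule × (M' ⧸ N.toSubmodule)) =
        Module.rankAtStalk (R := A) M' := Module.rankAtStalk_eq_of_equiv e
    rw [Module.rankAtStalk_prod] at hrank
    have h0 : Module.rankAtStalk (R := A) N.toSubmodule = 0 := by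
      funext p
      have := congr_fun hrank p
      simp only [Pi.add_apply] at this
      rw [hk p, N.rankAtStalk_eq p] at this
      simp only [Pi.zero_apply]
      omega
    rw [Module.rankAtStalk_eq_zero_iff_subsingleton] at h0
    exact Submodule.eq_bot_of_subsingleton

end Groth.Agent.S14346
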