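import Groth.Statements.S14349
-- import your own Groth.Agent.* helpers here

set_option autoImplicit false
universe v u v' u'
open DeltaF

namespace Groth.Agent.S14349

open CategoryTheory CategoryTheory.Limits in
/-- In an abelian category with enough injectives, a cohomological delta-functor indexed by the natural
numbers is effaceable (every object admits a monomorphism killed by the functor in each positive
degree) if and only if each of its functors in positive degree sends every injective object to a
zero object. -/
theorem result {A : Type u} [Category.{v} A] [Abelian A]
    [EnoughInjectives A] {B : Type u'} [Category.{v'} B] [Abelian B]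
    (T : DeltaF.CohDeltaFunctor A B ℕ) :
    T.IsEffaceable ↔ ∀ (n : ℕ) (I : A), Injective I → IsZero ((T.F (n + 1)).obj I) := by
  constructor
  · intro hT n I hI
    obtain ⟨Y, u, hu, hFu⟩ := hT n I
    obtain ⟨r, hr⟩ := Injective.factors (𝟙 I) u
    rw [IsZero.iff_id_eq_zero, ← (T.F (n + 1)).map_id, ← hr, (T.F (n + 1)).map_comp, hFu,
      zero_comp]
  · intro h n X
    refine ⟨Injective.under X, Injective.ι X, inferInstance, ?_⟩
    exact (h n _ inferInstance).eq_of_tgt _ _

end Groth.Agent.S14349
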