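import Groth.Statements.S14351
-- import your own Groth.Agent.* helpers here
import Mathlib.RingTheory.Flat.FaithfullyFlat.Basic

set_option autoImplicit false
universe u
open CAlg

namespace Groth.Agent.S14351

/-- For ring maps A → B → C with C faithfully flat over B and C faithfully flat over A, the ring B is
faithfully flat over A. -/
theorem result (A B C : Type u) [CommRing A] [CommRing B]
    [CommRing C] [Algebra A B] [Algebra B C] [Algebra A C] [IsScalarTower A B C]
    [Module.FaithfullyFlat B C] [Module.FaithfullyFlat A C] : Module.FaithfullyFlat A B := by
  open TensorProduct in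
  have key : ∀ (N : Type u) [AddCommGroup N] [Module A N],
      Nonempty (C ⊗[B] (B ⊗[A] N) ≃ₗ[C] C ⊗[A] N) :=
    fun N _ _ => ⟨AlgebraTensorModule.cancelBaseChange A B C C N⟩
  rw [Module.FaithfullyFlat.iff_flat_and_lTensor_reflects_triviality]
  refine ⟨?_, ?_⟩
  · rw [Module.Flat.iff_lTensor_preserves_injective_linearMap]
    intro N P _ _ _ _ f hf
    have hbc : ⇑(f.lTensor B) = ⇑(f.baseChange B) := by
      rw [LinearMap.baseChange_eq_ltensor]
    rw [hbc, ← Module.FaithfullyFlat.lTensor_injective_iff_injective B C]
    have hC : Function.Injective (f.lTensor C) :=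
      Module.Flat.lTensor_preserves_injective_linearMap f hf
    set e1 := AlgebraTensorModule.cancelBaseChange A B C C N
    set e2 := AlgebraTensorModule.cancelBaseChange A B C C P
    have hcomm : ∀ x, e2 (((f.baseChange B).lTensor C) x) = f.lTensor C (e1 x) := by
      intro x
      induction x using TensorProduct.induction_on with
      | zero => simp
      | tmul c y =>
        induction y using TensorProduct.induction_on with
        | zero => simp
        | tmul b n =>
          simp [e1, e2, AlgebraTensorModule.cancelBaseChange_tmul]
        | add y y' hy hy' =>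
          simp only [TensorProduct.tmul_add, map_add] at hy hy' ⊢
          rw [hy, hy']
      | add x x' hx hx' => simp only [map_add, hx, hx']
    intro x x' hxx'
    have h1 : f.lTensor C (e1 x) = f.lTensor C (e1 x') := by
      rw [← hcomm, ← hcomm, hxx']
    exact e1.injective (hC h1)
  · intro N _ _ hN
    have h1 : Subsingleton (C ⊗[B] (B ⊗[A] N)) := inferInstance
    have h2 : Subsingleton (C ⊗[A] N) :=
      (AlgebraTensorModule.cancelBaseChange A B C C N).symm.toEquiv.injective.subsingleton
    exact Module.FaithfullyFlat.lTensor_reflects_triviality A C N

end Groth.Agent.S14351
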