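import Groth.Statements.S1438
import Mathlib.AlgebraicGeometry.Limits
import Mathlib.AlgebraicGeometry.IdealSheaf.Functorial
-- import your own Groth.Agent.* helpers here

set_option autoImplicit false
universe u
open FlatMor

namespace Groth.Agent.S1438

open AlgebraicGeometry CategoryTheory Limits in
/-- A separated scheme with an open covering by n + 1 affine opens has affine stratification number at
most n: it admits an affine stratification with index set {0, …, n}. -/
theorem result (X : Scheme.{u}) [X.IsSeparated] (n : ℕ) (U : Fin (n + 1) → X.Opens)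
    (hU : ∀ i, IsAffineOpen (U i)) (hcov : ⨆ i, U i = ⊤) :
    MoreMor.HasAffineStratification X n := by
  classical
  have hmem : ∀ x : X, ∃ i, x ∈ U i := by
    intro x
    have : x ∈ (⨆ i, U i) := by rw [hcov]; trivial
    exact TopologicalSpace.Opens.mem_iSup.mp this
  let S : X → Finset (Fin (n + 1)) := fun x => Finset.univ.filter (fun i => x ∈ U i)
  have hS : ∀ x, (S x).Nonempty := fun x => by
    obtain ⟨i, hi⟩ := hmem x
    exact ⟨i, by simp [S, hi]⟩
  let s : X → Fin (n + 1) := fun x => (S x).max' (hS x)
  have hs_mem : ∀ x, x ∈ U (s x) := fun x => by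
    have := (S x).max'_mem (hS x)
    simpa [S] using this
  have hs_le : ∀ x j, x ∈ U j → j ≤ s x := fun x j hj => (S x).le_max' j (by simp [S, hj])
  have hsle : ∀ x i, s x ≤ i ↔ ∀ j, i < j → x ∉ U j := by
    intro x i
    constructor
    · intro h j hij hj
      exact absurd (lt_of_lt_of_le hij (hs_le x j hj)) (not_lt.mpr h)
    · intro h
      by_contra h'
      push_neg at h'
      exact h (s x) h' (hs_mem x)
  refine ⟨s, ?_, ?_⟩
  · intro i
    have : {x : X | s x ≤ i} = ⋂ j ∈ {j : Fin (n + 1) | i < j}, ((U j : Set X))ᶜ := by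
      ext x
      simp only [Set.mem_setOf_eq, Set.mem_iInter, Set.mem_compl_iff, SetLike.mem_coe]
      exact hsle x i
    rw [this]
    exact isClosed_biInter fun j _ => (U j).isOpen.isClosed_compl
  · intro i
    let C : Set (U i : Scheme.{u}) := ⋂ j ∈ {j : Fin (n + 1) | i < j}, ((U i).ι ⁻¹' (U j : Set X))ᶜ
    have hC : IsClosed C :=
      isClosed_biInter fun j _ => ((U j).isOpen.preimage (U i).ι.continuous).isClosed_compl
    let I := Scheme.IdealSheafData.vanishingIdeal (⟨C, hC⟩ : TopologicalSpace.Closeds (U i : Scheme.{u}))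
    have hUi : IsAffine (U i : Scheme.{u}) := hU i
    have hIaff : IsAffine I.subscheme := isAffine_of_isAffineHom I.subschemeι
    refine ⟨I.subscheme, I.subschemeι ≫ (U i).ι, inferInstance, hIaff, ?_, ?_⟩
    · exact IsAffineHom.of_comp (I.subschemeι ≫ (U i).ι) (terminal.from X)
    · rw [Scheme.Hom.comp_base, TopCat.coe_comp, Set.range_comp, I.range_subschemeι,
        Scheme.IdealSheafData.coe_support_vanishingIdeal]
      ext x
      simp only [Set.mem_image, Set.mem_setOf_eq, TopologicalSpace.Closeds.coe_mk]
      constructor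
      · rintro ⟨y, hy, rfl⟩
        apply le_antisymm
        · rw [hsle]
          intro j hij hj
          have := hy
          simp only [C, Set.mem_iInter, Set.mem_compl_iff, Set.mem_preimage, SetLike.mem_coe] at this
          exact this j hij hj
        · have hy2 : (U i).ι y ∈ Set.range (U i).ι := ⟨y, rfl⟩
          rw [Scheme.Opens.range_ι] at hy2
          exact hs_le _ i hy2
      · intro hx
        have hxU : x ∈ U i := hx ▸ hs_mem x
        refine ⟨⟨x, hxU⟩, ?_, rfl⟩
        show (⟨x, hxU⟩ : (U i : Scheme.{u})) ∈ C
        refine Set.mem_iInter₂.mpr fun j hij hj => ?_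
        have := (hsle x i).mp hx.le j hij
        exact this hj

end Groth.Agent.S1438
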