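import Groth.Statements.S14405
-- import your own Groth.Agent.* helpers here
import Mathlib.Tactic

set_option autoImplicit false
open Polynomial
open HilbNum

namespace Groth.Agent.S14405

/-- Let φ be a function from the integers to the rationals and Q a nonzero polynomial with rational
coefficients of degree d such that φ(m) - φ(m-1) = Q(m) for every integer m. Then there is a
polynomial P with rational coefficients, of degree d + 1, such that φ(m) = P(m) for every integer m.
(The explicit form of P in the binomial basis is not part of this statement.) -/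
theorem result (φ : ℤ → ℚ) (d : ℕ) (Q : ℚ[X]) (hQ : Q ≠ 0)
    (hd : Q.natDegree = d) (h : ∀ m : ℤ, φ m - φ (m - 1) = Q.eval (m : ℚ)) :
    ∃ P : ℚ[X], P.natDegree = d + 1 ∧ ∀ m : ℤ, φ m = P.eval (m : ℚ) := by
  classical
  have key : ∀ n : ℕ, ∀ Q : Polynomial ℚ, Q.natDegree ≤ n → ∃ R : Polynomial ℚ, R.natDegree ≤ n + 1 ∧
      R.coeff (n + 1) = Q.coeff n / (n + 1) ∧
        ∀ x : ℚ, R.eval x - R.eval (x - 1) = Q.eval x := by
    intro n
    induction n with
    | zero =>
      intro Q hQ
      rw [Nat.le_zero, Polynomial.natDegree_eq_zero] at hQ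
      obtain ⟨c, rfl⟩ := hQ
      refine ⟨Polynomial.C c * Polynomial.X, ?_, ?_, ?_⟩
      · exact (Polynomial.natDegree_C_mul_le _ _).trans (by simp)
      · simp
      · intro x; simp; ring
    | succ n ih =>
      intro Q hQ
      set c := Q.coeff (n + 1) with hc
      set R0 : Polynomial ℚ := Polynomial.C (c / (n + 2)) * Polynomial.X ^ (n + 2) with hR0
      set DR0 : Polynomial ℚ := Polynomial.C (c / (n + 2)) *
        (Polynomial.X ^ (n + 2) - (Polynomial.X + Polynomial.C (-1)) ^ (n + 2)) with hDR0
      have hev : ∀ x, R0.eval x - R0.eval (x - 1) = DR0.eval x := by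
        intro x; simp [R0, DR0]; ring
      have hdiff : ∀ N, n + 1 ≤ N → (Q - DR0).coeff N = 0 := by
        intro N hN
        have hcoefX : ∀ N : ℕ, ((Polynomial.X + Polynomial.C (-1 : ℚ)) ^ (n + 2)).coeff N =
            (-1) ^ (n + 2 - N) * ((n + 2).choose N : ℚ) := fun N => Polynomial.coeff_X_add_C_pow _ _ _
        simp only [DR0, Polynomial.coeff_sub, Polynomial.coeff_C_mul, Polynomial.coeff_X_pow, hcoefX]
        rcases Nat.lt_or_ge N (n + 2) with hlt | hge
        · have hN' : N = n + 1 := by omega
          subst hN'
          rw [if_neg (by omega), show n + 2 - (n + 1) = 1 by omega, Nat.choose_succ_self_right]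
          push_cast
          field_simp
          ring
        · have hQN : Q.coeff N = 0 := Polynomial.coeff_eq_zero_of_natDegree_lt (by omega)
          rcases Nat.eq_or_lt_of_le hge with heq | hgt
          · subst heq; simp [hQN]
          · rw [hQN, if_neg (by omega), Nat.choose_eq_zero_of_lt hgt]; simp
      have hdeg : (Q - DR0).natDegree ≤ n := by
        rw [Polynomial.natDegree_le_iff_coeff_eq_zero]
        intro N hN
        exact hdiff N (by exact_mod_cast hN)
      obtain ⟨R1, hR1deg, hR1coef, hR1⟩ := ih (Q - DR0) hdeg
      refine ⟨R0 + R1, ?_, ?_, ?_⟩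
      · apply Polynomial.natDegree_add_le_of_degree_le
        · exact (Polynomial.natDegree_C_mul_le _ _).trans (by simp)
        · omega
      · rw [Polynomial.coeff_add, Polynomial.coeff_eq_zero_of_natDegree_lt (p := R1) (by omega)]
        simp [R0]; ring
      · intro x
        have h1 := hR1 x
        have h2 := hev x
        simp only [Polynomial.eval_add, Polynomial.eval_sub] at h1 ⊢
        linear_combination h1 + h2
  obtain ⟨R, hRdeg, hRcoef, hR⟩ := key d Q hd.le
  have hRdeg' : R.natDegree = d + 1 := by
    apply le_antisymm hRdeg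
    apply Polynomial.le_natDegree_of_ne_zero
    rw [hRcoef]
    have : Q.coeff d ≠ 0 := by
      rw [← hd]; exact Polynomial.leadingCoeff_ne_zero.mpr hQ
    positivity
  refine ⟨R + Polynomial.C (φ 0 - R.eval 0), ?_, ?_⟩
  · rw [Polynomial.natDegree_add_C, hRdeg']
  · have hψ : ∀ m : ℤ, φ m - R.eval (m : ℚ) = φ (m - 1) - R.eval ((m - 1 : ℤ) : ℚ) := by
      intro m
      have := h m
      have h2 := hR (m : ℚ)
      push_cast
      linear_combination this - h2
    have hconst : ∀ m : ℤ, φ m - R.eval (m : ℚ) = φ 0 - R.eval 0 := by
      intro m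
      induction m using Int.induction_on with
      | zero => simp
      | succ k ih =>
        have := hψ ((k : ℤ) + 1)
        rw [show (k : ℤ) + 1 - 1 = k by ring] at this
        rw [this, ih]
      | pred k ih =>
        have := hψ (-(k : ℤ))
        rw [← this, ih]
    intro m
    have := hconst m
    simp only [Polynomial.eval_add, Polynomial.eval_C]
    linear_combination this

end Groth.Agent.S14405
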