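import Groth.Statements.S14427
-- import your own Groth.Agent.* helpers here
import Groth.Agent.Lib.Helper21.HomogDim

set_option autoImplicit false
universe u
open CAlgX

namespace Groth.Agent.S14427

/-- Let k be a field and Λ a set of n ≥ 3 nonzero vectors of k^3 which are pairwise linearly
independent, i.e. n distinct k-rational points of the projective plane. Then the space of
homogeneous forms of degree n − 1 in k[x_0, x_1, x_2] vanishing at every point of Λ — the global
sections of I_Λ(n − 1) — has dimension C(n+1, 2) − n over k, the same for all such Λ. (The published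
statement is over an algebraically closed field; this row allows any field and k-rational points,
which is all its argument uses.) -/
theorem result (k : Type u) [Field k] (n : ℕ) (hn : 3 ≤ n)
    (Λ : Finset (Fin 3 → k)) (hcard : Λ.card = n) (h0 : ∀ v ∈ Λ, v ≠ 0)
    (hdist : ∀ v ∈ Λ, ∀ w ∈ Λ, v ≠ w → LinearIndependent k ![v, w]) :
    Module.finrank k ↥(MvPolynomial.homogeneousSubmodule (Fin 3) k (n - 1) ⊓ ⨅ v ∈ Λ, LinearMap.ker (MvPolynomial.aeval v).toLinearMap) = Nat.choose (n + 1) 2 - n := by
  classical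
  set H := MvPolynomial.homogeneousSubmodule (Fin 3) k (n - 1) with hH
  set K : Submodule k (MvPolynomial (Fin 3) k) :=
    ⨅ v ∈ Λ, LinearMap.ker (MvPolynomial.aeval v).toLinearMap with hK
  have hsep : ∀ v ∈ Λ, ∀ w ∈ Λ, v ≠ w → ∃ ℓ : MvPolynomial (Fin 3) k, ℓ.IsHomogeneous 1 ∧
      MvPolynomial.aeval v ℓ = 0 ∧ MvPolynomial.aeval w ℓ ≠ 0 :=
    fun v hv w hw hvw =>
      Groth.Agent.Lib.Helper21.HomogDim.exists_linear_form v w (hdist v hv w hw hvw)
  choose! ℓ hℓ1 hℓ2 hℓ3 using hsep
  let p : (Fin 3 → k) → MvPolynomial (Fin 3) k := fun w => ∏ v ∈ Λ.erase w, ℓ v w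
  have hp_hom : ∀ w ∈ Λ, (p w).IsHomogeneous (n - 1) := by
    intro w hw
    have := MvPolynomial.IsHomogeneous.prod (Λ.erase w) (fun v => ℓ v w) (fun _ => 1)
      (fun v hv => hℓ1 v (Finset.mem_of_mem_erase hv) w hw (Finset.ne_of_mem_erase hv))
    simpa [Finset.card_erase_of_mem hw, hcard] using this
  have hp_self : ∀ w ∈ Λ, MvPolynomial.aeval w (p w) ≠ 0 := by
    intro w hw
    simp only [p, map_prod]
    rw [Finset.prod_ne_zero_iff]
    intro v hv
    exact hℓ3 v (Finset.mem_of_mem_erase hv) w hw (Finset.ne_of_mem_erase hv)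
  have hp_other : ∀ w ∈ Λ, ∀ v ∈ Λ, v ≠ w → MvPolynomial.aeval v (p w) = 0 := by
    intro w hw v hv hvw
    simp only [p, map_prod]
    exact Finset.prod_eq_zero (Finset.mem_erase.mpr ⟨hvw, hv⟩) (hℓ2 v hv w hw hvw)
  let ev : H →ₗ[k] (Λ → k) :=
    LinearMap.pi (fun v : Λ => (MvPolynomial.aeval v.1).toLinearMap ∘ₗ H.subtype)
  have hev : ∀ (q : H) (v : Λ), ev q v = MvPolynomial.aeval v.1 q.1 := fun q v => rfl
  have hsurj : Function.Surjective ev := by
    intro c
    refine ⟨∑ w : Λ, (c w / MvPolynomial.aeval w.1 (p w.1)) • ⟨p w.1, hp_hom w.1 w.2⟩, ?_⟩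
    funext v
    rw [hev]
    simp only [Submodule.coe_sum, Submodule.coe_smul, map_sum, map_smul, smul_eq_mul]
    rw [Finset.sum_eq_single v]
    · exact div_mul_cancel₀ _ (hp_self v.1 v.2) ▸ (by ring)
    · intro w _ hwv
      rw [hp_other w.1 w.2 v.1 v.2 (fun h => hwv (Subtype.ext h).symm), mul_zero]
    · simp
  have hker : Submodule.map H.subtype (LinearMap.ker ev) = H ⊓ K := by
    rw [← Submodule.map_comap_subtype]
    congr 1
    ext q
    simp only [LinearMap.mem_ker, Submodule.mem_comap, Submodule.subtype_apply, hK,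
      Submodule.mem_iInf, LinearMap.mem_ker, AlgHom.toLinearMap_apply]
    constructor
    · intro hq v hv
      have := congr_fun hq ⟨v, hv⟩
      rw [hev] at this
      exact this
    · intro hq
      funext v
      rw [hev]
      exact hq v.1 v.2
  haveI : FiniteDimensional k H :=
    Module.Finite.iff_fg.mpr (MvPolynomial.homogeneousSubmodule_fg _ _ _)
  have hdim : Module.finrank k H = (n + 1).choose 2 := by
    rw [hH, Groth.Agent.Lib.Helper21.HomogDim.finrank_homogeneous_fin3,
      show n - 1 + 2 = n + 1 by omega]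
  have h1 := LinearMap.finrank_range_add_finrank_ker ev
  rw [LinearMap.range_eq_top.mpr hsurj, finrank_top, Module.finrank_fintype_fun_eq_card,
    Fintype.card_coe, hcard, hdim] at h1
  rw [← hker, Submodule.finrank_map_subtype_eq]
  omega

end Groth.Agent.S14427
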