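import Groth.Statements.S14428
-- import your own Groth.Agent.* helpers here
import Groth.Agent.Lib.Helper21.PlaneForms

set_option autoImplicit false
universe u
open CAlgX

namespace Groth.Agent.S14428

/-- Let k be a field, n ≥ 3, and let Λ and Λ' be two sets of n nonzero, pairwise linearly independent
vectors of k^3 (n distinct k-rational points of the projective plane each), neither lying on a line
(no nonzero linear form vanishes on all of Λ, resp. Λ'). If the spaces of homogeneous forms of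
degree n − 1 vanishing on Λ and on Λ' coincide, then Λ and Λ' define the same set of points of the
plane: the assignment Λ ↦ H^0(P^2, I_Λ(n − 1)), with values in a Grassmannian, is injective on
non-collinear sets. (The published statement is over an algebraically closed field; this row allows
any field and k-rational points, which is all its argument uses.) -/
theorem result (k : Type u) [Field k] (n : ℕ) (hn : 3 ≤ n)
    (Λ Λ' : Finset (Fin 3 → k)) (hcard : Λ.card = n) (hcard' : Λ'.card = n)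
    (h0 : ∀ v ∈ Λ, v ≠ 0) (h0' : ∀ v ∈ Λ', v ≠ 0)
    (hdist : ∀ v ∈ Λ, ∀ w ∈ Λ, v ≠ w → LinearIndependent k ![v, w])
    (hdist' : ∀ v ∈ Λ', ∀ w ∈ Λ', v ≠ w → LinearIndependent k ![v, w])
    (hline : ¬ ∃ ℓ : (Fin 3 → k) →ₗ[k] k, ℓ ≠ 0 ∧ ∀ v ∈ Λ, ℓ v = 0)
    (hline' : ¬ ∃ ℓ : (Fin 3 → k) →ₗ[k] k, ℓ ≠ 0 ∧ ∀ v ∈ Λ', ℓ v = 0)
    (heq : (MvPolynomial.homogeneousSubmodule (Fin 3) k (n - 1) ⊓ ⨅ v ∈ Λ, LinearMap.ker (MvPolynomial.aeval v).toLinearMap) = (MvPolynomial.homogeneousSubmodule (Fin 3) k (n - 1) ⊓ ⨅ v ∈ Λ', LinearMap.ker (MvPolynomial.aeval v).toLinearMap)) :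
    (∀ v ∈ Λ, ∃ w ∈ Λ', ∃ c : k, v = c • w) ∧ (∀ w ∈ Λ', ∃ v ∈ Λ, ∃ c : k, w = c • v) := by
  constructor
  · intro v hv
    by_contra hcon
    obtain ⟨F, hF, hFv⟩ := Groth.Agent.Lib.Helper21.PlaneForms.exists_form n hn Λ' hcard' hline' v hcon
    rw [← heq] at hF
    have h2 := (Submodule.mem_inf.1 hF).2
    rw [Submodule.mem_iInf] at h2
    have h3 := h2 v
    rw [Submodule.mem_iInf] at h3
    exact hFv (h3 hv)
  · intro v hv
    by_contra hcon
    obtain ⟨F, hF, hFv⟩ := Groth.Agent.Lib.Helper21.PlaneForms.exists_form n hn Λ hcard hline v hcon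
    rw [heq] at hF
    have h2 := (Submodule.mem_inf.1 hF).2
    rw [Submodule.mem_iInf] at h2
    have h3 := h2 v
    rw [Submodule.mem_iInf] at h3
    exact hFv (h3 hv)

end Groth.Agent.S14428
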