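import Groth.Statements.S14437
import Groth.Agent.Lib.Helper14.Conormal
-- import your own Groth.Agent.* helpers here

set_option autoImplicit false
universe u
open CAlg

namespace Groth.Agent.S14437

/-- Let k be a field and A → B a local homomorphism of Noetherian local k-algebras with residue fields k
(k → A/m_A and k → B/m_B bijective) — for instance the local rings at a closed point x and at its
image y under a morphism of schemes of finite type over an algebraically closed k. Then dim_k
(Ω_{B/A} ⊗_B B/m_B) + rank(m_A/m_A² → m_B/m_B²) = dim_k (m_B/m_B²): the fibre at x of the sheaf of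
relative differentials is dual to the kernel of the tangent map T_x X → T_y Y. (The published
statement is the canonical isomorphism (Ω_{X/Y})_(x)^∨ ≅ ker(df_x); stated here as the resulting
equality of dimensions. Its second assertion, dim (Ω_{X/Y})_(x) ≥ r when the fibre has an
r-dimensional component through x, is not included.) -/
theorem result (k : Type u) [Field k]
    (A B : Type u) [CommRing A] [CommRing B] [IsLocalRing A] [IsLocalRing B] [IsNoetherianRing A] [IsNoetherianRing B]
    [Algebra k A] [Algebra k B] [Algebra A B] [IsScalarTower k A B]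
    (hle : IsLocalRing.maximalIdeal A ≤ Ideal.comap (IsScalarTower.toAlgHom k A B) (IsLocalRing.maximalIdeal B))
    (hA : Function.Bijective (algebraMap k (IsLocalRing.ResidueField A)))
    (hB : Function.Bijective (algebraMap k (IsLocalRing.ResidueField B))) :
    Module.finrank (IsLocalRing.ResidueField B) (TensorProduct B (IsLocalRing.ResidueField B) (Ω[B⁄A])) +
      Module.finrank k ↥(LinearMap.range (Ideal.mapCotangent (IsLocalRing.maximalIdeal A) (IsLocalRing.maximalIdeal B)
        (IsScalarTower.toAlgHom k A B) hle)) =
      Module.finrank k (IsLocalRing.CotangentSpace B) := by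
  classical
  set κ := IsLocalRing.ResidueField B with hκdef
  set mA := IsLocalRing.maximalIdeal A with hmAdef
  set mB := IsLocalRing.maximalIdeal B with hmBdef
  have hAκ : Function.Surjective (algebraMap A κ) := by
    intro c
    obtain ⟨x, rfl⟩ := hB.2 c
    exact ⟨algebraMap k A x, (IsScalarTower.algebraMap_apply k A κ x).symm⟩
  have hBκ : Function.Surjective (algebraMap B κ) := IsLocalRing.residue_surjective
  have hI : RingHom.ker (algebraMap A κ) = mA :=
    IsLocalRing.eq_maximalIdeal (RingHom.ker_isMaximal_of_surjective _ hAκ)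
  have hJ : RingHom.ker (algebraMap B κ) = mB := IsLocalRing.ker_residue
  have hle0 : RingHom.ker (algebraMap A κ) ≤
      (RingHom.ker (algebraMap B κ)).comap (Algebra.ofId A B) :=
    le_of_eq (congrArg RingHom.ker (IsScalarTower.algebraMap_eq A B κ))
  have hexact := Groth.Agent.Lib.Helper14.Conormal.exact_mapCotangent_kerCotangentToTensor
    A B κ hAκ hle0
  set J := RingHom.ker (algebraMap B κ) with hJdef
  set I := RingHom.ker (algebraMap A κ) with hIdef
  set ψ := KaehlerDifferential.kerCotangentToTensor A B κ with hψdef
  have hψsurj : Function.Surjective ψ := by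
    rw [← LinearMap.range_eq_top, hψdef,
      KaehlerDifferential.range_kerCotangentToTensor A B κ hBκ]
    have : Subsingleton (Ω[κ⁄A]) := KaehlerDifferential.subsingleton_of_surjective A κ hAκ
    ext x
    simp only [Submodule.restrictScalars_mem, LinearMap.mem_ker, Submodule.mem_top, iff_true]
    exact Subsingleton.elim _ _
  -- compare J.Cotangent with mB.Cotangent
  have h₁ : mB ≤ J.comap (AlgHom.id B B) := by
    intro x hx; rw [hJ]; exact hx
  let e₁ : mB.Cotangent →ₗ[B] J.Cotangent := Ideal.mapCotangent mB J (AlgHom.id B B) h₁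
  have he₁inj : Function.Injective e₁ := by
    rw [injective_iff_map_eq_zero]
    intro y hy
    obtain ⟨x, rfl⟩ := Ideal.toCotangent_surjective _ y
    rw [Ideal.mapCotangent_toCotangent, Ideal.toCotangent_eq_zero] at hy
    rw [Ideal.toCotangent_eq_zero]
    have h' : (x : B) ∈ J ^ 2 := hy
    rw [hJ] at h'
    exact h'
  have he₁surj : Function.Surjective e₁ := by
    intro y
    obtain ⟨x, rfl⟩ := Ideal.toCotangent_surjective _ y
    have hx : x.1 ∈ mB := by rw [← hJ]; exact x.2
    exact ⟨mB.toCotangent ⟨x.1, hx⟩, rfl⟩
  let ψ' : mB.Cotangent →ₗ[B] (TensorProduct B κ (Ω[B⁄A])) := ψ ∘ₗ e₁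
  let ψk : mB.Cotangent →ₗ[k] (TensorProduct B κ (Ω[B⁄A])) := ψ'.restrictScalars k
  have hψk_surj : Function.Surjective ψk := hψsurj.comp he₁surj
  set φ := Ideal.mapCotangent mA mB (IsScalarTower.toAlgHom k A B) hle with hφdef
  have hker : LinearMap.ker ψk = LinearMap.range φ := by
    ext y
    rw [LinearMap.mem_ker, LinearMap.mem_range]
    change ψ (e₁ y) = 0 ↔ _
    rw [hexact (e₁ y)]
    constructor
    · rintro ⟨x, hx⟩
      obtain ⟨a, rfl⟩ := Ideal.toCotangent_surjective _ x
      have ha : a.1 ∈ mA := by rw [← hI]; exact a.2
      refine ⟨mA.toCotangent ⟨a.1, ha⟩, ?_⟩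
      apply he₁inj
      rw [← hx, hφdef, Ideal.mapCotangent_toCotangent, Ideal.mapCotangent_toCotangent]
      rfl
    · rintro ⟨x, rfl⟩
      obtain ⟨a, rfl⟩ := Ideal.toCotangent_surjective _ x
      have ha : a.1 ∈ I := by rw [hI]; exact a.2
      refine ⟨I.toCotangent ⟨a.1, ha⟩, ?_⟩
      rw [hφdef, Ideal.mapCotangent_toCotangent, Ideal.mapCotangent_toCotangent]
      rfl
  -- finite dimensionality over k
  have : IsNoetherian B mB := inferInstance
  have : Module.Finite B mB := Module.IsNoetherian.finite B mB
  have hfinB : Module.Finite B mB.Cotangent :=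
    Module.Finite.of_surjective mB.toCotangent mB.toCotangent_surjective
  have hfinV : Module.Finite k mB.Cotangent := by
    obtain ⟨s, hs⟩ := hfinB.fg_top
    refine ⟨⟨s, ?_⟩⟩
    rw [eq_top_iff]
    rintro v -
    have hv : v ∈ Submodule.span B (s : Set mB.Cotangent) := by rw [hs]; trivial
    induction hv using Submodule.span_induction with
    | mem x hx => exact Submodule.subset_span hx
    | zero => exact zero_mem _
    | add x y _ _ hx hy => exact add_mem hx hy
    | smul b x _ hx =>
      obtain ⟨a, ha⟩ := hB.2 (IsLocalRing.residue B b)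
      have hm : b - algebraMap k B a ∈ mB := by
        rw [← IsLocalRing.residue_eq_zero_iff, map_sub, ← ha,
          IsScalarTower.algebraMap_apply k B κ a]
        exact sub_self _
      have h1 : (b - algebraMap k B a) • x = 0 := Ideal.Cotangent.smul_eq_zero_of_mem hm x
      rw [sub_smul, sub_eq_zero] at h1
      rw [h1, algebraMap_smul]
      exact Submodule.smul_mem _ a hx
  have hrn := LinearMap.finrank_range_add_finrank_ker ψk
  rw [LinearMap.range_eq_top.mpr hψk_surj, finrank_top, hker] at hrn
  -- finrank over κ = finrank over k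
  have hkκ : Module.finrank k κ = 1 := by
    rw [← (LinearEquiv.ofBijective (Algebra.linearMap k κ) hB).finrank_eq, Module.finrank_self]
  have htower := Module.finrank_mul_finrank k κ ((TensorProduct B κ (Ω[B⁄A])))
  rw [hkκ, one_mul] at htower
  rw [htower]
  exact hrn

end Groth.Agent.S14437
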