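import Groth.Statements.S14442
-- import your own Groth.Agent.* helpers here
import Mathlib.Tactic

set_option autoImplicit false
universe u
open GrNak

namespace Groth.Agent.S14442

/-- Let R be a commutative ℕ-graded ring with irrelevant ideal R_+ = ⊕_{i>0} R_i, M an ℕ-graded R-module
and N a graded submodule of M (closed under taking homogeneous components). If M = R_+ M + N then N
= M. (The published statement is for finitely generated ℤ-graded modules over a graded quotient of a
polynomial ring, whose degrees are then bounded below; stated here for non-negatively graded modules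
over any ℕ-graded commutative ring, where the same lowest-degree argument applies without finite
generation.) -/
theorem result {R : Type u} [CommRing R] {σ : Type u} [SetLike σ R] [AddSubmonoidClass σ R]
    (𝒜 : ℕ → σ) [GradedRing 𝒜]
    {M : Type u} [AddCommGroup M] [Module R M] {τ : Type u} [SetLike τ M] [AddSubmonoidClass τ M]
    (ℳ : ℕ → τ) [DirectSum.Decomposition ℳ] [SetLike.GradedSMul 𝒜 ℳ]
    (N : Submodule R M) (hN : ∀ x ∈ N, ∀ i : ℕ, (DirectSum.decompose ℳ x i : M) ∈ N)
    (h : (HomogeneousIdeal.irrelevant 𝒜).toIdeal • (⊤ : Submodule R M) ⊔ N = ⊤) :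
    N = ⊤ := by
  classical
  have hadd : ∀ (i : ℕ) (y z : M), (DirectSum.decompose ℳ (y + z) i : M) =
      (DirectSum.decompose ℳ y i : M) + (DirectSum.decompose ℳ z i : M) := by
    intro i y z
    rw [DirectSum.decompose_add, DirectSum.add_apply, AddMemClass.coe_add]
  have key : ∀ i : ℕ, ∀ m ∈ ℳ i, m ∈ N := by
    intro i
    induction i using Nat.strong_induction_on with
    | _ i ih =>
    intro m hm
    have hmtop : m ∈ (HomogeneousIdeal.irrelevant 𝒜).toIdeal • (⊤ : Submodule R M) ⊔ N := by
      rw [h]; trivial
    obtain ⟨a, ha, n, hn, hmn⟩ := Submodule.mem_sup.mp hmtop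
    have hproj : (DirectSum.decompose ℳ m i : M) = m := DirectSum.decompose_of_mem_same ℳ hm
    rw [← hproj, ← hmn, hadd]
    refine N.add_mem ?_ (hN n hn i)
    refine Submodule.smul_induction_on (p := fun a => (DirectSum.decompose ℳ a i : M) ∈ N) ha ?_ ?_
    · intro r hr x _
      have hr0 : (DirectSum.decompose 𝒜 r 0 : R) = 0 := hr
      rw [← DirectSum.sum_support_decompose 𝒜 r, ← DirectSum.sum_support_decompose ℳ x,
        Finset.sum_smul, DirectSum.decompose_sum, DFinsupp.finsetSum_apply,
        AddSubmonoidClass.coe_finsetSum]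
      refine N.sum_mem fun k _ => ?_
      rw [Finset.smul_sum, DirectSum.decompose_sum, DFinsupp.finsetSum_apply,
        AddSubmonoidClass.coe_finsetSum]
      refine N.sum_mem fun l _ => ?_
      have hmem : (DirectSum.decompose 𝒜 r k : R) • (DirectSum.decompose ℳ x l : M) ∈ ℳ (k + l) :=
        SetLike.GradedSMul.smul_mem (DirectSum.decompose 𝒜 r k).2 (DirectSum.decompose ℳ x l).2
      by_cases hkl : k + l = i
      · rw [← hkl, DirectSum.decompose_of_mem_same ℳ hmem]
        rcases Nat.eq_zero_or_pos k with hk | hk
        · subst hk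
          rw [hr0, zero_smul]
          exact N.zero_mem
        · exact N.smul_mem _ (ih l (by omega) _ (DirectSum.decompose ℳ x l).2)
      · rw [DirectSum.decompose_of_mem_ne ℳ hmem hkl]
        exact N.zero_mem
    · intro y z hy hz
      rw [hadd]
      exact N.add_mem hy hz
  rw [eq_top_iff]
  intro x _
  rw [← DirectSum.sum_support_decompose ℳ x]
  exact N.sum_mem fun l _ => key l _ (DirectSum.decompose ℳ x l).2

end Groth.Agent.S14442
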