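import Groth.Statements.S14478
-- import your own Groth.Agent.* helpers here
import Mathlib.Tactic
import Groth.Agent.Lib.Helper21.LinAlg
import Groth.Agent.Lib.Helper21.CommonCompl

set_option autoImplicit false
universe u
open CharCyc

namespace Groth.Agent.S14478

/-- Let V be a finite-dimensional vector space over a field k, let W = V × V^∨ with V^∨ the dual space,
and let T ⊆ W be a subspace with dim T = dim V; put V₁ = V ∩ T, where V sits in W as V × 0. Then
there is a complement V₂ of V₁ in V with the following property: for every injective linear map A₁ :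
V₁ → V₁^∨, the map A : V → V^∨ extending A₁ by zero along the decompositions V = V₁ ⊕ V₂ and V^∨ =
V₁^∨ ⊕ V₂^∨ (so A v = A₁(p v) ∘ p, with p : V → V₁ the projection along V₂) has graph Γ ⊆ W with Γ ∩
T = 0. -/
theorem result (k V : Type u) [Field k] [AddCommGroup V] [Module k V]
    [FiniteDimensional k V] (T : Submodule k (V × Module.Dual k V))
    (hT : Module.finrank k T = Module.finrank k V) :
    ∃ (V₂ : Submodule k V) (h : IsCompl (T.comap (LinearMap.inl k V (Module.Dual k V))) V₂),
      ∀ A₁ : T.comap (LinearMap.inl k V (Module.Dual k V)) →ₗ[k]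
          Module.Dual k (T.comap (LinearMap.inl k V (Module.Dual k V))),
        Function.Injective A₁ →
          LinearMap.graph ((Submodule.projectionOnto _ V₂ h).dualMap ∘ₗ A₁ ∘ₗ
              Submodule.projectionOnto _ V₂ h) ⊓ T = ⊥ := by
  classical
  set V₁ := T.comap (LinearMap.inl k V (Module.Dual k V)) with hV₁
  set U := T.map (LinearMap.snd k V (Module.Dual k V)) with hU
  set W := U.dualCoannihilator with hW
  have hdimU : Module.finrank k U + Module.finrank k V₁ ≤ Module.finrank k V := by
    let f := (LinearMap.snd k V (Module.Dual k V)).domRestrict T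
    have h1 := LinearMap.finrank_range_add_finrank_ker (K := k) (V := T) (V₂ := Module.Dual k V) f
    have hr : LinearMap.range f = U := by
      rw [LinearMap.range_domRestrict]
    let g : V₁ →ₗ[k] LinearMap.ker f :=
      { toFun := fun v => ⟨⟨(v.1, 0), v.2⟩, by simp [f]⟩
        map_add' := by intro a b; ext <;> simp
        map_smul' := by intro c a; ext <;> simp }
    have hg : Function.Injective g := by
      intro a b hab
      have := congrArg (fun z => (z.1.1).1) hab
      exact Subtype.ext this
    have h2 := LinearMap.finrank_le_finrank_of_injective hg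
    rw [hr] at h1
    omega
  have hdimW : Module.finrank k W = Module.finrank k V - Module.finrank k U := by
    rw [hW, Subspace.finrank_dualCoannihilator_eq]
    have := Subspace.finrank_add_finrank_dualAnnihilator_eq U
    rw [Subspace.dual_finrank_eq] at this
    omega
  obtain ⟨W', -, hW'W, hW'd⟩ := Groth.Agent.Lib.Helper21.LinAlg.exists_between_finrank_eq ⊥ W
    bot_le (Module.finrank k V₁) (by simp) (by omega)
  obtain ⟨V₂, h1, h2⟩ :=
    Groth.Agent.Lib.Helper21.CommonCompl.exists_common_isCompl V₁ W' hW'd.symm
  refine ⟨V₂, h1, fun A₁ hA₁ => ?_⟩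
  rw [eq_bot_iff]
  intro x hx
  obtain ⟨v, φ⟩ := x
  rw [Submodule.mem_inf, LinearMap.mem_graph_iff] at hx
  obtain ⟨hgr, hT'⟩ := hx
  simp only at hgr
  set p := Submodule.projectionOnto V₁ V₂ h1 with hp
  have hφ0 : φ = 0 := by
    have hφV₂ : ∀ w ∈ V₂, φ w = 0 := by
      intro w hw
      rw [hgr]
      simp [p, LinearMap.dualMap_apply, Submodule.projectionOnto_apply_of_mem_right h1 hw]
    have hφW : ∀ w ∈ W', φ w = 0 := by
      intro w hw
      exact (Submodule.mem_dualCoannihilator w).1 (hW'W hw) φ ⟨(v, φ), hT', rfl⟩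
    refine LinearMap.ext fun w => ?_
    have hw : w ∈ W' ⊔ V₂ := by rw [h2.sup_eq_top]; trivial
    obtain ⟨a, ha, b, hb, rfl⟩ := Submodule.mem_sup.1 hw
    simp [hφW a ha, hφV₂ b hb]
  have hpv : p v = 0 := by
    apply hA₁
    rw [map_zero]
    refine LinearMap.ext fun u => ?_
    have := congrArg (fun ψ : Module.Dual k V => ψ (u : V)) (hgr.symm.trans hφ0)
    simp only [LinearMap.comp_apply, LinearMap.dualMap_apply, LinearMap.zero_apply] at this
    rw [hp, Submodule.projectionOnto_apply_left] at this
    rw [LinearMap.zero_apply]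
    exact this
  have hvV₂ : v ∈ V₂ := (Submodule.projectionOnto_apply_eq_zero_iff h1).1 hpv
  have hvV₁ : v ∈ V₁ := by
    show LinearMap.inl k V (Module.Dual k V) v ∈ T
    rw [LinearMap.inl_apply, ← hφ0]
    exact hT'
  have : v ∈ V₁ ⊓ V₂ := ⟨hvV₁, hvV₂⟩
  rw [h1.inf_eq_bot, Submodule.mem_bot] at this
  rw [Submodule.mem_bot, this, hφ0]
  rfl

end Groth.Agent.S14478
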