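import Groth.Statements.S14479
-- import your own Groth.Agent.* helpers here
import Mathlib.Tactic

set_option autoImplicit false
universe u
open CharCyc

namespace Groth.Agent.S14479

/-- Let V be a finite-dimensional vector space over a field k. If dim V is even or the characteristic of
k is different from 2, there is a bilinear form B on V such that the bilinear form (v, w) ↦ B(v, w)
+ B(w, v) (B plus its transpose, as a map V → V^∨) is nondegenerate. -/
theorem result (k V : Type u) [Field k] [AddCommGroup V] [Module k V]
    [FiniteDimensional k V] (h : Even (Module.finrank k V) ∨ ringChar k ≠ 2) :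
    ∃ B : LinearMap.BilinForm k V, (B + B.flip).Nondegenerate := by
  classical
  -- general recipe: from a basis and a matrix whose symmetrisation has nonzero determinant
  have recipe : ∀ {ι : Type} [Fintype ι] [DecidableEq ι] (b : Module.Basis ι k V) (M : Matrix ι ι k),
      (M + M.transpose).det ≠ 0 → ∃ B : LinearMap.BilinForm k V, (B + B.flip).Nondegenerate := by
    intro ι _ _ b M hM
    refine ⟨Matrix.toBilin b M, ?_⟩
    refine LinearMap.BilinForm.nondegenerate_of_det_ne_zero _ b ?_
    have happ : ∀ i j, (Matrix.toBilin b M) (b i) (b j) = M i j := by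
      intro i j
      rw [← LinearMap.BilinForm.toMatrix_apply, LinearMap.BilinForm.toMatrix_toBilin]
    have : LinearMap.BilinForm.toMatrix b (Matrix.toBilin b M + (Matrix.toBilin b M).flip) =
        M + M.transpose := by
      ext i j
      rw [LinearMap.BilinForm.toMatrix_apply]
      simp only [LinearMap.add_apply, happ, Matrix.add_apply, Matrix.transpose_apply]
      rw [LinearMap.BilinForm.flip_apply, happ]
    rw [this]
    exact hM
  rcases h with ⟨m, hm⟩ | h2
  · let b : Module.Basis (Fin m ⊕ Fin m) k V :=
      (Module.finBasisOfFinrankEq k V hm).reindex finSumFinEquiv.symm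
    refine recipe b (Matrix.fromBlocks 0 1 0 0) ?_
    have hJ : (Matrix.fromBlocks 0 1 0 0 + (Matrix.fromBlocks 0 1 0 0).transpose :
        Matrix (Fin m ⊕ Fin m) (Fin m ⊕ Fin m) k) = Matrix.fromBlocks 0 1 1 0 := by
      rw [Matrix.fromBlocks_transpose, Matrix.fromBlocks_add]
      simp
    rw [hJ]
    intro h0
    have hsq : (Matrix.fromBlocks 0 1 1 0 : Matrix (Fin m ⊕ Fin m) (Fin m ⊕ Fin m) k) *
        Matrix.fromBlocks 0 1 1 0 = 1 := by
      rw [Matrix.fromBlocks_multiply]
      simp [Matrix.fromBlocks_one]
    have := congrArg Matrix.det hsq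
    rw [Matrix.det_mul, h0, zero_mul, Matrix.det_one] at this
    exact zero_ne_one this
  · let b := Module.finBasis k V
    refine recipe b 1 ?_
    rw [Matrix.transpose_one, ← two_smul k (1 : Matrix _ _ k), Matrix.det_smul, Matrix.det_one,
      mul_one]
    exact pow_ne_zero _ (Ring.two_ne_zero h2)

end Groth.Agent.S14479
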