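import Groth.Statements.S14491
-- import your own Groth.Agent.* helpers here

set_option autoImplicit false
universe w v u
open DerTri

namespace Groth.Agent.S14491

open CategoryTheory Pretriangulated in
/-- In the derived category D(C) of an abelian category C, let E ⟶ F ⟶ G be two morphisms with E
concentrated in non-positive degrees and G concentrated in non-negative degrees for the canonical
t-structure. If two morphisms G ⟶ E⟦1⟧ both complete E ⟶ F ⟶ G to a distinguished triangle, then
they are equal. (The published statement is phrased with the morphism G⟦-1⟧ ⟶ E of the triangle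
G⟦-1⟧ ⟶ E ⟶ F ⟶ G; this row uses the equivalent connecting morphism G ⟶ E⟦1⟧ of the rotated
triangle.) -/
theorem result {C : Type u} [Category.{v} C] [Abelian C]
    [HasDerivedCategory.{w} C] {E F G : DerivedCategory C} (u : E ⟶ F) (v : F ⟶ G)
    [E.IsLE 0] [G.IsGE 0] (w w' : G ⟶ E⟦(1 : ℤ)⟧)
    (hw : Triangle.mk u v w ∈ distTriang (DerivedCategory C))
    (hw' : Triangle.mk u v w' ∈ distTriang (DerivedCategory C)) :
    w = w' := by
  obtain ⟨c, hc1, hc2⟩ : ∃ c : G ⟶ G, v ≫ c = 𝟙 F ≫ v ∧ w ≫ (𝟙 E)⟦(1 : ℤ)⟧' = c ≫ w' :=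
    Pretriangulated.complete_distinguished_triangle_morphism _ _ hw hw'
      (𝟙 E) (𝟙 F) ((Category.comp_id u).trans (Category.id_comp u).symm)
  rw [CategoryTheory.Functor.map_id, Category.comp_id] at hc2
  rw [Category.id_comp] at hc1
  have h0 : v ≫ (c - 𝟙 G) = 0 := by
    rw [Preadditive.comp_sub, hc1, Category.comp_id, sub_self]
  obtain ⟨g, hg⟩ : ∃ g : E⟦(1:ℤ)⟧ ⟶ G, c - 𝟙 G = w ≫ g :=
    Triangle.yoneda_exact₃ _ hw (c - 𝟙 G) h0
  have hE1 : DerivedCategory.TStructure.t.IsLE (E⟦(1:ℤ)⟧) (-1) :=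
    DerivedCategory.TStructure.t.isLE_shift E 0 1 (-1)
  have hg0 : g = 0 := DerivedCategory.TStructure.t.zero g (-1) 0
  rw [hg0, Limits.comp_zero, sub_eq_zero] at hg
  rw [hc2, hg, Category.id_comp]

end Groth.Agent.S14491
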