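import Groth.Statements.S14511
import Mathlib.Algebra.BigOperators.Group.Finset.Powerset
import Mathlib.Algebra.BigOperators.Finsupp.Basic
-- import your own Groth.Agent.* helpers here

set_option autoImplicit false
universe u
open CAlgX

namespace Groth.Agent.S14511

/-- Let R be a commutative ring and P ∈ R[x_1, …, x_r] a polynomial of total degree at most r. Then the
coefficient of the monomial x_1 ⋯ x_r in P equals Σ_J (−1)^{|J|} P(δ_J), the sum over all subsets J
⊆ {1, …, r} (the empty one included), where δ_J is the point with coordinate −1 at the indices in J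
and 0 at the others. -/
theorem result (R : Type u) [CommRing R] (r : ℕ)
    (P : MvPolynomial (Fin r) R) (hP : P.totalDegree ≤ r) :
    MvPolynomial.coeff (∑ i : Fin r, Finsupp.single i 1) P =
      ∑ J : Finset (Fin r), (-1 : R) ^ J.card * MvPolynomial.eval (fun j => if j ∈ J then (-1 : R) else 0) P := by
  classical
  set one : Fin r →₀ ℕ := ∑ i : Fin r, Finsupp.single i 1 with hone
  have hone_apply : ∀ j, one j = 1 := by
    intro j
    simp [one, Finsupp.finsetSum_apply, Finsupp.single_apply]
  set δ : Finset (Fin r) → Fin r → R := fun J j => if j ∈ J then (-1 : R) else 0 with hδ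
  have key : ∀ d : Fin r →₀ ℕ, (∑ j, d j) ≤ r →
      ∑ J : Finset (Fin r), (-1 : R) ^ J.card * ∏ j, (δ J j) ^ d j
        = if d = one then 1 else 0 := by
    intro d hd
    by_cases h0 : ∃ j0, d j0 = 0
    · obtain ⟨j0, hj0⟩ := h0
      have hne : d ≠ one := by
        intro h
        have := hone_apply j0
        rw [← h, hj0] at this
        exact absurd this (by norm_num)
      rw [if_neg hne]
      have huniv : (Finset.univ : Finset (Finset (Fin r)))
          = (insert j0 (Finset.univ.erase j0)).powerset := by
        rw [Finset.insert_erase (Finset.mem_univ j0), Finset.powerset_univ]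
      rw [huniv, Finset.sum_powerset_insert (Finset.notMem_erase j0 _)]
      rw [← Finset.sum_add_distrib]
      apply Finset.sum_eq_zero
      intro t ht
      have hj0t : j0 ∉ t := by
        intro h
        have := Finset.mem_powerset.mp ht h
        simp at this
      have hg : ∏ j, (δ (insert j0 t) j) ^ d j = ∏ j, (δ t j) ^ d j := by
        apply Finset.prod_congr rfl
        intro j _
        by_cases hj : j = j0
        · subst hj
          rw [hj0, pow_zero, pow_zero]
        · simp [δ, Finset.mem_insert, hj]
      rw [hg, Finset.card_insert_of_notMem hj0t, pow_succ]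
      ring
    · push Not at h0
      have hd1 : ∀ j, d j = 1 := by
        have hle : ∀ j ∈ (Finset.univ : Finset (Fin r)), 1 ≤ d j := fun j _ =>
          Nat.one_le_iff_ne_zero.mpr (h0 j)
        have hsum : ∑ j : Fin r, (1 : ℕ) = ∑ j, d j := by
          apply le_antisymm (Finset.sum_le_sum hle)
          simpa using hd
        have := (Finset.sum_eq_sum_iff_of_le hle).mp hsum
        intro j
        exact (this j (Finset.mem_univ j)).symm
      have hdone : d = one := Finsupp.ext fun j => by rw [hd1, hone_apply]
      rw [if_pos hdone]
      have hprod : ∀ J : Finset (Fin r), ∏ j, (δ J j) ^ d j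
          = if J = Finset.univ then (-1 : R) ^ r else 0 := by
        intro J
        simp only [hd1, pow_one]
        split_ifs with hJ
        · subst hJ
          simp [δ]
        · obtain ⟨j, hj⟩ : ∃ j, j ∉ J := by
            by_contra hc
            push Not at hc
            exact hJ (Finset.eq_univ_of_forall hc)
          exact Finset.prod_eq_zero (Finset.mem_univ j) (by simp [δ, hj])
      simp only [hprod, mul_ite, mul_zero]
      rw [Finset.sum_ite_eq' Finset.univ Finset.univ, if_pos (Finset.mem_univ _)]
      rw [Finset.card_univ, Fintype.card_fin, ← mul_pow]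
      simp
  conv_lhs => rw [P.as_sum]
  conv_rhs => rw [P.as_sum]
  simp only [map_sum, MvPolynomial.coeff_sum, MvPolynomial.coeff_monomial,
    MvPolynomial.eval_monomial, Finset.mul_sum]
  rw [Finset.sum_comm]
  apply Finset.sum_congr rfl
  intro d hd
  have hdeg : (∑ j, d j) ≤ r := by
    have h1 := MvPolynomial.le_totalDegree hd
    rw [Finsupp.sum_fintype _ _ (fun _ => rfl)] at h1
    exact h1.trans hP
  have hk := key d hdeg
  have : ∀ J : Finset (Fin r),
      (-1 : R) ^ J.card * (MvPolynomial.coeff d P *
        d.prod fun n e => (if n ∈ J then (-1 : R) else 0) ^ e)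
      = MvPolynomial.coeff d P * ((-1 : R) ^ J.card * ∏ j, (δ J j) ^ d j) := by
    intro J
    rw [Finsupp.prod_fintype _ _ (fun _ => pow_zero _)]
    ring
  simp only [this]
  rw [← Finset.mul_sum, hk]
  split_ifs <;> simp

end Groth.Agent.S14511
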