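import Groth.Statements.S1458
import Mathlib.LinearAlgebra.TensorProduct.RightExactness
import Mathlib.LinearAlgebra.TensorProduct.Pi
import Mathlib.RingTheory.Finiteness.ModuleFinitePresentation
-- import your own Groth.Agent.* helpers here

set_option autoImplicit false
universe u
open FlatMor

namespace Groth.Agent.S1458

section aux

open TensorProduct

variable {A B : Type u} [CommRing A] [CommRing B] [Algebra A B]

/-- Vanishing criterion for `∑ f(e_l) ⊗ z_l` in `B ⊗ X` given a right exact presentation. -/
theorem crit {n m : ℕ} (f : (Fin n → A) →ₗ[A] B) (g : (Fin m → A) →ₗ[A] (Fin n → A))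
    (hf : Function.Surjective f) (hfg : Function.Exact g f)
    {X : Type u} [AddCommGroup X] [Module A X] (z : Fin n → X)
    (hz : ∑ l, f (Pi.single l 1) ⊗ₜ[A] z l = 0) :
    ∃ y : Fin m → X, ∀ l, z l = ∑ k, g (Pi.single k 1) l • y k := by
  classical
  have hex' := lTensor_exact X hfg hf
  have hT : f.lTensor X (∑ l, z l ⊗ₜ[A] (Pi.single l (1 : A) : Fin n → A)) = 0 := by
    rw [map_sum]
    simp only [LinearMap.lTensor_tmul]
    have := congrArg (TensorProduct.comm A B X) hz
    simpa only [map_sum, TensorProduct.comm_tmul, map_zero] using this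
  obtain ⟨τ, hτ⟩ := (hex' _).mp hT
  refine ⟨TensorProduct.piScalarRight A A X (Fin m) τ, fun l => ?_⟩
  have h2 := congrArg (fun w => TensorProduct.piScalarRight A A X (Fin n) w l) hτ
  have key : ∀ w : X ⊗[A] (Fin m → A),
      TensorProduct.piScalarRight A A X (Fin n) (g.lTensor X w) l =
        ∑ k, g (Pi.single k 1) l • TensorProduct.piScalarRight A A X (Fin m) w k := by
    intro w
    induction w using TensorProduct.induction_on with
    | zero => simp
    | tmul x v =>
      simp only [LinearMap.lTensor_tmul, TensorProduct.piScalarRight_apply,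
        TensorProduct.piScalarRightHom_tmul]
      have hv : v = ∑ k, v k • (Pi.single k (1 : A) : Fin m → A) := by
        ext k'; simp [Pi.single_apply]
      conv_lhs => rw [hv]
      simp only [map_sum, map_smul, Finset.sum_apply, Pi.smul_apply, smul_eq_mul]
      rw [Finset.sum_smul]
      refine Finset.sum_congr rfl fun k _ => ?_
      rw [mul_comm, mul_smul]
    | add w w' hw hw' =>
      simp only [map_add, Pi.add_apply, hw, hw', smul_add, Finset.sum_add_distrib]
  rw [key] at h2
  rw [h2]
  simp only [map_sum, TensorProduct.piScalarRight_apply, TensorProduct.piScalarRightHom_tmul,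
    Finset.sum_apply, Pi.single_apply]
  simp

end aux


section coords

open TensorProduct

variable {A B : Type u} [CommRing A] [CommRing B] [Algebra A B]

/-- The element `∑ b_l ⊗ a_l`. -/
noncomputable def E {n : ℕ} (b : Fin n → B) {T : Type u} [CommRing T] [Algebra A T]
    (a : Fin n → T) : B ⊗[A] T :=
  ∑ l, b l ⊗ₜ[A] a l

variable {n : ℕ} (b : Fin n → B) {T : Type u} [CommRing T] [Algebra A T]

theorem E_add (a a' : Fin n → T) : E (A := A) b (a + a') = E b a + E b a' := by
  simp only [E, Pi.add_apply, tmul_add, Finset.sum_add_distrib]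

theorem E_sub (a a' : Fin n → T) : E (A := A) b (a - a') = E b a - E b a' := by
  simp only [E, Pi.sub_apply, tmul_sub, Finset.sum_sub_distrib]

theorem E_mul (c : Fin n → Fin n → Fin n → A) (hc : ∀ i j, b i * b j = ∑ l, c i j l • b l)
    (a : Fin n → T) :
    E (A := A) b a * E b a = E b (fun l => ∑ i, ∑ j, algebraMap A T (c i j l) * (a i * a j)) := by
  simp only [E, Finset.sum_mul, Finset.mul_sum, Algebra.TensorProduct.tmul_mul_tmul, hc,
    sum_tmul, tmul_sum]
  simp only [smul_tmul, ← Algebra.smul_def]
  conv_lhs => enter [2, j]; rw [Finset.sum_comm]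
  rw [Finset.sum_comm]
  refine Finset.sum_congr rfl fun l _ => ?_
  rw [Finset.sum_comm]

theorem E_map {T' : Type u} [CommRing T'] [Algebra A T'] (φ : T →ₐ[A] T') (a : Fin n → T) :
    Algebra.TensorProduct.map (AlgHom.id A B) φ (E (A := A) b a) = E b (fun l => φ (a l)) := by
  simp only [E, map_sum, Algebra.TensorProduct.map_tmul, AlgHom.id_apply]

theorem E_rel {m : ℕ} (r : Fin m → Fin n → A) (hr : ∀ k, ∑ l, r k l • b l = 0) (y : Fin m → T) :
    E (A := A) b (fun l => ∑ k, algebraMap A T (r k l) * y k) = 0 := by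
  simp only [E, tmul_sum, ← Algebra.smul_def]
  rw [Finset.sum_comm]
  refine Finset.sum_eq_zero fun k _ => ?_
  simp only [← smul_tmul]
  rw [← sum_tmul, hr k, zero_tmul]

theorem E_surj (hb : ∀ x : B, ∃ v : Fin n → A, x = ∑ l, v l • b l) (t : B ⊗[A] T) :
    ∃ a : Fin n → T, t = E (A := A) b a := by
  induction t using TensorProduct.induction_on with
  | zero => exact ⟨0, by simp [E]⟩
  | tmul x w =>
    obtain ⟨v, rfl⟩ := hb x
    refine ⟨fun l => v l • w, ?_⟩
    simp only [E, sum_tmul, smul_tmul]
  | add t t' ht ht' =>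
    obtain ⟨a, rfl⟩ := ht
    obtain ⟨a', rfl⟩ := ht'
    exact ⟨a + a', (E_add b a a').symm⟩

end coords

open TensorProduct in
/-- Let A → B be a finite ring map of finite presentation. Then there are a finitely presented A-algebra
A_u and an idempotent e_u of B ⊗_A A_u such that for every A-algebra A' and every idempotent e of B
⊗_A A' there is an A-algebra map A_u → A' whose induced map B ⊗ A_u → B ⊗ A' sends e_u to e. -/
theorem result {A B : Type u} [CommRing A] [CommRing B] [Algebra A B] [Module.Finite A B] [Algebra.FinitePresentation A B] :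
    ∃ (Au : Type u) (_ : CommRing Au) (_ : Algebra A Au) (eu : B ⊗[A] Au), Algebra.FinitePresentation A Au ∧ IsIdempotentElem eu ∧
      ∀ (A' : Type u) [CommRing A'] [Algebra A A'] (e : B ⊗[A] A'), IsIdempotentElem e →
        ∃ φ : Au →ₐ[A] A', Algebra.TensorProduct.map (AlgHom.id A B) φ eu = e := by
  classical
  have : Module.FinitePresentation A B :=
    (Module.FinitePresentation.iff_finitePresentation_of_finite A B).mpr inferInstance
  obtain ⟨n, m, f, g, hf, hfg⟩ := Module.FinitePresentation.exists_fin' A B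
  set b : Fin n → B := fun l => f (Pi.single l 1) with hb_def
  have hfv : ∀ v : Fin n → A, f v = ∑ l, v l • b l := by
    intro v
    conv_lhs => rw [show v = ∑ l, v l • (Pi.single l (1 : A) : Fin n → A) by
      ext k'; simp [Pi.single_apply]]
    simp only [map_sum, map_smul, hb_def]
  have hbsp : ∀ x : B, ∃ v : Fin n → A, x = ∑ l, v l • b l := by
    intro x
    obtain ⟨v, rfl⟩ := hf x
    exact ⟨v, hfv v⟩
  choose c hc using fun i j => hf (b i * b j)
  have hc' : ∀ i j, b i * b j = ∑ l, c i j l • b l := fun i j => by rw [← hc i j, hfv]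
  set r : Fin m → Fin n → A := fun k => g (Pi.single k 1) with hr_def
  have hr : ∀ k, ∑ l, r k l • b l = 0 := by
    intro k
    rw [← hfv]
    exact hfg.apply_apply_eq_zero _
  let rel : Fin n → MvPolynomial (Fin n ⊕ Fin m) A := fun l =>
    ∑ i, ∑ j, MvPolynomial.C (c i j l) * (MvPolynomial.X (Sum.inl i) * MvPolynomial.X (Sum.inl j))
      - MvPolynomial.X (Sum.inl l) - ∑ k, MvPolynomial.C (r k l) * MvPolynomial.X (Sum.inr k)
  let J : Ideal (MvPolynomial (Fin n ⊕ Fin m) A) := Ideal.span (Set.range rel)
  have hJ : J.FG := Submodule.fg_span (Set.finite_range rel)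
  refine ⟨MvPolynomial (Fin n ⊕ Fin m) A ⧸ J, inferInstance, inferInstance,
    E (A := A) b (fun l => Ideal.Quotient.mk J (MvPolynomial.X (Sum.inl l))),
    Algebra.FinitePresentation.quotient hJ, ?_, ?_⟩
  · -- idempotent
    have hrel : ∀ l, (Ideal.Quotient.mk J) (rel l) = 0 :=
      fun l => Ideal.Quotient.eq_zero_iff_mem.mpr (Ideal.subset_span ⟨l, rfl⟩)
    unfold IsIdempotentElem
    rw [E_mul b c hc']
    have hq : (fun l => ∑ i, ∑ j, algebraMap A (MvPolynomial (Fin n ⊕ Fin m) A ⧸ J) (c i j l) *
        ((Ideal.Quotient.mk J) (MvPolynomial.X (Sum.inl i)) *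
        (Ideal.Quotient.mk J) (MvPolynomial.X (Sum.inl j)))) =
        (fun l => (Ideal.Quotient.mk J) (MvPolynomial.X (Sum.inl l))) +
          (fun l => ∑ k, algebraMap A (MvPolynomial (Fin n ⊕ Fin m) A ⧸ J) (r k l) *
            (Ideal.Quotient.mk J) (MvPolynomial.X (Sum.inr k))) := by
      funext l
      have h := hrel l
      have e1 : ∀ x : A, Ideal.Quotient.mk J (MvPolynomial.C x) = algebraMap A (MvPolynomial (Fin n ⊕ Fin m) A ⧸ J) x := by
        intro x
        rw [← MvPolynomial.algebraMap_eq, Ideal.Quotient.mk_algebraMap]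
      simp only [rel, map_sub, map_sum, map_mul, e1] at h
      simp only [Pi.add_apply]
      linear_combination h
    rw [hq, E_add, E_rel b r hr, add_zero]
  · intro A' _ _ e he
    obtain ⟨a, rfl⟩ := E_surj b hbsp e
    unfold IsIdempotentElem at he
    rw [E_mul b c hc'] at he
    have h0 := congrArg (fun t => t - E (A := A) b a) he
    simp only [sub_self] at h0
    rw [← E_sub] at h0
    obtain ⟨y, hy⟩ := crit f g hf hfg _ h0
    let φ₀ : MvPolynomial (Fin n ⊕ Fin m) A →ₐ[A] A' := MvPolynomial.aeval (Sum.elim a y)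
    have hφ₀ : ∀ x ∈ J, φ₀ x = 0 := by
      intro x hx
      refine Submodule.span_induction ?_ ?_ ?_ ?_ hx
      · rintro _ ⟨l, rfl⟩
        have hyl := hy l
        have e2 : φ₀ (rel l) = (∑ i, ∑ j, algebraMap A A' (c i j l) * (a i * a j)) - a l -
            ∑ k, algebraMap A A' (r k l) * y k := by
          simp [rel, φ₀]
        rw [e2]
        simp only [Pi.sub_apply] at hyl
        rw [hyl]
        simp only [hr_def, Algebra.smul_def, sub_self]
      · exact map_zero _
      · intro x y _ _ hx hy
        rw [map_add, hx, hy, add_zero]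
      · intro x y _ hy
        rw [smul_eq_mul, map_mul, hy, mul_zero]
    refine ⟨Ideal.Quotient.liftₐ J φ₀ hφ₀, ?_⟩
    rw [E_map]
    congr 1
    funext l
    show φ₀ (MvPolynomial.X (Sum.inl l)) = a l
    simp [φ₀]

end Groth.Agent.S1458
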