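import Groth.Statements.S1460
import Mathlib.RingTheory.Extension.Presentation.Core
-- import your own Groth.Agent.* helpers here

set_option autoImplicit false
universe u
open FlatMor

namespace Groth.Agent.S1460

open AlgebraicGeometry CategoryTheory Limits
open scoped TensorProduct

attribute [local instance] Algebra.TensorProduct.rightAlgebra in
theorem pushout_aux (R₀ R M A : Type u) [CommRing R₀] [CommRing R] [CommRing M] [CommRing A]
    [Algebra R₀ R] [Algebra R₀ M] [Algebra R A] [Algebra R₀ A] [IsScalarTower R₀ R A]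
    (e : R ⊗[R₀] M ≃ₐ[R] A) :
    ∃ (_ : Algebra M A) (_ : IsScalarTower R₀ M A), Algebra.IsPushout R₀ R M A := by
  let alg : Algebra M A := (e.toRingHom.comp (algebraMap M (R ⊗[R₀] M))).toAlgebra
  have tower : IsScalarTower R₀ M A := by
    refine IsScalarTower.of_algebraMap_eq fun r => ?_
    change algebraMap R₀ A r = e ((1 : R) ⊗ₜ[R₀] algebraMap R₀ M r)
    rw [← Algebra.TensorProduct.algebraMap_apply',
      IsScalarTower.algebraMap_apply R₀ R (R ⊗[R₀] M),
      AlgEquiv.commutes, ← IsScalarTower.algebraMap_apply]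
  exact ⟨alg, tower, Algebra.IsPushout.of_equiv (R := R₀) (R' := R) (S := M)
    (S' := R ⊗[R₀] M) e rfl⟩

theorem ring_version (R A : Type u) [CommRing R] [CommRing A] [Algebra R A]
    [Algebra.FinitePresentation R A] :
    ∃ (R₀ : Type u) (_ : CommRing R₀) (A₀ : Type u) (_ : CommRing A₀) (_ : Algebra R₀ A₀)
      (_ : Algebra R₀ R) (_ : Algebra A₀ A) (_ : Algebra R₀ A) (_ : IsScalarTower R₀ A₀ A)
      (_ : IsScalarTower R₀ R A),
      Algebra.IsPushout R₀ R A₀ A ∧ Algebra.FiniteType ℤ R₀ ∧ Algebra.FiniteType R₀ A₀ := by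
  let P := Algebra.Presentation.ofFinitePresentation R A
  obtain ⟨alg, tower, push⟩ := pushout_aux P.Core R (P.ModelOfHasCoeffs P.Core) A
    (P.tensorModelOfHasCoeffsEquiv P.Core)
  exact ⟨P.Core, inferInstance, P.ModelOfHasCoeffs P.Core, inferInstance, inferInstance,
    inferInstance, alg, inferInstance, tower, inferInstance, push, inferInstance, inferInstance⟩

theorem result {X S : Scheme.{u}} (f : X ⟶ S) [IsAffine X] [IsAffine S] [LocallyOfFinitePresentation f] :
    ∃ (X₀ S₀ : Scheme.{u}) (f₀ : X₀ ⟶ S₀) (g : S ⟶ S₀) (g' : X ⟶ X₀), IsAffine X₀ ∧ IsAffine S₀ ∧ IsPullback g' f f₀ g ∧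
      Algebra.FiniteType ℤ Γ(S₀, ⊤) ∧ LocallyOfFiniteType f₀ := by
  have hfp : (f.appTop).hom.FinitePresentation :=
    (HasRingHomProperty.iff_of_isAffine (P := @LocallyOfFinitePresentation)).mp inferInstance
  let := (f.appTop).hom.toAlgebra
  have : Algebra.FinitePresentation Γ(S, ⊤) Γ(X, ⊤) := hfp
  obtain ⟨R₀, _, A₀, _, _, _, _, _, _, _, hpush, hR₀, hA₀⟩ := ring_version Γ(S, ⊤) Γ(X, ⊤)
  have h1 := CommRingCat.isPushout_of_isPushout R₀ Γ(S, ⊤) A₀ Γ(X, ⊤)
  have h2 := (isPullback_SpecMap_of_isPushout _ _ _ _ h1).flip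
  refine ⟨Spec (CommRingCat.of A₀), Spec (CommRingCat.of R₀),
    Spec.map (CommRingCat.ofHom (algebraMap R₀ A₀)),
    S.isoSpec.hom ≫ Spec.map (CommRingCat.ofHom (algebraMap R₀ Γ(S, ⊤))),
    X.isoSpec.hom ≫ Spec.map (CommRingCat.ofHom (algebraMap A₀ Γ(X, ⊤))),
    inferInstance, inferInstance, ?_, ?_, ?_⟩
  · refine h2.of_iso X.isoSpec.symm (Iso.refl _) S.isoSpec.symm (Iso.refl _) ?_ ?_ ?_ ?_
    · simp
    · simp only [Iso.symm_hom]
      rw [← Scheme.isoSpec_inv_naturality]
      rfl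
    · simp
    · simp
  · have : Algebra.FiniteType ℤ (CommRingCat.of R₀) := hR₀
    exact Algebra.FiniteType.of_surjective
      ((Scheme.ΓSpecIso (CommRingCat.of R₀)).inv.hom.toIntAlgHom)
      (Scheme.ΓSpecIso (CommRingCat.of R₀)).commRingCatIsoToRingEquiv.symm.surjective
  · rw [HasRingHomProperty.Spec_iff (P := @LocallyOfFiniteType)]
    exact RingHom.finiteType_algebraMap.mpr hA₀

end Groth.Agent.S1460
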