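import Groth.Statements.S14615
-- import your own Groth.Agent.* helpers here

set_option autoImplicit false
universe u
open Formal2

namespace Groth.Agent.S14615

noncomputable def vseq (G : ℕ → Type u) [∀ n, AddCommGroup (G n)] (t : ∀ n, G (n + 1) →+ G n)
    (y : ∀ n, G n) : ℕ → (n : ℕ) → G n
  | 0, _ => 0
  | k + 1, n => y n + t n (vseq G t y k (n + 1))

/-- Let … → G_2 → G_1 → G_0 be an inverse system of abelian groups with transition maps t_n : G_{n+1} →
G_n, and suppose that for every i there is j ≥ i such that the composite transition map G_j → G_i is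
zero; this is expressed by asking that every sequence (x_n) ∈ ∏ G_n satisfying x_n = t_n(x_{n+1})
for i ≤ n < j has x_i = 0. Then both lim G_n and lim¹ G_n vanish: the map (x_n) ↦ (x_n −
t_n(x_{n+1})) on ∏ G_n, whose kernel is lim and whose cokernel is lim¹, is injective and surjective. -/
theorem result (G : ℕ → Type u)
    [∀ n, AddCommGroup (G n)] (t : ∀ n, G (n + 1) →+ G n)
    (h : ∀ i : ℕ, ∃ j : ℕ, i ≤ j ∧
      ∀ x : ∀ n, G n, (∀ n, i ≤ n → n < j → x n = t n (x (n + 1))) → x i = 0) :
    Formal2.limZero G t = ⊥ ∧ Function.Surjective (Formal2.towerDiff G t) := by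
  refine ⟨?_, ?_⟩
  · rw [eq_bot_iff]
    intro x hx
    rw [AddSubgroup.mem_bot]
    have hx' : ∀ n, x n = t n (x (n + 1)) := by
      intro n
      have := congrFun (AddMonoidHom.mem_ker.mp hx) n
      exact sub_eq_zero.mp this
    funext i
    obtain ⟨j, -, hj⟩ := h i
    exact hj x (fun n _ _ => hx' n)
  · intro y
    choose j hj1 hj2 using h
    have step : ∀ n K, j n - n ≤ K → vseq G t y (K + 1) n = vseq G t y K n := by
      intro n K hK
      have hx := hj2 n (fun m => vseq G t y (K + n + 1 - m) m - vseq G t y (K + n - m) m) (by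
        intro m hnm hmj
        obtain ⟨r, hr⟩ : ∃ r, K + n - m = r + 1 := ⟨K + n - m - 1, by omega⟩
        have e1 : K + n + 1 - m = r + 1 + 1 := by omega
        have e2 : K + n + 1 - (m + 1) = r + 1 := by omega
        have e3 : K + n - (m + 1) = r := by omega

        rw [e1, hr, e2, e3]
        simp only [vseq, map_sub]
        exact add_sub_add_left_eq_sub _ _ _)
      have e4 : K + n + 1 - n = K + 1 := by omega
      have e5 : K + n - n = K := by omega

      rw [e4, e5] at hx
      exact sub_eq_zero.mp hx
    have stab : ∀ n K, j n - n ≤ K → vseq G t y K n = vseq G t y (j n - n) n := by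
      intro n K hK
      induction K, hK using Nat.le_induction with
      | base => rfl
      | succ K hK ih => rw [step n K hK, ih]
    refine ⟨fun n => vseq G t y (j n - n) n, ?_⟩
    funext n
    have h1 := stab n (max (j n - n) (j (n+1) - (n+1)) + 1) (by omega)
    have h2 := stab (n + 1) (max (j n - n) (j (n+1) - (n+1))) (by omega)
    show vseq G t y (j n - n) n - t n (vseq G t y (j (n+1) - (n+1)) (n+1)) = y n
    rw [← h1, ← h2, vseq, add_sub_cancel_right]

end Groth.Agent.S14615
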