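import Groth.Statements.S14676
import Mathlib.RingTheory.Henselian
import Mathlib.Tactic.LinearCombination
-- import your own Groth.Agent.* helpers here

set_option autoImplicit false
universe u
open CAlg

namespace Groth.Agent.S14676

/-- Let A be a commutative ring which is separated and complete for the I-adic topology of an ideal I,
let P be any polynomial over A (not assumed monic) and a₀ an element of A such that P(a₀) lies in I
and P'(a₀) is a unit modulo I. Then there is a unique a in A congruent to a₀ modulo I with P(a) = 0. -/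
theorem result (A : Type u) [CommRing A] (I : Ideal A) [IsAdicComplete I A]
    (P : Polynomial A) (a₀ : A) (h₀ : P.eval a₀ ∈ I)
    (h₁ : IsUnit (Ideal.Quotient.mk I (P.derivative.eval a₀))) :
    ∃! a : A, a - a₀ ∈ I ∧ P.IsRoot a := by
  classical
  have hjac := IsAdicComplete.le_jacobson_bot I
  have hloc := isLocalHom_of_le_jacobson_bot I hjac
  have unit_of : ∀ x : A, IsUnit (Ideal.Quotient.mk I x) → IsUnit x :=
    fun x hx => IsUnit.of_map (Ideal.Quotient.mk I) x hx
  obtain ⟨a, ha_root, ha_mod⟩ : ∃ a : A, P.IsRoot a ∧ a - a₀ ∈ I := by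
    let f := P
    let f' := Polynomial.derivative f
    let c : ℕ → A := fun n => Nat.recOn n a₀ fun _ b => b - f.eval b * Ring.inverse (f'.eval b)
    have hc : ∀ n, c (n + 1) = c n - f.eval (c n) * Ring.inverse (f'.eval (c n)) := by
      intro n
      simp only [c]
    have hc_mod : ∀ n, c n ≡ a₀ [SMOD I] := by
      intro n
      induction n with
      | zero => rfl
      | succ n ih => ?_
      rw [hc, sub_eq_add_neg, ← add_zero a₀]
      refine ih.add ?_
      rw [SModEq.zero, Ideal.neg_mem_iff]
      refine I.mul_mem_right _ ?_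
      have h₀' := h₀
      rw [← SModEq.zero] at h₀' ⊢
      exact (ih.eval f).trans h₀'
    have hf'c : ∀ n, IsUnit (f'.eval (c n)) := by
      intro n
      apply IsUnit.of_map (Ideal.Quotient.mk I)
      convert! h₁ using 1
      exact SModEq.def.mp ((hc_mod n).eval _)
    have hfcI : ∀ n, f.eval (c n) ∈ I ^ (n + 1) := by
      intro n
      induction n with
      | zero => simpa only [Nat.rec_zero, zero_add, pow_one] using! h₀
      | succ n ih => ?_
      rw [← Polynomial.taylor_eval_sub (c n), hc, sub_eq_add_neg, sub_eq_add_neg,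
        add_neg_cancel_comm]
      rw [Polynomial.eval_eq_sum, Polynomial.sum_over_range' _ _ _
        (lt_add_of_pos_right _ zero_lt_two), ← Finset.sum_range_add_sum_Ico _ (Nat.le_add_left _ _)]
      swap
      · intro i
        rw [zero_mul]
      refine Ideal.add_mem _ ?_ ?_
      · rw [← one_add_one_eq_two, Finset.sum_range_succ, Finset.range_one, Finset.sum_singleton,
          Polynomial.taylor_coeff_zero, Polynomial.taylor_coeff_one, pow_zero, pow_one, mul_one,
          mul_neg, mul_left_comm, Ring.mul_inverse_cancel _ (hf'c n), mul_one, add_neg_cancel]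
        exact Ideal.zero_mem _
      · refine Submodule.sum_mem _ ?_
        simp only [Finset.mem_Ico]
        rintro i ⟨h2i, _⟩
        have aux : n + 2 ≤ i * (n + 1) := by trans 2 * (n + 1) <;> nlinarith only [h2i]
        refine Ideal.mul_mem_left _ _ (Ideal.pow_le_pow_right aux ?_)
        rw [pow_mul']
        exact Ideal.pow_mem_pow ((Ideal.neg_mem_iff _).2 <| Ideal.mul_mem_right _ _ ih) _
    have aux : ∀ m n, m ≤ n → c m ≡ c n [SMOD (I ^ m • ⊤ : Ideal A)] := by
      intro m n hmn
      rw [← Ideal.one_eq_top, Ideal.smul_eq_mul, mul_one]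
      obtain ⟨k, rfl⟩ := Nat.exists_eq_add_of_le hmn
      clear hmn
      induction k with
      | zero => rw [add_zero]
      | succ k ih => ?_
      rw [← add_assoc, hc, ← add_zero (c m), sub_eq_add_neg]
      refine ih.add ?_
      symm
      rw [SModEq.zero, Ideal.neg_mem_iff]
      refine Ideal.mul_mem_right _ _ (Ideal.pow_le_pow_right ?_ (hfcI _))
      rw [add_assoc]
      exact le_self_add
    obtain ⟨a, ha⟩ := IsPrecomplete.prec' c (aux _ _)
    refine ⟨a, ?_, ?_⟩
    · show f.IsRoot a
      suffices ∀ n, f.eval a ≡ 0 [SMOD (I ^ n • ⊤ : Ideal A)] by exact IsHausdorff.haus' _ this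
      intro n
      specialize ha n
      rw [← Ideal.one_eq_top, Ideal.smul_eq_mul, mul_one] at ha ⊢
      refine (ha.symm.eval f).trans ?_
      rw [SModEq.zero]
      exact Ideal.pow_le_pow_right le_self_add (hfcI _)
    · show a - a₀ ∈ I
      specialize ha (0 + 1)
      rw [hc, pow_one, ← Ideal.one_eq_top, Ideal.smul_eq_mul, mul_one, sub_eq_add_neg] at ha
      rw [← SModEq.sub_mem, ← add_zero a₀]
      refine ha.symm.trans (SModEq.rfl.add ?_)
      rw [SModEq.zero, Ideal.neg_mem_iff]
      exact Ideal.mul_mem_right _ _ h₀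
  refine ⟨a, ⟨ha_mod, ha_root⟩, ?_⟩
  rintro b ⟨hb_mod, hb_root⟩
  obtain ⟨c, hc⟩ := Polynomial.exists_mul_sq_add_linear_part_eq_eval_add P a (b - a)
  rw [add_sub_cancel, hb_root.eq_zero, ha_root.eq_zero] at hc
  have hba : b - a ∈ I := by
    have := I.sub_mem hb_mod ha_mod
    simpa using this
  have hu : IsUnit (c * (b - a) + P.derivative.eval a) := by
    apply unit_of
    have e1 : Ideal.Quotient.mk I (b - a) = 0 := Ideal.Quotient.eq_zero_iff_mem.mpr hba
    have e2 : Ideal.Quotient.mk I (P.derivative.eval a)
        = Ideal.Quotient.mk I (P.derivative.eval a₀) := by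
      have hmod : a ≡ a₀ [SMOD I] := SModEq.sub_mem.mpr ha_mod
      exact SModEq.def.mp (hmod.eval _)
    rw [map_add, map_mul, e1, mul_zero, zero_add, e2]
    exact h₁
  have h0 : (c * (b - a) + P.derivative.eval a) * (b - a) = 0 := by linear_combination hc
  have := hu.mul_right_eq_zero.mp h0
  exact sub_eq_zero.mp this

end Groth.Agent.S14676
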