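import Groth.Statements.S1484
import Mathlib
-- import your own Groth.Agent.* helpers here

set_option autoImplicit false
universe u
open FlatMor

namespace Groth.Agent.S1484

theorem trans_mul {k K : Type*} [Field k] [Field K] [Algebra k K] {a t : K}
    (ha : IsAlgebraic k a) (ha0 : a ≠ 0) (ht : Transcendental k t) :
    Transcendental k (a * t) := by
  intro h
  apply ht
  have : t = a⁻¹ * (a * t) := by field_simp
  rw [this]
  exact ha.inv.mul h

theorem exists_trans {R : Type u} [CommRing R] (p : Ideal R) [p.IsPrime]
    (k : Subfield p.ResidueField) (hk : ¬ Algebra.IsAlgebraic k p.ResidueField) :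
    ∃ y : R, Transcendental k (algebraMap R p.ResidueField y) := by
  by_contra hcon
  push Not at hcon
  apply hk
  constructor
  intro t
  obtain ⟨x, y, hy, rfl⟩ := IsFractionRing.div_surjective (A := R ⧸ p) t
  obtain ⟨a, rfl⟩ := Ideal.Quotient.mk_surjective x
  obtain ⟨b, rfl⟩ := Ideal.Quotient.mk_surjective y
  rw [Ideal.algebraMap_quotient_residueField_mk, Ideal.algebraMap_quotient_residueField_mk,
    div_eq_mul_inv]
  have ha := hcon a
  have hb := hcon b
  simp only [Transcendental, not_not] at ha hb
  exact ha.mul hb.inv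

/-- Let R be a ring, p_1, …, p_r primes of R none of which is contained in another, k_i ⊆ κ(p_i)
subfields over which κ(p_i) is not algebraic, and J an ideal of R contained in none of the p_i. Then
some x ∈ J has image in κ(p_i) transcendental over k_i for every i. -/
theorem result {R : Type u} [CommRing R] {r : ℕ} (p : Fin r → Ideal R) [∀ i, (p i).IsPrime]
    (hp : ∀ i j, i ≠ j → ¬ p i ≤ p j) (k : ∀ i, Subfield (p i).ResidueField)
    (hk : ∀ i, ¬ Algebra.IsAlgebraic ↥(k i) (p i).ResidueField) (J : Ideal R) (hJ : ∀ i, ¬ J ≤ p i) :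
    ∃ x ∈ J, ∀ i, Transcendental ↥(k i) (algebraMap R (p i).ResidueField x) := by
  classical
  have he : ∀ i, ∃ e ∈ J, e ∉ p i ∧ ∀ j, j ≠ i → e ∈ p j := by
    intro i
    obtain ⟨j₀, hj₀J, hj₀⟩ := Set.not_subset.mp (hJ i)
    have ha : ∀ j, j ≠ i → ∃ a, a ∈ p j ∧ a ∉ p i := fun j hj => Set.not_subset.mp (hp j i hj)
    choose a ha using ha
    let a' : Fin r → R := fun j => if h : j = i then 1 else a j h
    refine ⟨j₀ * ∏ j, a' j, J.mul_mem_right _ hj₀J, ?_, ?_⟩
    · intro hmem
      rcases (inferInstance : (p i).IsPrime).mem_or_mem hmem with h | h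
      · exact hj₀ h
      · obtain ⟨j, -, hj⟩ := Ideal.IsPrime.prod_mem_iff.mp h
        by_cases hji : j = i
        · simp only [a', hji, dite_true] at hj
          exact (inferInstance : (p i).IsPrime).ne_top ((Ideal.eq_top_iff_one _).mpr hj)
        · simp only [a', hji, dite_false] at hj
          exact (ha j hji).2 hj
    · intro j hji
      refine Ideal.mul_mem_left _ _ ?_
      refine Ideal.mem_of_dvd _ (Finset.dvd_prod_of_mem a' (Finset.mem_univ j)) ?_
      simp only [a', hji, dite_false]
      exact (ha j hji).1
  choose e heJ hei hej using he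
  have hy : ∀ i, ∃ y : R, Transcendental (k i) (algebraMap R (p i).ResidueField y) :=
    fun i => exists_trans (p i) (k i) (hk i)
  choose y hy using hy
  let c : Fin r → R := fun i =>
    if Transcendental (k i) (algebraMap R (p i).ResidueField (e i)) then 1 else y i
  refine ⟨∑ i, c i * e i, Ideal.sum_mem _ fun i _ => J.mul_mem_left _ (heJ i), fun i => ?_⟩
  rw [map_sum, Finset.sum_eq_single i]
  · by_cases ht : Transcendental (k i) (algebraMap R (p i).ResidueField (e i))
    · simp only [c, ht, if_true, one_mul]
    · simp only [c, ht, if_false, map_mul]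
      rw [mul_comm]
      refine trans_mul ?_ ?_ (hy i)
      · simpa [Transcendental] using ht
      · intro h0
        exact hei i (Ideal.algebraMap_residueField_eq_zero.mp h0)
  · intro j _ hji
    exact Ideal.algebraMap_residueField_eq_zero.mpr (Ideal.mul_mem_left _ _ (hej j i (Ne.symm hji)))
  · intro h
    exact absurd (Finset.mem_univ i) h

end Groth.Agent.S1484
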