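import Groth.Statements.S14848
import Mathlib.Tactic.LinearCombination
import Mathlib.Tactic.FieldSimp
import Mathlib.Tactic.FinCases
import Mathlib.LinearAlgebra.Matrix.Notation
import Mathlib.GroupTheory.OrderOfElement
-- import your own Groth.Agent.* helpers here

set_option autoImplicit false
universe u v
open McKay

namespace Groth.Agent.S14848

theorem eq_smul_one_of_eigen {L : Type*} [Field L] (ξ : L) (_hξ0 : ξ ≠ 0) (hξinv : ξ - ξ⁻¹ ≠ 0)
    (M : Matrix (Fin 2) (Fin 2) L) (μ : L)
    (h1 : M.mulVec ![1, -ξ] = μ • ![1, -ξ]) (h2 : M.mulVec ![1, -ξ⁻¹] = μ • ![1, -ξ⁻¹]) :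
    M = μ • (1 : Matrix (Fin 2) (Fin 2) L) := by
  have e1 := congrFun h1 0
  have e2 := congrFun h1 1
  have e3 := congrFun h2 0
  have e4 := congrFun h2 1
  simp [Matrix.mulVec, dotProduct, Fin.sum_univ_two] at e1 e2 e3 e4
  have h01 : M 0 1 = 0 := by
    have : M 0 1 * (ξ - ξ⁻¹) = 0 := by linear_combination e3 - e1
    exact (mul_eq_zero.mp this).resolve_right hξinv
  have h00 : M 0 0 = μ := by linear_combination e1 + ξ * h01
  have h11 : M 1 1 = μ := by
    have : (M 1 1 - μ) * (ξ - ξ⁻¹) = 0 := by linear_combination e4 - e2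
    have := (mul_eq_zero.mp this).resolve_right hξinv
    linear_combination this
  have h10 : M 1 0 = 0 := by linear_combination e2 + ξ * h11
  ext i j
  fin_cases i <;> fin_cases j <;> simp [h00, h01, h10, h11]

/-- Let K be a field of characteristic zero, L an extension field of K and ξ ∈ L a primitive n-th root
of unity (n ≥ 1) with ξ + ξ⁻¹ ∈ K, say ξ + ξ⁻¹ = 2c with c ∈ K (the character of the natural
two-dimensional representation of the cyclic group of order n takes values in K). Then the cyclic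
group of order n is realisable over K as a subgroup of SL(2, K): there is an element of SL(2, K) of
order n. -/
theorem result {K : Type u} {L : Type v} [Field K] [Field L]
    [CharZero K] [Algebra K L] (n : ℕ) (hn : 1 ≤ n) (ξ : L) (hξ : IsPrimitiveRoot ξ n) (c : K)
    (hc : algebraMap K L (2 * c) = ξ + ξ⁻¹) :
    ∃ M : Matrix.SpecialLinearGroup (Fin 2) K, orderOf M = n := by
  classical
  rcases Nat.lt_or_ge n 3 with hn3 | hn3
  · interval_cases n
    · exact ⟨1, orderOf_one⟩
    · have hdet : (-1 : Matrix (Fin 2) (Fin 2) K).det = 1 := by simp [Matrix.det_fin_two]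
      let M : Matrix.SpecialLinearGroup (Fin 2) K := ⟨-1, hdet⟩
      refine ⟨M, orderOf_eq_prime ?_ ?_⟩
      · apply Subtype.ext
        rw [Matrix.SpecialLinearGroup.coe_pow, Matrix.SpecialLinearGroup.coe_one]
        show (-1 : Matrix (Fin 2) (Fin 2) K) ^ 2 = 1
        rw [neg_one_sq]
      · intro h
        have := congrArg (fun X : Matrix.SpecialLinearGroup (Fin 2) K =>
          (X : Matrix (Fin 2) (Fin 2) K) 0 0) h
        simp [M] at this
        norm_num at this
  have hξ0 : ξ ≠ 0 := hξ.ne_zero (by omega)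
  have hξ2 : ξ ^ 2 ≠ 1 := hξ.pow_ne_one_of_pos_of_lt (by norm_num) (by omega)
  have hξinv : ξ - ξ⁻¹ ≠ 0 := by
    intro h
    apply hξ2
    have : ξ = ξ⁻¹ := sub_eq_zero.mp h
    calc ξ ^ 2 = ξ * ξ := sq ξ
      _ = ξ * ξ⁻¹ := by rw [← this]
      _ = 1 := mul_inv_cancel₀ hξ0
  let φ := algebraMap K L
  let Sm : Matrix (Fin 2) (Fin 2) K := !![0, -1; 1, 2 * c]
  let SL : Matrix (Fin 2) (Fin 2) L := !![0, -1; 1, ξ + ξ⁻¹]
  have hSL : Sm.map φ = SL := by
    ext i j
    fin_cases i <;> fin_cases j <;> simp [Sm, SL, φ, ← hc]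
  have hSLpow : ∀ k : ℕ, (Sm ^ k).map φ = SL ^ k := by
    intro k
    rw [← hSL]
    exact (map_pow (RingHom.mapMatrix φ) Sm k)
  let v : Fin 2 → L := ![1, -ξ]
  let w : Fin 2 → L := ![1, -ξ⁻¹]
  have hv : SL.mulVec v = ξ • v := by
    ext i
    fin_cases i
    · simp [SL, v, Matrix.mulVec, dotProduct, Fin.sum_univ_two]
    · simp [SL, v, Matrix.mulVec, dotProduct, Fin.sum_univ_two]
      field_simp
      ring
  have hw : SL.mulVec w = ξ⁻¹ • w := by
    ext i
    fin_cases i
    · simp [SL, w, Matrix.mulVec, dotProduct, Fin.sum_univ_two]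
    · simp [SL, w, Matrix.mulVec, dotProduct, Fin.sum_univ_two]
      field_simp
      ring
  have hvk : ∀ k : ℕ, (SL ^ k).mulVec v = ξ ^ k • v := by
    intro k
    induction k with
    | zero => simp
    | succ k ih =>
      rw [pow_succ, ← Matrix.mulVec_mulVec, hv, Matrix.mulVec_smul, ih, smul_smul, pow_succ,
        mul_comm]
  have hwk : ∀ k : ℕ, (SL ^ k).mulVec w = ξ⁻¹ ^ k • w := by
    intro k
    induction k with
    | zero => simp
    | succ k ih =>
      rw [pow_succ, ← Matrix.mulVec_mulVec, hw, Matrix.mulVec_smul, ih, smul_smul, pow_succ,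
        mul_comm]
  have hSdet : Sm.det = 1 := by simp [Sm, Matrix.det_fin_two]
  let S : Matrix.SpecialLinearGroup (Fin 2) K := ⟨Sm, hSdet⟩
  refine ⟨S, ?_⟩
  rw [hξ.eq_orderOf, orderOf_eq_orderOf_iff]
  intro k
  constructor
  · intro hk
    have hk' : Sm ^ k = 1 := by
      have := congrArg Subtype.val hk
      rw [Matrix.SpecialLinearGroup.coe_pow] at this
      exact this
    have h1 := hvk k
    rw [← hSLpow, hk', Matrix.map_one φ (map_zero φ) (map_one φ), Matrix.one_mulVec] at h1
    have := congrFun h1 0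
    simp [v] at this
    exact this.symm
  · intro hk
    apply Subtype.ext
    rw [Matrix.SpecialLinearGroup.coe_pow]
    show Sm ^ k = 1
    apply Matrix.map_injective φ.injective
    show (Sm ^ k).map φ = (1 : Matrix (Fin 2) (Fin 2) K).map φ
    rw [hSLpow, Matrix.map_one φ (map_zero φ) (map_one φ)]
    have h1 := hvk k
    have h2 := hwk k
    rw [hk, one_smul] at h1
    rw [inv_pow, hk, inv_one, one_smul] at h2
    have := eq_smul_one_of_eigen ξ hξ0 hξinv (SL ^ k) 1 (by rw [one_smul]; exact h1)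
      (by rw [one_smul]; exact h2)
    rw [this, one_smul]

end Groth.Agent.S14848
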