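import Groth.Statements.S14849
import Mathlib.Tactic.LinearCombination
import Mathlib.Tactic.FieldSimp
import Mathlib.Tactic.FinCases
import Mathlib.LinearAlgebra.Matrix.Notation
import Mathlib.Tactic.Group
-- import your own Groth.Agent.* helpers here

set_option autoImplicit false
universe u v
open McKay

namespace Groth.Agent.S14849

/-- Let K be a field of characteristic zero, L an extension field of K, n ≥ 2, and ξ ∈ L a primitive
2n-th root of unity with ξ + ξ⁻¹ = 2c for some c ∈ K. If the Hilbert symbol of -1 and c² - 1 over K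
equals 1, i.e. x² - (c² - 1) y² = -1 has a solution in K, then the binary dihedral group of order 4n
(generators σ, τ with τ² = σⁿ = (τσ)²) is isomorphic to a subgroup of SL(2, K). (The published
statement is an equivalence; this row is the direction realising the group from a solution of the
conic.) -/
theorem result {K : Type u} {L : Type v}
    [Field K] [Field L] [CharZero K] [Algebra K L] (n : ℕ) (hn : 2 ≤ n) (ξ : L)
    (hξ : IsPrimitiveRoot ξ (2 * n)) (c : K) (hc : algebraMap K L (2 * c) = ξ + ξ⁻¹)
    (hsol : ∃ x y : K, x ^ 2 - (c ^ 2 - 1) * y ^ 2 = -1) :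
    ∃ f : QuaternionGroup n →* Matrix.SpecialLinearGroup (Fin 2) K, Function.Injective f := by
  classical
  obtain ⟨x, y, hxy⟩ := hsol
  have : NeZero (2 * n) := ⟨by omega⟩
  have hξ0 : ξ ≠ 0 := hξ.ne_zero (by omega)
  have hξn : ξ ^ n = -1 := by
    have h := hξ.pow_of_dvd (p := n) (by omega) (dvd_mul_left n 2)
    rw [Nat.mul_div_cancel _ (by omega)] at h
    exact h.eq_neg_one_of_two_right
  have hξ2 : ξ ^ 2 ≠ 1 := hξ.pow_ne_one_of_pos_of_lt (by norm_num) (by omega)
  have hξinv : ξ - ξ⁻¹ ≠ 0 := by
    intro h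
    apply hξ2
    have : ξ = ξ⁻¹ := sub_eq_zero.mp h
    calc ξ ^ 2 = ξ * ξ := sq ξ
      _ = ξ * ξ⁻¹ := by rw [← this]
      _ = 1 := mul_inv_cancel₀ hξ0
  let φ := algebraMap K L
  let Sm : Matrix (Fin 2) (Fin 2) K := !![0, -1; 1, 2 * c]
  let SL : Matrix (Fin 2) (Fin 2) L := !![0, -1; 1, ξ + ξ⁻¹]
  have hSL : Sm.map φ = SL := by
    ext i j
    fin_cases i <;> fin_cases j <;> simp [Sm, SL, φ, ← hc]
  have hSLpow : ∀ k : ℕ, (Sm ^ k).map φ = SL ^ k := by
    intro k
    rw [← hSL]
    exact (map_pow (RingHom.mapMatrix φ) Sm k)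
  let v : Fin 2 → L := ![1, -ξ]
  let w : Fin 2 → L := ![1, -ξ⁻¹]
  have hv : SL.mulVec v = ξ • v := by
    ext i
    fin_cases i
    · simp [SL, v, Matrix.mulVec, dotProduct, Fin.sum_univ_two]
    · simp [SL, v, Matrix.mulVec, dotProduct, Fin.sum_univ_two]
      field_simp
      ring
  have hw : SL.mulVec w = ξ⁻¹ • w := by
    ext i
    fin_cases i
    · simp [SL, w, Matrix.mulVec, dotProduct, Fin.sum_univ_two]
    · simp [SL, w, Matrix.mulVec, dotProduct, Fin.sum_univ_two]
      field_simp
      ring
  have hvk : ∀ k : ℕ, (SL ^ k).mulVec v = ξ ^ k • v := by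
    intro k
    induction k with
    | zero => simp
    | succ k ih =>
      rw [pow_succ, ← Matrix.mulVec_mulVec, hv, Matrix.mulVec_smul, ih, smul_smul, pow_succ,
        mul_comm]
  have hwk : ∀ k : ℕ, (SL ^ k).mulVec w = ξ⁻¹ ^ k • w := by
    intro k
    induction k with
    | zero => simp
    | succ k ih =>
      rw [pow_succ, ← Matrix.mulVec_mulVec, hw, Matrix.mulVec_smul, ih, smul_smul, pow_succ,
        mul_comm]
  have hSn : Sm ^ n = -1 := by
    apply Matrix.map_injective φ.injective
    show (Sm ^ n).map φ = (-1 : Matrix (Fin 2) (Fin 2) K).map φ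
    have hm1 : (-1 : Matrix (Fin 2) (Fin 2) K).map φ = -1 := by
      ext i j; fin_cases i <;> fin_cases j <;> simp
    rw [hSLpow, hm1]
    set M := SL ^ n with hM
    have h1 := hvk n
    have h2 := hwk n
    rw [← hM, hξn] at h1
    rw [← hM, inv_pow, hξn] at h2
    have e1 := congrFun h1 0
    have e2 := congrFun h1 1
    have e3 := congrFun h2 0
    have e4 := congrFun h2 1
    simp [v, w, Matrix.mulVec, dotProduct, Fin.sum_univ_two] at e1 e2 e3 e4
    have h01 : M 0 1 = 0 := by
      have : M 0 1 * (ξ - ξ⁻¹) = 0 := by linear_combination e3 - e1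
      exact (mul_eq_zero.mp this).resolve_right hξinv
    have h00 : M 0 0 = -1 := by linear_combination e1 + ξ * h01
    have h11 : M 1 1 = -1 := by
      have : (M 1 1 + 1) * (ξ - ξ⁻¹) = 0 := by linear_combination e4 - e2
      have := (mul_eq_zero.mp this).resolve_right hξinv
      linear_combination this
    have h10 : M 1 0 = 0 := by linear_combination e2 + ξ * h11
    ext i j
    fin_cases i <;> fin_cases j <;> simp [h00, h01, h10, h11]
  have hSk : ∀ k : ℕ, Sm ^ k = 1 → 2 * n ∣ k := by
    intro k hk
    apply hξ.dvd_of_pow_eq_one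
    have h1 := hvk k
    rw [← hSLpow, hk, Matrix.map_one φ (map_zero φ) (map_one φ), Matrix.one_mulVec] at h1
    have := congrFun h1 0
    simp [v] at this
    exact this.symm
  let α := x + c * y
  let Tm : Matrix (Fin 2) (Fin 2) K := !![α, y; y - 2 * c * α, -α]
  have hSdet : Sm.det = 1 := by simp [Sm, Matrix.det_fin_two]
  have hTdet : Tm.det = 1 := by
    simp only [Tm, Matrix.det_fin_two_of, α]
    linear_combination -hxy
  let S : Matrix.SpecialLinearGroup (Fin 2) K := ⟨Sm, hSdet⟩
  let T : Matrix.SpecialLinearGroup (Fin 2) K := ⟨Tm, hTdet⟩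
  have hTm2 : Tm * Tm = -1 := by
    ext i j
    fin_cases i <;> fin_cases j <;> simp [Tm, α, Matrix.mul_apply, Fin.sum_univ_two] <;>
      first | ring1 | linear_combination hxy
  have hSTSm : Sm * Tm * Sm = Tm := by
    ext i j
    fin_cases i <;> fin_cases j <;> simp [Sm, Tm, α, Matrix.mul_apply, Fin.sum_univ_two] <;> ring
  have hS2n : S ^ (2 * n) = 1 := by
    ext1
    rw [Matrix.SpecialLinearGroup.coe_pow, pow_mul', hSn]
    simp
  have hT2 : T ^ 2 = S ^ n := by
    apply Subtype.ext
    rw [Matrix.SpecialLinearGroup.coe_pow, Matrix.SpecialLinearGroup.coe_pow, sq]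
    exact hTm2.trans hSn.symm
  have hSTS : S * T * S = T := by
    apply Subtype.ext
    exact hSTSm
  have hSkT : ∀ k : ℕ, S ^ k * T * S ^ k = T := by
    intro k
    induction k with
    | zero => simp
    | succ k ih =>
      have e1 : S ^ (k + 1) = S * S ^ k := pow_succ' S k
      have e2 : S ^ (k + 1) = S ^ k * S := pow_succ S k
      calc S ^ (k + 1) * T * S ^ (k + 1) = (S * S ^ k) * T * (S ^ k * S) := by
            rw [← e1, ← e2]
        _ = S * (S ^ k * T * S ^ k) * S := by group
        _ = T := by rw [ih, hSTS]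
  let g : ZMod (2 * n) → Matrix.SpecialLinearGroup (Fin 2) K := fun i => S ^ i.val
  have hg_add : ∀ i j, g (i + j) = g i * g j := by
    intro i j
    simp only [g]
    rw [ZMod.val_add, ← pow_add, ← pow_eq_pow_mod _ hS2n]
  have hg0 : g 0 = 1 := by simp [g]
  have hg_neg : ∀ i, g (-i) = (g i)⁻¹ := by
    intro i
    apply eq_inv_of_mul_eq_one_left
    rw [← hg_add, neg_add_cancel, hg0]
  have hg_n : g (n : ZMod (2 * n)) = S ^ n := by
    simp only [g]
    rw [ZMod.val_natCast, Nat.mod_eq_of_lt (by omega)]
  have hgT : ∀ i, g i * T = T * g (-i) := by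
    intro i
    rw [hg_neg]
    have := hSkT i.val
    simp only [g]
    calc S ^ i.val * T = S ^ i.val * T * S ^ i.val * (S ^ i.val)⁻¹ := by group
      _ = T * (S ^ i.val)⁻¹ := by rw [this]
  let F : QuaternionGroup n → Matrix.SpecialLinearGroup (Fin 2) K := fun q =>
    match q with
    | .a i => g i
    | .xa i => T * g i
  have hF : ∀ q r, F (q * r) = F q * F r := by
    rintro (i | i) (j | j)
    · simp only [QuaternionGroup.a_mul_a, F]
      exact hg_add i j
    · simp only [QuaternionGroup.a_mul_xa, F]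
      rw [← mul_assoc, hgT, mul_assoc, ← hg_add, sub_eq_neg_add]
    · simp only [QuaternionGroup.xa_mul_a, F]
      rw [mul_assoc, hg_add]
    · simp only [QuaternionGroup.xa_mul_xa, F]
      rw [show T * g i * (T * g j) = T * (g i * T) * g j by group, hgT,
        show T * (T * g (-i)) * g j = T ^ 2 * (g (-i) * g j) by rw [sq]; simp only [mul_assoc],
        ← hg_add, hT2, ← hg_n,
        ← hg_add]
      congr 1
      ring
  let f : QuaternionGroup n →* Matrix.SpecialLinearGroup (Fin 2) K :=
    { toFun := F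
      map_one' := by
        show g 0 = 1
        exact hg0
      map_mul' := hF }
  refine ⟨f, ?_⟩
  rw [injective_iff_map_eq_one]
  rintro (i | i) hq
  · have h1 : Sm ^ i.val = 1 := by
      have := congrArg (fun M : Matrix.SpecialLinearGroup (Fin 2) K => (M : Matrix (Fin 2) (Fin 2) K)) hq
      simpa [f, F, g, Matrix.SpecialLinearGroup.coe_pow] using this
    have h2 := hSk _ h1
    have h3 : i.val = 0 := by
      have hlt := ZMod.val_lt i
      rcases h2 with ⟨m, hm⟩
      rcases m with _ | m
      · simpa using hm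
      · exfalso; rw [hm] at hlt; nlinarith
    rw [ZMod.val_eq_zero] at h3
    rw [h3]
    rfl
  · exfalso
    have hT : T = g (-i) := by
      have h : T * g i = 1 := hq
      rw [hg_neg]
      exact eq_inv_of_mul_eq_one_left h
    have h2 : S ^ 2 = 1 := by
      have := hSTS
      rw [hT] at this
      simp only [g] at this
      have h' : S ^ (-i).val * S ^ 2 = S ^ (-i).val * 1 := by
        rw [mul_one]
        calc S ^ (-i).val * S ^ 2 = S * S ^ (-i).val * S := by group
          _ = S ^ (-i).val := this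
      exact mul_left_cancel h'
    have h3 : Sm ^ 2 = 1 := by
      have := congrArg (fun M : Matrix.SpecialLinearGroup (Fin 2) K => (M : Matrix (Fin 2) (Fin 2) K)) h2
      simpa [Matrix.SpecialLinearGroup.coe_pow] using this
    have h4 := Nat.le_of_dvd (by norm_num) (hSk 2 h3)
    omega

end Groth.Agent.S14849
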