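import Groth.Statements.S1487
import Groth.Agent.Lib.Helper3.FEt
-- import your own Groth.Agent.* helpers here

set_option autoImplicit false
universe u
open FlatMor

namespace Groth.Agent.S1487

open AlgebraicGeometry CategoryTheory Limits in
/-- (1) ⇔ (3): a morphism f : X → Y is formally étale (unique lifting against first order thickenings of
affine schemes, rings in the same universe) if and only if for all affine opens U ⊆ f⁻¹(V) the ring
map O_Y(V) → O_X(U) is formally étale. -/
theorem result {X Y : Scheme.{u}} (f : X ⟶ Y) :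
    MoreMor.IsFormallyEtaleHom f ↔ ∀ (U : X.Opens) (V : Y.Opens) (hU : IsAffineOpen U) (hV : IsAffineOpen V) (hUV : U ≤ f ⁻¹ᵁ V),
      letI := (f.appLE V U hUV).hom.toAlgebra
      Algebra.FormallyEtale Γ(Y, V) Γ(X, U) :=
  ⟨fun hf U V hU hV hUV =>
      Groth.Agent.Lib.Helper3.FEt.formallyEtale_of_isFormallyEtaleHom f hf U V hU hV hUV,
    fun H => Groth.Agent.Lib.Helper3.FEt.isFormallyEtaleHom_of_formallyEtale f H⟩

end Groth.Agent.S1487
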