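import Groth.Statements.S1489
import Groth.Agent.Lib.Helper3.FEt
-- import your own Groth.Agent.* helpers here

set_option autoImplicit false
universe u
open FlatMor

namespace Groth.Agent.S1489

open AlgebraicGeometry CategoryTheory Limits in
/-- A morphism f : X → S is étale if and only if it is locally of finite presentation and formally
étale, i.e. has the unique lifting property against first order thickenings of affine schemes (rings
in the same universe). -/
theorem result {X S : Scheme.{u}} (f : X ⟶ S) :
    Etale f ↔ LocallyOfFinitePresentation f ∧ MoreMor.IsFormallyEtaleHom f := by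
  constructor
  · intro hf
    refine ⟨inferInstance, ?_⟩
    apply Groth.Agent.Lib.Helper3.FEt.isFormallyEtaleHom_of_formallyEtale
    intro U V hU hV hUV
    have h := HasRingHomProperty.appLE (P := @Etale) f hf ⟨V, hV⟩ ⟨U, hU⟩ hUV
    let _ := (f.appLE V U hUV).hom.toAlgebra
    have h' : Algebra.Etale Γ(S, V) Γ(X, U) := h
    exact h'.formallyEtale
  · rintro ⟨hlfp, hfe⟩
    rw [HasRingHomProperty.iff_appLE (P := @Etale)]
    intro V U e
    have h1 := Groth.Agent.Lib.Helper3.FEt.formallyEtale_of_isFormallyEtaleHom f hfe U V U.2 V.2 e
    have h2 := HasRingHomProperty.appLE (P := @LocallyOfFinitePresentation) f hlfp V U e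
    let _ := (f.appLE V U e).hom.toAlgebra
    have h2' : Algebra.FinitePresentation Γ(S, V) Γ(X, U) := h2
    show Algebra.Etale Γ(S, V) Γ(X, U)
    exact ⟨h1, h2'⟩

end Groth.Agent.S1489
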