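import Groth.Statements.S14973
import Mathlib.Tactic.Abel
-- import your own Groth.Agent.* helpers here

set_option autoImplicit false
universe u v
open Diff16

namespace Groth.Agent.S14973

/-- In ring form. Let B be a commutative ring, L a ring with a ring homomorphism f from B, and L_0, L_1,
L_2, … additive subgroups of L exhausting L such that for every b in B, f(b) commutes with every
element of L_0 and, for each i, the commutator f(b) x - x f(b) of f(b) with an element x of L_(i+1)
lies in L_i. Let M be a multiplicative subset of B. Then M acts invertibly on the right of the left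
localisation of L at M (L viewed as a B-module through left multiplication): in elementwise terms,
(a) if x is in L and m, u are in M with f(u) x f(m) = 0, then f(u') x = 0 for some u' in M; (b) for
every x in L and m in M there are e in M and y in L with f(e) x = y f(m). (The published statement
assumes a filtration satisfying all the axioms of a filtered ring of differential operators on an
affine scheme; this row assumes only an exhaustive family of additive subgroups on which commutators
with the image of B lower the index.) -/
theorem result
    {B : Type u} [CommRing B] {L : Type v} [Ring L] (f : B →+* L) (F : ℕ → AddSubgroup L)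
    (hex : ∀ x : L, ∃ i : ℕ, x ∈ F i)
    (h0 : ∀ x ∈ F 0, ∀ b : B, f b * x = x * f b)
    (hS : ∀ (i : ℕ), ∀ x ∈ F (i + 1), ∀ b : B, f b * x - x * f b ∈ F i)
    (M : Submonoid B) :
    (∀ (x : L) (m u : B), m ∈ M → u ∈ M → f u * x * f m = 0 → ∃ u' ∈ M, f u' * x = 0) ∧
    (∀ (x : L) (m : B), m ∈ M → ∃ e ∈ M, ∃ y : L, f e * x = y * f m) := by
  have hcomm : ∀ a b : B, f a * f b = f b * f a := fun a b => by
    rw [← map_mul, mul_comm, map_mul]
  constructor
  · have key : ∀ i : ℕ, ∀ x ∈ F i, ∀ m u : B, m ∈ M → u ∈ M → f u * x * f m = 0 →
        ∃ u' ∈ M, f u' * x = 0 := by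
      intro i
      induction i with
      | zero =>
        intro x hx m u hm hu h
        refine ⟨u * m, M.mul_mem hu hm, ?_⟩
        rw [map_mul, mul_assoc, h0 x hx m, ← mul_assoc, h]
      | succ i ih =>
        intro x hx m u hm hu h
        set z := f m * x - x * f m with hz
        have hzF : z ∈ F i := hS i x hx m
        have h1 : f u * z * f m = 0 := by
          have e1 : f u * z * f m = f m * (f u * x * f m) - (f u * x * f m) * f m := by
            rw [hz]; simp only [mul_sub, sub_mul, ← mul_assoc]; rw [hcomm u m]
          rw [e1, h, mul_zero, zero_mul, sub_zero]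
        obtain ⟨u'', hu'', hz0⟩ := ih z hzF m u hm hu h1
        refine ⟨u'' * u * m, M.mul_mem (M.mul_mem hu'' hu) hm, ?_⟩
        have e2 : f m * x = x * f m + z := by rw [hz]; abel
        calc f (u'' * u * m) * x = f u'' * (f u * (f m * x)) := by simp only [map_mul, mul_assoc]
          _ = f u'' * (f u * x * f m + f u * z) := by rw [e2, mul_add, mul_assoc]
          _ = f u * (f u'' * z) := by rw [h, zero_add, ← mul_assoc, hcomm u'' u, mul_assoc]
          _ = 0 := by rw [hz0, mul_zero]
    intro x m u hm hu h
    obtain ⟨i, hi⟩ := hex x
    exact key i x hi m u hm hu h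
  · have key : ∀ i : ℕ, ∀ x ∈ F i, ∀ m : B, m ∈ M → ∃ e ∈ M, ∃ y : L, f e * x = y * f m := by
      intro i
      induction i with
      | zero =>
        intro x hx m hm
        exact ⟨m, hm, x, h0 x hx m⟩
      | succ i ih =>
        intro x hx m hm
        obtain ⟨e, he, y, hy⟩ := ih (f m * x - x * f m) (hS i x hx m) m hm
        refine ⟨e * m, M.mul_mem he hm, f e * x + y, ?_⟩
        calc f (e * m) * x = f e * (f m * x) := by rw [map_mul, mul_assoc]
          _ = f e * (x * f m + (f m * x - x * f m)) := by congr 1; abel
          _ = f e * x * f m + f e * (f m * x - x * f m) := by rw [mul_add, mul_assoc]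
          _ = (f e * x + y) * f m := by rw [hy, add_mul]
    intro x m hm
    obtain ⟨i, hi⟩ := hex x
    exact key i x hi m hm

end Groth.Agent.S14973
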