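import Groth.Statements.S15017
import Mathlib.Algebra.Group.Submonoid.Operations
import Mathlib.Tactic.IntervalCases
-- import your own Groth.Agent.* helpers here

set_option autoImplicit false
open TFCurv

namespace Groth.Agent.S15017

/-- Let Γ be a numerical semigroup (a submonoid of (ℕ, +) with finite complement), Γ ≠ ℕ, with conductor
c (every n ≥ c lies in Γ, c − 1 does not). If Γ is symmetric (for x < c, x is a gap exactly when c −
1 − x ∈ Γ) and has multiplicity greater than 2 (neither 1 nor 2 lies in Γ), then Γ is generated by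
its elements smaller than c: every minimal generator of Γ is less than the conductor. -/
theorem result (Γ : AddSubmonoid ℕ) (c : ℕ) (hc : ∀ n : ℕ, c ≤ n → n ∈ Γ) (hc0 : c ≠ 0) (hc1 : c - 1 ∉ Γ) (hsymm : ∀ x : ℕ, x < c → (x ∉ Γ ↔ c - 1 - x ∈ Γ)) (he : (1 : ℕ) ∉ Γ ∧ (2 : ℕ) ∉ Γ) : AddSubmonoid.closure {γ : ℕ | γ ∈ Γ ∧ γ < c} = Γ := by
  classical
  obtain ⟨h1, h2⟩ := he
  apply le_antisymm
  · rw [AddSubmonoid.closure_le]
    intro x hx; exact hx.1
  · have hex : ∃ e, e ∈ Γ ∧ e ≠ 0 := ⟨c, hc c le_rfl, hc0⟩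
    obtain ⟨he_mem, he_ne⟩ := Nat.find_spec hex
    have he_min : ∀ m, m < Nat.find hex → ¬ (m ∈ Γ ∧ m ≠ 0) := fun m hm => Nat.find_min hex hm
    set e := Nat.find hex with he_def
    have he3 : 3 ≤ e := by
      by_contra h
      have : e = 1 ∨ e = 2 := by omega
      rcases this with h' | h'
      · rw [h'] at he_mem; exact h1 he_mem
      · rw [h'] at he_mem; exact h2 he_mem
    have hc3 : 2 < c := by
      by_contra h
      exact h2 (hc 2 (by omega))
    have hec : e < c := by
      by_contra h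
      have := (hsymm 1 (by omega)).mp h1
      exact he_min (c - 1 - 1) (by omega) ⟨this, by omega⟩
    have hres : ∀ r, 0 < r → r < e → ∃ w, w ∈ Γ ∧ w % e = r ∧ e ≤ w ∧ w - e < c ∧
        c - 1 - (w - e) ∈ Γ := by
      intro r hr0 hre
      have hexw : ∃ w, w ∈ Γ ∧ w % e = r :=
        ⟨c * e + r, hc _ (le_trans (Nat.le_mul_of_pos_right c (by omega)) (Nat.le_add_right _ _)),
          by simp [Nat.add_mod, Nat.mod_eq_of_lt hre]⟩
      obtain ⟨hwΓ, hwr⟩ := Nat.find_spec hexw
      have hwmin : ∀ m, m < Nat.find hexw → ¬ (m ∈ Γ ∧ m % e = r) := fun m hm => Nat.find_min hexw hm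
      set w := Nat.find hexw with hw_def
      have hw0 : w ≠ 0 := by intro h; rw [h, Nat.zero_mod] at hwr; omega
      have hwe : e ≤ w := by
        by_contra h; exact he_min w (by omega) ⟨hwΓ, hw0⟩
      have hmod : (w - e) % e = w % e := by
        conv_rhs => rw [← Nat.sub_add_cancel hwe]
        rw [Nat.add_mod_right]
      have hwe' : w - e ∉ Γ := by
        intro hmem
        exact hwmin (w - e) (by omega) ⟨hmem, by rw [hmod, hwr]⟩
      have hlt : w - e < c := by
        by_contra h; exact hwe' (hc _ (by omega))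
      exact ⟨w, hwΓ, hwr, hwe, hlt, (hsymm (w - e) hlt).mp hwe'⟩
    have hdec : ∀ n, c ≤ n → ∃ a b, a ∈ Γ ∧ b ∈ Γ ∧ a ≠ 0 ∧ b ≠ 0 ∧ a + b = n := by
      intro n hn
      by_cases hne : n - e ∈ Γ
      · exact ⟨e, n - e, he_mem, hne, he_ne, by omega, by omega⟩
      · have hlt : n - e < c := by by_contra h; exact hne (hc _ (by omega))
        have hs := (hsymm (n - e) hlt).mp hne
        have hz : c - 1 - (n - e) = 0 := by
          by_contra hz
          exact he_min _ (by omega) ⟨hs, hz⟩
        obtain ⟨w1, hw1Γ, hw1r, hw1e, hw1c, hw1s⟩ := hres 1 (by omega) (by omega)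
        obtain ⟨w2, hw2Γ, hw2r, hw2e, hw2c, hw2s⟩ := hres 2 (by omega) (by omega)
        by_cases hb1 : c - 1 - (w1 - e) = 0
        · by_cases hb2 : c - 1 - (w2 - e) = 0
          · exfalso
            have : w1 = w2 := by omega
            rw [this, hw2r] at hw1r
            omega
          · exact ⟨w2, c - 1 - (w2 - e), hw2Γ, hw2s, by omega, hb2, by omega⟩
        · exact ⟨w1, c - 1 - (w1 - e), hw1Γ, hw1s, by omega, hb1, by omega⟩
    intro n hn
    revert hn
    refine Nat.strong_induction_on n ?_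
    intro n ih hn
    by_cases hnc : n < c
    · exact AddSubmonoid.subset_closure ⟨hn, hnc⟩
    · obtain ⟨a, b, ha, hb, ha0, hb0, hab⟩ := hdec n (not_lt.mp hnc)
      rw [← hab]
      exact AddSubmonoid.add_mem _ (ih a (by omega) ha) (ih b (by omega) hb)

end Groth.Agent.S15017
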