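import Groth.Statements.S15018
-- import your own Groth.Agent.* helpers here

set_option autoImplicit false
open TFCurv

namespace Groth.Agent.S15018

/-- Let Γ be a numerical semigroup (a submonoid of (ℕ, +) with finite complement), Γ ≠ ℕ, with conductor
c (every n ≥ c lies in Γ, c − 1 does not). Then Γ is symmetric (for x < c, x is a gap exactly when c
− 1 − x ∈ Γ) if and only if there is exactly one gap n of Γ such that Γ ∪ {n} is again stable under
adding elements of Γ, i.e. n + γ ∈ Γ for every nonzero γ ∈ Γ. -/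
theorem result (Γ : AddSubmonoid ℕ) (c : ℕ) (hc : ∀ n : ℕ, c ≤ n → n ∈ Γ) (hc0 : c ≠ 0) (hc1 : c - 1 ∉ Γ) : (∀ x : ℕ, x < c → (x ∉ Γ ↔ c - 1 - x ∈ Γ)) ↔ ∃! n : ℕ, n ∉ Γ ∧ ∀ γ : ℕ, γ ∈ Γ → γ ≠ 0 → n + γ ∈ Γ := by
  classical
  have hPF1 : c - 1 ∉ Γ ∧ ∀ γ, γ ∈ Γ → γ ≠ 0 → c - 1 + γ ∈ Γ :=
    ⟨hc1, fun γ hγ hγ0 => hc _ (by omega)⟩
  have hlt : ∀ n, n ∉ Γ → n < c := fun n hn => by
    by_contra h; push_neg at h; exact hn (hc n h)
  constructor
  · intro hsymm
    refine ⟨c - 1, hPF1, ?_⟩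
    rintro n ⟨hn, hnPF⟩
    have hnc := hlt n hn
    by_contra hne
    have h1 : c - 1 - n ∈ Γ := (hsymm n hnc).mp hn
    have h2 := hnPF (c - 1 - n) h1 (by omega)
    rw [show n + (c - 1 - n) = c - 1 by omega] at h2
    exact hc1 h2
  · rintro ⟨n₀, hn₀, huniq⟩
    have hall : ∀ n, (n ∉ Γ ∧ ∀ γ, γ ∈ Γ → γ ≠ 0 → n + γ ∈ Γ) → n = c - 1 := by
      intro n hn
      rw [huniq n hn, huniq (c - 1) hPF1]
    intro x hx
    constructor
    · intro hxΓ
      let P : ℕ → Prop := fun y => y ∉ Γ ∧ x ≤ y ∧ y - x ∈ Γ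
      have hPx : P x := ⟨hxΓ, le_refl x, by rw [Nat.sub_self]; exact Γ.zero_mem⟩
      have hPm : P (Nat.findGreatest P c) := Nat.findGreatest_spec (P := P) hx.le hPx
      have hmPF : Nat.findGreatest P c ∉ Γ ∧
          ∀ γ, γ ∈ Γ → γ ≠ 0 → Nat.findGreatest P c + γ ∈ Γ := by
        refine ⟨hPm.1, fun γ hγ hγ0 => ?_⟩
        by_contra hmγ
        have hle : Nat.findGreatest P c + γ ≤ c := (hlt _ hmγ).le
        have hxm := hPm.2.1
        have hP : P (Nat.findGreatest P c + γ) := ⟨hmγ, by omega, by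
          rw [show Nat.findGreatest P c + γ - x = (Nat.findGreatest P c - x) + γ by omega]
          exact Γ.add_mem hPm.2.2 hγ⟩
        exact Nat.findGreatest_is_greatest (P := P) (by omega) hle hP
      have hmc := hall _ hmPF
      rw [← hmc]
      exact hPm.2.2
    · intro h hxΓ
      apply hc1
      rw [show c - 1 = x + (c - 1 - x) by omega]
      exact Γ.add_mem hxΓ h

end Groth.Agent.S15018
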