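import Groth.Statements.S15019
import Mathlib.Data.Set.Card
import Mathlib.Order.Interval.Finset.Nat
-- import your own Groth.Agent.* helpers here

set_option autoImplicit false
open TFCurv

namespace Groth.Agent.S15019

/-- Let Γ be a numerical semigroup (a submonoid of (ℕ, +) with finite complement), Γ ≠ ℕ, with conductor
c (every n ≥ c lies in Γ, c − 1 does not), let e be its multiplicity (the least nonzero element of
Γ), and let S ⊆ ℕ be a Γ-module in normal form: 0 ∈ S and γ + s ∈ S for all γ ∈ Γ, s ∈ S. Then the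
set of gaps n of S with S ∪ {n} again a Γ-module (n + γ ∈ S for every nonzero γ ∈ Γ) has at most e −
1 elements, and so does the set of nonzero s ∈ S with S ∖ {s} again a Γ-module (s − γ ∉ S for every
nonzero γ ∈ Γ with γ ≤ s). -/
theorem result (Γ : AddSubmonoid ℕ) (c : ℕ) (hc : ∀ n : ℕ, c ≤ n → n ∈ Γ) (hc0 : c ≠ 0) (hc1 : c - 1 ∉ Γ) (e : ℕ) (he : e ∈ Γ) (he0 : e ≠ 0) (hemin : ∀ γ : ℕ, γ ∈ Γ → γ ≠ 0 → e ≤ γ) (S : Set ℕ) (hS0 : (0 : ℕ) ∈ S) (hS : ∀ γ : ℕ, γ ∈ Γ → ∀ s : ℕ, s ∈ S → γ + s ∈ S) : {n : ℕ | n ∉ S ∧ ∀ γ : ℕ, γ ∈ Γ → γ ≠ 0 → n + γ ∈ S}.encard ≤ ((e - 1 : ℕ) : ℕ∞) ∧ {s : ℕ | s ∈ S ∧ s ≠ 0 ∧ ∀ γ : ℕ, γ ∈ Γ → γ ≠ 0 → γ ≤ s → s - γ ∉ S}.encard ≤ ((e - 1 : ℕ) : ℕ∞) := by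
  have he0' : 0 < e := Nat.pos_of_ne_zero he0
  have hmulmem : ∀ k : ℕ, e * k ∈ Γ := fun k => by
    have := Γ.nsmul_mem he k
    rwa [smul_eq_mul, mul_comm] at this
  have hΓS : ∀ γ ∈ Γ, γ ∈ S := fun γ hγ => by simpa using hS γ hγ 0 hS0
  have hcardT : (Set.Ioo 0 e).encard = ((e - 1 : ℕ) : ℕ∞) := by
    rw [← Finset.coe_Ioo, Set.encard_coe_eq_coe_finsetCard, Nat.card_Ioo, Nat.sub_zero]
  have key : ∀ T : Set ℕ, (∀ n ∈ T, n % e ≠ 0) →
      (∀ a ∈ T, ∀ b ∈ T, ∀ k, b = a + e * k → k ≠ 0 → False) →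
      T.encard ≤ ((e - 1 : ℕ) : ℕ∞) := by
    intro T h0 hd
    rw [← hcardT]
    apply Set.encard_le_encard_of_injOn (f := fun n => n % e)
    · intro n hn
      exact ⟨Nat.pos_of_ne_zero (h0 n hn), Nat.mod_lt n he0'⟩
    · have aux : ∀ a ∈ T, ∀ b ∈ T, a ≤ b → a % e = b % e → a = b := by
        intro a ha b hb h hab
        have hdvd : e ∣ b - a := Nat.dvd_of_mod_eq_zero (Nat.sub_mod_eq_zero_of_mod_eq hab.symm)
        obtain ⟨k, hk⟩ := hdvd
        have hb' : b = a + e * k := by rw [← hk, Nat.add_sub_cancel' h]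
        by_cases hk0 : k = 0
        · rw [hk0, mul_zero, add_zero] at hb'; exact hb'.symm
        · exact (hd a ha b hb k hb' hk0).elim
      intro a ha b hb hab
      simp only at hab
      rcases le_total a b with h | h
      · exact aux a ha b hb h hab
      · exact (aux b hb a ha h hab.symm).symm
  constructor
  · apply key
    · rintro n ⟨hnS, -⟩ hn0
      apply hnS
      have h1 : n = e * (n / e) := by
        have := Nat.mod_add_div n e
        rw [hn0, zero_add] at this; exact this.symm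
      rw [h1]; exact hΓS _ (hmulmem _)
    · rintro a ⟨-, ha⟩ b ⟨hbS, -⟩ k hb hk0
      apply hbS
      rw [hb]
      exact ha _ (hmulmem k) (mul_ne_zero he0 hk0)
  · apply key
    · rintro s ⟨-, hs0, hs⟩ hsm
      have h1 : s = e * (s / e) := by
        have := Nat.mod_add_div s e
        rw [hsm, zero_add] at this; exact this.symm
      have hq : s / e ≠ 0 := by
        intro hq; rw [hq, mul_zero] at h1; exact hs0 h1
      apply hs e he he0
      · rw [h1]; exact Nat.le_mul_of_pos_right e (Nat.pos_of_ne_zero hq)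
      · have h2 : s - e = e * (s / e - 1) := by
          rw [Nat.mul_sub, mul_one, ← h1]
        rw [h2]; exact hΓS _ (hmulmem _)
    · rintro a ⟨haS, -, -⟩ b ⟨-, -, hb⟩ k hbk hk0
      apply hb (e * k) (hmulmem k) (mul_ne_zero he0 hk0)
      · rw [hbk]; exact Nat.le_add_left _ _
      · rw [hbk, Nat.add_sub_cancel]; exact haS

end Groth.Agent.S15019
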