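import Groth.Statements.S15021
-- import your own Groth.Agent.* helpers here

set_option autoImplicit false
open TFCurv

namespace Groth.Agent.S15021

/-- Let Γ be a numerical semigroup (a submonoid of (ℕ, +) with finite complement), Γ ≠ ℕ, with conductor
c (every n ≥ c lies in Γ, c − 1 does not). Every subset S of ℕ containing Γ is stable under adding
elements of Γ (so that the diagram of Γ-modules is a full cube on the gaps) if and only if every
nonzero element of Γ is at least c, i.e. Γ consists of 0 and all integers from c on. -/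
theorem result (Γ : AddSubmonoid ℕ) (c : ℕ) (hc : ∀ n : ℕ, c ≤ n → n ∈ Γ) (hc0 : c ≠ 0) (hc1 : c - 1 ∉ Γ) : (∀ S : Set ℕ, (↑Γ : Set ℕ) ⊆ S → ∀ γ : ℕ, γ ∈ Γ → ∀ s : ℕ, s ∈ S → γ + s ∈ S) ↔ ∀ γ : ℕ, γ ∈ Γ → γ ≠ 0 → c ≤ γ := by
  constructor
  · intro h γ hγ hγ0
    by_contra hlt
    push_neg at hlt
    have := h (insert (c - 1 - γ) (Γ : Set ℕ)) (Set.subset_insert _ _) γ hγ (c - 1 - γ) (Set.mem_insert _ _)
    rcases this with h1 | h1
    · omega
    · have e : γ + (c - 1 - γ) = c - 1 := by omega
      rw [e] at h1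
      exact hc1 h1
  · intro h S hS γ hγ s hs
    by_cases hγ0 : γ = 0
    · subst hγ0; simpa using hs
    · exact hS (hc _ (le_trans (h γ hγ hγ0) (Nat.le_add_right _ _)))

end Groth.Agent.S15021
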