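import Groth.Statements.S15029
-- import your own Groth.Agent.* helpers here

set_option autoImplicit false
open TFCurv

namespace Groth.Agent.S15029

/-- Let Γ be a numerical semigroup (a submonoid of (ℕ, +) with finite complement), Γ ≠ ℕ, with conductor
c (every n ≥ c lies in Γ, c − 1 does not), and let S ⊆ ℕ be a Γ-module in normal form (0 ∈ S and γ +
s ∈ S for γ ∈ Γ, s ∈ S). If S ≠ ℕ then some gap n of S can be added (n + γ ∈ S for every nonzero γ ∈
Γ, so S ∪ {n} is a Γ-module), and if S ≠ Γ then some s ∈ S outside Γ can be removed (s − γ ∉ S for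
every nonzero γ ∈ Γ with γ ≤ s, so S ∖ {s} is a Γ-module containing Γ); iterating, S is joined to ℕ
and to Γ by chains in the diagram of Γ-modules, which is therefore connected. -/
theorem result (Γ : AddSubmonoid ℕ) (c : ℕ) (hc : ∀ n : ℕ, c ≤ n → n ∈ Γ) (hc0 : c ≠ 0) (hc1 : c - 1 ∉ Γ) (S : Set ℕ) (hS0 : (0 : ℕ) ∈ S) (hS : ∀ γ : ℕ, γ ∈ Γ → ∀ s : ℕ, s ∈ S → γ + s ∈ S) : (S ≠ Set.univ → ∃ n : ℕ, n ∉ S ∧ ∀ γ : ℕ, γ ∈ Γ → γ ≠ 0 → n + γ ∈ S) ∧ ((↑Γ : Set ℕ) ≠ S → ∃ s : ℕ, s ∈ S ∧ s ∉ Γ ∧ ∀ γ : ℕ, γ ∈ Γ → γ ≠ 0 → γ ≤ s → s - γ ∉ S) := by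
  classical
  have hΓS : ∀ γ ∈ Γ, γ ∈ S := fun γ hγ => by simpa using hS γ hγ 0 hS0
  constructor
  · intro hne
    obtain ⟨n₀, hn₀⟩ : ∃ n, n ∉ S := by
      by_contra h; push_neg at h; exact hne (Set.eq_univ_of_forall h)
    have hn₀c : n₀ ≤ c := by
      by_contra hlt; push_neg at hlt; exact hn₀ (hΓS _ (hc _ hlt.le))
    refine ⟨Nat.findGreatest (fun n => n ∉ S) c, Nat.findGreatest_spec (P := fun n => n ∉ S) hn₀c hn₀, ?_⟩
    intro γ hγ hγ0
    by_cases hle : Nat.findGreatest (fun n => n ∉ S) c + γ ≤ c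
    · by_contra hns
      exact Nat.findGreatest_is_greatest (P := fun n => n ∉ S) (by omega) hle hns
    · push_neg at hle
      exact hΓS _ (hc _ hle.le)
  · intro hne
    have hex : ∃ s, s ∈ S ∧ s ∉ Γ := by
      by_contra h
      push_neg at h
      apply hne
      ext x
      exact ⟨fun hx => hΓS x hx, fun hx => h x hx⟩
    refine ⟨Nat.find hex, (Nat.find_spec hex).1, (Nat.find_spec hex).2, ?_⟩
    intro γ hγ hγ0 hle hmem
    by_cases hmΓ : Nat.find hex - γ ∈ Γ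
    · apply (Nat.find_spec hex).2
      have := Γ.add_mem hγ hmΓ
      rwa [Nat.add_sub_cancel' hle] at this
    · exact Nat.find_min hex (by omega : Nat.find hex - γ < Nat.find hex) ⟨hmem, hmΓ⟩

end Groth.Agent.S15029
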