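import Groth.Statements.S15036
import Mathlib.Data.Nat.Nth
import Mathlib.Order.Preorder.Finite
-- import your own Groth.Agent.* helpers here

set_option autoImplicit false
open TFCurv

namespace Groth.Agent.S15036

/-- Let Γ be a numerical semigroup (a submonoid of (ℕ, +) with finite complement), Γ ≠ ℕ, with conductor
c (every n ≥ c lies in Γ, c − 1 does not); let S ⊆ ℕ be a Γ-module in normal form (0 ∈ S, γ + s ∈ S
for γ ∈ Γ, s ∈ S) with conductor c(S) (all n ≥ c(S) in S, c(S) − 1 ∉ S), and let s be a gap of S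
such that S ∪ {s} is again a Γ-module. Enumerate S increasingly as s_0 < s_1 < ⋯ and put τ_i(S) =
s_i + ℓ(S), where ℓ counts the gaps of Γ filled; since ℓ(S ∪ {s}) = ℓ(S) + 1, the termwise
comparison τ(S) ≤ τ(S ∪ {s}) says that the i-th element of S is at most one more than the i-th
element of S ∪ {s} for every i. This holds if and only if s = c(S) − 1, the largest gap of S. -/
theorem result (Γ : AddSubmonoid ℕ) (c : ℕ) (hc : ∀ n : ℕ, c ≤ n → n ∈ Γ) (hc0 : c ≠ 0) (hc1 : c - 1 ∉ Γ) (S : Set ℕ) (hS0 : (0 : ℕ) ∈ S) (hS : ∀ γ : ℕ, γ ∈ Γ → ∀ s : ℕ, s ∈ S → γ + s ∈ S) (cS : ℕ) (hcS : ∀ n : ℕ, cS ≤ n → n ∈ S) (hcS0 : cS ≠ 0) (hcS1 : cS - 1 ∉ S) (s : ℕ) (hs : s ∉ S) (hs' : ∀ γ : ℕ, γ ∈ Γ → γ ≠ 0 → s + γ ∈ S) : (∀ i : ℕ, Nat.nth (fun m => m ∈ S) i ≤ Nat.nth (fun m => m ∈ insert s S) i + 1) ↔ s + 1 = cS := by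
  classical
  set S' : Set ℕ := insert s S with hS'
  have hsS' : s ∈ S' := Set.mem_insert _ _
  have hSS' : ∀ x, x ∈ S → x ∈ S' := fun x hx => Set.mem_insert_of_mem _ hx
  have hS'S : ∀ x, x ∈ S' → x ≠ s → x ∈ S := fun x hx hxs =>
    (Set.mem_insert_iff.mp hx).resolve_left hxs
  have hinf : ({m | m ∈ S} : Set ℕ).Infinite := by
    apply Set.infinite_of_forall_exists_gt
    intro a
    exact ⟨cS + a + 1, hcS _ (by omega), by omega⟩
  have hinf' : ({m | m ∈ S'} : Set ℕ).Infinite :=
    hinf.mono (fun x hx => hSS' x hx)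
  have hcount : ∀ n, Nat.count (fun m => m ∈ S') n =
      Nat.count (fun m => m ∈ S) n + if s < n then 1 else 0 := by
    intro n
    induction n with
    | zero => simp
    | succ n ih =>
      rw [Nat.count_succ, Nat.count_succ, ih]
      by_cases hns : n = s
      · subst hns
        have h1 : ¬ (n < n) := lt_irrefl n
        have h2 : n < n + 1 := Nat.lt_succ_self n
        rw [if_neg h1, if_pos hsS', if_neg hs, if_pos h2]
      · have e1 : (n ∈ S') ↔ (n ∈ S) := ⟨fun h => hS'S n h hns, hSS' n⟩
        by_cases hlt : s < n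
        · have h2 : s < n + 1 := by omega
          rw [if_pos hlt, if_pos h2]
          by_cases hn : n ∈ S
          · rw [if_pos hn, if_pos (e1.mpr hn)]
          · rw [if_neg hn, if_neg (fun h => hn (e1.mp h))]
        · have h2 : ¬ s < n + 1 := by omega
          rw [if_neg hlt, if_neg h2]
          by_cases hn : n ∈ S
          · rw [if_pos hn, if_pos (e1.mpr hn)]
          · rw [if_neg hn, if_neg (fun h => hn (e1.mp h))]
  have hcrit : ∀ n, n ∈ S' → (Nat.nth (fun m => m ∈ S) (Nat.count (fun m => m ∈ S') n) ≤ n + 1 ↔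
      Nat.count (fun m => m ∈ S') n < Nat.count (fun m => m ∈ S) (n + 2)) := by
    intro n hn
    rw [Nat.lt_nth_iff_count_lt hinf]
    constructor <;> intro h <;> omega
  have hc2 : ∀ n, Nat.count (fun m => m ∈ S) (n + 2) = Nat.count (fun m => m ∈ S) n +
      (if n ∈ S then 1 else 0) + (if n + 1 ∈ S then 1 else 0) := by
    intro n
    rw [show n + 2 = n + 1 + 1 from rfl, Nat.count_succ, Nat.count_succ]
  constructor
  · intro hC
    have hall : ∀ j, s + 1 + j ∈ S := by
      intro j
      induction j with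
      | zero =>
        have h := (hcrit s hsS').mp (by
          have := hC (Nat.count (fun m => m ∈ S') s)
          rwa [Nat.nth_count hsS'] at this)
        rw [hcount s, hc2 s, if_neg (lt_irrefl s), if_neg hs] at h
        by_contra hne
        rw [add_zero] at hne
        rw [if_neg hne] at h
        omega
      | succ j ih =>
        have hn' : s + 1 + j ∈ S' := hSS' _ ih
        have h := (hcrit _ hn').mp (by
          have := hC (Nat.count (fun m => m ∈ S') (s + 1 + j))
          rwa [Nat.nth_count hn'] at this)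
        rw [hcount, hc2, if_pos (by omega), if_pos ih] at h
        by_contra hne
        rw [show s + 1 + (j + 1) = s + 1 + j + 1 by omega] at hne
        rw [if_neg hne] at h
        omega
    have h1 : cS - 1 ≤ s := by
      by_contra h
      exact hcS1 (by have := hall (cS - 1 - (s + 1)); rwa [show s + 1 + (cS - 1 - (s + 1)) = cS - 1 by omega] at this)
    have h2 : s < cS := by
      by_contra h
      exact hs (hcS s (by omega))
    omega
  · intro hsc i
    have hm : Nat.nth (fun m => m ∈ S') i ∈ S' := Nat.nth_mem_of_infinite hinf' i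
    have hi : Nat.count (fun m => m ∈ S') (Nat.nth (fun m => m ∈ S') i) = i :=
      Nat.count_nth_of_infinite hinf' i
    set m := Nat.nth (fun m => m ∈ S') i with hm_def
    rw [← hi]
    apply (hcrit m hm).mpr
    rw [hcount, hc2]
    rcases lt_trichotomy m s with h | h | h
    · have hmS : m ∈ S := hS'S m hm (by omega)
      rw [if_neg (by omega), if_pos hmS]
      omega
    · rw [h]
      rw [if_neg (lt_irrefl _), if_neg hs, if_pos (hcS _ (by omega))]
      omega
    · have hmS : m ∈ S := hS'S m hm (by omega)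
      rw [if_pos h, if_pos hmS, if_pos (hcS _ (by omega))]
      omega

end Groth.Agent.S15036
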