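import Groth.Statements.S15037
import Mathlib.Data.Nat.Nth
import Mathlib.Order.Preorder.Finite
import Mathlib.Data.Set.Card
-- import your own Groth.Agent.* helpers here

set_option autoImplicit false
open TFCurv

namespace Groth.Agent.S15037

theorem nth_bounds (T : Set ℕ) (cT : ℕ) (hcT : ∀ n, cT ≤ n → n ∈ T) (hcT1 : cT = 0 ∨ cT - 1 ∉ T) :
    (∀ i, Nat.nth (fun m => m ∈ T) i ≤ i + Tᶜ.ncard) ∧
    (∀ i, (T ∩ Set.Iio cT).ncard ≤ i → Nat.nth (fun m => m ∈ T) i = i + Tᶜ.ncard) ∧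
    (∀ i, i < (T ∩ Set.Iio cT).ncard → Nat.nth (fun m => m ∈ T) i < i + Tᶜ.ncard) := by
  classical
  have hinf : ({m | m ∈ T} : Set ℕ).Infinite := by
    apply Set.infinite_of_forall_exists_gt
    intro a; exact ⟨cT + a + 1, hcT _ (by omega), by omega⟩
  have hcompl_sub : Tᶜ ⊆ {m | m < cT} := by
    intro x hx; by_contra h; exact hx (hcT x (not_lt.mp h))
  have hfin : Tᶜ.Finite := (Set.finite_lt_nat cT).subset hcompl_sub
  have hkey : ∀ n, Nat.count (fun m => m ∈ T) n + (Tᶜ ∩ Set.Iio n).ncard = n := by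
    intro n
    rw [Nat.count_eq_card_filter_range]
    have : Tᶜ ∩ Set.Iio n = ↑((Finset.range n).filter (fun m => m ∉ T)) := by
      ext m; simp [and_comm]
    rw [this, Set.ncard_coe_finset, Finset.card_filter_add_card_filter_not,
      Finset.card_range]
  have hk : (T ∩ Set.Iio cT).ncard = Nat.count (fun m => m ∈ T) cT := by
    rw [Nat.count_eq_card_filter_range]
    have : T ∩ Set.Iio cT = ↑((Finset.range cT).filter (fun m => m ∈ T)) := by
      ext m; simp [and_comm]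
    rw [this, Set.ncard_coe_finset]
  have hx : ∀ i, Nat.count (fun m => m ∈ T) (Nat.nth (fun m => m ∈ T) i) = i :=
    fun i => Nat.count_nth_of_infinite hinf i
  refine ⟨fun i => ?_, fun i hi => ?_, fun i hi => ?_⟩
  · have h1 := hkey (Nat.nth (fun m => m ∈ T) i)
    rw [hx] at h1
    have h2 : (Tᶜ ∩ Set.Iio (Nat.nth (fun m => m ∈ T) i)).ncard ≤ Tᶜ.ncard :=
      Set.ncard_le_ncard Set.inter_subset_left hfin
    omega
  · have hle : cT ≤ Nat.nth (fun m => m ∈ T) i := by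
      rw [← Nat.count_le_iff_le_nth hinf, ← hk]; exact hi
    have h1 := hkey (Nat.nth (fun m => m ∈ T) i)
    rw [hx] at h1
    have h2 : Tᶜ ∩ Set.Iio (Nat.nth (fun m => m ∈ T) i) = Tᶜ := by
      apply Set.inter_eq_left.mpr
      intro y hy; exact lt_of_lt_of_le (hcompl_sub hy) hle
    rw [h2] at h1
    omega
  · have hlt : Nat.nth (fun m => m ∈ T) i < cT := by
      by_contra h
      push Not at h
      rw [← Nat.count_le_iff_le_nth hinf, ← hk] at h
      omega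
    have hmem : Nat.nth (fun m => m ∈ T) i ∈ T := Nat.nth_mem_of_infinite hinf i
    have hc1 : cT - 1 ∉ T := by
      rcases hcT1 with h | h
      · omega
      · exact h
    have hne : Nat.nth (fun m => m ∈ T) i ≠ cT - 1 := by
      intro h; rw [h] at hmem; exact hc1 hmem
    have h1 := hkey (Nat.nth (fun m => m ∈ T) i)
    rw [hx] at h1
    have h2 : (Tᶜ ∩ Set.Iio (Nat.nth (fun m => m ∈ T) i)).ncard < Tᶜ.ncard := by
      apply Set.ncard_lt_ncard _ hfin
      refine LE.le.ssubset_of_not_superset Set.inter_subset_left (fun hsub => ?_)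
      have := hsub (show cT - 1 ∈ Tᶜ from hc1)
      simp only [Set.mem_inter_iff, Set.mem_Iio] at this
      omega
    omega

/-- Let Γ be a numerical semigroup (a submonoid of (ℕ, +) with finite complement), Γ ≠ ℕ, with conductor
c (every n ≥ c lies in Γ, c − 1 does not); let S and S' ⊆ ℕ be Γ-modules in normal form with
conductors c(S), c(S'), let δ(S), δ(S') be their numbers of gaps and r(S), r(S') their numbers of
elements below the conductor, and enumerate them increasingly as s_i, s'_i (i ≥ 0). With τ_i(S) =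
s_i + ℓ(S) and ℓ(S) = δ(Γ) − δ(S), the termwise order τ(S) ≤ τ(S') reads s_i + δ(S') ≤ s'_i + δ(S)
for all i. It holds if and only if r(S') ≤ r(S) and s_i + δ(S') ≤ s'_i + δ(S) for all i < r(S')
(beyond r(S) the entries τ_i(S) = i + δ(Γ) are the largest possible). -/
theorem result (Γ : AddSubmonoid ℕ) (c : ℕ) (hc : ∀ n : ℕ, c ≤ n → n ∈ Γ) (hc0 : c ≠ 0) (hc1 : c - 1 ∉ Γ) (S : Set ℕ) (hS0 : (0 : ℕ) ∈ S) (hS : ∀ γ : ℕ, γ ∈ Γ → ∀ s : ℕ, s ∈ S → γ + s ∈ S) (cS : ℕ) (hcS : ∀ n : ℕ, cS ≤ n → n ∈ S) (hcS1 : cS = 0 ∨ cS - 1 ∉ S) (S' : Set ℕ) (hS'0 : (0 : ℕ) ∈ S') (hS' : ∀ γ : ℕ, γ ∈ Γ → ∀ s : ℕ, s ∈ S' → γ + s ∈ S') (cS' : ℕ) (hcS' : ∀ n : ℕ, cS' ≤ n → n ∈ S') (hcS'1 : cS' = 0 ∨ cS' - 1 ∉ S') : (∀ i : ℕ, Nat.nth (fun m => m ∈ S) i + S'ᶜ.ncard ≤ Nat.nth (fun m => m ∈ S') i + Sᶜ.ncard) ↔ ((S' ∩ Set.Iio cS').ncard ≤ (S ∩ Set.Iio cS).ncard ∧ ∀ i : ℕ, i < (S' ∩ Set.Iio cS').ncard → Nat.nth (fun m => m ∈ S) i + S'ᶜ.ncard ≤ Nat.nth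 (fun m => m ∈ S') i + Sᶜ.ncard) := by
  obtain ⟨L1, L2, L3⟩ := nth_bounds S cS hcS hcS1
  obtain ⟨L1', L2', L3'⟩ := nth_bounds S' cS' hcS' hcS'1
  constructor
  · intro hC
    refine ⟨?_, fun i _ => hC i⟩
    by_contra hlt
    push Not at hlt
    have h1 := hC (S ∩ Set.Iio cS).ncard
    have h2 := L2 (S ∩ Set.Iio cS).ncard le_rfl
    have h3 := L3' (S ∩ Set.Iio cS).ncard hlt
    omega
  · rintro ⟨-, h⟩ i
    by_cases hi : i < (S' ∩ Set.Iio cS').ncard
    · exact h i hi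
    · have h2 := L2' i (not_lt.mp hi)
      have h1 := L1 i
      omega

end Groth.Agent.S15037
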