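import Groth.Statements.S15038
import Mathlib.Algebra.Group.Submonoid.Operations
import Mathlib.Order.Interval.Finset.Nat
import Mathlib.Algebra.Group.Submonoid.Membership
-- import your own Groth.Agent.* helpers here

set_option autoImplicit false
open TFCurv

namespace Groth.Agent.S15038

/-- Let Γ be a numerical semigroup (a submonoid of (ℕ, +) with finite complement), Γ ≠ ℕ, with conductor
c (every n ≥ c lies in Γ, c − 1 does not). If Γ is symmetric (for x < c, x is a gap exactly when c −
1 − x ∈ Γ) and its multiplicity e, the least nonzero element of Γ, is greater than 2, then Γ is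
generated as an additive monoid by at most e − 1 elements. -/
theorem result (Γ : AddSubmonoid ℕ) (c : ℕ) (hc : ∀ n : ℕ, c ≤ n → n ∈ Γ) (hc0 : c ≠ 0) (hc1 : c - 1 ∉ Γ) (hsymm : ∀ x : ℕ, x < c → (x ∉ Γ ↔ c - 1 - x ∈ Γ)) (e : ℕ) (he : e ∈ Γ) (he0 : e ≠ 0) (hemin : ∀ γ : ℕ, γ ∈ Γ → γ ≠ 0 → e ≤ γ) (he2 : 2 < e) : ∃ G : Finset ℕ, G.card ≤ e - 1 ∧ AddSubmonoid.closure (↑G : Set ℕ) = Γ := by
  classical
  have he0' : 0 < e := by omega
  have hmulmem : ∀ k : ℕ, e * k ∈ Γ := fun k => by
    have := Γ.nsmul_mem he k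
    rwa [smul_eq_mul, mul_comm] at this
  have hcong : ∀ a b, a ≤ b → a % e = b % e → ∃ k, b = a + e * k := by
    intro a b hab h
    obtain ⟨k, hk⟩ := Nat.dvd_of_mod_eq_zero (Nat.sub_mod_eq_zero_of_mod_eq h.symm)
    exact ⟨k, by rw [← hk, Nat.add_sub_cancel' hab]⟩
  have h1 : 1 ∉ Γ := fun h => by have := hemin 1 h one_ne_zero; omega
  have hec_le : e ≤ c := hemin c (hc c le_rfl) hc0
  have hc3 : 2 < c := by omega
  have hec : e < c := by
    by_contra h
    have h' := (hsymm 1 (by omega)).mp h1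
    have := hemin (c - 1 - 1) h' (by omega)
    omega
  have hexw : ∀ r, ∃ w, w ∈ Γ ∧ w % e = r % e := fun r =>
    ⟨c * e + r % e, hc _ (le_trans (Nat.le_mul_of_pos_right c he0') (Nat.le_add_right _ _)),
      by simp [Nat.add_mod, Nat.mod_mod]⟩
  let W : ℕ → ℕ := fun r => Nat.find (hexw r)
  have hWΓ : ∀ r, W r ∈ Γ := fun r => (Nat.find_spec (hexw r)).1
  have hWr : ∀ r, W r % e = r % e := fun r => (Nat.find_spec (hexw r)).2
  have hWmin : ∀ r m, m ∈ Γ → m % e = r % e → W r ≤ m := fun r m hm hmr =>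
    Nat.find_min' (hexw r) ⟨hm, hmr⟩
  have hres : ∀ r, 0 < r → r < e → W r % e = r ∧ e ≤ W r ∧ W r - e < c ∧
      c - 1 - (W r - e) ∈ Γ := by
    intro r hr0 hre
    have hwr : W r % e = r := by rw [hWr, Nat.mod_eq_of_lt hre]
    have hw0 : W r ≠ 0 := by intro h; rw [h, Nat.zero_mod] at hwr; omega
    have hwe : e ≤ W r := hemin _ (hWΓ r) hw0
    have hmod : (W r - e) % e = W r % e := by
      conv_rhs => rw [← Nat.sub_add_cancel hwe]
      rw [Nat.add_mod_right]
    have hwe' : W r - e ∉ Γ := by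
      intro hmem
      have := hWmin r (W r - e) hmem (by rw [hmod, hWr])
      omega
    have hlt : W r - e < c := by
      by_contra h; exact hwe' (hc _ (by omega))
    exact ⟨hwr, hwe, hlt, (hsymm (W r - e) hlt).mp hwe'⟩
  have hdecF : ∃ a b, a ∈ Γ ∧ b ∈ Γ ∧ a ≠ 0 ∧ b ≠ 0 ∧ a + b = c - 1 + e := by
    obtain ⟨hw1r, hw1e, hw1c, hw1s⟩ := hres 1 (by omega) (by omega)
    obtain ⟨hw2r, hw2e, hw2c, hw2s⟩ := hres 2 (by omega) (by omega)
    by_cases hb1 : c - 1 - (W 1 - e) = 0
    · by_cases hb2 : c - 1 - (W 2 - e) = 0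
      · exfalso
        have : W 1 = W 2 := by omega
        rw [this, hw2r] at hw1r
        omega
      · exact ⟨W 2, c - 1 - (W 2 - e), hWΓ 2, hw2s, by omega, hb2, by omega⟩
    · exact ⟨W 1, c - 1 - (W 1 - e), hWΓ 1, hw1s, by omega, hb1, by omega⟩
  set r0 := (c - 1) % e with hr0
  have hr0pos : 0 < r0 := by
    by_contra h
    have h0 : (c - 1) % e = 0 := by omega
    have : c - 1 = e * ((c - 1) / e) := by have := Nat.mod_add_div (c - 1) e; omega
    exact hc1 (this ▸ hmulmem _)
  have hr0lt : r0 < e := Nat.mod_lt _ he0'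
  have hWr0 : W r0 = c - 1 + e := by
    apply le_antisymm
    · apply hWmin r0 _ (hc _ (by omega))
      rw [hr0, Nat.mod_mod, Nat.add_mod_right]
    · by_contra hlt
      push Not at hlt
      have hmod : W r0 % e = (c - 1) % e := by rw [hWr, hr0, Nat.mod_mod]
      rcases le_or_gt (W r0) (c - 1) with hle | hgt
      · obtain ⟨k, hk⟩ := hcong _ _ hle hmod
        exact hc1 (hk ▸ Γ.add_mem (hWΓ r0) (hmulmem k))
      · obtain ⟨k, hk⟩ := hcong _ _ hgt.le hmod.symm
        rcases Nat.eq_zero_or_pos k with hk0 | hk0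
        · rw [hk0] at hk; omega
        · have : e ≤ e * k := Nat.le_mul_of_pos_right e hk0
          omega
  refine ⟨insert e (((Finset.Ioo 0 e).erase r0).image W), ?_, ?_⟩
  · have hc1' : (((Finset.Ioo 0 e).erase r0).image W).card ≤ e - 2 := by
      refine (Finset.card_image_le).trans ?_
      rw [Finset.card_erase_of_mem (Finset.mem_Ioo.mpr ⟨hr0pos, hr0lt⟩), Nat.card_Ioo]
      omega
    refine (Finset.card_insert_le _ _).trans ?_
    omega
  · apply le_antisymm
    · rw [AddSubmonoid.closure_le]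
      intro x hx
      rw [Finset.coe_insert, Set.mem_insert_iff] at hx
      rcases hx with rfl | hx
      · exact he
      · obtain ⟨r, -, rfl⟩ := Finset.mem_image.mp (Finset.mem_coe.mp hx)
        exact hWΓ r
    · intro γ hγ
      revert hγ
      refine Nat.strong_induction_on γ ?_
      intro γ ih hγ
      set G := insert e (((Finset.Ioo 0 e).erase r0).image W) with hG
      have heG : e ∈ AddSubmonoid.closure (↑G : Set ℕ) :=
        AddSubmonoid.subset_closure (by rw [hG, Finset.coe_insert]; exact Set.mem_insert _ _)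
      have hmulG : ∀ k, e * k ∈ AddSubmonoid.closure (↑G : Set ℕ) := fun k => by
        have := AddSubmonoid.nsmul_mem _ heG k
        rwa [smul_eq_mul, mul_comm] at this
      obtain ⟨k, hk⟩ := hcong (W (γ % e)) γ (hWmin _ γ hγ (Nat.mod_mod _ _).symm)
        (by rw [hWr, Nat.mod_mod])
      have hWG : W (γ % e) ∈ AddSubmonoid.closure (↑G : Set ℕ) := by
        by_cases hr : γ % e = 0
        · have : W (γ % e) = 0 := by
            have := hWmin (γ % e) 0 Γ.zero_mem (by rw [hr, Nat.zero_mod])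
            omega
          rw [this]; exact AddSubmonoid.zero_mem _
        · by_cases hr' : γ % e = r0
          · rw [hr', hWr0]
            obtain ⟨a, b, ha, hb, ha0, hb0, hab⟩ := hdecF
            have hle : W (γ % e) ≤ γ := hWmin _ γ hγ (Nat.mod_mod _ _).symm
            rw [hr', hWr0] at hle
            rw [← hab]
            exact AddSubmonoid.add_mem _ (ih a (by omega) ha) (ih b (by omega) hb)
          · apply AddSubmonoid.subset_closure
            rw [hG, Finset.coe_insert]
            apply Set.mem_insert_of_mem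
            rw [Finset.mem_coe]
            apply Finset.mem_image_of_mem
            rw [Finset.mem_erase, Finset.mem_Ioo]
            exact ⟨hr', Nat.pos_of_ne_zero hr, Nat.mod_lt _ he0'⟩
      rw [hk]
      exact AddSubmonoid.add_mem _ hWG (hmulG k)

end Groth.Agent.S15038
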