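import Groth.Statements.S1516
import Groth.Agent.Lib.Helper3.FEt
-- import your own Groth.Agent.* helpers here

set_option autoImplicit false
universe u
open FlatMor

namespace Groth.Agent.S1516

open AlgebraicGeometry CategoryTheory Limits in
/-- Let f : X → S be formally étale (unique infinitesimal lifting against first order thickenings of
affine schemes). Then for every first order thickening t : T → T' of schemes and every commutative
square with T → X on top and T' → S at the bottom there is exactly one lift T' → X. -/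
theorem result {X S : Scheme.{u}} (f : X ⟶ S) (hf : MoreMor.IsFormallyEtaleHom f)
    {T T' : Scheme.{u}} (t : T ⟶ T') (ht : MoreMor.IsFirstOrderThickening t) (a : T ⟶ X) (b : T' ⟶ S) (w : t ≫ b = a ≫ f) :
    ∃! l : T' ⟶ X, t ≫ l = a ∧ l ≫ f = b := by
  open Groth.Agent.Lib.Helper3.FEt in
  have hFU : FormallyUnramified f :=
    formallyUnramified_of_formallyEtale f (formallyEtale_of_isFormallyEtaleHom f hf)
  apply Groth.Agent.Lib.Helper3.FEt.glue_lift f t ht a b
  intro x
  obtain ⟨_, ⟨W, hW, rfl⟩, hxW, -⟩ :=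
    T'.isBasis_affineOpens.exists_subset_of_mem_open (Set.mem_univ x) isOpen_univ
  refine ⟨W, hxW, ?_⟩
  have hτ := Groth.Agent.Lib.Helper3.FEt.isFirstOrderThickening_restrict t ht W
  have : IsAffine (W : Scheme) := hW
  obtain ⟨B, _, J, e, e', hJ, he⟩ := Groth.Agent.Lib.Helper3.FEt.exists_affine_normalForm (t ∣_ W) hτ
  have he' : Spec.map (CommRingCat.ofHom (Ideal.Quotient.mk J)) ≫ e.inv = e'.inv ≫ (t ∣_ W) := by
    rw [Iso.eq_inv_comp, ← Category.assoc, ← he, Category.assoc, Iso.hom_inv_id, Category.comp_id]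
  have hw : Spec.map (CommRingCat.ofHom (Ideal.Quotient.mk J)) ≫ e.inv ≫ (Scheme.Opens.ι W) ≫ b =
      (e'.inv ≫ (t ⁻¹ᵁ W).ι ≫ a) ≫ f := by
    rw [← Category.assoc, he', Category.assoc, ← Category.assoc (t ∣_ W), morphismRestrict_ι,
      Category.assoc, w]
    simp only [Category.assoc]
  obtain ⟨l', ⟨hl'1, hl'2⟩, -⟩ := hf B J hJ _ _ hw
  refine ⟨e.hom ≫ l', ?_, ?_⟩
  · rw [← Category.assoc, he, Category.assoc, hl'1, Iso.hom_inv_id_assoc]
  · rw [Category.assoc, hl'2, Iso.hom_inv_id_assoc]

end Groth.Agent.S1516
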