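import Groth.Statements.S15162
import Mathlib.LinearAlgebra.Matrix.GeneralLinearGroup.Basic
import Mathlib.LinearAlgebra.Matrix.Determinant.Basic
import Mathlib.LinearAlgebra.Matrix.Trace
import Mathlib.Tactic.LinearCombination
import Mathlib.GroupTheory.OrderOfElement
import Mathlib.Algebra.Ring.Int.Units
-- import your own Groth.Agent.* helpers here

set_option autoImplicit false
open Matrix
open BddFin

namespace Groth.Agent.S15162

theorem unip_fin_order (M : Matrix (Fin 2) (Fin 2) ℤ) (hN : (M - 1) * (M - 1) = 0) (n : ℕ)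
    (hn : 0 < n) (hMn : M ^ n = 1) : M = 1 := by
  set N := M - 1 with hNdef
  have hM : M = 1 + N := by rw [hNdef]; abel
  have hpow : ∀ k : ℕ, M ^ k = 1 + (k : ℤ) • N := by
    intro k
    induction k with
    | zero => simp
    | succ k ih =>
      rw [pow_succ, ih, hM]
      rw [add_mul, one_mul, mul_add, mul_one, smul_mul_assoc, ← hM, hNdef] at *
      rw [hN, smul_zero, add_zero]
      push_cast
      rw [add_smul, one_smul]
      abel
  rw [hpow n] at hMn
  have h0 : (n : ℤ) • N = 0 := by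
    have := congrArg (fun X => X - 1) hMn
    simpa using this
  have hN0 : N = 0 := by
    ext i j
    have := congrFun (congrFun h0 i) j
    simp only [Matrix.smul_apply, smul_eq_mul, Matrix.zero_apply] at this
    rcases mul_eq_zero.mp this with h | h
    · omega
    · simpa using h
  rw [hM, hN0, add_zero]

theorem cayley_hamilton_two (M : Matrix (Fin 2) (Fin 2) ℤ) :
    M * M = M.trace • M - M.det • (1 : Matrix (Fin 2) (Fin 2) ℤ) := by
  ext i j
  fin_cases i <;> fin_cases j <;>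
    simp only [Matrix.sub_apply, Matrix.smul_apply, Matrix.mul_apply, Fin.sum_univ_two,
      Matrix.trace_fin_two, Matrix.det_fin_two, Matrix.one_apply, smul_eq_mul, Fin.isValue,
      Fin.zero_eta, Fin.mk_one, if_true, if_false, Fin.zero_ne_one,
      (by decide : (1 : Fin 2) ≠ 0)] <;> ring

theorem det_one_fix (M : Matrix (Fin 2) (Fin 2) ℤ) (hdet : M.det = 1) (v : Fin 2 → ℤ)
    (hv : v ≠ 0) (hMv : M *ᵥ v = v) (n : ℕ) (hn : 0 < n) (hMn : M ^ n = 1) : M = 1 := by
  have hCH := cayley_hamilton_two M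
  rw [hdet, one_smul] at hCH
  have ht : M.trace = 2 := by
    have h1 : (M * M) *ᵥ v = (M.trace • M - 1) *ᵥ v := by rw [hCH]
    rw [← Matrix.mulVec_mulVec, hMv, hMv, Matrix.sub_mulVec, Matrix.smul_mulVec, hMv,
      Matrix.one_mulVec] at h1
    have h2 : (M.trace - 2) • v = 0 := by
      rw [sub_smul, two_smul, show M.trace • v - (v + v) = (M.trace • v - v) - v by abel, ← h1,
        sub_self]
    rcases smul_eq_zero.mp h2 with h | h
    · linarith
    · exact absurd h hv
  apply unip_fin_order M _ n hn hMn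
  rw [sub_mul, mul_sub, mul_sub, hCH, ht, mul_one, one_mul, one_mul]
  rw [two_smul]; abel

/-- Let Γ be a finite subgroup of GL_2(ℤ) acting on ℤ² by matrix multiplication. If every element of Γ
has a non-zero fixed vector in ℤ², then there is a non-zero vector of ℤ² fixed by all of Γ. -/
theorem result
    (Γ : Subgroup (Matrix.GeneralLinearGroup (Fin 2) ℤ)) [Finite Γ]
    (h : ∀ γ ∈ Γ, ∃ v : Fin 2 → ℤ, v ≠ 0 ∧ (γ : Matrix (Fin 2) (Fin 2) ℤ) *ᵥ v = v) :
    ∃ v : Fin 2 → ℤ, v ≠ 0 ∧ ∀ γ ∈ Γ, (γ : Matrix (Fin 2) (Fin 2) ℤ) *ᵥ v = v := by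
  classical
  have hdet : ∀ γ : Matrix.GeneralLinearGroup (Fin 2) ℤ,
      (γ : Matrix (Fin 2) (Fin 2) ℤ).det = 1 ∨ (γ : Matrix (Fin 2) (Fin 2) ℤ).det = -1 := by
    intro γ
    apply Int.isUnit_iff.mp
    have := (Matrix.GeneralLinearGroup.det γ).isUnit
    simpa using this
  have hord : ∀ γ ∈ Γ, ∃ n : ℕ, 0 < n ∧ (γ : Matrix (Fin 2) (Fin 2) ℤ) ^ n = 1 := by
    intro γ hγ
    have hfin : IsOfFinOrder (⟨γ, hγ⟩ : Γ) := isOfFinOrder_of_finite _
    obtain ⟨n, hn, hpow⟩ := hfin.exists_pow_eq_one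
    refine ⟨n, hn, ?_⟩
    have : (γ ^ n : Matrix.GeneralLinearGroup (Fin 2) ℤ) = 1 := by
      have := congrArg Subtype.val hpow
      simpa using this
    rw [← Units.val_pow_eq_pow_val, this, Units.val_one]
  have hone : ∀ γ ∈ Γ, (γ : Matrix (Fin 2) (Fin 2) ℤ).det = 1 → γ = 1 := by
    intro γ hγ hd
    obtain ⟨v, hv, hγv⟩ := h γ hγ
    obtain ⟨n, hn, hpow⟩ := hord γ hγ
    have := det_one_fix _ hd v hv hγv n hn hpow
    exact Units.ext this
  by_cases hex : ∃ r ∈ Γ, (r : Matrix (Fin 2) (Fin 2) ℤ).det = -1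
  · obtain ⟨r, hr, hrd⟩ := hex
    obtain ⟨v, hv, hrv⟩ := h r hr
    refine ⟨v, hv, ?_⟩
    intro γ hγ
    rcases hdet γ with hd | hd
    · rw [hone γ hγ hd]; simp
    · have hγr : γ * r = 1 := by
        apply hone (γ * r) (Γ.mul_mem hγ hr)
        rw [Units.val_mul, Matrix.det_mul, hd, hrd]; norm_num
      have hr2 : r * r = 1 := by
        apply hone (r * r) (Γ.mul_mem hr hr)
        rw [Units.val_mul, Matrix.det_mul, hrd]; norm_num
      have : γ = r := by
        calc γ = γ * (r * r) := by rw [hr2, mul_one]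
          _ = (γ * r) * r := by rw [mul_assoc]
          _ = r := by rw [hγr, one_mul]
      rw [this]; exact hrv
  · push Not at hex
    refine ⟨![1, 0], by simp, ?_⟩
    intro γ hγ
    rcases hdet γ with hd | hd
    · rw [hone γ hγ hd]; simp
    · exact absurd hd (hex γ hγ)

end Groth.Agent.S15162
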