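import Groth.Statements.S15163
import Groth.Agent.S15162
import Mathlib.LinearAlgebra.Matrix.Adjugate
-- import your own Groth.Agent.* helpers here

set_option autoImplicit false
open Matrix
open BddFin

namespace Groth.Agent.S15163

theorem trace_bound (N : Matrix (Fin 2) (Fin 2) ℤ) (hdet : N.det = 1) (n : ℕ) (hn : 0 < n)
    (hN : N ^ n = 1) : |N.trace| ≤ 2 := by
  by_contra hcon
  push Not at hcon
  set t := N.trace with ht
  have hCH := Groth.Agent.S15162.cayley_hamilton_two N
  rw [hdet, one_smul] at hCH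
  have hrec : ∀ k : ℕ, N ^ (k + 2) = t • N ^ (k + 1) - N ^ k := by
    intro k
    rw [pow_add, sq, hCH, mul_sub, mul_one, mul_smul_comm, pow_succ]
  let τ : ℕ → ℤ := fun k => (N ^ k).trace
  have hτrec : ∀ k, τ (k + 2) = t * τ (k + 1) - τ k := by
    intro k
    simp only [τ]
    rw [hrec k, Matrix.trace_sub, Matrix.trace_smul, smul_eq_mul]
  have hτ0 : τ 0 = 2 := by simp [τ, Matrix.trace_one]
  have hτ1 : τ 1 = t := by simp [τ, ht]
  have hgrow : ∀ k, |τ k| + 1 ≤ |τ (k + 1)| := by
    intro k
    induction k with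
    | zero => rw [hτ0, hτ1]; norm_num; linarith
    | succ k ih =>
      rw [hτrec k]
      have h1 : |t * τ (k + 1)| - |τ k| ≤ |t * τ (k + 1) - τ k| := abs_sub_abs_le_abs_sub _ _
      rw [abs_mul] at h1
      have h2 : 3 * |τ (k + 1)| ≤ |t| * |τ (k + 1)| :=
        mul_le_mul_of_nonneg_right (by linarith) (abs_nonneg _)
      have h3 := abs_nonneg (τ (k + 1))
      linarith
  have hbig : ∀ k : ℕ, (k : ℤ) + 2 ≤ |τ k| := by
    intro k
    induction k with
    | zero => rw [hτ0]; norm_num
    | succ k ih => have := hgrow k; push_cast; linarith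
  have := hbig n
  have hτn : τ n = 2 := by simp [τ, hN, Matrix.trace_one]
  rw [hτn] at this
  norm_num at this
  omega

/-- Let Γ be a finite subgroup of GL_2(ℤ) and d > 6 an integer. Suppose some vector w of (ℤ/dℤ)², with
m·w ≠ 0 for all 0 < m < d, is fixed by the reduction modulo d of every element of Γ. Then some
non-zero vector of ℤ² is fixed by all of Γ. -/
theorem result
    (Γ : Subgroup (Matrix.GeneralLinearGroup (Fin 2) ℤ)) [Finite Γ] (d : ℕ) (hd : 6 < d)
    (w : Fin 2 → ZMod d) (hw : ∀ m : ℕ, 0 < m → m < d → m • w ≠ 0)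
    (hfix : ∀ γ ∈ Γ, ((γ : Matrix (Fin 2) (Fin 2) ℤ).map (Int.castRingHom (ZMod d))) *ᵥ w = w) :
    ∃ v : Fin 2 → ℤ, v ≠ 0 ∧ ∀ γ ∈ Γ, (γ : Matrix (Fin 2) (Fin 2) ℤ) *ᵥ v = v := by
  classical
  apply Groth.Agent.S15162.result Γ
  intro γ hγ
  have hdet : (γ : Matrix (Fin 2) (Fin 2) ℤ).det = 1 ∨ (γ : Matrix (Fin 2) (Fin 2) ℤ).det = -1 := by
    apply Int.isUnit_iff.mp
    have := (Matrix.GeneralLinearGroup.det γ).isUnit
    simpa using this
  set M := (γ : Matrix (Fin 2) (Fin 2) ℤ) with hM
  obtain ⟨n, hn, hpow⟩ : ∃ n : ℕ, 0 < n ∧ M ^ n = 1 := by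
    have hfin : IsOfFinOrder (⟨γ, hγ⟩ : Γ) := isOfFinOrder_of_finite _
    obtain ⟨n, hn, hp⟩ := hfin.exists_pow_eq_one
    refine ⟨n, hn, ?_⟩
    have : (γ ^ n : Matrix.GeneralLinearGroup (Fin 2) ℤ) = 1 := by
      have := congrArg Subtype.val hp
      simpa using this
    rw [hM, ← Units.val_pow_eq_pow_val, this, Units.val_one]
  have hCH := Groth.Agent.S15162.cayley_hamilton_two M
  rcases hdet with hd | hd
  · -- det 1: show trace = 2, then M = 1
    rw [hd, one_smul] at hCH
    have htb := trace_bound M hd n hn hpow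
    have ht2 : M.trace = 2 := by
      by_contra hne
      -- D = det (M - 1) = 2 - trace ∈ {1,2,3,4}
      have hD : (M - 1).det = 2 - M.trace := by
        rw [Matrix.det_fin_two, Matrix.trace_fin_two]
        simp only [Matrix.sub_apply, Matrix.one_apply_eq, Matrix.one_apply_ne (by decide : (0 : Fin 2) ≠ 1),
          Matrix.one_apply_ne (by decide : (1 : Fin 2) ≠ 0)]
        rw [Matrix.det_fin_two] at hd
        linear_combination hd
      have hDpos : 0 < 2 - M.trace := by
        have := le_abs_self M.trace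
        have : M.trace ≤ 2 := by linarith [abs_le.mp htb]
        omega
      have hDle : 2 - M.trace ≤ 4 := by linarith [abs_le.mp htb]
      set D := (2 - M.trace).toNat with hDdef
      have hDD : ((D : ℕ) : ℤ) = 2 - M.trace := Int.toNat_of_nonneg hDpos.le
      have hmapsub : (M - 1).map (Int.castRingHom (ZMod d))
          = M.map (Int.castRingHom (ZMod d)) - 1 := by
        rw [← RingHom.mapMatrix_apply, map_sub, map_one, RingHom.mapMatrix_apply]
      have hw0 : ((M - 1).map (Int.castRingHom (ZMod d))) *ᵥ w = 0 := by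
        rw [hmapsub, Matrix.sub_mulVec, hfix γ hγ, Matrix.one_mulVec, sub_self]
      have hadj := Matrix.adjugate_mul (M - 1)
      have hadjd : ((Matrix.adjugate (M - 1) * (M - 1)).map (Int.castRingHom (ZMod d))) *ᵥ w
          = (((M - 1).det • (1 : Matrix (Fin 2) (Fin 2) ℤ)).map (Int.castRingHom (ZMod d))) *ᵥ w := by
        rw [hadj]
      rw [← RingHom.mapMatrix_apply, map_mul, RingHom.mapMatrix_apply, RingHom.mapMatrix_apply,
        ← Matrix.mulVec_mulVec, hw0, Matrix.mulVec_zero] at hadjd
      have hsc : ∀ c : ℤ, ((c • (1 : Matrix (Fin 2) (Fin 2) ℤ)).map (Int.castRingHom (ZMod d))) *ᵥ w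
          = ((c : ZMod d)) • w := by
        intro c
        ext i
        fin_cases i <;>
          simp only [Matrix.mulVec, dotProduct, Fin.sum_univ_two, Matrix.map_apply,
            Matrix.smul_apply, Matrix.one_apply_eq, Matrix.one_apply_ne (by decide : (0 : Fin 2) ≠ 1),
            Matrix.one_apply_ne (by decide : (1 : Fin 2) ≠ 0), smul_eq_mul, mul_one, mul_zero,
            eq_intCast, Pi.smul_apply, Fin.zero_eta, Fin.mk_one, Fin.isValue] <;>
          simp
      rw [hsc, hD, ← hDD] at hadjd
      have hDw : D • w = 0 := by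
        rw [← Nat.cast_smul_eq_nsmul (ZMod d)]
        simpa using hadjd.symm
      have hD0 : 0 < D := by omega
      have hDd : D < d := by omega
      exact hw D hD0 hDd hDw
    have hN : (M - 1) * (M - 1) = 0 := by
      rw [sub_mul, mul_sub, mul_sub, hCH, ht2, mul_one, one_mul, one_mul, two_smul]
      abel
    have hM1 := Groth.Agent.S15162.unip_fin_order M hN n hn hpow
    exact ⟨![1, 0], by simp, by rw [hM1, Matrix.one_mulVec]⟩
  · -- det -1
    rw [hd, neg_one_smul, sub_neg_eq_add] at hCH
    have hdet2 : (M * M).det = 1 := by rw [Matrix.det_mul, hd]; norm_num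
    have hpow2 : (M * M) ^ n = 1 := by
      rw [← sq, ← pow_mul, mul_comm, pow_mul, hpow, one_pow]
    have htb := trace_bound (M * M) hdet2 n hn hpow2
    have htr : (M * M).trace = M.trace ^ 2 + 2 := by
      rw [hCH, Matrix.trace_add, Matrix.trace_smul, Matrix.trace_one, smul_eq_mul]
      simp; ring
    rw [htr] at htb
    have ht0 : M.trace = 0 := by
      have h1 := (abs_le.mp htb).2
      have h2 : M.trace ^ 2 ≤ 0 := by linarith
      have h3 := sq_nonneg M.trace
      nlinarith
    rw [ht0, zero_smul, zero_add] at hCH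
    have hfixv : ∀ x : Fin 2 → ℤ, M *ᵥ ((M + 1) *ᵥ x) = (M + 1) *ᵥ x := by
      intro x
      rw [Matrix.mulVec_mulVec, mul_add, hCH, mul_one, add_comm]
    by_cases hv1 : (M + 1) *ᵥ ![1, 0] = 0
    · by_cases hv2 : (M + 1) *ᵥ ![0, 1] = 0
      · exfalso
        have hM : M + 1 = 0 := by
          ext i j
          have e1 := congrFun hv1 i
          have e2 := congrFun hv2 i
          simp [Matrix.mulVec, dotProduct, Fin.sum_univ_two] at e1 e2
          fin_cases j
          · simpa using e1
          · simpa using e2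
        have hMneg : M = -1 := eq_neg_of_add_eq_zero_left hM
        rw [hMneg] at hd
        simp [Matrix.det_fin_two] at hd
      · exact ⟨_, hv2, hfixv _⟩
    · exact ⟨_, hv1, hfixv _⟩

end Groth.Agent.S15163
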