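import Groth.Statements.S15164
import Mathlib.Algebra.CharP.Lemmas
import Mathlib.Algebra.Polynomial.AlgebraMap
import Mathlib.Tactic.LinearCombination
-- import your own Groth.Agent.* helpers here

set_option autoImplicit false
universe u v
open BddFin

namespace Groth.Agent.S15164

/-- Let K be a field of characteristic p > 2, V a finite-dimensional K-vector space and q a quadratic
form on V that does not represent zero (q x = 0 only for x = 0). Then the group of K-linear
automorphisms of V preserving q has no element of order p: if g preserves q and g ^ p = 1 then g =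
1. (Non-degeneracy of q, also assumed in the published statement, follows from anisotropy since 2 is
invertible, so it is not repeated here.) -/
theorem result
    (K : Type u) [Field K] (p : ℕ) [Fact p.Prime] [CharP K p] (hp : p ≠ 2)
    (V : Type v) [AddCommGroup V] [Module K V] [FiniteDimensional K V]
    (q : QuadraticForm K V) (hq : q.Anisotropic)
    (g : V ≃ₗ[K] V) (hg : ∀ x : V, q (g x) = q x) (hgp : g ^ p = 1) : g = 1 := by
  classical
  set N : Module.End K V := (g : Module.End K V) - 1 with hN
  have hgp' : ((g : Module.End K V)) ^ p = 1 := by
    ext v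
    rw [Module.End.pow_apply, Module.End.one_apply, LinearEquiv.coe_coe, ← LinearEquiv.pow_apply, hgp]
    rfl
  have hNp : N ^ p = 0 := by
    have h := congrArg (Polynomial.aeval (g : Module.End K V))
      (sub_pow_char (Polynomial.X : Polynomial K) 1 (p := p))
    simp only [map_pow, map_sub, Polynomial.aeval_X, map_one, one_pow] at h
    rw [hN, h, hgp', sub_self]
  have htwo : (2 : K) ≠ 0 := by
    intro h
    have h' : ((2 : ℕ) : K) = 0 := by exact_mod_cast h
    rw [CharP.cast_eq_zero_iff K p] at h'
    exact hp ((Nat.prime_dvd_prime_iff_eq (Fact.out) Nat.prime_two).mp h')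
  have hgv : ∀ v, g v = v + N v := by intro v; simp [hN]
  have key : ∀ x : V, N (N x) = 0 → N x = 0 := by
    intro x hx
    set y := N x with hy
    have hgy : g y = y := by rw [hgv, hx, add_zero]
    have hgx : g x = x + y := hgv x
    have hg2 : g (g x) = x + (2 : K) • y := by rw [hgx, map_add, hgy, hgx, two_smul, add_assoc]
    have h1 : q (x + y) = q x := by rw [← hgx, hg]
    have h2 : q (x + (2 : K) • y) = q x := by rw [← hg2, hg, hg]
    rw [QuadraticMap.map_add (⇑q)] at h1 h2
    rw [QuadraticMap.map_smul, QuadraticMap.polar_smul_right] at h2
    simp only [smul_eq_mul] at h2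
    have hq0 : q y = 0 := by
      have e1 : QuadraticMap.polar q x y = - q y := by linear_combination h1
      rw [e1] at h2
      have h3 : (2 : K) * q y = 0 := by linear_combination h2
      rcases mul_eq_zero.mp h3 with h | h
      · exact absurd h htwo
      · exact h
    exact hq y hq0
  have desc : ∀ m : ℕ, N ^ (m + 1) = 0 → N = 0 := by
    intro m
    induction m with
    | zero => intro h; simpa using h
    | succ m ih =>
      intro h
      apply ih
      ext v
      have e : ∀ w, (N ^ (m + 1 + 1)) w = N (N ((N ^ m) w)) := by
        intro w; rw [pow_succ', pow_succ', Module.End.mul_apply, Module.End.mul_apply]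
      have hh := key ((N ^ m) v) (by rw [← e, h]; rfl)
      rw [pow_succ', Module.End.mul_apply, hh]; rfl
  have hN0 : N = 0 := desc (p - 1) (by rw [Nat.sub_add_cancel (Fact.out : p.Prime).pos]; exact hNp)
  ext v
  have hv := hgv v
  rw [hN0] at hv
  simpa using hv

end Groth.Agent.S15164
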