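import Groth.Statements.S15165
import Mathlib.LinearAlgebra.QuadraticForm.Basic
import Mathlib.Algebra.Polynomial.Splits
import Mathlib.Tactic.LinearCombination
-- import your own Groth.Agent.* helpers here

set_option autoImplicit false
universe u v
open Polynomial
open BddFin

namespace Groth.Agent.S15165

/-- Let K be a field of characteristic different from 2 such that K contains all roots of unity (for
every n ≥ 1 the polynomial X^n − 1 splits into linear factors over K), V a finite-dimensional
K-vector space and q a quadratic form on V that does not represent zero. If a K-linear automorphism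
g of V preserves q and has finite order (g ^ d = 1 for some d ≥ 1), then g ^ 2 = 1. (The published
statement also covers perfect fields of characteristic 2; this row is the case of characteristic ≠
2.) -/
theorem result
    (K : Type u) [Field K] (hK : ∀ n : ℕ, 0 < n → (X ^ n - 1 : K[X]).Splits) (h2 : (2 : K) ≠ 0)
    (V : Type v) [AddCommGroup V] [Module K V] [FiniteDimensional K V]
    (q : QuadraticForm K V) (hq : q.Anisotropic)
    (g : V ≃ₗ[K] V) (hg : ∀ x : V, q (g x) = q x) (d : ℕ) (hd : 0 < d) (hgd : g ^ d = 1) :
    g ^ 2 = 1 := by
  classical
  set G : Module.End K V := g.toLinearMap with hG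
  have hGpow : ∀ n : ℕ, ∀ x, (g ^ n) x = (G ^ n) x := by
    intro n x
    rw [LinearEquiv.coe_pow, Module.End.coe_pow]
    rfl
  have hGd : G ^ d = 1 := by
    ext x
    rw [← hGpow, hgd]
    rfl
  have hqG : ∀ x, q (G x) = q x := hg
  have hpolar : ∀ x y, QuadraticMap.polar q (G x) (G y) = QuadraticMap.polar q x y := by
    intro x y
    simp only [QuadraticMap.polar, ← map_add, hqG]
  have hT : ∀ (a : K) (v : V), Polynomial.aeval G (X - C a) v = G v - a • v := by
    intro a v
    simp [Module.algebraMap_end_apply]
  have hcomm : ∀ (p r : K[X]) (x : V),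
      Polynomial.aeval G p (Polynomial.aeval G r x) = Polynomial.aeval G r (Polynomial.aeval G p x) := by
    intro p r x
    rw [← Module.End.mul_apply, ← map_mul, mul_comm, map_mul, Module.End.mul_apply]
  have hP1 : ∀ a : K, a * a ≠ 1 → ∀ v, G v - a • v = 0 → v = 0 := by
    intro a ha v hv
    have hGv : G v = a • v := sub_eq_zero.mp hv
    apply hq
    have h1 : q v = (a * a) • q v := by rw [← QuadraticMap.map_smul, ← hGv, hqG]
    have h2 : (1 - a * a) * q v = 0 := by
      rw [sub_mul, one_mul, ← smul_eq_mul, ← h1, sub_self]
    rcases mul_eq_zero.mp h2 with h | h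
    · exact absurd (sub_eq_zero.mp h).symm ha
    · exact h
  have hP2 : ∀ a : K, a * a = 1 → ∀ w, G (G w - a • w) - a • (G w - a • w) = 0 →
      G w - a • w = 0 := by
    intro a ha w hw
    set v := G w - a • w with hv
    have hGv : G v = a • v := sub_eq_zero.mp hw
    have hGw : G w = a • w + v := by rw [hv]; abel
    have h := hpolar v w
    rw [hGv, hGw, QuadraticMap.polar_smul_left, QuadraticMap.polar_add_right,
      QuadraticMap.polar_smul_right, QuadraticMap.polar_self] at h
    simp only [smul_eq_mul, nsmul_eq_mul, Nat.cast_ofNat] at h
    have h3 : a * (2 * q v) = 0 := by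
      linear_combination h - (QuadraticMap.polar q v w) * ha
    have ha0 : a ≠ 0 := by
      rintro rfl; rw [mul_zero] at ha; exact zero_ne_one ha
    have hqv : q v = 0 := by
      rcases mul_eq_zero.mp h3 with h4 | h4
      · exact absurd h4 ha0
      · rcases mul_eq_zero.mp h4 with h5 | h5
        · exact absurd h5 h2
        · exact h5
    exact hq v hqv
  have key : ∀ s : Multiset K, ∀ x, Polynomial.aeval G (s.map (fun a => X - C a)).prod x = 0 →
      Polynomial.aeval G (X ^ 2 - 1 : K[X]) x = 0 := by
    intro s
    induction s using Multiset.induction_on with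
    | empty =>
      intro x hx
      simp only [Multiset.map_zero, Multiset.prod_zero, map_one, Module.End.one_apply] at hx
      rw [hx, map_zero]
    | cons a s ih =>
      intro x hx
      rw [Multiset.map_cons, Multiset.prod_cons, map_mul, Module.End.mul_apply] at hx
      by_cases ha : a * a = 1
      · have h1 : Polynomial.aeval G (s.map (fun a => X - C a)).prod
            (Polynomial.aeval G (X - C a) x) = 0 := by
          rw [hcomm]; exact hx
        have h2 := ih _ h1
        have hfac : (X ^ 2 - 1 : K[X]) = (X - C a) * (X + C a) := by
          have : (X - C a) * (X + C a) = X ^ 2 - C (a * a) := by rw [C_mul]; ring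
          rw [this, ha, C_1]
        set w := Polynomial.aeval G (X + C a) x with hw
        have h3 : Polynomial.aeval G (X ^ 2 - 1 : K[X]) x = Polynomial.aeval G (X - C a) w := by
          rw [hfac, map_mul, Module.End.mul_apply]
        have h4 : Polynomial.aeval G (X - C a) (Polynomial.aeval G (X - C a) w) = 0 := by
          rw [← h3, hcomm]
          exact h2
        rw [h3]
        rw [hT, hT] at h4
        rw [hT]
        exact hP2 a ha w h4
      · rw [hT] at hx
        exact ih x (hP1 a ha _ hx)
  have hmon : (X ^ d - 1 : K[X]).Monic := by
    apply (Polynomial.monic_X_pow d).sub_of_left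
    rw [Polynomial.degree_one, Polynomial.degree_X_pow]
    exact_mod_cast hd
  have hsplit := (hK d hd).eq_prod_roots_of_monic hmon
  have hzero : ∀ x, Polynomial.aeval G (((X ^ d - 1 : K[X]).roots.map (fun a => X - C a)).prod) x = 0 := by
    intro x
    rw [← hsplit]
    simp [hGd]
  ext x
  show (g ^ 2) x = x
  rw [hGpow]
  have h := key _ x (hzero x)
  simp only [map_sub, map_pow, Polynomial.aeval_X, map_one, LinearMap.sub_apply,
    Module.End.one_apply] at h
  exact sub_eq_zero.mp h

end Groth.Agent.S15165
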