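import Groth.Statements.S15166
import Groth.Agent.S15165
import Mathlib.Data.Set.Card
import Mathlib.LinearAlgebra.Dimension.Finrank
import Mathlib.LinearAlgebra.FiniteDimensional.Basic
-- import your own Groth.Agent.* helpers here

set_option autoImplicit false
universe u v
open Polynomial
open BddFin

namespace Groth.Agent.S15166

/-- Let K be a field of characteristic different from 2 such that K contains all roots of unity (for
every n ≥ 1 the polynomial X^n − 1 splits into linear factors over K), V a finite-dimensional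
K-vector space and q a quadratic form on V that does not represent zero. Then every finite subgroup
of the group of K-linear automorphisms of V preserving q is abelian and has order at most 2 ^ (dim
V). (The published statement also covers perfect fields of characteristic 2; this row is the case of
characteristic ≠ 2.) -/
theorem result
    (K : Type u) [Field K] (hK : ∀ n : ℕ, 0 < n → (X ^ n - 1 : K[X]).Splits) (h2 : (2 : K) ≠ 0)
    (V : Type v) [AddCommGroup V] [Module K V] [FiniteDimensional K V]
    (q : QuadraticForm K V) (hq : q.Anisotropic)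
    (G : Subgroup (V ≃ₗ[K] V)) [Finite G] (hG : ∀ g ∈ G, ∀ x : V, q (g x) = q x) :
    (∀ g ∈ G, ∀ h ∈ G, g * h = h * g) ∧ Nat.card G ≤ 2 ^ Module.finrank K V := by
  classical
  have hinv : ∀ g ∈ G, g ^ 2 = 1 := by
    intro g hg
    have hpos : 0 < orderOf (⟨g, hg⟩ : G) := orderOf_pos _
    have hpow : g ^ orderOf (⟨g, hg⟩ : G) = 1 := by
      have := congrArg Subtype.val (pow_orderOf_eq_one (⟨g, hg⟩ : G))
      simpa using this
    exact Groth.Agent.S15165.result K hK h2 V q hq g (hG g hg) _ hpos hpow
  have hcomm : ∀ g ∈ G, ∀ h ∈ G, g * h = h * g := by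
    intro g hg h hh
    have h1 := hinv (g * h) (G.mul_mem hg hh)
    have hg' : g⁻¹ = g := by rw [inv_eq_iff_mul_eq_one, ← sq, hinv g hg]
    have hh' : h⁻¹ = h := by rw [inv_eq_iff_mul_eq_one, ← sq, hinv h hh]
    calc g * h = (g * h)⁻¹ := by rw [eq_inv_iff_mul_eq_one, ← sq, h1]
      _ = h⁻¹ * g⁻¹ := mul_inv_rev g h
      _ = h * g := by rw [hg', hh']
  refine ⟨hcomm, ?_⟩
  have hsq : ∀ g ∈ G, ∀ v, g (g v) = v := by
    intro g hg v
    have := congrArg (fun f : V ≃ₗ[K] V => f v) (hinv g hg)
    simp [sq] at this
    exact this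
  have key : ∀ N : ℕ, ∀ W : Submodule K V, Module.finrank K W = N →
      (∀ g ∈ G, ∀ w ∈ W, g w ∈ W) →
      (Set.range (fun g : G => fun w : W => (g : V ≃ₗ[K] V) (w : V))).ncard ≤ 2 ^ N := by
    intro N
    induction N using Nat.strong_induction_on with
    | _ N ih =>
    intro W hW hWinv
    by_cases hpm : ∀ g ∈ G, (∀ w ∈ W, g w = w) ∨ (∀ w ∈ W, g w = -w)
    · by_cases hN : N = 0
      · subst hN
        have hWbot : W = ⊥ := Submodule.finrank_eq_zero.mp hW
        rw [pow_zero]
        apply (Set.ncard_le_one (Set.finite_range _)).mpr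
        rintro _ ⟨g1, rfl⟩ _ ⟨g2, rfl⟩
        funext w
        have h0 : (w : V) = 0 := (Submodule.mem_bot K).mp (by rw [← hWbot]; exact w.2)
        simp only [h0, map_zero]
      · have hsub : Set.range (fun g : G => fun w : W => (g : V ≃ₗ[K] V) (w : V)) ⊆
            {(fun w : W => (w : V)), (fun w : W => -(w : V))} := by
          rintro _ ⟨g, rfl⟩
          rcases hpm g g.2 with h | h
          · left; funext w; exact h w w.2
          · right; funext w; exact h w w.2
        calc _ ≤ ({(fun w : W => (w : V)), (fun w : W => -(w : V))} : Set (W → V)).ncard :=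
              Set.ncard_le_ncard hsub (Set.toFinite _)
          _ ≤ ({(fun w : W => -(w : V))} : Set (W → V)).ncard + 1 := Set.ncard_insert_le _ _
          _ = 2 := by rw [Set.ncard_singleton]
          _ ≤ 2 ^ N := Nat.le_self_pow hN 2
    · push Not at hpm
      obtain ⟨g0, hg0, ⟨w1, hw1, hne1⟩, ⟨w2, hw2, hne2⟩⟩ := hpm
      set Wp : Submodule K V := W ⊓ LinearMap.ker ((g0 : V ≃ₗ[K] V).toLinearMap - LinearMap.id)
        with hWp
      set Wm : Submodule K V := W ⊓ LinearMap.ker ((g0 : V ≃ₗ[K] V).toLinearMap + LinearMap.id)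
        with hWm
      have hmemp : ∀ v, v ∈ Wp ↔ v ∈ W ∧ g0 v = v := by
        intro v; simp [hWp, sub_eq_zero]
      have hmemm : ∀ v, v ∈ Wm ↔ v ∈ W ∧ g0 v = -v := by
        intro v; simp [hWm, add_eq_zero_iff_eq_neg]
      have hWpinv : ∀ g ∈ G, ∀ w ∈ Wp, g w ∈ Wp := by
        intro g hg w hw
        rw [hmemp] at hw ⊢
        refine ⟨hWinv g hg w hw.1, ?_⟩
        have := hcomm g0 hg0 g hg
        calc g0 (g w) = (g0 * g) w := rfl
          _ = (g * g0) w := by rw [this]
          _ = g (g0 w) := rfl
          _ = g w := by rw [hw.2]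
      have hWminv : ∀ g ∈ G, ∀ w ∈ Wm, g w ∈ Wm := by
        intro g hg w hw
        rw [hmemm] at hw ⊢
        refine ⟨hWinv g hg w hw.1, ?_⟩
        have := hcomm g0 hg0 g hg
        calc g0 (g w) = (g0 * g) w := rfl
          _ = (g * g0) w := by rw [this]
          _ = g (g0 w) := rfl
          _ = -(g w) := by rw [hw.2, map_neg]
      have hsup : Wp ⊔ Wm = W := by
        apply le_antisymm (sup_le inf_le_left inf_le_left)
        intro w hw
        have h2inv : (2 : K)⁻¹ * 2 = 1 := inv_mul_cancel₀ h2
        rw [Submodule.mem_sup]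
        refine ⟨(2 : K)⁻¹ • (w + g0 w), ?_, (2 : K)⁻¹ • (w - g0 w), ?_, ?_⟩
        · rw [hmemp]
          refine ⟨W.smul_mem _ (W.add_mem hw (hWinv g0 hg0 w hw)), ?_⟩
          rw [map_smul, map_add, hsq g0 hg0, add_comm]
        · rw [hmemm]
          refine ⟨W.smul_mem _ (W.sub_mem hw (hWinv g0 hg0 w hw)), ?_⟩
          rw [map_smul, map_sub, hsq g0 hg0, ← smul_neg, neg_sub]
        · rw [← smul_add, add_add_sub_cancel, ← two_smul K w, smul_smul, h2inv, one_smul]
      have hinf : Wp ⊓ Wm = ⊥ := by
        rw [eq_bot_iff]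
        intro w hw
        rw [Submodule.mem_inf, hmemp, hmemm] at hw
        rw [Submodule.mem_bot]
        have h1 : w = -w := hw.1.2.symm.trans hw.2.2
        have h3 : (2 : K) • w = 0 := by
          rw [two_smul]; nth_rewrite 2 [h1]; exact add_neg_cancel w
        exact (smul_eq_zero.mp h3).resolve_left h2
      have hfr : Module.finrank K W = Module.finrank K Wp + Module.finrank K Wm := by
        have := Submodule.finrank_sup_add_finrank_inf_eq Wp Wm
        rw [hsup, hinf, finrank_bot, add_zero] at this
        exact this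
      have hltp : Module.finrank K Wp < N := by
        rw [← hW]
        apply Submodule.finrank_lt_finrank_of_lt
        refine lt_of_le_of_ne inf_le_left ?_
        intro heq
        apply hne1
        have : w1 ∈ Wp := by rw [heq]; exact hw1
        exact ((hmemp w1).mp this).2
      have hltm : Module.finrank K Wm < N := by
        rw [← hW]
        apply Submodule.finrank_lt_finrank_of_lt
        refine lt_of_le_of_ne inf_le_left ?_
        intro heq
        apply hne2
        have : w2 ∈ Wm := by rw [heq]; exact hw2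
        exact ((hmemm w2).mp this).2
      have hpW : Wp ≤ W := inf_le_left
      have hmW : Wm ≤ W := inf_le_left
      calc (Set.range (fun g : G => fun w : W => (g : V ≃ₗ[K] V) (w : V))).ncard
          ≤ ((Set.range (fun g : G => fun w : Wp => (g : V ≃ₗ[K] V) (w : V))) ×ˢ
              (Set.range (fun g : G => fun w : Wm => (g : V ≃ₗ[K] V) (w : V)))).ncard := by
            apply Set.ncard_le_ncard_of_injOn
              (fun φ => ((fun w : Wp => φ ⟨w.1, hpW w.2⟩), (fun w : Wm => φ ⟨w.1, hmW w.2⟩)))
            · rintro _ ⟨g, rfl⟩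
              exact ⟨⟨g, rfl⟩, ⟨g, rfl⟩⟩
            · rintro _ ⟨g1, rfl⟩ _ ⟨g2, rfl⟩ heq
              simp only [Prod.mk.injEq] at heq
              obtain ⟨hp, hm⟩ := heq
              funext w
              have hw : (w : V) ∈ Wp ⊔ Wm := by rw [hsup]; exact w.2
              obtain ⟨y, hy, z, hz, hyz⟩ := Submodule.mem_sup.mp hw
              have e1 := congrFun hp ⟨y, hy⟩
              have e2 := congrFun hm ⟨z, hz⟩
              simp only at e1 e2
              show (g1 : V ≃ₗ[K] V) (w : V) = (g2 : V ≃ₗ[K] V) (w : V)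
              rw [← hyz, map_add, map_add, e1, e2]
        _ = _ := Set.ncard_prod
        _ ≤ 2 ^ Module.finrank K Wp * 2 ^ Module.finrank K Wm :=
            Nat.mul_le_mul (ih _ hltp Wp rfl hWpinv) (ih _ hltm Wm rfl hWminv)
        _ = 2 ^ N := by rw [← pow_add, ← hfr, hW]
  have htop := key _ ⊤ rfl (fun g _ w _ => Submodule.mem_top)
  rw [finrank_top] at htop
  rw [Set.ncard_range_of_injective] at htop
  · exact htop
  · intro g1 g2 h
    apply Subtype.ext
    apply LinearEquiv.ext
    intro v
    exact congrFun h ⟨v, Submodule.mem_top⟩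

end Groth.Agent.S15166
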