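import Groth.Statements.S1517
import Mathlib.RingTheory.TwoSidedIdeal.Operations
import Mathlib.LinearAlgebra.Finsupp.LinearCombination
import Mathlib.RingTheory.Ideal.Span
-- import your own Groth.Agent.* helpers here

set_option autoImplicit false
universe u
open Brauer

namespace Groth.Agent.S1517

/-- Let A be a ring with no nontrivial two-sided ideals and M a nonzero right ideal, viewed as a right
A-module with endomorphism ring A'. Then every A'-linear endomorphism of M is right multiplication
by exactly one element of A; that is, the natural map from A to the bicommutant of M is a bijection. -/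
theorem result (A : Type u) [Ring A] [IsSimpleRing A]
    (M : Submodule Aᵐᵒᵖ A) (hM : M ≠ ⊥)
    (g : Module.End (Module.End Aᵐᵒᵖ M) M) :
    ∃! a : A, ∀ m : M, (g m : A) = (m : A) * a := by
  classical
  have hMr : ∀ x ∈ M, ∀ b : A, x * b ∈ M := fun x hx b => by
    have := M.smul_mem (MulOpposite.op b) hx
    simpa [MulOpposite.smul_eq_mul_unop] using this
  let lam : M → Module.End Aᵐᵒᵖ M := fun x =>
    { toFun := fun m => ⟨x * m, hMr x x.2 m⟩
      map_add' := fun m n => by ext; simp [mul_add]
      map_smul' := fun c m => by ext; simp [MulOpposite.smul_eq_mul_unop, mul_assoc] }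
  have hlam : ∀ x m : M, ((lam x m : M) : A) = (x : A) * m := fun x m => rfl
  have hg : ∀ (x : M) (m : M), g (lam x m) = lam x (g m) := fun x m => by
    have := g.map_smul (lam x) m
    simpa [Module.End.smul_def] using this
  let L : Ideal A := Submodule.span A (M : Set A)
  have hL2 : L.IsTwoSided := by
    constructor
    intro a b ha
    induction ha using Submodule.span_induction with
    | mem x hx => exact Submodule.subset_span (hMr x hx b)
    | zero => simp
    | add x y _ _ hx hy => rw [add_mul]; exact L.add_mem hx hy
    | smul c x _ hx => rw [smul_eq_mul, mul_assoc]; exact L.mul_mem_left c hx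
  have h1L : (1 : A) ∈ L := by
    obtain ⟨x, hxM, hx0⟩ := Submodule.exists_mem_ne_zero_of_ne_bot hM
    have := IsSimpleRing.one_mem_of_ne_zero_mem L.toTwoSided hx0
      (by simpa using (Submodule.subset_span hxM : x ∈ L))
    simpa using this
  obtain ⟨n, b, e, he⟩ := Submodule.mem_span_set'.mp h1L
  let e' : Fin n → M := fun i => ⟨e i, (e i).2⟩
  refine ⟨∑ i, b i * (g (e' i) : A), ?_, ?_⟩
  · intro m
    have hm : m = ∑ i, lam ⟨m * b i, hMr _ m.2 _⟩ (e' i) := by
      apply Subtype.ext
      rw [Submodule.coe_sum]
      simp only [hlam]
      calc (m : A) = m * 1 := (mul_one _).symm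
        _ = _ := by
          rw [← he, Finset.mul_sum]
          refine Finset.sum_congr rfl fun i _ => ?_
          simp [e', mul_assoc]
    conv_lhs => rw [hm]
    rw [map_sum, Submodule.coe_sum, Finset.mul_sum]
    refine Finset.sum_congr rfl fun i _ => ?_
    rw [hg, hlam, mul_assoc]
  · intro a' ha'
    set a := ∑ i, b i * (g (e' i) : A) with ha_def
    have ha : ∀ m : M, (g m : A) = (m : A) * a := by
      intro m
      have hm : m = ∑ i, lam ⟨m * b i, hMr _ m.2 _⟩ (e' i) := by
        apply Subtype.ext
        rw [Submodule.coe_sum]
        simp only [hlam]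
        calc (m : A) = m * 1 := (mul_one _).symm
          _ = _ := by
            rw [← he, Finset.mul_sum]
            refine Finset.sum_congr rfl fun i _ => ?_
            simp [e', mul_assoc]
      conv_lhs => rw [hm]
      rw [map_sum, Submodule.coe_sum, ha_def, Finset.mul_sum]
      refine Finset.sum_congr rfl fun i _ => ?_
      rw [hg, hlam, mul_assoc]
    let K : Ideal A :=
      { carrier := {c | ∀ m ∈ M, m * c = 0}
        add_mem' := fun {x y} hx hy m hm => by rw [mul_add, hx m hm, hy m hm, add_zero]
        zero_mem' := fun m _ => mul_zero m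
        smul_mem' := fun c x hx m hm => by
          rw [smul_eq_mul, ← mul_assoc]; exact hx _ (hMr m hm c) }
    have hK2 : K.IsTwoSided := ⟨fun {x} y hx m hm => by
      show m * (x * y) = 0
      rw [← mul_assoc, hx m hm, zero_mul]⟩
    have hKbot : K.toTwoSided = ⊥ := by
      by_contra hne
      have h1 := IsSimpleRing.one_mem_of_ne_bot K.toTwoSided hne
      rw [Ideal.mem_toTwoSided] at h1
      apply hM
      rw [eq_bot_iff]
      intro m hm
      have := h1 m hm
      rw [mul_one] at this
      simp [this]
    have hmem : a' - a ∈ K := by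
      intro m hm
      rw [mul_sub, ← ha' ⟨m, hm⟩, ← ha ⟨m, hm⟩, sub_self]
    have : a' - a ∈ K.toTwoSided := by rw [Ideal.mem_toTwoSided]; exact hmem
    rw [hKbot, TwoSidedIdeal.mem_bot] at this
    exact sub_eq_zero.mp this

end Groth.Agent.S1517
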