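import Groth.Statements.S15171
import Mathlib.FieldTheory.PrimitiveElement
import Mathlib.FieldTheory.KummerPolynomial
import Mathlib.LinearAlgebra.Eigenspace.Basic
import Mathlib.LinearAlgebra.FiniteDimensional.Lemmas
import Mathlib.RingTheory.Polynomial.Basic
import Mathlib.Algebra.CharP.Lemmas
import Mathlib.GroupTheory.SpecificGroups.Cyclic.Basic
-- import your own Groth.Agent.* helpers here

set_option autoImplicit false
universe u v w
open BddFin

namespace Groth.Agent.S15171

open Polynomial in
theorem not_isSeparable_of_pow_eq {K : Type*} {A : Type*} [Field K] [DivisionRing A] [Algebra K A]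
    [FiniteDimensional K A] (p : ℕ) [hp : Fact p.Prime] [CharP K p] (u : A) (a : K)
    (hu : u ^ p = algebraMap K A a) (hne : u ∉ Set.range (algebraMap K A)) :
    ¬ IsSeparable K u := by
  have : CharP A p := charP_of_injective_algebraMap (algebraMap K A).injective p
  by_cases h : ∃ b : K, b ^ p = a
  · obtain ⟨b, rfl⟩ := h
    exfalso
    apply hne
    have h1 : (u - algebraMap K A b) ^ p = 0 := by
      rw [sub_pow_char_of_commute (p := p) (Algebra.commutes b u).symm, hu,
        map_pow, sub_self]
    have h2 : u - algebraMap K A b = 0 := (pow_eq_zero_iff hp.out.ne_zero).mp h1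
    exact ⟨b, (sub_eq_zero.mp h2).symm⟩
  · push Not at h
    have hirr : Irreducible (X ^ p - C a : K[X]) := X_pow_sub_C_irreducible_of_prime hp.out h
    have hmin : (X ^ p - C a : K[X]) = minpoly K u :=
      minpoly.eq_of_irreducible_of_monic hirr (by simp [hu]) (monic_X_pow_sub_C a hp.out.ne_zero)
    intro hsep
    unfold IsSeparable at hsep
    rw [← hmin] at hsep
    have hder : derivative (X ^ p - C a : K[X]) = 0 := by
      simp [derivative_X_pow, CharP.cast_eq_zero]
    rw [Polynomial.separable_def, hder, isCoprime_zero_right] at hsep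
    have := Polynomial.natDegree_eq_zero_of_isUnit hsep
    rw [natDegree_X_pow_sub_C] at this
    exact hp.out.ne_zero this

open Polynomial in
theorem semiconj_aeval {K A : Type*} [CommRing K] [Ring A] [Algebra K A] (x a b : A)
    (h : x * a = b * x) (g : K[X]) : x * aeval a g = aeval b g * x := by
  induction g using Polynomial.induction_on' with
  | add p q hp hq => simp [mul_add, add_mul, hp, hq]
  | monomial n c =>
    simp only [aeval_monomial]
    have hpow : x * a ^ n = b ^ n * x := by
      induction n with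
      | zero => simp
      | succ n ih => rw [pow_succ, ← mul_assoc, ih, mul_assoc, h, ← mul_assoc, ← pow_succ]
    rw [← mul_assoc, ← Algebra.commutes, mul_assoc, hpow, ← mul_assoc]

/-- (3) ⇒ (1): let K be a field with char K = p > 0 and A a central division K-algebra with dim_K A = p
^ 2. If some Galois extension L of K with [L : K] = p admits a K-algebra embedding into A, then some
element of A is not separable over K. -/
theorem result
    (K : Type u) [Field K] (p : ℕ) [Fact p.Prime] [CharP K p]
    (A : Type v) [DivisionRing A] [Algebra K A] [Algebra.IsCentral K A] [FiniteDimensional K A]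
    (hA : Module.finrank K A = p ^ 2) (L : Type w) [Field L] [Algebra K L] [IsGalois K L]
    (hL : Module.finrank K L = p) (ι : L →ₐ[K] A) :
    ∃ v : A, ¬ IsSeparable K v := by
  classical
  have hpp : p.Prime := Fact.out
  have : FiniteDimensional K L := Module.finite_of_finrank_pos (by rw [hL]; exact hpp.pos)
  have hG : Nat.card (L ≃ₐ[K] L) = p := by rw [IsGalois.card_aut_eq_finrank, hL]
  let pb := Field.powerBasisOfFiniteOfSeparable K L
  set θ := pb.gen with hθ
  have hinj : ∀ τ ρ : L ≃ₐ[K] L, τ θ = ρ θ → τ = ρ := by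
    intro τ ρ h
    have := pb.algHom_ext (f := (τ : L →ₐ[K] L)) (g := (ρ : L →ₐ[K] L)) h
    exact AlgEquiv.coe_toAlgHom_injective this
  have hsemi : ∀ (x : A) (τ : L ≃ₐ[K] L), x * ι θ = ι (τ θ) * x →
      ∀ l : L, x * ι l = ι (τ l) * x := by
    intro x τ h l
    obtain ⟨g, rfl⟩ := pb.exists_eq_aeval' l
    have e1 : ι (Polynomial.aeval θ g) = Polynomial.aeval (ι θ) g :=
      (Polynomial.aeval_algHom_apply ι θ g).symm
    have e2 : τ (Polynomial.aeval θ g) = Polynomial.aeval (τ θ) g := by
      rw [Polynomial.aeval_algEquiv]; rfl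
    have e3 : ι (Polynomial.aeval (τ θ) g) = Polynomial.aeval (ι (τ θ)) g :=
      (Polynomial.aeval_algHom_apply ι (τ θ) g).symm
    rw [e2, e1, e3]
    exact semiconj_aeval x (ι θ) (ι (τ θ)) h g
  let _ : Module L A := Module.compHom A (ι : L →+* A)
  have hsmul : ∀ (l : L) (x : A), l • x = ι l * x := fun l x => rfl
  haveI : IsScalarTower K L A := ⟨fun k l x => by
    show ι (k • l) * x = k • (ι l * x)
    rw [map_smul, smul_mul_assoc]⟩
  haveI : FiniteDimensional L A := Module.Finite.of_restrictScalars_finite K L A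
  have hfinL : Module.finrank L A = p := by
    have := Module.finrank_mul_finrank K L A
    rw [hL, hA] at this
    exact Nat.eq_of_mul_eq_mul_left hpp.pos (this.trans (sq p))
  let Rθ : Module.End L A :=
    { toFun := fun x => x * ι θ
      map_add' := fun x y => add_mul x y (ι θ)
      map_smul' := fun l x => by
        simp only [hsmul, RingHom.id_apply]
        exact mul_assoc _ _ _ }
  have hRθ : ∀ x, Rθ x = x * ι θ := fun x => rfl
  let E : (L ≃ₐ[K] L) → Submodule L A := fun τ => Rθ.eigenspace (τ θ)
  have hE : ∀ τ x, x ∈ E τ ↔ x * ι θ = ι (τ θ) * x := by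
    intro τ x
    simp only [E, Module.End.mem_eigenspace_iff, hRθ, hsmul]
  let f : Polynomial L := ∏ τ : (L ≃ₐ[K] L), (Polynomial.X - Polynomial.C (τ θ))
  have hfix : ∀ ρ : L ≃ₐ[K] L, f.map (ρ : L →+* L) = f := by
    intro ρ
    simp only [f, Polynomial.map_prod, Polynomial.map_sub, Polynomial.map_X, Polynomial.map_C]
    exact Fintype.prod_equiv (Equiv.mulLeft ρ) _ _ (fun τ => by simp [AlgEquiv.mul_apply])
  have hlift : ∃ g : Polynomial K, g.map (algebraMap K L) = f := by
    have : f ∈ Polynomial.lifts (algebraMap K L) := by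
      rw [Polynomial.lifts_iff_coeff_lifts]
      intro n
      rw [IsGalois.mem_range_algebraMap_iff_fixed]
      intro ρ
      have := congrArg (fun q => q.coeff n) (hfix ρ)
      simpa [Polynomial.coeff_map] using this
    exact (Polynomial.mem_lifts f).mp this
  obtain ⟨g, hg⟩ := hlift
  have hgθ : Polynomial.aeval θ g = 0 := by
    rw [Polynomial.aeval_def, Polynomial.eval₂_eq_eval_map, hg]
    simp only [f, Polynomial.eval_prod, Polynomial.eval_sub, Polynomial.eval_X, Polynomial.eval_C]
    exact Finset.prod_eq_zero (Finset.mem_univ 1) (by simp)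
  have hpowR : ∀ (n : ℕ) (x : A), (Rθ ^ n) x = x * ι θ ^ n := by
    intro n
    induction n with
    | zero => intro x; simp
    | succ n ih => intro x; rw [pow_succ', Module.End.mul_apply, ih, hRθ, pow_succ, mul_assoc]
  have haevalR : ∀ (q : Polynomial K) (x : A),
      (Polynomial.aeval Rθ (q.map (algebraMap K L))) x = x * ι (Polynomial.aeval θ q) := by
    intro q
    induction q using Polynomial.induction_on' with
    | add q1 q2 h1 h2 =>
      intro x
      rw [Polynomial.map_add, map_add, LinearMap.add_apply, h1, h2, map_add, map_add, mul_add]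
    | monomial n c =>
      intro x
      rw [Polynomial.map_monomial, Polynomial.aeval_monomial, Polynomial.aeval_monomial,
        Module.End.mul_apply, hpowR, Module.algebraMap_end_apply, hsmul, map_mul, map_pow,
        AlgHom.commutes, ← mul_assoc, Algebra.commutes, mul_assoc]
  have hf0 : Polynomial.aeval Rθ f = 0 := by
    apply LinearMap.ext
    intro x
    rw [← hg, haevalR, hgθ, map_zero, mul_zero]
    rfl
  have hker : ∀ T : Finset (L ≃ₐ[K] L),
      LinearMap.ker (Polynomial.aeval Rθ (∏ τ ∈ T, (Polynomial.X - Polynomial.C (τ θ))))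
        = ⨆ τ ∈ T, E τ := by
    intro T
    induction T using Finset.induction_on with
    | empty =>
      simp only [Finset.prod_empty, map_one, Finset.notMem_empty, iSup_false, iSup_bot]
      exact LinearMap.ker_id
    | insert τ T hτ ih =>
      rw [Finset.prod_insert hτ,
        ← Polynomial.sup_ker_aeval_eq_ker_aeval_mul_of_coprime, ih, Finset.iSup_insert]
      · congr 1
        show _ = Rθ.eigenspace (τ θ)
        rw [Module.End.eigenspace_def, map_sub, Polynomial.aeval_X, Polynomial.aeval_C,
          Algebra.algebraMap_eq_smul_one]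
      · apply IsCoprime.prod_right
        intro ρ hρ
        apply Polynomial.isCoprime_X_sub_C_of_isUnit_sub
        apply IsUnit.mk0
        intro h
        have := hinj _ _ (sub_eq_zero.mp h)
        exact hτ (this ▸ hρ)
  have htop : ⨆ τ ∈ (Finset.univ : Finset (L ≃ₐ[K] L)), E τ = ⊤ := by
    rw [← hker Finset.univ]
    have : Polynomial.aeval Rθ (∏ τ ∈ (Finset.univ : Finset (L ≃ₐ[K] L)),
        (Polynomial.X - Polynomial.C (τ θ))) = 0 := hf0
    rw [this, LinearMap.ker_zero]
  have hex : ∃ σ : L ≃ₐ[K] L, σ ≠ 1 ∧ ∃ u : A, u ≠ 0 ∧ u ∈ E σ := by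
    by_contra hcon
    push Not at hcon
    have hle : ⨆ τ ∈ (Finset.univ : Finset (L ≃ₐ[K] L)), E τ ≤ E 1 := by
      apply iSup₂_le
      intro τ _
      by_cases h1 : τ = 1
      · rw [h1]
      · intro x hx
        by_cases hx0 : x = 0
        · rw [hx0]; exact zero_mem _
        · exact absurd hx (hcon τ h1 x hx0)
    rw [htop] at hle
    have hcomm : ∀ x : A, x * ι θ = ι θ * x := by
      intro x
      have := (hE 1 x).mp (hle Submodule.mem_top)
      simpa using this
    have hcen : ι θ ∈ Subalgebra.center K A := by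
      rw [Subalgebra.mem_center_iff]; intro x; exact hcomm x
    obtain ⟨k, hk⟩ := Algebra.mem_bot.mp (Algebra.IsCentral.out hcen)
    have hθk : θ = algebraMap K L k := by
      apply ι.toRingHom.injective
      simp [hk]
    have hall : ∀ τ : L ≃ₐ[K] L, τ = 1 := fun τ => hinj τ 1 (by rw [hθk]; simp)
    have h1 : Nat.card (L ≃ₐ[K] L) = 1 := by
      rw [Nat.card_eq_one_iff_exists]; exact ⟨1, hall⟩
    rw [hG] at h1
    exact hpp.one_lt.ne' h1
  obtain ⟨σ, hσ1, u, hu0, huσ⟩ := hex
  have horder : orderOf σ = p := orderOf_eq_prime (by rw [← hG]; exact pow_card_eq_one') hσ1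
  have hupow : ∀ j : ℕ, u ^ j ∈ E (σ ^ j) := by
    intro j
    induction j with
    | zero => rw [hE]; simp
    | succ j ih =>
      rw [hE] at ih huσ ⊢
      have h2 := hsemi (u ^ j) (σ ^ j) ih (σ θ)
      calc u ^ (j + 1) * ι θ = u ^ j * (u * ι θ) := by rw [pow_succ, mul_assoc]
        _ = u ^ j * (ι (σ θ) * u) := by rw [huσ]
        _ = (u ^ j * ι (σ θ)) * u := by rw [mul_assoc]
        _ = (ι ((σ ^ j) (σ θ)) * u ^ j) * u := by rw [h2]
        _ = ι ((σ ^ (j + 1)) θ) * u ^ (j + 1) := by
          rw [pow_succ σ, AlgEquiv.mul_apply, pow_succ u, mul_assoc]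
  have hli : LinearIndependent L (fun j : Fin p => u ^ (j : ℕ)) := by
    apply Module.End.eigenvectors_linearIndependent' Rθ (fun j : Fin p => (σ ^ (j : ℕ)) θ)
    · intro i j hij
      have := hinj _ _ hij
      exact Fin.ext (pow_injOn_Iio_orderOf (by simp [horder]) (by simp [horder]) this)
    · intro j
      exact ⟨hupow j, pow_ne_zero _ hu0⟩
  have hspan : Submodule.span L (Set.range (fun j : Fin p => u ^ (j : ℕ))) = ⊤ :=
    hli.span_eq_top_of_card_eq_finrank' (by simp [hfinL])
  have hup1 : u ^ p ∈ E 1 := by
    have := hupow p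
    rwa [show σ ^ p = 1 by rw [← horder]; exact pow_orderOf_eq_one σ] at this
  have hupL : ∀ l : L, u ^ p * ι l = ι l * u ^ p := by
    intro l
    have := hsemi (u ^ p) 1 ((hE 1 _).mp hup1) l
    simpa using this
  have hcent : ∀ x : A, x * u ^ p = u ^ p * x := by
    intro x
    have hx : x ∈ Submodule.span L (Set.range (fun j : Fin p => u ^ (j : ℕ))) :=
      hspan ▸ Submodule.mem_top
    induction hx using Submodule.span_induction with
    | mem y hy =>
      obtain ⟨j, rfl⟩ := hy
      rw [← pow_add, ← pow_add, add_comm]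
    | zero => simp
    | add y z _ _ hy hz => rw [add_mul, mul_add, hy, hz]
    | smul l y _ hy => rw [hsmul, mul_assoc, hy, ← mul_assoc, ← hupL, mul_assoc]
  have hcen : u ^ p ∈ Subalgebra.center K A := by
    rw [Subalgebra.mem_center_iff]; intro x; exact hcent x
  obtain ⟨a, ha⟩ := Algebra.mem_bot.mp (Algebra.IsCentral.out hcen)
  have hne : u ∉ Set.range (algebraMap K A) := by
    rintro ⟨k, hk⟩
    have h1 := (hE σ u).mp huσ
    have h1' : u * ι θ = u * ι (σ θ) := by
      rw [h1, ← hk, Algebra.commutes]
    have h2 : ι θ = ι (σ θ) := mul_left_cancel₀ hu0 h1'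
    have h3 : σ θ = θ := (ι.toRingHom.injective h2).symm
    exact hσ1 (hinj σ 1 (by simpa using h3))
  exact ⟨u, not_isSeparable_of_pow_eq p u a ha.symm hne⟩

end Groth.Agent.S15171
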