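import Groth.Statements.S15170
import Groth.Agent.S15171
import Mathlib.Algebra.Polynomial.Roots
import Mathlib.RingTheory.Artinian.Module
import Mathlib.Tactic.LinearCombination
import Mathlib.RingTheory.Adjoin.PowerBasis
import Mathlib.FieldTheory.Galois.Basic
-- import your own Groth.Agent.* helpers here

set_option autoImplicit false
universe u v
open BddFin

namespace Groth.Agent.S15170

open Polynomial in
/-- In characteristic `p`, `∏_{i < p} (X - i) = X ^ p - X`. -/
theorem prod_range_X_sub_eq {K : Type*} [Field K] (p : ℕ) [hp : Fact p.Prime] [CharP K p] :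
    (∏ i ∈ Finset.range p, (X - C (i : K))) = X ^ p - X := by
  classical
  have hp1 : 1 < p := hp.out.one_lt
  have hm1 : (∏ i ∈ Finset.range p, (X - C (i : K))).Monic :=
    monic_prod_of_monic _ _ (fun i _ => monic_X_sub_C _)
  have hd1 : (∏ i ∈ Finset.range p, (X - C (i : K))).natDegree = p := by
    rw [natDegree_prod_of_monic _ _ (fun i _ => monic_X_sub_C _)]
    simp only [natDegree_X_sub_C, Finset.sum_const, Finset.card_range, smul_eq_mul, mul_one]
  have hm2 : (X ^ p - X : K[X]).Monic := by
    apply Monic.sub_of_left (monic_X_pow p)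
    rw [degree_X, degree_X_pow]; exact_mod_cast hp1
  have hd2 : (X ^ p - X : K[X]).natDegree = p := by
    rw [natDegree_sub_eq_left_of_natDegree_lt] <;> simp [hp1]
  symm
  rw [← sub_eq_zero]
  apply Polynomial.eq_zero_of_natDegree_lt_card_of_eval_eq_zero' _
    ((Finset.range p).image (fun i : ℕ => (i : K)))
  · intro x hx
    obtain ⟨i, hi, rfl⟩ := Finset.mem_image.mp hx
    simp only [eval_sub, eval_pow, eval_X, eval_prod, eval_C]
    rw [Finset.prod_eq_zero hi (by simp)]
    have : (i : K) ^ p = i := by
      have := map_natCast (frobenius K p) i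
      rwa [frobenius_def] at this
    rw [this]; ring
  · rw [Finset.card_image_of_injOn]
    · simp only [Finset.card_range]
      have hlt : (X ^ p - X - ∏ i ∈ Finset.range p, (X - C (i : K))).degree < (p : WithBot ℕ) := by
        have h1 := degree_sub_lt_left (p := (X ^ p - X : K[X]))
          (q := ∏ i ∈ Finset.range p, (X - C (i : K)))
          (by rw [degree_eq_natDegree hm2.ne_zero, degree_eq_natDegree hm1.ne_zero, hd1, hd2])
          hm2.ne_zero (by rw [hm2.leadingCoeff, hm1.leadingCoeff])
        rwa [degree_eq_natDegree hm2.ne_zero, hd2] at h1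
      by_cases h0 : (X ^ p - X - ∏ i ∈ Finset.range p, (X - C (i : K))) = 0
      · rw [h0]; simp; omega
      · exact (natDegree_lt_iff_degree_lt h0).mpr hlt
    · intro i hi j hj hij
      simp only [Finset.coe_range, Set.mem_Iio] at hi hj
      have := (CharP.natCast_eq_natCast K p).mp hij
      exact Nat.ModEq.eq_of_lt_of_lt this hi hj

/-- (2) ⇒ (3): let K be a field with char K = p > 0 and A a central division K-algebra with dim_K A = p
^ 2. If v, u in A satisfy v ^ p ∈ K, u ^ p ∈ K and v * u - u * v = 1, then some Galois extension L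
of K with [L : K] = p admits a K-algebra embedding into A (so A has a Galois subfield of degree p
over K). -/
theorem result
    (K : Type u) [Field K] (p : ℕ) [Fact p.Prime] [CharP K p]
    (A : Type v) [DivisionRing A] [Algebra K A] [Algebra.IsCentral K A] [FiniteDimensional K A]
    (hA : Module.finrank K A = p ^ 2) (v u : A) (hv : v ^ p ∈ (algebraMap K A).range)
    (hu : u ^ p ∈ (algebraMap K A).range) (hvu : v * u - u * v = 1) :
    ∃ (L : Type v) (_ : Field L) (_ : Algebra K L), IsGalois K L ∧ Module.finrank K L = p ∧
      Nonempty (L →ₐ[K] A) := by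
  classical
  have hpp : p.Prime := Fact.out
  obtain ⟨a1, ha1⟩ := hu
  obtain ⟨a2, ha2⟩ := hv
  have hvu' : v * u = u * v + 1 := by rw [← hvu]; abel
  have hv0 : v ≠ 0 := by
    intro h; rw [h, zero_mul, mul_zero, sub_zero] at hvu; exact zero_ne_one hvu
  set θ := u * v with hθ
  have huθ : u * θ = (θ - 1) * u := by
    calc u * θ = u * (u * v) := rfl
      _ = (u * v - 1) * u := by
        rw [sub_mul, one_mul, mul_assoc u v u, hvu', mul_add, mul_one, add_sub_cancel_right]
  have hvθ : v * θ = (θ + 1) * v := by
    calc v * θ = v * (u * v) := rfl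
      _ = (u * v + 1) * v := by rw [← mul_assoc, hvu']
  let P : ℕ → Polynomial K := fun n => ∏ i ∈ Finset.range n, (Polynomial.X - Polynomial.C (i : K))
  have hPsucc : ∀ n, P (n + 1) = (P n).comp (Polynomial.X - Polynomial.C 1) * Polynomial.X := by
    intro n
    simp only [P]
    rw [Finset.prod_range_succ', Polynomial.prod_comp]
    simp only [Polynomial.sub_comp, Polynomial.X_comp, Polynomial.C_comp, Nat.cast_zero, map_zero,
      sub_zero]
    congr 1
    apply Finset.prod_congr rfl
    intro i _
    rw [Nat.cast_succ, Polynomial.C_add, Polynomial.C_1]; ring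
  have huv : ∀ n : ℕ, u ^ n * v ^ n = Polynomial.aeval θ (P n) := by
    intro n
    induction n with
    | zero => simp [P]
    | succ n ih =>
      rw [hPsucc, map_mul, Polynomial.aeval_X, Polynomial.aeval_comp]
      simp only [map_sub, Polynomial.aeval_X, Polynomial.aeval_C, map_one]
      calc u ^ (n + 1) * v ^ (n + 1) = u * (u ^ n * v ^ n) * v := by
            rw [pow_succ' u n, pow_succ v n, mul_assoc, mul_assoc, mul_assoc]
        _ = u * Polynomial.aeval θ (P n) * v := by rw [ih]
        _ = Polynomial.aeval (θ - 1) (P n) * u * v := by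
            rw [Groth.Agent.S15171.semiconj_aeval u θ (θ - 1) huθ]
        _ = Polynomial.aeval (θ - 1) (P n) * θ := by rw [mul_assoc]
  have hθp : θ ^ p - θ = algebraMap K A (a1 * a2) := by
    have := huv p
    simp only [P] at this
    rw [prod_range_X_sub_eq p, map_sub, map_pow, Polynomial.aeval_X, ← ha1, ← ha2, ← map_mul] at this
    exact this.symm
  set f : Polynomial K := Polynomial.X ^ p - Polynomial.X - Polynomial.C (a1 * a2) with hf
  have hfθ : Polynomial.aeval θ f = 0 := by
    rw [hf, map_sub, map_sub, map_pow, Polynomial.aeval_X, Polynomial.aeval_C, hθp, sub_self]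
  have hθint : IsIntegral K θ := IsIntegral.of_finite K θ
  set g := minpoly K θ with hg
  have hg0 : Polynomial.aeval θ g = 0 := minpoly.aeval K θ
  have hroots : ∀ i : ℕ, Polynomial.aeval (θ + (i : A)) g = 0 := by
    intro i
    induction i with
    | zero => simpa using hg0
    | succ i ih =>
      have hvx : v * (θ + i) = ((θ + i) + 1) * v := by
        rw [mul_add, hvθ, add_mul, add_mul, add_mul, one_mul, (Nat.cast_comm i v).symm]; abel
      have := Groth.Agent.S15171.semiconj_aeval v (θ + i) (θ + i + 1) hvx g
      rw [ih, mul_zero] at this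
      have h2 := (mul_eq_zero.mp this.symm).resolve_right hv0
      rw [Nat.cast_succ, ← add_assoc]; exact h2
  let S : Subalgebra K A := Algebra.adjoin K {θ}
  haveI : IsMulCommutative S := Algebra.isMulCommutative_adjoin K (by simp)
  haveI : IsDomain S := inferInstance
  haveI : FiniteDimensional K S := inferInstance
  haveI : IsArtinianRing S := IsArtinianRing.of_finite K S
  letI : Field S := (IsArtinianRing.isField_of_isDomain S).toField
  let θ' : S := ⟨θ, Algebra.subset_adjoin rfl⟩
  have hθ'int : IsIntegral K θ' := IsIntegral.of_finite K θ'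
  have hadj : Algebra.adjoin K {θ'} = ⊤ := by
    have h := Algebra.adjoin_adjoin_coe_preimage (R := K) (s := ({θ} : Set A))
    have hpre : (((↑) : Algebra.adjoin K ({θ} : Set A) → A) ⁻¹' {θ}) = {θ'} := by
      ext x
      simp only [Set.mem_preimage, Set.mem_singleton_iff]
      constructor
      · intro hx; exact Subtype.ext hx
      · rintro rfl; rfl
    rw [hpre] at h
    exact h
  have hmin : minpoly K θ' = g := (minpoly.algHom_eq S.val Subtype.val_injective θ').symm
  have hfin : Module.finrank K S = g.natDegree := by
    rw [(PowerBasis.ofAdjoinEqTop hθ'int hadj).finrank, PowerBasis.ofAdjoinEqTop_dim, hmin]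
  have hrootsS : ∀ i : ℕ, Polynomial.aeval (θ' + (i : S)) g = 0 := by
    intro i
    have h1 : S.val (Polynomial.aeval (θ' + (i : S)) g) = 0 := by
      rw [← Polynomial.aeval_algHom_apply, map_add, map_natCast]
      exact hroots i
    apply Subtype.val_injective
    exact h1
  have hinj : Set.InjOn (fun i : ℕ => θ' + (i : S)) (Finset.range p : Set ℕ) := by
    intro i hi j hj hij
    simp only [Finset.coe_range, Set.mem_Iio] at hi hj
    have h1 : (i : S) = (j : S) := add_left_cancel hij
    have h2 : (i : K) = (j : K) := by
      apply (algebraMap K S).injective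
      rw [map_natCast, map_natCast]; exact h1
    exact Nat.ModEq.eq_of_lt_of_lt ((CharP.natCast_eq_natCast K p).mp h2) hi hj
  set T : Finset S := (Finset.range p).image (fun i : ℕ => θ' + (i : S)) with hTdef
  have hTcard : T.card = p := by
    rw [hTdef, Finset.card_image_of_injOn hinj, Finset.card_range]
  have hg0' : g ≠ 0 := minpoly.ne_zero hθint
  have hT : T.val ⊆ (g.map (algebraMap K S)).roots := by
    intro x hx
    have hx' : x ∈ T := hx
    obtain ⟨i, -, rfl⟩ := Finset.mem_image.mp hx'
    exact Polynomial.mem_aroots.mpr ⟨hg0', hrootsS i⟩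
  have hdegG : p ≤ g.natDegree := by
    have := Polynomial.card_le_degree_of_subset_roots hT
    rw [hTcard, Polynomial.natDegree_map] at this
    exact this
  have hp1 : 1 < p := hpp.one_lt
  have hf1m : (Polynomial.X ^ p - Polynomial.X : Polynomial K).Monic := by
    apply Polynomial.Monic.sub_of_left (Polynomial.monic_X_pow p)
    rw [Polynomial.degree_X, Polynomial.degree_X_pow]; exact_mod_cast hp1
  have hf1d : (Polynomial.X ^ p - Polynomial.X : Polynomial K).natDegree = p := by
    rw [Polynomial.natDegree_sub_eq_left_of_natDegree_lt] <;> simp [hp1]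
  have hfmonic : f.Monic := by
    apply Polynomial.Monic.sub_of_left hf1m
    rw [Polynomial.degree_eq_natDegree hf1m.ne_zero, hf1d]
    exact lt_of_le_of_lt Polynomial.degree_C_le (by exact_mod_cast hpp.pos)
  have hfdeg : f.natDegree = p := by
    rw [hf, Polynomial.natDegree_sub_C, hf1d]
  have hgf : g ∣ f := minpoly.dvd K θ hfθ
  have hgdeg : g.natDegree = p :=
    le_antisymm (hfdeg ▸ Polynomial.natDegree_le_of_dvd hgf hfmonic.ne_zero) hdegG
  have hgeqf : f = g := Polynomial.eq_of_monic_of_dvd_of_natDegree_le (minpoly.monic hθint)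
    hfmonic hgf (by rw [hfdeg, hgdeg])
  have hsplit : Polynomial.Splits (f.map (algebraMap K S)) := by
    rw [Polynomial.splits_iff_card_roots]
    apply le_antisymm (Polynomial.card_roots' _)
    rw [Polynomial.natDegree_map, hfdeg, hgeqf]
    calc p = T.card := hTcard.symm
      _ = Multiset.card T.val := rfl
      _ ≤ _ := Multiset.card_le_card (Finset.val_le_iff_val_subset.2 hT)
  haveI hsf : Polynomial.IsSplittingField K S f := ⟨hsplit, by
    rw [eq_top_iff, ← hadj]
    apply Algebra.adjoin_mono
    intro x hx
    rw [Set.mem_singleton_iff] at hx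
    subst hx
    rw [Polynomial.mem_rootSet]
    exact ⟨hfmonic.ne_zero, by rw [hgeqf]; simpa using hrootsS 0⟩⟩
  have hsep : f.Separable := by
    rw [Polynomial.separable_def]
    have hder : Polynomial.derivative f = -1 := by
      rw [hf, Polynomial.derivative_sub, Polynomial.derivative_sub, Polynomial.derivative_X_pow,
        Polynomial.derivative_X, Polynomial.derivative_C, CharP.cast_eq_zero, map_zero, zero_mul,
        zero_sub, sub_zero]
    rw [hder]
    exact isCoprime_one_right.neg_right
  haveI hgal : IsGalois K S := IsGalois.of_separable_splitting_field hsep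
  refine ⟨S, inferInstance, inferInstance, hgal, ?_, ⟨S.val⟩⟩
  rw [hfin, hgdeg]

end Groth.Agent.S15170
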