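import Groth.Statements.S15172
import Mathlib.Algebra.Polynomial.Roots
import Mathlib.Algebra.BigOperators.Group.Finset.Basic
import Mathlib.Tactic.LinearCombination
-- import your own Groth.Agent.* helpers here

set_option autoImplicit false
universe u v
open Polynomial
open BddFin

namespace Groth.Agent.S15172

/-- Let L be a field of characteristic p > 0 and s a finite subset of L containing 0 and closed under
addition (a finite additive subgroup). Then the polynomial f = ∏_{a ∈ s} (X - a) is additive: f (x +
y) = f x + f y for all x, y in any commutative L-algebra (equivalently, as an identity of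
polynomials in two variables). -/
theorem result
    (L : Type u) [Field L] (p : ℕ) [Fact p.Prime] [CharP L p] (s : Finset L) (h0 : (0 : L) ∈ s)
    (hadd : ∀ a ∈ s, ∀ b ∈ s, a + b ∈ s) (R : Type v) [CommRing R] [Algebra L R] (x y : R) :
    aeval (x + y) (∏ a ∈ s, (X - C a)) = aeval x (∏ a ∈ s, (X - C a)) + aeval y (∏ a ∈ s, (X - C a)) := by
  classical
  set f : L[X] := ∏ a ∈ s, (X - C a) with hf
  have htrans : ∀ a ∈ s, s.image (fun c => a + c) = s := by
    intro a ha
    apply Finset.eq_of_subset_of_card_le
    · intro b hb
      obtain ⟨c, hc, rfl⟩ := Finset.mem_image.mp hb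
      exact hadd a ha c hc
    · rw [Finset.card_image_of_injective _ (add_right_injective a)]
  have hcomp : ∀ a ∈ s, f.comp (X + C a) = f := by
    intro a ha
    rw [hf, Polynomial.prod_comp]
    conv_lhs => rw [← htrans a ha]
    rw [Finset.prod_image (fun x _ y _ h => add_left_cancel h)]
    apply Finset.prod_congr rfl
    intro c _
    simp only [C_add, sub_comp, add_comp, X_comp, C_comp]
    ring
  have hroot : ∀ a ∈ s, f.eval a = 0 := by
    intro a ha
    rw [hf, Polynomial.eval_prod]
    exact Finset.prod_eq_zero ha (by simp)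
  have hmonic : f.Monic := Polynomial.monic_prod_of_monic _ _ (fun a _ => Polynomial.monic_X_sub_C a)
  have hdeg : f.natDegree = s.card := by
    rw [hf, Polynomial.natDegree_prod_of_monic _ _ (fun a _ => monic_X_sub_C a)]
    simp
  have hn : 0 < s.card := Finset.card_pos.mpr ⟨0, h0⟩
  let F : (L[X])[X] := f.map (C : L →+* L[X])
  let q : (L[X])[X] := (X : (L[X])[X]) + C (X : L[X])
  let P : (L[X])[X] := F.comp q - F - C f
  have hFm : F.Monic := hmonic.map C
  have hFd : F.natDegree = s.card := by
    rw [hmonic.natDegree_map, hdeg]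
  have hq : q.Monic := monic_X_add_C _
  have hqd : q.natDegree = 1 := natDegree_X_add_C _
  have hGm : (F.comp q).Monic := hFm.comp hq (by rw [hqd]; norm_num)
  have hGd : (F.comp q).natDegree = s.card := by rw [natDegree_comp, hqd, hFd, mul_one]
  have hlt : (F.comp q - F).degree < s.card := by
    have hdeg_eq : (F.comp q).degree = F.degree := by
      rw [degree_eq_natDegree hGm.ne_zero, degree_eq_natDegree hFm.ne_zero, hGd, hFd]
    have h1 := degree_sub_lt_left hdeg_eq hGm.ne_zero (by rw [hGm.leadingCoeff, hFm.leadingCoeff])
    rwa [degree_eq_natDegree hGm.ne_zero, hGd] at h1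
  have hPdeg : P.degree < s.card := by
    refine lt_of_le_of_lt (degree_sub_le _ _) (max_lt hlt ?_)
    exact lt_of_le_of_lt degree_C_le (by exact_mod_cast hn)
  have heval : ∀ a : s, P.eval (C (a : L)) = 0 := by
    intro a
    simp only [P, F, q, eval_sub, eval_comp, eval_add, eval_X, eval_C, eval_map]
    rw [← Polynomial.comp, ← Polynomial.comp]
    rw [add_comm, hcomp a a.2]
    simp [hroot a a.2]
  have hP : P = 0 := by
    by_contra hne
    apply hne
    apply Polynomial.eq_zero_of_natDegree_lt_card_of_eval_eq_zero P
      (f := fun a : s => C (a : L)) (fun a b h => Subtype.ext (C_injective h)) heval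
    rw [Fintype.card_coe]
    exact (natDegree_lt_iff_degree_lt hne).mpr hPdeg
  let φ : L[X] →+* R := (aeval x : L[X] →ₐ[L] R).toRingHom
  have hφC : φ.comp (C : L →+* L[X]) = algebraMap L R := by
    ext a
    simp [φ]
  have h := congrArg (eval₂ φ y) hP
  simp only [P, F, q, eval₂_sub, eval₂_comp, eval₂_add, eval₂_X, eval₂_C, eval₂_map, hφC,
    eval₂_zero] at h
  rw [← aeval_def, ← aeval_def] at h
  have hx : φ (X : L[X]) = x := by simp [φ]
  have hf' : φ f = aeval x f := rfl
  rw [hx, hf'] at h
  rw [add_comm x y]
  linear_combination h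

end Groth.Agent.S15172
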