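import Groth.Statements.S15173
import Mathlib.RingTheory.Artinian.Module
import Mathlib.FieldTheory.Perfect
import Mathlib.GroupTheory.FiniteAbelian.Basic
import Mathlib.GroupTheory.Index
import Mathlib.Algebra.Polynomial.Expand
import Mathlib.RingTheory.Adjoin.Polynomial.Basic
import Mathlib.Algebra.CharP.Algebra
import Mathlib.Tactic.Abel
-- import your own Groth.Agent.* helpers here

set_option autoImplicit false
universe u v
open Polynomial
open BddFin

namespace Groth.Agent.S15173

/-- Let K be a field of characteristic p > 0 such that K contains all roots of unity (for every n ≥ 1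
the polynomial X^n − 1 splits into linear factors over K), and A a finite-dimensional central
division algebra over K. If A contains an element w not in K with w ^ p in K, then the quotient of
the unit group of A by that of K has unbounded finite subgroups: for every N there is a subgroup H
of the units of A containing the units of K as a subgroup of finite index greater than N. (The
published statement assumes only that some element of A is inseparable over K and passes at once to
a purely inseparable subfield of degree p; this row assumes an element generating such a subfield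
directly, which is what the rest of the printed argument uses.) -/
theorem result
    (K : Type u) [Field K] (p : ℕ) [Fact p.Prime] [CharP K p] (hK : ∀ n : ℕ, 0 < n → (X ^ n - 1 : K[X]).Splits)
    (A : Type v) [DivisionRing A] [Algebra K A] [Algebra.IsCentral K A] [FiniteDimensional K A]
    (w : A) (hw : w ^ p ∈ (algebraMap K A).range) (hwK : w ∉ (algebraMap K A).range) (N : ℕ) :
    ∃ H : Subgroup Aˣ, (Units.map (algebraMap K A : K →* A)).range ≤ H ∧
      N < ((Units.map (algebraMap K A : K →* A)).range).relIndex H := by
  classical
  have hpp : p.Prime := Fact.out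
  obtain ⟨a, ha⟩ := hw
  haveI : CharP A p := charP_of_injective_algebraMap (algebraMap K A).injective p
  have hKinf : Infinite K := by
    by_contra hfin
    rw [not_infinite_iff_finite] at hfin
    haveI : PerfectRing K p := inferInstance
    obtain ⟨b, hb⟩ := surjective_frobenius K p a
    apply hwK
    refine ⟨b, ?_⟩
    have h1 : (w - algebraMap K A b) ^ p = 0 := by
      rw [sub_pow_char_of_commute p (Algebra.commutes b w).symm, ← map_pow,
        ← frobenius_def, hb, ha, sub_self]
    exact (sub_eq_zero.mp (pow_eq_zero_iff hpp.ne_zero |>.mp h1)).symm
  let S : Subalgebra K A := Algebra.adjoin K {w}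
  haveI : IsMulCommutative S := Algebra.isMulCommutative_adjoin K (by simp)
  haveI : FiniteDimensional K S := inferInstance
  haveI : IsArtinianRing S := IsArtinianRing.of_finite K S
  letI : Field S := (IsArtinianRing.isField_of_isDomain S).toField
  let w' : S := ⟨w, Algebra.subset_adjoin rfl⟩
  -- p-th powers of elements of S lie in K
  have hpowA : ∀ x : S, ∃ c : K, ((x : A)) ^ p = algebraMap K A c := by
    intro x
    have hx : (x : A) ∈ (Polynomial.aeval (R := K) w).range := by
      rw [← Algebra.adjoin_singleton_eq_range_aeval]; exact x.2
    obtain ⟨f, hf⟩ := hx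
    have hf' : Polynomial.aeval w f = (x : A) := hf
    refine ⟨(f.map (frobenius K p)).eval a, ?_⟩
    rw [← hf', ← map_pow, ← Polynomial.map_frobenius_expand p, Polynomial.map_expand,
      Polynomial.expand_aeval, ← ha, Polynomial.aeval_algebraMap_apply_eq_algebraMap_eval]
  set KS : Subgroup Sˣ := (Units.map (algebraMap K S : K →* S)).range with hKS
  have hpowK : ∀ y : Sˣ, y ^ p ∈ KS := by
    intro y
    obtain ⟨c, hc⟩ := hpowA (y : S)
    have hc0 : c ≠ 0 := by
      rintro rfl
      rw [map_zero] at hc
      have : ((y : S) : A) ≠ 0 := by
        intro h0; exact y.ne_zero (Subtype.val_injective h0)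
      exact this (pow_eq_zero_iff hpp.ne_zero |>.mp hc)
    refine ⟨Units.mk0 c hc0, ?_⟩
    apply Units.ext
    apply Subtype.val_injective
    simp only [Units.coe_map, Units.val_mk0, MonoidHom.coe_coe, Units.val_pow_eq_pow_val,
      SubmonoidClass.coe_pow]
    exact hc.symm
  let c : ℕ ↪ K := Infinite.natEmbedding K
  have hu0 : ∀ i : ℕ, w' + algebraMap K S (c i) ≠ 0 := by
    intro i h
    apply hwK
    refine ⟨-(c i), ?_⟩
    have := congrArg Subtype.val h
    simp only [w', Subalgebra.coe_add, Subalgebra.coe_algebraMap, ZeroMemClass.coe_zero] at this
    rw [map_neg]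
    exact (eq_neg_of_add_eq_zero_left this).symm
  let U : ℕ → Sˣ := fun i => Units.mk0 (w' + algebraMap K S (c i)) (hu0 i)
  set π' := QuotientGroup.mk' KS with hπ'
  let gens : Fin (N + 1) → Sˣ ⧸ KS := fun i => π' (U i)
  set F' : Subgroup (Sˣ ⧸ KS) := Subgroup.closure (Set.range gens) with hF'
  set H' : Subgroup Sˣ := F'.comap π' with hH'
  let ι : Sˣ →* Aˣ := Units.map (S.val : S →* A)
  have hinjι : Function.Injective ι := by
    intro x y hxy
    apply Units.ext
    have := congrArg Units.val hxy
    exact Subtype.val_injective this
  have hKA : (Units.map (algebraMap K A : K →* A)).range = KS.map ι := by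
    rw [hKS, ← MonoidHom.range_comp]
    congr 1
  refine ⟨H'.map ι, ?_, ?_⟩
  · rw [hKA]
    apply Subgroup.map_mono
    intro x hx
    rw [hH', Subgroup.mem_comap]
    have : π' x = 1 := by
      rw [hπ', QuotientGroup.mk'_apply, QuotientGroup.eq_one_iff]; exact hx
    rw [this]; exact F'.one_mem
  · rw [hKA, Subgroup.relIndex_map_map_of_injective _ _ hinjι]
    have hrel : KS.relIndex H' = Nat.card F' := by
      have hk : KS = (⊥ : Subgroup (Sˣ ⧸ KS)).comap π' := by
        rw [MonoidHom.comap_bot, hπ', QuotientGroup.ker_mk']
      calc KS.relIndex H' = ((⊥ : Subgroup (Sˣ ⧸ KS)).comap π').relIndex H' := by rw [← hk]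
        _ = Nat.card F' := by
          rw [hH', Subgroup.relIndex_comap,
            Subgroup.map_comap_eq_self_of_surjective (QuotientGroup.mk'_surjective KS),
            Subgroup.relIndex_bot_left]
    rw [hrel]
    have hfinF : Finite F' := by
      haveI : Group.FG F' := Group.closure_finite_fg _
      apply CommGroup.finite_of_fg_isMulTorsion
      intro x
      apply isOfFinOrder_iff_pow_eq_one.mpr
      refine ⟨p, hpp.pos, ?_⟩
      apply Subtype.ext
      obtain ⟨y, hy⟩ := QuotientGroup.mk'_surjective KS (x : Sˣ ⧸ KS)
      rw [Subgroup.coe_pow, ← hy, ← map_pow, Subgroup.coe_one, QuotientGroup.mk'_apply,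
        QuotientGroup.eq_one_iff]
      exact hpowK y
    have hginj : Function.Injective (fun i : Fin (N + 1) => (⟨gens i, Subgroup.subset_closure ⟨i, rfl⟩⟩ : F')) := by
      intro i j hij
      have hij' : gens i = gens j := congrArg Subtype.val hij
      simp only [gens, hπ', QuotientGroup.mk'_apply, QuotientGroup.eq] at hij'
      obtain ⟨t, ht⟩ := hij'
      have ht2 : U j = U i * Units.map (algebraMap K S : K →* S) t :=
        inv_mul_eq_iff_eq_mul.mp ht.symm
      have h1 : (((U j : S)) : A) = ((U i : S) : A) * algebraMap K A (t : K) := by
        rw [ht2]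
        simp only [Units.val_mul, Subalgebra.coe_mul, Units.coe_map, MonoidHom.coe_coe]
        rfl
      have hUi : ((U i : S) : A) = w + algebraMap K A (c i) := rfl
      have hUj : ((U j : S) : A) = w + algebraMap K A (c j) := rfl
      rw [hUi, hUj] at h1
      have hc : c i = c j := by
        by_cases ht1 : (t : K) = 1
        · rw [ht1, map_one, mul_one] at h1
          exact ((algebraMap K A).injective (add_left_cancel h1)).symm
        · exfalso
          apply hwK
          have e1 : w * algebraMap K A t = algebraMap K A t * w := (Algebra.commutes _ _).symm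
          have h3 : algebraMap K A (1 - (t : K)) * w = algebraMap K A (c i * t - c j) := by
            rw [map_sub, map_sub, map_one, map_mul, sub_mul, one_mul, ← e1]
            calc w - w * algebraMap K A t
                = (w + algebraMap K A (c j)) - w * algebraMap K A t - algebraMap K A (c j) := by abel
              _ = (w + algebraMap K A (c i)) * algebraMap K A t - w * algebraMap K A t
                    - algebraMap K A (c j) := by rw [h1]
              _ = algebraMap K A (c i) * algebraMap K A t - algebraMap K A (c j) := by
                rw [add_mul]; abel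
          have h1t : (1 - (t : K)) ≠ 0 := sub_ne_zero.mpr (Ne.symm ht1)
          refine ⟨(1 - (t : K))⁻¹ * (c i * t - c j), ?_⟩
          rw [map_mul, ← h3, ← mul_assoc, ← map_mul, inv_mul_cancel₀ h1t, map_one, one_mul]
      have := c.injective hc
      exact Fin.ext this
    have := Nat.card_le_card_of_injective _ hginj
    rw [Nat.card_eq_fintype_card, Fintype.card_fin] at this
    omega

end Groth.Agent.S15173
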