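import Groth.Statements.S15183
import Mathlib.RingTheory.SimpleModule.WedderburnArtin
import Mathlib.RingTheory.RootsOfUnity.PrimitiveRoots
import Mathlib.Data.Matrix.Basis
import Mathlib.Tactic.FinCases
import Mathlib.FieldTheory.Separable
-- import your own Groth.Agent.* helpers here

set_option autoImplicit false
universe u v
open Polynomial
open BddFin

namespace Groth.Agent.S15183

open Polynomial in
theorem exists_primitive_root_of_splits {K : Type*} [Field K] (d : ℕ) (hd : 0 < d)
    (hdK : (d : K) ≠ 0) (hs : (X ^ d - 1 : K[X]).Splits) : ∃ ζ : K, IsPrimitiveRoot ζ d := by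
  classical
  have : NeZero d := ⟨hd.ne'⟩
  have hsep : (X ^ d - C (1 : K)).Separable := separable_X_pow_sub_C 1 hdK one_ne_zero
  have hnd : (nthRoots d (1 : K)).Nodup := nodup_roots hsep
  have hcard : Multiset.card (nthRoots d (1 : K)) = d := by
    have h := hs.natDegree_eq_card_roots
    rw [show (X ^ d - 1 : K[X]) = X ^ d - C 1 by rw [C_1]] at h
    rw [natDegree_X_pow_sub_C] at h
    exact h.symm
  rw [← card_rootsOfUnity_eq_iff_exists_isPrimitiveRoot]
  rw [Nat.card_congr (rootsOfUnityEquivNthRoots K d)]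
  rw [Nat.card_congr (Equiv.subtypeEquivRight
    (fun x => (Multiset.mem_toFinset (s := nthRoots d (1 : K))).symm))]
  rw [Nat.card_eq_fintype_card, Fintype.card_coe, Multiset.toFinset_card_of_nodup hnd, hcard]

/-- Let K be a field such that K contains all roots of unity (for every n ≥ 1 the polynomial X^n − 1
splits into linear factors over K), and A a finite-dimensional central simple K-algebra which is not
a division algebra (some non-zero element is not a unit). Then the quotient of the unit group of A
by that of K has elements of every finite order invertible in K: for every d ≥ 1 with d ≠ 0 in K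
there is a unit x of A with x ^ d in K and x ^ k not in K for 0 < k < d. (The published assertion is
phrased for the automorphism group of the Severi–Brauer variety of A, which is isomorphic to the
units of A modulo those of K; this row is the algebra-side statement its proof establishes.) -/
theorem result
    (K : Type u) [Field K] (hK : ∀ n : ℕ, 0 < n → (X ^ n - 1 : K[X]).Splits)
    (A : Type v) [Ring A] [Algebra K A] [Algebra.IsCentral K A] [IsSimpleRing A] [FiniteDimensional K A]
    (hA : ∃ y : A, y ≠ 0 ∧ ¬ IsUnit y) (d : ℕ) (hd : 0 < d) (hdK : (d : K) ≠ 0) :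
    ∃ x : A, IsUnit x ∧ x ^ d ∈ (algebraMap K A).range ∧
      ∀ k : ℕ, 0 < k → k < d → x ^ k ∉ (algebraMap K A).range := by
  classical
  obtain ⟨ζ, hζ⟩ := exists_primitive_root_of_splits d hd hdK (hK d hd)
  have hζ0 : ζ ≠ 0 := hζ.ne_zero hd.ne'
  have : IsArtinianRing A := IsArtinianRing.of_finite K A
  obtain ⟨m, hm, D, hD, hDa, ⟨e⟩⟩ := IsSimpleRing.exists_algEquiv_matrix_divisionRing K A
  have hm2 : 2 ≤ m := by
    by_contra hlt
    push Not at hlt
    have hm1 : m = 1 := by have := hm.out; omega
    subst hm1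
    obtain ⟨y, hy0, hyu⟩ := hA
    apply hyu
    have hey : e y ≠ 0 := fun h => hy0 (e.injective (by rw [h, map_zero]))
    have h00 : e y 0 0 ≠ 0 := by
      intro h; apply hey; ext i j
      rw [Subsingleton.elim i 0, Subsingleton.elim j 0, h]; rfl
    let Z : Matrix (Fin 1) (Fin 1) D := Matrix.of fun _ _ => (e y 0 0)⁻¹
    have hZ1 : e y * Z = 1 := by
      ext i j
      rw [Subsingleton.elim i 0, Subsingleton.elim j 0]
      simp [Z, Matrix.mul_apply, h00]
    have hZ2 : Z * e y = 1 := by
      ext i j
      rw [Subsingleton.elim i 0, Subsingleton.elim j 0]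
      simp [Z, Matrix.mul_apply, h00]
    have : IsUnit (e y) := ⟨⟨e y, Z, hZ1, hZ2⟩, rfl⟩
    exact (isUnit_map_iff e y).mp this
  let i0 : Fin m := ⟨0, by omega⟩
  let i1 : Fin m := ⟨1, by omega⟩
  let E : Matrix (Fin m) (Fin m) D := Matrix.single i0 i0 1
  let ε : A := e.symm E
  have hε2 : ε * ε = ε := by
    simp only [ε, ← map_mul, E, Matrix.single_mul_single_same, mul_one]
  have hε0 : ε ≠ 0 := by
    intro h
    have : E = 0 := by
      have := congrArg e h
      simpa [ε] using this
    have h2 := congrFun (congrFun this i0) i0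
    simp [E] at h2
  have hε1 : ε ≠ 1 := by
    intro h
    have : E = 1 := by
      have := congrArg e h
      simpa [ε] using this
    have h2 := congrFun (congrFun this i1) i1
    have hne : i0 ≠ i1 := by simp [i0, i1, Fin.ext_iff]
    simp [E, hne] at h2
  have hmulf : ∀ a b : K, (a • ε + (1 - ε)) * (b • ε + (1 - ε)) = (a * b) • ε + (1 - ε) := by
    intro a b
    have h1 : ε * (1 - ε) = 0 := by rw [mul_sub, mul_one, hε2, sub_self]
    have h2 : (1 - ε) * ε = 0 := by rw [sub_mul, one_mul, hε2, sub_self]
    have h3 : (1 - ε) * (1 - ε) = 1 - ε := by rw [sub_mul, one_mul, h1, sub_zero]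
    rw [add_mul, mul_add, mul_add, smul_mul_assoc, mul_smul_comm, smul_smul, hε2,
      smul_mul_assoc, h1, smul_zero, mul_smul_comm, h2, smul_zero, h3, add_zero, zero_add]
  let x : A := ζ • ε + (1 - ε)
  have hxpow : ∀ k : ℕ, x ^ k = ζ ^ k • ε + (1 - ε) := by
    intro k
    induction k with
    | zero => simp
    | succ k ih => rw [pow_succ, ih, hmulf, ← pow_succ]
  refine ⟨x, ?_, ?_, ?_⟩
  · refine ⟨⟨x, ζ⁻¹ • ε + (1 - ε), ?_, ?_⟩, rfl⟩
    · show (ζ • ε + (1 - ε)) * (ζ⁻¹ • ε + (1 - ε)) = 1
      rw [hmulf, mul_inv_cancel₀ hζ0, one_smul, add_sub_cancel]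
    · show (ζ⁻¹ • ε + (1 - ε)) * (ζ • ε + (1 - ε)) = 1
      rw [hmulf, inv_mul_cancel₀ hζ0, one_smul, add_sub_cancel]
  · refine ⟨1, ?_⟩
    rw [hxpow, hζ.pow_eq_one, one_smul, add_sub_cancel, map_one]
  · intro k hk0 hkd ⟨t, ht⟩
    rw [hxpow, Algebra.algebraMap_eq_smul_one] at ht
    have h1 : ε * (1 - ε) = 0 := by rw [mul_sub, mul_one, hε2, sub_self]
    have h2 : (1 - ε) * ε = 0 := by rw [sub_mul, one_mul, hε2, sub_self]
    have h3 : (1 - ε) * (1 - ε) = 1 - ε := by rw [sub_mul, one_mul, h1, sub_zero]
    have e1 := congrArg (fun z => z * ε) ht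
    have e2 := congrArg (fun z => z * (1 - ε)) ht
    simp only [add_mul, smul_mul_assoc, hε2, h2, h1, h3, one_mul, add_zero, zero_add,
      smul_zero] at e1 e2
    have ht1 : t = ζ ^ k := by
      have : (t - ζ ^ k) • ε = 0 := by rw [sub_smul, e1, sub_self]
      rcases smul_eq_zero.mp this with h | h
      · exact sub_eq_zero.mp h
      · exact absurd h hε0
    have ht2 : t = 1 := by
      have : (t - 1) • (1 - ε) = 0 := by rw [sub_smul, one_smul, e2, sub_self]
      rcases smul_eq_zero.mp this with h | h
      · exact sub_eq_zero.mp h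
      · exact absurd (sub_eq_zero.mp h).symm hε1
    exact hζ.pow_ne_one_of_pos_of_lt hk0.ne' hkd (ht1 ▸ ht2)

end Groth.Agent.S15183
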