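import Groth.Statements.S15224
import Mathlib.Tactic
-- import your own Groth.Agent.* helpers here

set_option autoImplicit false
open Finset
open W4c2rk2extmaps

namespace Groth.Agent.S15224

/-- In a commutative ℚ-algebra R let y be an element and put c_k = y^k / k! for every k. Then for k ≥ 2,
Σ_{i=1}^{k-1} (-1)^(i-1) c_i c_(k-i) + (-1)^(k-1) c_k = c_k. (The published statement concerns the
Chern classes of a specific vector bundle on a Jacobian, which are of the form c_k = (4θ)^k / k!;
the printed argument establishes the identity for every sequence of this form in a commutative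
ℚ-algebra, which is the form stated here.) -/
theorem result (R : Type*) [CommRing R] [Algebra ℚ R] (y : R)
    (c : ℕ → R) (hc : ∀ k : ℕ, c k = ((Nat.factorial k : ℚ)⁻¹) • y ^ k)
    (k : ℕ) (hk : 2 ≤ k) :
    (∑ i ∈ Finset.Ico 1 k, (-1 : R) ^ (i - 1) * c i * c (k - i)) + (-1 : R) ^ (k - 1) * c k = c k := by
  obtain ⟨k, rfl⟩ : ∃ j, k = j + 1 := ⟨k - 1, by omega⟩
  have hprod : ∀ i, i ≤ k + 1 → c i * c (k + 1 - i) = (((k + 1).choose i : ℕ) : ℚ) • c (k + 1) := by
    intro i hi
    rw [hc, hc, hc, smul_mul_smul_comm, ← pow_add, Nat.add_sub_cancel' hi, smul_smul]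
    congr 1
    have h := Nat.choose_mul_factorial_mul_factorial hi
    have h' : ((k + 1).choose i : ℚ) * (i.factorial : ℚ) * ((k + 1 - i).factorial : ℚ) =
        ((k + 1).factorial : ℚ) := by exact_mod_cast h
    have h1 : (i.factorial : ℚ) ≠ 0 := by positivity
    have h2 : ((k + 1 - i).factorial : ℚ) ≠ 0 := by positivity
    have h3 : ((k + 1).factorial : ℚ) ≠ 0 := by positivity
    field_simp
    linear_combination -h'
  have hterm : ∀ i ∈ Finset.Ico 1 (k + 1), (-1 : R) ^ (i - 1) * c i * c (k + 1 - i) =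
      ((-1 : ℤ) ^ (i - 1) * ((k + 1).choose i : ℤ)) • c (k + 1) := by
    intro i hi
    have hi' : i ≤ k + 1 := by simp only [Finset.mem_Ico] at hi; omega
    rw [mul_assoc, hprod i hi', Nat.cast_smul_eq_nsmul, zsmul_eq_mul, nsmul_eq_mul]
    push_cast
    ring
  rw [Finset.sum_congr rfl hterm, ← Finset.sum_smul]
  have hint : (∑ i ∈ Finset.Ico 1 (k + 1), (-1 : ℤ) ^ (i - 1) * ((k + 1).choose i : ℤ)) =
      1 - (-1) ^ k := by
    have h0 := @Int.alternating_sum_range_choose_eq_choose k k
    rw [Nat.choose_self, Nat.cast_one, mul_one, Finset.range_eq_Ico,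
      Finset.sum_eq_sum_Ico_succ_bot (by omega)] at h0
    simp only [pow_zero, Nat.choose_zero_right, Nat.cast_one, mul_one] at h0
    have h4 : (∑ i ∈ Finset.Ico 1 (k + 1), (-1 : ℤ) ^ (i - 1) * ((k + 1).choose i : ℤ)) =
        -∑ i ∈ Finset.Ico 1 (k + 1), (-1 : ℤ) ^ i * ((k + 1).choose i : ℤ) := by
      rw [← Finset.sum_neg_distrib]
      refine Finset.sum_congr rfl fun i hi => ?_
      simp only [Finset.mem_Ico] at hi
      obtain ⟨j, rfl⟩ : ∃ j, i = j + 1 := ⟨i - 1, by omega⟩
      simp [pow_succ]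
    rw [h4]
    linear_combination -h0
  rw [hint, Nat.add_sub_cancel, zsmul_eq_mul]
  push_cast
  ring

end Groth.Agent.S15224
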