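import Groth.Statements.S15229
import Groth.Agent.S15224
import Mathlib.Tactic
-- import your own Groth.Agent.* helpers here

set_option autoImplicit false
open Finset
open W4c2rk2extmaps

namespace Groth.Agent.S15229

/-- In a commutative ℚ-algebra R let θ, η be elements and g a natural number, and put c_k = (4θ)^k / k!.
Suppose θ^(g+1) = 0 and that η satisfies the relation η^(g+1) = Σ_{i=1}^{g+1} (-1)^(i-1) c_i
η^(g+1-i). Then η^(g+k) θ^(g-k) = c_k η^g θ^(g-k) for every 1 ≤ k ≤ g. (The published statement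
concerns the first Chern class η of the tautological line bundle on a projective bundle P(U) over a
g-dimensional Jacobian, with c_k the Chern classes of U, which are (4θ)^k / k!; there θ^(g+1)
vanishes for dimension reasons and the displayed relation is the projective-bundle relation, and the
printed argument derives the identity from exactly these three inputs, which is the form stated
here.) -/
theorem result (R : Type*) [CommRing R] [Algebra ℚ R]
    (θ η : R) (g : ℕ) (c : ℕ → R) (hc : ∀ k : ℕ, c k = ((Nat.factorial k : ℚ)⁻¹) • ((4 : R) * θ) ^ k)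
    (hθ : θ ^ (g + 1) = 0)
    (hrel : η ^ (g + 1) = ∑ i ∈ Finset.Ico 1 (g + 2), (-1 : R) ^ (i - 1) * c i * η ^ (g + 1 - i))
    (k : ℕ) (hk1 : 1 ≤ k) (hkg : k ≤ g) :
    η ^ (g + k) * θ ^ (g - k) = c k * η ^ g * θ ^ (g - k) := by
  let κ : ℕ → R := fun i => ((Nat.factorial i : ℚ)⁻¹) • (4 : R) ^ i
  have hcκ : ∀ i, c i = κ i * θ ^ i := by
    intro i
    rw [hc, mul_pow, smul_mul_assoc]
  have hθz : ∀ j, g + 1 ≤ j → θ ^ j = 0 := by
    intro j hj
    obtain ⟨t, rfl⟩ := Nat.exists_eq_add_of_le hj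
    rw [pow_add, hθ, zero_mul]
  have hid : ∀ k, 1 ≤ k → (∑ i ∈ Finset.Ico 1 k, (-1 : R) ^ (i - 1) * c i * c (k - i)) +
      (-1 : R) ^ (k - 1) * c k = c k := by
    intro k hk
    rcases Nat.lt_or_ge k 2 with h | h
    · interval_cases k
      simp
    · exact Groth.Agent.S15224.result R (4 * θ) c hc k h
  revert hk1 hkg
  induction k using Nat.strong_induction_on with
  | _ k ih =>
  intro hk1 hkg
  have e1 : η ^ (g + k) * θ ^ (g - k) = ∑ i ∈ Finset.Ico 1 (g + 2),
      (-1 : R) ^ (i - 1) * κ i * η ^ (g + k - i) * θ ^ (g - k + i) := by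
    have : η ^ (g + k) = η ^ (k - 1) * η ^ (g + 1) := by
      rw [← pow_add]; congr 1; omega
    rw [this, hrel, Finset.mul_sum, Finset.sum_mul]
    refine Finset.sum_congr rfl fun i hi => ?_
    simp only [Finset.mem_Ico] at hi
    rw [hcκ]
    have h1 : η ^ (g + k - i) = η ^ (k - 1) * η ^ (g + 1 - i) := by
      rw [← pow_add]; congr 1; omega
    have h2 : θ ^ (g - k + i) = θ ^ i * θ ^ (g - k) := by
      rw [← pow_add]; congr 1; omega
    rw [h1, h2]
    ring
  rw [e1, ← Finset.sum_Ico_consecutive _ (show 1 ≤ k + 1 by omega) (show k + 1 ≤ g + 2 by omega)]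
  have e2 : ∑ i ∈ Finset.Ico (k + 1) (g + 2),
      (-1 : R) ^ (i - 1) * κ i * η ^ (g + k - i) * θ ^ (g - k + i) = 0 := by
    refine Finset.sum_eq_zero fun i hi => ?_
    simp only [Finset.mem_Ico] at hi
    rw [hθz _ (by omega), mul_zero]
  rw [e2, add_zero, Finset.sum_Ico_succ_top (by omega : 1 ≤ k)]
  have e3 : ∀ i ∈ Finset.Ico 1 k, (-1 : R) ^ (i - 1) * κ i * η ^ (g + k - i) * θ ^ (g - k + i) =
      ((-1 : R) ^ (i - 1) * c i * c (k - i)) * (η ^ g * θ ^ (g - k)) := by
    intro i hi
    simp only [Finset.mem_Ico] at hi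
    have hih := ih (k - i) (by omega) (by omega) (by omega)
    have h1 : η ^ (g + k - i) = η ^ (g + (k - i)) := by congr 1; omega
    have h2 : g - k + i = g - (k - i) := by omega
    rw [h1, h2, mul_assoc, hih, hcκ i]
    have h3 : θ ^ (g - (k - i)) = θ ^ i * θ ^ (g - k) := by
      rw [← pow_add]; congr 1; omega
    rw [h3]
    ring
  rw [Finset.sum_congr rfl e3, ← Finset.sum_mul]
  have e4 : (-1 : R) ^ (k - 1) * κ k * η ^ (g + k - k) * θ ^ (g - k + k) =
      ((-1 : R) ^ (k - 1) * c k) * (η ^ g * θ ^ (g - k)) := by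
    rw [hcκ, Nat.add_sub_cancel]
    have h3 : θ ^ (g - k + k) = θ ^ k * θ ^ (g - k) := by
      rw [← pow_add]; congr 1; omega
    rw [h3]
    ring
  rw [e4, ← add_mul, hid k hk1]
  ring

end Groth.Agent.S15229
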