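import Groth.Statements.S1529
import Mathlib.AlgebraicGeometry.Artinian
import Mathlib.RingTheory.Jacobson.Artinian
-- import your own Groth.Agent.* helpers here

set_option autoImplicit false
universe u
open CategoryTheory CategoryTheory.Limits AlgebraicGeometry
open Variety

namespace Groth.Agent.S1529

/-- A scheme of finite type over a field whose underlying topological space has Krull dimension at most
zero is affine, and its structure morphism is finite. -/
theorem result (k : Type u) [Field k] (X : Scheme.{u}) [X.Over (Spec (CommRingCat.of k))]
    [LocallyOfFiniteType (X ↘ (Spec (CommRingCat.of k)))] [QuasiCompact (X ↘ (Spec (CommRingCat.of k)))]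
    (hdim : topologicalKrullDim X ≤ 0) :
    IsAffine X ∧ IsFinite (X ↘ (Spec (CommRingCat.of k))) := by
  have : IsLocallyNoetherian X :=
    LocallyOfFiniteType.isLocallyNoetherian (X ↘ Spec (CommRingCat.of k))
  have : IsLocallyArtinian X := IsLocallyArtinian.of_topologicalKrullDim_le_zero hdim
  have : CompactSpace X := QuasiCompact.compactSpace_of_compactSpace (X ↘ Spec (CommRingCat.of k))
  have : IsArtinianScheme X := ⟨⟩
  have hA : IsAffine X := inferInstance
  refine ⟨hA, ?_⟩
  set_option backward.isDefEq.respectTransparency.types false in
  rw [HasAffineProperty.iff_of_isAffine (P := @IsFinite)]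
  refine ⟨hA, ?_⟩
  have hft : (X ↘ Spec (CommRingCat.of k)).appTop.hom.FiniteType :=
    (HasRingHomProperty.iff_of_isAffine (P := @LocallyOfFiniteType)).mp inferInstance
  algebraize [(X ↘ Spec (CommRingCat.of k)).appTop.hom]
  exact Module.finite_of_isArtinianRing _ _

end Groth.Agent.S1529
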