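import Groth.Statements.S15292
import Groth.Agent.Lib.Helper23.DeRham
-- import your own Groth.Agent.* helpers here

set_option autoImplicit false
universe u
open DeRham

namespace Groth.Agent.S15292

open exteriorPower in
/-- Let R → A be a ring map and d a family of R-linear maps from p-forms to (p+1)-forms on the exterior
powers of the Kähler differentials of A over R, p ≥ 0, satisfying the de Rham rule d(b₀ db₁ ∧ … ∧
db_p) = db₀ ∧ db₁ ∧ … ∧ db_p for all p and all bᵢ in A. Then the composite of two consecutive d is
zero in every degree; together with the rule this says that d is a de Rham differential of the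
Kähler differentials. -/
theorem result (R A : Type u) [CommRing R] [CommRing A] [Algebra R A]
    (d : ∀ p : ℕ, ↥(⋀[A]^p (Ω[A⁄R])) →ₗ[R] ↥(⋀[A]^(p + 1) (Ω[A⁄R])))
    (hd : DeRham.IsRule (KaehlerDifferential.D R A) d) :
    DeRham.IsDiff (KaehlerDifferential.D R A) d := by
  
  open Groth.Agent.Lib.Helper23.DR in
  refine ⟨hd, fun p => ?_⟩
  ext x
  have key := gen_induction (KaehlerDifferential.D R A) (KaehlerDifferential.span_range_derivation R A) p
    (fun x => d (p + 1) (d p x) = 0) (by simp) (fun x y hx hy => by simp [hx, hy]) ?_ x
  · simpa using key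
  · intro b₀ b
    rw [hd p b₀ b, ιMulti_cons_eq_gen, hd (p + 1) 1 (Fin.cons b₀ b)]
    apply AlternatingMap.map_coord_zero _ 0
    simp

end Groth.Agent.S15292
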