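import Groth.Statements.S15294
import Groth.Agent.Lib.Helper23.DeRham
-- import your own Groth.Agent.* helpers here

set_option autoImplicit false
universe u
open DeRham

namespace Groth.Agent.S15294

open exteriorPower in
/-- The map of de Rham complexes attached to a square of ring maps is compatible with the differentials.
Precisely: let R → A and S → B be ring maps with B an algebra over A (and over R, compatibly), let d
and d' be de Rham differentials of the Kähler differentials of A over R and of B over S, and let ψ
be a family of additive maps from p-forms of A over R to p-forms of B over S which is the induced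
map for the structure map g : A → B, sending b₀ db₁ ∧ … ∧ db_p to g(b₀) d(g b₁) ∧ … ∧ d(g b_p). Then
ψ in degree p+1 composed with d equals d' composed with ψ in degree p. (The published statement is
for a commutative square of ring maps R → S, A → B; once the family ψ is given the conclusion holds
for any ring maps, the square being needed only to produce ψ.) -/
theorem result (R S A B : Type u) [CommRing R] [CommRing S] [CommRing A] [CommRing B]
    [Algebra R A] [Algebra S B] [Algebra A B] [Algebra R B] [IsScalarTower R A B]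
    (d : ∀ p : ℕ, ↥(⋀[A]^p (Ω[A⁄R])) →ₗ[R] ↥(⋀[A]^(p + 1) (Ω[A⁄R])))
    (hd : DeRham.IsDiff (KaehlerDifferential.D R A) d)
    (d' : ∀ p : ℕ, ↥(⋀[B]^p (Ω[B⁄S])) →ₗ[S] ↥(⋀[B]^(p + 1) (Ω[B⁄S])))
    (hd' : DeRham.IsDiff (KaehlerDifferential.D S B) d')
    (ψ : ∀ p : ℕ, ↥(⋀[A]^p (Ω[A⁄R])) →+ ↥(⋀[B]^p (Ω[B⁄S])))
    (hψ : DeRham.IsCxMap (KaehlerDifferential.D R A) (KaehlerDifferential.D S B) (algebraMap A B) ψ)
    (p : ℕ) (x : ↥(⋀[A]^p (Ω[A⁄R]))) :
    ψ (p + 1) (d p x) = d' p (ψ p x) := by
  
  open Groth.Agent.Lib.Helper23.DR in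
  refine gen_induction (KaehlerDifferential.D R A) (KaehlerDifferential.span_range_derivation R A) p
    (fun x => ψ (p + 1) (d p x) = d' p (ψ p x)) (by simp) (fun x y hx hy => by simp [hx, hy]) ?_ x
  intro b₀ b
  rw [hd.1 p b₀ b, hψ p b₀ b, hd'.1 p, ιMulti_cons_eq_gen, hψ (p + 1) 1 (Fin.cons b₀ b), gen, map_one,
    one_smul]
  congr 1
  funext i
  refine Fin.cases ?_ ?_ i
  · simp
  · intro j; simp

end Groth.Agent.S15294
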