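import Groth.Statements.S15297
import Groth.Agent.Lib.Helper23.DeRham
-- import your own Groth.Agent.* helpers here

set_option autoImplicit false
universe u
open DeRham

namespace Groth.Agent.S15297

open exteriorPower in
/-- Let R → A be a ring map and d a de Rham differential of the Kähler differentials of A over R. Then
each d from p-forms to (p+1)-forms, an R-linear map between A-modules, is a differential operator of
order at most 1 relative to R → A: every commutator of d with multiplication by an element of A is
A-linear. -/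
theorem result (R A : Type u) [CommRing R] [CommRing A] [Algebra R A]
    (d : ∀ p : ℕ, ↥(⋀[A]^p (Ω[A⁄R])) →ₗ[R] ↥(⋀[A]^(p + 1) (Ω[A⁄R])))
    (hd : DeRham.IsDiff (KaehlerDifferential.D R A) d) (p : ℕ) :
    Diff16.IsDiffOpLE R A ↥(⋀[A]^p (Ω[A⁄R])) ↥(⋀[A]^(p + 1) (Ω[A⁄R])) 1 (d p) := by
  
  open Groth.Agent.Lib.Helper23.DR in
  intro c a m
  simp only [Diff16.commutator, LinearMap.sub_apply, LinearMap.comp_apply,
    LinearMap.restrictScalars_apply, LinearMap.lsmul_apply]
  -- the commutator on generators
  have hC : ∀ (e : A) (b : Fin p → A),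
      d p (c • gen (KaehlerDifferential.D R A) p e b) - c • d p (gen (KaehlerDifferential.D R A) p e b) =
        e • ιMulti A (p + 1) (Fin.cons (KaehlerDifferential.D R A c)
          (fun i => KaehlerDifferential.D R A (b i))) := by
    intro e b
    have h1 : c • gen (KaehlerDifferential.D R A) p e b = gen (KaehlerDifferential.D R A) p (c * e) b := by
      simp only [gen, smul_smul]
    have kadd : ∀ (x y : Ω[A⁄R]) (v : Fin p → Ω[A⁄R]),
        ιMulti A (p + 1) (Fin.cons (x + y) v) =
          ιMulti A (p + 1) (Fin.cons x v) + ιMulti A (p + 1) (Fin.cons y v) :=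
      fun x y v => (ιMulti A (p + 1)).toMultilinearMap.cons_add v x y
    have ksmul : ∀ (t : A) (x : Ω[A⁄R]) (v : Fin p → Ω[A⁄R]),
        ιMulti A (p + 1) (Fin.cons (t • x) v) = t • ιMulti A (p + 1) (Fin.cons x v) :=
      fun t x v => (ιMulti A (p + 1)).toMultilinearMap.cons_smul v t x
    rw [h1, hd.1 p, hd.1 p, Derivation.leibniz, kadd, ksmul, ksmul]
    simp
  refine gen_induction (KaehlerDifferential.D R A) (KaehlerDifferential.span_range_derivation R A) p
    (fun m => ∀ a : A, d p (c • a • m) - c • d p (a • m) = a • (d p (c • m) - c • d p m))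
    (by intro a; simp) ?_ ?_ m a
  · intro x y hx hy a
    have ex := hx a
    have ey := hy a
    simp only [smul_add, map_add, smul_sub]
    simp only [smul_sub] at ex ey
    rw [show ∀ (P Q U V : ↥(⋀[A]^(p + 1) (Ω[A⁄R]))), P + Q - (U + V) = (P - U) + (Q - V) from
      fun P Q U V => by abel, ex, ey]
    abel
  · intro b₀ b a
    have h2 : a • gen (KaehlerDifferential.D R A) p b₀ b = gen (KaehlerDifferential.D R A) p (a * b₀) b := by
      simp only [gen, smul_smul]
    rw [h2, hC, hC, smul_smul]

end Groth.Agent.S15297
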