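import Groth.Statements.S15359
import Mathlib.Tactic
-- import your own Groth.Agent.* helpers here

set_option autoImplicit false
universe u v
open GalCoh

namespace Groth.Agent.S15359

/-- Let Γ be a commutative group, F a field and χ : Γ → Fˣ a character which is not identically 1. Then
every 1-cocycle c of Γ with values in the one-dimensional representation F(χ), i.e. every map c with
c(gh) = c(g) + χ(g)c(h), is a 1-coboundary: there is x ∈ F with c(g) = (χ(g) − 1)x for all g.
Equivalently H¹(Γ, F(χ)) = 0. (The published statement allows an arbitrary character; for the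
trivial character the 1-cocycles are the additive homomorphisms Γ → F, which need not vanish, and
the published argument uses an element at which the character is not 1, so the character is assumed
non-trivial here.) -/
theorem result
    (Γ : Type u) [CommGroup Γ] (F : Type v) [Field F] (χ : Γ →* Fˣ) (hχ : χ ≠ 1)
    (c : Γ → F) (hc : ∀ g h : Γ, c (g * h) = c g + (χ g : F) * c h) :
    ∃ x : F, ∀ g : Γ, c g = ((χ g : F) - 1) * x := by
  obtain ⟨g₀, hg₀⟩ : ∃ g₀ : Γ, χ g₀ ≠ 1 := by
    by_contra h
    push Not at h
    exact hχ (MonoidHom.ext fun g => by simpa using h g)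
  have ha : (χ g₀ : F) - 1 ≠ 0 := by
    intro h
    apply hg₀
    ext
    simpa [sub_eq_zero] using h
  refine ⟨c g₀ / ((χ g₀ : F) - 1), fun g => ?_⟩
  have h1 := hc g g₀
  have h2 := hc g₀ g
  rw [mul_comm g g₀] at h1
  have key : c g * ((χ g₀ : F) - 1) = c g₀ * ((χ g : F) - 1) := by
    linear_combination h1 - h2
  field_simp
  linear_combination key

end Groth.Agent.S15359
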