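import Groth.Statements.S15368
import Groth.Agent.Lib.Helper23.DVRLen
-- import your own Groth.Agent.* helpers here

set_option autoImplicit false
universe u v
open TensorProduct
open CAlg

namespace Groth.Agent.S15368

/-- Let R be a discrete valuation ring with uniformizer π and residue field k, n ≥ 0, M₀ a finitely
generated R-module killed by πⁿ and N₀ a submodule of M₀. Then dim_k(N₀/πN₀) ≤ dim_k(M₀/πM₀). The
published lemma is stated for a finitely presented submodule N of a finitely presented module M over
the quotient of the ring of integers of an algebraic closure of K by the elements of valuation ≥ t,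
and the published proof reduces it by descent to exactly this statement over the valuation ring of a
finite extension of K (comparing π-torsion with π-cotorsion by additivity of length); the row states
that step. -/
theorem result
    (R : Type u) [CommRing R] [IsDomain R] [IsDiscreteValuationRing R] (ϖ : R) (hϖ : Irreducible ϖ) (n : ℕ)
    (M : Type v) [AddCommGroup M] [Module R M] [Module.Finite R M] (hM : ∀ m : M, ϖ ^ n • m = 0)
    (N : Submodule R M) :
    Module.finrank (IsLocalRing.ResidueField R) (IsLocalRing.ResidueField R ⊗[R] N) ≤
      Module.finrank (IsLocalRing.ResidueField R) (IsLocalRing.ResidueField R ⊗[R] M) := by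
  open Groth.Agent.Lib.Helper23.DVRLen in
  have hN : ∀ m : N, ϖ ^ n • m = 0 := fun m => Subtype.ext (hM m)
  have hMf := isFiniteLength_of_torsion hϖ n hM
  have hNf := isFiniteLength_of_torsion hϖ n hN
  have e1 := finrank_residueField_tensor hϖ (M := M)
  have e2 := finrank_residueField_tensor hϖ (M := N)
  rw [← length_ker_eq_length_coker hMf] at e1
  rw [← length_ker_eq_length_coker hNf] at e2
  let f : LinearMap.ker (LinearMap.lsmul R N ϖ) →ₗ[R] LinearMap.ker (LinearMap.lsmul R M ϖ) :=
    LinearMap.codRestrict (LinearMap.ker (LinearMap.lsmul R M ϖ))
      (N.subtype ∘ₗ (LinearMap.ker (LinearMap.lsmul R N ϖ)).subtype) (by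
        intro x
        have hx := x.2
        rw [LinearMap.mem_ker, LinearMap.lsmul_apply] at hx ⊢
        simp only [LinearMap.coe_comp, Function.comp_apply, Submodule.coe_subtype]
        exact congrArg Subtype.val hx)
  have hf : Function.Injective f := by
    intro x y hxy
    apply Subtype.ext
    apply Subtype.ext
    have := congrArg (fun z : LinearMap.ker (LinearMap.lsmul R M ϖ) => (z : M)) hxy
    simpa [f] using this
  have hle := Module.length_le_of_injective f hf
  rw [← e1, ← e2] at hle
  exact_mod_cast hle

end Groth.Agent.S15368
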