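import Groth.Statements.S15488
import Mathlib
-- import your own Groth.Agent.* helpers here

set_option autoImplicit false
universe u
open IsoNat

namespace Groth.Agent.S15488

/-- Let A be a nontrivial commutative ring, G a finite group, g an element of G of order ν and l an
element of A with l ^ ν = 1. In the free A-module of functions G → A (the regular representation, g
acting by translation v ↦ v(g·)), the submodule of v with v(g h) = l v(h) for all h is a direct
summand, free of rank |G| / ν (stated as: free, rank · ν = |G|, and a complementary submodule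
exists). (The published statement is over an arbitrary ring and also covers Hom(A^N, −) of the
regular representation, which follows; nontriviality of A is needed for the rank to be meaningful.) -/
theorem result
    (A : Type u) [CommRing A] [Nontrivial A] (G : Type u) [Group G] [Finite G]
    (g : G) (l : A) (hl : l ^ orderOf g = 1) :
    Module.Free A (LinearMap.ker (LinearMap.funLeft A A (fun h : G => g * h) - l • LinearMap.id)) ∧
      Module.finrank A (LinearMap.ker (LinearMap.funLeft A A (fun h : G => g * h) - l • LinearMap.id)) * orderOf g = Nat.card G ∧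
      ∃ E' : Submodule A (G → A), IsCompl (LinearMap.ker (LinearMap.funLeft A A (fun h : G => g * h) - l • LinearMap.id)) E' := by
  classical
  haveI := Fintype.ofFinite G
  set K := LinearMap.ker (LinearMap.funLeft A A (fun h : G => g * h) - l • LinearMap.id) with hK
  have memK : ∀ v : G → A, v ∈ K ↔ ∀ x, v (g * x) = l * v x := by
    intro v
    simp only [hK, LinearMap.mem_ker, LinearMap.sub_apply, LinearMap.smul_apply, LinearMap.id_apply]
    constructor
    · intro h x
      have := congrFun h x
      simp only [Pi.sub_apply, LinearMap.funLeft_apply, Pi.smul_apply, smul_eq_mul, Pi.zero_apply,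
        sub_eq_zero] at this
      exact this
    · intro h
      funext x
      simp only [Pi.sub_apply, LinearMap.funLeft_apply, Pi.smul_apply, smul_eq_mul, Pi.zero_apply,
        sub_eq_zero]
      exact h x
  set H := Subgroup.zpowers g with hH
  have hlmod : ∀ a b : ℕ, a ≡ b [MOD orderOf g] → l ^ a = l ^ b := by
    intro a b hab
    rw [← Nat.mod_add_div a (orderOf g), ← Nat.mod_add_div b (orderOf g), show a % orderOf g = b % orderOf g from hab, pow_add, pow_add,
      pow_mul, pow_mul, hl, one_pow, one_pow]
  let s : Quotient (QuotientGroup.rightRel H) → G := fun q => q.out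
  have hex : ∀ x : G, ∃ n : ℕ, g ^ n * s (Quotient.mk _ x) = x := by
    intro x
    have h1 : (QuotientGroup.rightRel H) (s (Quotient.mk _ x)) x :=
      Quotient.exact (Quotient.out_eq _)
    rw [QuotientGroup.rightRel_apply] at h1
    obtain ⟨n, hn⟩ := (mem_powers_iff_mem_zpowers.2 h1)
    refine ⟨n, ?_⟩
    have hn' : g ^ n = x * (s (Quotient.mk _ x))⁻¹ := hn
    rw [hn']
    group
  choose k hk using hex
  have hKpow : ∀ v ∈ K, ∀ (n : ℕ) (y : G), v (g ^ n * y) = l ^ n * v y := by
    intro v hv n
    induction n with
    | zero => intro y; simp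
    | succ n ih => intro y; rw [pow_succ', mul_assoc, (memK v).1 hv, ih, pow_succ']; ring
  let Ψ : (Quotient (QuotientGroup.rightRel H) → A) →ₗ[A] (G → A) :=
    { toFun := fun f x => l ^ k x * f (Quotient.mk _ x)
      map_add' := by intro f f'; funext x; simp [mul_add]
      map_smul' := by intro c f; funext x; simp only [Pi.smul_apply, smul_eq_mul, RingHom.id_apply]; ring }
  let Φ : (G → A) →ₗ[A] (Quotient (QuotientGroup.rightRel H) → A) := LinearMap.funLeft A A s
  have hΨK : ∀ f, Ψ f ∈ K := by
    intro f
    rw [memK]
    intro x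
    have hq : (Quotient.mk _ (g * x) : Quotient (QuotientGroup.rightRel H)) = Quotient.mk _ x := by
      apply Quotient.sound
      show (QuotientGroup.rightRel H) (g * x) x
      rw [QuotientGroup.rightRel_apply]
      have : x * (g * x)⁻¹ = g⁻¹ := by group
      rw [this]
      exact H.inv_mem (Subgroup.mem_zpowers g)
    show l ^ k (g * x) * f (Quotient.mk _ (g * x)) = l * (l ^ k x * f (Quotient.mk _ x))
    rw [hq]
    have e1 := hk (g * x)
    have e2 := hk x
    rw [hq] at e1
    have h3 : g ^ k (g * x) = g ^ (k x + 1) := by
      have h4 : g ^ k (g * x) * s (Quotient.mk _ x) = g ^ (k x + 1) * s (Quotient.mk _ x) := by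
        rw [e1, pow_succ', mul_assoc, e2]
      exact mul_right_cancel h4
    rw [pow_eq_pow_iff_modEq] at h3
    rw [hlmod _ _ h3, pow_succ]
    ring
  have hΦΨ : ∀ f, Φ (Ψ f) = f := by
    intro f
    funext q
    show l ^ k (s q) * f (Quotient.mk _ (s q)) = f q
    have hq : (Quotient.mk _ (s q) : Quotient (QuotientGroup.rightRel H)) = q := Quotient.out_eq q
    have e1 := hk (s q)
    rw [hq] at e1
    have h3 : g ^ k (s q) = g ^ 0 := by
      rw [pow_zero]
      exact mul_eq_right.1 e1
    rw [pow_eq_pow_iff_modEq] at h3
    rw [hlmod _ _ h3, pow_zero, one_mul, hq]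
  have hΨΦ : ∀ v ∈ K, Ψ (Φ v) = v := by
    intro v hv
    funext x
    show l ^ k x * v (s (Quotient.mk _ x)) = v x
    conv_rhs => rw [← hk x]
    rw [hKpow v hv]
  let e : K ≃ₗ[A] (Quotient (QuotientGroup.rightRel H) → A) :=
    { toFun := fun v => Φ v
      map_add' := fun v w => by simp
      map_smul' := fun c v => by simp
      invFun := fun f => ⟨Ψ f, hΨK f⟩
      left_inv := fun v => Subtype.ext (hΨΦ v v.2)
      right_inv := fun f => hΦΨ f }
  haveI : Fintype (Quotient (QuotientGroup.rightRel H)) := Fintype.ofFinite _
  refine ⟨Module.Free.of_equiv e.symm, ?_, ?_⟩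
  · rw [e.finrank_eq, Module.finrank_fintype_fun_eq_card, ← Nat.card_eq_fintype_card,
      Nat.card_congr (QuotientGroup.quotientRightRelEquivQuotientLeftRel H), ← Nat.card_zpowers g,
      ← Subgroup.card_eq_card_quotient_mul_card_subgroup H]
  · refine ⟨LinearMap.ker Φ, ?_⟩
    rw [isCompl_iff]
    constructor
    · rw [Submodule.disjoint_def]
      intro v hv hv'
      rw [← hΨΦ v hv, LinearMap.mem_ker.1 hv', map_zero]
    · rw [codisjoint_iff, eq_top_iff]
      intro f _
      refine Submodule.mem_sup.2 ⟨Ψ (Φ f), hΨK _, f - Ψ (Φ f), ?_, by abel⟩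
      rw [LinearMap.mem_ker, map_sub, hΦΨ, sub_self]

end Groth.Agent.S15488
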