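import Groth.Statements.S15490
import Mathlib.Tactic
-- import your own Groth.Agent.* helpers here

set_option autoImplicit false
universe u
open IsoNat

namespace Groth.Agent.S15490

/-- Let f : G → G' be a group homomorphism, A a commutative ring and α an element of the regular
representation of G over A (a finitely supported function G → A). If the pushforward β = f_*α
(summing coefficients along f) is nonzero and is an eigenvector for the translation action of an
element g' of G' — β(g'⁻¹ k) = l β(k) for all k and some scalar l — then g' lies in the image of f
(and hence β comes from the regular representation of the image). (The published statement asks only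
α ≠ 0; when f is not injective the pushforward of a nonzero α can vanish, and the zero vector lies
in every eigen-submodule, so the hypothesis is placed on f_*α, which is how the result is used.) -/
theorem result
    {G G' : Type u} [Group G] [Group G'] (f : G →* G')
    (A : Type u) [CommRing A] (α : G →₀ A) (g' : G') (l : A)
    (hne : Finsupp.mapDomain f α ≠ 0)
    (he : ∀ k : G', Finsupp.mapDomain f α (g'⁻¹ * k) = l * Finsupp.mapDomain f α k) :
    g' ∈ f.range := by
  
  classical
  set β := Finsupp.mapDomain f α with hβ
  obtain ⟨k₀, hk₀⟩ : ∃ k₀, β k₀ ≠ 0 := by
    by_contra h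
    push Not at h
    exact hne (Finsupp.ext h)
  have hsupp : ∀ k, β k ≠ 0 → k ∈ Set.range f := by
    intro k hk
    have : k ∈ β.support := Finsupp.mem_support_iff.2 hk
    have := Finsupp.mapDomain_support this
    simp only [Finset.mem_image, Finsupp.mem_support_iff] at this
    obtain ⟨x, _, hx⟩ := this
    exact ⟨x, hx⟩
  have h1 := he (g' * k₀)
  rw [← mul_assoc, inv_mul_cancel, one_mul] at h1
  have h2 : β (g' * k₀) ≠ 0 := by
    intro h0
    rw [h0, mul_zero] at h1
    exact hk₀ h1
  obtain ⟨x, hx⟩ := hsupp _ h2
  obtain ⟨y, hy⟩ := hsupp _ hk₀
  refine ⟨x * y⁻¹, ?_⟩
  rw [map_mul, map_inv, hx, hy, mul_inv_cancel_right]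

end Groth.Agent.S15490
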