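import Groth.Statements.S15494
import Mathlib
-- import your own Groth.Agent.* helpers here

set_option autoImplicit false
universe u v
open Dieud

namespace Groth.Agent.S15494

/-- Let W be a commutative ring with a ring endomorphism σ, p a natural number, M a W-module and F an
additive self-map of M with F (w • m) = σ w • F m. Let d ≥ 1, c ≥ 1, h = d + c, and let e_1, …, e_h,
… be vectors of M on which F acts through a display matrix in normal form: F e_i = e_{i+1} for 1 ≤ i
< d; F e_d = Σ_{i=1}^{d} a_{i,d} e_i + e_{d+1}; F e_j = Σ_{i=1}^{d} p a_{i,j} e_i + p e_{j+1} for d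
< j < h; F e_h = Σ_{i=1}^{d} p a_{i,h} e_i. Then F^h e_1 = Σ_{i=1}^{d} Σ_{j=d}^{h} p^{j-d}
σ^{h-j}(a_{i,j}) F^{h+i-j-1} e_1. (The published statement is for the Dieudonné module of a
p-divisible group of dimension d and height h over the Witt ring of a field of characteristic p,
with σ the Frobenius and e_1, …, e_h a basis; this row keeps only the relations which the printed
computation uses, so W, σ, p and the vectors are arbitrary.) -/
theorem result
    (W : Type u) [CommRing W] (σ : W →+* W) (p : ℕ)
    (M : Type v) [AddCommGroup M] [Module W M]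
    (F : M →+ M) (hF : ∀ (w : W) (m : M), F (w • m) = σ w • F m)
    (d c : ℕ) (hd : 0 < d) (hc : 0 < c)
    (a : ℕ → ℕ → W) (e : ℕ → M)
    (h1 : ∀ i : ℕ, 1 ≤ i → i < d → F (e i) = e (i + 1))
    (h2 : F (e d) = (∑ i ∈ Finset.Icc 1 d, a i d • e i) + e (d + 1))
    (h3 : ∀ j : ℕ, d < j → j < d + c →
      F (e j) = (∑ i ∈ Finset.Icc 1 d, ((p : W) * a i j) • e i) + (p : W) • e (j + 1))
    (h4 : F (e (d + c)) = ∑ i ∈ Finset.Icc 1 d, ((p : W) * a i (d + c)) • e i) :
    (⇑F)^[d + c] (e 1) = ∑ i ∈ Finset.Icc 1 d, ∑ j ∈ Finset.Icc d (d + c),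
      ((p : W) ^ (j - d) * (⇑σ)^[d + c - j] (a i j)) • (⇑F)^[d + c + i - j - 1] (e 1) := by
  classical
  have Fzero : ∀ k, (⇑F)^[k] 0 = 0 := by
    intro k
    induction k with
    | zero => rfl
    | succ k ih => rw [Function.iterate_succ_apply', ih, map_zero]
  have Fadd : ∀ k (x y : M), (⇑F)^[k] (x + y) = (⇑F)^[k] x + (⇑F)^[k] y := by
    intro k
    induction k with
    | zero => intro x y; rfl
    | succ k ih =>
      intro x y
      rw [Function.iterate_succ_apply', Function.iterate_succ_apply', Function.iterate_succ_apply', ih,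
        map_add]
  have Fsum : ∀ k (s : Finset ℕ) (f : ℕ → M), (⇑F)^[k] (∑ i ∈ s, f i) = ∑ i ∈ s, (⇑F)^[k] (f i) := by
    intro k s f
    induction s using Finset.induction_on with
    | empty => simp [Fzero]
    | insert a s ha ih => rw [Finset.sum_insert ha, Fadd, ih, Finset.sum_insert ha]
  have Fsmul : ∀ k (w : W) (x : M), (⇑F)^[k] (w • x) = (⇑σ)^[k] w • (⇑F)^[k] x := by
    intro k
    induction k with
    | zero => intro w x; rfl
    | succ k ih =>
      intro w x
      rw [Function.iterate_succ_apply', ih, hF, Function.iterate_succ_apply',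
        Function.iterate_succ_apply']
  have σp : ∀ k, (⇑σ)^[k] (p : W) = p := by
    intro k
    induction k with
    | zero => rfl
    | succ k ih => rw [Function.iterate_succ_apply', ih, map_natCast]
  have σmul : ∀ k (x y : W), (⇑σ)^[k] (x * y) = (⇑σ)^[k] x * (⇑σ)^[k] y := by
    intro k
    induction k with
    | zero => intro x y; rfl
    | succ k ih =>
      intro x y
      rw [Function.iterate_succ_apply', ih, map_mul, Function.iterate_succ_apply',
        Function.iterate_succ_apply']
  have he : ∀ i, 1 ≤ i → i ≤ d → e i = (⇑F)^[i - 1] (e 1) := by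
    intro i hi1 hid
    induction i with
    | zero => omega
    | succ i ih =>
      rcases Nat.eq_zero_or_pos i with rfl | hi
      · rfl
      · rw [← h1 i hi (by omega), ih hi (by omega), ← Function.iterate_succ_apply' (⇑F)]
        congr 1
        omega
  have Fe : ∀ k i, 1 ≤ i → i ≤ d → (⇑F)^[k] (e i) = (⇑F)^[k + (i - 1)] (e 1) := by
    intro k i hi1 hid
    rw [he i hi1 hid, Function.iterate_add_apply]
  set h := d + c with hh
  let term : ℕ → ℕ → M := fun i j =>
    ((p : W) ^ (j - d) * (⇑σ)^[h - j] (a i j)) • (⇑F)^[h + i - j - 1] (e 1)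
  have main : ∀ j, d + 1 ≤ j → j ≤ h → (⇑F)^[h] (e 1) =
      (∑ i ∈ Finset.Icc 1 d, ∑ j' ∈ Finset.Ico d j, term i j') +
        ((p : W) ^ (j - d - 1)) • (⇑F)^[h - j + 1] (e j) := by
    intro j hj
    induction j, hj using Nat.le_induction with
    | base =>
      intro hjh
      have e1 : (⇑F)^[h] (e 1) = (⇑F)^[h - d] ((⇑F) ((⇑F)^[d - 1] (e 1))) := by
        rw [← Function.iterate_succ_apply' (⇑F), ← Function.iterate_add_apply]
        congr 1
        omega
      rw [e1, ← he d (by omega) le_rfl, h2, Fadd, Fsum]
      simp only [Nat.Ico_succ_singleton, Finset.sum_singleton]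
      rw [show d + 1 - d - 1 = 0 by omega, pow_zero, one_smul, show h - (d + 1) + 1 = h - d by omega]
      congr 1
      refine Finset.sum_congr rfl fun i hi => ?_
      simp only [Finset.mem_Icc] at hi
      simp only [term]
      rw [Fsmul, Fe _ i hi.1 hi.2, Nat.sub_self, pow_zero, one_mul]
      congr 2
      omega
    | succ j hj ih =>
      intro hjh
      rw [ih (by omega), Finset.sum_congr rfl (fun i _ => Finset.sum_Ico_succ_top (by omega) _),
        Finset.sum_add_distrib, add_assoc]
      congr 1
      have e1 : (⇑F)^[h - j + 1] (e j) = (⇑F)^[h - j] ((⇑F) (e j)) := by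
        rw [Function.iterate_succ_apply]
      rw [e1, h3 j (by omega) (by omega), Fadd, Fsum, smul_add, Finset.smul_sum]
      congr 1
      · refine Finset.sum_congr rfl fun i hi => ?_
        simp only [Finset.mem_Icc] at hi
        simp only [term]
        rw [Fsmul, Fe _ i hi.1 hi.2, σmul, σp, smul_smul]
        congr 1
        · rw [← mul_assoc, ← pow_succ]
          congr 2
          omega
        · congr 1
          omega
      · rw [Fsmul, σp, smul_smul, ← pow_succ, show j - d - 1 + 1 = j + 1 - d - 1 by omega,
          show h - j = h - (j + 1) + 1 by omega]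
  have hfin := main h (by omega) le_rfl
  simp only [term] at hfin
  rw [hfin, ← Finset.Ico_add_one_right_eq_Icc d h]
  rw [Finset.sum_congr rfl (fun i _ => Finset.sum_Ico_succ_top (show d ≤ h by omega) _),
    Finset.sum_add_distrib]
  congr 1
  rw [show h - h + 1 = 1 by omega, Function.iterate_one, h4, Finset.smul_sum]
  refine Finset.sum_congr rfl fun i hi => ?_
  simp only [Finset.mem_Icc] at hi
  rw [smul_smul, ← mul_assoc, ← pow_succ, show h - d - 1 + 1 = h - d by omega, Nat.sub_self,
    Function.iterate_zero, id, show h + i - h - 1 = i - 1 by omega, ← he i hi.1 hi.2]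

end Groth.Agent.S15494
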