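import Groth.Statements.S15495
import Mathlib.Tactic
import Mathlib.RingTheory.Artinian.Ring
import Mathlib.Algebra.CharP.Lemmas
-- import your own Groth.Agent.* helpers here

set_option autoImplicit false
universe u
open CAlg

namespace Groth.Agent.S15495

/-- In an Artinian local ring R whose maximal ideal m contains the prime number p, the multiplicative
group 1 + m is annihilated under some power of p: there is n with (1 + x)^(p^n) = 1 for every x in
m. (The published text makes this assertion inside a proof, for Artinian local algebras over the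
Witt ring of a perfect field of characteristic p; only p ∈ m and the nilpotence of m are used.) -/
theorem result
    (R : Type u) [CommRing R] [IsLocalRing R] [IsArtinianRing R]
    (p : ℕ) (hp : p.Prime) (hpm : (p : R) ∈ IsLocalRing.maximalIdeal R) :
    ∃ n : ℕ, ∀ x ∈ IsLocalRing.maximalIdeal R, (1 + x) ^ (p ^ n) = 1 := by
  
  set m := IsLocalRing.maximalIdeal R with hm
  have hnil : IsNilpotent m := by
    have h := IsArtinianRing.isNilpotent_jacobson_bot (R := R)
    rwa [IsLocalRing.jacobson_eq_maximalIdeal ⊥ bot_ne_top] at h
  obtain ⟨N, hN⟩ := hnil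
  have hp2 : 2 ≤ p := hp.two_le
  have key : ∀ n : ℕ, ∀ x ∈ m, (1 + x) ^ (p ^ n) - 1 ∈ m ^ (n + 1) := by
    intro n
    induction n with
    | zero => intro x hx; simpa using hx
    | succ n ih =>
      intro x hx
      have hy := ih x hx
      set y := (1 + x) ^ (p ^ n) - 1 with hydef
      have h1 : (1 + x) ^ (p ^ (n + 1)) = (1 + y) ^ p := by
        rw [hydef, add_sub_cancel, pow_succ, pow_mul]
      obtain ⟨r, hr⟩ := exists_add_pow_prime_eq hp (1 : R) y
      rw [h1, hr, one_pow]
      have e : (1 : R) + y ^ p + (p : R) * 1 * y * r - 1 = y ^ p + (p : R) * y * r := by ring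
      rw [e]
      refine Ideal.add_mem _ ?_ ?_
      · have : y ^ p ∈ (m ^ (n + 1)) ^ p := Ideal.pow_mem_pow hy p
        rw [← pow_mul] at this
        exact Ideal.pow_le_pow_right (by nlinarith) this
      · have : (p : R) * y ∈ m * m ^ (n + 1) := Ideal.mul_mem_mul hpm hy
        rw [← pow_succ'] at this
        exact Ideal.mul_mem_right _ _ this
  refine ⟨N, fun x hx => ?_⟩
  have := key N x hx
  have h0 : m ^ (N + 1) = ⊥ := by
    rw [pow_succ, hN, zero_mul]; rfl
  rw [h0, Ideal.mem_bot, sub_eq_zero] at this
  exact this

end Groth.Agent.S15495
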