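import Groth.Statements.S15496
import Mathlib.Tactic
import Mathlib.Algebra.CharP.Lemmas
-- import your own Groth.Agent.* helpers here

set_option autoImplicit false
universe u
open CAlg

namespace Groth.Agent.S15496

/-- Let R be a local ring with maximal ideal m, p a prime number lying in m, and suppose the residue
field of R is perfect, i.e. every element is a p-th power; let n ≥ 0. Then every unit of R is the
product of a p^n-th power of a unit and an element of 1 + m, and an element of 1 + m which is a
p^n-th power of a unit is a p^n-th power of an element of 1 + m; so the inclusion of 1 + m in the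
unit group induces a bijection between (1 + m)/(1 + m)^(p^n) and Rˣ/(Rˣ)^(p^n). (The published text
derives this equality of quotients, inside a proof, from perfectness of the base field K for all
Artinian local algebras over its Witt ring, whose residue fields need not be perfect; this row
assumes the residue field of R perfect of characteristic p, which the equality needs, and does not
assume R Artinian.) -/
theorem result
    (R : Type u) [CommRing R] [IsLocalRing R] (p : ℕ) (hp : p.Prime)
    (hpm : (p : R) ∈ IsLocalRing.maximalIdeal R)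
    (hperf : ∀ a : IsLocalRing.ResidueField R, ∃ b : IsLocalRing.ResidueField R, b ^ p = a)
    (n : ℕ) :
    (∀ u : Rˣ, ∃ v : Rˣ, ∃ x ∈ IsLocalRing.maximalIdeal R, (u : R) = (v : R) ^ (p ^ n) * (1 + x)) ∧
    (∀ x ∈ IsLocalRing.maximalIdeal R, (∃ v : Rˣ, (v : R) ^ (p ^ n) = 1 + x) →
      ∃ y ∈ IsLocalRing.maximalIdeal R, (1 + y) ^ (p ^ n) = 1 + x) := by
  
  have hroot : ∀ (k : ℕ) (a : IsLocalRing.ResidueField R), ∃ b, b ^ (p ^ k) = a := by
    intro k
    induction k with
    | zero => intro a; exact ⟨a, by simp⟩
    | succ k ih =>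
      intro a
      obtain ⟨c, hc⟩ := ih a
      obtain ⟨b, hb⟩ := hperf c
      exact ⟨b, by rw [pow_succ', pow_mul, hb, hc]⟩
  have hpres : ((p : ℕ) : IsLocalRing.ResidueField R) = 0 := by
    rw [← map_natCast (IsLocalRing.residue R), IsLocalRing.residue_eq_zero_iff]
    exact hpm
  have : Fact p.Prime := ⟨hp⟩
  have : CharP (IsLocalRing.ResidueField R) p := (CharP.charP_iff_prime_eq_zero hp).2 hpres
  refine ⟨?_, ?_⟩
  · intro u
    obtain ⟨b, hb⟩ := hroot n (IsLocalRing.residue R u)
    obtain ⟨w, hw⟩ := IsLocalRing.residue_surjective b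
    have hwu : IsUnit w := by
      rw [← IsLocalRing.notMem_maximalIdeal, ← IsLocalRing.residue_eq_zero_iff, hw]
      intro hb0
      rw [hb0, zero_pow (pow_ne_zero _ hp.ne_zero)] at hb
      exact (u.isUnit.map (IsLocalRing.residue R)).ne_zero hb.symm
    obtain ⟨v, rfl⟩ := hwu
    refine ⟨v, (u : R) * ((v⁻¹ : Rˣ) : R) ^ (p ^ n) - 1, ?_, ?_⟩
    · rw [← IsLocalRing.residue_eq_zero_iff, map_sub, map_mul, map_pow, map_one, ← hb, ← hw,
        ← mul_pow, ← map_mul, Units.mul_inv, map_one, one_pow, sub_self]
    · rw [add_sub_cancel, ← mul_assoc, mul_comm ((v : R) ^ (p ^ n)), mul_assoc, ← mul_pow,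
        Units.mul_inv, one_pow, mul_one]
  · rintro x hx ⟨v, hv⟩
    refine ⟨(v : R) - 1, ?_, by rw [add_sub_cancel, hv]⟩
    rw [← IsLocalRing.residue_eq_zero_iff]
    have h1 : (IsLocalRing.residue R (v : R)) ^ (p ^ n) = 1 := by
      rw [← map_pow, hv, map_add, map_one, (IsLocalRing.residue_eq_zero_iff x).2 hx, add_zero]
    have h2 : (IsLocalRing.residue R ((v : R) - 1)) ^ (p ^ n) = 0 := by
      rw [map_sub, map_one, sub_pow_char_pow, h1, one_pow, sub_self]
    exact pow_eq_zero_iff (pow_ne_zero _ hp.ne_zero) |>.1 h2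

end Groth.Agent.S15496
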