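import Groth.Statements.S15497
import Mathlib.Tactic
-- import your own Groth.Agent.* helpers here

set_option autoImplicit false
universe u v
open Dieud

namespace Groth.Agent.S15497

/-- Let W be a commutative ring, p ∈ W, m, n natural numbers with h = m + n, M a W-module and e_0, e_1,
… vectors of M with e_{i+h} = p e_i for all i ≥ 0, and let φ be a W-linear endomorphism of M with
φ(e_i) = e_{i+m} for 0 ≤ i < h. Then φ^h(e_i) = p^m e_i for every i ≥ 0; so when e_0, …, e_{h−1} is
a basis, φ^h = p^m · id. (The published text asserts φ^h = p^m · id for the free module with basis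
e_0, …, e_{h−1} over the Witt ring of a perfect field, with p the residue characteristic; only the
stated relations are used.) -/
theorem result
    (W : Type u) [CommRing W] (p : W) (m n : ℕ)
    (M : Type v) [AddCommGroup M] [Module W M] (e : ℕ → M)
    (he : ∀ i : ℕ, e (i + (m + n)) = p • e i)
    (φ : M →ₗ[W] M) (hφ : ∀ i : ℕ, i < m + n → φ (e i) = e (i + m)) (i : ℕ) :
    (φ ^ (m + n)) (e i) = p ^ m • e i := by
  rcases Nat.eq_zero_or_pos (m + n) with h0 | h0
  · have hm : m = 0 := by omega
    rw [h0, hm]; simp
  have h1 : ∀ j : ℕ, φ (e j) = e (j + m) := by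
    intro j
    induction j using Nat.strong_induction_on with
    | _ j ih =>
      by_cases hj : j < m + n
      · exact hφ j hj
      · push Not at hj
        obtain ⟨k, rfl⟩ : ∃ k, j = k + (m + n) := ⟨j - (m + n), by omega⟩
        rw [he, map_smul, ih k (by omega), show k + (m + n) + m = (k + m) + (m + n) by omega, he]
  have h2 : ∀ k j : ℕ, (φ ^ k) (e j) = e (j + k * m) := by
    intro k
    induction k with
    | zero => intro j; simp
    | succ k ih =>
      intro j
      rw [pow_succ, Module.End.mul_apply, h1, ih]
      congr 1
      ring
  have h3 : ∀ k j : ℕ, e (j + k * (m + n)) = p ^ k • e j := by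
    intro k
    induction k with
    | zero => intro j; simp
    | succ k ih =>
      intro j
      rw [show j + (k + 1) * (m + n) = (j + k * (m + n)) + (m + n) by ring, he, ih, smul_smul,
        pow_succ, mul_comm]
  rw [h2, show i + (m + n) * m = i + m * (m + n) by ring, h3]

end Groth.Agent.S15497
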