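import Groth.Statements.S15525
import Mathlib
-- import your own Groth.Agent.* helpers here

set_option autoImplicit false
universe u
open Zeta

namespace Groth.Agent.S15525

open Polynomial in
lemma reverse_X_sub_C_of_norm (a : ℂ) (ha : ‖a‖ = 1) :
    (X - C a).reverse = C (-a) * (X - C (starRingEnd ℂ a)) := by
  have h1 : (X - C a : ℂ[X]) = X + C (-a) := by simp [sub_eq_add_neg]
  rw [h1, reverse_add_C]
  have h2 : (X : ℂ[X]).reverse = 1 := by
    have := reverse_mul_X (1 : ℂ[X])
    rw [one_mul] at this
    rw [this, show (1 : ℂ[X]) = C 1 from C_1.symm, reverse_C]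
  rw [h2, natDegree_X, pow_one]
  have h3 : a * starRingEnd ℂ a = 1 := by
    rw [Complex.mul_conj, Complex.normSq_eq_norm_sq, ha]; simp
  rw [mul_sub, ← C_mul, show -a * starRingEnd ℂ a = -1 by rw [neg_mul, h3]]
  simp only [C_neg, C_1]
  ring

open Polynomial in
lemma reverse_prod_of_norm (s : Multiset ℂ) (hs : ∀ z ∈ s, ‖z‖ = 1) :
    ((s.map fun a => X - C a).prod).reverse =
      C (((s.map fun a => X - C a).prod).eval 0) *
        ((s.map fun a => X - C a).prod).map (starRingEnd ℂ) := by
  induction s using Multiset.induction_on with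
  | empty => simpa using Polynomial.reverse_C (1 : ℂ)
  | cons a s ih =>
    have ha : ‖a‖ = 1 := hs a (Multiset.mem_cons_self a s)
    have ih' := ih (fun z hz => hs z (Multiset.mem_cons_of_mem hz))
    rw [Multiset.map_cons, Multiset.prod_cons, reverse_mul_of_domain, ih',
      reverse_X_sub_C_of_norm a ha, eval_mul, Polynomial.map_mul, C_mul]
    simp only [eval_sub, eval_X, eval_C, zero_sub, Polynomial.map_sub, map_X, map_C]
    ring

/-- Let L be a field with a ring embedding ι into ℂ and M an r × r matrix over L all of whose
eigenvalues, the complex roots of its characteristic polynomial mapped along ι, have absolute value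
1. Then every coefficient of the characteristic polynomial of the block-diagonal matrix with blocks
M and the inverse transpose of M is mapped by ι into ℝ. This is the pointwise content of the
assertion that for a lisse sheaf F pure of weight 0 the sum of F and its dual is real, the Frobenius
of the dual acting by the inverse transpose. -/
theorem result (L : Type u) [Field L] (ι : L →+* ℂ)
    {r : ℕ} (M : Matrix (Fin r) (Fin r) L)
    (hM : ∀ z ∈ ((Matrix.charpoly M).map ι).roots, ‖z‖ = 1) (n : ℕ) :
    (ι ((Matrix.fromBlocks M 0 0 (M⁻¹).transpose).charpoly.coeff n)).im = 0 := by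
  classical
  set p : Polynomial ℂ := (Matrix.charpoly M).map ι with hp
  have hpm : p.Monic := (Matrix.charpoly_monic M).map ι
  have hp0 : p ≠ 0 := hpm.ne_zero
  -- p is the product over its roots
  have hprod : (p.roots.map fun a => Polynomial.X - Polynomial.C a).prod = p :=
    Polynomial.prod_multiset_X_sub_C_of_monic_of_roots_card_eq hpm IsAlgClosed.card_roots_eq_natDegree
  have hrev : p.reverse = Polynomial.C (p.eval 0) * p.map (starRingEnd ℂ) := by
    have := reverse_prod_of_norm p.roots hM
    rwa [hprod] at this
  -- the determinant is nonzero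
  have hdet : M.det ≠ 0 := by
    intro h0
    have hc0 : (Matrix.charpoly M).coeff 0 = 0 := by
      have := Matrix.det_eq_sign_charpoly_coeff M
      rw [h0] at this
      rcases mul_eq_zero.1 this.symm with h | h
      · exact absurd h (pow_ne_zero _ (by norm_num))
      · exact h
    have hroot : (0 : ℂ) ∈ p.roots := by
      rw [Polynomial.mem_roots hp0, Polynomial.IsRoot, ← Polynomial.coeff_zero_eq_eval_zero, hp,
        Polynomial.coeff_map, hc0, map_zero]
    have := hM 0 hroot
    simp at this
  have hunit : IsUnit M := (Matrix.isUnit_iff_isUnit_det M).2 (isUnit_iff_ne_zero.2 hdet)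
  -- the characteristic polynomial of the inverse, mapped to ℂ
  have hinv : (Matrix.charpoly M⁻¹).map ι = p.map (starRingEnd ℂ) := by
    rw [Matrix.charpoly_inv M hunit, ← Matrix.reverse_charpoly, Ring.inverse_eq_inv',
      Polynomial.map_mul, Polynomial.map_mul, Polynomial.map_pow, Polynomial.map_neg,
      Polynomial.map_one, Polynomial.map_C]
    have hrevmap : ((Matrix.charpoly M).reverse).map ι = p.reverse := by
      rw [Polynomial.reverse, Polynomial.reverse, hp, Polynomial.natDegree_map, Polynomial.reflect_map]
    rw [hrevmap, hrev]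
    have hev : p.eval 0 = (-1) ^ Fintype.card (Fin r) * ι M.det := by
      rw [← Polynomial.coeff_zero_eq_eval_zero, hp, Polynomial.coeff_map, Matrix.det_eq_sign_charpoly_coeff M]
      simp only [map_mul, map_pow, map_neg, map_one]
      rw [← mul_assoc, ← pow_add, ← two_mul, pow_mul]
      simp
    rw [hev]
    have hιdet : ι M.det ≠ 0 := (map_ne_zero ι).2 hdet
    rw [← mul_assoc]
    have : (-1 : Polynomial ℂ) ^ Fintype.card (Fin r) * Polynomial.C (ι M.det⁻¹) *
        Polynomial.C ((-1) ^ Fintype.card (Fin r) * ι M.det) = 1 := by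
      rw [mul_assoc, ← Polynomial.C_mul, map_inv₀]
      rw [show (ι M.det)⁻¹ * ((-1) ^ Fintype.card (Fin r) * ι M.det) = (-1) ^ Fintype.card (Fin r) by
        field_simp]
      rw [Polynomial.C_pow, Polynomial.C_neg, Polynomial.C_1, ← mul_pow]
      simp
    rw [this, one_mul]
  -- the full characteristic polynomial
  have hQ : ((Matrix.fromBlocks M 0 0 (M⁻¹).transpose).charpoly).map ι = p * p.map (starRingEnd ℂ) := by
    rw [Matrix.charpoly_fromBlocks_zero₁₂, Matrix.charpoly_transpose, Polynomial.map_mul, hinv]
  have hcoef : ι ((Matrix.fromBlocks M 0 0 (M⁻¹).transpose).charpoly.coeff n) =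
      (p * p.map (starRingEnd ℂ)).coeff n := by
    rw [← hQ, Polynomial.coeff_map]
  rw [hcoef]
  clear_value p
  have hconj : starRingEnd ℂ ((p * p.map (starRingEnd ℂ)).coeff n) = (p * p.map (starRingEnd ℂ)).coeff n := by
    rw [← Polynomial.coeff_map, Polynomial.map_mul, Polynomial.map_map]
    have : (starRingEnd ℂ).comp (starRingEnd ℂ) = RingHom.id ℂ := by
      ext z; simp
    rw [this, Polynomial.map_id, mul_comm]
  exact Complex.conj_eq_iff_im.1 hconj

end Groth.Agent.S15525
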