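import Groth.Statements.S15526
import Mathlib
-- import your own Groth.Agent.* helpers here

set_option autoImplicit false
universe u
open MvPolynomial
open CAlg

namespace Groth.Agent.S15526

/-- Let R be a commutative ring, P ∈ R[x] a monic polynomial of degree 2g + 1, and A = R[x, y, z]/(y^2 −
P(x), yz − 1). Then every element of A is a finite sum Σ_n Q_n(x) y^n over integers n, negative
powers of y meaning powers of z, with each Q_n ∈ R[x] of degree at most 2g: the R-submodule of A
spanned by the classes of x^i y^n and x^i z^n with i ≤ 2g and n ≥ 0 is all of A. (The published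
statement takes for R the ring of Witt vectors of a finite field and for P a lift of a separable
polynomial; the argument uses only that P is monic of degree 2g + 1.) -/
theorem result (R : Type u) [CommRing R] (g : ℕ)
    (P : Polynomial R) (hP : P.Monic) (hdeg : P.natDegree = 2 * g + 1) :
    Submodule.span R {a : MvPolynomial (Fin 3) R ⧸
        Ideal.span ({X 1 ^ 2 - Polynomial.aeval (X 0 : MvPolynomial (Fin 3) R) P, X 1 * X 2 - 1} :
          Set (MvPolynomial (Fin 3) R)) |
        ∃ i n : ℕ, i ≤ 2 * g ∧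
          (a = Ideal.Quotient.mk _ (X 0 ^ i * X 1 ^ n) ∨ a = Ideal.Quotient.mk _ (X 0 ^ i * X 2 ^ n))} =
      ⊤ := by
  classical
  set J : Ideal (MvPolynomial (Fin 3) R) := Ideal.span ({X 1 ^ 2 - Polynomial.aeval
    (X 0 : MvPolynomial (Fin 3) R) P, X 1 * X 2 - 1} : Set (MvPolynomial (Fin 3) R)) with hJ
  set S := Submodule.span R {a : MvPolynomial (Fin 3) R ⧸ J |
        ∃ i n : ℕ, i ≤ 2 * g ∧
          (a = Ideal.Quotient.mk J (X 0 ^ i * X 1 ^ n) ∨ a = Ideal.Quotient.mk J (X 0 ^ i * X 2 ^ n))}
    with hS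
  set x := Ideal.Quotient.mk J (X 0) with hx
  set y := Ideal.Quotient.mk J (X 1) with hy
  set z := Ideal.Quotient.mk J (X 2) with hz
  have hyz : y * z = 1 := by
    have h : X 1 * X 2 - 1 ∈ J := Ideal.subset_span (by simp)
    have := (Ideal.Quotient.eq_zero_iff_mem.2 h)
    rw [map_sub, map_mul, map_one, sub_eq_zero] at this
    exact this
  have hy2 : y ^ 2 = Polynomial.aeval x P := by
    have h : X 1 ^ 2 - Polynomial.aeval (X 0 : MvPolynomial (Fin 3) R) P ∈ J :=
      Ideal.subset_span (by simp)
    have := (Ideal.Quotient.eq_zero_iff_mem.2 h)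
    rw [map_sub, map_pow, sub_eq_zero] at this
    rw [this, hx, ← Ideal.Quotient.mkₐ_eq_mk R, Polynomial.aeval_algHom_apply]
  let u : (MvPolynomial (Fin 3) R ⧸ J)ˣ := ⟨y, z, hyz, by rw [mul_comm]; exact hyz⟩
  let Y : ℤ → MvPolynomial (Fin 3) R ⧸ J := fun n => ((u ^ n : (MvPolynomial (Fin 3) R ⧸ J)ˣ) : _)
  have hYsucc : ∀ n : ℤ, Y (n + 1) = Y n * y := by
    intro n; simp only [Y, zpow_add_one, Units.val_mul]; rfl
  have hYpred : ∀ n : ℤ, Y (n - 1) = Y n * z := by
    intro n; simp only [Y, zpow_sub_one, Units.val_mul]; rfl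
  have hY0 : Y 0 = 1 := by simp [Y]
  have hgen : ∀ i, i ≤ 2 * g → ∀ n : ℤ, x ^ i * Y n ∈ S := by
    intro i hi n
    apply Submodule.subset_span
    rcases n with k | k
    · refine ⟨i, k, hi, Or.inl ?_⟩
      simp only [Y, Int.ofNat_eq_natCast, zpow_natCast, Units.val_pow_eq_pow_val]
      rw [map_mul, map_pow, map_pow]
    · refine ⟨i, k + 1, hi, Or.inr ?_⟩
      simp only [Y, zpow_negSucc, Units.val_inv_eq_inv_val, Units.val_pow_eq_pow_val]
      rw [map_mul, map_pow, map_pow]
      congr 1
  -- the relation for x ^ (2g+1)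
  have hxrel : x ^ (2 * g + 1) = y ^ 2 - ∑ i ∈ Finset.range (2 * g + 1),
      algebraMap R _ (P.coeff i) * x ^ i := by
    have e1 : Polynomial.aeval x P = x ^ (2 * g + 1) + ∑ i ∈ Finset.range (2 * g + 1),
        algebraMap R _ (P.coeff i) * x ^ i := by
      conv_lhs => rw [hP.as_sum, hdeg]
      simp [map_add, map_sum, Polynomial.aeval_X_pow, Polynomial.aeval_C]
    rw [hy2, e1]
    abel
  have claim1 : ∀ a : ℕ, ∀ n : ℤ, x ^ a * Y n ∈ S := by
    intro a
    induction a using Nat.strong_induction_on with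
    | _ a ih =>
    intro n
    by_cases ha : a ≤ 2 * g
    · exact hgen a ha n
    · obtain ⟨b, rfl⟩ : ∃ b, a = 2 * g + 1 + b := ⟨a - (2 * g + 1), by omega⟩
      have e : x ^ (2 * g + 1 + b) * Y n = x ^ b * Y (n + 1 + 1) -
          ∑ i ∈ Finset.range (2 * g + 1), P.coeff i • (x ^ (b + i) * Y n) := by
        rw [hYsucc, hYsucc, pow_add, hxrel, sub_mul, sub_mul, Finset.sum_mul, Finset.sum_mul]
        congr 1
        · ring
        · refine Finset.sum_congr rfl fun i _ => ?_
          rw [Algebra.smul_def (A := MvPolynomial (Fin 3) R ⧸ J) (P.coeff i) (x ^ (b + i) * Y n), pow_add]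
          ring
      rw [e]
      refine Submodule.sub_mem _ (ih b (by omega) _) (Submodule.sum_mem _ fun i hi => ?_)
      have hi' : i < 2 * g + 1 := Finset.mem_range.1 hi
      exact Submodule.smul_mem _ _ (ih (b + i) (by omega) n)
  have claim2 : ∀ v ∈ S, v * x ∈ S ∧ v * y ∈ S ∧ v * z ∈ S := by
    intro v hv
    induction hv using Submodule.span_induction with
    | mem a ha =>
      obtain ⟨i, n, hi, h | h⟩ := ha
      · have ha' : a = x ^ i * Y n := by
          rw [h, map_mul, map_pow, map_pow]
          simp only [Y, zpow_natCast, Units.val_pow_eq_pow_val]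
          rfl
        refine ⟨?_, ?_, ?_⟩
        · rw [ha', mul_right_comm, ← pow_succ]; exact claim1 _ _
        · rw [ha', mul_assoc, ← hYsucc]; exact claim1 _ _
        · rw [ha', mul_assoc, ← hYpred]; exact claim1 _ _
      · have ha' : a = x ^ i * Y (-(n : ℤ)) := by
          rw [h, map_mul, map_pow, map_pow]
          simp only [Y, zpow_neg, zpow_natCast, Units.val_inv_eq_inv_val, Units.val_pow_eq_pow_val]
          congr 1
        refine ⟨?_, ?_, ?_⟩
        · rw [ha', mul_right_comm, ← pow_succ]; exact claim1 _ _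
        · rw [ha', mul_assoc, ← hYsucc]; exact claim1 _ _
        · rw [ha', mul_assoc, ← hYpred]; exact claim1 _ _
    | zero => simp
    | add v w _ _ hv hw =>
      exact ⟨by rw [add_mul]; exact S.add_mem hv.1 hw.1, by rw [add_mul]; exact S.add_mem hv.2.1 hw.2.1,
        by rw [add_mul]; exact S.add_mem hv.2.2 hw.2.2⟩
    | smul r v _ hv =>
      exact ⟨by rw [smul_mul_assoc]; exact S.smul_mem r hv.1,
        by rw [smul_mul_assoc]; exact S.smul_mem r hv.2.1,
        by rw [smul_mul_assoc]; exact S.smul_mem r hv.2.2⟩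
  have claim3 : ∀ f : MvPolynomial (Fin 3) R, Ideal.Quotient.mk J f ∈ S := by
    intro f
    induction f using MvPolynomial.induction_on with
    | C r =>
      have : Ideal.Quotient.mk J (C r) = r • (x ^ 0 * Y 0) := by
        rw [pow_zero, hY0, mul_one, ← Algebra.algebraMap_eq_smul_one]
        rfl
      rw [this]
      exact S.smul_mem r (claim1 0 0)
    | add p q hp hq => rw [map_add]; exact S.add_mem hp hq
    | mul_X p i hp =>
      rw [map_mul]
      fin_cases i
      · exact (claim2 _ hp).1
      · exact (claim2 _ hp).2.1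
      · exact (claim2 _ hp).2.2
  rw [eq_top_iff]
  intro v _
  obtain ⟨f, rfl⟩ := Ideal.Quotient.mk_surjective v
  exact claim3 f

end Groth.Agent.S15526
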