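import Groth.Statements.S15542
import Groth.Agent.Lib.Helper5.ProConsLib
-- import your own Groth.Agent.* helpers here

set_option autoImplicit false
open CategoryTheory AlgebraicGeometry
universe u
open ProCons

namespace Groth.Agent.S15542

/-- The pro-constructible case. Let f : X ⟶ Y be any morphism of schemes and T a pro-constructible
subset of Y (locally on Y an intersection of locally constructible subsets). Then the preimage of T
under f is pro-constructible in X. -/
theorem result {X Y : Scheme.{u}} (f : X ⟶ Y) (T : Set Y)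
    (hT : ProCons.IsProConstructible T) :
    ProCons.IsProConstructible (f.base ⁻¹' T) := by
  intro x
  obtain ⟨U', hU'o, hxU', S, hS, e⟩ := hT (f.base x)
  let U : Y.Opens := ⟨U', hU'o⟩
  have hg : ∀ y : ↥(f ⁻¹ᵁ U), (f ∣_ U) y = ⟨f.base y.1, y.2⟩ :=
    fun y => Subtype.ext (morphismRestrict_base_coe f U y)
  refine ⟨f.base ⁻¹' U', hU'o.preimage f.continuous, hxU',
    (fun T' => (f ∣_ U) ⁻¹' T') '' S, ?_, ?_⟩
  · rintro _ ⟨T', hT', rfl⟩
    exact Groth.Agent.Lib.Helper5.ProConsLib.isLocallyConstructible_preimage (f ∣_ U) (hS T' hT')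
  · ext y
    constructor
    · intro hy
      rintro _ ⟨T', hT', rfl⟩
      show (f ∣_ U) y ∈ T'
      rw [hg y]
      have h1 : (⟨f.base y.1, y.2⟩ : ↥U') ∈ (Subtype.val ⁻¹' T : Set ↥U') := hy
      rw [e] at h1
      exact h1 T' hT'
    · intro hy
      have h1 : (⟨f.base y.1, y.2⟩ : ↥U') ∈ ⋂₀ S := fun T' hT' => by
        have := hy _ ⟨T', hT', rfl⟩
        change (f ∣_ U) y ∈ T' at this
        rwa [hg y] at this
      rw [← e] at h1
      exact h1

end Groth.Agent.S15542
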