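import Groth.Statements.S15543
import Groth.Agent.Lib.Helper5.ProConsLib
-- import your own Groth.Agent.* helpers here

set_option autoImplicit false
open CategoryTheory AlgebraicGeometry
universe u
open ProCons

namespace Groth.Agent.S15543

/-- The ind-constructible case. Let f : X ⟶ Y be any morphism of schemes and T an ind-constructible
subset of Y (locally on Y a union of locally constructible subsets). Then the preimage of T under f
is ind-constructible in X. -/
theorem result {X Y : Scheme.{u}} (f : X ⟶ Y) (T : Set Y)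
    (hT : ProCons.IsIndConstructible T) :
    ProCons.IsIndConstructible (f.base ⁻¹' T) := by
  intro x
  obtain ⟨U', hU'o, hxU', S, hS, e⟩ := hT (f.base x)
  let U : Y.Opens := ⟨U', hU'o⟩
  have hg : ∀ y : ↥(f ⁻¹ᵁ U), (f ∣_ U) y = ⟨f.base y.1, y.2⟩ :=
    fun y => Subtype.ext (morphismRestrict_base_coe f U y)
  refine ⟨f.base ⁻¹' U', hU'o.preimage f.continuous, hxU',
    (fun T' => (f ∣_ U) ⁻¹' T') '' S, ?_, ?_⟩
  · rintro _ ⟨T', hT', rfl⟩
    exact Groth.Agent.Lib.Helper5.ProConsLib.isLocallyConstructible_preimage (f ∣_ U) (hS T' hT')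
  · ext y
    constructor
    · intro hy
      have h1 : (⟨f.base y.1, y.2⟩ : ↥U') ∈ (Subtype.val ⁻¹' T : Set ↥U') := hy
      rw [e] at h1
      obtain ⟨T', hT', hyT'⟩ := h1
      refine ⟨_, ⟨T', hT', rfl⟩, ?_⟩
      show (f ∣_ U) y ∈ T'
      rw [hg y]
      exact hyT'
    · rintro ⟨_, ⟨T', hT', rfl⟩, hy⟩
      change (f ∣_ U) y ∈ T' at hy
      rw [hg y] at hy
      have h1 : (⟨f.base y.1, y.2⟩ : ↥U') ∈ ⋃₀ S := ⟨T', hT', hy⟩
      rw [← e] at h1
      exact h1

end Groth.Agent.S15543
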