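import Groth.Statements.S15557
import Mathlib.Tactic
-- import your own Groth.Agent.* helpers here

set_option autoImplicit false
universe v u
open CategoryTheory
open CohDer

namespace Groth.Agent.S15557

open CategoryTheory.Pretriangulated in
/-- Let T = (X, Y, Z) and T' = (X', Y', Z') be distinguished triangles in a pretriangulated category and
assume that every morphism X → Z' and every morphism X → Z'[-1] is zero. Then composing with the
first map X' → Y' of T' is a bijection Hom(X, X') → Hom(X, Y'), and composing with the second map Y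
→ Z of T is a bijection Hom(Z, Z') → Hom(Y, Z'). (The published lemma is for triangulated
categories; the octahedral axiom plays no role.) -/
theorem result {D : Type u} [Category.{v} D] [Preadditive D]
    [Limits.HasZeroObject D] [HasShift D ℤ] [∀ n : ℤ, (shiftFunctor D n).Additive] [Pretriangulated D]
    (T T' : Triangle D) (hT : T ∈ distinguishedTriangles) (hT' : T' ∈ distinguishedTriangles)
    (hXZ : ∀ u : T.obj₁ ⟶ T'.obj₃, u = 0)
    (hXZ' : ∀ u : T.obj₁ ⟶ (shiftFunctor D (-1 : ℤ)).obj T'.obj₃, u = 0) :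
    Function.Bijective (fun u : T.obj₁ ⟶ T'.obj₁ => u ≫ T'.mor₁) ∧
      Function.Bijective (fun w : T.obj₃ ⟶ T'.obj₃ => T.mor₂ ≫ w) := by
  
  refine ⟨⟨?_, ?_⟩, ⟨?_, ?_⟩⟩
  · -- injectivity of `u ↦ u ≫ T'.mor₁`
    have key : ∀ u : T.obj₁ ⟶ T'.obj₁, u ≫ T'.mor₁ = 0 → u = 0 := by
      intro u hu
      obtain ⟨g, hg⟩ := Triangle.coyoneda_exact₂ _ (inv_rot_of_distTriang _ hT') u hu
      have : g = 0 := hXZ' g
      rw [hg, this]
      exact Limits.zero_comp
    intro u₁ u₂ h
    have h' : (u₁ - u₂) ≫ T'.mor₁ = 0 := by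
      simp only [Preadditive.sub_comp]; exact sub_eq_zero.2 h
    exact sub_eq_zero.1 (key _ h')
  · intro w
    obtain ⟨u, hu⟩ := Triangle.coyoneda_exact₂ T' hT' w (hXZ _)
    exact ⟨u, hu.symm⟩
  · have key : ∀ w : T.obj₃ ⟶ T'.obj₃, T.mor₂ ≫ w = 0 → w = 0 := by
      intro w hw
      obtain ⟨g, hg⟩ := Triangle.yoneda_exact₃ T hT w hw
      have hg0 : g = 0 := by
        have h1 := hXZ' ((shiftFunctorCompIsoId D (1 : ℤ) (-1) (by norm_num)).inv.app T.obj₁ ≫
          (shiftFunctor D (-1 : ℤ)).map g)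
        have h2 : (shiftFunctor D (-1 : ℤ)).map g = 0 := by
          have := congrArg (fun t => (shiftFunctorCompIsoId D (1 : ℤ) (-1) (by norm_num)).hom.app T.obj₁ ≫ t) h1
          simpa using this
        apply (shiftFunctor D (-1 : ℤ)).map_injective
        rw [h2, Functor.map_zero]
      rw [hg, hg0, Limits.comp_zero]
    intro w₁ w₂ h
    have h' : T.mor₂ ≫ (w₁ - w₂) = 0 := by
      simp only [Preadditive.comp_sub]; exact sub_eq_zero.2 h
    exact sub_eq_zero.1 (key _ h')
  · intro v
    obtain ⟨w, hw⟩ := Triangle.yoneda_exact₂ T hT v (hXZ _)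
    exact ⟨w, hw.symm⟩

end Groth.Agent.S15557
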