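import Groth.Statements.S15560
import Groth.Agent.Lib.Helper23.KronMod
-- import your own Groth.Agent.* helpers here

set_option autoImplicit false
universe u v w
open KronMod

namespace Groth.Agent.S15560

/-- Let f be a Kronecker module with n arrows over a field K, from a space V of dimension d₋₁ > 0 to a
space W of dimension d₀ > 0. If n·d₋₁ < d₀ or n·d₀ < d₋₁, then f is not semistable; that is, there
are no semistable Kronecker modules of dimension vector (d₋₁, d₀). (The published statement assumes
K algebraically closed of characteristic zero and n ≥ 2; this row allows any field K and any number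
n of arrows.) -/
theorem result (K : Type u) [Field K] (V : Type v) (W : Type w)
    [AddCommGroup V] [Module K V] [FiniteDimensional K V]
    [AddCommGroup W] [Module K W] [FiniteDimensional K W]
    (n : ℕ) (f : Fin n → (V →ₗ[K] W))
    (hV : 0 < Module.finrank K V) (hW : 0 < Module.finrank K W)
    (h : n * Module.finrank K V < Module.finrank K W ∨ n * Module.finrank K W < Module.finrank K V) :
    ¬ KronMod.IsSemistable f := by
  
  open Groth.Agent.Lib.Helper23.Kron in
  rintro ⟨-, hss⟩
  rcases h with h | h
  · have hrange : Module.finrank K (LinearMap.range (sumMap f)) ≤ n * Module.finrank K V :=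
      (LinearMap.finrank_range_le _).trans (finrank_fun V).le
    have hne : LinearMap.range (sumMap f) ≠ ⊤ := by
      intro h'; rw [h', finrank_top] at hrange; omega
    have := hss ⊤ _ (isSubrep_top_range_sumMap f) (fun h => top_ne_bot_of_finrank_pos hV h.1)
      (fun h => hne h.2)
    rw [finrank_top] at this
    have h2 : Module.finrank K V * Module.finrank K (LinearMap.range (sumMap f)) ≤
        Module.finrank K V * (n * Module.finrank K V) := Nat.mul_le_mul_left _ hrange
    have h3 : Module.finrank K V * (n * Module.finrank K V) < Module.finrank K V * Module.finrank K W :=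
      Nat.mul_lt_mul_of_pos_left h hV
    rw [mul_comm (Module.finrank K W)] at this
    omega
  · have hker : Module.finrank K V ≤ Module.finrank K (LinearMap.ker (evalMap f)) + n * Module.finrank K W := by
      have h1 := LinearMap.finrank_range_add_finrank_ker (evalMap f)
      have h2 := Submodule.finrank_le (LinearMap.range (evalMap f))
      rw [finrank_fun] at h2
      omega
    have hkpos : 0 < Module.finrank K (LinearMap.ker (evalMap f)) := by omega
    have hne : LinearMap.ker (evalMap f) ≠ ⊥ := by
      intro h'; rw [h', finrank_bot] at hkpos; exact lt_irrefl 0 hkpos
    have := hss _ ⊥ (isSubrep_ker_evalMap_bot f) (fun h => hne h.1)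
      (fun h => (top_ne_bot_of_finrank_pos hW) h.2.symm)
    rw [finrank_bot, mul_zero] at this
    have := Nat.mul_pos hW hkpos
    omega

end Groth.Agent.S15560
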