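import Groth.Statements.S15561
import Groth.Agent.Lib.Helper23.KronMod
-- import your own Groth.Agent.* helpers here

set_option autoImplicit false
universe u v w
open KronMod

namespace Groth.Agent.S15561

/-- Let f be a Kronecker module with n arrows over a field K, from V of dimension d₋₁ > 0 to W of
dimension n·d₋₁. Then f is semistable if and only if the sum map Vⁿ → W sending (v_j)_j to Σ_j
f_j(v_j) is bijective, i.e. every arrow f_j is injective and W is the direct sum of the images
f_j(V). (The published statement assumes K algebraically closed of characteristic zero and n ≥ 2;
this row allows any field K and any number n of arrows.) -/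
theorem result (K : Type u) [Field K] (V : Type v) (W : Type w)
    [AddCommGroup V] [Module K V] [FiniteDimensional K V]
    [AddCommGroup W] [Module K W] [FiniteDimensional K W]
    (n : ℕ) (f : Fin n → (V →ₗ[K] W))
    (hV : 0 < Module.finrank K V) (hW : Module.finrank K W = n * Module.finrank K V) :
    KronMod.IsSemistable f ↔ Function.Bijective (fun v : Fin n → V => ∑ j, f j (v j)) := by
  
  have := Groth.Agent.Lib.Helper23.Kron.isSemistable_iff_sumMap_bijective f hV hW
  rwa [Groth.Agent.Lib.Helper23.Kron.coe_sumMap] at this

end Groth.Agent.S15561
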