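import Groth.Statements.S15562
import Groth.Agent.Lib.Helper23.KronMod
-- import your own Groth.Agent.* helpers here

set_option autoImplicit false
universe u v w
open KronMod

namespace Groth.Agent.S15562

/-- Over a field K, for V of dimension d₋₁ > 0 and W of dimension n·d₋₁, semistable Kronecker modules
with n arrows from V to W exist, and any two of them are isomorphic as Kronecker modules; in other
words the moduli space K(n; d₋₁, n·d₋₁) of semistable Kronecker modules is a single point. (The
published statement assumes K algebraically closed of characteristic zero and n ≥ 2; this row allows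
any field K and any number n of arrows.) -/
theorem result (K : Type u) [Field K] (V : Type v) (W : Type w)
    [AddCommGroup V] [Module K V] [FiniteDimensional K V]
    [AddCommGroup W] [Module K W] [FiniteDimensional K W]
    (n : ℕ) (hV : 0 < Module.finrank K V) (hW : Module.finrank K W = n * Module.finrank K V) :
    (∃ f : Fin n → (V →ₗ[K] W), KronMod.IsSemistable f) ∧
    ∀ f f' : Fin n → (V →ₗ[K] W), KronMod.IsSemistable f → KronMod.IsSemistable f' →
      KronMod.AreIso f f' := by
  
  open Groth.Agent.Lib.Helper23.Kron in
  refine ⟨?_, ?_⟩
  · have hrank : Module.finrank K (Fin n → V) = Module.finrank K W := by rw [finrank_fun, hW]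
    let e : (Fin n → V) ≃ₗ[K] W := LinearEquiv.ofFinrankEq _ _ hrank
    refine ⟨fun j => (e : (Fin n → V) →ₗ[K] W).comp (LinearMap.single K (fun _ => V) j), ?_⟩
    rw [isSemistable_iff_sumMap_bijective _ hV hW]
    have : ⇑(sumMap fun j => (e : (Fin n → V) →ₗ[K] W).comp (LinearMap.single K (fun _ => V) j)) = ⇑e := by
      funext v
      rw [sumMap_apply]
      simp only [LinearMap.coe_comp, Function.comp_apply, LinearMap.coe_single, LinearEquiv.coe_coe]
      rw [← map_sum, Finset.univ_sum_single]
    rw [this]
    exact e.bijective
  · intro f f' hf hf'
    rw [isSemistable_iff_sumMap_bijective _ hV hW] at hf hf'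
    let G := LinearEquiv.ofBijective (sumMap f) hf
    let G' := LinearEquiv.ofBijective (sumMap f') hf'
    refine ⟨LinearEquiv.refl K V, G.symm.trans G', ?_⟩
    intro j
    ext v
    have hG : G.symm (f j v) = Pi.single j v := by
      apply G.injective
      rw [LinearEquiv.apply_symm_apply]
      exact (sumMap_single f j v).symm
    simp only [LinearMap.coe_comp, LinearEquiv.coe_coe, Function.comp_apply,
      LinearEquiv.trans_apply, LinearEquiv.refl_apply, hG]
    exact sumMap_single f' j v

end Groth.Agent.S15562
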