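import Groth.Statements.S15563
import Groth.Agent.Lib.Helper23.KronMod
-- import your own Groth.Agent.* helpers here

set_option autoImplicit false
universe u v w
open KronMod

namespace Groth.Agent.S15563

/-- Let f be a Kronecker module with n arrows over a field K, from V of dimension d₋₁ > 0 to W of
dimension n·d₋₁. Then f is stable if and only if f is semistable and d₋₁ = 1: for d₋₁ = 1 every
semistable module is stable (so the stable locus of K(n; 1, n) is the one point), while for d₋₁ > 1
no module is stable. (The published statement assumes K algebraically closed of characteristic zero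
and n ≥ 2; this row allows any field K and any number n of arrows.) -/
theorem result (K : Type u) [Field K] (V : Type v) (W : Type w)
    [AddCommGroup V] [Module K V] [FiniteDimensional K V]
    [AddCommGroup W] [Module K W] [FiniteDimensional K W]
    (n : ℕ) (f : Fin n → (V →ₗ[K] W))
    (hV : 0 < Module.finrank K V) (hW : Module.finrank K W = n * Module.finrank K V) :
    KronMod.IsStable f ↔ (KronMod.IsSemistable f ∧ Module.finrank K V = 1) := by
  
  open Groth.Agent.Lib.Helper23.Kron in
  constructor
  · intro hst
    have hss : KronMod.IsSemistable f := ⟨hst.1, fun V' W' h h1 h2 => (hst.2 V' W' h h1 h2).le⟩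
    refine ⟨hss, ?_⟩
    by_contra hne
    have hV2 : 2 ≤ Module.finrank K V := by omega
    have : Nontrivial V := Module.nontrivial_of_finrank_pos hV
    obtain ⟨v, hv⟩ := exists_ne (0 : V)
    let L : Submodule K V := K ∙ v
    let W' : Submodule K W := Submodule.span K (Set.range fun j => f j v)
    have hL : Module.finrank K L = 1 := finrank_span_singleton hv
    have hW' : Module.finrank K W' ≤ n := by
      have := finrank_range_le_card (R := K) (fun j => f j v)
      rw [Fintype.card_fin] at this
      exact this
    have hsub : KronMod.IsSubrep f L W' := by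
      intro j
      rintro _ ⟨x, hx, rfl⟩
      obtain ⟨c, rfl⟩ := Submodule.mem_span_singleton.1 hx
      rw [map_smul]
      exact W'.smul_mem _ (Submodule.subset_span ⟨j, rfl⟩)
    have hLbot : L ≠ ⊥ := by
      intro h; rw [h, finrank_bot] at hL; exact zero_ne_one hL
    have hLtop : L ≠ ⊤ := by
      intro h; rw [h, finrank_top] at hL; omega
    have := hst.2 L W' hsub (fun h => hLbot h.1) (fun h => hLtop h.1)
    rw [hL, mul_one, hW] at this
    have h2 : Module.finrank K V * Module.finrank K W' ≤ Module.finrank K V * n :=
      Nat.mul_le_mul_left _ hW'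
    rw [mul_comm n] at this
    omega
  · rintro ⟨hss, h1⟩
    have hb := (isSemistable_iff_sumMap_bijective f hV hW).1 hss
    refine ⟨hss.1, ?_⟩
    intro V' W' hsub hnb hnt
    rcases eq_bot_or_eq_top_of_finrank_eq_one h1 V' with h | h
    · subst h
      have hW' : W' ≠ ⊥ := fun h' => hnb ⟨rfl, h'⟩
      have : 0 < Module.finrank K W' :=
        Nat.pos_of_ne_zero (fun h => hW' (Submodule.finrank_eq_zero.1 h))
      rw [finrank_bot, mul_zero]
      exact Nat.mul_pos hV this
    · subst h
      exfalso
      apply hnt
      refine ⟨rfl, ?_⟩
      rw [eq_top_iff]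
      intro w _
      obtain ⟨x, rfl⟩ := hb.2 w
      rw [sumMap_apply]
      exact W'.sum_mem fun j _ => mapsTo_of_isSubrep hsub j Submodule.mem_top

end Groth.Agent.S15563
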