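import Groth.Statements.S15564
import Groth.Agent.Lib.Helper23.KronMod
-- import your own Groth.Agent.* helpers here

set_option autoImplicit false
universe u v w
open KronMod

namespace Groth.Agent.S15564

/-- For a Kronecker module f with n arrows over a field K between one-dimensional spaces V and W,
semistability, stability and f ≠ 0 are equivalent: the semistable locus and the stable locus of
dimension vector (1, 1) are both the complement of the zero module. (The published statement assumes
K algebraically closed of characteristic zero and n ≥ 2; this row allows any field K and any n.) -/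
theorem result (K : Type u) [Field K] (V : Type v) (W : Type w)
    [AddCommGroup V] [Module K V] [FiniteDimensional K V]
    [AddCommGroup W] [Module K W] [FiniteDimensional K W]
    (n : ℕ) (f : Fin n → (V →ₗ[K] W))
    (hV : Module.finrank K V = 1) (hW : Module.finrank K W = 1) :
    (KronMod.IsSemistable f ↔ f ≠ 0) ∧ (KronMod.IsStable f ↔ f ≠ 0) := by
  
  open Groth.Agent.Lib.Helper23.Kron in
  have hVtb : (⊤ : Submodule K V) ≠ ⊥ := top_ne_bot_of_finrank_pos (by omega)
  have hWtb : (⊤ : Submodule K W) ≠ ⊥ := top_ne_bot_of_finrank_pos (by omega)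
  -- f ≠ 0 → stable
  have P1 : f ≠ 0 → KronMod.IsStable f := by
    intro hf
    refine ⟨by omega, ?_⟩
    intro V' W' hsub hnb hnt
    rw [hV, hW, one_mul, one_mul]
    rcases eq_bot_or_eq_top_of_finrank_eq_one hV V' with h | h <;>
      rcases eq_bot_or_eq_top_of_finrank_eq_one hW W' with h' | h'
    · exact absurd ⟨h, h'⟩ hnb
    · rw [h, h', finrank_bot, finrank_top, hW]; exact Nat.one_pos
    · exfalso
      apply hf
      funext j
      ext x
      have := mapsTo_of_isSubrep hsub j (show x ∈ V' by rw [h]; trivial)
      rw [h'] at this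
      simpa using this
    · exact absurd ⟨h, h'⟩ hnt
  have P2 : KronMod.IsStable f → KronMod.IsSemistable f :=
    fun hst => ⟨hst.1, fun V' W' h h1 h2 => (hst.2 V' W' h h1 h2).le⟩
  have P3 : KronMod.IsSemistable f → f ≠ 0 := by
    rintro ⟨-, hss⟩ rfl
    have hsub : KronMod.IsSubrep (0 : Fin n → (V →ₗ[K] W)) ⊤ ⊥ := by
      intro j
      rintro _ ⟨x, -, rfl⟩
      simp
    have := hss ⊤ ⊥ hsub (fun h => hVtb h.1) (fun h => hWtb h.2.symm)
    rw [finrank_top, finrank_bot, hV, hW] at this
    omega
  exact ⟨⟨P3, fun h => P2 (P1 h)⟩, ⟨fun h => P3 (P2 h), P1⟩⟩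

end Groth.Agent.S15564
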