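import Groth.Statements.S15565
import Groth.Agent.Lib.Helper23.KronMod
import Mathlib.LinearAlgebra.Eigenspace.Triangularizable
-- import your own Groth.Agent.* helpers here

set_option autoImplicit false
universe u v w
open KronMod

namespace Groth.Agent.S15565

/-- Over an algebraically closed field K, a Kronecker module with two arrows between spaces V and W of
the same dimension k ≥ 2 is never stable: the stable locus of dimension vector (k, k) for the
Kronecker quiver with two arrows is empty. (The published statement also assumes characteristic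
zero; this row does not.) -/
theorem result (K : Type u) [Field K] [IsAlgClosed K] (V : Type v) (W : Type w)
    [AddCommGroup V] [Module K V] [FiniteDimensional K V]
    [AddCommGroup W] [Module K W] [FiniteDimensional K W]
    (f : Fin 2 → (V →ₗ[K] W)) (k : ℕ) (hk : 2 ≤ k)
    (hV : Module.finrank K V = k) (hW : Module.finrank K W = k) :
    ¬ KronMod.IsStable f := by
  
  open Groth.Agent.Lib.Helper23.Kron in
  rintro ⟨-, hst⟩
  have : Nontrivial V := Module.nontrivial_of_finrank_pos (R := K) (show 0 < Module.finrank K V by omega)
  have key : ∀ (v : V) (w : W), v ≠ 0 → (∀ j : Fin 2, f j v ∈ K ∙ w) → False := by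
    intro v w hv hj
    have hsub : KronMod.IsSubrep f (K ∙ v) (K ∙ w) := by
      intro j
      rintro _ ⟨x, hx, rfl⟩
      obtain ⟨c, rfl⟩ := Submodule.mem_span_singleton.1 hx
      rw [map_smul]
      exact Submodule.smul_mem _ _ (hj j)
    have hL : Module.finrank K (K ∙ v) = 1 := finrank_span_singleton hv
    have hLbot : (K ∙ v) ≠ ⊥ := by
      intro h; rw [h, finrank_bot] at hL; exact zero_ne_one hL
    have hLtop : (K ∙ v) ≠ ⊤ := by
      intro h; rw [h, finrank_top] at hL; omega
    have hw1 : Module.finrank K (K ∙ w) ≤ 1 := by
      have := finrank_span_le_card (R := K) ({w} : Set W)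
      simpa using this
    have := hst (K ∙ v) (K ∙ w) hsub (fun h => hLbot h.1) (fun h => hLtop h.1)
    rw [hL, hW, hV, mul_one] at this
    have : k * Module.finrank K (K ∙ w) ≤ k * 1 := Nat.mul_le_mul_left _ hw1
    omega
  by_cases h0 : Function.Injective (f 0)
  · have hrank : Module.finrank K V = Module.finrank K W := by rw [hV, hW]
    have hb : Function.Bijective (f 0) :=
      ⟨h0, (LinearMap.injective_iff_surjective_of_finrank_eq_finrank hrank).1 h0⟩
    let e := LinearEquiv.ofBijective (f 0) hb
    let φ : Module.End K V := (e.symm : W →ₗ[K] V) ∘ₗ f 1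
    obtain ⟨μ, hμ⟩ := Module.End.exists_eigenvalue φ
    obtain ⟨v, hv⟩ := hμ.exists_hasEigenvector
    have h1 : f 1 v = μ • f 0 v := by
      have := hv.apply_eq_smul
      have h2 : e (φ v) = e (μ • v) := by rw [this]
      simp only [φ, LinearMap.coe_comp, LinearEquiv.coe_coe, Function.comp_apply,
        LinearEquiv.apply_symm_apply, map_smul] at h2
      exact h2
    refine key v (f 0 v) hv.2 ?_
    intro j
    fin_cases j
    · exact Submodule.mem_span_singleton_self _
    · simp only [Fin.mk_one, Fin.isValue]
      rw [h1]
      exact Submodule.smul_mem _ _ (Submodule.mem_span_singleton_self _)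
  · have hker : LinearMap.ker (f 0) ≠ ⊥ := fun h => h0 (LinearMap.ker_eq_bot.1 h)
    obtain ⟨v, hv, hv0⟩ := Submodule.exists_mem_ne_zero_of_ne_bot hker
    refine key v (f 1 v) hv0 ?_
    intro j
    fin_cases j
    · simp only [Fin.zero_eta, Fin.isValue]
      rw [LinearMap.mem_ker.1 hv]
      exact Submodule.zero_mem _
    · exact Submodule.mem_span_singleton_self _

end Groth.Agent.S15565
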