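import Groth.Statements.S15566
import Mathlib.Tactic
-- import your own Groth.Agent.* helpers here

set_option autoImplicit false
universe u v w
open KronMod

namespace Groth.Agent.S15566

section Aux
variable {K : Type u} [Field K] {V : Type v} {W : Type w}
    [AddCommGroup V] [Module K V] [AddCommGroup W] [Module K W]

lemma core (w0 p q : W) (hw0 : w0 ≠ 0)
    (h : ∀ t : K, t ≠ 0 → q = 0 ∨ w0 + t • p ∈ K ∙ q) (t2 : K) (ht2 : t2 ≠ 0) (ht21 : t2 ≠ 1) :
    q = 0 ∨ (p ∈ K ∙ w0 ∧ q ∈ K ∙ w0) := by
  by_cases hq : q = 0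
  · exact Or.inl hq
  right
  have h1 := (h 1 one_ne_zero).resolve_left hq
  have h2 := (h t2 ht2).resolve_left hq
  have hp : p ∈ K ∙ q := by
    have h3 : (1 - t2) • p ∈ K ∙ q := by
      have := Submodule.sub_mem _ h1 h2
      convert this using 1
      rw [sub_smul, one_smul]; abel
    have hne : (1 - t2) ≠ 0 := sub_ne_zero.mpr (Ne.symm ht21)
    exact (Submodule.smul_mem_iff _ hne).1 h3
  have hw : w0 ∈ K ∙ q := by
    have := Submodule.sub_mem _ h1 (Submodule.smul_mem _ (1 : K) hp)
    simpa using this
  obtain ⟨c, hc⟩ := Submodule.mem_span_singleton.1 hw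
  have hc0 : c ≠ 0 := by
    rintro rfl
    rw [zero_smul] at hc
    exact hw0 hc.symm
  have hq' : q ∈ K ∙ w0 := by
    rw [Submodule.mem_span_singleton]
    exact ⟨c⁻¹, by rw [← hc, smul_smul, inv_mul_cancel₀ hc0, one_smul]⟩
  refine ⟨?_, hq'⟩
  obtain ⟨d, rfl⟩ := Submodule.mem_span_singleton.1 hp
  exact Submodule.smul_mem _ d hq'

lemma claim [Infinite K] (A B : V →ₗ[K] W) (u v0 : V) (hspan : ∀ x : V, ∃ α β : K, x = α • u + β • v0)
    (hAv0 : A v0 = 0) (hAu : A u ≠ 0)
    (hsing : ∀ t : K, ∃ x : V, x ≠ 0 ∧ (A + t • B) x = 0) :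
    B v0 = 0 ∨ ∀ x, B x ∈ K ∙ (A u) := by
  classical
  obtain ⟨t2, ht2⟩ := Infinite.exists_notMem_finset ({0, 1} : Finset K)
  simp only [Finset.mem_insert, Finset.mem_singleton, not_or] at ht2
  have key := core (A u) (B u) (B v0) hAu ?_ t2 ht2.1 ht2.2
  · rcases key with h | ⟨hp, hq⟩
    · exact Or.inl h
    · right
      intro x
      obtain ⟨α, β, rfl⟩ := hspan x
      simp only [map_add, map_smul]
      exact Submodule.add_mem _ (Submodule.smul_mem _ _ hp) (Submodule.smul_mem _ _ hq)
  · intro t ht
    obtain ⟨x, hx0, hx⟩ := hsing t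
    obtain ⟨α, β, rfl⟩ := hspan x
    simp only [LinearMap.add_apply, LinearMap.smul_apply, map_add, map_smul, hAv0] at hx
    by_cases hα : α = 0
    · left
      subst hα
      simp only [zero_smul, zero_add] at hx hx0
      have hβ : β ≠ 0 := by rintro rfl; simp at hx0
      have h3 : (t * β) • B v0 = 0 := by
        linear_combination (norm := module) hx
      exact (smul_eq_zero.1 h3).resolve_left (mul_ne_zero ht hβ)
    · right
      have e1 : α • (A u + t • B u) = (-(t * β)) • B v0 := by
        linear_combination (norm := module) hx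
      have e2 : A u + t • B u = α⁻¹ • (α • (A u + t • B u)) := by
        rw [smul_smul, inv_mul_cancel₀ hα, one_smul]
      rw [e2, e1, smul_smul]
      exact Submodule.smul_mem _ _ (Submodule.mem_span_singleton_self _)

end Aux

/-- Case of dimension vector (2, 2). Over an algebraically closed field K, if a Kronecker module f with
n arrows between two-dimensional spaces V and W is semistable, then some linear combination Σ_j z_j
f_j of its arrows is a linear isomorphism V → W (equivalently, the determinant of the generic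
combination is not identically zero): the semistable locus of dimension vector (2, 2) lies in the
open set of modules whose generic combination is invertible. (The published statement, over an
algebraically closed field of characteristic zero, covers dimension vectors (1, 1) and (2, 2) for
every n ≥ 2 and (k, k) for two arrows; this row states the (2, 2) case, for any n and without the
characteristic assumption.) -/
theorem result (K : Type u) [Field K] [IsAlgClosed K] (V : Type v) (W : Type w)
    [AddCommGroup V] [Module K V] [FiniteDimensional K V]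
    [AddCommGroup W] [Module K W] [FiniteDimensional K W]
    (n : ℕ) (f : Fin n → (V →ₗ[K] W))
    (hV : Module.finrank K V = 2) (hW : Module.finrank K W = 2)
    (hf : KronMod.IsSemistable f) :
    ∃ z : Fin n → K, Function.Bijective ((∑ j, z j • f j : V →ₗ[K] W) : V → W) := by
  classical
  by_contra hcon
  push Not at hcon
  obtain ⟨_, H⟩ := hf
  have hVnt : Nontrivial V := Module.nontrivial_of_finrank_eq_succ hV
  have hWnt : Nontrivial W := Module.nontrivial_of_finrank_eq_succ hW
  have D1 : ∀ v0 : V, v0 ≠ 0 → ¬ ∀ j, f j v0 = 0 := by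
    intro v0 hv0 hall
    have := H (K ∙ v0) ⊥ ?_ ?_ ?_
    · rw [hV, hW, finrank_span_singleton hv0, finrank_bot] at this
      omega
    · intro j
      rintro _ ⟨x, hx, rfl⟩
      obtain ⟨c, rfl⟩ := Submodule.mem_span_singleton.1 hx
      simp [hall j]
    · exact fun h => hv0 (Submodule.span_singleton_eq_bot.1 h.1)
    · exact fun h => bot_ne_top h.2
  have D2 : ∀ w0 : W, w0 ≠ 0 → ¬ ∀ j x, f j x ∈ K ∙ w0 := by
    intro w0 hw0 hall
    have := H ⊤ (K ∙ w0) ?_ ?_ ?_
    · rw [hV, hW, finrank_span_singleton hw0, finrank_top, hV] at this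
      omega
    · intro j
      rintro _ ⟨x, _, rfl⟩
      exact hall j x
    · exact fun h => top_ne_bot h.1
    · intro h
      have := congrArg (fun S : Submodule K W => Module.finrank K S) h.2
      simp only [finrank_span_singleton hw0, finrank_top, hW] at this
      omega
  have hni : ∀ z : Fin n → K, ∃ x : V, x ≠ 0 ∧ (∑ j, z j • f j) x = 0 := by
    intro z
    by_contra h
    push Not at h
    apply hcon z
    have hinj : Function.Injective (∑ j, z j • f j : V →ₗ[K] W) := by
      rw [← LinearMap.ker_eq_bot, Submodule.eq_bot_iff]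
      intro x hx
      by_contra hx0
      exact h x hx0 hx
    exact ⟨hinj, (LinearMap.injective_iff_surjective_of_finrank_eq_finrank
      (hV.trans hW.symm)).1 hinj⟩
  have hs1 : ∀ k : Fin n, (∑ j, (Pi.single k (1 : K) : Fin n → K) j • f j) = f k := by
    intro k
    simp [Pi.single_apply]
  by_cases hall0 : ∀ j, f j = 0
  · obtain ⟨v0, hv0⟩ := exists_ne (0 : V)
    exact D1 v0 hv0 (fun j => by simp [hall0 j])
  push Not at hall0
  obtain ⟨k, hk⟩ := hall0
  have hsum_single : ∀ (z : Fin n → K) (t : K),
      (∑ j, (Pi.single k (1 : K) + t • z : Fin n → K) j • f j) = f k + t • ∑ j, z j • f j := by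
    intro z t
    simp only [Pi.add_apply, Pi.smul_apply, smul_eq_mul, add_smul, Finset.sum_add_distrib, mul_smul,
      ← Finset.smul_sum, hs1]
  obtain ⟨v0, hv0, hAv0⟩ : ∃ v0 : V, v0 ≠ 0 ∧ f k v0 = 0 := by
    obtain ⟨x, hx, h⟩ := hni (Pi.single k 1)
    rw [hs1] at h
    exact ⟨x, hx, h⟩
  obtain ⟨u, hu⟩ : ∃ u, f k u ≠ 0 := by
    by_contra h
    push Not at h
    exact hk (LinearMap.ext h)
  have hli : LinearIndependent K ![u, v0] := by
    rw [LinearIndependent.pair_iff]
    intro s t hst
    have h1 : s • f k u = 0 := by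
      have := congrArg (f k) hst
      simpa [hAv0] using this
    have hs : s = 0 := (smul_eq_zero.1 h1).resolve_right hu
    subst hs
    simp only [zero_smul, zero_add] at hst
    exact ⟨rfl, (smul_eq_zero.1 hst).resolve_right hv0⟩
  have hspan : ∀ x : V, ∃ α β : K, x = α • u + β • v0 := by
    intro x
    have htop := hli.span_eq_top_of_card_eq_finrank' (by simp [hV])
    have hx : x ∈ Submodule.span K (Set.range ![u, v0]) := htop ▸ Submodule.mem_top
    obtain ⟨c, hc⟩ := (Submodule.mem_span_range_iff_exists_fun K).1 hx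
    refine ⟨c 0, c 1, ?_⟩
    rw [← hc, Fin.sum_univ_two]
    simp
  have hcl : ∀ z : Fin n → K,
      (∑ j, z j • f j) v0 = 0 ∨ ∀ x, (∑ j, z j • f j) x ∈ K ∙ (f k u) := by
    intro z
    apply claim (f k) (∑ j, z j • f j) u v0 hspan hAv0 hu
    intro t
    obtain ⟨x, hx, h⟩ := hni (Pi.single k (1 : K) + t • z)
    exact ⟨x, hx, by rw [← hsum_single]; exact h⟩
  by_cases hA : ∀ j, f j v0 = 0
  · exact D1 v0 hv0 hA
  by_cases hB : ∀ j x, f j x ∈ K ∙ (f k u)
  · exact D2 (f k u) hu hB
  push Not at hA hB
  obtain ⟨a, ha⟩ := hA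
  obtain ⟨b, x, hbx⟩ := hB
  have hfa : ∀ x, f a x ∈ K ∙ (f k u) := by
    have := hcl (Pi.single a 1)
    rw [hs1 a] at this
    exact this.resolve_left ha
  have hfb : f b v0 = 0 := by
    have := hcl (Pi.single b 1)
    rw [hs1 b] at this
    exact this.resolve_right (fun h => hbx (h x))
  have hs2 : (∑ j, (Pi.single a (1 : K) + Pi.single b (1 : K) : Fin n → K) j • f j) = f a + f b := by
    simp only [Pi.add_apply, add_smul, Finset.sum_add_distrib, hs1]
  have := hcl (Pi.single a 1 + Pi.single b 1)
  rw [hs2] at this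
  rcases this with h | h
  · simp only [LinearMap.add_apply, hfb, add_zero] at h
    exact ha h
  · apply hbx
    have := Submodule.sub_mem _ (h x) (hfa x)
    simpa using this

end Groth.Agent.S15566
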