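import Groth.Statements.S15567
import Groth.Agent.Lib.Helper23.KronMod
import Mathlib.LinearAlgebra.Dual.Lemmas
-- import your own Groth.Agent.* helpers here

set_option autoImplicit false
universe u v w
open KronMod

namespace Groth.Agent.S15567

open Module in
theorem arith_aux (dV dW x y a b : ℕ) (hx : x + b = dV) (hy : y + a = dW) :
    (dW * x ≤ dV * y ↔ dV * a ≤ dW * b) ∧ (dW * x < dV * y ↔ dV * a < dW * b) := by
  subst hx hy
  constructor <;> constructor <;> intro h <;> nlinarith

theorem eq_top_iff_finrank {K M : Type*} [Field K] [AddCommGroup M] [Module K M]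
    [FiniteDimensional K M] (N : Submodule K M) : N = ⊤ ↔ Module.finrank K N = Module.finrank K M :=
  ⟨fun h => h ▸ finrank_top K M, Submodule.eq_top_of_finrank_eq⟩

theorem eq_bot_iff_finrank {K M : Type*} [Field K] [AddCommGroup M] [Module K M]
    [FiniteDimensional K M] (N : Submodule K M) : N = ⊥ ↔ Module.finrank K N = 0 :=
  Submodule.finrank_eq_zero.symm


/-- Duality of Kronecker modules. Let f be a Kronecker module with n arrows over a field K, from V to W,
both finite-dimensional. The dual module has arrows the transposes f_j^∨ : W^∨ → V^∨, so its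
dimension vector is (d₀, d₋₁). Then f is semistable if and only if its dual is, and f is stable if
and only if its dual is. This is the module-level content of the isomorphism K(n; d₋₁, d₀) ≅ K(n;
d₀, d₋₁) of moduli spaces, stated here without the moduli spaces. (The published statement assumes K
algebraically closed of characteristic zero and n ≥ 2; this row allows any field K and any number n
of arrows.) -/
theorem result (K : Type u) [Field K] (V : Type v) (W : Type w)
    [AddCommGroup V] [Module K V] [FiniteDimensional K V]
    [AddCommGroup W] [Module K W] [FiniteDimensional K W]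
    (n : ℕ) (f : Fin n → (V →ₗ[K] W)) :
    (KronMod.IsSemistable f ↔ KronMod.IsSemistable (fun j => (f j).dualMap)) ∧
    (KronMod.IsStable f ↔ KronMod.IsStable (fun j => (f j).dualMap)) := by
  
  classical
  have hdV : Module.finrank K (Module.Dual K V) = Module.finrank K V := Subspace.dual_finrank_eq
  have hdW : Module.finrank K (Module.Dual K W) = Module.finrank K W := Subspace.dual_finrank_eq
  -- from a subrep of `f` to one of the dual
  have toDual : ∀ (V' : Submodule K V) (W' : Submodule K W), KronMod.IsSubrep f V' W' →
      KronMod.IsSubrep (fun j => (f j).dualMap) W'.dualAnnihilator V'.dualAnnihilator := by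
    intro V' W' h j
    rintro _ ⟨φ, hφ, rfl⟩
    rw [SetLike.mem_coe, Submodule.mem_dualAnnihilator] at hφ
    rw [Submodule.mem_dualAnnihilator]
    intro v hv
    rw [LinearMap.dualMap_apply]
    exact hφ _ (h j ⟨v, hv, rfl⟩)
  -- from a subrep of the dual to one of `f`
  have fromDual : ∀ (A : Submodule K (Module.Dual K W)) (B : Submodule K (Module.Dual K V)),
      KronMod.IsSubrep (fun j => (f j).dualMap) A B →
      KronMod.IsSubrep f B.dualCoannihilator A.dualCoannihilator := by
    intro A B h j
    rintro _ ⟨v, hv, rfl⟩
    rw [SetLike.mem_coe, Submodule.mem_dualCoannihilator] at hv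
    rw [Submodule.mem_dualCoannihilator]
    intro φ hφ
    have := hv _ (h j ⟨φ, hφ, rfl⟩)
    rwa [LinearMap.dualMap_apply] at this
  -- the generic transfer, for `≤` (index 0) and `<` (index 1)
  have transfer : ∀ (r : ℕ → ℕ → Prop),
      (∀ dV dW x y a b : ℕ, x + b = dV → y + a = dW → (r (dW * x) (dV * y) ↔ r (dV * a) (dW * b))) →
      ((0 < Module.finrank K V + Module.finrank K W ∧
        ∀ (V' : Submodule K V) (W' : Submodule K W), KronMod.IsSubrep f V' W' →
          ¬ (V' = ⊥ ∧ W' = ⊥) → ¬ (V' = ⊤ ∧ W' = ⊤) →
          r (Module.finrank K W * Module.finrank K V') (Module.finrank K V * Module.finrank K W')) ↔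
      (0 < Module.finrank K (Module.Dual K W) + Module.finrank K (Module.Dual K V) ∧
        ∀ (A : Submodule K (Module.Dual K W)) (B : Submodule K (Module.Dual K V)),
          KronMod.IsSubrep (fun j => (f j).dualMap) A B →
          ¬ (A = ⊥ ∧ B = ⊥) → ¬ (A = ⊤ ∧ B = ⊤) →
          r (Module.finrank K (Module.Dual K V) * Module.finrank K A)
            (Module.finrank K (Module.Dual K W) * Module.finrank K B))) := by
    intro r hr
    rw [hdV, hdW]
    constructor
    · rintro ⟨hpos, hss⟩
      refine ⟨by omega, ?_⟩
      intro A B hsub hnb hnt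
      have h1 := Subspace.finrank_add_finrank_dualCoannihilator_eq B
      have h2 := Subspace.finrank_add_finrank_dualCoannihilator_eq A
      have := hss _ _ (fromDual A B hsub) ?_ ?_
      · exact (hr _ _ _ _ _ _ (by omega) (by omega)).1 this
      · rintro ⟨hV', hW'⟩
        rw [eq_bot_iff_finrank] at hV' hW'
        apply hnt
        rw [eq_top_iff_finrank, eq_top_iff_finrank, hdV, hdW]
        omega
      · rintro ⟨hV', hW'⟩
        rw [eq_top_iff_finrank] at hV' hW'
        apply hnb
        rw [eq_bot_iff_finrank, eq_bot_iff_finrank]
        omega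
    · rintro ⟨hpos, hss⟩
      refine ⟨by omega, ?_⟩
      intro V' W' hsub hnb hnt
      have h1 := Subspace.finrank_add_finrank_dualAnnihilator_eq V'
      have h2 := Subspace.finrank_add_finrank_dualAnnihilator_eq W'
      have := hss _ _ (toDual V' W' hsub) ?_ ?_
      · exact (hr _ _ _ _ _ _ (by omega) (by omega)).2 this
      · rintro ⟨hA, hB⟩
        rw [eq_bot_iff_finrank] at hA hB
        apply hnt
        rw [eq_top_iff_finrank, eq_top_iff_finrank]
        omega
      · rintro ⟨hA, hB⟩
        rw [eq_top_iff_finrank, hdW] at hA
        rw [eq_top_iff_finrank, hdV] at hB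
        apply hnb
        rw [eq_bot_iff_finrank, eq_bot_iff_finrank]
        omega
  exact ⟨transfer (· ≤ ·) (fun dV dW x y a b hx hy => (arith_aux dV dW x y a b hx hy).1),
    transfer (· < ·) (fun dV dW x y a b hx hy => (arith_aux dV dW x y a b hx hy).2)⟩

end Groth.Agent.S15567
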