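import Groth.Statements.S15570
import Groth.Agent.Lib.Helper23.KronMod
-- import your own Groth.Agent.* helpers here

set_option autoImplicit false
universe u v w
open KronMod

namespace Groth.Agent.S15570

/-- Let f be a Kronecker module with n arrows over a field K, from V of dimension n·d₀ to W of dimension
d₀ > 0. Then f is stable if and only if f is semistable and d₀ = 1: for d₀ = 1 every semistable
module is stable (the stable locus of K(n; n, 1) is the one point), while for d₀ > 1 no module is
stable. This is the case dual to dimension vector (d₋₁, n·d₋₁). (The published statement assumes K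
algebraically closed of characteristic zero and n ≥ 2; this row allows any field K and any number n
of arrows.) -/
theorem result (K : Type u) [Field K] (V : Type v) (W : Type w)
    [AddCommGroup V] [Module K V] [FiniteDimensional K V]
    [AddCommGroup W] [Module K W] [FiniteDimensional K W]
    (n : ℕ) (f : Fin n → (V →ₗ[K] W))
    (hW : 0 < Module.finrank K W) (hV : Module.finrank K V = n * Module.finrank K W) :
    KronMod.IsStable f ↔ (KronMod.IsSemistable f ∧ Module.finrank K W = 1) := by
  
  open Groth.Agent.Lib.Helper23.Kron in
  constructor
  · intro hst
    have hss : KronMod.IsSemistable f := ⟨hst.1, fun V' W' h h1 h2 => (hst.2 V' W' h h1 h2).le⟩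
    refine ⟨hss, ?_⟩
    by_contra hne
    have hW2 : 2 ≤ Module.finrank K W := by omega
    have : Nontrivial W := Module.nontrivial_of_finrank_pos (R := K) hW
    obtain ⟨w, hw⟩ := exists_ne (0 : W)
    obtain ⟨φ, hφ⟩ : ∃ φ : Module.Dual K W, φ w ≠ 0 := by
      by_contra h
      push Not at h
      exact hw ((Module.forall_dual_apply_eq_zero_iff K w).1 h)
    let W' : Submodule K W := LinearMap.ker φ
    have hφr : Module.finrank K (LinearMap.range φ) = 1 := by
      have hle : Module.finrank K (LinearMap.range φ) ≤ 1 := by
        have := Submodule.finrank_le (LinearMap.range φ)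
        rwa [Module.finrank_self] at this
      have hne : LinearMap.range φ ≠ ⊥ := by
        intro h
        apply hφ
        have : φ w ∈ LinearMap.range φ := ⟨w, rfl⟩
        rw [h] at this
        exact this
      have : 0 < Module.finrank K (LinearMap.range φ) :=
        Nat.pos_of_ne_zero (fun h => hne (Submodule.finrank_eq_zero.1 h))
      omega
    have hW' : Module.finrank K W' + 1 = Module.finrank K W := by
      have := LinearMap.finrank_range_add_finrank_ker φ
      change _ + Module.finrank K W' = _ at this
      omega
    let G : V →ₗ[K] (Fin n → K) := LinearMap.pi fun j => φ ∘ₗ f j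
    let V' : Submodule K V := LinearMap.ker G
    have hV' : Module.finrank K V ≤ Module.finrank K V' + n := by
      have h1 := LinearMap.finrank_range_add_finrank_ker G
      change _ + Module.finrank K V' = _ at h1
      have h2 := Submodule.finrank_le (LinearMap.range G)
      rw [Module.finrank_fin_fun] at h2
      omega
    have hsub : KronMod.IsSubrep f V' W' := by
      intro j
      rintro _ ⟨v, hv, rfl⟩
      have : G v = 0 := hv
      have := congrFun this j
      simpa [G, W'] using this
    have hW'bot : W' ≠ ⊥ := by
      intro h
      rw [h, finrank_bot] at hW'
      omega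
    have hW'top : W' ≠ ⊤ := by
      intro h
      have : w ∈ W' := by rw [h]; trivial
      exact hφ this
    have := hst.2 V' W' hsub (fun h => hW'bot h.2) (fun h => hW'top h.2)
    rw [hV] at this
    -- finrank W * dim V' < n * finrank W * dim W'
    have h3 : n * (Module.finrank K W - 1) ≤ Module.finrank K V' := by
      rw [hV] at hV'
      have : n * Module.finrank K W = n * (Module.finrank K W - 1) + n := by
        rw [Nat.mul_sub_one, Nat.sub_add_cancel]
        exact Nat.le_mul_of_pos_right n (by omega)
      omega
    have h4 : Module.finrank K W' = Module.finrank K W - 1 := by omega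
    rw [h4] at this
    have h5 : Module.finrank K W * (n * (Module.finrank K W - 1)) ≤
        Module.finrank K W * Module.finrank K V' := Nat.mul_le_mul_left _ h3
    have h6 : n * Module.finrank K W * (Module.finrank K W - 1) =
        Module.finrank K W * (n * (Module.finrank K W - 1)) := by ring
    omega
  · rintro ⟨hss, h1⟩
    have hb := (isSemistable_iff_evalMap_bijective f hW hV).1 hss
    refine ⟨hss.1, ?_⟩
    intro V' W' hsub hnb hnt
    rcases eq_bot_or_eq_top_of_finrank_eq_one h1 W' with h | h
    · subst h
      exfalso
      apply hnb
      refine ⟨?_, rfl⟩
      rw [eq_bot_iff]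
      intro v hv
      have : evalMap f v = 0 := by
        funext j
        have := mapsTo_of_isSubrep hsub j hv
        simpa using this
      rw [Submodule.mem_bot]
      exact hb.1 (this.trans (map_zero _).symm)
    · subst h
      have hV'ne : V' ≠ ⊤ := fun h' => hnt ⟨h', rfl⟩
      have := Submodule.finrank_lt hV'ne
      rw [h1, finrank_top, h1, one_mul, mul_one]
      exact this

end Groth.Agent.S15570
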