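import Groth.Statements.S15573
import Mathlib
-- import your own Groth.Agent.* helpers here

set_option autoImplicit false
universe u v
open RInv

namespace Groth.Agent.S15573

/-- Let `R` be a commutative ring with an involution `lam` and let `S` be its fixed ring. If there is an
element `r` of `R` such that `r - lam r` is a unit, then `R` is a quadratic etale `S`-algebra. -/
theorem result (S : Type u) (R : Type v) [CommRing S] [CommRing R]
    [Algebra S R] (lam : R ≃+* R) (hlam : Function.Involutive lam) (hS : RInv.IsFixedRing S R lam)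
    (h : ∃ r : R, IsUnit (r - lam r)) : RInv.IsQuadEtale S R := by
  obtain ⟨r, hd⟩ := h
  set d := r - lam r with hd_def
  have hlamd : lam d = -d := by rw [hd_def, map_sub, hlam r, neg_sub]
  -- coefficients
  have hcoef : ∀ x : R, ∃ a b : S, algebraMap S R a + algebraMap S R b * r = x := by
    intro x
    set bx := (x - lam x) * ↑(hd.unit⁻¹) with hbx
    have hdinv : lam ↑(hd.unit⁻¹) = -↑(hd.unit⁻¹) := by
      have h1 : lam d * lam ↑(hd.unit⁻¹) = 1 := by
        rw [← map_mul, IsUnit.mul_val_inv, map_one]
      rw [hlamd] at h1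
      have h2 : d * ↑(hd.unit⁻¹) = 1 := IsUnit.mul_val_inv hd
      calc lam ↑(hd.unit⁻¹) = (d * ↑(hd.unit⁻¹)) * lam ↑(hd.unit⁻¹) := by rw [h2, one_mul]
        _ = -↑(hd.unit⁻¹) * (-d * lam ↑(hd.unit⁻¹)) := by ring
        _ = -↑(hd.unit⁻¹) := by rw [h1, mul_one]
    have hb : lam bx = bx := by
      rw [hbx, map_mul, map_sub, hlam x, hdinv]; ring
    obtain ⟨b, hb'⟩ := (hS.2 bx).1 hb
    have ha : lam (x - bx * r) = x - bx * r := by
      have hbd : bx * d = x - lam x := by
        rw [hbx, mul_assoc, IsUnit.val_inv_mul, mul_one]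
      rw [map_sub, map_mul, hb]
      have : lam r = r - d := by rw [hd_def]; ring
      rw [this]
      linear_combination hbd
    obtain ⟨a, ha'⟩ := (hS.2 _).1 ha
    exact ⟨a, b, by rw [ha', hb']; ring⟩
  have hli : LinearIndependent S ![(1 : R), r] := by
    rw [LinearIndependent.pair_iff]
    intro s t hst
    rw [Algebra.smul_def, Algebra.smul_def, mul_one] at hst
    have h1 := congrArg lam hst
    rw [map_add, map_mul, map_zero] at h1
    have hs' : lam (algebraMap S R s) = algebraMap S R s := (hS.2 _).2 ⟨s, rfl⟩
    have ht' : lam (algebraMap S R t) = algebraMap S R t := (hS.2 _).2 ⟨t, rfl⟩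
    rw [hs', ht'] at h1
    have htd : algebraMap S R t * d = 0 := by rw [hd_def]; linear_combination hst - h1
    have ht0 : algebraMap S R t = 0 := by
      have := congrArg (fun z : R => z * (↑(hd.unit⁻¹) : R)) htd
      simpa [mul_assoc, IsUnit.mul_val_inv] using this
    have hs0 : algebraMap S R s = 0 := by rw [ht0, zero_mul, add_zero] at hst; exact hst
    exact ⟨hS.1 (by rw [hs0, map_zero]), hS.1 (by rw [ht0, map_zero])⟩
  have hsp : ⊤ ≤ Submodule.span S (Set.range ![(1 : R), r]) := by
    intro x _
    obtain ⟨a, b, rfl⟩ := hcoef x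
    rw [← mul_one (algebraMap S R a), ← Algebra.smul_def, ← Algebra.smul_def]
    refine Submodule.add_mem _ (Submodule.smul_mem _ _ (Submodule.subset_span ⟨0, rfl⟩))
      (Submodule.smul_mem _ _ (Submodule.subset_span ⟨1, rfl⟩))
  let bas := Module.Basis.mk hli hsp
  have : Module.Free S R := Module.Free.of_basis bas
  have : Module.Finite S R := Module.Finite.of_basis bas
  refine ⟨inferInstance, inferInstance, ?_, ?_⟩
  · -- formally unramified: Ω = 0
    refine ⟨⟨fun ω ω' => ?_⟩⟩
    obtain ⟨t, ht⟩ := (hS.2 (r + lam r)).1 (by rw [map_add, hlam r, add_comm])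
    obtain ⟨n, hn⟩ := (hS.2 (r * lam r)).1 (by rw [map_mul, hlam r, mul_comm])
    have e : r * r = algebraMap S R t * r - algebraMap S R n := by rw [ht, hn]; ring
    have hD := congrArg (KaehlerDifferential.D S R) e
    rw [Derivation.leibniz, map_sub, Derivation.leibniz, Derivation.map_algebraMap,
      Derivation.map_algebraMap, smul_zero, add_zero, sub_zero] at hD
    have hdD : d • KaehlerDifferential.D S R r = 0 := by
      have e2 : d = r + r - algebraMap S R t := by rw [ht, hd_def]; ring
      rw [e2, sub_smul, add_smul, hD, sub_self]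
    have hDr : KaehlerDifferential.D S R r = 0 := by
      have := congrArg (fun z => (↑(hd.unit⁻¹) : R) • z) hdD
      simpa [smul_smul, IsUnit.val_inv_mul] using this
    have hall : ∀ x : R, KaehlerDifferential.D S R x = 0 := by
      intro x
      obtain ⟨a, b, rfl⟩ := hcoef x
      rw [map_add, Derivation.map_algebraMap, Derivation.leibniz, hDr,
        Derivation.map_algebraMap, smul_zero, smul_zero, add_zero, zero_add]
    have htop := KaehlerDifferential.span_range_derivation S R
    have hz : ∀ ω : Ω[R⁄S], ω = 0 := by
      intro ω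
      have hω : ω ∈ Submodule.span R (Set.range (KaehlerDifferential.D S R)) := by
        rw [htop]; trivial
      induction hω using Submodule.span_induction with
      | mem x hx => obtain ⟨y, rfl⟩ := hx; exact hall y
      | zero => rfl
      | add x y _ _ hx hy => rw [hx, hy, add_zero]
      | smul a x _ hx => rw [hx, smul_zero]
    rw [hz ω, hz ω']
  · intro p
    have : Nontrivial S := p.nontrivial
    rw [Module.rankAtStalk_eq_finrank_of_free, Module.finrank_eq_card_basis bas]
    simp

end Groth.Agent.S15573
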