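import Groth.Statements.S15581
import Mathlib
-- import your own Groth.Agent.* helpers here

set_option autoImplicit false
universe u v
open RInv

namespace Groth.Agent.S15581

/-- Let `A` be a commutative ring with an involution `lam` whose fixed ring `B` is local with `2`
invertible. Then `Jac(A)^2 ⊆ Jac(B) A`. -/
theorem result (B : Type u) (A : Type v) [CommRing B]
    [CommRing A] [Algebra B A] (lam : A ≃+* A) (hlam : Function.Involutive lam)
    (hB : RInv.IsFixedRing B A lam) [IsLocalRing B] (h2 : IsUnit (2 : B)) :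
    (Ring.jacobson A) ^ 2 ≤ (IsLocalRing.maximalIdeal B).map (algebraMap B A) := by
  set I := (IsLocalRing.maximalIdeal B).map (algebraMap B A) with hI
  rcases subsingleton_or_nontrivial A with hA | hA
  · intro x _
    rw [Subsingleton.elim x 0]
    exact I.zero_mem
  have hJlam : ∀ x ∈ Ring.jacobson A, lam x ∈ Ring.jacobson A := by
    intro x hx
    rw [← Ideal.jacobson_bot, Ideal.mem_jacobson_bot] at hx ⊢
    intro y
    have := (hx (lam.symm y)).map lam
    simpa [map_add, map_mul] using this
  have hBJ : ∀ b : B, algebraMap B A b ∈ Ring.jacobson A → b ∈ IsLocalRing.maximalIdeal B := by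
    intro b hb
    by_contra hbm
    have hu : IsUnit b := by
      rwa [IsLocalRing.mem_maximalIdeal, mem_nonunits_iff, not_not] at hbm
    have hu' := hu.map (algebraMap B A)
    rw [← Ideal.jacobson_bot, Ideal.mem_jacobson_bot] at hb
    have h0 := hb (-(↑(hu'.unit⁻¹) : A))
    rw [mul_neg, IsUnit.mul_val_inv, neg_add_cancel] at h0
    exact not_isUnit_zero h0
  have hsq : ∀ x ∈ Ring.jacobson A, x ^ 2 ∈ I := by
    intro x hx
    obtain ⟨s, hs⟩ := (hB.2 (x + lam x)).1 (by rw [map_add, hlam x, add_comm])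
    obtain ⟨n, hn⟩ := (hB.2 (x * lam x)).1 (by rw [map_mul, hlam x, mul_comm])
    have hsm : s ∈ IsLocalRing.maximalIdeal B :=
      hBJ s (by rw [hs]; exact add_mem hx (hJlam x hx))
    have hnm : n ∈ IsLocalRing.maximalIdeal B :=
      hBJ n (by rw [hn]; exact Ideal.mul_mem_right _ _ hx)
    have e : x ^ 2 = algebraMap B A s * x - algebraMap B A n := by
      rw [hs, hn]; ring
    rw [e]
    exact sub_mem (Ideal.mul_mem_right _ _ (Ideal.mem_map_of_mem _ hsm))
      (Ideal.mem_map_of_mem _ hnm)
  rw [sq]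
  refine Ideal.mul_le.2 fun x hx y hy => ?_
  have h2' : 2 * (x * y) ∈ I := by
    have e : 2 * (x * y) = (x + y) ^ 2 - x ^ 2 - y ^ 2 := by ring
    rw [e]
    exact sub_mem (sub_mem (hsq _ (add_mem hx hy)) (hsq x hx)) (hsq y hy)
  have hu := h2.map (algebraMap B A)
  rw [map_ofNat] at hu
  have e : x * y = ↑(hu.unit⁻¹) * (2 * (x * y)) := by
    rw [← mul_assoc, IsUnit.val_inv_mul, one_mul]
  rw [e]
  exact Ideal.mul_mem_left _ _ h2'

end Groth.Agent.S15581
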