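import Groth.Statements.S15594
import Mathlib
-- import your own Groth.Agent.* helpers here

set_option autoImplicit false
universe u
open TensorProduct
open AGF

namespace Groth.Agent.S15594

/-- Affine form. Let k ⊆ K be a field extension, A a commutative k-algebra and S a set of k-algebra
homomorphisms A → k (rational points of Spec A). The ideal ⋂_{σ ∈ S} ker σ cuts out the Zariski
closure of S with its reduced structure, and its extension to K ⊗_k A equals ⋂_{σ ∈ S} ker σ_K,
where σ_K : K ⊗_k A → K is the K-algebra map induced by σ. In words: the closure of a set of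
rational points is formed compatibly with extension of the ground field. (The published statement is
for schemes locally of finite type; this affine row assumes no finiteness, which the argument does
not use.) -/
theorem result (k K A : Type u) [Field k] [Field K] [Algebra k K]
    [CommRing A] [Algebra k A] (S : Set (A →ₐ[k] k)) :
    Ideal.map (Algebra.TensorProduct.includeRight : A →ₐ[k] K ⊗[k] A) (⨅ σ ∈ S, RingHom.ker σ) =
      ⨅ σ ∈ S, RingHom.ker ((Algebra.TensorProduct.rid k K K).toAlgHom.comp
        (Algebra.TensorProduct.map (AlgHom.id K K) σ)) := by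
  classical
  apply le_antisymm
  · rw [Ideal.map_le_iff_le_comap]
    intro a ha
    simp only [Submodule.mem_iInf, RingHom.mem_ker] at ha
    simp only [Ideal.mem_comap, Submodule.mem_iInf, RingHom.mem_ker]
    intro σ hσ
    simp [Algebra.TensorProduct.includeRight_apply, ha σ hσ]
  · intro x hx
    simp only [Submodule.mem_iInf, RingHom.mem_ker] at hx
    let b := Module.Free.chooseBasis k K
    obtain ⟨c, rfl⟩ := TensorProduct.eq_repr_basis_left b x
    have hcoef : ∀ i, c i ∈ ⨅ σ ∈ S, RingHom.ker σ := by
      intro i
      simp only [Submodule.mem_iInf, RingHom.mem_ker]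
      intro σ hσ
      have h := hx σ hσ
      simp only [Finsupp.sum, map_sum, AlgHom.coe_comp, Function.comp_apply,
        Algebra.TensorProduct.map_tmul, AlgHom.coe_id, id_eq,
        Algebra.TensorProduct.rid_tmul] at h
      by_cases hi : i ∈ c.support
      · exact linearIndependent_iff'.1 b.linearIndependent _ (fun j => σ (c j)) h i hi
      · rw [Finsupp.notMem_support_iff] at hi
        rw [hi, map_zero]
    refine Ideal.sum_mem _ fun i _ => ?_
    have : b i ⊗ₜ[k] (c i) = (b i ⊗ₜ[k] (1 : A)) * Algebra.TensorProduct.includeRight (c i) := by
      simp [Algebra.TensorProduct.tmul_mul_tmul]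
    show b i ⊗ₜ[k] (c i) ∈ _
    rw [this]
    exact Ideal.mul_mem_left _ _ (Ideal.mem_map_of_mem _ (hcoef i))

end Groth.Agent.S15594
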