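import Groth.Statements.S15605
import Mathlib
-- import your own Groth.Agent.* helpers here

set_option autoImplicit false
universe u
open TensorProduct
open AGF

namespace Groth.Agent.S15605

/-- Affine form. Let k be a field, A and A' finitely generated commutative k-algebras and S, S' sets of
k-algebra homomorphisms A → k, A' → k. The closure of a set of rational points of Spec A is cut out
by the intersection of their kernels. Compatibility of these closures with products: in A ⊗_k A',
the intersection over (σ, σ') ∈ S × S' of the kernels of σ ⊗ σ' : A ⊗_k A' → k equals the ideal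
generated by the images of ⋂_{σ} ker σ and of ⋂_{σ'} ker σ'. -/
theorem result (k A A' : Type u) [Field k] [CommRing A] [Algebra k A]
    [Algebra.FiniteType k A] [CommRing A'] [Algebra k A'] [Algebra.FiniteType k A']
    (S : Set (A →ₐ[k] k)) (S' : Set (A' →ₐ[k] k)) :
    (⨅ σ ∈ S, ⨅ σ' ∈ S', RingHom.ker ((Algebra.TensorProduct.lmul' (S := k) k).comp
        (Algebra.TensorProduct.map σ σ'))) =
      Ideal.map (Algebra.TensorProduct.includeLeft : A →ₐ[k] A ⊗[k] A') (⨅ σ ∈ S, RingHom.ker σ) ⊔
        Ideal.map (Algebra.TensorProduct.includeRight : A' →ₐ[k] A ⊗[k] A') (⨅ σ' ∈ S', RingHom.ker σ') := by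
  classical
  set I : Ideal A := ⨅ σ ∈ S, RingHom.ker σ with hI
  set I' : Ideal A' := ⨅ σ' ∈ S', RingHom.ker σ' with hI'
  let π := Ideal.Quotient.mkₐ k I
  let π' := Ideal.Quotient.mkₐ k I'
  have hker : RingHom.ker (Algebra.TensorProduct.map π π') =
      Ideal.map (Algebra.TensorProduct.includeLeft : A →ₐ[k] A ⊗[k] A') I ⊔
        Ideal.map (Algebra.TensorProduct.includeRight : A' →ₐ[k] A ⊗[k] A') I' := by
    have k1 : RingHom.ker (Ideal.Quotient.mkₐ k I) = I := by
      ext a; simp [RingHom.mem_ker, Ideal.Quotient.eq_zero_iff_mem]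
    have k2 : RingHom.ker (Ideal.Quotient.mkₐ k I') = I' := by
      ext a; simp [RingHom.mem_ker, Ideal.Quotient.eq_zero_iff_mem]
    rw [Algebra.TensorProduct.map_ker _ _ (Ideal.Quotient.mkₐ_surjective k I)
      (Ideal.Quotient.mkₐ_surjective k I'), k1, k2]
  have memI : ∀ a : A, a ∈ I ↔ ∀ σ ∈ S, σ a = 0 := by
    intro a; simp [hI, Submodule.mem_iInf, RingHom.mem_ker]
  have memI' : ∀ a : A', a ∈ I' ↔ ∀ σ' ∈ S', σ' a = 0 := by
    intro a; simp [hI', Submodule.mem_iInf, RingHom.mem_ker]
  rw [← hker]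
  apply le_antisymm
  · intro x hx
    simp only [Submodule.mem_iInf, RingHom.mem_ker] at hx
    rw [RingHom.mem_ker]
    let e := Module.Free.chooseBasis k (A' ⧸ I')
    obtain ⟨c, hc⟩ := TensorProduct.eq_repr_basis_right e (Algebra.TensorProduct.map π π' x)
    -- descended characters
    let σb : ∀ σ ∈ S, A ⧸ I →ₐ[k] k := fun σ hσ =>
      Ideal.Quotient.liftₐ I σ (fun a ha => (memI a).1 ha σ hσ)
    let σb' : ∀ σ' ∈ S', A' ⧸ I' →ₐ[k] k := fun σ' hσ' =>
      Ideal.Quotient.liftₐ I' σ' (fun a ha => (memI' a).1 ha σ' hσ')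
    have hσb : ∀ σ (hσ : σ ∈ S) (a : A), σb σ hσ (π a) = σ a := fun σ hσ a => rfl
    have hσb' : ∀ σ' (hσ' : σ' ∈ S') (a : A'), σb' σ' hσ' (π' a) = σ' a := fun σ' hσ' a => rfl
    have hcomp : ∀ σ (hσ : σ ∈ S) σ' (hσ' : σ' ∈ S'),
        ((Algebra.TensorProduct.lmul' (S := k) k).comp (Algebra.TensorProduct.map σ σ')) x =
          ∑ j ∈ c.support, σb σ hσ (c j) * σb' σ' hσ' (e j) := by
      intro σ hσ σ' hσ'
      have h1 : Algebra.TensorProduct.map σ σ' =
          (Algebra.TensorProduct.map (σb σ hσ) (σb' σ' hσ')).comp (Algebra.TensorProduct.map π π') := by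
        rw [← Algebra.TensorProduct.map_comp]
        congr 1
      rw [AlgHom.comp_apply, h1, AlgHom.comp_apply, ← hc, Finsupp.sum, map_sum, map_sum]
      refine Finset.sum_congr rfl fun j _ => ?_
      rw [Algebra.TensorProduct.map_tmul, Algebra.TensorProduct.lmul'_apply_tmul]
    have hcoef : ∀ j, c j = 0 := by
      intro j
      obtain ⟨g, hg⟩ := Ideal.Quotient.mkₐ_surjective k I (c j)
      rw [← hg]
      show π g = 0
      rw [Ideal.Quotient.mkₐ_eq_mk, Ideal.Quotient.eq_zero_iff_mem, memI]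
      intro σ hσ
      -- the element h_σ of A'/I'
      have hh : (∑ i ∈ c.support, σb σ hσ (c i) • e i) = 0 := by
        obtain ⟨h, hh⟩ := Ideal.Quotient.mkₐ_surjective k I' (∑ i ∈ c.support, σb σ hσ (c i) • e i)
        rw [← hh]
        show π' h = 0
        rw [Ideal.Quotient.mkₐ_eq_mk, Ideal.Quotient.eq_zero_iff_mem, memI']
        intro σ' hσ'
        have h2 := hx σ hσ σ' hσ'
        rw [hcomp σ hσ σ' hσ'] at h2
        rw [← hσb' σ' hσ', show π' h = _ from hh, map_sum]
        rw [← h2]
        refine Finset.sum_congr rfl fun i _ => ?_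
        rw [map_smul, smul_eq_mul]
      by_cases hj : j ∈ c.support
      · have := linearIndependent_iff'.1 e.linearIndependent _ (fun i => σb σ hσ (c i)) hh j hj
        rw [← hσb σ hσ, show π g = c j from hg]
        exact this
      · rw [Finsupp.notMem_support_iff] at hj
        rw [← hσb σ hσ, show π g = c j from hg, hj, map_zero]
    rw [← hc]
    simp [Finsupp.sum, hcoef]
  · intro x hx
    have hx' : x ∈ Ideal.map (Algebra.TensorProduct.includeLeft : A →ₐ[k] A ⊗[k] A') I ⊔
        Ideal.map (Algebra.TensorProduct.includeRight : A' →ₐ[k] A ⊗[k] A') I' := by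
      rw [← hker]; exact hx
    revert hx'
    apply (sup_le _ _ : _ ≤ ⨅ σ ∈ S, ⨅ σ' ∈ S', RingHom.ker ((Algebra.TensorProduct.lmul' (S := k) k).comp
        (Algebra.TensorProduct.map σ σ')))
    · rw [Ideal.map_le_iff_le_comap]
      intro a ha
      simp only [Ideal.mem_comap, Submodule.mem_iInf, RingHom.mem_ker]
      intro σ hσ σ' hσ'
      simp [(memI a).1 ha σ hσ]
    · rw [Ideal.map_le_iff_le_comap]
      intro a ha
      simp only [Ideal.mem_comap, Submodule.mem_iInf, RingHom.mem_ker]
      intro σ hσ σ' hσ'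
      simp [(memI' a).1 ha σ' hσ']

end Groth.Agent.S15605
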