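import Groth.Statements.S15610
import Groth.Agent.Lib.Helper23.SchFinLib
-- import your own Groth.Agent.* helpers here

set_option autoImplicit false
universe u
open SchFin SchFin.RSpace

namespace Groth.Agent.S15610

open SchFin in
/-- A schematic finite space is well-connected (the prime spectrum of its ring of global sections is
connected and the prime spectrum of the ring of each point is connected) if and only if its poset of
points is non-empty and connected and the prime spectrum of the ring of each point is connected. -/
theorem result (X : RSpace.{u})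
    (hX : X.IsSchematic) : X.IsWellConnected ↔ (X.IsTopConnected ∧ X.IsPwConnected) := by
  open Groth.Agent.Lib.Helper23.SchFinLib in
  have key_nt : X.IsPwConnected → ∀ p, Nontrivial (X.ring p) := fun h p =>
    ((connectedSpace_primeSpectrum_iff _).1 (h p)).1
  have evq : ∀ (r : X.pt) (a b : X.sectRing Set.univ), a = b →
      a.1 ⟨r, trivial⟩ = b.1 ⟨r, trivial⟩ := fun r a b h => by rw [h]
  constructor
  · rintro ⟨hC, hP⟩
    have hC' := (connectedSpace_primeSpectrum_iff _).1 hC
    refine ⟨⟨?_, ?_⟩, hP⟩
    · by_contra hne
      rw [not_nonempty_iff] at hne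
      obtain ⟨a, b, hab⟩ := hC'.1.exists_pair_ne
      apply hab
      apply Subtype.ext
      funext q
      exact (hne.false q.1).elim
    · intro p q
      by_contra hpq
      classical
      let P : X.pt → Prop := fun r => Relation.EqvGen (fun a b : X.pt => a ≤ b) p r
      have hPmono : ∀ r r' : X.pt, r ≤ r' → (P r ↔ P r') := fun r r' h =>
        ⟨fun hr => Relation.EqvGen.trans _ _ _ hr (Relation.EqvGen.rel _ _ h),
         fun hr' => Relation.EqvGen.trans _ _ _ hr'
          (Relation.EqvGen.symm _ _ (Relation.EqvGen.rel _ _ h))⟩
      let e : X.sectRing Set.univ := ⟨fun r => if P r.1 then 1 else 0, by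
        intro r r' h
        show X.res h (if P r.1 then 1 else 0) = if P r'.1 then 1 else 0
        by_cases hr : P r.1
        · rw [if_pos hr, if_pos ((hPmono _ _ h).1 hr), map_one]
        · rw [if_neg hr, if_neg (fun h' => hr ((hPmono _ _ h).2 h')), map_zero]⟩
      have he : IsIdempotentElem e := by
        apply Subtype.ext; funext r
        show (if P r.1 then (1 : X.ring r.1) else 0) * (if P r.1 then 1 else 0) =
          if P r.1 then 1 else 0
        split_ifs <;> simp
      rcases hC'.2 e he with h0 | h1
      · have hv := evq p _ _ h0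
        change (if P p then (1 : X.ring p) else 0) = 0 at hv
        rw [if_pos (Relation.EqvGen.refl p)] at hv
        have := key_nt hP p
        exact one_ne_zero hv
      · have hv := evq q _ _ h1
        change (if P q then (1 : X.ring q) else 0) = 1 at hv
        rw [if_neg hpq] at hv
        have := key_nt hP q
        exact zero_ne_one hv
  · rintro ⟨⟨⟨p₀⟩, hconn⟩, hP⟩
    refine ⟨?_, hP⟩
    show ConnectedSpace (PrimeSpectrum (X.sectRing Set.univ))
    rw [connectedSpace_primeSpectrum_iff]
    refine ⟨?_, fun e he => ?_⟩
    · have := key_nt hP p₀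
      refine ⟨⟨0, 1, fun h => ?_⟩⟩
      have hv := evq p₀ _ _ h
      exact zero_ne_one hv
    · have hpt : ∀ r : X.pt, e.1 ⟨r, trivial⟩ = 0 ∨ e.1 ⟨r, trivial⟩ = 1 := fun r =>
        ((connectedSpace_primeSpectrum_iff _).1 (hP r)).2 _ (evq r _ _ he.eq)
      have hz : ∀ r r' : X.pt, r ≤ r' → (e.1 ⟨r, trivial⟩ = 0 ↔ e.1 ⟨r', trivial⟩ = 0) := by
        intro r r' h
        have hc : X.res h (e.1 ⟨r, trivial⟩) = e.1 ⟨r', trivial⟩ :=
          e.2 ⟨r, trivial⟩ ⟨r', trivial⟩ h
        have := key_nt hP r'
        constructor
        · intro h0; rw [← hc, h0, map_zero]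
        · intro h0
          rcases hpt r with h1 | h1
          · exact h1
          · rw [h1, map_one] at hc
            exact absurd (hc.trans h0) one_ne_zero
      have hall' : ∀ a b : X.pt, Relation.EqvGen (fun a b : X.pt => a ≤ b) a b →
          (e.1 ⟨a, trivial⟩ = 0 ↔ e.1 ⟨b, trivial⟩ = 0) := by
        intro a b hab
        induction hab with
        | rel a b hab => exact hz a b hab
        | refl a => exact Iff.rfl
        | symm a b _ ih => exact ih.symm
        | trans a b c _ _ ih1 ih2 => exact ih1.trans ih2
      by_cases h0 : e.1 ⟨p₀, trivial⟩ = 0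
      · left
        apply Subtype.ext; funext r
        exact (hall' p₀ r.1 (hconn p₀ r.1)).1 h0
      · right
        apply Subtype.ext; funext r
        have : e.1 ⟨r.1, trivial⟩ ≠ 0 := fun h => h0 ((hall' p₀ r.1 (hconn p₀ r.1)).2 h)
        rcases hpt r.1 with h1 | h1
        · exact absurd h1 this
        · exact h1

end Groth.Agent.S15610
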