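import Groth.Statements.S15611
import Groth.Agent.Lib.Helper23.SchFinLib
-- import your own Groth.Agent.* helpers here

set_option autoImplicit false
universe u
open SchFin SchFin.RSpace

namespace Groth.Agent.S15611

open SchFin in
/-- In a schematic finite space, for points x ≤ y and a prime P of the ring of y, with Q its contraction
to the ring of x, the restriction map induces a bijection from the localization of the ring of x at
Q onto the localization of the ring of y at P. (Stated for the rings of the space themselves; the
published statement is the corresponding identification of localizations for the values of any
quasi-coherent algebra, which follows from this case by base change.) -/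
theorem result (X : RSpace.{u}) (hX : X.IsSchematic)
    {x y : X.pt} (h : x ≤ y) (P : Ideal (X.ring y)) [P.IsPrime] :
    Function.Bijective (Localization.localRingHom (P.comap (X.res h)) P (X.res h) rfl) :=
  Groth.Agent.Lib.Helper23.SchFinLib.localRingHom_bijective X hX h P _ rfl

end Groth.Agent.S15611
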