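import Groth.Statements.S15612
import Groth.Agent.Lib.Helper23.SchFinLib
-- import your own Groth.Agent.* helpers here

set_option autoImplicit false
universe u
open SchFin SchFin.RSpace SchFin.RSpace.Pair

namespace Groth.Agent.S15612

open SchFin in
/-- In a schematic finite space, for a pair (x, P) below a pair (y, Q) (x ≤ y and P the contraction of
the prime Q along the restriction map of rings) the induced map of residue fields from that of (x,
P) to that of (y, Q) is bijective. -/
theorem result (X : RSpace.{u}) (hX : X.IsSchematic) (a b : X.Pair)
    (h : a.1 ≤ b.1) (hp : PrimeSpectrum.comap (X.res h) b.2 = a.2) :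
    Function.Bijective (RSpace.Pair.κMap a b h hp) :=
  Groth.Agent.Lib.Helper23.SchFinLib.residueFieldMap_bijective X hX h b.2.asIdeal a.2.asIdeal
    (by rw [← hp]; rfl)

end Groth.Agent.S15612
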