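import Groth.Statements.S15613
import Groth.Agent.Lib.Helper23.SchFinPair
-- import your own Groth.Agent.* helpers here

set_option autoImplicit false
universe u
open SchFin SchFin.GeomPt

namespace Groth.Agent.S15613

open SchFin in
/-- For a geometric point of a schematic finite space with values in an algebraically closed field,
hitting the point x with ring map from the ring of x to the field, the kernel of that ring map does
not lift to any point strictly above x: no prime of the ring of such a point contracts to it along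
the restriction map. -/
theorem result (X : RSpace.{u}) (hX : X.IsSchematic) {Ω : Type u} [Field Ω]
    [IsAlgClosed Ω] (ξ : GeomPt X Ω) {x' : X.pt} (hx : ξ.base < x') (P : Ideal (X.ring x')) [P.IsPrime] :
    P.comap (X.res hx.le) ≠ RingHom.ker ξ.toField := by
  open Groth.Agent.Lib.Helper23.SchFinLib Groth.Agent.Lib.Helper23.SchFinPair TensorProduct in
  intro hP
  obtain ⟨-, -, hcond⟩ := ξ.isSchematic
  letI := (X.res hx.le).toAlgebra
  letI : Algebra (X.ring ξ.base) Ω := ξ.toField.toAlgebra
  let φ := Coef.ofHom ξ.hom ξ.base (ξ.hom.wedge PUnit.unit ξ.base)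
    (ξ.hom.wedge_subset_pre _ _)
  let φ' := Coef.ofHom ξ.hom x' (ξ.hom.wedge PUnit.unit x') (ξ.hom.wedge_subset_pre _ _)
  letI : Module (X.ring ξ.base) (H φ' (RSpace.point Ω).str 0) := Module.compHom _ (X.res hx.le)
  haveI : IsScalarTower (X.ring ξ.base) (X.ring x') (H φ' (RSpace.point Ω).str 0) :=
    IsScalarTower.of_algebraMap_smul fun _ _ => rfl
  let Fl : H φ (RSpace.point Ω).str 0 →ₗ[X.ring ξ.base] H φ' (RSpace.point Ω).str 0 :=
    { toFun := resH (RSpace.point Ω).str (ξ.hom.subTgt PUnit.unit hx.le) 0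
      map_add' := (resH (RSpace.point Ω).str (ξ.hom.subTgt PUnit.unit hx.le) 0).map_add
      map_smul' := (resH (RSpace.point Ω).str (ξ.hom.subTgt PUnit.unit hx.le) 0).map_smulₛₗ }
  have hBC : IsBaseChange (X.ring x') Fl := (hcond 0 PUnit.unit PUnit.unit le_rfl ξ.base x' hx.le).2
  -- the target cohomology vanishes: no point of the source lies over `x'`
  have hN : Subsingleton (H φ' (RSpace.point Ω).str 0) := by
    have hempty : ∀ q : (RSpace.point Ω).pt, q ∉ ξ.hom.wedge PUnit.unit x' :=
      fun q hq => hx.not_ge hq.2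
    haveI : IsEmpty (Chain (ξ.hom.wedge PUnit.unit x') 0) := ⟨fun σ => hempty _ (σ 0).2⟩
    haveI hC : Subsingleton (Cochain φ' (RSpace.point Ω).str 0) :=
      ⟨fun a b => funext fun σ => isEmptyElim σ⟩
    refine ⟨fun a b => ?_⟩
    obtain ⟨a, rfl⟩ := Submodule.Quotient.mk_surjective _ a
    obtain ⟨b, rfl⟩ := Submodule.Quotient.mk_surjective _ b
    congr 1
    exact Subtype.ext (Subsingleton.elim _ _)
  haveI : Subsingleton (X.ring x' ⊗[X.ring ξ.base] H φ (RSpace.point Ω).str 0) :=
    hBC.equiv.toEquiv.subsingleton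
  -- evaluation at the point of the source
  have hpt : PUnit.unit ∈ ξ.hom.wedge PUnit.unit ξ.base := ⟨le_rfl, le_rfl⟩
  let σ₀ : Chain (ξ.hom.wedge PUnit.unit ξ.base) 0 := pointChain ⟨PUnit.unit, hpt⟩
  let evC : cocycles φ (RSpace.point Ω).str 0 →ₗ[X.ring ξ.base] Ω :=
    { toFun := fun c => c.1 σ₀
      map_add' := fun _ _ => rfl
      map_smul' := fun a c => by
        have e : φ.map (σ₀ (Fin.last 0)) a = ξ.toField a := by
          exact congrArg (ξ.hom.app PUnit.unit) (X.res_self ξ.base a)
        show φ.map (σ₀ (Fin.last 0)) a • c.1 σ₀ = @HMul.hMul Ω Ω Ω _ (ξ.toField a) (c.1 σ₀)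
        rw [e]; rfl }
  let ev : H φ (RSpace.point Ω).str 0 →ₗ[X.ring ξ.base] Ω :=
    Submodule.liftQ _ evC (by
      intro c hc
      have hc' : c.1 = 0 := by
        have : (c : Cochain φ (RSpace.point Ω).str 0) ∈
          (⊥ : Submodule (X.ring ξ.base) (Cochain φ (RSpace.point Ω).str 0)) := hc
        exact (Submodule.mem_bot _).1 this
      show c.1 σ₀ = 0
      rw [hc']; rfl)
  have hev : Function.Surjective ev := by
    intro ω
    let c : Cochain φ (RSpace.point Ω).str 0 := fun _ => ω
    have hc : c ∈ cocycles φ (RSpace.point Ω).str 0 := by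
      show diff φ (RSpace.point Ω).str 0 c = 0
      funext σ
      exfalso
      have h01 : σ 0 = σ 1 := Subtype.ext (Subsingleton.elim (α := PUnit) _ _)
      exact absurd (σ.injective h01) (by decide)
    exact ⟨Submodule.Quotient.mk ⟨c, hc⟩, rfl⟩
  haveI : Subsingleton (X.ring x' ⊗[X.ring ξ.base] Ω) := by
    refine ⟨fun t t' => ?_⟩
    obtain ⟨u, rfl⟩ := LinearMap.lTensor_surjective (X.ring x') hev t
    obtain ⟨u', rfl⟩ := LinearMap.lTensor_surjective (X.ring x') hev t'
    rw [Subsingleton.elim u u']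
  have hcomap : P.comap (algebraMap (X.ring ξ.base) (X.ring x')) =
      (⊥ : Ideal Ω).comap (algebraMap (X.ring ξ.base) Ω) := by
    rw [← RingHom.ker_eq_comap_bot]
    exact hP
  obtain ⟨M, hM, -, -⟩ := exists_prime_tensor P (⊥ : Ideal Ω) hcomap
  exact hM.ne_top (Subsingleton.elim _ _)

end Groth.Agent.S15613
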