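import Groth.Statements.S15614
import Groth.Agent.Lib.Helper23.SchFinPair
-- import your own Groth.Agent.* helpers here

set_option autoImplicit false
universe u
open SchFin SchFin.RSpace

namespace Groth.Agent.S15614

open SchFin in
/-- In a schematic finite space, let x and y be points above a common point s, P a prime of the ring of
x and Q a prime of the ring of y whose contractions to the ring of s agree. Then the pairs (x, P)
and (y, Q) are related: some point above both x and y carries a prime contracting to P and to Q.
(The published statement does not carry the hypothesis that, for every two points that lie above a
common point and whose minimal open sets meet, the product of the rings over the intersection of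
these minimal open sets is faithfully flat over the ring of sections on it; the published proof
obtains this fact from properties of affine schematic spaces recalled there without proof, and this
row carries it explicitly.) -/
theorem result (X : RSpace.{u}) (hX : X.IsSchematic)
    (hff : ∀ s a b : X.pt, s ≤ a → s ≤ b → (X.up a ∩ X.up b).Nonempty →
      Module.FaithfullyFlat (X.sectRing (X.up a ∩ X.up b)) ((q : ↥(X.up a ∩ X.up b)) → X.ring q.1))
    {s x y : X.pt} (hx : s ≤ x) (hy : s ≤ y) (P : PrimeSpectrum (X.ring x)) (Q : PrimeSpectrum (X.ring y))
    (hPQ : PrimeSpectrum.comap (X.res hx) P = PrimeSpectrum.comap (X.res hy) Q) :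
    X.PairRel ⟨x, P⟩ ⟨y, Q⟩ :=
  Groth.Agent.Lib.Helper23.SchFinPair.pairRel_of X hX hff hx hy P Q hPQ

end Groth.Agent.S15614
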