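import Groth.Statements.S15615
import Groth.Agent.Lib.Helper23.SchFinPair
-- import your own Groth.Agent.* helpers here

set_option autoImplicit false
universe u
open SchFin SchFin.RSpace

namespace Groth.Agent.S15615

open SchFin in
/-- In a schematic finite space, the relation on pairs (a point together with a prime of its ring) under
which two pairs are related when some pair at a point above both restricts to each of them is an
equivalence relation. (The published statement does not carry the hypothesis that, for every two
points that lie above a common point and whose minimal open sets meet, the product of the rings over
the intersection of these minimal open sets is faithfully flat over the ring of sections on it; the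
published proof obtains this fact from properties of affine schematic spaces recalled there without
proof, and this row carries it explicitly.) -/
theorem result (X : RSpace.{u}) (hX : X.IsSchematic)
    (hff : ∀ s a b : X.pt, s ≤ a → s ≤ b → (X.up a ∩ X.up b).Nonempty →
      Module.FaithfullyFlat (X.sectRing (X.up a ∩ X.up b)) ((q : ↥(X.up a ∩ X.up b)) → X.ring q.1)) :
    Equivalence X.PairRel :=
  Groth.Agent.Lib.Helper23.SchFinPair.pairRel_equivalence X hX hff

end Groth.Agent.S15615
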