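import Groth.Statements.S15616
import Groth.Agent.Lib.Helper23.SchFinPair
-- import your own Groth.Agent.* helpers here

set_option autoImplicit false
universe u
open SchFin SchFin.RSpace

namespace Groth.Agent.S15616

open SchFin in
/-- In a schematic finite space every schematic point, that is, every class of pairs (a point with a
prime of its ring), has exactly one representative whose point lies above the points of all
representatives of the class. (The published statement does not carry the hypothesis that, for every
two points that lie above a common point and whose minimal open sets meet, the product of the rings
over the intersection of these minimal open sets is faithfully flat over the ring of sections on it;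
the published proof obtains this fact from properties of affine schematic spaces recalled there
without proof, and this row carries it explicitly.) -/
theorem result (X : RSpace.{u}) (hX : X.IsSchematic)
    (hff : ∀ s a b : X.pt, s ≤ a → s ≤ b → (X.up a ∩ X.up b).Nonempty →
      Module.FaithfullyFlat (X.sectRing (X.up a ∩ X.up b)) ((q : ↥(X.up a ∩ X.up b)) → X.ring q.1))
    (c : X.SchPt) :
    ∃! a : X.Pair, Quot.mk X.PairRel a = c ∧ ∀ b : X.Pair, Quot.mk X.PairRel b = c → b.1 ≤ a.1 :=
  Groth.Agent.Lib.Helper23.SchFinPair.schPt_unique_max X hX hff c

end Groth.Agent.S15616
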