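import Groth.Statements.S15624
-- import your own Groth.Agent.* helpers here

set_option autoImplicit false
universe u
open SchFin SchFin.FEt

namespace Groth.Agent.S15624

open SchFin CategoryTheory in
/-- Over a schematic finite space, a morphism of étale covers which is surjective at every point is an
epimorphism in the category of étale covers. -/
theorem result (X : RSpace.{u}) (hX : X.IsSchematic) {A B : FEt X} (f : A ⟶ B)
    (hf : ∀ p : X.pt, Function.Surjective (f.hom.app p)) : Epi f := by
  constructor
  intro Z g₁ g₂ hg
  apply ObjectProperty.hom_ext
  apply Alg.hom_ext
  intro p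
  apply AlgHom.ext
  intro a
  obtain ⟨b, rfl⟩ := hf p a
  have := congrArg (fun k : A ⟶ Z => k.hom.app p b) hg
  exact this

end Groth.Agent.S15624
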