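import Groth.Statements.S15634
import Groth.Agent.Lib.Helper23.SchFinLib
-- import your own Groth.Agent.* helpers here

set_option autoImplicit false
universe u
open SchFin SchFin.RSpace

namespace Groth.Agent.S15634

open SchFin in
/-- In a schematic finite space the restriction maps of rings along x ≤ y are epimorphisms of rings: two
ring maps out of the ring of y into a commutative ring which agree after composition with the
restriction map from the ring of x are equal. (The published statement also asserts flatness of the
restriction maps, which here is part of the standing finite-space condition, and a second clause for
affine spaces recalled without proof; only the epimorphism clause, the degree-zero case of the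
schematic condition, is stated.) -/
theorem result (X : RSpace.{u}) (hX : X.IsSchematic) {x y : X.pt} (h : x ≤ y)
    {T : Type u} [CommRing T] (g₁ g₂ : X.ring y →+* T) (hg : g₁.comp (X.res h) = g₂.comp (X.res h)) :
    g₁ = g₂ :=
  Groth.Agent.Lib.Helper23.SchFinLib.res_epi X hX h g₁ g₂ hg

end Groth.Agent.S15634
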