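import Groth.Statements.S15706
import Mathlib
-- import your own Groth.Agent.* helpers here

set_option autoImplicit false
universe u
open CAlg

namespace Groth.Agent.S15706

/-- Let A be a Noetherian ring with Serre's property (S_1), stated here in the equivalent form that
every associated prime of A is a minimal prime of A. Let I be an ideal of A and b an element of A/I
which is regular (a non-zero-divisor) in A/I. Then b is the image of a regular element of A. -/
theorem result (A : Type u) [CommRing A]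
    [IsNoetherianRing A] (hS1 : ∀ p ∈ associatedPrimes A A, p ∈ minimalPrimes A) (I : Ideal A)
    (b : A ⧸ I) (hb : b ∈ nonZeroDivisors (A ⧸ I)) :
    ∃ a : A, a ∈ nonZeroDivisors A ∧ Ideal.Quotient.mk I a = b := by
  classical
  obtain ⟨b0, rfl⟩ := Ideal.Quotient.mk_surjective b
  have hreg : ∀ a : A, (∀ p ∈ minimalPrimes A, a ∉ p) → a ∈ nonZeroDivisors A := by
    intro a ha
    by_contra hna
    have : a ∈ (nonZeroDivisors A : Set A)ᶜ := hna
    rw [← biUnion_associatedPrimes_eq_compl_nonZeroDivisors] at this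
    simp only [Set.mem_iUnion] at this
    obtain ⟨p, hp, hap⟩ := this
    exact ha p (hS1 p hp) hap
  have hc : ∀ p ∈ minimalPrimes A, I ≤ p → b0 ∉ p := by
    intro p hp hIp hb0
    have hpmin : p ∈ (Module.annihilator A (A ⧸ I)).minimalPrimes := by
      rw [Ideal.annihilator_quotient]
      exact ⟨⟨hp.1.1, hIp⟩, fun q hq hqp => hp.2 ⟨hq.1, bot_le⟩ hqp⟩
    have hass := Module.associatedPrimes.minimalPrimes_annihilator_subset_associatedPrimes A (A ⧸ I) hpmin
    have hmem : b0 ∈ ⋃ p ∈ associatedPrimes A (A ⧸ I), (p : Set A) := Set.mem_biUnion hass hb0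
    rw [biUnion_associatedPrimes_eq_zero_divisors] at hmem
    obtain ⟨x, hx0, hx⟩ := hmem
    have hx' : Ideal.Quotient.mk I b0 * x = 0 := by
      rw [Algebra.smul_def] at hx
      exact hx
    exact hx0 ((mem_nonZeroDivisors_iff.1 hb).1 x hx')
  have hfin := minimalPrimes.finite_of_isNoetherianRing A
  let T : Finset (Ideal A) := hfin.toFinset.filter (fun q => ¬ I ≤ q ∧ b0 ∉ q)
  let s : Set (Ideal A) := {p | p ∈ minimalPrimes A ∧ ¬ I ≤ p ∧ b0 ∈ p}
  have hsfin : s.Finite := hfin.subset (fun p hp => hp.1)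
  let J : Ideal A := I ⊓ T.inf id
  have hJ : ¬ ((J : Set A) ⊆ ⋃ p ∈ s, (p : Set A)) := by
    rw [Ideal.subset_union_prime_finite hsfin ⊥ ⊥ (fun p hp _ _ => hp.1.1.1)]
    rintro ⟨p, hp, hJp⟩
    have hpp : p.IsPrime := hp.1.1.1
    rcases hpp.inf_le.1 hJp with h | h
    · exact hp.2.1 h
    · obtain ⟨q, hqT, hqp⟩ := (hpp.inf_le').1 h
      simp only [T, Finset.mem_filter, Set.Finite.mem_toFinset] at hqT
      have := hp.1.2 ⟨hqT.1.1.1, bot_le⟩ hqp
      exact hqT.2.2 (this hp.2.2)
  simp only [Set.subset_def, not_forall] at hJ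
  obtain ⟨i, hiJ, his⟩ := hJ
  have hiI : i ∈ I := (Submodule.mem_inf.1 hiJ).1
  have hiT : i ∈ T.inf id := (Submodule.mem_inf.1 hiJ).2
  refine ⟨b0 + i, hreg _ ?_, ?_⟩
  · intro p hp hbip
    by_cases hIp : I ≤ p
    · exact hc p hp hIp (by have := p.sub_mem hbip (hIp hiI); simpa using this)
    · by_cases hb0p : b0 ∈ p
      · apply his
        exact Set.mem_biUnion (show p ∈ s from ⟨hp, hIp, hb0p⟩)
          (by have := p.sub_mem hbip hb0p; simpa using this)
      · have hip : i ∈ p := by
          have hle : T.inf id ≤ p := Finset.inf_le (f := id)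
            (by simp only [T, Finset.mem_filter, Set.Finite.mem_toFinset]; exact ⟨hp, hIp, hb0p⟩)
          exact hle hiT
        exact hb0p (by have := p.sub_mem hbip hip; simpa using this)
  · rw [map_add, Ideal.Quotient.eq_zero_iff_mem.2 hiI, add_zero]

end Groth.Agent.S15706
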