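import Groth.Statements.S15707
import Groth.Agent.S15706
-- import your own Groth.Agent.* helpers here

set_option autoImplicit false
universe u
open CAlg

namespace Groth.Agent.S15707

/-- Let A be a Noetherian ring with Serre's property (S_1), stated here as: every associated prime of A
is a minimal prime. Let I be an ideal and B = A/I. Then the B-module Hom_A(B, A), with B acting
through the source, is torsion-free: an A-linear map φ : B → A which is killed by a regular element
b of B, in the sense that φ(b x) = 0 for all x, is zero. -/
theorem result (A : Type u) [CommRing A]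
    [IsNoetherianRing A] (hS1 : ∀ p ∈ associatedPrimes A A, p ∈ minimalPrimes A) (I : Ideal A)
    (φ : (A ⧸ I) →ₗ[A] A) (b : A ⧸ I) (hb : b ∈ nonZeroDivisors (A ⧸ I))
    (h : ∀ x : A ⧸ I, φ (b * x) = 0) : φ = 0 := by
  obtain ⟨a, ha, rfl⟩ := Groth.Agent.S15706.result A hS1 I b hb
  refine LinearMap.ext fun x => ?_
  have h1 : φ (Ideal.Quotient.mk I a * x) = a * φ x := by
    have : Ideal.Quotient.mk I a * x = a • x := by
      rw [Algebra.smul_def]; rfl
    rw [this, map_smul, smul_eq_mul]
  have h2 := h x
  rw [h1] at h2
  exact (mem_nonZeroDivisors_iff.1 ha).1 _ h2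

end Groth.Agent.S15707
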