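import Groth.Statements.S15771
import Mathlib.Tactic
-- import your own Groth.Agent.* helpers here

set_option autoImplicit false
universe u
open TensorProduct
open CAlg

namespace Groth.Agent.S15771

/-- For a ring map B₀ → B with dense image into a topological ring B, a finitely generated B₀-module M₀
and any topological B-module structure on M = B ⊗_{B₀} M₀, the natural map M₀ → M has dense image. -/
theorem result (B₀ B : Type u) [CommRing B₀] [CommRing B] [Algebra B₀ B]
    [TopologicalSpace B] [IsTopologicalRing B] (hφ : DenseRange (algebraMap B₀ B))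
    (M₀ : Type u) [AddCommGroup M₀] [Module B₀ M₀] [Module.Finite B₀ M₀]
    [TopologicalSpace (B ⊗[B₀] M₀)] [IsTopologicalAddGroup (B ⊗[B₀] M₀)] [ContinuousSMul B (B ⊗[B₀] M₀)] :
    DenseRange (fun m : M₀ => (1 : B) ⊗ₜ[B₀] m) := by
  
  obtain ⟨n, f, hf⟩ := Module.Finite.exists_fin (R := B₀) (M := M₀)
  let g : (Fin n → B) → B ⊗[B₀] M₀ := fun b => ∑ i, b i • ((1 : B) ⊗ₜ[B₀] f i)
  have hgc : Continuous g := by
    refine continuous_finsetSum _ fun i _ => ?_
    exact ((continuous_apply i : Continuous fun b : Fin n → B => b i)).smul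
      (continuous_const : Continuous fun _ : Fin n → B => ((1 : B) ⊗ₜ[B₀] f i))
  -- every `1 ⊗ m` is in the range of `g`
  have hsub : ∀ m : M₀, ∃ b : Fin n → B, g b = (1 : B) ⊗ₜ[B₀] m := by
    intro m
    have hm : m ∈ Submodule.span B₀ (Set.range f) := by rw [hf]; trivial
    induction hm using Submodule.span_induction with
    | mem x hx =>
      obtain ⟨j, rfl⟩ := hx
      refine ⟨Pi.single j 1, ?_⟩
      simp only [g]
      rw [Finset.sum_eq_single j]
      · simp
      · intro k _ hk; simp [hk]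
      · intro h; exact absurd (Finset.mem_univ j) h
    | zero => exact ⟨0, by simp [g]⟩
    | add x y _ _ hx hy =>
      obtain ⟨b₁, hb₁⟩ := hx
      obtain ⟨b₂, hb₂⟩ := hy
      refine ⟨b₁ + b₂, ?_⟩
      simp only [g, Pi.add_apply, add_smul, Finset.sum_add_distrib] at hb₁ hb₂ ⊢
      rw [hb₁, hb₂, TensorProduct.tmul_add]
    | smul c x _ hx =>
      obtain ⟨b, hb⟩ := hx
      refine ⟨fun i => algebraMap B₀ B c * b i, ?_⟩
      simp only [g, mul_smul] at hb ⊢
      rw [← Finset.smul_sum, hb, TensorProduct.tmul_smul, algebraMap_smul]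
  have hgs : Function.Surjective g := by
    intro x
    induction x using TensorProduct.induction_on with
    | zero => exact ⟨0, by simp [g]⟩
    | tmul c m =>
      obtain ⟨b, hb⟩ := hsub m
      refine ⟨fun i => c * b i, ?_⟩
      simp only [g, mul_smul] at hb ⊢
      rw [← Finset.smul_sum, hb, TensorProduct.smul_tmul', smul_eq_mul, mul_one]
    | add x y hx hy =>
      obtain ⟨b₁, hb₁⟩ := hx
      obtain ⟨b₂, hb₂⟩ := hy
      refine ⟨b₁ + b₂, ?_⟩
      simp only [g, Pi.add_apply, add_smul, Finset.sum_add_distrib] at hb₁ hb₂ ⊢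
      rw [hb₁, hb₂]
  have hd : DenseRange (g ∘ Pi.map (fun _ : Fin n => (algebraMap B₀ B))) :=
    hgs.denseRange.comp (DenseRange.piMap (fun _ => hφ)) hgc
  refine Dense.mono ?_ hd
  rintro _ ⟨c, rfl⟩
  refine ⟨∑ i, c i • f i, ?_⟩
  simp only [Function.comp_apply, g, Pi.map_apply, TensorProduct.tmul_sum, TensorProduct.tmul_smul]
  refine Finset.sum_congr rfl fun i _ => ?_
  rw [algebraMap_smul]

end Groth.Agent.S15771
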