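import Groth.Statements.S15790
import Mathlib.Tactic
-- import your own Groth.Agent.* helpers here

set_option autoImplicit false
universe u v
open WildQuot

namespace Groth.Agent.S15790

/-- Let `A` be a local ring with maximal ideal `m`, let a finite group `G` act on `A` by ring
automorphisms, and let `u_1, …, u_n` generate `m`. Let `x_i = ∏_{σ ∈ G} σ u_i` be the norm of `u_i`.
Then `(x_1, …, x_n)` is `m`-primary (its radical contains `m`) if and only if, for every choice of
`σ_1, …, σ_n ∈ G`, the ideal `(σ_1 u_1, …, σ_n u_n)` is `m`-primary, i.e. the system `u` is weakly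
admissible. (The published statement is for a complete regular local ring of dimension `n`
containing a field of representatives fixed by `G`; this row assumes only that `A` is local.) -/
theorem result
    (A : Type u) [CommRing A] [IsLocalRing A]
    (G : Type v) [Group G] [Fintype G] [MulSemiringAction G A]
    (n : ℕ) (u : Fin n → A) (hu : Ideal.span (Set.range u) = IsLocalRing.maximalIdeal A) :
    IsLocalRing.maximalIdeal A ≤ (Ideal.span (Set.range fun i => ∏ σ : G, σ • u i)).radical ↔
      ∀ τ : Fin n → G,
        IsLocalRing.maximalIdeal A ≤ (Ideal.span (Set.range fun i => τ i • u i)).radical := by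
  
  classical
  constructor
  · intro h τ
    refine h.trans (Ideal.radical_mono ?_)
    rw [Ideal.span_le]
    rintro _ ⟨i, rfl⟩
    have hmem : τ i • u i ∈ Ideal.span (Set.range fun i => τ i • u i) :=
      Ideal.subset_span ⟨i, rfl⟩
    have : ∏ σ : G, σ • u i = (τ i • u i) * ∏ σ ∈ Finset.univ.erase (τ i), σ • u i := by
      rw [Finset.mul_prod_erase Finset.univ (fun σ : G => σ • u i) (Finset.mem_univ (τ i))]
    show ∏ σ : G, σ • u i ∈ _
    rw [this]
    exact Ideal.mul_mem_right _ _ hmem
  · intro h
    rw [Ideal.radical_eq_sInf]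
    refine le_sInf ?_
    rintro P ⟨hP, hPprime⟩
    have hex : ∀ i, ∃ σ : G, σ • u i ∈ P := by
      intro i
      have hx : ∏ σ : G, σ • u i ∈ P := hP (Ideal.subset_span ⟨i, rfl⟩)
      obtain ⟨σ, -, hσ⟩ := (Ideal.IsPrime.prod_mem_iff (p := P)).1 hx
      exact ⟨σ, hσ⟩
    choose τ hτ using hex
    refine (h τ).trans ?_
    rw [Ideal.radical_eq_sInf]
    refine sInf_le ⟨?_, hPprime⟩
    rw [Ideal.span_le]
    rintro _ ⟨i, rfl⟩
    exact hτ i

end Groth.Agent.S15790
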