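import Groth.Statements.S15796
import Mathlib.Tactic
import Mathlib.RingTheory.Ideal.KrullsHeightTheorem
-- import your own Groth.Agent.* helpers here

set_option autoImplicit false
universe u v
open WildQuot

namespace Groth.Agent.S15796

/-- Let `A` be a Noetherian local ring of Krull dimension `n` whose maximal ideal `m` is generated by
`u_1, …, u_n`, and let a finite group `G` act on `A` by ring automorphisms. If some `σ ∈ G` maps
some `u_i` into the ideal generated by the `u_j` with `j ≠ i`, then the system `u` is not weakly
admissible: for some choice `σ_1, …, σ_n ∈ G` the radical of `(σ_1 u_1, …, σ_n u_n)` does not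
contain `m`. (The published statement is for a linear action on `k[[u_1, …, u_n]]` whose matrix has
a zero diagonal entry; this row assumes instead that some `σ u_i` lies in the ideal generated by the
other `u_j`.) -/
theorem result
    (A : Type u) [CommRing A] [IsLocalRing A] [IsNoetherianRing A]
    (G : Type v) [Group G] [Finite G] [MulSemiringAction G A]
    (n : ℕ) (hn : ringKrullDim A = n) (u : Fin n → A)
    (hu : Ideal.span (Set.range u) = IsLocalRing.maximalIdeal A)
    (σ : G) (i : Fin n) (hσ : σ • u i ∈ Ideal.span (u '' {j | j ≠ i})) :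
    ∃ τ : Fin n → G,
      ¬ IsLocalRing.maximalIdeal A ≤ (Ideal.span (Set.range fun j => τ j • u j)).radical := by
  
  classical
  set m := IsLocalRing.maximalIdeal A with hm
  let J : Ideal A := Ideal.span (u '' {j | j ≠ i})
  refine ⟨Function.update (fun _ => (1 : G)) i σ, ?_⟩
  intro hle
  have hτJ : Ideal.span (Set.range fun j => Function.update (fun _ => (1 : G)) i σ j • u j) ≤ J := by
    rw [Ideal.span_le]
    rintro _ ⟨j, rfl⟩
    by_cases hj : j = i
    · subst hj
      simp only [Function.update_self]
      exact hσ
    · simp only [Function.update_of_ne hj, one_smul]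
      exact Ideal.subset_span ⟨j, hj, rfl⟩
  have hmJ : m ≤ J.radical := hle.trans (Ideal.radical_mono hτJ)
  have hJm : J ≤ m := by
    rw [← hu]
    exact Ideal.span_mono (Set.image_subset_range _ _)
  have hmin : m ∈ J.minimalPrimes := by
    refine ⟨⟨IsLocalRing.maximalIdeal.isMaximal A |>.isPrime, hJm⟩, ?_⟩
    rintro P ⟨hP, hJP⟩ _
    exact hmJ.trans ((Ideal.radical_mono hJP).trans_eq hP.radical)
  let s : Finset A := (Finset.univ.erase i).image u
  have hs : (s : Set A) = u '' {j | j ≠ i} := by
    ext x
    simp [s]
  have hmin' : m ∈ (Ideal.span (s : Set A)).minimalPrimes := by rw [hs]; exact hmin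
  have hh := Ideal.height_le_card_of_mem_minimalPrimes_span_finset hmin'
  have hcard : s.card ≤ n - 1 := by
    refine (Finset.card_image_le).trans ?_
    rw [Finset.card_erase_of_mem (Finset.mem_univ _), Finset.card_univ, Fintype.card_fin]
  have hmh : (m.height : WithBot ℕ∞) = n := by
    rw [hm, IsLocalRing.maximalIdeal_height_eq_ringKrullDim, hn]
  have hmh' : m.height = n := by exact_mod_cast hmh
  rw [hmh'] at hh
  have hn1 : 1 ≤ n := Nat.one_le_iff_ne_zero.mpr (fun h => by subst h; exact i.elim0)
  have : (n : ℕ∞) ≤ ((n - 1 : ℕ) : ℕ∞) := hh.trans (by exact_mod_cast hcard)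
  have : n ≤ n - 1 := by exact_mod_cast this
  omega

end Groth.Agent.S15796
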