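import Groth.Statements.S15811
import Mathlib.Tactic
import Mathlib.FieldTheory.Finite.Basic
import Mathlib.RingTheory.IntegralClosure.IntegrallyClosed
-- import your own Groth.Agent.* helpers here

set_option autoImplicit false
universe u
open WildQuot

namespace Groth.Agent.S15811

/-- Let `R` be an integrally closed domain of prime characteristic `p` with fraction field `K`, and `α ∈
R`. Then `α ≠ 0` and the polynomial `T ^ p - α T` splits into linear factors over `K` — which says
that the finite flat group scheme `Spec R[T]/(T ^ p - α T)` of order `p` has constant generic fibre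
(its `p` roots are then distinct) — if and only if `α = a ^ (p-1)` for some nonzero `a ∈ R`. (The
published statement is that the generic fibre of the finite flat group scheme of order `p` with
parameters `α, β` satisfying `α β = 0`, whose underlying scheme is `Spec R[T]/(T ^ p - α T)`, is
constant if and only if `β = 0` and `α` is the `(p-1)`-th power of a nonzero element of `R`; this
row states the polynomial condition, in which `α ≠ 0` already forces `β = 0` over a domain.) -/
theorem result
    (p : ℕ) [Fact p.Prime] (R : Type u) [CommRing R] [IsDomain R] [IsIntegrallyClosed R]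
    [CharP R p] (α : R) :
    (α ≠ 0 ∧ (Polynomial.map (algebraMap R (FractionRing R))
        (Polynomial.X ^ p - Polynomial.C α * Polynomial.X)).Splits) ↔
      ∃ a : R, a ≠ 0 ∧ α = a ^ (p - 1) := by
  
  classical
  set K := FractionRing R
  have hinj : Function.Injective (algebraMap R K) := IsFractionRing.injective R K
  have hp2 : 2 ≤ p := (Fact.out : p.Prime).two_le
  have : CharP K p := charP_of_injective_algebraMap hinj p
  have hmap : Polynomial.map (algebraMap R K) (Polynomial.X ^ p - Polynomial.C α * Polynomial.X) =
      Polynomial.X * (Polynomial.X ^ (p - 1) - Polynomial.C (algebraMap R K α)) := by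
    simp only [Polynomial.map_sub, Polynomial.map_pow, Polynomial.map_X, Polynomial.map_mul,
      Polynomial.map_C]
    rw [mul_sub, ← pow_succ', Nat.sub_add_cancel (by omega), mul_comm Polynomial.X]
  rw [hmap, Polynomial.splits_X_mul]
  constructor
  · rintro ⟨hα, hs⟩
    have hdeg : Polynomial.degree (Polynomial.X ^ (p - 1) - Polynomial.C (algebraMap R K α)) ≠ 0 := by
      rw [Polynomial.degree_X_pow_sub_C (by omega)]
      exact_mod_cast (show p - 1 ≠ 0 by omega)
    obtain ⟨b, hb⟩ := hs.exists_eval_eq_zero hdeg
    simp only [Polynomial.eval_sub, Polynomial.eval_pow, Polynomial.eval_X, Polynomial.eval_C,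
      sub_eq_zero] at hb
    have hint : IsIntegral R b := by
      refine ⟨Polynomial.X ^ (p - 1) - Polynomial.C α, Polynomial.monic_X_pow_sub_C _ (by omega), ?_⟩
      rw [Polynomial.eval₂_sub, Polynomial.eval₂_X_pow, Polynomial.eval₂_C, hb]
      exact sub_self _
    obtain ⟨a, ha⟩ := (IsIntegrallyClosed.isIntegral_iff (R := R) (K := K)).1 hint
    refine ⟨a, ?_, ?_⟩
    · rintro rfl
      apply hα
      apply hinj
      rw [← hb, ← ha, map_zero, zero_pow (by omega)]
    · apply hinj
      rw [map_pow, ha, hb]
  · rintro ⟨a, ha, rfl⟩
    refine ⟨pow_ne_zero _ ha, ?_⟩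
    set a' := algebraMap R K a with ha'
    have ha'0 : a' ≠ 0 := by
      rw [ha']; exact (map_ne_zero_iff _ hinj).2 ha
    rw [map_pow]
    set f := Polynomial.X ^ (p - 1) - Polynomial.C (a' ^ (p - 1)) with hf
    have hf0 : f ≠ 0 := Polynomial.X_pow_sub_C_ne_zero (by omega) _
    have hfdeg : f.natDegree = p - 1 := Polynomial.natDegree_X_pow_sub_C
    rw [Polynomial.splits_iff_card_roots, hfdeg]
    refine le_antisymm (hfdeg ▸ Polynomial.card_roots' f) ?_
    -- the nonzero roots `c * a'` for `c ∈ (ZMod p)ˣ`
    let T : Finset K := (Finset.univ.filter (fun c : ZMod p => c ≠ 0)).image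
      (fun c => ZMod.castHom (dvd_refl p) K c * a')
    have hTcard : T.card = p - 1 := by
      rw [Finset.card_image_of_injective]
      · rw [Finset.filter_ne' , Finset.card_erase_of_mem (Finset.mem_univ _), Finset.card_univ,
          ZMod.card]
      · intro c₁ c₂ h
        have := mul_right_cancel₀ ha'0 h
        exact (ZMod.castHom (dvd_refl p) K).injective this
    have hTroots : T.val ≤ f.roots := by
      rw [Multiset.le_iff_subset T.nodup]
      intro x hx
      simp only [Finset.mem_val, T, Finset.mem_image, Finset.mem_filter, Finset.mem_univ,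
        true_and] at hx
      obtain ⟨c, hc, rfl⟩ := hx
      rw [Polynomial.mem_roots hf0, Polynomial.IsRoot, hf]
      simp only [Polynomial.eval_sub, Polynomial.eval_pow, Polynomial.eval_X, Polynomial.eval_C]
      have hcp : (ZMod.castHom (dvd_refl p) K c) ^ (p - 1) = 1 := by
        rw [← map_pow, ZMod.pow_card_sub_one_eq_one hc, map_one]
      rw [mul_pow, hcp, one_mul, sub_self]
    calc p - 1 = T.card := hTcard.symm
      _ = Multiset.card T.val := rfl
      _ ≤ Multiset.card f.roots := Multiset.card_le_card hTroots

end Groth.Agent.S15811
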