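import Groth.Statements.S15817
import Mathlib.Tactic
import Mathlib.Algebra.Category.ModuleCat.Limits
import Mathlib.CategoryTheory.Limits.Types.Pullbacks
-- import your own Groth.Agent.* helpers here

set_option autoImplicit false
universe u v
open CategoryTheory
open CAlg

namespace Groth.Agent.S15817

/-- Let A be a commutative ring, M an A-module and P, Q submodules of M. Then the commuting square of
quotient projections with corners M/(P ∩ Q), M/P, M/Q and M/(P + Q) is cartesian in the category of
A-modules: M/(P ∩ Q) is the fibre product of M/P and M/Q over M/(P + Q). -/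
theorem result (A : Type u) [CommRing A] (M : Type v) [AddCommGroup M] [Module A M]
    (P Q : Submodule A M) :
    IsPullback (ModuleCat.ofHom (Submodule.factor (inf_le_left : P ⊓ Q ≤ P)))
      (ModuleCat.ofHom (Submodule.factor (inf_le_right : P ⊓ Q ≤ Q)))
      (ModuleCat.ofHom (Submodule.factor (le_sup_left : P ≤ P ⊔ Q)))
      (ModuleCat.ofHom (Submodule.factor (le_sup_right : Q ≤ P ⊔ Q))) := by
  
  refine IsPullback.of_map_of_faithful (forget (ModuleCat.{v} A)) ?_
  rw [CategoryTheory.Limits.Types.isPullback_iff]
  refine ⟨?_, ?_, ?_⟩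
  · ext x
    obtain ⟨x, rfl⟩ := Submodule.Quotient.mk_surjective _ x
    rfl
  · rintro x y ⟨h1, h2⟩
    obtain ⟨x, rfl⟩ := Submodule.Quotient.mk_surjective _ x
    obtain ⟨y, rfl⟩ := Submodule.Quotient.mk_surjective _ y
    change Submodule.Quotient.mk x = Submodule.Quotient.mk y at h1
    change Submodule.Quotient.mk x = Submodule.Quotient.mk y at h2
    change Submodule.Quotient.mk x = Submodule.Quotient.mk y
    rw [Submodule.Quotient.eq] at h1 h2 ⊢
    exact ⟨h1, h2⟩
  · intro x y hxy
    obtain ⟨x, rfl⟩ := Submodule.Quotient.mk_surjective _ x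
    obtain ⟨y, rfl⟩ := Submodule.Quotient.mk_surjective _ y
    change Submodule.Quotient.mk x = Submodule.Quotient.mk y at hxy
    rw [Submodule.Quotient.eq, Submodule.mem_sup] at hxy
    obtain ⟨a, ha, b, hb, hab⟩ := hxy
    refine ⟨Submodule.Quotient.mk (x - a), ?_, ?_⟩
    · change Submodule.Quotient.mk (x - a) = Submodule.Quotient.mk x
      rw [Submodule.Quotient.eq]
      simpa using P.neg_mem ha
    · change Submodule.Quotient.mk (x - a) = Submodule.Quotient.mk y
      rw [Submodule.Quotient.eq]
      have : x - a - y = b := by rw [sub_sub, add_comm a y, ← sub_sub, ← hab]; abel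
      rw [this]; exact hb

end Groth.Agent.S15817
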