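import Groth.Statements.S15835
import Mathlib.Tactic
import Mathlib.Algebra.Polynomial.Expand
import Mathlib.Algebra.CharP.Lemmas
import Mathlib.NumberTheory.Padics.PadicVal.Basic
import Mathlib.LinearAlgebra.Matrix.Charpoly.Basic
-- import your own Groth.Agent.* helpers here

set_option autoImplicit false
universe u
open SprIso

namespace Groth.Agent.S15835

/-- Over a commutative ring R of prime characteristic p, let n ≥ 1 and let p^m be the largest power of p
dividing n. The locus of n × n matrices with characteristic polynomial t^n is stable under adding a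
scalar matrix a·1 with n·a = 0 exactly when a^(p^m) = 0: for X with characteristic polynomial t^n
and such an a, the matrix X + a·1 has characteristic polynomial t^n if and only if a^(p^m) = 0.
(Stated on points with values in an arbitrary ring of characteristic p; the scheme-theoretic
assertion about the nilpotent scheme of SL_n is this statement for all such rings.) -/
theorem result (p : ℕ) [Fact p.Prime] (R : Type u) [CommRing R]
    [CharP R p] (n : ℕ) (hn : 0 < n) (X : Matrix (Fin n) (Fin n) R) (hX : X.charpoly = Polynomial.X ^ n)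
    (a : R) (ha : (n : R) * a = 0) :
    (X + Matrix.scalar (Fin n) a).charpoly = Polynomial.X ^ n ↔ a ^ (p ^ padicValNat p n) = 0 := by
  
  have hp : p.Prime := Fact.out
  set m := padicValNat p n with hm
  have hdvd : p ^ m ∣ n := pow_padicValNat_dvd
  obtain ⟨k, hk⟩ := hdvd
  have hkp : ¬ p ∣ k := by
    rintro ⟨j, rfl⟩
    apply pow_succ_padicValNat_not_dvd (p := p) hn.ne'
    rw [← hm, hk]
    exact ⟨j, by ring⟩
  have hk0 : 0 < k := by
    rcases Nat.eq_zero_or_pos k with h | h
    · rw [h, mul_zero] at hk; omega
    · exact h
  have hpm : 0 < p ^ m := pow_pos hp.pos m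
  -- charpoly of `X + a`
  have hchar : (X + Matrix.scalar (Fin n) a).charpoly =
      Polynomial.expand R (p ^ m) ((Polynomial.X + Polynomial.C ((-a) ^ (p ^ m))) ^ k) := by
    have : X + Matrix.scalar (Fin n) a = X - Matrix.scalar (Fin n) (-a) := by
      rw [map_neg, sub_neg_eq_add]
    rw [this, Matrix.charpoly_sub_scalar, hX, Polynomial.X_pow_comp, hk, pow_mul,
      add_pow_char_pow, map_pow, map_add, Polynomial.expand_X, Polynomial.expand_C,
      ← Polynomial.C_pow]
  have hXn : (Polynomial.X : Polynomial R) ^ n = Polynomial.expand R (p ^ m) (Polynomial.X ^ k) := by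
    rw [map_pow, Polynomial.expand_X, ← pow_mul, hk]
  rw [hchar, hXn, Polynomial.expand_inj hpm]
  -- `(-a)^(p^m) = 0 ↔ a^(p^m) = 0`
  have hneg : (-a) ^ (p ^ m) = 0 ↔ a ^ (p ^ m) = 0 := by
    rw [neg_pow]
    constructor
    · intro h
      have := congrArg (fun t => (-1 : R) ^ (p ^ m) * t) h
      simp only [mul_zero, ← mul_pow, neg_one_mul, neg_neg] at this
      exact this
    · intro h; rw [h, mul_zero]
  rw [← hneg]
  set c := (-a) ^ (p ^ m)
  constructor
  · intro h
    have h1 := congrArg (fun f => Polynomial.coeff f (k - 1)) h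
    simp only [Polynomial.coeff_X_add_C_pow, Polynomial.coeff_X_pow] at h1
    rw [if_neg (by omega), show k - (k - 1) = 1 by omega, pow_one,
      Nat.choose_symm_of_eq_add (show k = (k - 1) + 1 by omega), Nat.choose_one_right] at h1
    -- `(k : R)` is a unit
    have hkunit : IsUnit (k : R) := by
      have hz : (k : ZMod p) ≠ 0 := by
        rw [Ne, ZMod.natCast_eq_zero_iff]; exact hkp
      have := (IsUnit.mk0 _ hz).map (ZMod.castHom (dvd_refl p) R)
      simpa using this
    exact (hkunit.mul_left_eq_zero).1 h1
  · intro h
    rw [h, map_zero, add_zero]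

end Groth.Agent.S15835
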