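import Groth.Statements.S15840
import Mathlib.Tactic
import Mathlib.Algebra.CharP.Lemmas
import Mathlib.NumberTheory.Padics.PadicVal.Basic
import Mathlib.Algebra.Polynomial.Coeff
-- import your own Groth.Agent.* helpers here

set_option autoImplicit false
universe u
open SprIso

namespace Groth.Agent.S15840

/-- For G = SL_n (n = r + 1) over a field of characteristic p > 0, write n = m p^e with m prime to p, so
that the identity component of the centre of G is μ_{p^e} embedded diagonally. The character of the
i-th exterior power of the standard representation takes the value C(n, i) α^i at a point α of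
μ_{p^e}, and this is constant: for every commutative ring R of characteristic p and every α in R
with α^(p^e) = 1 one has C(n, i) α^i = C(n, i) in R, for all i. -/
theorem result (p : ℕ) [Fact p.Prime] (R : Type u) [CommRing R]
    [CharP R p] (n : ℕ) (hn : 0 < n) (α : R) (hα : α ^ (p ^ padicValNat p n) = 1) (i : ℕ) :
    (n.choose i : R) * α ^ i = (n.choose i : R) := by
  
  obtain ⟨m, hm⟩ := (pow_padicValNat_dvd : p ^ padicValNat p n ∣ n)
  set e := padicValNat p n
  have key : ((1 : Polynomial R) + Polynomial.C α * Polynomial.X) ^ n = (1 + Polynomial.X) ^ n := by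
    rw [hm, pow_mul, pow_mul, add_pow_char_pow, add_pow_char_pow, one_pow, mul_pow,
      ← Polynomial.C_pow, hα, Polynomial.C_1, one_mul]
  have h := congrArg (fun f => Polynomial.coeff f i) key
  simp only [Polynomial.coeff_one_add_X_pow] at h
  have hL : (((1 : Polynomial R) + Polynomial.C α * Polynomial.X) ^ n).coeff i =
      α ^ i * (n.choose i : R) := by
    rw [add_comm, add_pow]
    simp only [one_pow, mul_one, Polynomial.finsetSum_coeff, mul_pow, ← Polynomial.C_pow]
    rw [Finset.sum_eq_single i]
    · rw [mul_comm (Polynomial.C (α ^ i)), mul_assoc, ← Polynomial.C_eq_natCast, ← Polynomial.C_mul,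
        Polynomial.coeff_X_pow_mul', if_pos le_rfl, Nat.sub_self, Polynomial.coeff_C_zero, mul_comm]
    · intro j _ hj
      rw [mul_comm (Polynomial.C (α ^ j)), mul_assoc, ← Polynomial.C_eq_natCast, ← Polynomial.C_mul,
        Polynomial.coeff_X_pow_mul']
      split_ifs with hji
      · rw [Polynomial.coeff_C, if_neg (by omega)]
      · rfl
    · intro hi
      rw [Finset.mem_range, not_lt] at hi
      rw [mul_comm (Polynomial.C (α ^ i)), mul_assoc, ← Polynomial.C_eq_natCast, ← Polynomial.C_mul,
        Polynomial.coeff_X_pow_mul', if_pos le_rfl, Nat.sub_self, Polynomial.coeff_C_zero]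
      rcases Nat.lt_or_ge n i with h' | h'
      · rw [Nat.choose_eq_zero_of_lt h', Nat.cast_zero, mul_zero]
      · omega
  rw [hL] at h
  rw [mul_comm]
  exact h

end Groth.Agent.S15840
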