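import Groth.Statements.S15845
import Mathlib.Tactic
-- import your own Groth.Agent.* helpers here

set_option autoImplicit false
universe u
open SprIso

namespace Groth.Agent.S15845

/-- General linear group case: this is the case G = GL_n with its upper-triangular Borel subgroup B
(derived group SL_n simply connected, all primes good, so the hypotheses on the characteristic
hold), together with the companion statement for a regular nilpotent element of Lie B. Let k be a
field and u an n × n upper-triangular matrix over k whose diagonal entries are all equal and whose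
superdiagonal entries u_{i,i+1} are all non-zero — for diagonal 1 this is a regular unipotent
element of B(k), for diagonal 0 a regular nilpotent element of Lie B. Then the centralizer of u in
GL_n is contained in B and is the product of the centre with the centralizer in the unipotent
radical: for every commutative k-algebra R and every invertible x ∈ M_n(R) commuting with u_R, x is
upper triangular and its diagonal entries are all equal. (The smoothness of the centralizer in the
unipotent radical, also part of the published statement, is not stated here.) -/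
theorem result (k : Type u) [Field k] (n : ℕ)
    (u : Matrix (Fin n) (Fin n) k) (htri : ∀ i j : Fin n, j < i → u i j = 0) (hdiag : ∀ i j : Fin n, u i i = u j j)
    (hreg : ∀ (i j : Fin n), j.val = i.val + 1 → u i j ≠ 0)
    (R : Type u) [CommRing R] [Algebra k R] (x : Matrix (Fin n) (Fin n) R) (hx : IsUnit x)
    (hxu : x * u.map (algebraMap k R) = u.map (algebraMap k R) * x) :
    (∀ i j : Fin n, j < i → x i j = 0) ∧ (∀ i j : Fin n, x i i = x j j) := by
  classical
  set U := u.map (algebraMap k R) with hU
  have hUlow : ∀ i j : Fin n, j < i → U i j = 0 := by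
    intro i j h; simp [hU, htri i j h]
  have hUdiag : ∀ i j : Fin n, U i i = U j j := by
    intro i j; simp [hU, hdiag i j]
  have hUreg : ∀ i j : Fin n, j.val = i.val + 1 → IsUnit (U i j) := by
    intro i j h
    simp only [hU, Matrix.map_apply]
    exact (Ne.isUnit (hreg i j h)).map (algebraMap k R)
  have hentry : ∀ i j : Fin n, (x * U) i j = (U * x) i j := fun i j => by rw [hxu]
  have key : ∀ (b a : ℕ) (ha : a < n) (hb : b < a), x ⟨a, ha⟩ ⟨b, hb.trans ha⟩ = 0 := by
    intro b
    induction b using Nat.strong_induction_on with
    | _ b ihb =>
    intro a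
    induction h : n - a using Nat.strong_induction_on generalizing a with
    | _ t iht =>
    intro ha hb
    have ha1 : a - 1 < n := by omega
    set A : Fin n := ⟨a, ha⟩ with hA
    set A1 : Fin n := ⟨a - 1, ha1⟩ with hA1
    set B : Fin n := ⟨b, hb.trans ha⟩ with hB
    have hA1A : A1 ≠ A := by
      intro h; have := congrArg Fin.val h; simp [hA, hA1] at this; omega
    have hL : (x * U) A1 B = x A1 B * U B B := by
      rw [Matrix.mul_apply]
      refine Fintype.sum_eq_single B fun c hc => ?_
      rcases lt_or_gt_of_ne hc with h1 | h1
      · have := ihb c.val h1 (a - 1) ha1 (by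
          have : c.val < b := h1
          omega)
        simp only [hA1] at this ⊢
        rw [show (⟨c.val, _⟩ : Fin n) = c from rfl] at this
        rw [this, zero_mul]
      · rw [hUlow c B h1, mul_zero]
    have hR : (U * x) A1 B = U A1 A1 * x A1 B + U A1 A * x A B := by
      rw [Matrix.mul_apply]
      refine Fintype.sum_eq_add A1 A hA1A fun c ⟨hc1, hc2⟩ => ?_
      rcases lt_or_gt_of_ne hc1 with h1 | h1
      · rw [hUlow A1 c h1, zero_mul]
      · have hcA : A < c := by
          have h1' : a - 1 < c.val := h1
          have h2' : c.val ≠ a := fun h => hc2 (Fin.ext h)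
          show a < c.val
          omega
        have hcb : b < c.val := by
          have : a < c.val := hcA
          omega
        have := iht (n - c.val) (by have : a < c.val := hcA; omega) c.val rfl c.isLt hcb
        rw [show (⟨c.val, c.isLt⟩ : Fin n) = c from rfl] at this
        rw [this, mul_zero]
    have heq := hentry A1 B
    rw [hL, hR, hUdiag B A1] at heq
    have h0 : U A1 A * x A B = 0 := by linear_combination -heq
    have hu := hUreg A1 A (by simp [hA, hA1]; omega)
    exact (hu.mul_right_eq_zero).1 h0
  have hlow : ∀ i j : Fin n, j < i → x i j = 0 := by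
    intro i j hij
    exact key j.val i.val i.isLt hij
  refine ⟨hlow, ?_⟩
  have hstep : ∀ (a : ℕ) (ha : a + 1 < n),
      x ⟨a + 1, ha⟩ ⟨a + 1, ha⟩ = x ⟨a, by omega⟩ ⟨a, by omega⟩ := by
    intro a ha
    set A : Fin n := ⟨a + 1, ha⟩ with hA
    set A1 : Fin n := ⟨a, by omega⟩ with hA1
    have hA1A : A1 ≠ A := by
      intro h; have := congrArg Fin.val h; simp [hA, hA1] at this
    have hL : (x * U) A1 A = x A1 A1 * U A1 A + x A1 A * U A A := by
      rw [Matrix.mul_apply]
      refine Fintype.sum_eq_add A1 A hA1A fun c ⟨hc1, hc2⟩ => ?_
      rcases lt_or_gt_of_ne hc1 with h1 | h1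
      · rw [hlow A1 c h1, zero_mul]
      · have hcA : A < c := by
          have h1' : a < c.val := h1
          have h2' : c.val ≠ a + 1 := fun h => hc2 (Fin.ext h)
          show a + 1 < c.val
          omega
        rw [hUlow c A hcA, mul_zero]
    have hR : (U * x) A1 A = U A1 A1 * x A1 A + U A1 A * x A A := by
      rw [Matrix.mul_apply]
      refine Fintype.sum_eq_add A1 A hA1A fun c ⟨hc1, hc2⟩ => ?_
      rcases lt_or_gt_of_ne hc1 with h1 | h1
      · rw [hUlow A1 c h1, zero_mul]
      · have hcA : A < c := by
          have h1' : a < c.val := h1
          have h2' : c.val ≠ a + 1 := fun h => hc2 (Fin.ext h)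
          show a + 1 < c.val
          omega
        rw [hlow c A hcA, mul_zero]
    have heq := hentry A1 A
    rw [hL, hR, hUdiag A A1] at heq
    have h0 : U A1 A * (x A1 A1 - x A A) = 0 := by linear_combination heq
    have hu := hUreg A1 A (by simp [hA, hA1])
    have := (hu.mul_right_eq_zero).1 h0
    exact (sub_eq_zero.1 this).symm
  have hall : ∀ (a : ℕ) (ha : a < n), x ⟨a, ha⟩ ⟨a, ha⟩ = x ⟨0, by omega⟩ ⟨0, by omega⟩ := by
    intro a
    induction a with
    | zero => intro ha; rfl
    | succ a ih => intro ha; rw [hstep a ha, ih]
  intro i j
  rw [hall i.val i.isLt, hall j.val j.isLt]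

end Groth.Agent.S15845
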