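import Groth.Statements.S15847
import Mathlib.Tactic
-- import your own Groth.Agent.* helpers here

set_option autoImplicit false
open Surf

namespace Groth.Agent.S15847

/-- Let x, b, a_1, …, a_8 be integers with a_1^2 + ⋯ + a_8^2 = x + b^2 and -(a_1 + ⋯ + a_8) = x - 2 +
3b. If b = 1 or b = 2, then every a_i is 0 or -1, and the number of indices i with a_i = -1 is x +
b^2 (that is, x + 1 of them when b = 1 and x + 4 when b = 2; up to permutation these are all the
solutions). -/
theorem result (x b : ℤ) (a : Fin 8 → ℤ)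
    (h1 : ∑ i, a i ^ 2 = x + b ^ 2) (h2 : -(∑ i, a i) = x - 2 + 3 * b) (hb : b = 1 ∨ b = 2) :
    (∀ i, a i = 0 ∨ a i = -1) ∧ ((Finset.univ.filter (fun i => a i = -1)).card : ℤ) = x + b ^ 2 := by
  
  have hsum : ∑ i, a i * (a i + 1) = 0 := by
    have : ∑ i, a i * (a i + 1) = ∑ i, a i ^ 2 + ∑ i, a i := by
      rw [← Finset.sum_add_distrib]; congr 1; ext i; ring
    rw [this, h1]
    rcases hb with rfl | rfl <;> linarith
  have hnn : ∀ i, 0 ≤ a i * (a i + 1) := by
    intro i
    rcases le_or_gt 0 (a i) with h | h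
    · positivity
    · nlinarith
  have hz : ∀ i, a i * (a i + 1) = 0 := by
    intro i
    have := (Finset.sum_eq_zero_iff_of_nonneg (fun i _ => hnn i)).1 hsum i (Finset.mem_univ _)
    exact this
  have h01 : ∀ i, a i = 0 ∨ a i = -1 := by
    intro i
    rcases mul_eq_zero.1 (hz i) with h | h
    · exact Or.inl h
    · exact Or.inr (by linarith)
  refine ⟨h01, ?_⟩
  rw [← h1]
  have : ∀ i, a i ^ 2 = if a i = -1 then 1 else 0 := by
    intro i
    rcases h01 i with h | h <;> simp [h]
  simp_rw [this]
  rw [Finset.sum_boole]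

end Groth.Agent.S15847
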