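import Groth.Statements.S16014
import Mathlib.Algebra.BigOperators.Ring.Finset
import Mathlib.Algebra.BigOperators.Group.Finset.Sigma
import Mathlib.Tactic.Ring
import Mathlib.Tactic.Linarith

set_option autoImplicit false
universe u

open W4c3ghconstell

namespace Groth.Agent.S16014

open Finset

theorem key (A : ℤ → ℚ) (N M : ℤ) :
    ∑ n ∈ Icc (-N) M, (n : ℚ) * A n =
      ∑ n ∈ Icc (-N + 1) M, (∑ m ∈ Icc n M, A m) - (N : ℚ) * (∑ m ∈ Icc (-N) M, A m) := by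
  have h1 : ∑ n ∈ Icc (-N + 1) M, (∑ m ∈ Icc n M, A m) =
      ∑ m ∈ Icc (-N + 1) M, ∑ n ∈ Icc (-N + 1) m, A m := by
    apply Finset.sum_comm'
    intro x y
    simp only [Finset.mem_Icc]
    omega
  have h2 : ∀ m ∈ Icc (-N + 1) M, ∑ n ∈ Icc (-N + 1) m, A m = ((m : ℚ) + N) * A m := by
    intro m hm
    rw [Finset.mem_Icc] at hm
    rw [Finset.sum_const, Int.card_Icc, nsmul_eq_mul]
    congr 1
    have : (m + 1 - (-N + 1)).toNat = m + N := by
      rw [Int.toNat_of_nonneg (by omega)]; ring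
    have h3 : (((m + 1 - (-N + 1)).toNat : ℤ) : ℚ) = ((m + N : ℤ) : ℚ) := by rw [this]
    push_cast at h3
    exact h3
  rw [h1, Finset.sum_congr rfl h2]
  have h4 : ∑ m ∈ Icc (-N + 1) M, ((m : ℚ) + N) * A m = ∑ m ∈ Icc (-N) M, ((m : ℚ) + N) * A m := by
    apply Finset.sum_subset
    · intro x hx
      simp only [Finset.mem_Icc] at hx ⊢
      omega
    · intro x hx hx'
      simp only [Finset.mem_Icc] at hx hx'
      have : x = -N := by omega
      subst this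
      push_cast
      ring
  rw [h4, Finset.mul_sum, ← Finset.sum_sub_distrib]
  apply Finset.sum_congr rfl
  intro x _
  ring

theorem result {τ : Type u} [Fintype τ] (d : ℤ → τ → ℕ) (φ : τ → ℚ) (N M : ℤ)
    (hN : ∀ n, n < -N → d n = 0) (hM : ∀ n, M < n → d n = 0) :
    ∑ n ∈ Finset.Icc (-N) M, (n : ℚ) * (∑ t, φ t * (d n t : ℚ)) =
      ∑ n ∈ Finset.Icc (-N + 1) M, (∑ t, φ t * (∑ m ∈ Finset.Icc n M, (d m t : ℚ))) -
        (N : ℚ) * (∑ t, φ t * (∑ m ∈ Finset.Icc (-N) M, (d m t : ℚ))) := by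
  have hr : ∀ s : Finset ℤ, (∑ t, φ t * (∑ m ∈ s, (d m t : ℚ))) = ∑ m ∈ s, (∑ t, φ t * (d m t : ℚ)) := by
    intro s
    simp_rw [Finset.mul_sum]
    exact Finset.sum_comm
  simp_rw [hr]
  exact key (fun n => ∑ t, φ t * (d n t : ℚ)) N M

end Groth.Agent.S16014
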