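import Groth.Statements.S16015
import Mathlib.LinearAlgebra.TensorProduct.Basic
import Mathlib.LinearAlgebra.Dual.Defs
import Mathlib.RingTheory.Ideal.Quotient.Operations

set_option autoImplicit false
universe u v w
open W4c3ghconstell

namespace Groth.Agent.S16015

open TensorProduct

/-- Let B be a commutative ring, E a B-module, F a finitely generated projective B-module and β : E → F
a B-linear map. Then there is a unique ideal I of B such that for every commutative B-algebra C the
base change β_C : C ⊗ E → C ⊗ F is zero if and only if the structure map B → C kills I. (The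
published statement is for a homomorphism of modules on a scheme T into a locally free module and
produces a closed subscheme T₀ through which a morphism factors exactly when the pulled-back
homomorphism vanishes; this row is the case of an affine T with affine test schemes and F of finite
rank, to which it reduces.) -/
theorem result {B : Type u} [CommRing B]
    {E : Type v} [AddCommGroup E] [Module B E]
    {F : Type w} [AddCommGroup F] [Module B F] [Module.Finite B F] [Module.Projective B F]
    (β : E →ₗ[B] F) :
    ∃! I : Ideal B, ∀ (C : Type u) [CommRing C] [Algebra B C],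
      LinearMap.baseChange C β = 0 ↔ I ≤ RingHom.ker (algebraMap B C) := by
  classical
  let I : Ideal B := Ideal.span {b | ∃ (φ : F →ₗ[B] B) (e : E), φ (β e) = b}
  have key : ∀ (C : Type u) [CommRing C] [Algebra B C],
      LinearMap.baseChange C β = 0 ↔ I ≤ RingHom.ker (algebraMap B C) := by
    intro C _ _
    constructor
    · intro h0
      rw [Ideal.span_le]
      rintro b ⟨φ, e, rfl⟩
      rw [SetLike.mem_coe, RingHom.mem_ker]
      have h1 : LinearMap.baseChange C β ((1 : C) ⊗ₜ[B] e) = 0 := by rw [h0, LinearMap.zero_apply]
      rw [LinearMap.baseChange_tmul] at h1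
      have h2 := congrArg (fun t => TensorProduct.rid B C (LinearMap.lTensor C φ t)) h1
      simp only [LinearMap.lTensor_tmul, TensorProduct.rid_tmul, map_zero] at h2
      rw [Algebra.smul_def, mul_one] at h2
      exact h2
    · intro hI
      obtain ⟨s, hs⟩ := Module.projective_def.mp (inferInstance : Module.Projective B F)
      have hcoef : ∀ (e : E) (p : F), algebraMap B C (s (β e) p) = 0 := by
        intro e p
        have : s (β e) p ∈ I := Ideal.subset_span ⟨(Finsupp.lapply p).comp s, e, rfl⟩
        exact hI this
      have htmul : ∀ (c : C) (e : E), c ⊗ₜ[B] β e = 0 := by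
        intro c e
        rw [← hs (β e), Finsupp.linearCombination_apply, Finsupp.sum, TensorProduct.tmul_sum]
        refine Finset.sum_eq_zero fun p _ => ?_
        rw [id, TensorProduct.tmul_smul, TensorProduct.smul_tmul', Algebra.smul_def, hcoef,
          zero_mul, TensorProduct.zero_tmul]
      ext e
      simp only [TensorProduct.AlgebraTensorModule.curry_apply, TensorProduct.curry_apply, LinearMap.coe_restrictScalars, LinearMap.baseChange_tmul,
        LinearMap.zero_apply]
      exact htmul 1 e
  refine ⟨I, key, fun I' hI' => ?_⟩
  have hk : ∀ J : Ideal B, RingHom.ker (algebraMap B (B ⧸ J)) = J := by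
    intro J
    rw [Ideal.Quotient.algebraMap_eq, Ideal.mk_ker]
  apply le_antisymm
  · have h0 := (key (B ⧸ I)).mpr (by rw [hk])
    have := (hI' (B ⧸ I)).mp h0
    rwa [hk] at this
  · have h0 := (hI' (B ⧸ I')).mpr (by rw [hk])
    have := (key (B ⧸ I')).mp h0
    rwa [hk] at this

end Groth.Agent.S16015
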