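import Groth.Statements.S16016
import Mathlib.LinearAlgebra.Span.Basic
import Mathlib.Tactic.LinearCombination
import Mathlib.Tactic.FinCases

set_option autoImplicit false
set_option linter.unusedSimpArgs false
universe u
open W4c3ghconstell

namespace Groth.Agent.S16016

theorem entry_formula {k : Type u} [Field k] (A : Matrix (Fin 3 ⊕ Fin 3) (Fin 3 ⊕ Fin 3) k)
    (i j : Fin 3 ⊕ Fin 3) :
    ((A.transpose * Matrix.fromBlocks (0 : Matrix (Fin 3) (Fin 3) k) 1 1 0 +
        Matrix.fromBlocks (0 : Matrix (Fin 3) (Fin 3) k) 1 1 0 * A :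
          Matrix (Fin 3 ⊕ Fin 3) (Fin 3 ⊕ Fin 3) k)) i j =
      A (Sum.swap j) i + A (Sum.swap i) j := by
  rcases i with i | i <;> rcases j with j | j <;>
    simp [Matrix.mul_apply, Fintype.sum_sum_type, Matrix.one_apply]

/-- Let k be a field with 2 ≠ 0, index k⁶ by two copies of {0,1,2} (basis vectors p₁, p₂, p₃ in the
first copy and p₄, p₅, p₆ in the second), let Q be the symmetric matrix with blocks ((0, 1), (1,
0)), so that the form it defines pairs pᵢ with pᵢ₊₃, and let W₀ be the span of p₁ and p₂. Then a 6 ×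
6 matrix A satisfies AᵀQ + QA = 0 (A lies in the orthogonal Lie algebra of Q) and has the image of
Aᵀ contained in W₀ if and only if A = a · (E₄₂ − E₅₁) for some scalar a, where Eᵢⱼ is the matrix
unit. (The lemma in the source concludes that the set of such A inside a certain nilpotent orbit
closure of this Lie algebra is one-dimensional; this row is the computation its proof performs,
which determines all such A in the Lie algebra. Characteristic 2 is excluded: there E₁₄ᵀ also
qualifies.) -/
theorem result (k : Type u) [Field k] (h2 : (2 : k) ≠ 0)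
    (A : Matrix (Fin 3 ⊕ Fin 3) (Fin 3 ⊕ Fin 3) k) :
    (A.transpose * Matrix.fromBlocks (0 : Matrix (Fin 3) (Fin 3) k) 1 1 0 +
        Matrix.fromBlocks (0 : Matrix (Fin 3) (Fin 3) k) 1 1 0 * A = 0 ∧
      LinearMap.range (Matrix.mulVecLin A.transpose) ≤
        Submodule.span k {Pi.single (Sum.inl 0 : Fin 3 ⊕ Fin 3) (1 : k), Pi.single (Sum.inl 1 : Fin 3 ⊕ Fin 3) (1 : k)}) ↔
    ∃ a : k, A = a • (Matrix.single (Sum.inr 0) (Sum.inl 1) (1 : k) - Matrix.single (Sum.inr 1) (Sum.inl 0) (1 : k)) := by
  constructor
  · rintro ⟨hskewM, hrange⟩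
    have hskew : ∀ i j, A (Sum.swap j) i + A (Sum.swap i) j = 0 := by
      intro i j
      rw [← entry_formula, hskewM, Matrix.zero_apply]
    have hcol : ∀ x r, r ≠ Sum.inl 0 → r ≠ Sum.inl 1 → A x r = 0 := by
      intro x r h0 h1
      have hmem : Matrix.mulVecLin A.transpose (Pi.single x 1) ∈ Submodule.span k
          {Pi.single (Sum.inl 0 : Fin 3 ⊕ Fin 3) (1 : k), Pi.single (Sum.inl 1 : Fin 3 ⊕ Fin 3) (1 : k)} :=
        hrange ⟨_, rfl⟩
      rw [Submodule.mem_span_pair] at hmem
      obtain ⟨a, b, hab⟩ := hmem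
      have := congrFun hab r
      simp [Matrix.mulVecLin_apply, Matrix.mulVec_single_one, Pi.single_apply, h0, h1] at this
      exact this.symm
    have hbad2 : ∀ x, A x (Sum.inl 2) = 0 := fun x => hcol x _ (by simp) (by simp)
    have hbadr : ∀ x m, A x (Sum.inr m) = 0 := fun x m => hcol x _ (by simp) (by simp)
    have hll : ∀ m n, A (Sum.inl m) (Sum.inl n) = 0 := by
      intro m n
      have := hskew (Sum.inl n) (Sum.inr m)
      simp only [Sum.swap_inl, Sum.swap_inr, hbadr, add_zero] at this
      exact this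
    have hrl : ∀ m n, A (Sum.inr m) (Sum.inl n) + A (Sum.inr n) (Sum.inl m) = 0 := by
      intro m n
      have := hskew (Sum.inl n) (Sum.inl m)
      simpa only [Sum.swap_inl] using this
    have hdiag : ∀ m, A (Sum.inr m) (Sum.inl m) = 0 := by
      intro m
      have h := hrl m m
      have : (2 : k) * A (Sum.inr m) (Sum.inl m) = 0 := by linear_combination h
      exact (mul_eq_zero.mp this).resolve_left h2
    have hr2 : ∀ n, A (Sum.inr 2) (Sum.inl n) = 0 := by
      intro n
      have h := hrl 2 n
      rw [hbad2, add_zero] at h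
      exact h
    have h10 : A (Sum.inr 1) (Sum.inl 0) = -A (Sum.inr 0) (Sum.inl 1) := by
      linear_combination hrl 1 0
    refine ⟨A (Sum.inr 0) (Sum.inl 1), ?_⟩
    ext i j
    rcases i with m | m <;> rcases j with n | n <;> fin_cases m <;> fin_cases n <;>
      simp [Matrix.single_apply, hll, hbad2, hbadr, hdiag, hr2, h10]
  · rintro ⟨a, rfl⟩
    constructor
    · ext i j
      rcases i with m | m <;> rcases j with n | n <;> fin_cases m <;> fin_cases n <;>
        simp [Matrix.mul_apply, Fintype.sum_sum_type, Fin.sum_univ_three, Matrix.single_apply,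
          Matrix.one_apply]
    · rintro _ ⟨v, rfl⟩
      rw [Submodule.mem_span_pair]
      refine ⟨-(a * v (Sum.inr 1)), a * v (Sum.inr 0), ?_⟩
      ext r
      rcases r with r | r <;> fin_cases r <;>
        simp [Matrix.mulVecLin_apply, Matrix.mulVec, dotProduct, Fintype.sum_sum_type,
          Fin.sum_univ_three, Matrix.single_apply, Pi.single_apply]

end Groth.Agent.S16016
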