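import Groth.Statements.S16030
import Mathlib.RingTheory.Ideal.Operations

set_option autoImplicit false
universe u

open CAlg

namespace Groth.Agent.S16030

theorem result
    (A : Type u) [CommRing A] (F : Set (PrimeSpectrum A)) (hF : F.Finite)
    (U : TopologicalSpace.Opens (PrimeSpectrum A)) (hFU : F ⊆ (U : Set (PrimeSpectrum A))) :
    ∃ a : A, F ⊆ (PrimeSpectrum.basicOpen a : Set (PrimeSpectrum A)) ∧ PrimeSpectrum.basicOpen a ≤ U := by
  rcases F.eq_empty_or_nonempty with hFe | ⟨p₀, hp₀⟩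
  · refine ⟨0, by simp [hFe], ?_⟩
    intro q hq
    exact absurd hq (by simp)
  obtain ⟨I, hI⟩ := (PrimeSpectrum.isClosed_iff_zeroLocus_ideal _).mp U.isOpen.isClosed_compl
  have hnot : ¬ ((I : Set A) ⊆ ⋃ p ∈ F, ((fun q : PrimeSpectrum A => q.asIdeal) p : Set A)) := by
    intro h
    rw [Ideal.subset_union_prime_finite hF p₀ p₀ (fun p _ _ _ => p.isPrime)] at h
    obtain ⟨p, hp, hle⟩ := h
    have : p ∈ (U : Set (PrimeSpectrum A))ᶜ := by
      rw [hI]
      exact hle
    exact this (hFU hp)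
  rw [Set.not_subset] at hnot
  obtain ⟨a, haI, ha⟩ := hnot
  refine ⟨a, ?_, ?_⟩
  · intro p hp
    simp only [Set.mem_iUnion, not_exists] at ha
    exact ha p hp
  · intro q hq
    by_contra hqU
    have : q ∈ (U : Set (PrimeSpectrum A))ᶜ := hqU
    rw [hI] at this
    exact hq (this haI)

end Groth.Agent.S16030
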