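import Groth.Statements.S16072
import Groth.Agent.Lib.Helper24.ConstGrpIdem

set_option autoImplicit false
set_option linter.style.haveILetI false
universe u

open Hopf

namespace Groth.Agent.S16072

/-- Let p be a prime and R a commutative ring of characteristic p (p = 0 in R, R nonzero). Then the
constant group scheme ℤ/p and the group scheme μ_p of p-th roots of unity over Spec R are not
isomorphic: there is no R-bialgebra isomorphism between the Hopf algebra Maps(ℤ/p, R) of functions
on the cyclic group of order p and the group algebra R[ℤ/p]. (Any nonzero commutative base ring of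
characteristic p is allowed. The published statement allows any ring R with p·R = 0; over the zero
ring both Hopf algebras are the zero ring and hence isomorphic, so R is assumed nonzero here.) -/
theorem result (p : ℕ) [Fact p.Prime] (R : Type u) [CommRing R]
    [CharP R p] :
    IsEmpty (ConstGrp.F R (Multiplicative (ZMod p)) ≃ₐc[R] MonoidAlgebra R (Multiplicative (ZMod p))) := by
  apply Groth.Agent.Lib.Helper24.constGrp_not_iso p
  haveI : CharP (MonoidAlgebra R (Multiplicative (ZMod p))) p :=
    charP_of_injective_algebraMap (Bialgebra.algebraMap_injective (R := R) (MonoidAlgebra R (Multiplicative (ZMod p)))) p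
  intro y
  induction y using MonoidAlgebra.induction_linear with
  | zero => exact ⟨0, by rw [zero_pow (Fact.out : p.Prime).ne_zero, map_zero]⟩
  | add a b ha hb =>
    obtain ⟨r, hr⟩ := ha
    obtain ⟨s, hs⟩ := hb
    exact ⟨r + s, by rw [add_pow_char, hr, hs, map_add]⟩
  | single g r =>
    refine ⟨r ^ p, ?_⟩
    rw [MonoidAlgebra.single_pow]
    have hg : g ^ p = 1 := by
      show Multiplicative.ofAdd (p • Multiplicative.toAdd g) = Multiplicative.ofAdd 0
      rw [nsmul_eq_mul, ZMod.natCast_self, zero_mul]
    rw [hg]
    rfl

end Groth.Agent.S16072
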