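import Groth.Statements.S16073
import Groth.Agent.Lib.Helper24.ConstGrpIdem
import Mathlib.Algebra.Polynomial.Div

set_option autoImplicit false
set_option linter.style.haveILetI false
universe u

open Hopf

namespace Groth.Agent.S16073

open Polynomial

/-- Let p be a prime and R a commutative ring of characteristic p (p = 0 in R, R nonzero). Then the
constant group scheme ℤ/p and α_p over Spec R are not isomorphic: there is no R-bialgebra
isomorphism between the Hopf algebra Maps(ℤ/p, R) of functions on the cyclic group of order p and
the Hopf algebra R[X]/(X^p) of α_p (X primitive). (Any nonzero commutative base ring of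
characteristic p is allowed. The published statement allows any ring R with p·R = 0; over the zero
ring both Hopf algebras are the zero ring and hence isomorphic, so R is assumed nonzero here.) -/
theorem result (p : ℕ) [Fact p.Prime] (R : Type u) [CommRing R] [CharP R p] :
    IsEmpty (ConstGrp.F R (Multiplicative (ZMod p)) ≃ₐc[R] AlphaP.A p R) := by
  apply Groth.Agent.Lib.Helper24.constGrp_not_iso p
  haveI : CharP (AlphaP.A p R) p :=
    charP_of_injective_algebraMap (Bialgebra.algebraMap_injective (R := R) (AlphaP.A p R)) p
  intro y
  obtain ⟨f, rfl⟩ := AlphaP.mk_surjective p R y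
  obtain ⟨g, hg⟩ := X_dvd_sub_C (p := f)
  have hf : f = C (f.coeff 0) + X * g := by rw [← hg]; ring
  refine ⟨f.coeff 0 ^ p, ?_⟩
  conv_lhs => rw [hf, map_add, map_mul, AlphaP.mk_X, add_pow_char, mul_pow, AlphaP.x_pow, zero_mul,
    add_zero, ← map_pow, ← C_pow]
  exact (AlphaP.mk p R).commutes _

end Groth.Agent.S16073
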