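import Groth.Statements.S16074
import Mathlib.Algebra.CharP.Algebra
import Mathlib.Algebra.MonoidAlgebra.Module

set_option autoImplicit false
set_option linter.style.haveILetI false
universe u

open Hopf

namespace Groth.Agent.S16074

open Coalgebra TensorProduct

/-- The coefficient of `g`, as a linear functional on the monoid algebra. -/
noncomputable def coeffL (R : Type u) [CommRing R] {G : Type} [CommGroup G] (g : G) :
    MonoidAlgebra R G →ₗ[R] R where
  toFun z := z.coeff g
  map_add' _ _ := rfl
  map_smul' _ _ := rfl

/-- The functional `a ⊗ b ↦ a_g * b_g` on the tensor square. -/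
noncomputable def pairL (R : Type u) [CommRing R] {G : Type} [CommGroup G] (g : G) :
    MonoidAlgebra R G ⊗[R] MonoidAlgebra R G →ₗ[R] R :=
  TensorProduct.lift ((LinearMap.mul R R).compl₁₂ (coeffL R g) (coeffL R g))

theorem pairL_tmul (R : Type u) [CommRing R] {G : Type} [CommGroup G] (g : G)
    (a b : MonoidAlgebra R G) : pairL R g (a ⊗ₜ b) = a.coeff g * b.coeff g := rfl

theorem pairL_comul (R : Type u) [CommRing R] {G : Type} [CommGroup G] [DecidableEq G] (g : G)
    (z : MonoidAlgebra R G) : pairL R g (comul (R := R) z) = z.coeff g := by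
  induction z using MonoidAlgebra.induction_linear with
  | zero => simp
  | add a b ha hb => rw [map_add, map_add, ha, hb]; rfl
  | single h r =>
    rw [MonoidAlgebra.comul_single, CommSemiring.comul_apply, TensorProduct.map_tmul, pairL_tmul]
    show (MonoidAlgebra.single h 1).coeff g * (MonoidAlgebra.single h r).coeff g =
      (MonoidAlgebra.single h r).coeff g
    rw [MonoidAlgebra.coeff_single, MonoidAlgebra.coeff_single, Finsupp.single_apply,
      Finsupp.single_apply]
    split_ifs <;> simp

/-- A primitive element of the group algebra of a commutative group is zero. -/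
theorem primitive_eq_zero (R : Type u) [CommRing R] {G : Type} [CommGroup G] [DecidableEq G]
    (y : MonoidAlgebra R G) (hy : comul (R := R) y = y ⊗ₜ 1 + 1 ⊗ₜ y) : y = 0 := by
  apply MonoidAlgebra.coeff_injective
  ext g
  have h := pairL_comul R g y
  rw [hy, map_add, pairL_tmul, pairL_tmul, MonoidAlgebra.one_def, MonoidAlgebra.coeff_single,
    Finsupp.single_apply] at h
  rw [MonoidAlgebra.coeff_zero, Finsupp.coe_zero, Pi.zero_apply]
  split_ifs at h with h1
  · rw [mul_one, one_mul] at h
    simpa using h
  · simpa using h.symm

/-- Let p be a prime and R a commutative ring of characteristic p (p = 0 in R, R nonzero). Then μ_p and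
α_p over Spec R are not isomorphic: there is no R-bialgebra isomorphism between the group algebra
R[ℤ/p] of the cyclic group of order p (group elements group-like) and the Hopf algebra R[X]/(X^p) of
α_p (X primitive), although the underlying R-algebras R[ℤ/p] = R[Y]/(Y^p) and R[X]/(X^p) are
isomorphic. (Any nonzero commutative base ring of characteristic p is allowed. The published
statement allows any ring R with p·R = 0; over the zero ring both Hopf algebras are the zero ring
and hence isomorphic, so R is assumed nonzero here.) -/
theorem result (p : ℕ) [Fact p.Prime] (R : Type u) [CommRing R] [CharP R p] :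
    IsEmpty (MonoidAlgebra R (Multiplicative (ZMod p)) ≃ₐc[R] AlphaP.A p R) := by
  classical
  haveI : Nontrivial R := CharP.nontrivial_of_char_ne_one (Fact.out : p.Prime).one_lt.ne'
  refine ⟨fun φ => ?_⟩
  set ψ := φ.symm
  set y := ψ (AlphaP.x p R) with hy_def
  have hcomul : comul (R := R) (AlphaP.x p R) = AlphaP.x p R ⊗ₜ 1 + 1 ⊗ₜ AlphaP.x p R :=
    AlphaP.comulAlg_x p R
  have hy : comul (R := R) y = y ⊗ₜ 1 + 1 ⊗ₜ y := by
    rw [hy_def, ← CoalgHomClass.map_comp_comul_apply, hcomul, map_add, TensorProduct.map_tmul,
      TensorProduct.map_tmul]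
    have h1 : ψ 1 = 1 := map_one ψ
    simp only [LinearMap.coe_coe, h1]
  have hy0 := primitive_eq_zero R y hy
  have hx0 : AlphaP.x p R = 0 := by
    have : φ y = AlphaP.x p R := φ.apply_symm_apply _
    rw [← this, hy0, map_zero]
  have hp1 : 1 < p := (Fact.out : p.Prime).one_lt
  have hb := (AlphaP.basis p R).ne_zero ⟨1, hp1⟩
  rw [AlphaP.basis_apply] at hb
  exact hb (by simpa using hx0)

end Groth.Agent.S16074
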