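import Groth.Statements.S1615
-- import your own Groth.Agent.* helpers here

set_option autoImplicit false
universe u
open CategoryTheory CategoryTheory.Limits AlgebraicGeometry
open Constr

namespace Groth.Agent.S1615

/-- For a graded ring A, quasi-compactness of Proj A is equivalent to the existence of finitely many
homogeneous elements of positive degree generating an ideal whose radical contains the irrelevant
ideal A_+. -/
theorem result {R A : Type u} [CommRing R] [CommRing A] [Algebra R A] (𝒜 : ℕ → Submodule R A) [GradedAlgebra 𝒜] :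
    CompactSpace ↥(Proj 𝒜) ↔ ∃ s : Finset A, (∀ f ∈ s, ∃ d : ℕ, 0 < d ∧ f ∈ 𝒜 d) ∧
      (HomogeneousIdeal.irrelevant 𝒜).toIdeal ≤ (Ideal.span (s : Set A)).radical := by
  classical
  constructor
  · intro hc
    let ι := Σ i : PNat, 𝒜 i
    let F : ι → A := fun i => (i.2 : A)
    have hF : (HomogeneousIdeal.irrelevant 𝒜).toIdeal ≤ Ideal.span (Set.range F) := by
      intro z hz
      rw [← DirectSum.sum_support_decompose 𝒜 z]
      refine Ideal.sum_mem _ fun c hc ↦ if hc0 : c = 0 then ?_ else
        Ideal.subset_span ⟨⟨⟨c, Nat.pos_iff_ne_zero.mpr hc0⟩, _⟩, rfl⟩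
      convert! Ideal.zero_mem _
      subst hc0
      exact hz
    have htop := Proj.iSup_basicOpen_eq_top 𝒜 F hF
    have hcov : (Set.univ : Set (Proj 𝒜)) ⊆ ⋃ i, (Proj.basicOpen 𝒜 (F i) : Set (Proj 𝒜)) := by
      intro x _
      have : x ∈ (⨆ i, Proj.basicOpen 𝒜 (F i)) := by rw [htop]; trivial
      rw [TopologicalSpace.Opens.mem_iSup] at this
      exact Set.mem_iUnion.mpr this
    obtain ⟨t, ht⟩ := isCompact_univ.elim_finite_subcover
      (fun i => (Proj.basicOpen 𝒜 (F i) : Set (Proj 𝒜))) (fun i => (Proj.basicOpen 𝒜 (F i)).isOpen) hcov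
    refine ⟨t.image F, ?_, ?_⟩
    · intro f hf
      obtain ⟨i, -, rfl⟩ := Finset.mem_image.mp hf
      exact ⟨i.1, i.1.2, i.2.2⟩
    · have hhom : (Ideal.span ((t.image F : Finset A) : Set A)).IsHomogeneous 𝒜 := by
        apply Ideal.homogeneous_span
        intro f hf
        obtain ⟨i, -, rfl⟩ := Finset.mem_image.mp hf
        exact ⟨i.1, i.2.2⟩
      rw [hhom.radical_eq]
      refine le_sInf ?_
      rintro J ⟨hJh, hIJ, hJp⟩
      by_contra hnot
      let x : ProjectiveSpectrum 𝒜 := ⟨⟨J, hJh⟩, hJp, hnot⟩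
      have hx := ht (Set.mem_univ (x : Proj 𝒜))
      obtain ⟨i, hi, hxi⟩ := Set.mem_iUnion₂.mp hx
      apply hxi
      apply hIJ
      apply Ideal.subset_span
      exact Finset.mem_coe.mpr (Finset.mem_image_of_mem F hi)
  · rintro ⟨s, hs, hrad⟩
    have hcov : (Set.univ : Set (Proj 𝒜)) ⊆ ⋃ f ∈ s, (Proj.basicOpen 𝒜 f : Set (Proj 𝒜)) := by
      intro x _
      by_contra hx
      simp only [Set.mem_iUnion, not_exists] at hx
      have hle : Ideal.span (s : Set A) ≤ x.asHomogeneousIdeal.toIdeal := by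
        rw [Ideal.span_le]
        intro f hf
        by_contra hfx
        exact hx f hf hfx
      have : (Ideal.span (s : Set A)).radical ≤ x.asHomogeneousIdeal.toIdeal :=
        (Ideal.IsPrime.radical_le_iff x.isPrime).mpr hle
      exact x.not_irrelevant_le (hrad.trans this)
    refine ⟨?_⟩
    have : IsCompact (⋃ f ∈ s, (Proj.basicOpen 𝒜 f : Set (Proj 𝒜))) := by
      apply s.finite_toSet.isCompact_biUnion
      intro f hf
      obtain ⟨d, hd, hfd⟩ := hs f hf
      exact (Proj.isAffineOpen_basicOpen 𝒜 f hfd hd).isCompact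
    exact this.of_isClosed_subset isClosed_univ hcov

end Groth.Agent.S1615
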