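import Groth.Statements.S16170
import Mathlib.Tactic.Linarith
import Mathlib.Tactic.Abel

set_option autoImplicit false

open Neron

namespace Groth.Agent.S16170

open Matrix

theorem symm_form {ι : Type} [Fintype ι] (P : Matrix ι ι ℤ) (hP : Pᵀ = P) (x y : ι → ℤ) :
    x ⬝ᵥ P *ᵥ y = y ⬝ᵥ P *ᵥ x := by
  rw [Matrix.dotProduct_mulVec]
  conv_lhs => rw [← hP, Matrix.vecMul_transpose]
  rw [dotProduct_comm]

/-- Let M and N be symmetric positive-semidefinite integer matrices on the same finite index set whose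
sum M + N is positive definite, and let χ₁, χ₂ be integer matrices with χ₁ + χ₂ = 1 and M χ₂ = N χ₁.
Then χ₁ and χ₂ are idempotent. (In the intended application M = Pᵀ Ψ₁ P and N = Qᵀ Ψ₂ Q for
surjective integer matrices P, Q and positive-definite Ψ₁, Ψ₂.) -/
theorem result
    {ι : Type} [Fintype ι] [DecidableEq ι]
    (M N χ₁ χ₂ : Matrix ι ι ℤ) (hM : M.IsSymm) (hN : N.IsSymm)
    (hMpos : ∀ v : ι → ℤ, 0 ≤ v ⬝ᵥ M.mulVec v) (hNpos : ∀ v : ι → ℤ, 0 ≤ v ⬝ᵥ N.mulVec v)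
    (hpos : ∀ v : ι → ℤ, v ≠ 0 → 0 < v ⬝ᵥ (M + N).mulVec v)
    (hsum : χ₁ + χ₂ = 1) (hrel : M * χ₂ = N * χ₁) :
    χ₁ * χ₁ = χ₁ ∧ χ₂ * χ₂ = χ₂ := by
  set S := M + N with hS
  have hχ₂ : χ₂ = 1 - χ₁ := eq_sub_of_add_eq' hsum
  have hMS : M = S * χ₁ := by
    have h := hrel
    rw [hχ₂, Matrix.mul_sub, Matrix.mul_one] at h
    rw [hS, Matrix.add_mul, ← h]; abel
  have hSsymm : Sᵀ = S := by rw [hS, Matrix.transpose_add, hM.eq, hN.eq]
  have hMsymm : Mᵀ = M := hM.eq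
  -- the inner product
  have ipos : ∀ v : ι → ℤ, 0 ≤ v ⬝ᵥ S *ᵥ v := by
    intro v
    by_cases hv : v = 0
    · subst hv; simp
    · exact (hpos v hv).le
  have idef : ∀ v : ι → ℤ, v ⬝ᵥ S *ᵥ v = 0 → v = 0 := by
    intro v hv
    by_contra hne
    have := hpos v hne
    omega
  set B := χ₁ * χ₂ with hB
  -- S * B = M * χ₂
  have hSB : S * B = M * χ₂ := by rw [hB, ← Matrix.mul_assoc, ← hMS]
  -- S * B is symmetric
  have hSBsymm : (S * B)ᵀ = S * B := by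
    have h1 : M * χ₁ = χ₁ᵀ * S * χ₁ := by
      conv_lhs => rw [← hMsymm, hMS, Matrix.transpose_mul, hSsymm]
    rw [hSB, hχ₂, Matrix.mul_sub, Matrix.mul_one, Matrix.transpose_sub, hMsymm, h1,
      Matrix.transpose_mul, Matrix.transpose_mul, Matrix.transpose_transpose, hSsymm,
      Matrix.mul_assoc]
  -- F1: β(x) ≥ 0
  have F1 : ∀ x : ι → ℤ, 0 ≤ x ⬝ᵥ (S * B) *ᵥ x := by
    intro x
    set a := χ₁ *ᵥ x
    set b := χ₂ *ᵥ x
    have hx : x = a + b := by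
      rw [← Matrix.add_mulVec, hsum, Matrix.one_mulVec]
    have hMb : M *ᵥ b = N *ᵥ a := by
      simp only [a, b, Matrix.mulVec_mulVec, hrel]
    have : x ⬝ᵥ (S * B) *ᵥ x = a ⬝ᵥ N *ᵥ a + b ⬝ᵥ M *ᵥ b := by
      rw [hSB, ← Matrix.mulVec_mulVec]
      change x ⬝ᵥ M *ᵥ b = _
      conv_lhs => rw [hx]
      rw [add_dotProduct, hMb]
    rw [this]
    exact add_nonneg (hNpos a) (hMpos b)
  -- F2: 4 β(x) ≤ ⟨x, x⟩
  have F2 : ∀ x : ι → ℤ, 4 * (x ⬝ᵥ (S * B) *ᵥ x) ≤ x ⬝ᵥ S *ᵥ x := by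
    intro x
    set a := χ₁ *ᵥ x
    have e1 : x ⬝ᵥ (S * B) *ᵥ x = x ⬝ᵥ S *ᵥ a - a ⬝ᵥ S *ᵥ a := by
      rw [hSB, hχ₂, Matrix.mul_sub, Matrix.mul_one, Matrix.sub_mulVec, dotProduct_sub]
      congr 1
      · rw [hMS, ← Matrix.mulVec_mulVec]
      · rw [← Matrix.mulVec_mulVec, symm_form M hMsymm, hMS, ← Matrix.mulVec_mulVec]
    have e2 := ipos (x - (2 : ℤ) • a)
    have e3 : a ⬝ᵥ S *ᵥ x = x ⬝ᵥ S *ᵥ a := symm_form S hSsymm a x
    simp only [Matrix.mulVec_sub, Matrix.mulVec_smul, dotProduct_sub, sub_dotProduct,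
      dotProduct_smul, smul_dotProduct, smul_eq_mul] at e2
    rw [e3] at e2
    rw [e1]
    linarith
  -- F3: 12 ⟨Bx, Bx⟩ ≤ ⟨x, x⟩
  have F3 : ∀ x : ι → ℤ, 12 * ((B *ᵥ x) ⬝ᵥ S *ᵥ (B *ᵥ x)) ≤ x ⬝ᵥ S *ᵥ x := by
    intro x
    set w := B *ᵥ x
    have hX : w ⬝ᵥ (S * B) *ᵥ x = w ⬝ᵥ S *ᵥ w := by
      rw [← Matrix.mulVec_mulVec]
    have hX' : x ⬝ᵥ (S * B) *ᵥ w = w ⬝ᵥ S *ᵥ w := by
      rw [symm_form _ hSBsymm, hX]
    have g1 := F1 (x - (2 : ℤ) • w)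
    have g2 := F2 w
    have g3 := F2 x
    simp only [Matrix.mulVec_sub, Matrix.mulVec_smul, dotProduct_sub, sub_dotProduct,
      dotProduct_smul, smul_dotProduct, smul_eq_mul] at g1
    rw [hX, hX'] at g1
    nlinarith [ipos w]
  -- main induction
  have main : ∀ n : ℕ, ∀ x : ι → ℤ, (x ⬝ᵥ S *ᵥ x).toNat = n → B *ᵥ x = 0 := by
    intro n
    induction n using Nat.strong_induction_on with
    | _ n ih =>
      intro x hx
      by_contra hw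
      set w := B *ᵥ x with hw_def
      have hXpos : 0 < w ⬝ᵥ S *ᵥ w := by
        rcases (ipos w).lt_or_eq with h | h
        · exact h
        · exact absurd (idef w h.symm) hw
      have h12 : 12 * (w ⬝ᵥ S *ᵥ w) ≤ x ⬝ᵥ S *ᵥ x := F3 x
      have hlt : (w ⬝ᵥ S *ᵥ w).toNat < n := by
        rw [← hx]; omega
      have hBw : B *ᵥ w = 0 := ih _ hlt w rfl
      have hX' : x ⬝ᵥ (S * B) *ᵥ w = w ⬝ᵥ S *ᵥ w := by
        rw [symm_form _ hSBsymm, ← Matrix.mulVec_mulVec]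
      rw [← Matrix.mulVec_mulVec, hBw, Matrix.mulVec_zero, dotProduct_zero] at hX'
      omega
  have hB0 : B = 0 := by
    ext i j
    have := main _ (Pi.single j 1) rfl
    have h2 := congrFun this i
    rw [Matrix.mulVec_single_one] at h2
    simpa using h2
  have hcomm : χ₂ * χ₁ = B := by
    rw [hB, hχ₂, Matrix.sub_mul, Matrix.mul_sub, Matrix.one_mul, Matrix.mul_one]
  constructor
  · have : χ₁ * χ₁ = χ₁ - B := by
      rw [hB, hχ₂, Matrix.mul_sub, Matrix.mul_one]; abel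
    rw [this, hB0, sub_zero]
  · have : χ₂ * χ₂ = χ₂ - χ₂ * χ₁ := by
      conv_lhs => rw [hχ₂]
      rw [Matrix.mul_sub, Matrix.mul_one, ← hχ₂]
    rw [this, hcomm, hB0, sub_zero]

end Groth.Agent.S16170
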