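import Groth.Statements.S16164
import Groth.Agent.S16170

set_option autoImplicit false

open Neron

namespace Groth.Agent.S16164

open Matrix

theorem cancel_left {ι : Type} [Fintype ι] (G X Y : Matrix ι ι ℤ)
    (hG : ∀ v : ι → ℤ, G *ᵥ v = 0 → v = 0) (h : G * X = G * Y) : X = Y := by
  ext i k
  have hc : G *ᵥ (fun j => X j k - Y j k) = 0 := by
    ext i'
    have := congrFun (congrFun h i') k
    simp only [Matrix.mul_apply] at this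
    simp only [Matrix.mulVec, dotProduct, mul_sub, Finset.sum_sub_distrib, Pi.zero_apply]
    rw [this, sub_self]
  have := congrFun (hG _ hc) i
  simp only [Pi.zero_apply] at this
  exact sub_eq_zero.mp this

/-- Let X, Y₁, Y₂ be finitely generated free abelian groups with chosen bases, so that homomorphisms are
integer matrices acting on column vectors and each group is identified with its dual; let P : X → Y₁
and Q : X → Y₂ be surjective with A = (P over Q) : X → Y₁ ⊕ Y₂ injective, and let Ψ₁, Ψ₂ be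
symmetric positive-definite integer matrices on Y₁ and Y₂, Ψ their block-diagonal sum. If the image
of Aᵀ Ψ : Y₁ ⊕ Y₂ → X coincides with the image of Aᵀ Ψ A : X → X (the reverse inclusion always
holds), then A is bijective. (In the source X, Y₁, Y₂ are character groups of maximal tori, P and Q
specialization maps, Ψ₁ and Ψ₂ monodromy pairings, and the hypothesis expresses that two groups of
components coincide.) -/
theorem result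
    {ι κ₁ κ₂ : Type} [Fintype ι] [Fintype κ₁] [Fintype κ₂]
    (P : Matrix κ₁ ι ℤ) (Q : Matrix κ₂ ι ℤ)
    (hP : Function.Surjective P.mulVec) (hQ : Function.Surjective Q.mulVec)
    (hA : Function.Injective (Matrix.fromRows P Q).mulVec)
    (Ψ₁ : Matrix κ₁ κ₁ ℤ) (Ψ₂ : Matrix κ₂ κ₂ ℤ) (hΨ₁ : Ψ₁.IsSymm) (hΨ₂ : Ψ₂.IsSymm)
    (hΨ₁pos : ∀ y : κ₁ → ℤ, y ≠ 0 → 0 < y ⬝ᵥ Ψ₁.mulVec y)
    (hΨ₂pos : ∀ y : κ₂ → ℤ, y ≠ 0 → 0 < y ⬝ᵥ Ψ₂.mulVec y)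
    (himage : LinearMap.range ((Matrix.fromRows P Q).transpose * Matrix.fromBlocks Ψ₁ 0 0 Ψ₂).mulVecLin =
      LinearMap.range ((Matrix.fromRows P Q).transpose * Matrix.fromBlocks Ψ₁ 0 0 Ψ₂ * Matrix.fromRows P Q).mulVecLin) :
    Function.Bijective (Matrix.fromRows P Q).mulVec := by
  classical
  set M₁ : Matrix ι ι ℤ := Pᵀ * Ψ₁ * P with hM₁
  set N₁ : Matrix ι ι ℤ := Qᵀ * Ψ₂ * Q with hN₁
  have hT : (Matrix.fromRows P Q).transpose * Matrix.fromBlocks Ψ₁ 0 0 Ψ₂ =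
      Matrix.fromCols (Pᵀ * Ψ₁) (Qᵀ * Ψ₂) := by
    rw [Matrix.transpose_fromRows, Matrix.fromCols_mul_fromBlocks]
    simp
  have hG : (Matrix.fromRows P Q).transpose * Matrix.fromBlocks Ψ₁ 0 0 Ψ₂ * Matrix.fromRows P Q =
      M₁ + N₁ := by
    rw [hT, Matrix.fromCols_mul_fromRows]
  rw [hG] at himage
  -- quadratic forms
  have hq₁ : ∀ v : ι → ℤ, v ⬝ᵥ M₁ *ᵥ v = (P *ᵥ v) ⬝ᵥ Ψ₁ *ᵥ (P *ᵥ v) := by
    intro v
    rw [hM₁, ← Matrix.mulVec_mulVec, ← Matrix.mulVec_mulVec, Matrix.dotProduct_mulVec v Pᵀ,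
      Matrix.vecMul_transpose]
  have hq₂ : ∀ v : ι → ℤ, v ⬝ᵥ N₁ *ᵥ v = (Q *ᵥ v) ⬝ᵥ Ψ₂ *ᵥ (Q *ᵥ v) := by
    intro v
    rw [hN₁, ← Matrix.mulVec_mulVec, ← Matrix.mulVec_mulVec, Matrix.dotProduct_mulVec v Qᵀ,
      Matrix.vecMul_transpose]
  have hΨ₁nn : ∀ y : κ₁ → ℤ, 0 ≤ y ⬝ᵥ Ψ₁ *ᵥ y := by
    intro y; by_cases hy : y = 0
    · subst hy; simp
    · exact (hΨ₁pos y hy).le
  have hΨ₂nn : ∀ y : κ₂ → ℤ, 0 ≤ y ⬝ᵥ Ψ₂ *ᵥ y := by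
    intro y; by_cases hy : y = 0
    · subst hy; simp
    · exact (hΨ₂pos y hy).le
  have hΨ₁z : ∀ y : κ₁ → ℤ, y ⬝ᵥ Ψ₁ *ᵥ y = 0 → y = 0 := by
    intro y hy; by_contra hne; have := hΨ₁pos y hne; omega
  have hΨ₂z : ∀ y : κ₂ → ℤ, y ⬝ᵥ Ψ₂ *ᵥ y = 0 → y = 0 := by
    intro y hy; by_contra hne; have := hΨ₂pos y hne; omega
  have hM₁pos : ∀ v : ι → ℤ, 0 ≤ v ⬝ᵥ M₁.mulVec v := fun v => by rw [hq₁]; exact hΨ₁nn _
  have hN₁pos : ∀ v : ι → ℤ, 0 ≤ v ⬝ᵥ N₁.mulVec v := fun v => by rw [hq₂]; exact hΨ₂nn _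
  have hkerP : ∀ v : ι → ℤ, M₁ *ᵥ v = 0 → P *ᵥ v = 0 := by
    intro v hv; apply hΨ₁z; rw [← hq₁, hv, dotProduct_zero]
  have hkerQ : ∀ v : ι → ℤ, N₁ *ᵥ v = 0 → Q *ᵥ v = 0 := by
    intro v hv; apply hΨ₂z; rw [← hq₂, hv, dotProduct_zero]
  have hGpos : ∀ v : ι → ℤ, v ≠ 0 → 0 < v ⬝ᵥ (M₁ + N₁).mulVec v := by
    intro v hv
    rw [Matrix.add_mulVec, dotProduct_add]
    by_contra hle
    have h1 := hM₁pos v
    have h2 := hN₁pos v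
    have e1 : v ⬝ᵥ M₁ *ᵥ v = 0 := by omega
    have e2 : v ⬝ᵥ N₁ *ᵥ v = 0 := by omega
    have hPv : P *ᵥ v = 0 := hΨ₁z _ (by rw [← hq₁]; exact e1)
    have hQv : Q *ᵥ v = 0 := hΨ₂z _ (by rw [← hq₂]; exact e2)
    apply hv
    apply hA
    rw [Matrix.fromRows_mulVec, hPv, hQv, Matrix.fromRows_mulVec, Matrix.mulVec_zero,
      Matrix.mulVec_zero]
  have hGinj : ∀ v : ι → ℤ, (M₁ + N₁) *ᵥ v = 0 → v = 0 := by
    intro v hv; by_contra hne; have := hGpos v hne; rw [hv, dotProduct_zero] at this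
    exact lt_irrefl _ this
  -- the columns
  have hcol₁ : ∀ k : ι, ∃ x : ι → ℤ, (M₁ + N₁) *ᵥ x = M₁ *ᵥ Pi.single k 1 := by
    intro k
    have hmem : M₁ *ᵥ Pi.single k 1 ∈ LinearMap.range
        ((Matrix.fromRows P Q).transpose * Matrix.fromBlocks Ψ₁ 0 0 Ψ₂).mulVecLin := by
      refine ⟨Sum.elim (P *ᵥ Pi.single k 1) 0, ?_⟩
      rw [Matrix.mulVecLin_apply, hT, Matrix.fromCols_mulVec_sumElim, Matrix.mulVec_zero, add_zero,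
        hM₁, Matrix.mulVec_mulVec]
    rw [himage] at hmem
    obtain ⟨x, hx⟩ := hmem
    exact ⟨x, hx⟩
  have hcol₂ : ∀ k : ι, ∃ x : ι → ℤ, (M₁ + N₁) *ᵥ x = N₁ *ᵥ Pi.single k 1 := by
    intro k
    have hmem : N₁ *ᵥ Pi.single k 1 ∈ LinearMap.range
        ((Matrix.fromRows P Q).transpose * Matrix.fromBlocks Ψ₁ 0 0 Ψ₂).mulVecLin := by
      refine ⟨Sum.elim 0 (Q *ᵥ Pi.single k 1), ?_⟩
      rw [Matrix.mulVecLin_apply, hT, Matrix.fromCols_mulVec_sumElim, Matrix.mulVec_zero, zero_add,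
        hN₁, Matrix.mulVec_mulVec]
    rw [himage] at hmem
    obtain ⟨x, hx⟩ := hmem
    exact ⟨x, hx⟩
  choose x₁ hx₁ using hcol₁
  choose x₂ hx₂ using hcol₂
  set χ₁ : Matrix ι ι ℤ := Matrix.of fun i k => x₁ k i with hχ₁def
  set χ₂ : Matrix ι ι ℤ := Matrix.of fun i k => x₂ k i with hχ₂def
  have hGχ₁ : (M₁ + N₁) * χ₁ = M₁ := by
    ext i k
    have h := congrFun (hx₁ k) i
    rw [Matrix.mulVec_single_one] at h
    exact h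
  have hGχ₂ : (M₁ + N₁) * χ₂ = N₁ := by
    ext i k
    have h := congrFun (hx₂ k) i
    rw [Matrix.mulVec_single_one] at h
    exact h
  have hsum : χ₁ + χ₂ = 1 := by
    apply cancel_left (M₁ + N₁) _ _ hGinj
    rw [Matrix.mul_add, hGχ₁, hGχ₂, Matrix.mul_one]
  have hχ₂ : χ₂ = 1 - χ₁ := eq_sub_of_add_eq' hsum
  have hχ₁ : χ₁ = 1 - χ₂ := eq_sub_of_add_eq hsum
  have hrel : M₁ * χ₂ = N₁ * χ₁ := by
    have e : N₁ * χ₁ = (M₁ + N₁) * χ₁ - M₁ * χ₁ := by rw [Matrix.add_mul]; abel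
    rw [e, hGχ₁, hχ₂, Matrix.mul_sub, Matrix.mul_one]
  have hM₁symm : M₁.IsSymm := by
    show (Pᵀ * Ψ₁ * P)ᵀ = Pᵀ * Ψ₁ * P
    rw [Matrix.transpose_mul, Matrix.transpose_mul, Matrix.transpose_transpose, hΨ₁.eq,
      Matrix.mul_assoc]
  have hN₁symm : N₁.IsSymm := by
    show (Qᵀ * Ψ₂ * Q)ᵀ = Qᵀ * Ψ₂ * Q
    rw [Matrix.transpose_mul, Matrix.transpose_mul, Matrix.transpose_transpose, hΨ₂.eq,
      Matrix.mul_assoc]
  obtain ⟨h₁, h₂⟩ := Groth.Agent.S16170.result M₁ N₁ χ₁ χ₂ hM₁symm hN₁symm hM₁pos hN₁pos hGpos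
    hsum hrel
  have hχ₁χ₂ : χ₁ * χ₂ = 0 := by rw [hχ₂, Matrix.mul_sub, Matrix.mul_one, h₁, sub_self]
  have hχ₂χ₁ : χ₂ * χ₁ = 0 := by rw [hχ₂, Matrix.sub_mul, Matrix.one_mul, h₁, sub_self]
  have hPχ₂ : ∀ v : ι → ℤ, P *ᵥ (χ₂ *ᵥ v) = 0 := by
    intro v
    apply hkerP
    rw [← hGχ₁, ← Matrix.mulVec_mulVec, Matrix.mulVec_mulVec v χ₁ χ₂, hχ₁χ₂, Matrix.zero_mulVec,
      Matrix.mulVec_zero]
  have hQχ₁ : ∀ v : ι → ℤ, Q *ᵥ (χ₁ *ᵥ v) = 0 := by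
    intro v
    apply hkerQ
    rw [← hGχ₂, ← Matrix.mulVec_mulVec, Matrix.mulVec_mulVec v χ₂ χ₁, hχ₂χ₁, Matrix.zero_mulVec,
      Matrix.mulVec_zero]
  refine ⟨hA, ?_⟩
  intro y
  obtain ⟨z₁, hz₁⟩ := hP (fun i => y (Sum.inl i))
  obtain ⟨z₂, hz₂⟩ := hQ (fun i => y (Sum.inr i))
  refine ⟨χ₁ *ᵥ z₁ + χ₂ *ᵥ z₂, ?_⟩
  have eP : P *ᵥ (χ₁ *ᵥ z₁ + χ₂ *ᵥ z₂) = P *ᵥ z₁ := by
    rw [Matrix.mulVec_add, hPχ₂, add_zero]
    conv_lhs => rw [hχ₁]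
    rw [Matrix.sub_mulVec, Matrix.one_mulVec, Matrix.mulVec_sub, hPχ₂, sub_zero]
  have eQ : Q *ᵥ (χ₁ *ᵥ z₁ + χ₂ *ᵥ z₂) = Q *ᵥ z₂ := by
    rw [Matrix.mulVec_add, hQχ₁, zero_add]
    conv_lhs => rw [hχ₂]
    rw [Matrix.sub_mulVec, Matrix.one_mulVec, Matrix.mulVec_sub, hQχ₁, sub_zero]
  rw [Matrix.fromRows_mulVec, eP, eQ, hz₁, hz₂]
  ext (i | i) <;> rfl

end Groth.Agent.S16164
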