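import Groth.Statements.S16225
import Mathlib

set_option autoImplicit false
set_option linter.unusedSimpArgs false
set_option linter.style.haveILetI false
open scoped TensorProduct
universe u v
open CAlg

namespace Groth.Agent.S16225

/-- Let p be a prime, n a natural number and R → R' a faithfully flat homomorphism of commutative rings
in which p is nilpotent. Regard W_n(R') and W_n(R' ⊗_R R') as W_n(R)-algebras through the
componentwise maps induced by R → R' and R → R' ⊗_R R', and let ψ₁, ψ₂ : W_n(R') → W_n(R' ⊗_R R') be
the componentwise maps induced by the two inclusions of R' (these are W_n(R)-algebra maps). Then for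
every flat W_n(R)-module M the sequence 0 → M → M ⊗_{W_n(R)} W_n(R') ⇉ M ⊗_{W_n(R)} W_n(R' ⊗_R R')
is exact: m ↦ m ⊗ 1 is injective and its image is the equalizer of id ⊗ ψ₁ and id ⊗ ψ₂. (This is the
beginning, in degrees 0 and 1, of a complex continued by the higher tensor powers of R', which the
published proof asserts to be exact throughout; W_n(R) → W_n(R') is not flat in general, so this is
not faithfully flat descent.) -/
theorem result (p : ℕ) [Fact p.Prime] (n : ℕ)
    (R R' : Type u) [CommRing R] [CommRing R'] [Algebra R R'] [Module.FaithfullyFlat R R']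
    (hp : IsNilpotent (p : R))
    [Algebra (TruncatedWittVector p n R) (TruncatedWittVector p n R')]
    (h₁ : algebraMap (TruncatedWittVector p n R) (TruncatedWittVector p n R') = WittGrp.truncMap p n (algebraMap R R'))
    [Algebra (TruncatedWittVector p n R) (TruncatedWittVector p n (TensorProduct R R' R'))]
    (h₂ : algebraMap (TruncatedWittVector p n R) (TruncatedWittVector p n (TensorProduct R R' R')) =
      WittGrp.truncMap p n (algebraMap R (TensorProduct R R' R')))
    (ψ₁ ψ₂ : TruncatedWittVector p n R' →ₐ[TruncatedWittVector p n R] TruncatedWittVector p n (TensorProduct R R' R'))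
    (hψ₁ : (ψ₁ : TruncatedWittVector p n R' →+* TruncatedWittVector p n (TensorProduct R R' R')) =
      WittGrp.truncMap p n (Algebra.TensorProduct.includeLeftRingHom : R' →+* TensorProduct R R' R'))
    (hψ₂ : (ψ₂ : TruncatedWittVector p n R' →+* TruncatedWittVector p n (TensorProduct R R' R')) =
      WittGrp.truncMap p n ((Algebra.TensorProduct.includeRight : R' →ₐ[R] TensorProduct R R' R') : R' →+* TensorProduct R R' R'))
    (M : Type v) [AddCommGroup M] [Module (TruncatedWittVector p n R) M] [Module.Flat (TruncatedWittVector p n R) M] :
    Function.Injective (fun m : M => m ⊗ₜ[TruncatedWittVector p n R] (1 : TruncatedWittVector p n R')) ∧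
      ∀ x : M ⊗[TruncatedWittVector p n R] TruncatedWittVector p n R',
        LinearMap.lTensor M ψ₁.toLinearMap x = LinearMap.lTensor M ψ₂.toLinearMap x →
          x ∈ Set.range (fun m : M => m ⊗ₜ[TruncatedWittVector p n R] (1 : TruncatedWittVector p n R')) := by
  classical
  have hinjR : Function.Injective (algebraMap R R') := FaithfulSMul.algebraMap_injective R R'
  have heff := Algebra.IsEffective.of_faithfullyFlat R R'
  let L : TruncatedWittVector p n R →ₗ[TruncatedWittVector p n R] TruncatedWittVector p n R' :=
    Algebra.linearMap _ _
  let δ : TruncatedWittVector p n R' →ₗ[TruncatedWittVector p n R]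
      TruncatedWittVector p n (TensorProduct R R' R') := ψ₁.toLinearMap - ψ₂.toLinearMap
  have hL : ∀ y, L y = WittGrp.truncMap p n (algebraMap R R') y := by
    intro y
    simp only [L, Algebra.linearMap_apply, h₁]
  have hψ₁' : ∀ x i, (ψ₁ x).coeff i = x.coeff i ⊗ₜ[R] (1 : R') := by
    intro x i
    have : ψ₁ x = WittGrp.truncMap p n (Algebra.TensorProduct.includeLeftRingHom : R' →+* TensorProduct R R' R') x := by
      rw [← hψ₁]; rfl
    rw [this, WittGrp.coeff_truncMap]
    rfl
  have hψ₂' : ∀ x i, (ψ₂ x).coeff i = (1 : R') ⊗ₜ[R] x.coeff i := by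
    intro x i
    have : ψ₂ x = WittGrp.truncMap p n ((Algebra.TensorProduct.includeRight : R' →ₐ[R] TensorProduct R R' R') : R' →+* TensorProduct R R' R') x := by
      rw [← hψ₂]; rfl
    rw [this, WittGrp.coeff_truncMap]
    rfl
  have hLinj : Function.Injective L := by
    intro x y hxy
    ext i
    have := congrArg (fun z => TruncatedWittVector.coeff i z) hxy
    simp only [hL, WittGrp.coeff_truncMap] at this
    exact hinjR this
  have hexact : Function.Exact L δ := by
    intro x
    constructor
    · intro hx
      have hx' : ψ₁ x = ψ₂ x := by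
        have : ψ₁.toLinearMap x - ψ₂.toLinearMap x = 0 := hx
        exact sub_eq_zero.1 this
      have hc : ∀ i, ∃ r, algebraMap R R' r = x.coeff i := by
        intro i
        have h3 := congrArg (TruncatedWittVector.coeff i) hx'
        rw [hψ₁', hψ₂'] at h3
        have h4 : Algebra.TensorProduct.includeLeftSubRight R R' (x.coeff i) = 0 := by
          rw [Algebra.TensorProduct.includeLeftSubRight_apply, h3, sub_self]
        obtain ⟨r, hr⟩ := (heff (x.coeff i)).1 h4
        exact ⟨r, hr⟩
      choose r hr using hc
      refine ⟨TruncatedWittVector.mk p r, ?_⟩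
      ext i
      rw [hL, WittGrp.coeff_truncMap, TruncatedWittVector.coeff_mk, hr]
    · rintro ⟨y, rfl⟩
      show ψ₁.toLinearMap (L y) - ψ₂.toLinearMap (L y) = 0
      simp only [L, Algebra.linearMap_apply, AlgHom.toLinearMap_apply, AlgHom.commutes, sub_self]
  have hMinj : Function.Injective (L.lTensor M) :=
    Module.Flat.lTensor_preserves_injective_linearMap L hLinj
  have hMexact : Function.Exact (L.lTensor M) (δ.lTensor M) := Module.Flat.lTensor_exact M hexact
  have key : ∀ m : M, m ⊗ₜ[TruncatedWittVector p n R] (1 : TruncatedWittVector p n R') =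
      L.lTensor M ((TensorProduct.rid (TruncatedWittVector p n R) M).symm m) := by
    intro m
    rw [TensorProduct.rid_symm_apply, LinearMap.lTensor_tmul]
    simp only [L, Algebra.linearMap_apply, map_one]
  constructor
  · intro a b hab
    simp only at hab
    rw [key, key] at hab
    exact (TensorProduct.rid _ M).symm.injective (hMinj hab)
  · intro x hx
    have h0 : δ.lTensor M x = 0 := by
      simp only [δ, LinearMap.lTensor_sub, LinearMap.sub_apply, hx, sub_self]
    obtain ⟨y, hy⟩ := (hMexact x).1 h0
    refine ⟨TensorProduct.rid _ M y, ?_⟩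
    simp only
    rw [key, LinearEquiv.symm_apply_apply, hy]

end Groth.Agent.S16225
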