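import Groth.Statements.S16234
import Mathlib.RingTheory.HopkinsLevitzki
import Mathlib.RingTheory.KrullDimension.Zero
import Mathlib.Algebra.Module.Torsion.Basic
import Mathlib.RingTheory.Ideal.Maps
import Mathlib.RingTheory.Ideal.Quotient.Noetherian

set_option autoImplicit false
set_option linter.style.haveILetI false
universe u v

open CAlg

namespace Groth.Agent.S16234

theorem isArtinianRing_quot (A : Type u) [CommRing A]
    (M : Type v) [AddCommGroup M] [Module A M] [Module.Finite A M] [IsArtinian A M] :
    ∃ J : Ideal A, J ≤ Module.annihilator A M ∧ IsArtinianRing (A ⧸ J) := by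
  obtain ⟨n, f, hf⟩ := Module.Finite.exists_fin (R := A) (M := M)
  let φ : A →ₗ[A] (Fin n → M) := LinearMap.pi (fun i => LinearMap.toSpanSingleton A M (f i))
  refine ⟨LinearMap.ker φ, ?_, ?_⟩
  · intro a ha
    rw [LinearMap.mem_ker] at ha
    rw [Module.mem_annihilator]
    intro m
    have hm : m ∈ Submodule.span A (Set.range f) := by rw [hf]; trivial
    induction hm using Submodule.span_induction with
    | mem x hx =>
      obtain ⟨i, rfl⟩ := hx
      have := congrFun ha i
      simpa [φ] using this
    | zero => simp
    | add x y _ _ hx hy => rw [smul_add, hx, hy, add_zero]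
    | smul c x _ hx => rw [smul_comm, hx, smul_zero]
  · haveI : IsArtinian A (A ⧸ LinearMap.ker φ) :=
      isArtinian_of_linearEquiv (φ.quotKerEquivRange).symm
    exact isArtinian_of_tower A (inferInstance : IsArtinian A (A ⧸ LinearMap.ker φ))

theorem result (A : Type u) [CommRing A] [IsNoetherianRing A]
    (M : Type v) [AddCommGroup M] [Module A M] [Module.Finite A M] :
    (∀ p ∈ Module.support A M, p.asIdeal.IsMaximal) ↔ IsFiniteLength A M := by
  constructor
  · intro h
    letI : Module (A ⧸ Module.annihilator A M) M := Module.quotientAnnihilator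
    haveI : IsScalarTower A (A ⧸ Module.annihilator A M) M :=
      Module.IsTorsionBySet.isScalarTower _
    haveI : Module.Finite (A ⧸ Module.annihilator A M) M :=
      Module.Finite.of_restrictScalars_finite A _ M
    haveI : Ring.KrullDimLE 0 (A ⧸ Module.annihilator A M) := Ring.KrullDimLE.mk₀ fun J hJ => by
      have hc : (J.comap (Ideal.Quotient.mk (Module.annihilator A M))).IsPrime := hJ.comap _
      have hle : Module.annihilator A M ≤ J.comap (Ideal.Quotient.mk (Module.annihilator A M)) := by
        intro a ha
        rw [Ideal.mem_comap, Ideal.Quotient.eq_zero_iff_mem.mpr ha]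
        exact J.zero_mem
      have hsupp : (⟨J.comap (Ideal.Quotient.mk (Module.annihilator A M)), hc⟩ : PrimeSpectrum A) ∈
          Module.support A M := by
        rw [Module.support_eq_zeroLocus]
        exact hle
      have hmax := h _ hsupp
      exact Ideal.isMaximal_of_isIntegral_of_isMaximal_comap _ hmax
    haveI : IsArtinianRing (A ⧸ Module.annihilator A M) :=
      IsNoetherianRing.isArtinianRing_of_krullDimLE_zero
    haveI : IsArtinian (A ⧸ Module.annihilator A M) M := inferInstance
    haveI : IsArtinian A M := isArtinian_of_surjective_algebraMap (S := A)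
      (R := A ⧸ Module.annihilator A M) Ideal.Quotient.mk_surjective
    exact isFiniteLength_iff_isNoetherian_isArtinian.mpr ⟨inferInstance, inferInstance⟩
  · intro hfl p hp
    haveI : IsArtinian A M := (isFiniteLength_iff_isNoetherian_isArtinian.mp hfl).2
    obtain ⟨J, hJ, hJart⟩ := isArtinianRing_quot A M
    rw [Module.support_eq_zeroLocus] at hp
    have hJp : J ≤ p.asIdeal := hJ.trans hp
    have hker : RingHom.ker (Ideal.Quotient.mk J) ≤ p.asIdeal := by
      rw [Ideal.mk_ker]; exact hJp
    haveI : (p.asIdeal.map (Ideal.Quotient.mk J)).IsPrime :=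
      Ideal.map_isPrime_of_surjective Ideal.Quotient.mk_surjective hker
    haveI : (p.asIdeal.map (Ideal.Quotient.mk J)).IsMaximal :=
      IsArtinianRing.isMaximal_of_isPrime _
    have hcm : (p.asIdeal.map (Ideal.Quotient.mk J)).comap (Ideal.Quotient.mk J) = p.asIdeal := by
      rw [Ideal.comap_map_of_surjective _ Ideal.Quotient.mk_surjective, ← RingHom.ker_eq_comap_bot,
        Ideal.mk_ker]
      exact sup_eq_left.mpr hJp
    rw [← hcm]
    exact Ideal.comap_isMaximal_of_surjective _ Ideal.Quotient.mk_surjective

end Groth.Agent.S16234
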