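import Groth.Statements.S16244
import Mathlib

set_option autoImplicit false
set_option linter.unusedSimpArgs false
universe u
open Curves

namespace Groth.Agent.S16244

open WeierstrassCurve

/-- Let k be an algebraically closed field in which 2 and 3 are nonzero, and W a short Weierstrass
equation y² = x³ + a₄x + a₆ over k with nonzero discriminant. The admissible changes of variables
(u, r, s, t) that fix W form a cyclic group, of order 6 when a₄ = 0, of order 4 when a₆ = 0, and of
order 2 when a₄ and a₆ are both nonzero. (The published statement says the automorphism group of the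
elliptic curve is cyclic of order 2, 4 or 6; the automorphisms are rendered here as the changes of
variables preserving the equation, and the case distinction is the one the computation gives.) -/
theorem result
    (k : Type u) [Field k] [IsAlgClosed k] (h2 : (2 : k) ≠ 0) (h3 : (3 : k) ≠ 0)
    (W : WeierstrassCurve k) [W.IsShortNF] (hΔ : W.Δ ≠ 0) :
    IsCyclic ↥(MulAction.stabilizer (WeierstrassCurve.VariableChange k) W) ∧
      (W.a₄ = 0 → Nat.card ↥(MulAction.stabilizer (WeierstrassCurve.VariableChange k) W) = 6) ∧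
      (W.a₆ = 0 → Nat.card ↥(MulAction.stabilizer (WeierstrassCurve.VariableChange k) W) = 4) ∧
      (W.a₄ ≠ 0 → W.a₆ ≠ 0 → Nat.card ↥(MulAction.stabilizer (WeierstrassCurve.VariableChange k) W) = 2) := by
  classical
  have ha1 : W.a₁ = 0 := W.a₁_of_isShortNF
  have ha2 : W.a₂ = 0 := W.a₂_of_isShortNF
  have ha3 : W.a₃ = 0 := W.a₃_of_isShortNF
  set S := MulAction.stabilizer (WeierstrassCurve.VariableChange k) W with hS
  have hmem : ∀ C : VariableChange k, C ∈ S ↔ C.r = 0 ∧ C.s = 0 ∧ C.t = 0 ∧
      ((C.u⁻¹ : kˣ) : k) ^ 4 * W.a₄ = W.a₄ ∧ ((C.u⁻¹ : kˣ) : k) ^ 6 * W.a₆ = W.a₆ := by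
    intro C
    rw [hS, MulAction.mem_stabilizer_iff]
    have hu : ((C.u⁻¹ : kˣ) : k) ≠ 0 := Units.ne_zero _
    constructor
    · intro h
      have e1 := congrArg WeierstrassCurve.a₁ h
      have e2 := congrArg WeierstrassCurve.a₂ h
      have e3 := congrArg WeierstrassCurve.a₃ h
      have e4 := congrArg WeierstrassCurve.a₄ h
      have e6 := congrArg WeierstrassCurve.a₆ h
      rw [variableChange_a₁, ha1] at e1
      rw [variableChange_a₂, ha1, ha2] at e2
      rw [variableChange_a₃, ha1, ha3] at e3
      rw [variableChange_a₄, ha1, ha2, ha3] at e4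
      rw [variableChange_a₆, ha1, ha2, ha3] at e6
      have hs : C.s = 0 := by
        have : ((C.u⁻¹ : kˣ) : k) * (2 * C.s) = 0 := by simpa using e1
        rcases mul_eq_zero.mp this with h' | h'
        · exact absurd h' hu
        · rcases mul_eq_zero.mp h' with h'' | h''
          · exact absurd h'' h2
          · exact h''
      have hr : C.r = 0 := by
        have : ((C.u⁻¹ : kˣ) : k) ^ 2 * (3 * C.r) = 0 := by simpa [hs] using e2
        rcases mul_eq_zero.mp this with h' | h'
        · exact absurd (pow_eq_zero_iff (by norm_num) |>.mp h') hu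
        · rcases mul_eq_zero.mp h' with h'' | h''
          · exact absurd h'' h3
          · exact h''
      have ht : C.t = 0 := by
        have : ((C.u⁻¹ : kˣ) : k) ^ 3 * (2 * C.t) = 0 := by simpa [hr] using e3
        rcases mul_eq_zero.mp this with h' | h'
        · exact absurd (pow_eq_zero_iff (by norm_num) |>.mp h') hu
        · rcases mul_eq_zero.mp h' with h'' | h''
          · exact absurd h'' h2
          · exact h''
      refine ⟨hr, hs, ht, ?_, ?_⟩
      · simpa [hr, hs, ht] using e4
      · simpa [hr, hs, ht] using e6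
    · rintro ⟨hr, hs, ht, h4, h6⟩
      ext
      · rw [variableChange_a₁, ha1, hs]; simp
      · rw [variableChange_a₂, ha1, ha2, hs, hr]; simp
      · rw [variableChange_a₃, ha1, ha3, hr, ht]; simp
      · rw [variableChange_a₄, ha1, ha2, ha3, hr, hs, ht]; simpa using h4
      · rw [variableChange_a₆, ha1, ha2, ha3, hr, ht]; simpa using h6
  -- the `u`-homomorphism
  let uHom : VariableChange k →* kˣ :=
    { toFun := fun C => C.u, map_one' := rfl, map_mul' := fun _ _ => rfl }
  let φ : S →* kˣ := uHom.comp S.subtype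
  have hφ : Function.Injective φ := by
    intro C C' hCC'
    have h1 := (hmem C.1).mp C.2
    have h2 := (hmem C'.1).mp C'.2
    apply Subtype.ext
    apply VariableChange.ext
    · exact hCC'
    · rw [h1.1, h2.1]
    · rw [h1.2.1, h2.2.1]
    · rw [h1.2.2.1, h2.2.2.1]
  -- u^12 = 1 on the stabilizer
  have h12 : ∀ C : S, (C.1.u) ^ 12 = 1 := by
    intro C
    have h : C.1 • W = W := MulAction.mem_stabilizer_iff.mp C.2
    have := variableChange_Δ W C.1
    rw [h] at this
    have hh : ((C.1.u⁻¹ : kˣ) : k) ^ 12 = 1 := by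
      have : (((C.1.u⁻¹ : kˣ) : k) ^ 12 - 1) * W.Δ = 0 := by linear_combination -this
      rcases mul_eq_zero.mp this with h' | h'
      · exact sub_eq_zero.mp h'
      · exact absurd h' hΔ
    have : (C.1.u⁻¹) ^ 12 = 1 := by
      ext; simpa using hh
    rw [inv_pow, inv_eq_one] at this
    exact this
  have hfin : Finite S := by
    let ψ : S → rootsOfUnity 12 k := fun C => ⟨C.1.u, by rw [mem_rootsOfUnity]; exact h12 C⟩
    refine Finite.of_injective ψ ?_
    intro C C' h
    apply hφ
    have := congrArg Subtype.val h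
    exact this
  refine ⟨?_, ?_⟩
  · exact isCyclic_of_injective_ringHom ((Units.coeHom k).comp φ)
      ((Units.val_injective).comp hφ)
  -- card computations
  have hcard : ∀ n : ℕ, (n : k) ≠ 0 → 0 < n →
      (∀ v : kˣ, (((v⁻¹ : kˣ) : k) ^ 4 * W.a₄ = W.a₄ ∧ ((v⁻¹ : kˣ) : k) ^ 6 * W.a₆ = W.a₆) ↔
        v ^ n = 1) → Nat.card S = n := by
    intro n hn hn0 hiff
    have e : S ≃ rootsOfUnity n k :=
      { toFun := fun C => ⟨C.1.u, by
          rw [mem_rootsOfUnity]
          have := (hmem C.1).mp C.2
          exact (hiff _).mp ⟨this.2.2.2.1, this.2.2.2.2⟩⟩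
        invFun := fun ζ => ⟨⟨ζ.1, 0, 0, 0⟩, by
          rw [hmem]
          have := (hiff ζ.1).mpr ((mem_rootsOfUnity _ _).mp ζ.2)
          exact ⟨rfl, rfl, rfl, this.1, this.2⟩⟩
        left_inv := by
          intro C
          have := (hmem C.1).mp C.2
          apply Subtype.ext
          apply VariableChange.ext
          · rfl
          · exact this.1.symm
          · exact this.2.1.symm
          · exact this.2.2.1.symm
        right_inv := by
          intro ζ
          rfl }
    rw [Nat.card_congr e]
    have : NeZero (n : k) := ⟨hn⟩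
    have : NeZero n := ⟨by omega⟩
    obtain ⟨z, hz⟩ := IsAlgClosed.exists_root (Polynomial.cyclotomic n k)
      (Polynomial.degree_cyclotomic_pos n k hn0).ne'
    exact (Polynomial.isRoot_cyclotomic_iff.mp hz).card_rootsOfUnity
  have hΔ' := W.Δ_of_isShortNF
  have hinvpow : ∀ (v : kˣ) (m : ℕ), ((v⁻¹ : kˣ) : k) ^ m = 1 ↔ v ^ m = 1 := by
    intro v m
    constructor
    · intro h
      have : (v⁻¹) ^ m = 1 := by ext; simpa using h
      rwa [inv_pow, inv_eq_one] at this
    · intro h
      have : (v⁻¹) ^ m = 1 := by rw [inv_pow, h, inv_one]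
      have := congrArg Units.val this
      simpa using this
  have hcancel : ∀ (x a : k), a ≠ 0 → (x * a = a ↔ x = 1) := by
    intro x a ha
    constructor
    · intro h
      have : (x - 1) * a = 0 := by linear_combination h
      rcases mul_eq_zero.mp this with h' | h'
      · exact sub_eq_zero.mp h'
      · exact absurd h' ha
    · intro h; rw [h, one_mul]
  refine ⟨?_, ?_, ?_⟩
  · intro h4
    have h6 : W.a₆ ≠ 0 := by
      intro h6; apply hΔ; rw [hΔ', h4, h6]; ring
    apply hcard 6 (by
      have : (6 : k) = 2 * 3 := by norm_num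
      rw [show ((6 : ℕ) : k) = 6 by norm_num, this]; exact mul_ne_zero h2 h3) (by norm_num)
    intro v
    rw [h4, mul_zero, hcancel _ _ h6, hinvpow]
    simp
  · intro h6
    have h4 : W.a₄ ≠ 0 := by
      intro h4; apply hΔ; rw [hΔ', h4, h6]; ring
    apply hcard 4 (by
      have : (4 : k) = 2 * 2 := by norm_num
      rw [show ((4 : ℕ) : k) = 4 by norm_num, this]; exact mul_ne_zero h2 h2) (by norm_num)
    intro v
    rw [h6, mul_zero, hcancel _ _ h4, hinvpow]
    simp
  · intro h4 h6
    apply hcard 2 (by rw [show ((2 : ℕ) : k) = 2 by norm_num]; exact h2) (by norm_num)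
    intro v
    rw [hcancel _ _ h4, hcancel _ _ h6, hinvpow, hinvpow]
    constructor
    · rintro ⟨e4, e6⟩
      have : v ^ 6 = v ^ 4 * v ^ 2 := by rw [← pow_add]
      rw [e6, e4, one_mul] at this
      exact this.symm
    · intro e2
      refine ⟨?_, ?_⟩
      · rw [show (4 : ℕ) = 2 * 2 by norm_num, pow_mul, e2, one_pow]
      · rw [show (6 : ℕ) = 2 * 3 by norm_num, pow_mul, e2, one_pow]

end Groth.Agent.S16244
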