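import Groth.Statements.S16325
import Mathlib
import Groth.Agent.Lib.Helper24.CxH

set_option autoImplicit false
set_option linter.unusedSimpArgs false
set_option linter.style.haveILetI false
universe u v
open CategoryTheory
open W4c3biextchow

namespace Groth.Agent.S16325

/-- Let f : C ⟶ D be a chain map of ℕ-indexed chain complexes of modules over a ring R, and consider the
functor it induces between the groupoids attached to C and D (objects: degree-0 elements; morphisms
a ⟶ b: degree-1 elements with boundary b - a, modulo boundaries of degree-2 elements). This functor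
is faithful if and only if f is injective on homology in degree 1. (The published statement is for
complexes of abelian groups; this row allows modules over any ring R.) -/
theorem result
    (R : Type u) [Ring R] (C D : ChainComplex (ModuleCat.{v} R) ℕ) (f : C ⟶ D) :
    (W4c3biextchow.cxFunctor f).Faithful ↔ Mono (HomologicalComplex.homologyMap f 1) := by
  rw [Groth.Agent.Lib.Helper24.CxH.mono_homologyMap_iff f 2 1 0 (ChainComplex.prev ℕ 1)
    (ChainComplex.next_nat_succ 0)]
  constructor
  · intro hF x hx hy
    obtain ⟨y, hy⟩ := hy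
    let a : W4c3biextchow.Obj C := ⟨0⟩
    let φ : a ⟶ a := (⟨Submodule.Quotient.mk x, by rw [W4c3biextchow.delta_mk, hx, sub_self]⟩ :
      W4c3biextchow.Hom C a a)
    have hmap : (W4c3biextchow.cxFunctor f).map φ = (W4c3biextchow.cxFunctor f).map (𝟙 a) := by
      apply W4c3biextchow.Hom.ext
      rw [W4c3biextchow.cxFunctor_map_cl, W4c3biextchow.cxFunctor_map_cl]
      show W4c3biextchow.q1Map f (Submodule.Quotient.mk x) = W4c3biextchow.q1Map f 0
      rw [W4c3biextchow.q1Map_mk, map_zero, Submodule.Quotient.mk_eq_zero]
      exact ⟨y, hy⟩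
    have h2 := hF.map_injective hmap
    have hcl := congrArg W4c3biextchow.Hom.cl h2
    change (Submodule.Quotient.mk x : W4c3biextchow.Q1 C) = 0 at hcl
    rw [Submodule.Quotient.mk_eq_zero] at hcl
    obtain ⟨z, hz⟩ := hcl
    exact ⟨z, hz⟩
  · intro h
    constructor
    intro a b φ ψ hφψ
    apply W4c3biextchow.Hom.ext
    have hcl := congrArg W4c3biextchow.Hom.cl hφψ
    rw [W4c3biextchow.cxFunctor_map_cl, W4c3biextchow.cxFunctor_map_cl] at hcl
    obtain ⟨x, hx⟩ := Submodule.mkQ_surjective _
      ((φ : W4c3biextchow.Hom C a b).cl - (ψ : W4c3biextchow.Hom C a b).cl)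
    have hdx : (C.d 1 0).hom x = 0 := by
      have h3 := congrArg (W4c3biextchow.delta C) hx
      rw [map_sub, W4c3biextchow.Hom.delta_cl, W4c3biextchow.Hom.delta_cl, sub_self,
        Submodule.mkQ_apply, W4c3biextchow.delta_mk] at h3
      exact h3
    have hfx : ∃ y, (D.d 2 1).hom y = (f.f 1).hom x := by
      have h3 : W4c3biextchow.q1Map f (Submodule.mkQ _ x) = 0 := by rw [hx, map_sub, hcl, sub_self]
      rw [Submodule.mkQ_apply, W4c3biextchow.q1Map_mk, Submodule.Quotient.mk_eq_zero] at h3
      exact h3
    obtain ⟨z, hz⟩ := h x hdx hfx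
    rw [← sub_eq_zero, ← hx, Submodule.mkQ_apply, Submodule.Quotient.mk_eq_zero]
    exact ⟨z, hz⟩

end Groth.Agent.S16325
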