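import Groth.Statements.S16326
import Mathlib
import Groth.Agent.Lib.Helper24.CxH

set_option autoImplicit false
set_option linter.unusedSimpArgs false
set_option linter.style.haveILetI false
universe u v
open CategoryTheory
open W4c3biextchow

namespace Groth.Agent.S16326

/-- Let f : C ⟶ D be a chain map of ℕ-indexed chain complexes of modules over a ring R, and consider the
functor it induces between the groupoids attached to C and D (objects: degree-0 elements; morphisms
a ⟶ b: degree-1 elements with boundary b - a, modulo boundaries of degree-2 elements). This functor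
is full if and only if f is surjective on homology in degree 1 and injective on homology in degree
0. (The published statement is for complexes of abelian groups; this row allows modules over any
ring R.) -/
theorem result
    (R : Type u) [Ring R] (C D : ChainComplex (ModuleCat.{v} R) ℕ) (f : C ⟶ D) :
    (W4c3biextchow.cxFunctor f).Full ↔
      Epi (HomologicalComplex.homologyMap f 1) ∧ Mono (HomologicalComplex.homologyMap f 0) := by
  have hd00 : ∀ x : C.X 0, (C.d 0 0).hom x = 0 := fun x => by
    rw [C.shape 0 0 (by simp)]; rfl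
  have hchain : ∀ z : C.X 1, (D.d 1 0).hom ((f.f 1).hom z) = (f.f 0).hom ((C.d 1 0).hom z) := by
    intro z
    rw [← LinearMap.comp_apply, ← ModuleCat.hom_comp, f.comm 1 0, ModuleCat.hom_comp,
      LinearMap.comp_apply]
  rw [Groth.Agent.Lib.Helper24.CxH.epi_homologyMap_iff f 2 1 0 (ChainComplex.prev ℕ 1)
    (ChainComplex.next_nat_succ 0),
    Groth.Agent.Lib.Helper24.CxH.mono_homologyMap_iff f 1 0 0 (ChainComplex.prev ℕ 0)
    ChainComplex.next_nat_zero]
  constructor
  · intro hF
    constructor
    · intro y hy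
      let a : W4c3biextchow.Obj C := ⟨0⟩
      let ψ : (W4c3biextchow.cxFunctor f).obj a ⟶ (W4c3biextchow.cxFunctor f).obj a :=
        (⟨Submodule.Quotient.mk y, by rw [W4c3biextchow.delta_mk, hy, sub_self]⟩ :
          W4c3biextchow.Hom D _ _)
      obtain ⟨φ, hφ⟩ := hF.map_surjective ψ
      obtain ⟨x, hx⟩ := Submodule.mkQ_surjective _ (φ : W4c3biextchow.Hom C a a).cl
      have hdx : (C.d 1 0).hom x = 0 := by
        have h3 := (φ : W4c3biextchow.Hom C a a).delta_cl
        rw [← hx, Submodule.mkQ_apply, W4c3biextchow.delta_mk, sub_self] at h3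
        exact h3
      refine ⟨x, hdx, ?_⟩
      have h3 := congrArg W4c3biextchow.Hom.cl hφ
      rw [W4c3biextchow.cxFunctor_map_cl, ← hx, Submodule.mkQ_apply, W4c3biextchow.q1Map_mk] at h3
      change (Submodule.Quotient.mk _ : W4c3biextchow.Q1 D) = Submodule.Quotient.mk y at h3
      rw [Submodule.Quotient.eq] at h3
      exact h3
    · intro x _ hy
      obtain ⟨y, hy⟩ := hy
      let a : W4c3biextchow.Obj C := ⟨0⟩
      let b : W4c3biextchow.Obj C := ⟨x⟩
      let ψ : (W4c3biextchow.cxFunctor f).obj a ⟶ (W4c3biextchow.cxFunctor f).obj b :=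
        (⟨Submodule.Quotient.mk y, by
          rw [W4c3biextchow.delta_mk, hy, W4c3biextchow.cxFunctor_obj_pt,
            W4c3biextchow.cxFunctor_obj_pt]
          simp [a, b]⟩ : W4c3biextchow.Hom D _ _)
      obtain ⟨φ, hφ⟩ := hF.map_surjective ψ
      obtain ⟨z, hz⟩ := Submodule.mkQ_surjective _ (φ : W4c3biextchow.Hom C a b).cl
      have h3 := (φ : W4c3biextchow.Hom C a b).delta_cl
      rw [← hz, Submodule.mkQ_apply, W4c3biextchow.delta_mk] at h3
      exact ⟨z, by rw [h3]; simp [a, b]⟩
  · rintro ⟨hE, hM⟩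
    constructor
    intro a b ψ
    obtain ⟨y, hy⟩ := Submodule.mkQ_surjective _ (ψ : W4c3biextchow.Hom D _ _).cl
    have hdy : (D.d 1 0).hom y = (f.f 0).hom (b.pt - a.pt) := by
      have h3 := (ψ : W4c3biextchow.Hom D _ _).delta_cl
      rw [← hy, Submodule.mkQ_apply, W4c3biextchow.delta_mk, W4c3biextchow.cxFunctor_obj_pt,
        W4c3biextchow.cxFunctor_obj_pt] at h3
      rw [h3, map_sub]
    obtain ⟨z, hz⟩ := hM (b.pt - a.pt) (hd00 _) ⟨y, hdy⟩
    have hdy' : (D.d 1 0).hom (y - (f.f 1).hom z) = 0 := by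
      rw [map_sub, hchain, hz, hdy, sub_self]
    obtain ⟨x', hx', w, hw⟩ := hE _ hdy'
    refine ⟨(⟨Submodule.Quotient.mk (z + x'), by
      rw [W4c3biextchow.delta_mk, map_add, hz, hx', add_zero]⟩ : W4c3biextchow.Hom C a b), ?_⟩
    apply W4c3biextchow.Hom.ext
    rw [W4c3biextchow.cxFunctor_map_cl]
    show W4c3biextchow.q1Map f (Submodule.Quotient.mk (z + x')) = (ψ : W4c3biextchow.Hom D _ _).cl
    rw [W4c3biextchow.q1Map_mk, ← hy, Submodule.mkQ_apply, Submodule.Quotient.eq]
    refine ⟨w, ?_⟩
    rw [hw, map_add]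
    abel

end Groth.Agent.S16326
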