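import Groth.Statements.S16327
import Mathlib
import Groth.Agent.Lib.Helper24.CxH

set_option autoImplicit false
set_option linter.unusedSimpArgs false
set_option linter.style.haveILetI false
universe u v
open CategoryTheory
open W4c3biextchow

namespace Groth.Agent.S16327

/-- Let f : C ⟶ D be a chain map of ℕ-indexed chain complexes of modules over a ring R, and consider the
functor it induces between the groupoids attached to C and D (objects: degree-0 elements; morphisms
a ⟶ b: degree-1 elements with boundary b - a, modulo boundaries of degree-2 elements). This functor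
is essentially surjective if and only if f is surjective on homology in degree 0. (The published
statement is for complexes of abelian groups; this row allows modules over any ring R.) -/
theorem result
    (R : Type u) [Ring R] (C D : ChainComplex (ModuleCat.{v} R) ℕ) (f : C ⟶ D) :
    (W4c3biextchow.cxFunctor f).EssSurj ↔ Epi (HomologicalComplex.homologyMap f 0) := by
  have hd00 : ∀ x : C.X 0, (C.d 0 0).hom x = 0 := fun x => by
    rw [C.shape 0 0 (by simp)]; rfl
  have hd00' : ∀ x : D.X 0, (D.d 0 0).hom x = 0 := fun x => by
    rw [D.shape 0 0 (by simp)]; rfl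
  rw [Groth.Agent.Lib.Helper24.CxH.epi_homologyMap_iff f 1 0 0 (ChainComplex.prev ℕ 0)
    ChainComplex.next_nat_zero]
  constructor
  · intro hE y _
    obtain ⟨a, ⟨e⟩⟩ := hE.mem_essImage (⟨y⟩ : W4c3biextchow.Obj D)
    obtain ⟨z, hz⟩ := Submodule.mkQ_surjective _ (e.hom : W4c3biextchow.Hom D _ _).cl
    have h3 := (e.hom : W4c3biextchow.Hom D _ _).delta_cl
    rw [← hz, Submodule.mkQ_apply, W4c3biextchow.delta_mk, W4c3biextchow.cxFunctor_obj_pt] at h3
    refine ⟨a.pt, hd00 _, -z, ?_⟩
    rw [map_neg, h3]
    abel
  · intro h
    constructor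
    intro b
    obtain ⟨x, _, z, hz⟩ := h b.pt (hd00' _)
    refine ⟨⟨x⟩, ⟨?_⟩⟩
    exact
      { hom := (⟨Submodule.Quotient.mk (-z), by
            rw [W4c3biextchow.delta_mk, map_neg, hz, W4c3biextchow.cxFunctor_obj_pt]
            abel⟩ : W4c3biextchow.Hom D _ _)
        inv := (⟨Submodule.Quotient.mk z, by
            rw [W4c3biextchow.delta_mk, hz, W4c3biextchow.cxFunctor_obj_pt]⟩ :
              W4c3biextchow.Hom D _ _)
        hom_inv_id := by
          apply W4c3biextchow.Hom.ext
          rw [W4c3biextchow.comp_cl, W4c3biextchow.id_cl]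
          show (Submodule.Quotient.mk (-z) : W4c3biextchow.Q1 D) + Submodule.Quotient.mk z = 0
          rw [← Submodule.Quotient.mk_add, neg_add_cancel, Submodule.Quotient.mk_zero]
        inv_hom_id := by
          apply W4c3biextchow.Hom.ext
          rw [W4c3biextchow.comp_cl, W4c3biextchow.id_cl]
          show (Submodule.Quotient.mk z : W4c3biextchow.Q1 D) + Submodule.Quotient.mk (-z) = 0
          rw [← Submodule.Quotient.mk_add, add_neg_cancel, Submodule.Quotient.mk_zero] }

end Groth.Agent.S16327
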