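import Groth.Statements.S16328
import Mathlib
import Groth.Agent.Lib.Helper24.SplitCx

set_option autoImplicit false
set_option linter.unusedSimpArgs false
set_option linter.style.haveILetI false
universe v
open CategoryTheory
open W4c3biextchow

namespace Groth.Agent.S16328

/-- Let f : A' ⟶ A and p : A ⟶ A'' be chain maps of ℕ-indexed chain complexes of free abelian groups
forming a short exact sequence in every degree (f injective, p surjective, image of f equal to the
kernel of p), and assume f is a quasi-isomorphism. Then there is a chain map h : A'' ⟶ A such that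
in every degree q the map (a'', a') ↦ h(a'') + f(a') is a bijection from A''_q × A'_q onto A_q, so
that A is the direct sum of the subcomplexes f(A') and h(A''). (The source allows complexes indexed
by all integers; stated here for complexes in non-negative degrees.) -/
theorem result
    (A' A A'' : ChainComplex (ModuleCat.{v} ℤ) ℕ) (f : A' ⟶ A) (p : A ⟶ A'')
    [∀ q, Module.Free ℤ (A'.X q)] [∀ q, Module.Free ℤ (A.X q)] [∀ q, Module.Free ℤ (A''.X q)]
    (hf : ∀ q, Function.Injective (f.f q).hom) (hp : ∀ q, Function.Surjective (p.f q).hom)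
    (hfp : ∀ q, Function.Exact (f.f q).hom (p.f q).hom) [QuasiIso f] :
    ∃ h : A'' ⟶ A, ∀ q : ℕ,
      Function.Bijective (fun x : A''.X q × A'.X q => (h.f q).hom x.1 + (f.f q).hom x.2) := by
  obtain ⟨h, hh⟩ := Groth.Agent.Lib.Helper24.SplitCx.exists_section f p hf hp hfp
  refine ⟨h, fun q => ⟨?_, ?_⟩⟩
  · have hph : ∀ x, (p.f q).hom ((h.f q).hom x) = x := by
      intro x
      have := congrArg (fun φ => (φ.f q).hom x) hh
      simpa using this
    rintro ⟨x, y⟩ ⟨x', y'⟩ hxy
    simp only at hxy
    have h1 := congrArg (p.f q).hom hxy
    simp only [map_add, hph, (hfp q).apply_apply_eq_zero, add_zero] at h1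
    subst h1
    have h2 : (f.f q).hom y = (f.f q).hom y' := add_left_cancel hxy
    rw [hf q h2]
  · have hph : ∀ x, (p.f q).hom ((h.f q).hom x) = x := by
      intro x
      have := congrArg (fun φ => (φ.f q).hom x) hh
      simpa using this
    intro a
    obtain ⟨y, hy⟩ := ((hfp q) (a - (h.f q).hom ((p.f q).hom a))).1 (by rw [map_sub, hph, sub_self])
    refine ⟨((p.f q).hom a, y), ?_⟩
    simp only
    rw [hy]
    abel

end Groth.Agent.S16328
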