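import Groth.Statements.S16329
import Mathlib
import Groth.Agent.Lib.Helper24.SplitCx

set_option autoImplicit false
set_option linter.unusedSimpArgs false
set_option linter.style.haveILetI false
universe v
open CategoryTheory
open W4c3biextchow

namespace Groth.Agent.S16329

/-- Let f : A' ⟶ A be a chain map of ℕ-indexed chain complexes of free abelian groups which is injective
in every degree, whose degreewise quotients A_q / f(A'_q) are free abelian groups, and which is a
quasi-isomorphism. Then there is a chain map g : A ⟶ A' with f ≫ g the identity of A' (a chain-level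
inverse of f that restricts to the identity on the subcomplex A'). (The source allows complexes
indexed by all integers; stated here for complexes in non-negative degrees.) -/
theorem result
    (A' A : ChainComplex (ModuleCat.{v} ℤ) ℕ) (f : A' ⟶ A)
    [∀ q, Module.Free ℤ (A'.X q)] [∀ q, Module.Free ℤ (A.X q)]
    (hf : ∀ q, Function.Injective (f.f q).hom)
    (hq : ∀ q, Module.Free ℤ ((A.X q) ⧸ LinearMap.range (f.f q).hom)) [QuasiIso f] :
    ∃ g : A ⟶ A', f ≫ g = 𝟙 A' := by
  haveI : ∀ q, Module.Projective ℤ ((Groth.Agent.Lib.Helper24.SplitCx.cokerCx f).X q) := fun q => by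
    haveI := hq q
    have h1 : Module.Projective ℤ ((A.X q) ⧸ LinearMap.range (f.f q).hom) := inferInstance
    have key : ∀ (M : Type v) [AddCommGroup M] (i1 i2 : Module ℤ M),
        @Module.Projective ℤ _ M _ i1 → @Module.Projective ℤ _ M _ i2 := by
      intro M _ i1 i2 h
      rw [Subsingleton.elim i2 i1]; exact h
    exact key _ _ _ h1
  exact Groth.Agent.Lib.Helper24.SplitCx.exists_retraction f hf

end Groth.Agent.S16329
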