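import Groth.Statements.S16331
import Mathlib
import Groth.Agent.Lib.Helper24.SplitCx

set_option autoImplicit false
set_option linter.unusedSimpArgs false
set_option linter.style.haveILetI false
universe v
open CategoryTheory
open W4c3biextchow

namespace Groth.Agent.S16331

/-- Let f : A' ⟶ A be a chain map of ℕ-indexed chain complexes of free abelian groups which is injective
in every degree, with free degreewise quotients A_q / f(A'_q), and a quasi-isomorphism; let h' : A'
⟶ B be a chain map to another complex of free abelian groups and g₁, g₂ : A ⟶ A' two chain maps with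
f ≫ g₁ = f ≫ g₂ = 𝟙. Consider the functors induced by g₁ ≫ h' and g₂ ≫ h' between the groupoids
attached to A and B (objects: degree-0 elements; morphisms a ⟶ b: degree-1 elements with boundary b
- a, modulo boundaries of degree-2 elements). Then there is a natural isomorphism between these two
functors whose component at every object of the form f(a'), a' a degree-0 element of A', is the zero
class, i.e. the identity morphism of h'(a'). -/
theorem result
    (A' A B : ChainComplex (ModuleCat.{v} ℤ) ℕ) (f : A' ⟶ A) (h' : A' ⟶ B)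
    [∀ q, Module.Free ℤ (A'.X q)] [∀ q, Module.Free ℤ (A.X q)] [∀ q, Module.Free ℤ (B.X q)]
    (hf : ∀ q, Function.Injective (f.f q).hom)
    (hq : ∀ q, Module.Free ℤ ((A.X q) ⧸ LinearMap.range (f.f q).hom)) [QuasiIso f]
    (g₁ g₂ : A ⟶ A') (h₁ : f ≫ g₁ = 𝟙 A') (h₂ : f ≫ g₂ = 𝟙 A') :
    ∃ N : W4c3biextchow.cxFunctor (g₁ ≫ h') ≅ W4c3biextchow.cxFunctor (g₂ ≫ h'),
      ∀ a : W4c3biextchow.Obj A',
        (N.hom.app ((W4c3biextchow.cxFunctor f).obj a) : W4c3biextchow.Hom B _ _).cl = 0 := by
  classical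
  haveI : ∀ q, Module.Projective ℤ ((Groth.Agent.Lib.Helper24.SplitCx.cokerCx f).X q) := fun q => by
    haveI := hq q
    have h1 : Module.Projective ℤ ((A.X q) ⧸ LinearMap.range (f.f q).hom) := inferInstance
    have key : ∀ (M : Type v) [AddCommGroup M] (i1 i2 : Module ℤ M),
        @Module.Projective ℤ _ M _ i1 → @Module.Projective ℤ _ M _ i2 := by
      intro M _ i1 i2 h
      rw [Subsingleton.elim i2 i1]; exact h
    exact key _ _ _ h1
  obtain ⟨H, hH⟩ := Groth.Agent.Lib.Helper24.SplitCx.exists_homotopy f hf g₁ g₂ h₁ h₂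
  let K := H.compRight h'
  have hK0 : ∀ x : A.X 0, ((g₁ ≫ h').f 0).hom x =
      (B.d 1 0).hom ((K.hom 0 1).hom x) + ((g₂ ≫ h').f 0).hom x := by
    intro x
    have h3 := K.comm 0
    rw [Homotopy.dNext_zero_chainComplex, Homotopy.prevD_chainComplex, zero_add] at h3
    have := congrArg (fun φ => φ.hom x) h3
    simpa using this
  have hK1 : ∀ x : A.X 1, ((g₁ ≫ h').f 1).hom x = (K.hom 0 1).hom ((A.d 1 0).hom x) +
      (B.d 2 1).hom ((K.hom 1 2).hom x) + ((g₂ ≫ h').f 1).hom x := by
    intro x
    have h3 := K.comm (0 + 1)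
    rw [Homotopy.dNext_succ_chainComplex, Homotopy.prevD_chainComplex] at h3
    have := congrArg (fun φ => φ.hom x) h3
    simpa using this
  let c : ∀ a : Obj A, Q1 B := fun a => -Submodule.Quotient.mk ((K.hom 0 1).hom a.pt)
  have hc : ∀ a : Obj A, delta B (c a) =
      ((cxFunctor (g₂ ≫ h')).obj a).pt - ((cxFunctor (g₁ ≫ h')).obj a).pt := by
    intro a
    simp only [c, map_neg, delta_mk, cxFunctor_obj_pt]
    rw [hK0 a.pt]
    abel
  let iso : ∀ a : Obj A, (cxFunctor (g₁ ≫ h')).obj a ≅ (cxFunctor (g₂ ≫ h')).obj a := fun a =>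
    { hom := (⟨c a, hc a⟩ : Hom B _ _)
      inv := (⟨-c a, by rw [map_neg, hc a, neg_sub]⟩ : Hom B _ _)
      hom_inv_id := Hom.ext (by simp)
      inv_hom_id := Hom.ext (by simp) }
  refine ⟨NatIso.ofComponents iso ?_, ?_⟩
  · intro a b φ
    apply Hom.ext
    simp only [comp_cl, cxFunctor_map_cl, iso]
    obtain ⟨x, hx⟩ := Submodule.mkQ_surjective _ (φ : Hom A a b).cl
    have hd := (φ : Hom A a b).delta_cl
    rw [← hx] at hd ⊢
    simp only [Submodule.mkQ_apply, delta_mk] at hd
    simp only [Submodule.mkQ_apply, q1Map_mk, c]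
    have h0 : (Submodule.Quotient.mk ((B.d 2 1).hom ((K.hom 1 2).hom x)) : Q1 B) = 0 :=
      (Submodule.Quotient.mk_eq_zero _).2 ⟨_, rfl⟩
    rw [hK1 x, hd, map_sub, Submodule.Quotient.mk_add, Submodule.Quotient.mk_add,
      Submodule.Quotient.mk_sub, h0]
    abel
  · intro a
    simp only [NatIso.ofComponents_hom_app, iso, c, cxFunctor_obj_pt]
    have h0 : (K.hom 0 1).hom ((f.f 0).hom a.pt) = 0 := by
      have := congrArg (fun φ => (φ ≫ h'.f 1).hom a.pt) (hH 0 1)
      simpa [K, Homotopy.compRight] using this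
    rw [h0]
    simp

end Groth.Agent.S16331
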