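import Groth.Statements.S16357
import Mathlib

set_option autoImplicit false
set_option linter.unusedSimpArgs false
universe u
open OrdAV

namespace Groth.Agent.S16357

open Polynomial

/-- Over a field L of characteristic zero, a monic polynomial h whose square has rational coefficients
has rational coefficients itself. -/
theorem result (L : Type u) [Field L] [CharZero L]
    (h : Polynomial L) (hm : h.Monic) (f : Polynomial ℚ)
    (hf : h ^ 2 = Polynomial.map (algebraMap ℚ L) f) :
    ∃ g : Polynomial ℚ, Polynomial.map (algebraMap ℚ L) g = h := by
  classical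
  set n := h.natDegree with hn
  have key : ∀ j ≤ n, ∃ t : ℚ[X], t.natDegree ≤ n ∧ t.coeff n = 1 ∧
      (h - t.map (algebraMap ℚ L)).degree < ↑(n - j) := by
    intro j hj
    induction j with
    | zero =>
      refine ⟨X ^ n, by simp, by simp, ?_⟩
      simp only [Nat.sub_zero, Polynomial.map_pow, map_X]
      rw [degree_lt_iff_coeff_zero]
      intro i hi
      rw [coeff_sub, coeff_X_pow]
      rcases eq_or_lt_of_le hi with rfl | hi'
      · rw [if_pos rfl]
        have : h.coeff h.natDegree = 1 := hm
        rw [← hn] at this
        rw [this, sub_self]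
      · rw [if_neg (by omega), coeff_eq_zero_of_natDegree_lt (by omega), sub_zero]
    | succ j ih =>
      obtain ⟨t, htn, htc, htr⟩ := ih (by omega)
      set m := n - (j+1) with hmdef
      have hmn : m < n := by omega
      have hm1 : n - j = m + 1 := by omega
      set r := h - t.map (algebraMap ℚ L) with hr
      have hrdeg : r.natDegree ≤ m := by
        rw [hm1] at htr
        have : r.degree ≤ ↑m := by
          rw [degree_lt_iff_coeff_zero] at htr
          rw [degree_le_iff_coeff_zero]
          intro i hi
          apply htr
          have : (m : WithBot ℕ) < i := hi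
          have : m < i := by exact_mod_cast this
          omega
        exact natDegree_le_of_degree_le this
      have hcoef : (2 : L) * r.coeff m =
          algebraMap ℚ L (f.coeff (n+m) - (t^2).coeff (n+m)) := by
        have e : h = t.map (algebraMap ℚ L) + r := by rw [hr]; ring
        have e2 : (h^2).coeff (n+m) = algebraMap ℚ L (f.coeff (n+m)) := by rw [hf, coeff_map]
        rw [e] at e2
        have hsq : (t.map (algebraMap ℚ L) + r)^2 = (t^2).map (algebraMap ℚ L) +
            C 2 * (t.map (algebraMap ℚ L) * r) + r^2 := by
          rw [Polynomial.map_pow]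
          have : (C 2 : L[X]) = 2 := C_ofNat 2
          rw [this]; ring
        rw [hsq, coeff_add, coeff_add, coeff_map, coeff_C_mul] at e2
        have h1 : (t.map (algebraMap ℚ L) * r).coeff (n + m) = r.coeff m := by
          rw [coeff_mul_add_eq_of_natDegree_le (natDegree_map_le.trans htn) hrdeg, coeff_map, htc,
            map_one, one_mul]
        have h2 : (r^2).coeff (n+m) = 0 := by
          apply coeff_eq_zero_of_natDegree_lt
          calc (r^2).natDegree ≤ 2 * r.natDegree := natDegree_pow_le
            _ < n + m := by omega
        rw [h1, h2, add_zero] at e2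
        rw [map_sub, ← e2]; ring
      set c : ℚ := (f.coeff (n+m) - (t^2).coeff (n+m)) / 2 with hcdef
      have hc : algebraMap ℚ L c = r.coeff m := by
        rw [hcdef, map_div₀, ← hcoef]
        simp
      refine ⟨t + C c * X ^ m, ?_, ?_, ?_⟩
      · refine (natDegree_add_le _ _).trans (max_le htn ?_)
        exact (natDegree_C_mul_X_pow_le c m).trans hmn.le
      · rw [coeff_add, coeff_C_mul_X_pow, if_neg (by omega), add_zero, htc]
      · rw [Polynomial.map_add, Polynomial.map_mul, map_C, Polynomial.map_pow, map_X, ← sub_sub,
          ← hr, hc]
        rw [degree_lt_iff_coeff_zero]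
        intro i hi
        rw [coeff_sub, coeff_C_mul_X_pow]
        rcases eq_or_lt_of_le hi with hh | hi'
        · rw [← hh, if_pos rfl, sub_self]
        · rw [if_neg (by omega), coeff_eq_zero_of_natDegree_lt (by omega), sub_zero]
  obtain ⟨t, -, -, ht⟩ := key n le_rfl
  refine ⟨t, ?_⟩
  rw [Nat.sub_self, degree_lt_iff_coeff_zero] at ht
  have : h - t.map (algebraMap ℚ L) = 0 := by
    ext i
    rw [ht i (by simp), coeff_zero]
  exact (sub_eq_zero.mp this).symm

end Groth.Agent.S16357
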