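import Groth.Statements.S16358
import Mathlib

set_option autoImplicit false
set_option linter.unusedSimpArgs false
universe u v w
open OrdAV

namespace Groth.Agent.S16358

/-- Let k be a perfect field of characteristic p > 0 and W = W(k); let M be a finitely generated free
W-module on which a finite group G acts W-linearly, with invariant submodule M^G. Then the map
(W/pW) ⊗ M^G → (W/pW) ⊗ M induced by the inclusion is injective. Since M^G is free, this implies
rank_W M^G ≤ dim_k (M/pM)^G; the published statement is that inequality, and this row states the
stronger injectivity. -/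
theorem result (p : ℕ) [Fact p.Prime]
    (k : Type u) [Field k] [CharP k p] [PerfectRing k p]
    (M : Type v) [AddCommGroup M] [Module (WittVector p k) M]
    [Module.Free (WittVector p k) M] [Module.Finite (WittVector p k) M]
    (G : Type w) [Group G] [Finite G] (ρ : Representation (WittVector p k) G M) :
    Function.Injective
      (LinearMap.lTensor (WittVector p k ⧸ Ideal.span {(p : WittVector p k)}) ρ.invariants.subtype) := by
  classical
  set I : Ideal (WittVector p k) := Ideal.span {(p : WittVector p k)} with hI
  set N := ρ.invariants with hN
  have hle : I • (⊤ : Submodule (WittVector p k) N) ≤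
      (I • (⊤ : Submodule (WittVector p k) M)).comap N.subtype := by
    rw [Submodule.smul_le]
    intro r hr n _
    simp only [Submodule.mem_comap, Submodule.subtype_apply, Submodule.coe_smul]
    exact Submodule.smul_mem_smul hr Submodule.mem_top
  set ψ := Submodule.mapQ _ _ N.subtype hle with hψdef
  have hcomm : (TensorProduct.quotTensorEquivQuotSMul M I).toLinearMap ∘ₗ
      (LinearMap.lTensor (WittVector p k ⧸ I) N.subtype) =
      ψ ∘ₗ (TensorProduct.quotTensorEquivQuotSMul N I).toLinearMap := by
    apply TensorProduct.ext'
    intro a x
    obtain ⟨r, rfl⟩ := Ideal.Quotient.mk_surjective a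
    simp [ψ]
  have hψ : Function.Injective ψ := by
    rw [← LinearMap.ker_eq_bot, LinearMap.ker_eq_bot']
    intro y hy
    induction y using Submodule.Quotient.induction_on with
    | H x =>
      simp only [ψ, Submodule.mapQ_apply, Submodule.subtype_apply] at hy
      rw [Submodule.Quotient.mk_eq_zero] at hy ⊢
      rw [hI, Submodule.ideal_span_singleton_smul, Submodule.mem_smul_pointwise_iff_exists] at hy ⊢
      obtain ⟨y, -, hy⟩ := hy
      have hyN : y ∈ N := by
        rw [hN, Representation.mem_invariants]
        intro g
        apply smul_right_injective M (WittVector.p_nonzero p k)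
        simp only
        rw [← map_smul, hy]
        exact (Representation.mem_invariants _ _).mp x.2 g
      exact ⟨⟨y, hyN⟩, Submodule.mem_top, Subtype.ext hy⟩
  have : LinearMap.lTensor (WittVector p k ⧸ I) N.subtype =
      (TensorProduct.quotTensorEquivQuotSMul M I).symm.toLinearMap ∘ₗ (ψ ∘ₗ
        (TensorProduct.quotTensorEquivQuotSMul N I).toLinearMap) := by
    rw [← hcomm, ← LinearMap.comp_assoc]
    ext
    simp
  rw [this, LinearMap.coe_comp, LinearMap.coe_comp]
  exact (LinearEquiv.injective _).comp (hψ.comp (LinearEquiv.injective _))

end Groth.Agent.S16358
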