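import Groth.Statements.S16362
import Mathlib.Algebra.Polynomial.Eval.Degree
import Mathlib.Algebra.Polynomial.Monic
import Mathlib.Tactic.FieldSimp
import Mathlib.RingTheory.Localization.FractionRing

set_option autoImplicit false
universe u

open MovLem

namespace Groth.Agent.S16362

open Polynomial

theorem result
    {A : Type u} [CommRing A] (p : Ideal A) [p.IsPrime] (ζ u : A) (hu : u ∉ p) :
    IsIntegral (A ⧸ p)
        (algebraMap (A ⧸ p) (FractionRing (A ⧸ p)) (Ideal.Quotient.mk p ζ) /
          algebraMap (A ⧸ p) (FractionRing (A ⧸ p)) (Ideal.Quotient.mk p u)) ↔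
      ∃ (N : ℕ) (a : ℕ → A),
        ζ ^ N + ∑ i ∈ Finset.Icc 1 N, a i * ζ ^ (N - i) * u ^ i ∈ p := by
  have hinj : Function.Injective (algebraMap (A ⧸ p) (FractionRing (A ⧸ p))) :=
    IsFractionRing.injective (A ⧸ p) (FractionRing (A ⧸ p))
  set z : FractionRing (A ⧸ p) := algebraMap (A ⧸ p) (FractionRing (A ⧸ p)) (Ideal.Quotient.mk p ζ)
    with hz
  set w : FractionRing (A ⧸ p) := algebraMap (A ⧸ p) (FractionRing (A ⧸ p)) (Ideal.Quotient.mk p u)
    with hw
  have hw0 : w ≠ 0 := by
    intro h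
    apply hu
    have : Ideal.Quotient.mk p u = 0 := hinj (by rw [map_zero]; exact h)
    exact Ideal.Quotient.eq_zero_iff_mem.mp this
  have key : ∀ (N i : ℕ), i ≤ N → (z / w) ^ (N - i) * w ^ N = z ^ (N - i) * w ^ i := by
    intro N i hi
    rw [← pow_sub_mul_pow w hi, div_pow]
    have : w ^ (N - i) ≠ 0 := pow_ne_zero _ hw0
    field_simp
  have reidx : ∀ (N : ℕ) (g : ℕ → FractionRing (A ⧸ p)),
      ∑ i ∈ Finset.Icc 1 N, g (N - i) = ∑ j ∈ Finset.range N, g j := by
    intro N g
    apply Finset.sum_nbij' (fun i => N - i) (fun j => N - j)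
    · intro i hi; simp at hi ⊢; omega
    · intro j hj; simp at hj ⊢; omega
    · intro i hi; simp at hi ⊢; omega
    · intro j hj; simp at hj ⊢; omega
    · intro i _; rfl
  constructor
  · rintro ⟨P, hPm, hP⟩
    set N := P.natDegree with hN
    choose a ha using fun i : ℕ => Ideal.Quotient.mk_surjective (I := p) (P.coeff (N - i))
    refine ⟨N, a, ?_⟩
    rw [← Ideal.Quotient.eq_zero_iff_mem]
    apply hinj
    rw [map_zero]
    simp only [map_add, map_sum, map_mul, map_pow, ha]
    rw [← hz, ← hw]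
    rw [eval₂_eq_sum_range, Finset.sum_range_succ, ← hN] at hP
    have hlead : P.coeff N = 1 := hPm
    rw [hlead, map_one, one_mul] at hP
    have hP' := congrArg (· * w ^ N) hP
    simp only [zero_mul, add_mul, Finset.sum_mul] at hP'
    rw [show (z / w) ^ N * w ^ N = z ^ N by
        have := key N 0 (Nat.zero_le N); simpa using this] at hP'
    have e1 : ∑ i ∈ Finset.Icc 1 N,
        algebraMap (A ⧸ p) (FractionRing (A ⧸ p)) (P.coeff (N - i)) * z ^ (N - i) * w ^ i =
        ∑ i ∈ Finset.Icc 1 N, (fun j => algebraMap (A ⧸ p) (FractionRing (A ⧸ p)) (P.coeff j) *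
          ((z / w) ^ j * w ^ N)) (N - i) := by
      apply Finset.sum_congr rfl
      intro i hi
      rw [Finset.mem_Icc] at hi
      simp only
      rw [show (z / w) ^ (N - i) * w ^ N = z ^ (N - i) * w ^ i from key N i hi.2, mul_assoc]
    rw [e1, reidx N (fun j => algebraMap (A ⧸ p) (FractionRing (A ⧸ p)) (P.coeff j) *
      ((z / w) ^ j * w ^ N)), ← hP']
    rw [add_comm]
    congr 1
    apply Finset.sum_congr rfl
    intro j _
    ring
  · rintro ⟨N, a, h⟩
    have hN : N ≠ 0 := by
      rintro rfl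
      simp only [pow_zero, Finset.Icc_eq_empty_of_lt Nat.zero_lt_one, Finset.sum_empty,
        add_zero] at h
      exact (Ideal.IsPrime.ne_top ‹_›) ((Ideal.eq_top_iff_one _).mpr h)
    refine ⟨X ^ N + ∑ i ∈ Finset.Icc 1 N, C (Ideal.Quotient.mk p (a i)) * X ^ (N - i), ?_, ?_⟩
    · apply monic_X_pow_add
      refine lt_of_le_of_lt (degree_sum_le _ _) ((Finset.sup_lt_iff (WithBot.bot_lt_coe N)).mpr ?_)
      intro i hi
      rw [Finset.mem_Icc] at hi
      refine lt_of_le_of_lt (degree_C_mul_X_pow_le _ _) ?_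
      exact WithBot.coe_lt_coe.mpr (by simp only [Nat.cast_id]; omega)
    · have hm := Ideal.Quotient.eq_zero_iff_mem.mpr h
      have hm' := congrArg (algebraMap (A ⧸ p) (FractionRing (A ⧸ p))) hm
      simp only [map_add, map_sum, map_mul, map_pow, map_zero] at hm'
      rw [← hz, ← hw] at hm'
      have hwN : w ^ N ≠ 0 := pow_ne_zero _ hw0
      apply (mul_left_inj' hwN).mp
      rw [zero_mul]
      simp only [eval₂_add, eval₂_X_pow, eval₂_finsetSum, eval₂_mul, eval₂_C, eval₂_X_pow,
        add_mul, Finset.sum_mul]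
      rw [show (z / w) ^ N * w ^ N = z ^ N by
        have := key N 0 (Nat.zero_le N); simpa using this]
      rw [← hm']
      congr 1
      apply Finset.sum_congr rfl
      intro i hi
      rw [Finset.mem_Icc] at hi
      rw [mul_assoc, key N i hi.2, mul_assoc]

end Groth.Agent.S16362
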