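import Groth.Statements.S16371
import Mathlib.Tactic.Ring
import Mathlib.Tactic.LinearCombination

set_option autoImplicit false
universe u v w
open FrobAlg

namespace Groth.Agent.S16371

theorem add_pow_of_sq_eq_zero {B : Type v} [CommRing B] (a t : B) (ht : t ^ 2 = 0) :
    ∀ n : ℕ, (a + t) ^ (n + 1) = a ^ (n + 1) + (n + 1 : B) * a ^ n * t
  | 0 => by simp
  | n + 1 => by
    rw [pow_succ, add_pow_of_sq_eq_zero a t ht n]
    push_cast
    linear_combination (n + 1 : B) * a ^ n * ht

/-- Let p be a prime, A a commutative ring and B, C commutative A-algebras with p² = 0 in B. If two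
A-algebra maps g₁, g₂ : C → B agree modulo p, then they agree on every element of C which is
congruent modulo p to an element of the A-subalgebra generated by the p-th powers. (The source
states this for liftings over a flat ℤ/p²-thickening of two smooth schemes and the subsheaf of
functions whose reduction lies in the image of the relative Frobenius; the smoothness and lifting
hypotheses are not needed for the identity.) -/
theorem result
    (p : ℕ) [Fact p.Prime] (A : Type u) [CommRing A] (B : Type v) [CommRing B] [Algebra A B]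
    (C : Type w) [CommRing C] [Algebra A C] (hp : (p : B) ^ 2 = 0)
    (g₁ g₂ : C →ₐ[A] B) (hg : ∀ x : C, g₁ x - g₂ x ∈ Ideal.span ({(p : B)} : Set B))
    (x y : C) (hy : y ∈ Algebra.adjoin A (Set.range fun c : C => c ^ p))
    (hxy : x - y ∈ Ideal.span ({(p : C)} : Set C)) :
    g₁ x = g₂ x := by
  have hp1 : 1 ≤ p := (Fact.out : p.Prime).one_lt.le
  have key : ∀ c : C, g₁ (c ^ p) = g₂ (c ^ p) := by
    intro c
    obtain ⟨b, hb⟩ := Ideal.mem_span_singleton'.mp (hg c)
    have ht : ((p : B) * b) ^ 2 = 0 := by rw [mul_pow, hp, zero_mul]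
    have e : g₁ c = g₂ c + (p : B) * b := by linear_combination -hb
    rw [map_pow, map_pow, e]
    obtain ⟨m, rfl⟩ : ∃ m, p = m + 1 := ⟨p - 1, by omega⟩
    rw [add_pow_of_sq_eq_zero _ _ ht m]
    have : ((m + 1 : ℕ) : B) = (m + 1 : B) := by push_cast; ring
    rw [← this]
    linear_combination (g₂ c) ^ m * b * hp
  have hyeq : g₁ y = g₂ y := by
    have hle : Algebra.adjoin A (Set.range fun c : C => c ^ p) ≤ AlgHom.equalizer g₁ g₂ := by
      rw [Algebra.adjoin_le_iff]
      rintro _ ⟨c, rfl⟩
      exact key c
    exact hle hy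
  obtain ⟨z, hz⟩ := Ideal.mem_span_singleton'.mp hxy
  have hx : x = y + z * (p : C) := by linear_combination -hz
  obtain ⟨w, hw⟩ := Ideal.mem_span_singleton'.mp (hg z)
  rw [hx, map_add, map_add, map_mul, map_mul, map_natCast, map_natCast, hyeq]
  have : g₁ z = g₂ z + w * (p : B) := by linear_combination -hw
  rw [this]
  linear_combination w * hp

end Groth.Agent.S16371
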