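import Groth.Statements.S16374
import Mathlib.Tactic.Ring
import Mathlib.Tactic.LinearCombination

set_option autoImplicit false
universe u v w
open FrobAlg

namespace Groth.Agent.S16374

/-- Let p be a prime, A a commutative ring, B and C commutative A-algebras with p² = 0 in B, and g : C →
B an A-algebra map such that every g(c) is congruent modulo p to an element of the A-subalgebra of B
generated by the p-th powers (g lifts a relative Frobenius). Then d(g(x)) = 0 in the module of
Kähler differentials of B over A for every x ∈ C that is congruent modulo p to an element of the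
A-subalgebra of C generated by the p-th powers. (The source works with a lifting of the relative
Frobenius of a smooth scheme over a ℤ/p²-thickening and the subsheaf of functions whose reduction
comes from the Frobenius twist; smoothness is not needed for this vanishing.) -/
theorem result
    (p : ℕ) [Fact p.Prime] (A : Type u) [CommRing A] (B : Type v) [CommRing B] [Algebra A B]
    (C : Type w) [CommRing C] [Algebra A C] (hp : (p : B) ^ 2 = 0)
    (g : C →ₐ[A] B)
    (hg : ∀ c : C, ∃ u ∈ Algebra.adjoin A (Set.range fun b : B => b ^ p),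
      g c - u ∈ Ideal.span ({(p : B)} : Set B))
    (x y : C) (hy : y ∈ Algebra.adjoin A (Set.range fun c : C => c ^ p))
    (hxy : x - y ∈ Ideal.span ({(p : C)} : Set C)) :
    KaehlerDifferential.D A B (g x) = 0 := by
  set D := KaehlerDifferential.D A B with hD
  -- elements whose differential is divisible by p
  let S₁ : Subalgebra A B :=
    { carrier := {b | ∃ ω : Ω[B⁄A], D b = (p : B) • ω}
      mul_mem' := by
        rintro a b ⟨ω₁, h₁⟩ ⟨ω₂, h₂⟩
        refine ⟨a • ω₂ + b • ω₁, ?_⟩
        rw [Derivation.leibniz, h₁, h₂, smul_add, smul_comm a, smul_comm b]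
      add_mem' := by
        rintro a b ⟨ω₁, h₁⟩ ⟨ω₂, h₂⟩
        exact ⟨ω₁ + ω₂, by rw [map_add, h₁, h₂, smul_add]⟩
      algebraMap_mem' := fun r => ⟨0, by rw [Derivation.map_algebraMap, smul_zero]⟩ }
  have hS₁ : Algebra.adjoin A (Set.range fun b : B => b ^ p) ≤ S₁ := by
    rw [Algebra.adjoin_le_iff]
    rintro _ ⟨b, rfl⟩
    refine ⟨b ^ (p - 1) • D b, ?_⟩
    show D (b ^ p) = (p : B) • (b ^ (p - 1) • D b)
    rw [Derivation.leibniz_pow, ← Nat.cast_smul_eq_nsmul B]
  have hdiv : ∀ c : C, ∃ ω : Ω[B⁄A], D (g c) = (p : B) • ω := by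
    intro c
    obtain ⟨u, hu, hcu⟩ := hg c
    obtain ⟨ω, hω⟩ := hS₁ hu
    obtain ⟨b, hb⟩ := Ideal.mem_span_singleton'.mp hcu
    have e : g c = u + b * (p : B) := by linear_combination -hb
    refine ⟨ω + D b, ?_⟩
    rw [e, map_add, Derivation.leibniz, Derivation.map_natCast, smul_zero, zero_add, hω, smul_add]
  -- elements whose differential vanishes
  let S₀ : Subalgebra A B :=
    { carrier := {b | D b = 0}
      mul_mem' := by
        intro a b (ha : D a = 0) (hb : D b = 0)
        show D (a * b) = 0
        rw [Derivation.leibniz, ha, hb, smul_zero, smul_zero, add_zero]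
      add_mem' := by
        intro a b (ha : D a = 0) (hb : D b = 0)
        show D (a + b) = 0
        rw [map_add, ha, hb, add_zero]
      algebraMap_mem' := fun r => Derivation.map_algebraMap D r }
  have hS₀ : Algebra.adjoin A (Set.range fun c : C => c ^ p) ≤ S₀.comap g := by
    rw [Algebra.adjoin_le_iff]
    rintro _ ⟨c, rfl⟩
    obtain ⟨ω, hω⟩ := hdiv c
    show D (g (c ^ p)) = 0
    rw [map_pow, Derivation.leibniz_pow, ← Nat.cast_smul_eq_nsmul B, hω, smul_smul, smul_smul]
    have : (p : B) * (g c) ^ (p - 1) * (p : B) = 0 := by linear_combination (g c) ^ (p - 1) * hp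
    rw [this, zero_smul]
  have hDy : D (g y) = 0 := hS₀ hy
  obtain ⟨z, hz⟩ := Ideal.mem_span_singleton'.mp hxy
  have hx : x = y + z * (p : C) := by linear_combination -hz
  obtain ⟨ω, hω⟩ := hdiv z
  rw [hx, map_add, map_mul, map_natCast, map_add, hDy, zero_add, Derivation.leibniz,
    Derivation.map_natCast, smul_zero, zero_add, hω, smul_smul, ← pow_two, hp, zero_smul]

end Groth.Agent.S16374
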