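import Groth.Statements.S1638
import Mathlib.RingTheory.Flat.Basic
import Mathlib.LinearAlgebra.Basis.VectorSpace
-- import your own Groth.Agent.* helpers here

set_option autoImplicit false
universe u
open Brauer

namespace Groth.Agent.S1638

/-- Let A and A' be algebras over a field k with subalgebras B ⊆ A and B' ⊆ A' having centralizers C and
C'. Then the centralizer of the image of B ⊗ B' in A ⊗_k A' is the image of C ⊗_k C'. -/
theorem result (k : Type u) [Field k] (A A' : Type u) [Ring A] [Ring A'] [Algebra k A] [Algebra k A']
    (B : Subalgebra k A) (B' : Subalgebra k A') :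
    Subalgebra.centralizer k ((Algebra.TensorProduct.map B.val B'.val).range : Set (TensorProduct k A A')) =
      (Algebra.TensorProduct.map (Subalgebra.centralizer k (B : Set A)).val (Subalgebra.centralizer k (B' : Set A')).val).range := by
  classical
  set C := Subalgebra.centralizer k (B : Set A) with hC
  set C' := Subalgebra.centralizer k (B' : Set A') with hC'
  apply le_antisymm
  · intro w hw
    rw [Subalgebra.mem_centralizer_iff] at hw
    have h1 : w ∈ Subalgebra.centralizer k
        (Algebra.TensorProduct.includeLeft (S := k) (B := A') '' (B : Set A)) := by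
      rw [Subalgebra.mem_centralizer_iff]
      rintro _ ⟨b, hb, rfl⟩
      refine hw _ ⟨(⟨b, hb⟩ : B) ⊗ₜ[k] (1 : B'), ?_⟩
      simp [Algebra.TensorProduct.map_tmul]
    rw [Subalgebra.centralizer_coe_image_includeLeft_eq_center_tensorProduct] at h1
    obtain ⟨w₀, rfl⟩ := h1
    set ι := Algebra.TensorProduct.map C.val (AlgHom.id k A') with hι
    have hιinj : Function.Injective ι := by
      have heq : ⇑ι = ⇑(LinearMap.rTensor A' C.val.toLinearMap) := by
        funext x
        induction x using TensorProduct.induction_on with
        | zero => simp
        | tmul a b => simp [hι, Algebra.TensorProduct.map_tmul]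
        | add x y hx hy => rw [map_add, map_add, hx, hy]
      rw [heq]
      exact Module.Flat.rTensor_preserves_injective_linearMap _ Subtype.val_injective
    have h2 : w₀ ∈ Subalgebra.centralizer k
        (Algebra.TensorProduct.includeRight (R := k) (A := C) '' (B' : Set A')) := by
      rw [Subalgebra.mem_centralizer_iff]
      rintro _ ⟨b', hb', rfl⟩
      apply hιinj
      rw [map_mul, map_mul]
      have hιb : ι (Algebra.TensorProduct.includeRight b') =
          Algebra.TensorProduct.map B.val B'.val ((1 : B) ⊗ₜ[k] (⟨b', hb'⟩ : B')) := by
        simp [hι, Algebra.TensorProduct.map_tmul]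
      rw [hιb]
      exact hw _ ⟨_, rfl⟩
    rw [Subalgebra.centralizer_coe_image_includeRight_eq_center_tensorProduct] at h2
    obtain ⟨w₁, rfl⟩ := h2
    refine ⟨w₁, ?_⟩
    simp only [AlgHom.toRingHom_eq_coe, RingHom.coe_coe]
    clear hw
    induction w₁ using TensorProduct.induction_on with
    | zero => simp
    | tmul a b => simp [hι, Algebra.TensorProduct.map_tmul]
    | add x y hx hy => rw [map_add, map_add, map_add, hx, hy]
  · rintro _ ⟨w, rfl⟩
    rw [Subalgebra.mem_centralizer_iff]
    rintro _ ⟨v, rfl⟩
    simp only [AlgHom.toRingHom_eq_coe, RingHom.coe_coe]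
    induction v using TensorProduct.induction_on with
    | zero => simp
    | tmul b b' =>
      induction w using TensorProduct.induction_on with
      | zero => simp
      | tmul c c' =>
        simp only [Algebra.TensorProduct.map_tmul, Algebra.TensorProduct.tmul_mul_tmul,
          Subalgebra.coe_val]
        have e1 : (b : A) * c = c * b := (Subalgebra.mem_centralizer_iff k).mp c.2 b b.2
        have e2 : (b' : A') * c' = c' * b' := (Subalgebra.mem_centralizer_iff k).mp c'.2 b' b'.2
        rw [e1, e2]
      | add x y hx hy => rw [map_add, mul_add, add_mul, hx, hy]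
    | add x y hx hy => rw [map_add, add_mul, mul_add, hx, hy]

end Groth.Agent.S1638
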