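import Groth.Statements.S16390
import Mathlib

set_option autoImplicit false
set_option linter.unusedSimpArgs false
open AbVar

namespace Groth.Agent.S16390

/-- Let p be a prime number, r > 2 and q = p^r. The polynomial x² − p x + q is irreducible over ℚ, each
of its complex roots has absolute value √q (so its roots are Weil q-numbers), and it has two
distinct roots in ℚ_p, of p-adic valuations 1 and r − 1. The published lemma also computes the index
of the endomorphism algebra of the simple abelian variety attached to a root; this row does not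
state that part. -/
theorem result (p r : ℕ) [Fact p.Prime] (hr : 2 < r) :
    Irreducible (Polynomial.X ^ 2 - Polynomial.C (p : ℚ) * Polynomial.X + Polynomial.C ((p : ℚ) ^ r)) ∧
      (∀ π : ℂ, π ^ 2 - (p : ℂ) * π + (p : ℂ) ^ r = 0 → ‖π‖ = Real.sqrt ((p : ℝ) ^ r)) ∧
      ∃ a b : ℚ_[p], a ≠ b ∧ a ^ 2 - (p : ℚ_[p]) * a + (p : ℚ_[p]) ^ r = 0 ∧
        b ^ 2 - (p : ℚ_[p]) * b + (p : ℚ_[p]) ^ r = 0 ∧ a.valuation = 1 ∧ b.valuation = (r : ℤ) - 1 := by
  have hp := (Fact.out : p.Prime)
  have hp2 : 2 ≤ p := hp.two_le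
  refine ⟨?_, ?_, ?_⟩
  · -- irreducible: no rational roots
    apply Polynomial.irreducible_of_degree_le_three_of_not_isRoot
    · have : (Polynomial.X ^ 2 - Polynomial.C (p : ℚ) * Polynomial.X +
          Polynomial.C ((p : ℚ) ^ r)).natDegree = 2 := by compute_degree!
      rw [this]; decide
    · intro x hx
      simp only [Polynomial.IsRoot, Polynomial.eval_add, Polynomial.eval_sub, Polynomial.eval_pow,
        Polynomial.eval_X, Polynomial.eval_mul, Polynomial.eval_C] at hx
      have h1 : (1 : ℚ) ≤ p := by exact_mod_cast hp.one_le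
      have h2 : (2 : ℚ) ≤ p := by exact_mod_cast hp2
      have hpr : (p : ℚ) ^ 3 ≤ (p : ℚ) ^ r := pow_le_pow_right₀ h1 (by omega)
      have h3 : 2 * (p : ℚ) ^ 2 ≤ (p : ℚ) ^ 3 := by
        have := mul_le_mul_of_nonneg_right h2 (sq_nonneg (p : ℚ)); nlinarith
      have h4 : 0 < (p : ℚ) ^ 2 := by positivity
      nlinarith [sq_nonneg (x - p / 2)]
  · intro π hπ
    have hre := congrArg Complex.re hπ
    have him := congrArg Complex.im hπ
    simp only [Complex.add_re, Complex.sub_re, Complex.mul_re, Complex.natCast_re,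
      Complex.natCast_im, pow_two, Complex.add_im, Complex.sub_im, Complex.mul_im,
      Complex.zero_re, Complex.zero_im] at hre him
    have hpow_re : ((p : ℂ) ^ r).re = (p : ℝ) ^ r := by
      rw [← Complex.ofReal_natCast, ← Complex.ofReal_pow, Complex.ofReal_re]
    have hpow_im : ((p : ℂ) ^ r).im = 0 := by
      rw [← Complex.ofReal_natCast, ← Complex.ofReal_pow, Complex.ofReal_im]
    rw [hpow_re] at hre
    rw [hpow_im] at him
    have h1 : (1 : ℝ) ≤ p := by exact_mod_cast hp.one_le
    have h2 : (2 : ℝ) ≤ p := by exact_mod_cast hp2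
    have hpr : (p : ℝ) ^ 3 ≤ (p : ℝ) ^ r := pow_le_pow_right₀ h1 (by omega)
    have h3 : 2 * (p : ℝ) ^ 2 ≤ (p : ℝ) ^ 3 := by
      have := mul_le_mul_of_nonneg_right h2 (sq_nonneg (p : ℝ)); nlinarith
    have h4 : 0 < (p : ℝ) ^ 2 := by positivity
    have hy : π.im ≠ 0 := by
      intro hy0
      rw [hy0] at hre
      nlinarith [sq_nonneg (π.re - p / 2)]
    have hx : π.re = p / 2 := by
      have : π.im * (2 * π.re - p) = 0 := by linear_combination him
      rcases mul_eq_zero.mp this with h | h
      · exact absurd h hy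
      · linear_combination h / 2
    rw [Complex.norm_def, Complex.normSq_apply]
    congr 1
    rw [hx] at hre ⊢
    linear_combination -hre
  · -- p-adic roots via Hensel
    set F : Polynomial ℤ := Polynomial.X ^ 2 - Polynomial.X + Polynomial.C ((p : ℤ) ^ (r - 2))
      with hF
    have hFa : Polynomial.aeval (1 : ℤ_[p]) F = (p : ℤ_[p]) ^ (r - 2) := by simp [hF]
    have hFd : Polynomial.aeval (1 : ℤ_[p]) (Polynomial.derivative F) = 1 := by
      rw [hF]
      simp only [Polynomial.derivative_add, Polynomial.derivative_sub, Polynomial.derivative_X_pow,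
        Polynomial.derivative_X, Polynomial.derivative_C]
      simp
      rw [map_ofNat]
      norm_num
    have hnorm : ‖Polynomial.aeval (1 : ℤ_[p]) F‖ <
        ‖Polynomial.aeval (1 : ℤ_[p]) (Polynomial.derivative F)‖ ^ 2 := by
      rw [hFa, hFd, PadicInt.norm_p_pow, norm_one, one_pow]
      have h1 : (1 : ℝ) < p := by exact_mod_cast hp.one_lt
      apply zpow_lt_one_of_neg₀ h1
      have : (1 : ℤ) ≤ ((r - 2 : ℕ) : ℤ) := by exact_mod_cast (show 1 ≤ r - 2 by omega)
      omega
    obtain ⟨z, hz, hz1, -, -⟩ := hensels_lemma hnorm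
    rw [hFd, norm_one] at hz1
    have hz' : z ^ 2 - z + (p : ℤ_[p]) ^ (r - 2) = 0 := by simpa [hF] using hz
    have hznorm : ‖z‖ = 1 := by
      have e : z = (z - 1) + 1 := by ring
      rw [e, PadicInt.norm_add_eq_max_of_ne (by rw [norm_one]; exact hz1.ne), norm_one]
      exact max_eq_right hz1.le
    set zq : ℚ_[p] := (z : ℚ_[p]) with hzq
    have hzqnorm : ‖zq‖ = 1 := by rw [hzq, ← PadicInt.norm_def, hznorm]
    have hzq0 : zq ≠ 0 := by
      intro h0; rw [h0, norm_zero] at hzqnorm; exact zero_ne_one hzqnorm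
    have hzqval : zq.valuation = 0 := by
      have := Padic.norm_eq_zpow_neg_valuation hzq0
      rw [hzqnorm] at this
      have hp0 : (0 : ℝ) < p := by exact_mod_cast hp.pos
      have hp1 : (p : ℝ) ≠ 1 := by exact_mod_cast hp.ne_one
      have h' : (p : ℝ) ^ (-zq.valuation) = (p : ℝ) ^ (0 : ℤ) := by rw [← this, zpow_zero]
      rw [zpow_right_inj₀ hp0 hp1] at h'
      omega
    have hzqeq : zq ^ 2 - zq + (p : ℚ_[p]) ^ (r - 2) = 0 := by
      have := congrArg (fun w : ℤ_[p] => (w : ℚ_[p])) hz'
      simpa [hzq] using this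
    have hpr : (p : ℚ_[p]) ^ r = (p : ℚ_[p]) ^ 2 * (p : ℚ_[p]) ^ (r - 2) := by
      rw [← pow_add]; congr 1; omega
    have hpne : (p : ℚ_[p]) ≠ 0 := by exact_mod_cast hp.ne_zero
    set a : ℚ_[p] := (p : ℚ_[p]) * zq with ha
    set b : ℚ_[p] := (p : ℚ_[p]) - a with hb
    have haeq : a ^ 2 - (p : ℚ_[p]) * a + (p : ℚ_[p]) ^ r = 0 := by
      rw [ha, hpr]; linear_combination (p : ℚ_[p]) ^ 2 * hzqeq
    have hbeq : b ^ 2 - (p : ℚ_[p]) * b + (p : ℚ_[p]) ^ r = 0 := by
      rw [hb]; linear_combination haeq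
    have hab : a * b = (p : ℚ_[p]) ^ r := by
      rw [hb]; linear_combination -haeq
    have ha0 : a ≠ 0 := mul_ne_zero hpne hzq0
    have hb0 : b ≠ 0 := by
      intro h0; rw [h0, mul_zero] at hab; exact pow_ne_zero r hpne hab.symm
    have hva : a.valuation = 1 := by
      rw [ha, Padic.valuation_mul hpne hzq0, Padic.valuation_p, hzqval, add_zero]
    have hvb : b.valuation = (r : ℤ) - 1 := by
      have := congrArg Padic.valuation hab
      rw [Padic.valuation_mul ha0 hb0, Padic.valuation_pow, Padic.valuation_p, hva] at this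
      linarith
    refine ⟨a, b, ?_, haeq, hbeq, hva, hvb⟩
    intro hab'
    have := hvb
    rw [← hab', hva] at this
    omega

end Groth.Agent.S16390
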