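import Groth.Statements.S16401
import Mathlib

set_option autoImplicit false
set_option linter.unusedSimpArgs false
universe u v
open CAlgX

namespace Groth.Agent.S16401

/-- Let R be a commutative ring and (E_a), a ∈ ι, a family of additive subgroups of R indexed by an
additive commutative group ι, with E_0 = R and E_a · E_b ⊆ E_{a+b}. Let β, γ : Fin r → ι be weight
vectors with Σ_j β_j = Σ_i γ_i, and let ϑ be an r × r matrix over R with ϑ_{ij} ∈ E_{γ_i − β_j} for
all i, j and with unit determinant. Then a column vector u satisfies u_j ∈ E_{β_j} for every j if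
and only if (ϑ u)_i ∈ E_{γ_i} for every i; since ϑ is invertible this says that ϑ maps the box Π_j
E_{β_j} bijectively onto the box Π_i E_{γ_i}. -/
theorem result
    {R : Type u} [CommRing R] {ι : Type v} [AddCommGroup ι]
    (E : ι → AddSubgroup R) (h0 : E 0 = ⊤)
    (hmul : ∀ a b : ι, ∀ x ∈ E a, ∀ y ∈ E b, x * y ∈ E (a + b))
    {r : ℕ} (wβ wγ : Fin r → ι) (hsum : ∑ j, wβ j = ∑ i, wγ i)
    (ϑ : Matrix (Fin r) (Fin r) R) (hϑ : ∀ i j, ϑ i j ∈ E (wγ i - wβ j))
    (hdet : IsUnit ϑ.det) (u : Fin r → R) :
    (∀ j, u j ∈ E (wβ j)) ↔ ∀ i, ϑ.mulVec u i ∈ E (wγ i) := by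
  classical
  have hprod : ∀ (s : Finset (Fin r)) (f : Fin r → R) (c : Fin r → ι),
      (∀ k ∈ s, f k ∈ E (c k)) → ∏ k ∈ s, f k ∈ E (∑ k ∈ s, c k) := by
    intro s f c hf
    induction s using Finset.induction_on with
    | empty => simp [h0]
    | insert a s ha ih =>
      rw [Finset.prod_insert ha, Finset.sum_insert ha]
      exact hmul _ _ _ (hf a (Finset.mem_insert_self a s)) _
        (ih (fun k hk => hf k (Finset.mem_insert_of_mem hk)))
  constructor
  · intro hu i
    rw [Matrix.mulVec, dotProduct]
    apply AddSubgroup.sum_mem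
    intro j _
    have := hmul _ _ _ (hϑ i j) _ (hu j)
    simpa using this
  · intro hv j
    set w := ϑ.mulVec u with hw
    have hcr : ϑ.det • u = ϑ.cramer w := by
      rw [Matrix.cramer_eq_adjugate_mulVec, hw, Matrix.mulVec_mulVec, Matrix.adjugate_mul,
        Matrix.smul_mulVec, Matrix.one_mulVec]
    have hdetu : ϑ.det * u j ∈ E (wβ j) := by
      have : ϑ.det * u j = ϑ.cramer w j := by rw [← hcr]; simp [smul_eq_mul]
      rw [this, Matrix.cramer_apply, Matrix.det_apply]
      apply AddSubgroup.sum_mem
      intro σ _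
      rw [Units.smul_def]
      apply AddSubgroup.zsmul_mem
      have key := hprod Finset.univ (fun k => (ϑ.updateCol j w) (σ k) k)
        (fun k => wγ (σ k) - wβ k + if k = j then wβ j else 0) ?_
      · convert key using 2
        rw [Finset.sum_add_distrib, Finset.sum_sub_distrib, Equiv.sum_comp σ wγ, ← hsum]
        simp
      · intro k _
        by_cases hk : k = j
        · subst hk
          simpa [Matrix.updateCol_self] using hv (σ k)
        · simpa [Matrix.updateCol_ne hk, hk] using hϑ (σ k) k
    obtain ⟨d, hd⟩ := hdet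
    have e : u j = (↑d⁻¹ : R) * (ϑ.det * u j) := by
      rw [← hd, ← mul_assoc, Units.inv_mul, one_mul]
    rw [e]
    have := hmul 0 (wβ j) (↑d⁻¹ : R) (by rw [h0]; exact AddSubgroup.mem_top _) _ hdetu
    simpa using this

end Groth.Agent.S16401
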