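import Groth.Statements.S16413
import Mathlib.Tactic.Linarith
import Mathlib.Data.Int.Basic

set_option autoImplicit false
open Dieud

namespace Groth.Agent.S16413

theorem result (i j : ℤ) :
    IsLeast (Set.range fun n : ℕ => max (-i - (n : ℤ)) 0 + max (-j + (n : ℤ)) 0)
      (max (max (-i - j) (-j)) 0) := by
  constructor
  · rcases le_or_gt 0 j with hj | hj
    · refine ⟨j.toNat, ?_⟩
      simp only [Int.toNat_of_nonneg hj]
      omega
    · refine ⟨0, ?_⟩
      simp only [Nat.cast_zero]
      omega
  · rintro _ ⟨n, rfl⟩
    simp only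
    omega

end Groth.Agent.S16413
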