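import Groth.Statements.S16414
import Mathlib.Tactic.Linarith
import Mathlib.Tactic.Positivity

set_option autoImplicit false
open Dieud

namespace Groth.Agent.S16414

theorem result (μ : ℚ) (hμ0 : 0 < μ) (hμ1 : μ ≤ 1) (i : ℤ) :
    IsLeast (Set.range fun j : ℤ => ((max (max (-i - j) (-j)) 0 : ℤ) : ℚ) + (j : ℚ) * μ)
      (max (-(i : ℚ) * μ) 0) := by
  constructor
  · rcases le_or_gt 0 i with hi | hi
    · refine ⟨0, ?_⟩
      have h1 : (max (max (-i - 0) (-0)) 0 : ℤ) = 0 := by omega
      have h2 : max (-(i : ℚ) * μ) 0 = 0 := by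
        apply max_eq_right
        have : (0:ℚ) ≤ i := by exact_mod_cast hi
        nlinarith
      simp only [h1, h2, Int.cast_zero, zero_mul, add_zero]
    · refine ⟨-i, ?_⟩
      have h1 : (max (max (-i - -i) (- -i)) 0 : ℤ) = 0 := by omega
      have h2 : max (-(i : ℚ) * μ) 0 = -(i:ℚ) * μ := by
        apply max_eq_left
        have : (i:ℚ) < 0 := by exact_mod_cast hi
        nlinarith
      simp only [h1, h2, Int.cast_zero, zero_add, Int.cast_neg]
  · rintro _ ⟨j, rfl⟩
    simp only
    have hM1 : -i - j ≤ (max (max (-i - j) (-j)) 0 : ℤ) := by omega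
    have hM2 : -j ≤ (max (max (-i - j) (-j)) 0 : ℤ) := by omega
    have hM3 : 0 ≤ (max (max (-i - j) (-j)) 0 : ℤ) := by omega
    have q1 : (-(i:ℚ) - j) ≤ ((max (max (-i - j) (-j)) 0 : ℤ) : ℚ) := by exact_mod_cast hM1
    have q2 : (-(j:ℚ)) ≤ ((max (max (-i - j) (-j)) 0 : ℤ) : ℚ) := by exact_mod_cast hM2
    have q3 : (0:ℚ) ≤ ((max (max (-i - j) (-j)) 0 : ℤ) : ℚ) := by exact_mod_cast hM3
    apply max_le
    · rcases le_or_gt (i + j) 0 with h | h
      · have : ((i:ℚ) + j) ≤ 0 := by exact_mod_cast h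
        nlinarith
      · rcases le_or_gt 0 j with hj | hj
        · have : (0:ℚ) ≤ j := by exact_mod_cast hj
          have : (0:ℚ) < i + j := by exact_mod_cast h
          nlinarith
        · have : (j:ℚ) < 0 := by exact_mod_cast hj
          have : (0:ℚ) < i + j := by exact_mod_cast h
          nlinarith
    · rcases le_or_gt 0 j with hj | hj
      · have : (0:ℚ) ≤ j := by exact_mod_cast hj
        nlinarith
      · have : (j:ℚ) < 0 := by exact_mod_cast hj
        nlinarith

end Groth.Agent.S16414
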