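import Groth.Statements.S16415
import Mathlib.Tactic.Linarith
import Mathlib.Tactic.Positivity

set_option autoImplicit false
open Dieud

namespace Groth.Agent.S16415

theorem result (μ : ℚ) (hμ0 : 0 < μ) (hμ1 : μ ≤ 1)
    (N : ℕ) (i : ℤ) :
    IsLeast {x : ℚ | ∃ m j : ℤ, max (max (-i - j) (-j)) 0 ≤ m ∧ (N : ℤ) ≤ 2 * m + i + 2 * j ∧
        x = (m : ℚ) + (j : ℚ) * μ}
      (((max (max ⌈((N : ℚ) - i) / 2⌉ (-i)) 0 : ℤ) : ℚ) * μ) := by
  have h1 : ((N : ℚ) - i) / 2 ≤ (⌈((N : ℚ) - i) / 2⌉ : ℚ) := Int.le_ceil _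
  generalize hc : ⌈((N : ℚ) - i) / 2⌉ = c at h1
  generalize hK : max (max c (-i)) 0 = K
  have hKc : c ≤ K := by omega
  have hKi : -i ≤ K := by omega
  have hK0 : 0 ≤ K := by omega
  constructor
  · refine ⟨0, K, ?_, ?_, ?_⟩
    · omega
    · have h2 : (c : ℚ) ≤ (K : ℚ) := by exact_mod_cast hKc
      have h3 : ((N : ℤ) : ℚ) ≤ ((2 * 0 + i + 2 * K : ℤ) : ℚ) := by
        push_cast
        linarith
      exact_mod_cast h3
    · simp
  · rintro x ⟨m, j, hm, hN, rfl⟩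
    have hm0 : 0 ≤ m := by omega
    have hmjc : c ≤ m + j := by
      rw [← hc, Int.ceil_le]
      have : ((N : ℤ) : ℚ) ≤ ((2 * m + i + 2 * j : ℤ) : ℚ) := by exact_mod_cast hN
      push_cast at this ⊢
      linarith
    have hmax : K ≤ m + j := by omega
    have q : (K : ℚ) ≤ ((m + j : ℤ) : ℚ) := by exact_mod_cast hmax
    have q0 : (0 : ℚ) ≤ m := by exact_mod_cast hm0
    push_cast at q
    nlinarith

end Groth.Agent.S16415
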