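import Groth.Statements.S16420
import Mathlib
import Groth.Agent.Lib.Helper24.Torsor

set_option autoImplicit false
set_option linter.unusedSimpArgs false
set_option linter.style.haveILetI false
universe u v
open CAlg

namespace Groth.Agent.S16420

open TensorProduct in
/-- For a commutative local Artinian ring R and an exact sequence 0 → H₁ → H → H₂ → 0 of finite free
R-modules, let F₁ ⊆ H₁ and F₂ ⊆ H₂ be submodules with free quotients, 𝔫 an ideal of R of square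
zero, R̄ = R/𝔫, and F̄ ⊆ H̄ = R̄ ⊗ H an R̄-submodule with free quotient meeting the image of R̄ ⊗ H₁
in the image of R̄ ⊗ F₁ and mapping onto the image of R̄ ⊗ F₂; let L be the set of direct summands F
of H with F ∩ H₁ = F₁, with image F̄ in H̄ and with image F₂ in H₂. Then L is a torsor under
Hom_R(F₂, 𝔫(H₁/F₁)), acting as follows: an R-linear u : H₂ → H₁ with u(H₂) ⊆ 𝔫H₁ moves F ∈ L to the
image of F under x ↦ x + f(u(g(x))). Precisely, for F ∈ L: (1) that image again lies in L; (2) it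
equals F if and only if u(F₂) ⊆ 𝔫F₁; (3) every F' ∈ L is obtained from F in this way for some such
u. (The published statement phrases the torsor under the R̄-linear maps from F̄₂ to 𝔫 ⊗ (H̄₁/F̄₁), a
group identified with the maps u as above modulo those with u(F₂) ⊆ 𝔫F₁, and describes the action
through a lift F₂ → 𝔫 ⊗ H₁ composed with F → F/F₁ ≅ F₂; restricted to F this is x ↦ f(u(g(x))).) -/
theorem result
    (R : Type u) [CommRing R] [IsArtinianRing R] [IsLocalRing R]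
    (H₁ : Type v) (H : Type v) (H₂ : Type v)
    [AddCommGroup H₁] [Module R H₁] [AddCommGroup H] [Module R H] [AddCommGroup H₂] [Module R H₂]
    [Module.Free R H₁] [Module.Finite R H₁] [Module.Free R H] [Module.Finite R H]
    [Module.Free R H₂] [Module.Finite R H₂]
    (f : H₁ →ₗ[R] H) (g : H →ₗ[R] H₂) (hf : Function.Injective f) (hg : Function.Surjective g)
    (hfg : Function.Exact f g)
    (F₁ : Submodule R H₁) (F₂ : Submodule R H₂) [Module.Free R (H₁ ⧸ F₁)] [Module.Free R (H₂ ⧸ F₂)]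
    (𝔫 : Ideal R) (hn : 𝔫 * 𝔫 = ⊥)
    (Fb : Submodule (R ⧸ 𝔫) ((R ⧸ 𝔫) ⊗[R] H))
    [Module.Free (R ⧸ 𝔫) (((R ⧸ 𝔫) ⊗[R] H) ⧸ Fb)]
    (h1 : Fb ⊓ LinearMap.range (f.baseChange (R ⧸ 𝔫)) =
      Submodule.map (f.baseChange (R ⧸ 𝔫)) (F₁.baseChange (R ⧸ 𝔫)))
    (h2 : Submodule.map (g.baseChange (R ⧸ 𝔫)) Fb = F₂.baseChange (R ⧸ 𝔫))
    (F F' : Submodule R H)
    (hF : (∃ C : Submodule R H, IsCompl (F) C) ∧
      (F) ⊓ LinearMap.range f = Submodule.map f F₁ ∧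
      Submodule.baseChange (R ⧸ 𝔫) (F) = Fb ∧ Submodule.map g (F) = F₂)
    (hF' : (∃ C : Submodule R H, IsCompl (F') C) ∧
      (F') ⊓ LinearMap.range f = Submodule.map f F₁ ∧
      Submodule.baseChange (R ⧸ 𝔫) (F') = Fb ∧ Submodule.map g (F') = F₂) :
    (∀ u : H₂ →ₗ[R] H₁, (∀ y : H₂, u y ∈ 𝔫 • (⊤ : Submodule R H₁)) →
      (∃ C : Submodule R H, IsCompl (Submodule.map (LinearMap.id + f ∘ₗ u ∘ₗ g) F) C) ∧
      (Submodule.map (LinearMap.id + f ∘ₗ u ∘ₗ g) F) ⊓ LinearMap.range f = Submodule.map f F₁ ∧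
      Submodule.baseChange (R ⧸ 𝔫) (Submodule.map (LinearMap.id + f ∘ₗ u ∘ₗ g) F) = Fb ∧ Submodule.map g (Submodule.map (LinearMap.id + f ∘ₗ u ∘ₗ g) F) = F₂) ∧
    (∀ u : H₂ →ₗ[R] H₁, (∀ y : H₂, u y ∈ 𝔫 • (⊤ : Submodule R H₁)) →
      (Submodule.map (LinearMap.id + f ∘ₗ u ∘ₗ g) F = F ↔ ∀ y ∈ F₂, u y ∈ 𝔫 • F₁)) ∧
    (∃ u : H₂ →ₗ[R] H₁, (∀ y : H₂, u y ∈ 𝔫 • (⊤ : Submodule R H₁)) ∧
      F' = Submodule.map (LinearMap.id + f ∘ₗ u ∘ₗ g) F) := by
  classical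
  obtain ⟨⟨C, hC⟩, hF1, hF2, hF3⟩ := hF
  obtain ⟨⟨C', hC'⟩, hF1', hF2', hF3'⟩ := hF'
  have hgf : ∀ x, g (f x) = 0 := fun x => hfg.apply_apply_eq_zero x
  have hTapp : ∀ (u : H₂ →ₗ[R] H₁) (x : H), ((LinearMap.id : H →ₗ[R] H) + f ∘ₗ u ∘ₗ g) x = x + f (u (g x)) :=
    fun u x => rfl
  -- generic facts
  have P_inf : ∀ u : H₂ →ₗ[R] H₁, Submodule.map ((LinearMap.id : H →ₗ[R] H) + f ∘ₗ u ∘ₗ g) F ⊓
      LinearMap.range f = F ⊓ LinearMap.range f := by
    intro u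
    ext z
    simp only [Submodule.mem_inf, Submodule.mem_map, LinearMap.mem_range]
    constructor
    · rintro ⟨⟨x, hx, rfl⟩, ⟨a, ha⟩⟩
      rw [hTapp] at ha
      have hxr : x = f (a - u (g x)) := by rw [map_sub, ha]; abel
      have hgx : g x = 0 := by rw [hxr, hgf]
      refine ⟨?_, ⟨a, ?_⟩⟩
      · rw [hTapp, hgx, map_zero, map_zero, add_zero]; exact hx
      · rw [ha, hTapp]
    · rintro ⟨hz, ⟨a, rfl⟩⟩
      exact ⟨⟨f a, hz, by rw [hTapp, hgf, map_zero, map_zero, add_zero]⟩, ⟨a, rfl⟩⟩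
  have hgT : ∀ u : H₂ →ₗ[R] H₁, g ∘ₗ ((LinearMap.id : H →ₗ[R] H) + f ∘ₗ u ∘ₗ g) = g := by
    intro u; ext x; simp [hgf]
  have P_g : ∀ u : H₂ →ₗ[R] H₁, Submodule.map g (Submodule.map ((LinearMap.id : H →ₗ[R] H) + f ∘ₗ u ∘ₗ g) F) =
      Submodule.map g F := by
    intro u; rw [← Submodule.map_comp, hgT]
  have hmk : ∀ u : H₂ →ₗ[R] H₁, (∀ y, u y ∈ 𝔫 • (⊤ : Submodule R H₁)) →
      TensorProduct.mk R (R ⧸ 𝔫) H 1 ∘ₗ ((LinearMap.id : H →ₗ[R] H) + f ∘ₗ u ∘ₗ g) =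
        TensorProduct.mk R (R ⧸ 𝔫) H 1 := by
    intro u hu
    ext x
    simp only [LinearMap.comp_apply, TensorProduct.mk_apply, hTapp, TensorProduct.tmul_add]
    rw [Groth.Agent.Lib.Helper24.Torsor.one_tmul_eq_zero 𝔫
      (Groth.Agent.Lib.Helper24.Torsor.map_smul_top_le 𝔫 f (hu _)), add_zero]
  have P_bc : ∀ u : H₂ →ₗ[R] H₁, (∀ y, u y ∈ 𝔫 • (⊤ : Submodule R H₁)) →
      (Submodule.map ((LinearMap.id : H →ₗ[R] H) + f ∘ₗ u ∘ₗ g) F).baseChange (R ⧸ 𝔫) =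
        F.baseChange (R ⧸ 𝔫) := by
    intro u hu
    rw [Submodule.baseChange_eq_span, Submodule.baseChange_eq_span, ← Submodule.map_comp, hmk u hu]
  have hTT' : ∀ (u : H₂ →ₗ[R] H₁) (x : H),
      ((LinearMap.id : H →ₗ[R] H) + f ∘ₗ u ∘ₗ g) (((LinearMap.id : H →ₗ[R] H) - f ∘ₗ u ∘ₗ g) x) = x := by
    intro u x; simp [hgf]
  have hT'T : ∀ (u : H₂ →ₗ[R] H₁) (x : H),
      ((LinearMap.id : H →ₗ[R] H) - f ∘ₗ u ∘ₗ g) (((LinearMap.id : H →ₗ[R] H) + f ∘ₗ u ∘ₗ g) x) = x := by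
    intro u x; simp [hgf]
  have P_compl : ∀ u : H₂ →ₗ[R] H₁, IsCompl (Submodule.map ((LinearMap.id : H →ₗ[R] H) + f ∘ₗ u ∘ₗ g) F)
      (Submodule.map ((LinearMap.id : H →ₗ[R] H) + f ∘ₗ u ∘ₗ g) C) := by
    intro u
    have hinj : Function.Injective ((LinearMap.id : H →ₗ[R] H) + f ∘ₗ u ∘ₗ g) := by
      intro a b hab
      have := congrArg ((LinearMap.id : H →ₗ[R] H) - f ∘ₗ u ∘ₗ g) hab
      rwa [hT'T, hT'T] at this
    have hsurj : Function.Surjective ((LinearMap.id : H →ₗ[R] H) + f ∘ₗ u ∘ₗ g) := fun x => ⟨_, hTT' u x⟩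
    rw [isCompl_iff, disjoint_iff, codisjoint_iff, ← Submodule.map_inf _ hinj,
      ← Submodule.map_sup, hC.inf_eq_bot, hC.sup_eq_top, Submodule.map_bot, Submodule.map_top,
      LinearMap.range_eq_top.2 hsurj]
    exact ⟨rfl, rfl⟩
  refine ⟨fun u hu => ⟨⟨_, P_compl u⟩, by rw [P_inf, hF1], by rw [P_bc u hu, hF2],
    by rw [P_g, hF3]⟩, ?_, ?_⟩
  · -- part (2)
    intro u hu
    constructor
    · intro hTF y hy
      rw [← hF3] at hy
      obtain ⟨x, hx, rfl⟩ := hy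
      have hTx : ((LinearMap.id : H →ₗ[R] H) + f ∘ₗ u ∘ₗ g) x ∈ F := by
        rw [← hTF]; exact Submodule.mem_map_of_mem hx
      have hfu : f (u (g x)) ∈ F ⊓ LinearMap.range f := by
        refine ⟨?_, ⟨_, rfl⟩⟩
        have : f (u (g x)) = ((LinearMap.id : H →ₗ[R] H) + f ∘ₗ u ∘ₗ g) x - x := by rw [hTapp]; abel
        rw [this]; exact F.sub_mem hTx hx
      rw [hF1] at hfu
      obtain ⟨a, ha, hfa⟩ := hfu
      have hua : u (g x) = a := hf hfa.symm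
      have hF1mem : u (g x) ∈ F₁ := hua ▸ ha
      exact Groth.Agent.Lib.Helper24.Torsor.inf_smul_le 𝔫 F₁ ⟨hF1mem, hu _⟩
    · intro h
      have hle : ∀ x ∈ F, f (u (g x)) ∈ F := by
        intro x hx
        have hgx : g x ∈ F₂ := hF3 ▸ Submodule.mem_map_of_mem hx
        have h1 : u (g x) ∈ F₁ := Submodule.smul_le_right (h _ hgx)
        have h2 : f (u (g x)) ∈ Submodule.map f F₁ := Submodule.mem_map_of_mem h1
        rw [← hF1] at h2
        exact h2.1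
      apply le_antisymm
      · rintro _ ⟨x, hx, rfl⟩
        rw [hTapp]; exact F.add_mem hx (hle x hx)
      · intro x hx
        refine ⟨x - f (u (g x)), F.sub_mem hx (hle x hx), ?_⟩
        rw [hTapp]; simp [hgf]
  · -- part (3)
    haveI hF2proj : Module.Projective R F₂ :=
      Groth.Agent.Lib.Helper24.Torsor.projective_of_quot F₂
    have hgFmem : ∀ x : F, g x ∈ F₂ := fun x => hF3 ▸ Submodule.mem_map_of_mem x.2
    have hgF'mem : ∀ x : F', g x ∈ F₂ := fun x => hF3' ▸ Submodule.mem_map_of_mem x.2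
    let gF : F →ₗ[R] F₂ := LinearMap.codRestrict F₂ (g ∘ₗ F.subtype) hgFmem
    let gF' : F' →ₗ[R] F₂ := LinearMap.codRestrict F₂ (g ∘ₗ F'.subtype) hgF'mem
    have gF_surj : Function.Surjective gF := by
      rintro ⟨y, hy⟩
      rw [← hF3] at hy
      obtain ⟨x, hx, rfl⟩ := hy
      exact ⟨⟨x, hx⟩, rfl⟩
    have gF'_surj : Function.Surjective gF' := by
      rintro ⟨y, hy⟩
      rw [← hF3'] at hy
      obtain ⟨x, hx, rfl⟩ := hy
      exact ⟨⟨x, hx⟩, rfl⟩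
    obtain ⟨σ, hσ⟩ := Module.projective_lifting_property gF LinearMap.id gF_surj
    obtain ⟨σ', hσ'⟩ := Module.projective_lifting_property gF' LinearMap.id gF'_surj
    have hσg : ∀ y : F₂, g (σ y : H) = y := fun y => by
      have := congrArg (fun φ => ((φ y : F₂) : H₂)) hσ
      simpa [gF] using this
    have hσ'g : ∀ y : F₂, g (σ' y : H) = y := fun y => by
      have := congrArg (fun φ => ((φ y : F₂) : H₂)) hσ'
      simpa [gF'] using this
    have hδmem : ∀ y : F₂, ((F'.subtype ∘ₗ σ') - (F.subtype ∘ₗ σ)) y ∈ LinearMap.range f := by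
      intro y
      exact (hfg _).1 (by simp [hσg, hσ'g])
    let δ₁ : F₂ →ₗ[R] H₁ := (LinearEquiv.ofInjective f hf).symm.toLinearMap ∘ₗ
      LinearMap.codRestrict (LinearMap.range f) ((F'.subtype ∘ₗ σ') - (F.subtype ∘ₗ σ)) hδmem
    have hδ₁ : ∀ y : F₂, f (δ₁ y) = (σ' y : H) - σ y := by
      intro y
      have := LinearEquiv.ofInjective_symm_apply (f := f) (h := hf)
        (LinearMap.codRestrict (LinearMap.range f) ((F'.subtype ∘ₗ σ') - (F.subtype ∘ₗ σ)) hδmem y)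
      simp only [δ₁, LinearMap.comp_apply, LinearEquiv.coe_coe]
      rw [this]
      simp
    obtain ⟨sg, hsg⟩ := Module.projective_lifting_property g LinearMap.id hg
    have hsg' : ∀ y, g (sg y) = y := fun y => by simpa using congrArg (fun φ => φ y) hsg
    have hrmem : ∀ x : H, ((LinearMap.id : H →ₗ[R] H) - sg ∘ₗ g) x ∈ LinearMap.range f := by
      intro x; exact (hfg _).1 (by simp [hsg'])
    let r : H →ₗ[R] H₁ := (LinearEquiv.ofInjective f hf).symm.toLinearMap ∘ₗ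
      LinearMap.codRestrict (LinearMap.range f) ((LinearMap.id : H →ₗ[R] H) - sg ∘ₗ g) hrmem
    have hrf : ∀ a, r (f a) = a := by
      intro a
      apply hf
      have := LinearEquiv.ofInjective_symm_apply (f := f) (h := hf)
        (LinearMap.codRestrict (LinearMap.range f) ((LinearMap.id : H →ₗ[R] H) - sg ∘ₗ g) hrmem (f a))
      simp only [r, LinearMap.comp_apply, LinearEquiv.coe_coe]
      rw [this]
      simp [hgf]
    have hδ₁mem : ∀ y : F₂, δ₁ y ∈ F₁ ⊔ 𝔫 • (⊤ : Submodule R H₁) := by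
      intro y
      have h1 : (1 : R ⧸ 𝔫) ⊗ₜ[R] (σ y : H) ∈ F'.baseChange (R ⧸ 𝔫) := by
        rw [hF2', ← hF2]
        exact Submodule.tmul_mem_baseChange_of_mem 1 (σ y).2
      have h2 := Groth.Agent.Lib.Helper24.Torsor.mem_sup_of_one_tmul_mem 𝔫 F' h1
      obtain ⟨x'', hx'', n, hn, hxn⟩ := Submodule.mem_sup.1 h2
      have hgn : g n ∈ F₂ := by
        have : g n = (y : H₂) - g x'' := by rw [← hσg y, ← hxn, map_add]; abel
        rw [this]
        exact F₂.sub_mem y.2 (hgF'mem ⟨x'', hx''⟩)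
      have hgn2 : g n ∈ 𝔫 • F₂ := Groth.Agent.Lib.Helper24.Torsor.inf_smul_le 𝔫 F₂
        ⟨hgn, Groth.Agent.Lib.Helper24.Torsor.map_smul_top_le 𝔫 g hn⟩
      have hgn3 : (⟨g n, hgn⟩ : F₂) ∈ 𝔫 • (⊤ : Submodule R F₂) :=
        (Submodule.mem_smul_top_iff 𝔫 F₂ _).2 hgn2
      have hσn : (σ' ⟨g n, hgn⟩ : H) ∈ 𝔫 • (⊤ : Submodule R H) :=
        Groth.Agent.Lib.Helper24.Torsor.map_smul_top_le 𝔫 (F'.subtype ∘ₗ σ') hgn3
      have hx'F : x'' + (σ' ⟨g n, hgn⟩ : H) ∈ F' := F'.add_mem hx'' (σ' _).2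
      have hgx' : g (x'' + (σ' ⟨g n, hgn⟩ : H)) = y := by
        rw [map_add, hσ'g]
        show g x'' + g n = y
        rw [← hσg y, ← hxn, map_add]
      have hdiff : (σ' y : H) - (x'' + (σ' ⟨g n, hgn⟩ : H)) ∈ F' ⊓ LinearMap.range f :=
        ⟨F'.sub_mem (σ' y).2 hx'F, (hfg _).1 (by rw [map_sub, hσ'g, hgx', sub_self])⟩
      rw [hF1'] at hdiff
      obtain ⟨a, ha, hfa⟩ := hdiff
      have hfd : f (δ₁ y - a) = (σ' ⟨g n, hgn⟩ : H) - n := by
        rw [map_sub, hδ₁, hfa, ← hxn]; abel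
      have hmem : δ₁ y - a ∈ 𝔫 • (⊤ : Submodule R H₁) := by
        rw [← hrf (δ₁ y - a), hfd]
        exact Groth.Agent.Lib.Helper24.Torsor.map_smul_top_le 𝔫 r (Submodule.sub_mem _ hσn hn)
      have : δ₁ y = a + (δ₁ y - a) := by abel
      rw [this]
      exact Submodule.add_mem_sup ha hmem
    obtain ⟨ρ₂, hρ₂⟩ := Groth.Agent.Lib.Helper24.Torsor.exists_retraction F₂
    let N : Submodule R H₁ := 𝔫 • (⊤ : Submodule R H₁)
    let qN : N →ₗ[R] H₁ ⧸ F₁ := F₁.mkQ ∘ₗ N.subtype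
    let ε : H₂ →ₗ[R] H₁ ⧸ F₁ := F₁.mkQ ∘ₗ δ₁ ∘ₗ ρ₂
    have hεmem : ∀ y, ε y ∈ LinearMap.range qN := by
      intro y
      obtain ⟨a, ha, n, hn, han⟩ := Submodule.mem_sup.1 (hδ₁mem (ρ₂ y))
      refine ⟨⟨n, hn⟩, ?_⟩
      simp only [qN, ε, LinearMap.comp_apply, Submodule.subtype_apply, Submodule.mkQ_apply]
      rw [← han, Submodule.Quotient.mk_add, (Submodule.Quotient.mk_eq_zero F₁).2 ha, zero_add]
    obtain ⟨u₀, hu₀⟩ := Module.projective_lifting_property (LinearMap.rangeRestrict qN)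
      (LinearMap.codRestrict _ ε hεmem) (LinearMap.surjective_rangeRestrict qN)
    let u : H₂ →ₗ[R] H₁ := N.subtype ∘ₗ u₀
    have hu : ∀ y, u y ∈ 𝔫 • (⊤ : Submodule R H₁) := fun y => (u₀ y).2
    have huδ : ∀ y : F₂, u y - δ₁ y ∈ F₁ := by
      intro y
      have h1 := congrArg (fun φ => ((φ y : LinearMap.range qN) : H₁ ⧸ F₁)) hu₀
      simp only [LinearMap.comp_apply, LinearMap.codRestrict_apply] at h1
      have h2 : F₁.mkQ (u y) = F₁.mkQ (δ₁ y) := by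
        have e1 : F₁.mkQ (u y) = qN (u₀ y) := rfl
        rw [e1]
        refine h1.trans ?_
        simp only [ε, LinearMap.comp_apply, hρ₂]
      rw [← Submodule.Quotient.mk_eq_zero, Submodule.Quotient.mk_sub, ← Submodule.mkQ_apply,
        ← Submodule.mkQ_apply, h2, sub_self]
    refine ⟨u, hu, ?_⟩
    have hTF'le : Submodule.map ((LinearMap.id : H →ₗ[R] H) + f ∘ₗ u ∘ₗ g) F ≤ F' := by
      rintro _ ⟨x, hx, rfl⟩
      have hgx : g x ∈ F₂ := hgFmem ⟨x, hx⟩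
      have h1 : x - σ ⟨g x, hgx⟩ ∈ F' := by
        have h0 : x - σ ⟨g x, hgx⟩ ∈ F ⊓ LinearMap.range f :=
          ⟨F.sub_mem hx (σ _).2, (hfg _).1 (by rw [map_sub, hσg, sub_self])⟩
        rw [hF1, ← hF1'] at h0
        exact h0.1
      have h2 : f (u (g x) - δ₁ ⟨g x, hgx⟩) ∈ F' := by
        have h0 : f (u (g x) - δ₁ ⟨g x, hgx⟩) ∈ Submodule.map f F₁ :=
          Submodule.mem_map_of_mem (huδ ⟨g x, hgx⟩)
        rw [← hF1'] at h0
        exact h0.1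
      have h3 : ((LinearMap.id : H →ₗ[R] H) + f ∘ₗ u ∘ₗ g) x = (x - σ ⟨g x, hgx⟩) + σ' ⟨g x, hgx⟩ + f (u (g x) - δ₁ ⟨g x, hgx⟩) := by
        rw [hTapp, map_sub, hδ₁]; abel
      rw [h3]
      exact F'.add_mem (F'.add_mem h1 (σ' _).2) h2
    apply le_antisymm
    · intro z hz
      have hgz : g z ∈ Submodule.map g (Submodule.map ((LinearMap.id : H →ₗ[R] H) + f ∘ₗ u ∘ₗ g) F) := by
        rw [P_g, hF3, ← hF3']; exact Submodule.mem_map_of_mem hz
      obtain ⟨w, hw, hwz⟩ := hgz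
      have hzw : z - w ∈ F' ⊓ LinearMap.range f :=
        ⟨F'.sub_mem hz (hTF'le hw), (hfg _).1 (by rw [map_sub, hwz, sub_self])⟩
      rw [hF1', ← hF1, ← P_inf u] at hzw
      have : z = w + (z - w) := by abel
      rw [this]
      exact Submodule.add_mem _ hw hzw.1
    · exact hTF'le

end Groth.Agent.S16420
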