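import Groth.Statements.S16498
import Mathlib.Data.Nat.Choose.Lucas
import Mathlib.Algebra.Polynomial.Coeff
import Mathlib.Algebra.Polynomial.Degree.Support
import Mathlib.Algebra.Polynomial.Degree.Lemmas
import Mathlib.Algebra.BigOperators.Fin
import Mathlib.Algebra.CharP.Basic
import Mathlib.Tactic.Ring

set_option autoImplicit false
universe u
open Curves

namespace Groth.Agent.S16498

open Polynomial Finset

theorem sum_range_mul_eq {k : Type u} [AddCommMonoid k] (p : ℕ) (G : ℕ → k) :
    ∀ n : ℕ, ∑ l ∈ range (n * p), G l = ∑ I ∈ range n, ∑ x ∈ range p, G (I * p + x)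
  | 0 => by simp
  | n + 1 => by
    rw [Nat.succ_mul, Finset.sum_range_add, sum_range_mul_eq p G n, Finset.sum_range_succ]

theorem lucas_k {k : Type u} [Field k] (p : ℕ) [Fact p.Prime] [CharP k p] (I i r s : ℕ)
    (hr : r < p) (hs : s < p) :
    ((I * p + r).choose (i * p + s) : k) = (r.choose s : k) * (I.choose i : k) := by
  have hp0 : 0 < p := (Fact.out : p.Prime).pos
  have h := Choose.choose_modEq_choose_mod_mul_choose_div_nat (n := I * p + r) (k := i * p + s)
    (p := p)
  have e1 : (I * p + r) % p = r := by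
    rw [Nat.add_comm, Nat.add_mul_mod_self_right, Nat.mod_eq_of_lt hr]
  have e2 : (I * p + r) / p = I := by
    rw [Nat.add_comm, Nat.add_mul_div_right _ _ hp0, Nat.div_eq_of_lt hr, zero_add]
  have e3 : (i * p + s) % p = s := by
    rw [Nat.add_comm, Nat.add_mul_mod_self_right, Nat.mod_eq_of_lt hs]
  have e4 : (i * p + s) / p = i := by
    rw [Nat.add_comm, Nat.add_mul_div_right _ _ hp0, Nat.div_eq_of_lt hs, zero_add]
  rw [e1, e2, e3, e4] at h
  have := CharP.natCast_eq_natCast' k p h
  rw [this, Nat.cast_mul]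

/-- Let k be a field of odd characteristic p, g ≤ p a natural number, f ∈ k[x] of degree at most 2g + 2,
and α ∈ k. Write f^((p-1)/2) = Σ_l c_l x^l and f(x + α)^((p-1)/2) = Σ_l d_l x^l, and form the g × g
Cartier–Manin matrices (c_{ip-j}) and (d_{ip-j}), indices i, j = 1, …, g (below written with i, j
ranging over Fin g, so that the entry at (i, j) is the coefficient of x^((i+1)p-(j+1))). Then
(d_{ip-j}) = L · (c_{ip-j}) · U with L_{i,I} = binom(I-1, i-1) α^((I-i)p) and U_{J,j} = binom(p-J,
p-j) α^(j-J); both L and U are unitriangular since a binomial coefficient vanishes when its lower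
index exceeds its upper index. (The source works over a perfect field, with f separable of degree 2g
+ 2 and α ∈ k^* a root of f, hypotheses this identity does not use.) -/
theorem result (k : Type u) [Field k] (p : ℕ) [Fact p.Prime] (hp : p ≠ 2) [CharP k p]
    (g : ℕ) (hg : g ≤ p) (f : Polynomial k) (hf : f.natDegree ≤ 2 * g + 2) (α : k) :
    (Matrix.of fun i j : Fin g =>
        ((f.comp (Polynomial.X + Polynomial.C α)) ^ ((p - 1) / 2)).coeff (((i : ℕ) + 1) * p - ((j : ℕ) + 1))) =
      (Matrix.of fun i I : Fin g => (((I : ℕ).choose (i : ℕ) : ℕ) : k) * α ^ (((I : ℕ) - (i : ℕ)) * p)) *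
        (Matrix.of fun i j : Fin g => (f ^ ((p - 1) / 2)).coeff (((i : ℕ) + 1) * p - ((j : ℕ) + 1))) *
        (Matrix.of fun J j : Fin g => (((p - ((J : ℕ) + 1)).choose (p - ((j : ℕ) + 1)) : ℕ) : k) * α ^ ((j : ℕ) - (J : ℕ))) := by
  have hp0 : 0 < p := (Fact.out : p.Prime).pos
  set N := (p - 1) / 2 with hN
  set h := f ^ N with hh
  -- degree bound
  have hdeg : h.natDegree ≤ (g + 1) * (p - 1) := by
    calc h.natDegree ≤ N * f.natDegree := natDegree_pow_le
      _ ≤ N * (2 * g + 2) := Nat.mul_le_mul_left _ hf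
      _ = (N * 2) * (g + 1) := by ring
      _ ≤ (p - 1) * (g + 1) := Nat.mul_le_mul_right _ (Nat.div_mul_le_self _ _)
      _ = (g + 1) * (p - 1) := by ring
  have hgp : (g + 1) * (p - 1) + (g + 1) = (g + 1) * p := by
    rw [← Nat.mul_succ]; congr 1; omega
  have hlt : h.natDegree < (g + 1) * p := by omega
  -- the translated coefficients
  have htr : ∀ m : ℕ, ((f.comp (X + C α)) ^ N).coeff m =
      ∑ l ∈ range ((g + 1) * p), h.coeff l * (α ^ (l - m) * (l.choose m : k)) := by
    intro m
    rw [← pow_comp, ← hh]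
    conv_lhs => rw [h.as_sum_range' _ hlt]
    rw [Polynomial.sum_comp, finsetSum_coeff]
    refine Finset.sum_congr rfl fun l _ => ?_
    rw [monomial_comp, coeff_C_mul, coeff_X_add_C_pow]
  -- the summand
  set T : ℕ → ℕ → ℕ → ℕ → k := fun i j I J =>
    ((I.choose i : ℕ) : k) * α ^ ((I - i) * p) * h.coeff ((I + 1) * p - (J + 1)) *
      (((p - (J + 1)).choose (p - (j + 1)) : ℕ) : k) * α ^ (j - J) with hT
  ext i j
  have hi : (i : ℕ) < g := i.2
  have hj : (j : ℕ) < g := j.2
  -- left side as a double sum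
  have hL : ((f.comp (X + C α)) ^ N).coeff (((i : ℕ) + 1) * p - ((j : ℕ) + 1)) =
      ∑ I ∈ range (g + 1), ∑ J ∈ range p, T i j I J := by
    rw [htr, sum_range_mul_eq p _ (g + 1)]
    refine Finset.sum_congr rfl fun I _ => ?_
    rw [← Finset.sum_range_reflect]
    refine Finset.sum_congr rfl fun J hJ => ?_
    rw [Finset.mem_range] at hJ
    have hr : p - 1 - J < p := by omega
    have hs : p - 1 - (j : ℕ) < p := by omega
    have eI : (I + 1) * p - (J + 1) = I * p + (p - 1 - J) := by
      rw [Nat.add_mul, one_mul]; omega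
    have em : ((i : ℕ) + 1) * p - ((j : ℕ) + 1) = (i : ℕ) * p + (p - 1 - (j : ℕ)) := by
      rw [Nat.add_mul, one_mul]; omega
    simp only [hT]
    rw [eI, em, lucas_k p I i _ _ hr hs]
    have e5 : p - (J + 1) = p - 1 - J := by omega
    have e6 : p - ((j : ℕ) + 1) = p - 1 - (j : ℕ) := by omega
    rw [e5, e6]
    by_cases hIi : I < (i : ℕ)
    · rw [Nat.choose_eq_zero_of_lt hIi]; simp
    by_cases hJj : (j : ℕ) < J
    · rw [Nat.choose_eq_zero_of_lt (show p - 1 - J < p - 1 - (j : ℕ) by omega)]; simp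
    push Not at hIi hJj
    have hmul : (i : ℕ) * p ≤ I * p := Nat.mul_le_mul_right _ hIi
    have eexp : I * p + (p - 1 - J) - ((i : ℕ) * p + (p - 1 - (j : ℕ))) =
        (I - (i : ℕ)) * p + ((j : ℕ) - J) := by
      rw [Nat.sub_mul]; omega
    rw [eexp, pow_add]
    ring
  -- right side as a double sum
  have hR : ((Matrix.of fun i I : Fin g => (((I : ℕ).choose (i : ℕ) : ℕ) : k) *
        α ^ (((I : ℕ) - (i : ℕ)) * p)) *
      (Matrix.of fun i j : Fin g => (f ^ ((p - 1) / 2)).coeff (((i : ℕ) + 1) * p - ((j : ℕ) + 1))) *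
      (Matrix.of fun J j : Fin g => (((p - ((J : ℕ) + 1)).choose (p - ((j : ℕ) + 1)) : ℕ) : k) *
        α ^ ((j : ℕ) - (J : ℕ)))) i j = ∑ I ∈ range g, ∑ J ∈ range g, T i j I J := by
    simp only [Matrix.mul_apply, Matrix.of_apply, Finset.sum_mul]
    rw [Finset.sum_comm]
    calc _ = ∑ y : Fin g, ∑ x : Fin g, T i j y x := by
          refine Finset.sum_congr rfl fun y _ => Finset.sum_congr rfl fun x _ => ?_
          simp only [hT, hh, hN]; ring
      _ = ∑ I ∈ range g, ∑ J ∈ range g, T i j I J := by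
          rw [Fin.sum_univ_eq_sum_range (fun I => ∑ x : Fin g, T i j I x)]
          refine Finset.sum_congr rfl fun I _ => ?_
          exact Fin.sum_univ_eq_sum_range (fun J => T i j I J) g
  rw [Matrix.of_apply, hL, hR]
  have hJ : ∀ I, ∑ J ∈ range p, T i j I J = ∑ J ∈ range g, T i j I J := by
    intro I
    symm
    apply Finset.sum_subset (Finset.range_subset_range.mpr hg)
    intro J hJp hJg
    simp only [Finset.mem_range, not_lt] at hJp hJg
    simp only [hT]
    rw [Nat.choose_eq_zero_of_lt (by omega : p - (J + 1) < p - ((j : ℕ) + 1))]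
    simp
  rw [Finset.sum_congr rfl (fun I _ => hJ I), Finset.sum_range_succ]
  have hzero : ∑ J ∈ range g, T i j g J = 0 := by
    apply Finset.sum_eq_zero
    intro J hJ
    simp only [Finset.mem_range] at hJ
    simp only [hT]
    rw [coeff_eq_zero_of_natDegree_lt (show h.natDegree < (g + 1) * p - (J + 1) by omega)]
    simp
  rw [hzero, add_zero]

end Groth.Agent.S16498
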