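import Groth.Statements.S16499
import Groth.Agent.S16498
import Mathlib.LinearAlgebra.Matrix.Block

set_option autoImplicit false
universe u
open Curves

namespace Groth.Agent.S16499

/-- Let k be a field of odd characteristic p, g ≤ p a natural number, f ∈ k[x] of degree at most 2g + 2,
and α ∈ k. Write f^((p-1)/2) = Σ_l c_l x^l and f(x + α)^((p-1)/2) = Σ_l d_l x^l. Then the g × g
Cartier–Manin matrices (c_{ip-j}) and (d_{ip-j}), indices i, j = 1, …, g (below indexed by Fin g
with entry at (i, j) the coefficient of x^((i+1)p-(j+1))), have equal determinants: whether the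
Cartier–Manin determinant of y^2 = f(x) vanishes does not depend on translating x. (The source works
over a perfect field, with f separable of degree 2g + 2 and α ∈ k^* a root of f, hypotheses this
identity does not use.) -/
theorem result (k : Type u) [Field k] (p : ℕ) [Fact p.Prime] (hp : p ≠ 2) [CharP k p]
    (g : ℕ) (hg : g ≤ p) (f : Polynomial k) (hf : f.natDegree ≤ 2 * g + 2) (α : k) :
    (Matrix.of fun i j : Fin g =>
        ((f.comp (Polynomial.X + Polynomial.C α)) ^ ((p - 1) / 2)).coeff (((i : ℕ) + 1) * p - ((j : ℕ) + 1))).det =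
      (Matrix.of fun i j : Fin g => (f ^ ((p - 1) / 2)).coeff (((i : ℕ) + 1) * p - ((j : ℕ) + 1))).det := by
  rw [Groth.Agent.S16498.result k p hp g hg f hf α, Matrix.det_mul, Matrix.det_mul]
  have hL : (Matrix.of fun i I : Fin g => (((I : ℕ).choose (i : ℕ) : ℕ) : k) *
      α ^ (((I : ℕ) - (i : ℕ)) * p)).det = 1 := by
    rw [Matrix.det_of_isUpperTriangular]
    · apply Finset.prod_eq_one
      intro i _
      simp
    · intro i I hIi
      simp only [Matrix.of_apply]
      rw [Nat.choose_eq_zero_of_lt (show (I : ℕ) < (i : ℕ) from hIi)]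
      simp
  have hU : (Matrix.of fun J j : Fin g => (((p - ((J : ℕ) + 1)).choose (p - ((j : ℕ) + 1)) : ℕ) : k) *
      α ^ ((j : ℕ) - (J : ℕ))).det = 1 := by
    rw [Matrix.det_of_isUpperTriangular]
    · apply Finset.prod_eq_one
      intro i _
      simp
    · intro J j hjJ
      have hJ : (J : ℕ) < g := J.2
      have hjJ' : (j : ℕ) < (J : ℕ) := hjJ
      simp only [Matrix.of_apply]
      rw [Nat.choose_eq_zero_of_lt (show p - ((J : ℕ) + 1) < p - ((j : ℕ) + 1) by omega)]
      simp
  rw [hL, hU, one_mul, mul_one]

end Groth.Agent.S16499
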