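import Groth.Statements.S16500
import Mathlib.Algebra.Polynomial.Degree.Lemmas
import Mathlib.Tactic.Ring
import Mathlib.Data.Nat.Prime.Basic

set_option autoImplicit false
universe u
open Curves

namespace Groth.Agent.S16500

open Polynomial

theorem reflect_pow {k : Type u} [CommRing k] (f : Polynomial k) (M : ℕ) (hf : f.natDegree ≤ M) :
    ∀ n : ℕ, reflect (n * M) (f ^ n) = (reflect M f) ^ n
  | 0 => by simp
  | n + 1 => by
    have hdeg : (f ^ n).natDegree ≤ n * M :=
      le_trans natDegree_pow_le (Nat.mul_le_mul_left _ hf)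
    rw [Nat.succ_mul, pow_succ, reflect_mul _ _ hdeg hf, reflect_pow f M hf n, pow_succ]

/-- Let k be a field of odd characteristic p, g ≤ p a natural number and f ∈ k[x] of degree at most 2g +
2. Let F be f with its coefficients reversed in degrees 0, …, 2g + 2, i.e. F(X) = X^(2g+2) f(1/X)
(Mathlib's reflect (2g+2) f), and write f^((p-1)/2) = Σ_l c_l x^l and F^((p-1)/2) = Σ_l C_l X^l.
Then C_{ip-j} = c_{(g+1-i)p-(g+1-j)} for all i, j = 1, …, g; that is, the g × g Cartier–Manin matrix
of F is that of f with the order of both rows and columns reversed (below the indices run over Fin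
g, the entry at (i, j) being the coefficient of degree (i+1)p-(j+1), and reversal is Fin.rev). In
particular the two matrices have the same determinant. (The source applies this to f with f(0) = 0,
separable of degree 2g + 2 over a perfect field, so that F has odd degree 2g + 1; the identity uses
none of that.) -/
theorem result (k : Type u) [Field k] (p : ℕ) [Fact p.Prime] (hp : p ≠ 2) [CharP k p]
    (g : ℕ) (hg : g ≤ p) (f : Polynomial k) (hf : f.natDegree ≤ 2 * g + 2) :
    (Matrix.of fun i j : Fin g =>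
        ((Polynomial.reflect (2 * g + 2) f) ^ ((p - 1) / 2)).coeff (((i : ℕ) + 1) * p - ((j : ℕ) + 1))) =
      Matrix.of fun i j : Fin g =>
        (f ^ ((p - 1) / 2)).coeff (((Fin.rev i : ℕ) + 1) * p - ((Fin.rev j : ℕ) + 1)) := by
  have hpodd : p % 2 = 1 := (Nat.Prime.eq_two_or_odd (Fact.out : p.Prime)).resolve_left hp
  have hp1 : 1 ≤ p := (Fact.out : p.Prime).one_lt.le
  set N := (p - 1) / 2 with hN
  have h2N : 2 * N = p - 1 := by omega
  ext i j
  simp only [Matrix.of_apply]
  rw [← reflect_pow f _ hf N, coeff_reflect]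
  have hi : (i : ℕ) < g := i.2
  have hj : (j : ℕ) < g := j.2
  have hD : N * (2 * g + 2) = (g + 1) * p - (g + 1) := by
    have : N * (2 * g + 2) = (2 * N) * (g + 1) := by ring
    rw [this, h2N, Nat.sub_mul, one_mul, Nat.mul_comm]
  have hm : ((i : ℕ) + 1) * p - ((j : ℕ) + 1) ≤ N * (2 * g + 2) := by
    rw [hD]
    have h1 : ((i : ℕ) + 1) * p ≤ g * p := Nat.mul_le_mul_right _ (by omega)
    have h2 : g * p + g ≤ (g + 1) * p := by
      rw [Nat.add_mul, one_mul]; omega
    omega
  rw [revAt_le hm, hD, Fin.val_rev, Fin.val_rev]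
  congr 1
  -- arithmetic: (g+1)p - (g+1) - ((i+1)p - (j+1)) = (g-1-i+1)p - (g-1-j+1)
  have e1 : g - 1 - (i : ℕ) + 1 = g - (i : ℕ) := by omega
  have e2 : g - 1 - (j : ℕ) + 1 = g - (j : ℕ) := by omega
  rw [show g - ((i : ℕ) + 1) + 1 = g - (i : ℕ) by omega,
    show g - ((j : ℕ) + 1) + 1 = g - (j : ℕ) by omega]
  have h3 : ((i : ℕ) + 1) * p + (g - (i : ℕ)) * p = (g + 1) * p := by
    rw [← Nat.add_mul]; congr 1; omega
  have h4 : (j : ℕ) + 1 ≤ ((i : ℕ) + 1) * p := by
    have : 1 * p ≤ ((i : ℕ) + 1) * p := Nat.mul_le_mul_right _ (by omega)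
    omega
  have h5 : g - (j : ℕ) ≤ (g - (i : ℕ)) * p := by
    have : 1 * p ≤ (g - (i : ℕ)) * p := Nat.mul_le_mul_right _ (by omega)
    omega
  omega

end Groth.Agent.S16500
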