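import Groth.Statements.S16661
-- import your own Groth.Agent.* helpers here

set_option autoImplicit false
universe v u
open TensorProduct
open Conn

namespace Groth.Agent.S16661

/-- Let B be an A-algebra with a receptacle of differentials (Ω, δ), Ω a finite free B-module (the
affine-local form of differentials locally free of finite type), let M be a finite free B-module
(the local form of a vector bundle) with a connection ∇ : M → M ⊗ Ω, and let ∇_E be the induced
connection on the B-linear endomorphisms of M, the one with (ev_m ⊗ 1)(∇_E φ) = ∇(φ m) − (φ ⊗ 1)(∇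
m). Give B the connection b ↦ 1 ⊗ δ b. Then the trace map End_B(M) → B is horizontal: 1 ⊗ δ(tr φ) =
(tr ⊗ 1)(∇_E φ) for every endomorphism φ. -/
theorem result {A : Type v} {B Ω M : Type u}
    [CommRing A] [CommRing B] [Algebra A B]
    [AddCommGroup Ω] [Module B Ω] [Module A Ω] [IsScalarTower A B Ω] [Module.Finite B Ω] [Module.Free B Ω]
    [AddCommGroup M] [Module B M] [Module A M] [IsScalarTower A B M] [Module.Finite B M] [Module.Free B M]
    (δ : Derivation A B Ω) (nabla : M →ₗ[A] M ⊗[B] Ω) (hc : Conn.IsConn δ nabla)
    (nablaE : (M →ₗ[B] M) →ₗ[A] (M →ₗ[B] M) ⊗[B] Ω) (hE : Conn.IsHomConn nabla nabla nablaE) :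
    Conn.IsHorizontal nablaE (Conn.triv δ) (LinearMap.trace B M) := by
  classical
  intro φ
  let b := Module.Free.chooseBasis B M
  have hc' : ∀ (c : B) (m : M), nabla (c • m) = c • nabla m + m ⊗ₜ[B] δ c := hc
  have hE' : ∀ (ψ : M →ₗ[B] M) (m : M),
      TensorProduct.map (LinearMap.applyₗ m) LinearMap.id (nablaE ψ) =
        nabla (ψ m) - TensorProduct.map ψ LinearMap.id (nabla m) := hE
  have htr : ∀ ψ : M →ₗ[B] M, LinearMap.trace B M ψ = ∑ i, b.coord i (ψ (b i)) := by
    intro ψ
    rw [LinearMap.trace_eq_matrix_trace B b, Matrix.trace]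
    simp [LinearMap.toMatrix_apply]
  have hK : ∀ X : (M →ₗ[B] M) ⊗[B] Ω, TensorProduct.map (LinearMap.trace B M) LinearMap.id X =
      ∑ i, TensorProduct.map (b.coord i) LinearMap.id
        (TensorProduct.map (LinearMap.applyₗ (b i)) LinearMap.id X) := by
    intro X
    induction X using TensorProduct.induction_on with
    | zero => simp
    | tmul ψ ω => simp [htr, TensorProduct.sum_tmul]
    | add x y hx hy => simp only [map_add, hx, hy, Finset.sum_add_distrib]
  let a : _ → _ → B := fun j i => b.coord j (φ (b i))
  have hφb : ∀ i, φ (b i) = ∑ j, a j i • b j := by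
    intro i
    simp only [a, Module.Basis.coord_apply]
    exact (b.sum_repr (φ (b i))).symm
  have hcoordφ : ∀ i (Y : M ⊗[B] Ω), TensorProduct.map (b.coord i) LinearMap.id
      (TensorProduct.map φ LinearMap.id Y) =
        ∑ k, a i k • TensorProduct.map (b.coord k) LinearMap.id Y := by
    intro i Y
    induction Y using TensorProduct.induction_on with
    | zero => simp
    | tmul m ω =>
      simp only [TensorProduct.map_tmul, LinearMap.id_apply]
      have hm : φ m = ∑ k, b.coord k m • φ (b k) := by
        have := congrArg φ (b.sum_repr m)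
        rw [map_sum] at this
        simp only [map_smul] at this
        simpa [Module.Basis.coord_apply] using this.symm
      rw [hm, map_sum]
      simp only [map_smul, smul_eq_mul, TensorProduct.sum_tmul, TensorProduct.smul_tmul', a]
      refine Finset.sum_congr rfl fun k _ => ?_
      rw [mul_comm]
    | add x y hx hy => simp only [map_add, hx, hy, smul_add, Finset.sum_add_distrib]
  have hnab : ∀ i, nabla (φ (b i)) = ∑ j, (a j i • nabla (b j) + b j ⊗ₜ[B] δ (a j i)) := by
    intro i
    rw [hφb i, map_sum]
    simp only [hc']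
  rw [Conn.triv_apply, hK]
  simp only [hE', map_sub, hcoordφ, hnab, map_sum, map_add, map_smul, TensorProduct.map_tmul,
    LinearMap.id_apply]
  have hcb : ∀ i j, b.coord i (b j) = if j = i then 1 else 0 := by
    intro i j
    rw [Module.Basis.coord_apply, Module.Basis.repr_self, Finsupp.single_apply]
  rw [Finset.sum_sub_distrib]
  simp only [Finset.sum_add_distrib]
  have h1 : ∑ x, ∑ x_1, a x_1 x • (TensorProduct.map (b.coord x) LinearMap.id) (nabla (b x_1)) =
      ∑ x, ∑ k, a x k • (TensorProduct.map (b.coord k) LinearMap.id) (nabla (b x)) :=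
    Finset.sum_comm
  have h2 : ∀ x, ∑ x_1, (b.coord x) (b x_1) ⊗ₜ[B] δ (a x_1 x) = (1 : B) ⊗ₜ[B] δ (a x x) := by
    intro x
    rw [Finset.sum_eq_single x]
    · rw [hcb, if_pos rfl]
    · intro j _ hj; rw [hcb, if_neg hj, TensorProduct.zero_tmul]
    · intro h; exact absurd (Finset.mem_univ x) h
  simp only [h2]
  rw [h1, htr, map_sum, TensorProduct.tmul_sum]
  abel

end Groth.Agent.S16661
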