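import Groth.Statements.S16662
import Mathlib.LinearAlgebra.TensorProduct.Basis
import Mathlib.LinearAlgebra.FreeModule.Basic
-- import your own Groth.Agent.* helpers here

set_option autoImplicit false
universe v u
open TensorProduct
open Conn

namespace Groth.Agent.S16662

theorem equivRight_map {R : Type*} [CommRing R] {M M' N : Type*} [AddCommGroup M] [Module R M]
    [AddCommGroup M'] [Module R M'] [AddCommGroup N] [Module R N] {κ : Type*} [DecidableEq κ]
    (𝒞 : Module.Basis κ R N) (f : M →ₗ[R] M') (t : M ⊗[R] N) (i : κ) :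
    TensorProduct.equivFinsuppOfBasisRight 𝒞 (TensorProduct.map f LinearMap.id t) i =
      f (TensorProduct.equivFinsuppOfBasisRight 𝒞 t i) := by
  induction t using TensorProduct.induction_on with
  | zero => simp
  | tmul m n => simp
  | add x y hx hy => simp only [map_add, Finsupp.add_apply, hx, hy]

theorem ev_inj {B Ω X Y : Type*} [CommRing B] [AddCommGroup Ω] [Module B Ω] [Module.Free B Ω]
    [AddCommGroup X] [Module B X] [AddCommGroup Y] [Module B Y]
    (ψ₁ ψ₂ : (X →ₗ[B] Y) ⊗[B] Ω)
    (h : ∀ x, TensorProduct.map (LinearMap.applyₗ x) LinearMap.id ψ₁ =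
      TensorProduct.map (LinearMap.applyₗ x) LinearMap.id ψ₂) : ψ₁ = ψ₂ := by
  classical
  let bΩ := Module.Free.chooseBasis B Ω
  apply (TensorProduct.equivFinsuppOfBasisRight (M := X →ₗ[B] Y) bΩ).injective
  ext i x
  have h1 := equivRight_map bΩ (LinearMap.applyₗ (R := B) (M := X) (M₂ := Y) x) ψ₁ i
  have h2 := equivRight_map bΩ (LinearMap.applyₗ (R := B) (M := X) (M₂ := Y) x) ψ₂ i
  rw [h x] at h1
  simp only [LinearMap.applyₗ_apply_apply] at h1 h2
  rw [← h1, h2]


/-- Let B be an A-algebra with a receptacle of differentials (Ω, δ), Ω a finite free B-module, and let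
E, F, G be B-modules with connections ∇_E, ∇_F, ∇_G, with E and F finitely presented. Equip
Hom_B(E,F), Hom_B(F,G) and Hom_B(E,G) with the induced connections (the connection ∇'' on Hom_B(X,Y)
being the one with (ev_x ⊗ 1)(∇'' φ) = ∇_Y(φ x) − (φ ⊗ 1)(∇_X x)), and Hom_B(F,G) ⊗ Hom_B(E,F) with
the tensor product of these connections. Then the composition map Hom_B(F,G) ⊗ Hom_B(E,F) →
Hom_B(E,G), ψ ⊗ φ ↦ ψ ∘ φ, is horizontal. -/
theorem result {A : Type v} {B Ω E F G : Type u}
    [CommRing A] [CommRing B] [Algebra A B]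
    [AddCommGroup Ω] [Module B Ω] [Module A Ω] [IsScalarTower A B Ω] [Module.Finite B Ω] [Module.Free B Ω]
    [AddCommGroup E] [Module B E] [Module A E] [IsScalarTower A B E] [Module.FinitePresentation B E]
    [AddCommGroup F] [Module B F] [Module A F] [IsScalarTower A B F] [Module.FinitePresentation B F]
    [AddCommGroup G] [Module B G] [Module A G] [IsScalarTower A B G]
    (δ : Derivation A B Ω)
    (nE : E →ₗ[A] E ⊗[B] Ω) (hcE : Conn.IsConn δ nE)
    (nF : F →ₗ[A] F ⊗[B] Ω) (hcF : Conn.IsConn δ nF)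
    (nG : G →ₗ[A] G ⊗[B] Ω) (hcG : Conn.IsConn δ nG)
    (nEF : (E →ₗ[B] F) →ₗ[A] (E →ₗ[B] F) ⊗[B] Ω) (hEF : Conn.IsHomConn nE nF nEF)
    (nFG : (F →ₗ[B] G) →ₗ[A] (F →ₗ[B] G) ⊗[B] Ω) (hFG : Conn.IsHomConn nF nG nFG)
    (nEG : (E →ₗ[B] G) →ₗ[A] (E →ₗ[B] G) ⊗[B] Ω) (hEG : Conn.IsHomConn nE nG nEG)
    (nT : (F →ₗ[B] G) ⊗[B] (E →ₗ[B] F) →ₗ[A] ((F →ₗ[B] G) ⊗[B] (E →ₗ[B] F)) ⊗[B] Ω)
    (hT : Conn.IsTensorConn nFG nEF nT) :
    Conn.IsHorizontal nT nEG (TensorProduct.lift (LinearMap.llcomp B E F G)) := by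
  intro t
  induction t using TensorProduct.induction_on with
  | zero => simp
  | tmul ψ φ =>
    rw [hT]
    apply ev_inj
    intro e
    simp only [TensorProduct.lift.tmul, map_add]
    have ha : ∀ X : (F →ₗ[B] G) ⊗[B] Ω,
        TensorProduct.map (LinearMap.applyₗ e) LinearMap.id
          (TensorProduct.map (TensorProduct.lift (LinearMap.llcomp B E F G)) LinearMap.id
            (Conn.swapR (X ⊗ₜ[B] φ))) =
        TensorProduct.map (LinearMap.applyₗ (φ e)) LinearMap.id X := by
      intro X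
      induction X using TensorProduct.induction_on with
      | zero => simp
      | tmul ψ' ω => rw [Conn.swapR_tmul]; simp
      | add x y hx hy => rw [TensorProduct.add_tmul, map_add, map_add, map_add, hx, hy, map_add]
    have hb : ∀ Y : (E →ₗ[B] F) ⊗[B] Ω,
        TensorProduct.map (LinearMap.applyₗ e) LinearMap.id
          (TensorProduct.map (TensorProduct.lift (LinearMap.llcomp B E F G)) LinearMap.id
            ((TensorProduct.assoc B (F →ₗ[B] G) (E →ₗ[B] F) Ω).symm (ψ ⊗ₜ[B] Y))) =
        TensorProduct.map ψ LinearMap.id (TensorProduct.map (LinearMap.applyₗ e) LinearMap.id Y) := by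
      intro Y
      induction Y using TensorProduct.induction_on with
      | zero => simp
      | tmul φ' ω => simp
      | add x y hx hy => rw [TensorProduct.tmul_add, map_add, map_add, map_add, hx, hy, map_add, map_add]
    rw [ha, hb, hEG, hFG, hEF]
    have hcomp : TensorProduct.map (ψ ∘ₗ φ) LinearMap.id (nE e) =
        TensorProduct.map ψ LinearMap.id (TensorProduct.map φ LinearMap.id (nE e)) := by
      rw [← LinearMap.comp_apply, ← TensorProduct.map_comp, LinearMap.id_comp]
    have hl : (LinearMap.llcomp B E F G) ψ φ = ψ ∘ₗ φ := rfl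
    rw [hl, LinearMap.comp_apply, hcomp, map_sub]
    abel
  | add x y hx hy => simp only [map_add, hx, hy]

end Groth.Agent.S16662
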