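import Groth.Statements.S16663
import Groth.Agent.S16661
import Mathlib.LinearAlgebra.TensorProduct.Basis
import Mathlib.LinearAlgebra.FreeModule.Basic
-- import your own Groth.Agent.* helpers here

set_option autoImplicit false
universe v u
open TensorProduct
open Conn

namespace Groth.Agent.S16663

theorem equivRight_map {R : Type*} [CommRing R] {M M' N : Type*} [AddCommGroup M] [Module R M]
    [AddCommGroup M'] [Module R M'] [AddCommGroup N] [Module R N] {κ : Type*} [DecidableEq κ]
    (𝒞 : Module.Basis κ R N) (f : M →ₗ[R] M') (t : M ⊗[R] N) (i : κ) :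
    TensorProduct.equivFinsuppOfBasisRight 𝒞 (TensorProduct.map f LinearMap.id t) i =
      f (TensorProduct.equivFinsuppOfBasisRight 𝒞 t i) := by
  induction t using TensorProduct.induction_on with
  | zero => simp
  | tmul m n => simp
  | add x y hx hy => simp only [map_add, Finsupp.add_apply, hx, hy]

theorem ev_inj {B Ω X Y : Type*} [CommRing B] [AddCommGroup Ω] [Module B Ω] [Module.Free B Ω]
    [AddCommGroup X] [Module B X] [AddCommGroup Y] [Module B Y]
    (ψ₁ ψ₂ : (X →ₗ[B] Y) ⊗[B] Ω)
    (h : ∀ x, TensorProduct.map (LinearMap.applyₗ x) LinearMap.id ψ₁ =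
      TensorProduct.map (LinearMap.applyₗ x) LinearMap.id ψ₂) : ψ₁ = ψ₂ := by
  classical
  let bΩ := Module.Free.chooseBasis B Ω
  apply (TensorProduct.equivFinsuppOfBasisRight (M := X →ₗ[B] Y) bΩ).injective
  ext i x
  have h1 := equivRight_map bΩ (LinearMap.applyₗ (R := B) (M := X) (M₂ := Y) x) ψ₁ i
  have h2 := equivRight_map bΩ (LinearMap.applyₗ (R := B) (M := X) (M₂ := Y) x) ψ₂ i
  rw [h x] at h1
  simp only [LinearMap.applyₗ_apply_apply] at h1 h2
  rw [← h1, h2]


/-- Let B be an A-algebra with a receptacle of differentials (Ω, δ), Ω a finite free B-module (the local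
form of a weakly smooth scheme), and let M be a finitely ℤ-graded B-module presented as a finite
family of finite free B-modules M_i with integer degrees deg i (the local form of a graded vector
bundle), with total module Π_i M_i. Let ∇ be a connection on Π_i M_i preserving the grading, in the
sense that (pr_j ⊗ 1)(∇(ι_i m)) = 0 for m ∈ M_i whenever deg i ≠ deg j, and let ∇_E be the induced
connection on the B-linear endomorphisms, the one with (ev_m ⊗ 1)(∇_E φ) = ∇(φ m) − (φ ⊗ 1)(∇ m).
Give B the connection b ↦ 1 ⊗ δ b. Then the supertrace, φ ↦ tr(ε ∘ φ) with ε = Σ_i (−1)^{deg i} ι_i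
∘ pr_i the grading involution, is a horizontal map End_B(Π_i M_i) → B. -/
theorem result {A : Type v} {B Ω ι : Type u}
    [CommRing A] [CommRing B] [Algebra A B]
    [AddCommGroup Ω] [Module B Ω] [Module A Ω] [IsScalarTower A B Ω] [Module.Finite B Ω] [Module.Free B Ω]
    [Fintype ι] [DecidableEq ι] (deg : ι → ℤ) (M : ι → Type u)
    [∀ i, AddCommGroup (M i)] [∀ i, Module B (M i)] [∀ i, Module A (M i)] [∀ i, IsScalarTower A B (M i)]
    [∀ i, Module.Free B (M i)] [∀ i, Module.Finite B (M i)]
    (δ : Derivation A B Ω) (nabla : (Π k, M k) →ₗ[A] (Π k, M k) ⊗[B] Ω) (hc : Conn.IsConn δ nabla)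
    (hgr : ∀ i j : ι, deg i ≠ deg j → ∀ m : M i,
      TensorProduct.map (LinearMap.proj j : (Π k, M k) →ₗ[B] M j) LinearMap.id (nabla (LinearMap.single B M i m)) = 0)
    (nablaE : ((Π k, M k) →ₗ[B] (Π k, M k)) →ₗ[A] ((Π k, M k) →ₗ[B] (Π k, M k)) ⊗[B] Ω)
    (hE : Conn.IsHomConn nabla nabla nablaE) :
    Conn.IsHorizontal nablaE (Conn.triv δ)
      (LinearMap.trace B (Π k, M k) ∘ₗ LinearMap.llcomp B (Π k, M k) (Π k, M k) (Π k, M k)
        (∑ i : ι, (LinearMap.single B M i) ∘ₗ (((-1 : B) ^ (deg i).natAbs) • (LinearMap.proj i : (Π k, M k) →ₗ[B] M i)))) := by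
  classical
  intro φ
  let ε : (Π k, M k) →ₗ[B] (Π k, M k) := ∑ i : ι, (LinearMap.single B M i) ∘ₗ
    (((-1 : B) ^ (deg i).natAbs) • (LinearMap.proj i : (Π k, M k) →ₗ[B] M i))
  let c : ι → B := fun i => (-1 : B) ^ (deg i).natAbs
  have hεapp : ∀ (y : (Π k, M k)) (k : ι), ε y k = c k • y k := by
    intro y k
    simp only [ε, LinearMap.coe_sum, Finset.sum_apply, LinearMap.comp_apply,
      LinearMap.smul_apply, LinearMap.proj_apply, LinearMap.single_apply]
    rw [Finset.sum_eq_single k]
    · simp [c]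
    · intro j _ hj; rw [Pi.single_eq_of_ne (Ne.symm hj)]
    · intro h; exact absurd (Finset.mem_univ k) h
  have hc' : ∀ (b : B) (m : (Π k, M k)), nabla (b • m) = b • nabla m + m ⊗ₜ[B] δ b := hc
  have hE' : ∀ (ψ : (Π k, M k) →ₗ[B] (Π k, M k)) (m : (Π k, M k)),
      TensorProduct.map (LinearMap.applyₗ m) LinearMap.id (nablaE ψ) =
        nabla (ψ m) - TensorProduct.map ψ LinearMap.id (nabla m) := hE
  have hδc : ∀ i, δ (c i) = 0 := by
    intro i
    show δ ((-1 : B) ^ (deg i).natAbs) = 0
    rw [Derivation.leibniz_pow, map_neg, Derivation.map_one_eq_zero, neg_zero, smul_zero, smul_zero]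
  -- general tensor lemmas
  have map_sum_left : ∀ {X Y : Type u} [AddCommGroup X] [Module B X] [AddCommGroup Y] [Module B Y]
      (f : ι → X →ₗ[B] Y) (Z : X ⊗[B] Ω),
      TensorProduct.map (∑ j, f j) LinearMap.id Z = ∑ j, TensorProduct.map (f j) LinearMap.id Z := by
    intro X Y _ _ _ _ f Z
    induction Z using TensorProduct.induction_on with
    | zero => simp
    | tmul x ω => simp [TensorProduct.sum_tmul]
    | add x y hx hy => simp only [map_add, hx, hy, Finset.sum_add_distrib]
  have map_comp_left : ∀ {X Y W : Type u} [AddCommGroup X] [Module B X] [AddCommGroup Y] [Module B Y]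
      [AddCommGroup W] [Module B W] (f : Y →ₗ[B] W) (g : X →ₗ[B] Y) (Z : X ⊗[B] Ω),
      TensorProduct.map (f ∘ₗ g) LinearMap.id Z =
        TensorProduct.map f LinearMap.id (TensorProduct.map g LinearMap.id Z) := by
    intro X Y W _ _ _ _ _ _ f g Z
    rw [← LinearMap.comp_apply, ← TensorProduct.map_comp, LinearMap.id_comp]
  have map_smul_left : ∀ {X Y : Type u} [AddCommGroup X] [Module B X] [AddCommGroup Y] [Module B Y]
      (b : B) (f : X →ₗ[B] Y) (Z : X ⊗[B] Ω),
      TensorProduct.map (b • f) LinearMap.id Z = b • TensorProduct.map f LinearMap.id Z := by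
    intro X Y _ _ _ _ b f Z
    induction Z using TensorProduct.induction_on with
    | zero => simp
    | tmul x ω => simp [TensorProduct.smul_tmul']
    | add x y hx hy => simp only [map_add, hx, hy, smul_add]
  have hid : (∑ j : ι, (LinearMap.single B M j) ∘ₗ (LinearMap.proj j : (Π k, M k) →ₗ[B] M j)) =
      LinearMap.id := by
    refine LinearMap.ext fun y => ?_
    funext k
    simp only [LinearMap.coe_sum, Finset.sum_apply, LinearMap.comp_apply, LinearMap.proj_apply,
      LinearMap.single_apply, LinearMap.id_apply]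
    rw [Finset.sum_eq_single k]
    · simp
    · intro j _ hj; rw [Pi.single_eq_of_ne (Ne.symm hj)]
    · intro h; exact absurd (Finset.mem_univ k) h
  have hdecomp : ∀ Z : (Π k, M k) ⊗[B] Ω, Z = ∑ j, TensorProduct.map (LinearMap.single B M j) LinearMap.id
      (TensorProduct.map (LinearMap.proj j : (Π k, M k) →ₗ[B] M j) LinearMap.id Z) := by
    intro Z
    have h0 : Z = TensorProduct.map (∑ j : ι, (LinearMap.single B M j) ∘ₗ
        (LinearMap.proj j : (Π k, M k) →ₗ[B] M j)) LinearMap.id Z := by
      rw [hid, TensorProduct.map_id, LinearMap.id_apply]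
    rw [map_sum_left] at h0
    simp only [map_comp_left] at h0
    exact h0
  have hysum : ∀ y : (Π k, M k), y = ∑ i, LinearMap.single B M i (y i) := by
    intro y
    have := congrArg (fun f => f y) hid
    simp only [LinearMap.coe_sum, Finset.sum_apply, LinearMap.comp_apply, LinearMap.proj_apply,
      LinearMap.id_apply] at this
    exact this.symm
  have hεy : ∀ y : (Π k, M k), ε y = ∑ i, c i • LinearMap.single B M i (y i) := by
    intro y
    funext k
    rw [hεapp, Finset.sum_apply]
    simp only [Pi.smul_apply, LinearMap.single_apply]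
    rw [Finset.sum_eq_single k]
    · simp
    · intro j _ hj; rw [Pi.single_eq_of_ne (Ne.symm hj), smul_zero]
    · intro h; exact absurd (Finset.mem_univ k) h
  have hprojε : ∀ j, (LinearMap.proj j : (Π k, M k) →ₗ[B] M j) ∘ₗ ε = c j • (LinearMap.proj j : (Π k, M k) →ₗ[B] M j) := by
    intro j
    refine LinearMap.ext fun y => ?_
    simp only [LinearMap.comp_apply, LinearMap.proj_apply, LinearMap.smul_apply, hεapp]
  have hεhor : ∀ y : (Π k, M k), nabla (ε y) = TensorProduct.map ε LinearMap.id (nabla y) := by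
    intro y
    rw [hdecomp (nabla (ε y)), hdecomp (TensorProduct.map ε LinearMap.id (nabla y))]
    refine Finset.sum_congr rfl fun j _ => ?_
    congr 1
    rw [← map_comp_left, hprojε, map_smul_left]
    rw [hεy, map_sum]
    conv_rhs => rw [hysum y, map_sum]
    simp only [hc', hδc, TensorProduct.tmul_zero, add_zero, map_sum, map_smul, Finset.smul_sum]
    refine Finset.sum_congr rfl fun i _ => ?_
    by_cases hij : deg i = deg j
    · simp only [c, hij]
    · rw [hgr i j hij, smul_zero, smul_zero]
  -- the main argument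
  have hcomm : TensorProduct.map (LinearMap.llcomp B (Π k, M k) (Π k, M k) (Π k, M k) ε) LinearMap.id (nablaE φ) =
      nablaE (ε ∘ₗ φ) := by
    apply ev_inj
    intro m
    rw [← map_comp_left, hE']
    have h1 : (LinearMap.applyₗ m : ((Π k, M k) →ₗ[B] (Π k, M k)) →ₗ[B] (Π k, M k)) ∘ₗ LinearMap.llcomp B (Π k, M k) (Π k, M k) (Π k, M k) ε =
        ε ∘ₗ LinearMap.applyₗ m := by
      refine LinearMap.ext fun ψ => ?_
      simp
    rw [h1, map_comp_left, hE', map_sub, ← hεhor (φ m), map_comp_left]
    rfl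
  have htr := Groth.Agent.S16661.result δ nabla hc nablaE hE
  show Conn.triv δ ((LinearMap.trace B (Π k, M k) ∘ₗ LinearMap.llcomp B (Π k, M k) (Π k, M k) (Π k, M k) ε) φ) =
    TensorProduct.map (LinearMap.trace B (Π k, M k) ∘ₗ LinearMap.llcomp B (Π k, M k) (Π k, M k) (Π k, M k) ε) LinearMap.id (nablaE φ)
  rw [map_comp_left, hcomm, ← htr]
  rfl

end Groth.Agent.S16663
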