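import Groth.Statements.S16664
-- import your own Groth.Agent.* helpers here

set_option autoImplicit false
universe v u
open TensorProduct
open Conn

namespace Groth.Agent.S16664

/-- Let B be an A-algebra with a receptacle of differentials (Ω, δ), Ω free on a finite basis ω_1, …,
ω_n, let M be a finitely presented B-module with a connection ∇, let ∇_E be the induced connection
on the B-linear endomorphisms of M (the one with (ev_m ⊗ 1)(∇_E φ) = ∇(φ m) − (φ ⊗ 1)(∇ m)), and for
each q let ∇_q = (1 ⊗ ω_q^*) ∘ ∇_E be the covariant derivative on End_B(M) along the q-th vector of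
the dual basis. If an endomorphism φ satisfies φ ∘ ∇_q(φ) + ∇_q(φ) ∘ φ = 0 for every q, then for all
q, r one has φ ∘ ∇_q(∇_r(φ)) + ∇_q(∇_r(φ)) ∘ φ + ∇_q(φ) ∘ ∇_r(φ) + ∇_r(φ) ∘ ∇_q(φ) = 0. (The
published statement takes M graded with ∇ preserving the grading and φ of odd degree, and is written
with supercommutators; for such φ the supercommutators in question are exactly these
anticommutators, and the identity holds for an arbitrary endomorphism.) -/
theorem result {A : Type v} {B Ω M : Type u}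
    [CommRing A] [CommRing B] [Algebra A B]
    [AddCommGroup Ω] [Module B Ω] [Module A Ω] [IsScalarTower A B Ω] {n : ℕ} (bΩ : Module.Basis (Fin n) B Ω)
    [AddCommGroup M] [Module B M] [Module A M] [IsScalarTower A B M] [Module.FinitePresentation B M]
    (δ : Derivation A B Ω) (nabla : M →ₗ[A] M ⊗[B] Ω) (hc : Conn.IsConn δ nabla)
    (nablaE : (M →ₗ[B] M) →ₗ[A] (M →ₗ[B] M) ⊗[B] Ω) (hE : Conn.IsHomConn nabla nabla nablaE)
    (φ : M →ₗ[B] M)
    (hφ : ∀ q : Fin n, φ ∘ₗ Conn.along nablaE (bΩ.coord q) φ + Conn.along nablaE (bΩ.coord q) φ ∘ₗ φ = 0)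
    (q r : Fin n) :
    φ ∘ₗ Conn.along nablaE (bΩ.coord q) (Conn.along nablaE (bΩ.coord r) φ)
      + Conn.along nablaE (bΩ.coord q) (Conn.along nablaE (bΩ.coord r) φ) ∘ₗ φ
      + Conn.along nablaE (bΩ.coord q) φ ∘ₗ Conn.along nablaE (bΩ.coord r) φ
      + Conn.along nablaE (bΩ.coord r) φ ∘ₗ Conn.along nablaE (bΩ.coord q) φ = 0 := by
  -- covariant derivative on M along the q-th dual basis vector
  have nat1 : ∀ (θ : Ω →ₗ[B] B) (X : (M →ₗ[B] M) ⊗[B] Ω) (m : M),
      (TensorProduct.rid B (M →ₗ[B] M) (TensorProduct.map LinearMap.id θ X)) m =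
        TensorProduct.rid B M (TensorProduct.map LinearMap.id θ
          (TensorProduct.map (LinearMap.applyₗ m) LinearMap.id X)) := by
    intro θ X m
    induction X using TensorProduct.induction_on with
    | zero => simp
    | tmul ψ ω => simp
    | add x y hx hy => simp only [map_add, LinearMap.add_apply, hx, hy]
  have nat2 : ∀ (θ : Ω →ₗ[B] B) (φ : M →ₗ[B] M) (Y : M ⊗[B] Ω),
      TensorProduct.rid B M (TensorProduct.map LinearMap.id θ (TensorProduct.map φ LinearMap.id Y)) =
        φ (TensorProduct.rid B M (TensorProduct.map LinearMap.id θ Y)) := by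
    intro θ φ Y
    induction Y using TensorProduct.induction_on with
    | zero => simp
    | tmul x ω => simp
    | add x y hx hy => simp only [map_add, hx, hy]
  have hform : ∀ (θ : Ω →ₗ[B] B) (φ : M →ₗ[B] M) (m : M),
      (Conn.along nablaE θ φ) m = Conn.along nabla θ (φ m) - φ (Conn.along nabla θ m) := by
    intro θ φ m
    rw [Conn.along_apply, nat1, hE, Conn.along_apply, Conn.along_apply, map_sub, map_sub, nat2]
  have hder : ∀ (θ : Ω →ₗ[B] B) (φ ψ : M →ₗ[B] M),
      Conn.along nablaE θ (φ ∘ₗ ψ) = Conn.along nablaE θ φ ∘ₗ ψ + φ ∘ₗ Conn.along nablaE θ ψ := by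
    intro θ φ ψ
    refine LinearMap.ext fun m => ?_
    simp only [LinearMap.add_apply, LinearMap.comp_apply, hform, map_sub]
    abel
  have key := congrArg (Conn.along nablaE (bΩ.coord q)) (hφ r)
  rw [map_add, hder, hder, map_zero] at key
  calc φ ∘ₗ Conn.along nablaE (bΩ.coord q) (Conn.along nablaE (bΩ.coord r) φ)
      + Conn.along nablaE (bΩ.coord q) (Conn.along nablaE (bΩ.coord r) φ) ∘ₗ φ
      + Conn.along nablaE (bΩ.coord q) φ ∘ₗ Conn.along nablaE (bΩ.coord r) φ
      + Conn.along nablaE (bΩ.coord r) φ ∘ₗ Conn.along nablaE (bΩ.coord q) φ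
      = Conn.along nablaE (bΩ.coord q) φ ∘ₗ Conn.along nablaE (bΩ.coord r) φ
        + φ ∘ₗ Conn.along nablaE (bΩ.coord q) (Conn.along nablaE (bΩ.coord r) φ)
        + (Conn.along nablaE (bΩ.coord q) (Conn.along nablaE (bΩ.coord r) φ) ∘ₗ φ
        + Conn.along nablaE (bΩ.coord r) φ ∘ₗ Conn.along nablaE (bΩ.coord q) φ) := by abel
    _ = 0 := key

end Groth.Agent.S16664
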