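import Groth.Statements.S16666
import Mathlib.LinearAlgebra.TensorProduct.Basis
import Mathlib.LinearAlgebra.FreeModule.Basic
-- import your own Groth.Agent.* helpers here

set_option autoImplicit false
universe v u
open TensorProduct
open Conn

namespace Groth.Agent.S16666

theorem equivRight_map {R : Type*} [CommRing R] {M M' N : Type*} [AddCommGroup M] [Module R M]
    [AddCommGroup M'] [Module R M'] [AddCommGroup N] [Module R N] {κ : Type*} [DecidableEq κ]
    (𝒞 : Module.Basis κ R N) (f : M →ₗ[R] M') (t : M ⊗[R] N) (i : κ) :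
    TensorProduct.equivFinsuppOfBasisRight 𝒞 (TensorProduct.map f LinearMap.id t) i =
      f (TensorProduct.equivFinsuppOfBasisRight 𝒞 t i) := by
  induction t using TensorProduct.induction_on with
  | zero => simp
  | tmul m n => simp
  | add x y hx hy => simp only [map_add, Finsupp.add_apply, hx, hy]

theorem ev_inj {B Ω X Y : Type*} [CommRing B] [AddCommGroup Ω] [Module B Ω] [Module.Free B Ω]
    [AddCommGroup X] [Module B X] [AddCommGroup Y] [Module B Y]
    (ψ₁ ψ₂ : (X →ₗ[B] Y) ⊗[B] Ω)
    (h : ∀ x, TensorProduct.map (LinearMap.applyₗ x) LinearMap.id ψ₁ =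
      TensorProduct.map (LinearMap.applyₗ x) LinearMap.id ψ₂) : ψ₁ = ψ₂ := by
  classical
  let bΩ := Module.Free.chooseBasis B Ω
  apply (TensorProduct.equivFinsuppOfBasisRight (M := X →ₗ[B] Y) bΩ).injective
  ext i x
  have h1 := equivRight_map bΩ (LinearMap.applyₗ (R := B) (M := X) (M₂ := Y) x) ψ₁ i
  have h2 := equivRight_map bΩ (LinearMap.applyₗ (R := B) (M := X) (M₂ := Y) x) ψ₂ i
  rw [h x] at h1
  simp only [LinearMap.applyₗ_apply_apply] at h1 h2
  rw [← h1, h2]


/-- Let B be an A-algebra with a receptacle of differentials (Ω, δ), Ω a finite free B-module, and let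
E, F, G be B-modules with connections ∇_E, ∇_F, ∇_G, E finitely presented. Equip Hom_B(E,F) and
Hom_B(E, F ⊗ G) with the induced connections (the connection ∇'' on Hom_B(E,Y) being the one with
(ev_e ⊗ 1)(∇'' φ) = ∇_Y(φ e) − (φ ⊗ 1)(∇_E e)), and F ⊗ G and Hom_B(E,F) ⊗ G with the tensor-product
connections. Then the canonical map Hom_B(E,F) ⊗ G → Hom_B(E, F ⊗ G), φ ⊗ g ↦ (e ↦ φ(e) ⊗ g), is
horizontal. (The published statement is for bounded complexes with termwise connections, the Hom
complex and the tensor-product complex; this row is the case of single modules, that is, complexes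
concentrated in one degree.) -/
theorem result {A : Type v} {B Ω E F G : Type u}
    [CommRing A] [CommRing B] [Algebra A B]
    [AddCommGroup Ω] [Module B Ω] [Module A Ω] [IsScalarTower A B Ω] [Module.Finite B Ω] [Module.Free B Ω]
    [AddCommGroup E] [Module B E] [Module A E] [IsScalarTower A B E] [Module.FinitePresentation B E]
    [AddCommGroup F] [Module B F] [Module A F] [IsScalarTower A B F]
    [AddCommGroup G] [Module B G] [Module A G] [IsScalarTower A B G]
    (δ : Derivation A B Ω)
    (nE : E →ₗ[A] E ⊗[B] Ω) (hcE : Conn.IsConn δ nE)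
    (nF : F →ₗ[A] F ⊗[B] Ω) (hcF : Conn.IsConn δ nF)
    (nG : G →ₗ[A] G ⊗[B] Ω) (hcG : Conn.IsConn δ nG)
    (nEF : (E →ₗ[B] F) →ₗ[A] (E →ₗ[B] F) ⊗[B] Ω) (hEF : Conn.IsHomConn nE nF nEF)
    (nFG : F ⊗[B] G →ₗ[A] (F ⊗[B] G) ⊗[B] Ω) (hFG : Conn.IsTensorConn nF nG nFG)
    (nH : (E →ₗ[B] F ⊗[B] G) →ₗ[A] (E →ₗ[B] F ⊗[B] G) ⊗[B] Ω) (hH : Conn.IsHomConn nE nFG nH)
    (nS : (E →ₗ[B] F) ⊗[B] G →ₗ[A] ((E →ₗ[B] F) ⊗[B] G) ⊗[B] Ω) (hS : Conn.IsTensorConn nEF nG nS) :
    Conn.IsHorizontal nS nH (TensorProduct.rTensorHomToHomRTensor (RingHom.id B) E F G) := by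
  have hFG' : ∀ (f : F) (g : G), nFG (f ⊗ₜ[B] g) =
      Conn.swapR (nF f ⊗ₜ[B] g) + (TensorProduct.assoc B F G Ω).symm (f ⊗ₜ[B] nG g) := hFG
  have hS' : ∀ (φ : E →ₗ[B] F) (g : G), nS (φ ⊗ₜ[B] g) =
      Conn.swapR (nEF φ ⊗ₜ[B] g) + (TensorProduct.assoc B (E →ₗ[B] F) G Ω).symm (φ ⊗ₜ[B] nG g) := hS
  intro t
  induction t using TensorProduct.induction_on with
  | zero => simp
  | tmul φ g =>
    rw [hS']
    apply ev_inj
    intro e
    simp only [map_add]
    rw [hH]
    have ha : ∀ X : (E →ₗ[B] F) ⊗[B] Ω,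
        TensorProduct.map (LinearMap.applyₗ e) LinearMap.id
          (TensorProduct.map (TensorProduct.rTensorHomToHomRTensor (RingHom.id B) E F G) LinearMap.id
            (Conn.swapR (X ⊗ₜ[B] g))) =
        Conn.swapR (TensorProduct.map (LinearMap.applyₗ e) LinearMap.id X ⊗ₜ[B] g) := by
      intro X
      induction X using TensorProduct.induction_on with
      | zero => simp
      | tmul φ' ω =>
        rw [Conn.swapR_tmul]
        simp only [TensorProduct.map_tmul, LinearMap.applyₗ_apply_apply, LinearMap.id_apply,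
          TensorProduct.rTensorHomToHomRTensor_apply]
        rw [Conn.swapR_tmul]
      | add x y hx hy => rw [TensorProduct.add_tmul, map_add, map_add, map_add, hx, hy, map_add,
          TensorProduct.add_tmul, map_add]
    have hb : ∀ Y : G ⊗[B] Ω,
        TensorProduct.map (LinearMap.applyₗ e) LinearMap.id
          (TensorProduct.map (TensorProduct.rTensorHomToHomRTensor (RingHom.id B) E F G) LinearMap.id
            ((TensorProduct.assoc B (E →ₗ[B] F) G Ω).symm (φ ⊗ₜ[B] Y))) =
        (TensorProduct.assoc B F G Ω).symm (φ e ⊗ₜ[B] Y) := by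
      intro Y
      induction Y using TensorProduct.induction_on with
      | zero => simp
      | tmul g' ω => simp [TensorProduct.rTensorHomToHomRTensor_apply]
      | add x y hx hy => rw [TensorProduct.tmul_add, map_add, map_add, map_add, hx, hy,
          TensorProduct.tmul_add, map_add]
    have hc : ∀ Y : E ⊗[B] Ω,
        TensorProduct.map (TensorProduct.rTensorHomToHomRTensor (RingHom.id B) E F G (φ ⊗ₜ[B] g))
          LinearMap.id Y = Conn.swapR (TensorProduct.map φ LinearMap.id Y ⊗ₜ[B] g) := by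
      intro Y
      induction Y using TensorProduct.induction_on with
      | zero => simp
      | tmul e' ω =>
        simp only [TensorProduct.map_tmul, LinearMap.id_apply,
          TensorProduct.rTensorHomToHomRTensor_apply]
        rw [Conn.swapR_tmul]
      | add x y hx hy => rw [map_add, hx, hy, map_add, TensorProduct.add_tmul, map_add]
    rw [ha, hb, hEF, TensorProduct.rTensorHomToHomRTensor_apply, hFG', hc, TensorProduct.sub_tmul,
      map_sub]
    abel
  | add x y hx hy => simp only [map_add, hx, hy]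

end Groth.Agent.S16666
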