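import Groth.Statements.S16707
import Mathlib.RingTheory.Flat.Basic
import Mathlib.LinearAlgebra.TensorProduct.Quotient
import Mathlib.LinearAlgebra.TensorProduct.RightExactness
-- import your own Groth.Agent.* helpers here

set_option autoImplicit false
universe u v
open CAlg

namespace Groth.Agent.S16707

open TensorProduct in
/-- Let A be a commutative ring, I a nilpotent ideal of A and f : M → N a homomorphism of A-modules with
N flat over A (no finiteness assumption on M or N). If the base change of f to A/I, that is M/IM →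
N/IN, is bijective, then f is bijective. -/
theorem result (A : Type u) [CommRing A] (I : Ideal A)
    (hI : IsNilpotent I) (M N : Type v) [AddCommGroup M] [Module A M] [AddCommGroup N] [Module A N]
    [Module.Flat A N] (f : M →ₗ[A] N)
    (hf : Function.Bijective (f.baseChange (A ⧸ I))) :
    Function.Bijective f := by
  obtain ⟨n, hn⟩ := hI
  -- nilpotent Nakayama
  have nak : ∀ {X : Type v} [AddCommGroup X] [Module A X] (P Q : Submodule A X),
      P ≤ Q ⊔ I • P → P ≤ Q := by
    intro X _ _ P Q h
    have key : ∀ k : ℕ, P ≤ Q ⊔ I ^ k • P := by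
      intro k
      induction k with
      | zero => simp
      | succ k ih =>
        calc P ≤ Q ⊔ I ^ k • P := ih
          _ ≤ Q ⊔ I ^ k • (Q ⊔ I • P) := sup_le_sup_left (Submodule.smul_mono le_rfl h) _
          _ = Q ⊔ (I ^ k • Q ⊔ I ^ k • I • P) := by rw [Submodule.smul_sup]
          _ ≤ Q ⊔ I ^ (k + 1) • P := by
            rw [← sup_assoc]
            refine sup_le_sup (sup_le le_rfl Submodule.smul_le_right) ?_
            rw [pow_succ, Submodule.mul_smul]
    have := key n
    rwa [hn, Submodule.zero_eq_bot, Submodule.bot_smul, sup_bot_eq] at this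
  let ΦM := TensorProduct.quotTensorEquivQuotSMul M I
  let ΦN := TensorProduct.quotTensorEquivQuotSMul N I
  have hsurj' : ∀ y : N, ∃ x : M, y - f x ∈ I • (⊤ : Submodule A N) := by
    intro y
    obtain ⟨t, ht⟩ := hf.2 (1 ⊗ₜ y)
    obtain ⟨x, hx⟩ := Submodule.Quotient.mk_surjective _ (ΦM t)
    have ht' : t = 1 ⊗ₜ x := by
      rw [← ΦM.symm_apply_apply t, ← hx]
      rfl
    refine ⟨x, ?_⟩
    rw [ht', LinearMap.baseChange_tmul] at ht
    have := congrArg ΦN ht
    simp only [ΦN, TensorProduct.quotTensorEquivQuotSMul_mk_one_tmul] at this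
    rw [← Submodule.Quotient.eq]
    exact this.symm
  have hinj' : ∀ x : M, f x ∈ I • (⊤ : Submodule A N) → x ∈ I • (⊤ : Submodule A M) := by
    intro x hx
    have h1 : f.baseChange (A ⧸ I) (1 ⊗ₜ x) = f.baseChange (A ⧸ I) 0 := by
      rw [LinearMap.baseChange_tmul, map_zero]
      have : (1 : A ⧸ I) ⊗ₜ[A] f x = ΦN.symm (Submodule.Quotient.mk (f x)) := rfl
      rw [this, (Submodule.Quotient.mk_eq_zero _).mpr hx, map_zero]
    have h2 := congrArg ΦM (hf.1 h1)
    simp only [ΦM, TensorProduct.quotTensorEquivQuotSMul_mk_one_tmul, map_zero] at h2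
    exact (Submodule.Quotient.mk_eq_zero _).mp h2
  -- surjectivity
  have hsurj : Function.Surjective f := by
    rw [← LinearMap.range_eq_top]
    refine top_le_iff.mp (nak ⊤ (LinearMap.range f) ?_)
    intro y _
    obtain ⟨x, hx⟩ := hsurj' y
    have : y = f x + (y - f x) := by abel
    rw [this]
    exact Submodule.add_mem_sup (LinearMap.mem_range_self f x) hx
  refine ⟨?_, hsurj⟩
  -- injectivity
  let μM : I ⊗[A] M →ₗ[A] M := (TensorProduct.lid A M).toLinearMap ∘ₗ I.subtype.rTensor M
  let μN : I ⊗[A] N →ₗ[A] N := (TensorProduct.lid A N).toLinearMap ∘ₗ I.subtype.rTensor N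
  have hμM : ∀ (a : I) (m : M), μM (a ⊗ₜ m) = (a : A) • m := fun a m => by
    simp [μM]
  have hμN : ∀ (a : I) (m : N), μN (a ⊗ₜ m) = (a : A) • m := fun a m => by
    simp [μN]
  have hμNinj : Function.Injective μN :=
    (TensorProduct.lid A N).injective.comp
      (Module.Flat.rTensor_preserves_injective_linearMap I.subtype Subtype.val_injective)
  have hrange : I • (⊤ : Submodule A M) ≤ LinearMap.range μM := by
    rw [Submodule.smul_le]
    intro a ha m _
    exact ⟨⟨a, ha⟩ ⊗ₜ m, hμM _ _⟩
  have hcomm : ∀ t : I ⊗[A] M, f (μM t) = μN (f.lTensor I t) := by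
    intro t
    induction t using TensorProduct.induction_on with
    | zero => simp
    | tmul a m => rw [hμM, LinearMap.lTensor_tmul, hμN, map_smul]
    | add x y hx hy => simp only [map_add, hx, hy]
  have hexact := lTensor_exact I (LinearMap.exact_subtype_ker_map f) hsurj
  have hK : ∀ s : I ⊗[A] (LinearMap.ker f),
      μM ((LinearMap.ker f).subtype.lTensor I s) ∈ I • LinearMap.ker f := by
    intro s
    induction s using TensorProduct.induction_on with
    | zero => simp
    | tmul a k =>
      rw [LinearMap.lTensor_tmul, hμM]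
      exact Submodule.smul_mem_smul a.2 k.2
    | add x y hx hy => rw [map_add, map_add]; exact add_mem hx hy
  rw [← LinearMap.ker_eq_bot, eq_bot_iff]
  refine nak (LinearMap.ker f) ⊥ ?_
  rw [bot_sup_eq]
  intro k hk
  have hk' : f k = 0 := hk
  obtain ⟨t, rfl⟩ := hrange (hinj' k (by rw [hk']; exact zero_mem _))
  have ht : f.lTensor I t = 0 := hμNinj (by rw [← hcomm, hk', map_zero])
  obtain ⟨s, rfl⟩ := (hexact t).mp ht
  exact hK s

end Groth.Agent.S16707
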