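import Groth.Statements.S1682
-- import your own Groth.Agent.* helpers here

set_option autoImplicit false
universe u
open CategoryTheory CategoryTheory.Limits AlgebraicGeometry TopologicalSpace
open SDiv

namespace Groth.Agent.S1682

theorem effCartier_top (Y : Scheme.{u}) : BlowUp.IsEffCartierIdeal (⊤ : Y.IdealSheafData) := by
  intro x
  obtain ⟨_, ⟨V, hV, rfl⟩, hxV, -⟩ := (Y.isBasis_affineOpens).exists_subset_of_mem_open (Set.mem_univ x)
    isOpen_univ
  refine ⟨⟨V, hV⟩, hxV, 1, one_mem _, ?_⟩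
  rw [Ideal.span_singleton_one]
  rfl

theorem comap_eq_top_of_disjoint {X Y : Scheme.{u}} (𝓘 : X.IdealSheafData) (g : Y ⟶ X)
    (hg : ∀ y, g y ∉ 𝓘.support) : 𝓘.comap g = ⊤ := by
  have : IsEmpty ↥(Limits.pullback g 𝓘.subschemeι) := by
    constructor
    intro z
    apply hg (pullback.fst g 𝓘.subschemeι z)
    have h1 : g (pullback.fst g 𝓘.subschemeι z) = 𝓘.subschemeι (pullback.snd g 𝓘.subschemeι z) := by
      rw [← Scheme.Hom.comp_apply, pullback.condition, Scheme.Hom.comp_apply]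
    rw [h1]
    have : 𝓘.subschemeι (pullback.snd g 𝓘.subschemeι z) ∈ Set.range 𝓘.subschemeι := ⟨_, rfl⟩
    rw [𝓘.range_subschemeι] at this
    exact this
  exact Scheme.ker_eq_top_of_isEmpty _

/-- Let b : X' ⟶ X be a blowing-up of X along the quasi-coherent ideal sheaf 𝓘, with centre Z = support
of 𝓘. Then b restricted over the open complement of Z is an isomorphism. -/
theorem result {X X' : Scheme.{u}} (𝓘 : X.IdealSheafData) (b : X' ⟶ X) (hb : BlowUp.IsBlowUp b 𝓘) :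
    IsIso (b ∣_ 𝓘.support.compl) := by
  set U : X.Opens := 𝓘.support.compl with hU
  have hUsupp : ∀ x ∈ U, x ∉ 𝓘.support := fun x hx => hx
  obtain ⟨-, huniv⟩ := hb
  -- the lift of the inclusion of U
  have hcU : BlowUp.IsEffCartierIdeal (𝓘.comap U.ι) := by
    rw [comap_eq_top_of_disjoint 𝓘 U.ι (fun y => hUsupp _ y.2)]
    exact effCartier_top _
  obtain ⟨h, hh, -⟩ := huniv U U.ι hcU
  have hrange : Set.range h ⊆ Set.range (b ⁻¹ᵁ U).ι := by
    rintro _ ⟨y, rfl⟩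
    rw [Scheme.Opens.range_ι]
    show b (h y) ∈ U
    rw [← Scheme.Hom.comp_apply, hh]
    exact y.2
  set h' : (U : Scheme.{u}) ⟶ (b ⁻¹ᵁ U : Scheme.{u}) := IsOpenImmersion.lift (b ⁻¹ᵁ U).ι h hrange
    with hh'
  have hh'fac : h' ≫ (b ⁻¹ᵁ U).ι = h := IsOpenImmersion.lift_fac _ _ _
  refine ⟨⟨h', ?_, ?_⟩⟩
  · rw [← cancel_mono (b ⁻¹ᵁ U).ι, Category.assoc, hh'fac, Category.id_comp]
    have hcV : BlowUp.IsEffCartierIdeal (𝓘.comap ((b ⁻¹ᵁ U).ι ≫ b)) := by
      rw [comap_eq_top_of_disjoint 𝓘 _ (fun y => hUsupp _ ?_)]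
      · exact effCartier_top _
      · rw [Scheme.Hom.comp_apply]
        exact y.2
    obtain ⟨k, -, hk⟩ := huniv _ ((b ⁻¹ᵁ U).ι ≫ b) hcV
    have e1 := hk ((b ∣_ U) ≫ h) (by
      show ((b ∣_ U) ≫ h) ≫ b = (b ⁻¹ᵁ U).ι ≫ b
      rw [Category.assoc, hh, morphismRestrict_ι])
    have e2 := hk ((b ⁻¹ᵁ U).ι) rfl
    rw [e1, e2]
  · rw [← cancel_mono U.ι, Category.assoc, morphismRestrict_ι, ← Category.assoc, hh'fac, hh,
      Category.id_comp]

end Groth.Agent.S1682
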