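import Groth.Statements.S1692
-- import your own Groth.Agent.* helpers here

set_option autoImplicit false
universe u
open CategoryTheory CategoryTheory.Limits AlgebraicGeometry TopologicalSpace
open SDiv

namespace Groth.Agent.S1692

/-- Let X be a locally Noetherian integral scheme and f a nonzero rational function. Then the closures
of the codimension-one points at which f has nonzero order of vanishing form a locally finite family
of closed subsets of X. -/
theorem result (X : Scheme.{u}) [IsIntegral X] [IsLocallyNoetherian X] (f : ↑X.functionField) (hf : f ≠ 0) :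
    LocallyFinite (fun ξ : {ξ : ↥X // Order.coheight ξ = 1 ∧ Scheme.ord f ξ ≠ 0} => closure ({ξ.1} : Set ↥X)) := by
  classical
  obtain ⟨W, hW, f', hne, hf', hunit⟩ := exists_isUnit_germ_eq X f hf
  have hηW : genericPoint X ∈ W :=
    ((genericPoint_spec X).mem_open_set_iff W.isOpen).mpr (by simpa using hne)
  have hordW : ∀ ξ ∈ W, Scheme.ord f ξ = 0 := fun ξ hξ => by
    rw [← hf']; exact Scheme.ord_of_isUnit hunit hξ
  intro x
  obtain ⟨_, ⟨U, hU, rfl⟩, hxU, -⟩ :=
    X.isBasis_affineOpens.exists_subset_of_mem_open (Set.mem_univ x) isOpen_univ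
  have : IsNoetherianRing Γ(X, U) := IsLocallyNoetherian.component_noetherian ⟨U, hU⟩
  have : NoetherianSpace U := noetherianSpace_of_isAffineOpen U hU
  have : QuasiSober U := U.isOpenEmbedding'.quasiSober
  refine ⟨U, U.isOpen.mem_nhds hxU, ?_⟩
  let Z : Set U := {p | p.1 ∉ W}
  have hZ : IsClosed Z := by
    have : IsOpen ((Subtype.val : U → X) ⁻¹' W) := W.isOpen.preimage continuous_subtype_val
    exact this.isClosed_compl
  obtain ⟨S, hSf, hSc, hSi, hSU⟩ := NoetherianSpace.exists_finite_set_isClosed_irreducible hZ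
  let gen : Set U → X := fun t => if h : IsIrreducible t then (h.genericPoint).1 else x
  have key : ∀ ξ : X, Order.coheight ξ = 1 → Scheme.ord f ξ ≠ 0 → ξ ∈ U → ξ ∈ gen '' S := by
    intro ξ hcoh hord hξU
    have hξW : ξ ∉ W := fun h => hord (hordW ξ h)
    have hmem : (⟨ξ, hξU⟩ : U) ∈ ⋃₀ S := hSU ▸ hξW
    obtain ⟨t, htS, hξt⟩ := hmem
    refine ⟨t, htS, ?_⟩
    have hti := hSi t htS
    simp only [gen, dif_pos hti]
    have hgen := hti.isGenericPoint_genericPoint_closure
    rw [(hSc t htS).closure_eq] at hgen
    have hgt : hti.genericPoint ∈ t := hgen.mem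
    have hgZ : hti.genericPoint ∈ Z := hSU ▸ Set.mem_sUnion_of_mem hgt htS
    have hsp : hti.genericPoint ⤳ (⟨ξ, hξU⟩ : U) := hgen.specializes hξt
    have hsp' : hti.genericPoint.1 ⤳ ξ := hsp.map continuous_subtype_val
    by_contra hne'
    have h1 : ξ < hti.genericPoint.1 := by
      refine lt_of_le_not_ge hsp' ?_
      intro h
      exact hne' (Specializes.antisymm h hsp').eq.symm
    have h2 : hti.genericPoint.1 < genericPoint X := by
      refine lt_of_le_not_ge (genericPoint_specializes _) ?_
      intro h
      exact hgZ ((Specializes.antisymm h (genericPoint_specializes _)).eq ▸ hηW)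
    have a := Order.coheight_add_one_le h1
    have b := Order.coheight_add_one_le h2
    rw [hcoh] at a
    have c : (1 : ℕ∞) + 1 ≤ Order.coheight hti.genericPoint.1 + 1 := by
      gcongr; exact le_trans le_add_self b
    have : (1 : ℕ∞) + 1 ≤ 1 := le_trans c a
    exact absurd this (by decide)
  apply (Set.Finite.preimage (Subtype.val_injective.injOn) (hSf.image gen)).subset
  rintro ⟨ξ, hcoh, hord⟩ ⟨z, hz, hzU⟩
  have hξU : ξ ∈ U := (specializes_iff_mem_closure.mpr hz).mem_open U.isOpen hzU
  exact key ξ hcoh hord hξU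

end Groth.Agent.S1692
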