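import Groth.Statements.S1693
import Mathlib.AlgebraicGeometry.Noetherian
import Mathlib.Topology.NoetherianSpace
-- import your own Groth.Agent.* helpers here

set_option autoImplicit false
universe u
open CategoryTheory CategoryTheory.Limits AlgebraicGeometry TopologicalSpace
open SDiv

namespace Groth.Agent.S1693

open Topology TopologicalSpace

theorem subset_closure_inter_open {X : Type*} [TopologicalSpace X] {t O : Set X}
    (ht : IsPreirreducible t) (hO : IsOpen O) (hne : (t ∩ O).Nonempty) :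
    t ⊆ closure (t ∩ O) := by
  intro y hy
  rw [mem_closure_iff]
  intro N hN hyN
  obtain ⟨z, hz⟩ := ht N O hN hO ⟨y, hy, hyN⟩ hne
  exact ⟨z, hz.2.1, hz.1, hz.2.2⟩

theorem isIrreducible_preimage_val {X : Type*} [TopologicalSpace X] {Z W : Set X}
    (hW : IsIrreducible W) (hWZ : W ⊆ Z) : IsIrreducible ((↑) ⁻¹' W : Set Z) := by
  refine ⟨?_, ?_⟩
  · obtain ⟨w, hw⟩ := hW.nonempty
    exact ⟨⟨w, hWZ hw⟩, hw⟩
  · intro u v hu hv hau hbv
    obtain ⟨u0, hu0, rfl⟩ := isOpen_induced_iff.mp hu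
    obtain ⟨v0, hv0, rfl⟩ := isOpen_induced_iff.mp hv
    obtain ⟨a, ha, hau⟩ := hau
    obtain ⟨b, hb, hbv⟩ := hbv
    obtain ⟨w, hwW, hwu, hwv⟩ := hW.2 u0 v0 hu0 hv0 ⟨a, ha, hau⟩ ⟨b, hb, hbv⟩
    exact ⟨⟨w, hWZ hwW⟩, hwW, hwu, hwv⟩

theorem finite_components_meeting {X : Type*} [TopologicalSpace X] (Z : Set X) (hZ : IsClosed Z)
    (U : Set X) (hU : IsOpen U) [NoetherianSpace U] :
    {T : irreducibleComponents Z | (((↑) '' (T.1 : Set Z)) ∩ U).Nonempty}.Finite := by
  classical
  obtain ⟨S, hSfin, hScl, hSirr, hSeq⟩ := NoetherianSpace.exists_finite_set_isClosed_irreducible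
    (hZ.preimage continuous_subtype_val : IsClosed ((↑) ⁻¹' Z : Set U))
  have key : ∀ T : irreducibleComponents Z, (((↑) '' (T.1 : Set Z)) ∩ U).Nonempty →
      ∃ s ∈ S, ((Subtype.val : U → X) ⁻¹' ((Subtype.val : Z → X) '' (T.1 : Set Z))) ⊆ s := by
    intro T hT
    have hT'irr : IsIrreducible ((↑) '' (T.1 : Set Z) : Set X) :=
      T.2.1.image _ continuous_subtype_val.continuousOn
    have hpre : IsIrreducible ((Subtype.val : U → X) ⁻¹' ((Subtype.val : Z → X) '' (T.1 : Set Z))) :=
      hT'irr.preimage hU.isOpenEmbedding_subtypeVal (by simpa [Subtype.range_coe] using hT)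
    have hsub : ((Subtype.val : U → X) ⁻¹' ((Subtype.val : Z → X) '' (T.1 : Set Z))) ⊆ ⋃₀ ↑hSfin.toFinset := by
      rw [Set.Finite.coe_toFinset, ← hSeq]
      rintro ⟨x, hxU⟩ ⟨z, _, hz⟩
      show x ∈ Z
      have hz' : (z : X) = x := hz
      rw [← hz']
      exact z.2
    obtain ⟨s, hs, hsub'⟩ := isIrreducible_iff_sUnion_isClosed.mp hpre hSfin.toFinset
      (by intro s hs; exact hScl s (by simpa using hs)) hsub
    exact ⟨s, by simpa using hs, hsub'⟩
  let F : irreducibleComponents Z → Set U := fun T =>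
    if h : (((↑) '' (T.1 : Set Z)) ∩ U).Nonempty then (key T h).choose else ∅
  have hF : ∀ T (h : (((↑) '' (T.1 : Set Z)) ∩ U).Nonempty),
      F T ∈ S ∧ ((Subtype.val : U → X) ⁻¹' ((Subtype.val : Z → X) '' (T.1 : Set Z))) ⊆ F T := by
    intro T h
    simp only [F, dif_pos h]
    exact (key T h).choose_spec
  refine Set.Finite.of_finite_image (f := F) (hSfin.subset ?_) ?_
  · rintro _ ⟨T, hT, rfl⟩
    exact (hF T hT).1
  · intro T1 hT1 T2 hT2 heq
    -- the closure of the image of the common piece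
    set s := F T1 with hs_def
    have hs : s ∈ S := (hF T1 hT1).1
    set W : Set X := closure ((↑) '' s) with hW_def
    have hWirr : IsIrreducible W :=
      ((hSirr s hs).image _ continuous_subtype_val.continuousOn).closure
    have hsZ : ((↑) '' s : Set X) ⊆ Z := by
      rintro _ ⟨u, hu, rfl⟩
      have : u ∈ ⋃₀ S := ⟨s, hs, hu⟩
      rw [← hSeq] at this
      exact this
    have hWZ : W ⊆ Z := closure_minimal hsZ hZ
    have hcomp : ∀ T : irreducibleComponents Z, (((↑) '' (T.1 : Set Z)) ∩ U).Nonempty →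
        F T = s → T.1 = (↑) ⁻¹' W := by
      intro T hT hFT
      have h1 : ((↑) '' (T.1 : Set Z) : Set X) ⊆ W := by
        have hT'irr : IsIrreducible ((↑) '' (T.1 : Set Z) : Set X) :=
          T.2.1.image _ continuous_subtype_val.continuousOn
        refine (subset_closure_inter_open hT'irr.2 hU hT).trans (closure_mono ?_)
        rintro x ⟨hxT, hxU⟩
        refine ⟨⟨x, hxU⟩, ?_, rfl⟩
        rw [← hFT]
        exact (hF T hT).2 hxT
      have h2 : T.1 ⊆ (↑) ⁻¹' W := fun z hz => h1 ⟨z, hz, rfl⟩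
      exact le_antisymm h2 (T.2.2 (isIrreducible_preimage_val hWirr hWZ) h2)
    apply Subtype.ext
    rw [hcomp T1 hT1 rfl, hcomp T2 hT2 heq.symm]


/-- Let X be a locally Noetherian scheme and Z a closed subset. Then the irreducible components of Z
form a locally finite family of subsets of X. -/
theorem result (X : Scheme.{u}) [IsLocallyNoetherian X] (Z : Set ↥X) (hZ : IsClosed Z) :
    LocallyFinite (fun T : ↥(irreducibleComponents ↥Z) => ((↑) '' (T.1 : Set ↥Z) : Set ↥X)) := by
  intro x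
  obtain ⟨_, ⟨U, hU, rfl⟩, hxU, -⟩ :=
    X.isBasis_affineOpens.exists_subset_of_mem_open (Set.mem_univ x) isOpen_univ
  have : IsNoetherianRing Γ(X, U) := IsLocallyNoetherian.component_noetherian ⟨U, hU⟩
  have : NoetherianSpace (U : Set X) := noetherianSpace_of_isAffineOpen U hU
  exact ⟨U, U.isOpen.mem_nhds hxU, finite_components_meeting Z hZ (U : Set X) U.isOpen⟩

end Groth.Agent.S1693
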