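import Groth.Statements.S16983
import Mathlib.Tactic.Linarith
import Mathlib.Tactic.FieldSimp
import Mathlib.Algebra.Order.Floor.Ring
import Mathlib.RingTheory.Coprime.Lemmas
import Mathlib.Tactic.Ring
import Mathlib.Algebra.Order.BigOperators.Group.Finset
-- import your own Groth.Agent.* helpers here

set_option autoImplicit false
universe u
open DeformData

namespace Groth.Agent.S16983

/-- Let p be a prime, s ≥ 1, B a finite index set with a subset B₀ of exactly three elements, m_j ≥ 1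
integers coprime to p, and σ_{i,j} (i < s, j ∈ B) rational numbers with m_j σ_{i,j} an integer, such
that Σ_j (σ_{i,j} − 1) = −2 for every i, the fractional part of σ_{i,j} equals that of p^i σ_{0,j},
no σ_{i,j} equals 1, and the minimum over i of ⌊σ_{i,j}⌋ is 0 for j ∈ B₀ and 1 for j ∉ B₀. Then for
every i the fractional parts ⟨σ_{i,j}⟩ sum over j to 1 (purity), and ⌊σ_{i,j}⌋ is 0 on B₀ and 1 off
B₀ for every i. (The hypotheses are exactly the properties of the signature of a special deformation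
datum on the projective line: each entry is an integer divided by a stabilizer order m_j in a group
of order prime to p, the degree identity coming from Riemann–Hurwitz, the Frobenius-twist relation
between fractional parts, and the speciality conditions; the statement is given here for any such
tuple.) -/
theorem result
    {B : Type u} [Fintype B] [DecidableEq B] (B₀ : Finset B) (hB₀ : B₀.card = 3)
    (p : ℕ) (hp : p.Prime) (s : ℕ) (hs : 0 < s)
    (m : B → ℕ) (hm : ∀ j, 0 < m j) (hmp : ∀ j, Nat.Coprime (m j) p)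
    (σ : Fin s → B → ℚ) (hint : ∀ i j, ∃ h : ℤ, σ i j = (h : ℚ) / (m j : ℚ))
    (hsum : ∀ i, ∑ j, (σ i j - 1) = -2)
    (hfract : ∀ i j, Int.fract (σ i j) = Int.fract ((p : ℚ) ^ (i : ℕ) * σ ⟨0, hs⟩ j))
    (hne : ∀ i j, σ i j ≠ 1)
    (hB₀min : ∀ j ∈ B₀, (∃ i, ⌊σ i j⌋ = 0) ∧ ∀ i, 0 ≤ ⌊σ i j⌋)
    (hBmin : ∀ j ∉ B₀, (∃ i, ⌊σ i j⌋ = 1) ∧ ∀ i, 1 ≤ ⌊σ i j⌋) :
    (∀ i, ∑ j, Int.fract (σ i j) = 1) ∧ (∀ i j, ⌊σ i j⌋ = if j ∈ B₀ then 0 else 1) := by
  classical
  set N : ℕ := Fintype.card B with hN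
  let low : B → ℤ := fun j => if j ∈ B₀ then 0 else 1
  have hlow : ∀ i j, low j ≤ ⌊σ i j⌋ := by
    intro i j
    by_cases hj : j ∈ B₀
    · simp only [low, if_pos hj]; exact (hB₀min j hj).2 i
    · simp only [low, if_neg hj]; exact (hBmin j hj).2 i
  have hlowsum : ∑ j, low j = (N : ℤ) - 3 := by
    have h1 : ∀ j, low j = 1 - (if j ∈ B₀ then 1 else 0) := by
      intro j; by_cases hj : j ∈ B₀ <;> simp [low, hj]
    rw [Finset.sum_congr rfl (fun j _ => h1 j), Finset.sum_sub_distrib, Finset.sum_boole]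
    simp [Finset.filter_mem_eq_inter, hB₀, hN]
  have hsumσ : ∀ i, ∑ j, σ i j = (N : ℚ) - 2 := by
    intro i
    have := hsum i
    rw [Finset.sum_sub_distrib] at this
    simp only [Finset.sum_const, Finset.card_univ, nsmul_eq_mul, mul_one] at this
    rw [← hN] at this
    linarith
  let S : Fin s → ℤ := fun i => ∑ j, ⌊σ i j⌋
  have hF : ∀ i, ∑ j, Int.fract (σ i j) = (N : ℚ) - 2 - (S i : ℚ) := by
    intro i
    have : ∀ j, Int.fract (σ i j) = σ i j - (⌊σ i j⌋ : ℚ) := fun j => rfl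
    rw [Finset.sum_congr rfl (fun j _ => this j), Finset.sum_sub_distrib, hsumσ]
    simp [S]
  have hSlow : ∀ i, (N : ℤ) - 3 ≤ S i := by
    intro i
    rw [← hlowsum]
    exact Finset.sum_le_sum (fun j _ => hlow i j)
  have hSup : ∀ i, S i ≤ (N : ℤ) - 2 := by
    intro i
    have h0 : (0 : ℚ) ≤ ∑ j, Int.fract (σ i j) :=
      Finset.sum_nonneg (fun j _ => Int.fract_nonneg _)
    rw [hF] at h0
    have : (S i : ℚ) ≤ (N : ℚ) - 2 := by linarith
    exact_mod_cast this
  -- key: no index with S i = N - 2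
  have hkey : ∀ i, S i ≠ (N : ℤ) - 2 := by
    intro i0 hi0
    have hF0 : ∑ j, Int.fract (σ i0 j) = 0 := by
      rw [hF, hi0]; push_cast; ring
    have hfr0 : ∀ j, Int.fract (σ i0 j) = 0 := by
      intro j
      exact (Finset.sum_eq_zero_iff_of_nonneg (fun j _ => Int.fract_nonneg _)).mp hF0 j
        (Finset.mem_univ j)
    -- σ 0 j is an integer
    have hσ0 : ∀ j, ∃ w : ℤ, σ ⟨0, hs⟩ j = (w : ℚ) := by
      intro j
      obtain ⟨h, hh⟩ := hint ⟨0, hs⟩ j
      have hfr := hfr0 j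
      rw [hfract] at hfr
      set x : ℚ := (p : ℚ) ^ (i0 : ℕ) * σ ⟨0, hs⟩ j with hx
      have hxz : x = (⌊x⌋ : ℚ) := by
        have := Int.floor_add_fract x
        rw [hfr, add_zero] at this
        exact this.symm
      have hm0 : (m j : ℚ) ≠ 0 := by exact_mod_cast (hm j).ne'
      have heq : ((p ^ (i0 : ℕ) * h : ℤ) : ℚ) = ((⌊x⌋ * m j : ℤ) : ℚ) := by
        push_cast
        rw [← hxz, hx, hh]
        field_simp
      have heq' : (p : ℤ) ^ (i0 : ℕ) * h = ⌊x⌋ * (m j : ℤ) := by exact_mod_cast heq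
      have hdvd : (m j : ℤ) ∣ (p : ℤ) ^ (i0 : ℕ) * h := ⟨⌊x⌋, by rw [heq']; ring⟩
      have hcop : IsCoprime (m j : ℤ) ((p : ℤ) ^ (i0 : ℕ)) := by
        rw [Int.isCoprime_iff_gcd_eq_one]
        have : Nat.Coprime (m j) (p ^ (i0 : ℕ)) := (hmp j).pow_right _
        have h2 : ((p : ℤ) ^ (i0 : ℕ)) = ((p ^ (i0 : ℕ) : ℕ) : ℤ) := by push_cast; rfl
        rw [h2, Int.gcd_natCast_natCast]; exact this
      obtain ⟨w, hw⟩ := hcop.dvd_of_dvd_mul_left hdvd
      refine ⟨w, ?_⟩
      rw [hh, hw]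
      push_cast
      field_simp
    have hall : ∀ i j, σ i j = (⌊σ i j⌋ : ℚ) := by
      intro i j
      obtain ⟨w, hw⟩ := hσ0 j
      have hfr : Int.fract (σ i j) = 0 := by
        rw [hfract, hw]
        have : (p : ℚ) ^ (i : ℕ) * (w : ℚ) = ((p ^ (i : ℕ) * w : ℤ) : ℚ) := by push_cast; ring
        rw [this, Int.fract_intCast]
      have := Int.floor_add_fract (σ i j)
      rw [hfr, add_zero] at this
      exact this.symm
    have hB0all : ∀ j, j ∈ B₀ := by
      intro j
      by_contra hj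
      obtain ⟨i, hi⟩ := (hBmin j hj).1
      apply hne i j
      rw [hall i j, hi]; simp
    have hN3 : N = 3 := by
      rw [hN, ← hB₀]
      have : B₀ = Finset.univ := Finset.eq_univ_of_forall hB0all
      rw [this, Finset.card_univ]
    have hS1 : S i0 = 1 := by rw [hi0, hN3]; norm_num
    have hnn : ∀ j, 0 ≤ ⌊σ i0 j⌋ := fun j => (hB₀min j (hB0all j)).2 i0
    have hne1 : ∀ j, ⌊σ i0 j⌋ ≠ 1 := by
      intro j h1
      apply hne i0 j
      rw [hall i0 j, h1]; simp
    by_cases hbig : ∃ j, 2 ≤ ⌊σ i0 j⌋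
    · obtain ⟨j, hj⟩ := hbig
      have : ⌊σ i0 j⌋ ≤ S i0 :=
        Finset.single_le_sum (f := fun j => ⌊σ i0 j⌋) (fun j _ => hnn j) (Finset.mem_univ j)
      omega
    · push Not at hbig
      have hz : ∀ j, ⌊σ i0 j⌋ = 0 := by
        intro j
        have h1 := hnn j
        have h2 := hbig j
        have h3 := hne1 j
        omega
      have : S i0 = 0 := Finset.sum_eq_zero (fun j _ => hz j)
      omega
  have hSeq : ∀ i, S i = (N : ℤ) - 3 := by
    intro i
    have h1 := hSlow i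
    have h2 := hSup i
    have h3 := hkey i
    omega
  refine ⟨fun i => ?_, fun i j => ?_⟩
  · rw [hF, hSeq]; push_cast; ring
  · have hle : ∀ j ∈ Finset.univ, low j ≤ ⌊σ i j⌋ := fun j _ => hlow i j
    have heq : ∑ j, low j = ∑ j, ⌊σ i j⌋ := by rw [hlowsum]; exact (hSeq i).symm
    have := (Finset.sum_eq_sum_iff_of_le hle).mp heq j (Finset.mem_univ j)
    rw [← this]

end Groth.Agent.S16983
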