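import Groth.Statements.S17176
import Mathlib.Tactic.Ring
import Mathlib.Tactic.Linarith
import Mathlib.RingTheory.Coprime.Lemmas
-- import your own Groth.Agent.* helpers here

set_option autoImplicit false
open Curves

namespace Groth.Agent.S17176

/-- Fix integers g ≥ 3 and d. For a complete subcurve Y of arithmetic genus g_Y of a nodal curve of
genus g, meeting the rest of the curve in k points, the lower extreme of the Basic Inequality for
line bundles of degree d is m = d(2g_Y - 2 + k)/(2g - 2) - k/2, which is an integer exactly when 2(g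
- 1) divides d(2g_Y - 2 + k) - k(g - 1). Then gcd(d - g + 1, 2g - 2) = 1 if and only if m is not an
integer for all integers g_Y, k with 0 < g_Y < g - 1, k ≥ 1 and k + 2g_Y - 2 < 2g - 2. (The row
makes explicit the bound 2g_Y - 2 + k < 2g - 2, which is automatic for subcurves of stable curves
and is satisfied by every subcurve to which the source applies the lemma; the source leaves the
ambient curve's class implicit.) -/
theorem result (g d : ℤ) (hg : 3 ≤ g) :
    Int.gcd (d - g + 1) (2 * g - 2) = 1 ↔
      ∀ gY k : ℤ, 0 < gY → gY < g - 1 → 1 ≤ k → k + 2 * gY - 2 < 2 * g - 2 →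
        ¬ (2 * (g - 1) ∣ d * (2 * gY - 2 + k) - k * (g - 1)) := by
  have key : ∀ gY k : ℤ, d * (2 * gY - 2 + k) - k * (g - 1)
      = (d - g + 1) * (2 * gY - 2 + k) + (2 * g - 2) * (gY - 1) := by
    intros; ring
  have h2g : 2 * (g - 1) = 2 * g - 2 := by ring
  constructor
  · intro h gY k h1 h2 h3 h4 hdiv
    rw [key, h2g] at hdiv
    have hdiv' : (2 * g - 2) ∣ (d - g + 1) * (2 * gY - 2 + k) :=
      (dvd_add_left (Dvd.intro _ rfl)).mp hdiv
    have hcop : IsCoprime (2 * g - 2) (d - g + 1) := by
      rw [Int.isCoprime_iff_gcd_eq_one, Int.gcd_comm]; exact h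
    have h5 := hcop.dvd_of_dvd_mul_left hdiv'
    have hpos : 0 < 2 * gY - 2 + k := by omega
    have := Int.le_of_dvd hpos h5
    omega
  · intro h
    by_contra hne
    have hM : 0 < 2 * g - 2 := by omega
    have hgpos : 0 < Int.gcd (d - g + 1) (2 * g - 2) :=
      Int.gcd_pos_of_ne_zero_right _ (by omega)
    have hc1 : (1 : ℤ) < (Int.gcd (d - g + 1) (2 * g - 2) : ℤ) := by omega
    obtain ⟨m, hm⟩ := (Int.gcd_dvd_right (d - g + 1) (2 * g - 2))
    obtain ⟨e', he'⟩ := (Int.gcd_dvd_left (d - g + 1) (2 * g - 2))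
    set c : ℤ := (Int.gcd (d - g + 1) (2 * g - 2) : ℤ) with hc
    have hmpos : 0 < m := by
      rcases lt_or_ge 0 m with hm0 | hm0
      · exact hm0
      · nlinarith
    have hmlt : m < 2 * g - 2 := by nlinarith
    apply h 1 m (by omega) (by omega) (by omega) (by omega)
    rw [key, h2g]
    refine dvd_add ?_ (dvd_mul_right _ _)
    refine ⟨e', ?_⟩
    rw [show (2 : ℤ) * 1 - 2 + m = m by ring]
    calc (d - g + 1) * m = c * e' * m := by rw [← he']
      _ = (c * m) * e' := by ring
      _ = (2 * g - 2) * e' := by rw [← hm]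

end Groth.Agent.S17176
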