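import Groth.Statements.S17241
import Groth.Agent.Lib.Helper25.EffDiv
-- import your own Groth.Agent.* helpers here

set_option autoImplicit false
open W4c4effdivwronsk2

namespace Groth.Agent.S17241

open Groth.Agent.Lib.Helper25.EffDiv


open Polynomial in
/-- Let `k` be a field of characteristic zero and take, on the projective line over `k`, the point `∞`
and `m` further distinct points `r_1, …, r_m` of the affine line, with positive integers `b` (at
`∞`) and `a_1, …, a_m`; put `N = b + ∑ a_j`. The sum of the spaces of differentials with a single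
pole, of order at most `b + 1` at `∞`, resp. at most `a_j + 1` at `r_j`, `V = H⁰(ω((b+1)∞)) + ∑_j
H⁰(ω((a_j+1)r_j)) ⊆ H⁰(ω((b+1)∞ + ∑_j (a_j+1)r_j)) ≅ H⁰(O(d))`, `d = b - 1 + ∑ (a_j+1)`, becomes,
after multiplying by `dX⁻¹ ∏_j (X - r_j)^(a_j+1)`, the subspace of `k[X]_{≤ d}` spanned by
`D·k[X]_{<b}` and the `D_i·k[X]_{<a_i}`, where `D = ∏_j (X - r_j)^(a_j+1)` and `D_i` omits the
`i`-th factor; a member `h` vanishes to order `n` at a point `q` of the affine line when `(X - q)^n
∣ h`, and to order `d - deg h` at `∞`. Then `dim V = N`, and at each marked point the vanishing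
orders of the members of `V` are `0, …, e - 1, e + 1, …, N`, where `e = a_i` at `r_i` and `e = b` at
`∞`: the subspace vanishing to order at least `n` there has dimension `N - n` for `n ≤ e` and `N + 1
- n` for `n > e` (so the weight at `r_i` is `∑_{j ≠ i} a_j + b`). (The published statement is over
the complex numbers, with all marked points arbitrary; one of them is placed at `∞` here.) -/
theorem result
    (k : Type*) [Field k] [CharZero k] (m : ℕ) (r : Fin m → k) (hr : Function.Injective r)
    (a : Fin m → ℕ) (ha : ∀ j, 1 ≤ a j) (b : ℕ) (hb : 1 ≤ b) (N d : ℕ)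
    (hN : N = (∑ j, a j) + b) (hd : d + 1 = (∑ j, (a j + 1)) + b)
    (V : Submodule k (Polynomial k))
    (hV : V = (Polynomial.degreeLT k b).map (LinearMap.mulLeft k (∏ j, (X - C (r j)) ^ (a j + 1))) ⊔
      ⨆ i, (Polynomial.degreeLT k (a i)).map
        (LinearMap.mulLeft k (∏ j ∈ Finset.univ.erase i, (X - C (r j)) ^ (a j + 1)))) :
    Module.finrank k ↥V = N ∧
    (∀ (i : Fin m) (n : ℕ), Module.finrank k ↥(V ⊓ (Ideal.span {(X - C (r i)) ^ n}).restrictScalars k) =
        if n ≤ a i then N - n else N + 1 - n) ∧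
    (∀ n : ℕ, Module.finrank k ↥(V ⊓ Polynomial.degreeLT k (d + 1 - n)) =
        if n ≤ b then N - n else N + 1 - n) := by
  classical
  subst hV
  have hVeq : (Polynomial.degreeLT k b).map (LinearMap.mulLeft k (∏ j, (X - C (r j)) ^ (a j + 1))) ⊔
      ⨆ i, (Polynomial.degreeLT k (a i)).map
        (LinearMap.mulLeft k (∏ j ∈ Finset.univ.erase i, (X - C (r j)) ^ (a j + 1))) =
      Vsp r a b := rfl
  rw [hVeq]
  have := Vsp_fd r a b
  have hsum : ∑ j, (a j + 1) = ∑ j, a j + m := by rw [Finset.sum_add_distrib]; simp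
  have hfin : Module.finrank k (Vsp r a b) = N := by rw [finrank_Vsp r a hr]; omega
  have hA : ∀ i, a i ≤ ∑ j, a j := fun i =>
    Finset.single_le_sum (fun j _ => Nat.zero_le (a j)) (Finset.mem_univ i)
  have hE := natDegree_Ep r a
  refine ⟨hfin, ?_, ?_⟩
  · intro i n
    have hIq : ∀ n, (Ideal.span {(X - C (r i)) ^ n}).restrictScalars k = Iq (r i) n := fun n => rfl
    rw [hIq]
    refine nat_fn_gap (fun n => Module.finrank k (Vsp r a b ⊓ Iq (r i) n : Submodule k k[X])) N
      (a i) (by have := hA i; omega) ?_ ?_ ?_ ?_ ?_ n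
    · intro n n' hnn'; exact finrank_inf_mono _ (Iq_anti _ hnn')
    · intro n; exact finrank_Iq_step _ _ _
    · rw [Iq_zero, inf_top_eq]; exact hfin
    · apply le_antisymm
      · exact Submodule.finrank_mono (le_inf inf_le_left (gap_marked r a hr b i))
      · exact finrank_inf_mono _ (Iq_anti _ (Nat.le_succ _))
    · have : Vsp r a b ⊓ Iq (r i) (N + 1) = ⊥ := by
        rw [eq_bot_iff]; rintro h ⟨hh, hI⟩
        obtain ⟨P, hP, rfl⟩ := exists_T_of_mem_Vsp r a ha hh
        rw [Submodule.mem_bot]
        exact T_eq_zero_of_marked r a ha hr i (K := N) (by omega) (by omega) (mem_Iq.1 hI)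
      rw [this, finrank_bot]
  · intro n
    refine nat_fn_gap
      (fun n => Module.finrank k (Vsp r a b ⊓ degreeLT k (d + 1 - n) : Submodule k k[X])) N b
      (by omega) ?_ ?_ ?_ ?_ ?_ n
    · intro n n' hnn'; exact finrank_inf_mono _ (degreeLT_mono (by omega))
    · intro n; exact finrank_Fd_step _ _ _
    · have h1 := Vsp_le_degreeLT r a ha b
      rw [show b + ∑ j, a j + m = d + 1 - 0 by omega] at h1

      rw [inf_eq_left.2 h1]
      exact hfin
    · apply le_antisymm
      · apply Submodule.finrank_mono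
        refine le_inf inf_le_left ?_
        have h1 := gap_infty r a ha b
        rw [show ∑ j, a j + m = d + 1 - b by omega,
          show d + 1 - b - 1 = d + 1 - (b + 1) by omega] at h1
        exact h1
      · exact finrank_inf_mono _ (degreeLT_mono (by omega))
    · have : Vsp r a b ⊓ degreeLT k (d + 1 - (N + 1)) = ⊥ := by
        rw [eq_bot_iff]; rintro h ⟨hh, hI⟩
        obtain ⟨P, hP, rfl⟩ := exists_T_of_mem_Vsp r a ha hh
        rw [Submodule.mem_bot]
        apply T_eq_zero_of_infty r a ha
        have := mem_degreeLT.1 hI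
        rwa [show d + 1 - (N + 1) = m - 1 by omega] at this
      rw [this, finrank_bot]

end Groth.Agent.S17241
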