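import Groth.Statements.S17242
import Groth.Agent.Lib.Helper25.EffDiv
-- import your own Groth.Agent.* helpers here

set_option autoImplicit false
open W4c4effdivwronsk2

namespace Groth.Agent.S17242

open Polynomial in
/-- Let `k` be a field of characteristic zero and take, on the projective line over `k`, the point `∞`
and `m` further distinct points `r_1, …, r_m` of the affine line, with positive integers `b` (at
`∞`) and `a_1, …, a_m`; put `N = b + ∑ a_j`. The sum of the spaces of differentials with a single
pole, of order at most `b + 1` at `∞`, resp. at most `a_j + 1` at `r_j`, `V = H⁰(ω((b+1)∞)) + ∑_j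
H⁰(ω((a_j+1)r_j)) ⊆ H⁰(ω((b+1)∞ + ∑_j (a_j+1)r_j)) ≅ H⁰(O(d))`, `d = b - 1 + ∑ (a_j+1)`, becomes,
after multiplying by `dX⁻¹ ∏_j (X - r_j)^(a_j+1)`, the subspace of `k[X]_{≤ d}` spanned by
`D·k[X]_{<b}` and the `D_i·k[X]_{<a_i}`, where `D = ∏_j (X - r_j)^(a_j+1)` and `D_i` omits the
`i`-th factor; a member `h` vanishes to order `n` at a point `q` of the affine line when `(X - q)^n
∣ h`, and to order `d - deg h` at `∞`. Then `V` (of dimension `N`) has no ramification point off the
marked points: at every point `q` of the affine line other than the `r_j` the vanishing orders are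
`0, 1, …, N - 1`, i.e. no nonzero member of `V` is divisible by `(X - q)^N`. (The published
statement is over the complex numbers, where every unmarked point is such a `q` once one marked
point is placed at `∞`.) -/
theorem result
    (k : Type*) [Field k] [CharZero k] (m : ℕ) (r : Fin m → k) (hr : Function.Injective r)
    (a : Fin m → ℕ) (ha : ∀ j, 1 ≤ a j) (b : ℕ) (hb : 1 ≤ b) (N d : ℕ)
    (hN : N = (∑ j, a j) + b) (hd : d + 1 = (∑ j, (a j + 1)) + b)
    (V : Submodule k (Polynomial k))
    (hV : V = (Polynomial.degreeLT k b).map (LinearMap.mulLeft k (∏ j, (X - C (r j)) ^ (a j + 1))) ⊔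
      ⨆ i, (Polynomial.degreeLT k (a i)).map
        (LinearMap.mulLeft k (∏ j ∈ Finset.univ.erase i, (X - C (r j)) ^ (a j + 1))))
    (q : k) (hq : ∀ j, q ≠ r j) :
    V ⊓ (Ideal.span {(X - C q) ^ N}).restrictScalars k = ⊥ := by
  classical
  subst hV
  rw [eq_bot_iff]
  rintro h ⟨hV', hI⟩
  have hdvd : (X - C q) ^ N ∣ h := Ideal.mem_span_singleton.1 hI
  have hV'' : h ∈ Groth.Agent.Lib.Helper25.EffDiv.Vsp r a b := hV'
  obtain ⟨P, hPdeg, rfl⟩ := Groth.Agent.Lib.Helper25.EffDiv.exists_T_of_mem_Vsp r a ha hV''
  have hE := Groth.Agent.Lib.Helper25.EffDiv.natDegree_Ep r a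
  rw [Submodule.mem_bot]
  exact Groth.Agent.Lib.Helper25.EffDiv.T_eq_zero_of_unmarked r a ha hq (K := N)
    (by omega) (by omega) hdvd

end Groth.Agent.S17242
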