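import Groth.Statements.S17243
import Groth.Agent.Lib.Helper25.EffDiv
-- import your own Groth.Agent.* helpers here

set_option autoImplicit false
open W4c4effdivwronsk2

namespace Groth.Agent.S17243

open Groth.Agent.Lib.Helper25.EffDiv


open Polynomial in
/-- Let `k` be a field of characteristic zero and take, on the projective line over `k`, the point `∞`
and `m` further distinct points `r_1, …, r_m` of the affine line, with positive integers `b` (at
`∞`) and `a_1, …, a_m`; put `N = b + ∑ a_j`. The sum of the spaces of differentials with a single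
pole, of order at most `b + 1` at `∞`, resp. at most `a_j + 1` at `r_j`, `V = H⁰(ω((b+1)∞)) + ∑_j
H⁰(ω((a_j+1)r_j)) ⊆ H⁰(ω((b+1)∞ + ∑_j (a_j+1)r_j)) ≅ H⁰(O(d))`, `d = b - 1 + ∑ (a_j+1)`, becomes,
after multiplying by `dX⁻¹ ∏_j (X - r_j)^(a_j+1)`, the subspace of `k[X]_{≤ d}` spanned by
`D·k[X]_{<b}` and the `D_i·k[X]_{<a_i}`, where `D = ∏_j (X - r_j)^(a_j+1)` and `D_i` omits the
`i`-th factor; a member `h` vanishes to order `n` at a point `q` of the affine line when `(X - q)^n
∣ h`, and to order `d - deg h` at `∞`. Let `V₁ ⊆ V` be a hyperplane (`dim V₁ = N - 1`) containing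
`H⁰(ω((b-1)∞)) + ∑_j H⁰(ω((a_j+1)r_j))`, i.e. containing `D·k[X]_{<b-2}` and every
`D_i·k[X]_{<a_i}`. Then `V₁` has at most one ramification point off the marked points, and that
point is simple: at every point `q` of the affine line other than the `r_j` the weight of `V₁` is at
most one (no nonzero member divisible by `(X - q)^N`, at most a line of members divisible by `(X -
q)^(N-2)`), and at most one such `q` has positive weight (a nonzero member divisible by `(X -
q)^(N-1)`). (The published statement is over the complex numbers with the distinguished marked point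
arbitrary; it is placed at `∞` here, so that the unmarked points are the points of the affine line
other than the `r_j`.) -/
theorem result
    (k : Type*) [Field k] [CharZero k] (m : ℕ) (r : Fin m → k) (hr : Function.Injective r)
    (a : Fin m → ℕ) (ha : ∀ j, 1 ≤ a j) (b : ℕ) (hb : 1 ≤ b) (N d : ℕ)
    (hN : N = (∑ j, a j) + b) (hd : d + 1 = (∑ j, (a j + 1)) + b)
    (V : Submodule k (Polynomial k))
    (hV : V = (Polynomial.degreeLT k b).map (LinearMap.mulLeft k (∏ j, (X - C (r j)) ^ (a j + 1))) ⊔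
      ⨆ i, (Polynomial.degreeLT k (a i)).map
        (LinearMap.mulLeft k (∏ j ∈ Finset.univ.erase i, (X - C (r j)) ^ (a j + 1))))
    (V₁ : Submodule k (Polynomial k)) (hV₁ : V₁ ≤ V) (hfin : Module.finrank k ↥V₁ + 1 = N)
    (hU : (Polynomial.degreeLT k (b - 2)).map (LinearMap.mulLeft k (∏ j, (X - C (r j)) ^ (a j + 1))) ⊔
      (⨆ i, (Polynomial.degreeLT k (a i)).map
        (LinearMap.mulLeft k (∏ j ∈ Finset.univ.erase i, (X - C (r j)) ^ (a j + 1)))) ≤ V₁) :
    (∀ q : k, (∀ j, q ≠ r j) →
      (V₁ ⊓ (Ideal.span {(X - C q) ^ N}).restrictScalars k) = ⊥ ∧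
      Module.finrank k ↥(V₁ ⊓ (Ideal.span {(X - C q) ^ (N - 2)}).restrictScalars k) ≤ 1) ∧
    (∀ q q' : k, (∀ j, q ≠ r j) → (∀ j, q' ≠ r j) →
      (V₁ ⊓ (Ideal.span {(X - C q) ^ (N - 1)}).restrictScalars k) ≠ ⊥ →
      (V₁ ⊓ (Ideal.span {(X - C q') ^ (N - 1)}).restrictScalars k) ≠ ⊥ → q = q') := by
  classical
  subst hV
  have hVeq : (Polynomial.degreeLT k b).map (LinearMap.mulLeft k (∏ j, (X - C (r j)) ^ (a j + 1))) ⊔
      ⨆ i, (Polynomial.degreeLT k (a i)).map
        (LinearMap.mulLeft k (∏ j ∈ Finset.univ.erase i, (X - C (r j)) ^ (a j + 1))) =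
      Vsp r a b := rfl
  have hUeq : (Polynomial.degreeLT k (b - 2)).map
      (LinearMap.mulLeft k (∏ j, (X - C (r j)) ^ (a j + 1))) ⊔
      (⨆ i, (Polynomial.degreeLT k (a i)).map
        (LinearMap.mulLeft k (∏ j ∈ Finset.univ.erase i, (X - C (r j)) ^ (a j + 1)))) =
      Vsp r a (b - 2) := rfl
  rw [hVeq] at hV₁
  rw [hUeq] at hU
  have hfd : FiniteDimensional k (Vsp r a b) := Vsp_fd r a b
  have hfd1 : FiniteDimensional k V₁ := Submodule.finiteDimensional_of_le hV₁
  have hE := natDegree_Ep r a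
  have hIq : ∀ (q : k) (n : ℕ), (Ideal.span {(X - C q) ^ n}).restrictScalars k = Iq q n :=
    fun _ _ => rfl
  simp only [hIq]
  rcases Nat.lt_or_ge b 2 with hb2 | hb2
  · -- the case `b = 1`: `V₁` is the span of the `D_i k[X]_{<a_i}`
    have hb0 : b - 2 = 0 := by omega
    rw [hb0] at hU
    have hUfin : Module.finrank k (Vsp r a 0) = N - 1 := by rw [finrank_Vsp r a hr]; omega
    have hV1eq : V₁ = Vsp r a 0 := (Submodule.eq_of_le_of_finrank_le hU (by omega)).symm
    have hbot : ∀ q : k, (∀ j, q ≠ r j) → V₁ ⊓ Iq q (N - 1) = ⊥ := fun q hq => by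
      rw [hV1eq]; exact Vsp_inf_Iq_eq_bot r a ha hq (by omega)
    refine ⟨fun q hq => ⟨?_, ?_⟩, fun q q' hq hq' h1 h2 => absurd (hbot q hq) h1⟩
    · exact eq_bot_iff.2 ((inf_le_inf_left _ (Iq_anti q (by omega))).trans (hbot q hq).le)
    · show Module.finrank k ↥(V₁ ⊓ Iq q (N - 2)) ≤ 1
      have h1 := finrank_Iq_step V₁ q (N - 2)
      have h2 : V₁ ⊓ Iq q (N - 2 + 1) = ⊥ :=
        eq_bot_iff.2 ((inf_le_inf_left _ (Iq_anti q (by omega))).trans (hbot q hq).le)
      rw [h2, finrank_bot] at h1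
      exact h1
  · -- the case `b ≥ 2`
    have hUfin : Module.finrank k (Vsp r a (b - 2)) = N - 2 := by rw [finrank_Vsp r a hr]; omega
    have hfdU : FiniteDimensional k (Vsp r a (b - 2)) := Vsp_fd r a (b - 2)
    have hUbot : ∀ q : k, (∀ j, q ≠ r j) → Vsp r a (b - 2) ⊓ Iq q (N - 2) = ⊥ :=
      fun q hq => Vsp_inf_Iq_eq_bot r a ha hq (by omega)
    refine ⟨fun q hq => ⟨?_, ?_⟩, ?_⟩
    · exact eq_bot_iff.2 ((inf_le_inf_right _ hV₁).trans
        (Vsp_inf_Iq_eq_bot r a ha hq (by omega)).le)
    · show Module.finrank k ↥(V₁ ⊓ Iq q (N - 2)) ≤ 1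
      by_contra hcon
      push Not at hcon
      have hVI : Module.finrank k (Vsp r a b ⊓ Iq q (N - 2) : Submodule k k[X]) = 2 := by
        rw [finrank_Vsp_Iq_unmarked r a ha hr hq]; omega
      have hfdVI : FiniteDimensional k (Vsp r a b ⊓ Iq q (N - 2) : Submodule k k[X]) :=
        Submodule.finiteDimensional_inf_left _ _
      have heq : V₁ ⊓ Iq q (N - 2) = Vsp r a b ⊓ Iq q (N - 2) :=
        Submodule.eq_of_le_of_finrank_le (inf_le_inf_right _ hV₁) (by omega)
      have hle : Vsp r a (b - 2) ⊔ (Vsp r a b ⊓ Iq q (N - 2)) ≤ V₁ :=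
        sup_le hU (heq ▸ inf_le_left)
      have hdim := Submodule.finrank_sup_add_finrank_inf_eq (Vsp r a (b - 2))
        (Vsp r a b ⊓ Iq q (N - 2))
      have hinf : Vsp r a (b - 2) ⊓ (Vsp r a b ⊓ Iq q (N - 2)) = ⊥ :=
        eq_bot_iff.2 (le_trans (inf_le_inf_left _ inf_le_right) (hUbot q hq).le)
      rw [hinf, finrank_bot] at hdim
      have := Submodule.finrank_mono hle
      omega
    · intro q q' hq hq' h1 h2
      by_contra hqq
      obtain ⟨h, hhmem, hh0⟩ := Submodule.exists_mem_ne_zero_of_ne_bot h1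
      obtain ⟨h', hhmem', hh0'⟩ := Submodule.exists_mem_ne_zero_of_ne_bot h2
      obtain ⟨hh1, hhI⟩ := Submodule.mem_inf.1 hhmem
      obtain ⟨hh1', hhI'⟩ := Submodule.mem_inf.1 hhmem'
      obtain ⟨Q, hQ, hQd, hQdeg⟩ := mem_Vsp_Iq_unmarked r a ha hq (hV₁ hh1) (mem_Iq.1 hhI)
      obtain ⟨Q', hQ', hQd', hQdeg'⟩ := mem_Vsp_Iq_unmarked r a ha hq' (hV₁ hh1') (mem_Iq.1 hhI')
      rw [show N - 1 + 1 = N by omega] at hQd hQd'
      obtain ⟨α, rfl⟩ := eq_C_mul_pow_of_dvd hQd (by omega)
      obtain ⟨α', rfl⟩ := eq_C_mul_pow_of_dvd hQd' (by omega)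
      have hα : α ≠ 0 := by rintro rfl; apply hh0; rw [← hQ]; simp
      have hα' : α' ≠ 0 := by rintro rfl; apply hh0'; rw [← hQ']; simp
      let Φ : (Vsp r a (b - 2) × k × k) →ₗ[k] k[X] := (Vsp r a (b - 2)).subtype.coprod
        ((LinearMap.toSpanSingleton k k[X] h).coprod (LinearMap.toSpanSingleton k k[X] h'))
      have hΦ : ∀ x : Vsp r a (b - 2) × k × k, Φ x = x.1 + (x.2.1 • h + x.2.2 • h') :=
        fun x => rfl
      have hinj : Function.Injective Φ := by
        rw [← LinearMap.ker_eq_bot, LinearMap.ker_eq_bot']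
        rintro ⟨u, s, t⟩ hx
        rw [hΦ] at hx
        simp only at hx
        obtain ⟨P₀, hP₀, hTP₀⟩ := exists_T_of_mem_Vsp r a ha u.2
        have hT0 : T r a (P₀ + (s • (C α * (X - C q) ^ N) + t • (C α' * (X - C q') ^ N))) = 0 := by
          rw [map_add, map_add, map_smul, map_smul, hTP₀, hQ, hQ']; exact hx
        obtain ⟨l, hl⟩ := T_ker r a ha hT0
        have hcN := congrArg (fun P => P.coeff N) hl
        have hcN1 := congrArg (fun P => P.coeff (N - 1)) hl
        simp only [coeff_add, coeff_smul, coeff_C_mul, smul_eq_mul] at hcN hcN1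
        rw [coeff_eq_zero_of_natDegree_lt (by omega : P₀.natDegree < N),
          coeff_eq_zero_of_natDegree_lt (by omega : (Ep r a).natDegree < N),
          coeff_X_sub_C_pow_top, coeff_X_sub_C_pow_top] at hcN
        rw [coeff_eq_zero_of_natDegree_lt (by omega : P₀.natDegree < N - 1),
          coeff_eq_zero_of_natDegree_lt (by omega : (Ep r a).natDegree < N - 1),
          coeff_X_sub_C_pow_pred _ (by omega), coeff_X_sub_C_pow_pred _ (by omega)] at hcN1
        have hNk : (N : k) ≠ 0 := by exact_mod_cast (by omega : N ≠ 0)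
        have hqq' : q - q' ≠ 0 := sub_ne_zero.2 hqq
        have hs0 : s * α * (N : k) * (q - q') = 0 := by
          linear_combination (-(N : k) * q') * hcN - hcN1
        have hs : s = 0 := by
          rcases mul_eq_zero.1 hs0 with h5 | h5
          · rcases mul_eq_zero.1 h5 with h6 | h6
            · rcases mul_eq_zero.1 h6 with h7 | h7
              · exact h7
              · exact absurd h7 hα
            · exact absurd h6 hNk
          · exact absurd h5 hqq'
        subst hs
        have ht0 : t * α' = 0 := by linear_combination hcN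
        have ht : t = 0 := (mul_eq_zero.1 ht0).resolve_right hα'
        subst ht
        simp only [zero_smul, add_zero] at hx
        have hu : u = 0 := Subtype.ext hx
        subst hu
        rfl
      have hrange : LinearMap.range Φ ≤ V₁ := by
        rintro _ ⟨x, rfl⟩
        rw [hΦ]
        exact add_mem (hU x.1.2) (add_mem (Submodule.smul_mem _ _ hh1)
          (Submodule.smul_mem _ _ hh1'))
      have h3 := Submodule.finrank_mono hrange
      rw [LinearMap.finrank_range_of_inj hinj, Module.finrank_prod, Module.finrank_prod,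
        hUfin, Module.finrank_self] at h3
      omega

end Groth.Agent.S17243
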