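import Groth.Statements.S17244
import Groth.Agent.Lib.Helper25.EffDiv
-- import your own Groth.Agent.* helpers here

set_option autoImplicit false
open W4c4effdivwronsk2

namespace Groth.Agent.S17244

open Groth.Agent.Lib.Helper25.EffDiv


open Polynomial in
/-- Let `k` be a field of characteristic zero and take, on the projective line over `k`, the point `∞`
and `m` further distinct points `r_1, …, r_m` of the affine line, with positive integers `b` (at
`∞`) and `a_1, …, a_m`; put `N = b + ∑ a_j`. The sum of the spaces of differentials with a single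
pole, of order at most `b + 1` at `∞`, resp. at most `a_j + 1` at `r_j`, `V = H⁰(ω((b+1)∞)) + ∑_j
H⁰(ω((a_j+1)r_j)) ⊆ H⁰(ω((b+1)∞ + ∑_j (a_j+1)r_j)) ≅ H⁰(O(d))`, `d = b - 1 + ∑ (a_j+1)`, becomes,
after multiplying by `dX⁻¹ ∏_j (X - r_j)^(a_j+1)`, the subspace of `k[X]_{≤ d}` spanned by
`D·k[X]_{<b}` and the `D_i·k[X]_{<a_i}`, where `D = ∏_j (X - r_j)^(a_j+1)` and `D_i` omits the
`i`-th factor; a member `h` vanishes to order `n` at a point `q` of the affine line when `(X - q)^n
∣ h`, and to order `d - deg h` at `∞`. Let `V₁ ⊆ V` be a hyperplane (`dim V₁ = N - 1`) containing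
`D·k[X]_{<b-2}` and every `D_i·k[X]_{<a_i}` (that is, containing `H⁰(ω((b-1)∞)) + ∑_j
H⁰(ω((a_j+1)r_j))`). The weight of `V₁` at a point is `∑_{n=1}^{d} dim V₁(-n·point) - (N-1 choose
2)` (the sum of the vanishing orders minus `0 + 1 + ⋯ + (N-2)`). Then the weight of `V₁` at `r_i` is
`∑_{j≠i} a_j + b - 1 + ε_i` and its weight at `∞` is `∑_j a_j + N - 2 + ε`, with `ε_i, ε ∈ {0, 1}`.
(The published statement is over the complex numbers with the distinguished marked point arbitrary;
it is placed at `∞` here.) -/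
theorem result
    (k : Type*) [Field k] [CharZero k] (m : ℕ) (r : Fin m → k) (hr : Function.Injective r)
    (a : Fin m → ℕ) (ha : ∀ j, 1 ≤ a j) (b : ℕ) (hb : 1 ≤ b) (N d : ℕ)
    (hN : N = (∑ j, a j) + b) (hd : d + 1 = (∑ j, (a j + 1)) + b)
    (V : Submodule k (Polynomial k))
    (hV : V = (Polynomial.degreeLT k b).map (LinearMap.mulLeft k (∏ j, (X - C (r j)) ^ (a j + 1))) ⊔
      ⨆ i, (Polynomial.degreeLT k (a i)).map
        (LinearMap.mulLeft k (∏ j ∈ Finset.univ.erase i, (X - C (r j)) ^ (a j + 1))))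
    (V₁ : Submodule k (Polynomial k)) (hV₁ : V₁ ≤ V) (hfin : Module.finrank k ↥V₁ + 1 = N)
    (hU : (Polynomial.degreeLT k (b - 2)).map (LinearMap.mulLeft k (∏ j, (X - C (r j)) ^ (a j + 1))) ⊔
      (⨆ i, (Polynomial.degreeLT k (a i)).map
        (LinearMap.mulLeft k (∏ j ∈ Finset.univ.erase i, (X - C (r j)) ^ (a j + 1)))) ≤ V₁) :
    (∀ i : Fin m, ∃ ε : ℕ, ε ≤ 1 ∧
      (∑ n ∈ Finset.range d, Module.finrank k ↥(V₁ ⊓ (Ideal.span {(X - C (r i)) ^ (n + 1)}).restrictScalars k)) + 1 =
        (N - 1).choose 2 + (N - a i) + ε) ∧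
    (∃ ε : ℕ, ε ≤ 1 ∧
      (∑ n ∈ Finset.range d, Module.finrank k ↥(V₁ ⊓ Polynomial.degreeLT k (d - n))) =
        (N - 1).choose 2 + (N - b) + (N - 2) + ε) := by
  classical
  subst hV
  have hVeq : (Polynomial.degreeLT k b).map (LinearMap.mulLeft k (∏ j, (X - C (r j)) ^ (a j + 1))) ⊔
      ⨆ i, (Polynomial.degreeLT k (a i)).map
        (LinearMap.mulLeft k (∏ j ∈ Finset.univ.erase i, (X - C (r j)) ^ (a j + 1))) =
      Vsp r a b := rfl
  have hUeq : (Polynomial.degreeLT k (b - 2)).map
      (LinearMap.mulLeft k (∏ j, (X - C (r j)) ^ (a j + 1))) ⊔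
      (⨆ i, (Polynomial.degreeLT k (a i)).map
        (LinearMap.mulLeft k (∏ j ∈ Finset.univ.erase i, (X - C (r j)) ^ (a j + 1)))) =
      Vsp r a (b - 2) := rfl
  rw [hVeq] at hV₁
  rw [hUeq] at hU
  have hIq : ∀ (q : k) (n : ℕ), (Ideal.span {(X - C q) ^ n}).restrictScalars k = Iq q n :=
    fun _ _ => rfl
  have hfd : FiniteDimensional k (Vsp r a b) := Vsp_fd r a b
  have hsum : ∑ j, (a j + 1) = ∑ j, a j + m := by rw [Finset.sum_add_distrib]; simp
  have hfinW : Module.finrank k (Vsp r a b) = N := by rw [finrank_Vsp r a hr]; omega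
  have hfin1 : Module.finrank k V₁ + 1 = Module.finrank k (Vsp r a b) := by omega
  have hC := choose_two_id N (by omega)
  have hE := natDegree_Ep r a
  refine ⟨fun i => ?_, ?_⟩
  · -- at the marked point `r i`
    have hm : 0 < m := i.pos
    have hA : a i ≤ ∑ j, a j :=
      Finset.single_le_sum (fun j _ => Nat.zero_le (a j)) (Finset.mem_univ i)
    have hlow : ¬ Vsp r a b ⊓ Iq (r i) (N - 1) ≤ V₁ := by
      intro hle
      rcases Nat.lt_or_ge b 2 with hb2 | hb2
      · have hb0 : b - 2 = 0 := by omega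
        rw [hb0] at hU
        have hUfin : Module.finrank k (Vsp r a 0) = N - 1 := by rw [finrank_Vsp r a hr]; omega
        have hfd0 : FiniteDimensional k V₁ := Submodule.finiteDimensional_of_le hV₁
        have hV1eq : V₁ = Vsp r a 0 := (Submodule.eq_of_le_of_finrank_le hU (by omega)).symm
        rw [hV1eq] at hle
        have hW : T r a ((X - C (r i)) ^ N) ∈ Vsp r a b := by
          rw [Vsp_eq_T r a ha hr b]
          refine ⟨_, mem_degreeLT_of_natDegree_lt ?_, rfl⟩
          rw [(monic_X_sub_C _).natDegree_pow, natDegree_X_sub_C]; omega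
        have hI : T r a ((X - C (r i)) ^ N) ∈ Iq (r i) (N - 1) := by
          obtain ⟨B, hB, -⟩ := T_marked r a hr i (s := N) (by omega) (R := 1) (by simp)
          rw [mul_one] at hB
          rw [mem_Iq, hB]
          exact (pow_dvd_pow _ (by omega)).trans (dvd_mul_right _ _)
        have h1 := hle (Submodule.mem_inf.2 ⟨hW, hI⟩)
        obtain ⟨P', hP', hTP'⟩ := exists_T_of_mem_Vsp r a ha h1
        have hT0 : T r a ((X - C (r i)) ^ N - P') = 0 := by rw [map_sub, hTP', sub_self]
        obtain ⟨l, hl⟩ := T_ker r a ha hT0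
        have hc := congrArg (fun P => P.coeff N) hl
        simp only [coeff_sub, coeff_C_mul] at hc
        rw [coeff_X_sub_C_pow_top, coeff_eq_zero_of_natDegree_lt (by omega : P'.natDegree < N),
          coeff_eq_zero_of_natDegree_lt (by omega : (Ep r a).natDegree < N)] at hc
        simp at hc
      · have hUfin : Module.finrank k (Vsp r a (b - 2)) = N - 2 := by
          rw [finrank_Vsp r a hr]; omega
        have hfdU : FiniteDimensional k (Vsp r a (b - 2)) := Vsp_fd r a (b - 2)
        have hfdVI : FiniteDimensional k (Vsp r a b ⊓ Iq (r i) (N - 1) : Submodule k k[X]) :=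
          Submodule.finiteDimensional_inf_left _ _
        have hfd0 : FiniteDimensional k V₁ := Submodule.finiteDimensional_of_le hV₁
        have hUbot : Vsp r a (b - 2) ⊓ Iq (r i) (N - 1) = ⊥ := by
          rw [eq_bot_iff]; rintro h ⟨hh, hI⟩
          obtain ⟨P, hP, rfl⟩ := exists_T_of_mem_Vsp r a ha hh
          rw [Submodule.mem_bot]
          have hI' := mem_Iq.1 hI
          rw [show N - 1 = N - 2 + 1 by omega] at hI'
          exact T_eq_zero_of_marked r a ha hr i (K := N - 2) (by omega) (by omega) hI'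
        have hVI : Module.finrank k (Vsp r a b ⊓ Iq (r i) (N - 1) : Submodule k k[X]) = 2 := by
          rw [finrank_Vsp_marked r a ha hr hN i, if_neg (by omega)]; omega
        have hdim := Submodule.finrank_sup_add_finrank_inf_eq (Vsp r a (b - 2))
          (Vsp r a b ⊓ Iq (r i) (N - 1))
        have hinf : Vsp r a (b - 2) ⊓ (Vsp r a b ⊓ Iq (r i) (N - 1)) = ⊥ :=
          eq_bot_iff.2 (le_trans (inf_le_inf_left _ inf_le_right) hUbot.le)
        rw [hinf, finrank_bot] at hdim
        have := Submodule.finrank_mono (sup_le hU hle)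
        omega
    have hhigh : Vsp r a b ⊓ Iq (r i) (N + 1) ≤ V₁ := by
      have h0 := finrank_Vsp_marked r a ha hr hN i (N + 1)
      rw [if_neg (by omega), Nat.sub_self] at h0
      rw [Submodule.finrank_eq_zero.1 h0]
      exact bot_le
    obtain ⟨o, ho1, ho2, ho⟩ := exists_o_high (Vsp r a b) V₁ (Iq (r i))
      (fun n n' h => Iq_anti _ h) N hlow hhigh
    have hs := sum_hyper (Vsp r a b) V₁ hV₁ hfin1 (Iq (r i)) N (a i) o d
      (fun n _ => indicator_of_formula
        (fun n => Module.finrank k (Vsp r a b ⊓ Iq (r i) n : Submodule k k[X])) N (a i)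
        (by omega) (finrank_Vsp_marked r a ha hr hN i) n) (fun n _ => ho n)
    have hD := sumN_ge N d (by omega)
    refine ⟨N - o, by omega, ?_⟩
    rw [min_eq_left (by omega), min_eq_left (by omega), hD] at hs
    change ∑ n ∈ Finset.range d, Module.finrank k ↥(V₁ ⊓ Iq (r i) (n + 1)) + 1 = _
    omega
  · -- at infinity
    have hF : Antitone (fun n => degreeLT k (d + 1 - n)) :=
      fun n n' h => degreeLT_mono (by omega)
    have hhigh : Vsp r a b ⊓ degreeLT k (d + 1 - 2) ≤ V₁ := by
      refine le_trans ?_ hU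
      refine le_trans (inf_le_inf_left _ (degreeLT_mono ?_)) (Vsp_inf_deg_le r a ha (c := b)
        (c' := b - 2) (by omega))
      omega
    obtain ⟨o, ho1, ho⟩ := exists_o_low (Vsp r a b) V₁ (fun n => degreeLT k (d + 1 - n)) hF hhigh
    have hs := sum_hyper (Vsp r a b) V₁ hV₁ hfin1
      (fun n => degreeLT k (d + 1 - n)) N b o d
      (fun n _ => indicator_of_formula
        (fun n => Module.finrank k (Vsp r a b ⊓ degreeLT k (d + 1 - n) : Submodule k k[X])) N b
        (by omega) (finrank_Vsp_infty r a ha hr hN hd) n) ho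
    beta_reduce at hs
    have hsum' : ∑ n ∈ Finset.range d, Module.finrank k ↥(V₁ ⊓ degreeLT k (d - n)) =
        ∑ n ∈ Finset.range d, Module.finrank k ↥(V₁ ⊓ degreeLT k (d + 1 - (n + 1))) :=
      Finset.sum_congr rfl fun n _ => by rw [show d - n = d + 1 - (n + 1) by omega]
    rw [hsum']
    rcases Nat.eq_zero_or_pos m with hm | hm
    · have hdN : d = N - 1 := by omega
      have hD := sumN_pred N (by omega)
      subst hdN
      have hA0 : ∑ j, a j = 0 := by subst hm; simp
      rw [min_eq_right (show N - 1 ≤ b by omega)] at hs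
      refine ⟨if N = 1 then 0 else 1 - o, by split_ifs <;> omega, ?_⟩
      split_ifs with hN1
      · subst hN1
        simp only [Nat.sub_self, Finset.range_zero, Finset.sum_empty, min_eq_right (Nat.zero_le o)] at hs ⊢
        have h02 : Nat.choose 0 2 = 0 := rfl
        omega
      · rw [min_eq_left (show o ≤ N - 1 by omega)] at hs
        omega
    · have hD := sumN_ge N d (by omega)
      have hA1 : 1 ≤ ∑ j, a j := le_trans (ha ⟨0, hm⟩)
        (Finset.single_le_sum (fun j _ => Nat.zero_le (a j)) (Finset.mem_univ _))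
      rw [min_eq_left (by omega), min_eq_left (by omega), hD] at hs
      refine ⟨1 - o, by omega, ?_⟩
      omega

end Groth.Agent.S17244
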