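import Groth.Statements.S17245
import Groth.Agent.Lib.Helper25.EffDiv
-- import your own Groth.Agent.* helpers here

set_option autoImplicit false
open W4c4effdivwronsk2

namespace Groth.Agent.S17245

open Groth.Agent.Lib.Helper25.EffDiv


open Polynomial in
/-- Let `k` be a field of characteristic zero and take, on the projective line over `k`, the point `∞`
and `m` further distinct points `r_1, …, r_m` of the affine line, with positive integers `b` (at
`∞`) and `a_1, …, a_m`; put `N = b + ∑ a_j`. The sum of the spaces of differentials with a single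
pole, of order at most `b + 1` at `∞`, resp. at most `a_j + 1` at `r_j`, `V = H⁰(ω((b+1)∞)) + ∑_j
H⁰(ω((a_j+1)r_j)) ⊆ H⁰(ω((b+1)∞ + ∑_j (a_j+1)r_j)) ≅ H⁰(O(d))`, `d = b - 1 + ∑ (a_j+1)`, becomes,
after multiplying by `dX⁻¹ ∏_j (X - r_j)^(a_j+1)`, the subspace of `k[X]_{≤ d}` spanned by
`D·k[X]_{<b}` and the `D_i·k[X]_{<a_i}`, where `D = ∏_j (X - r_j)^(a_j+1)` and `D_i` omits the
`i`-th factor; a member `h` vanishes to order `n` at a point `q` of the affine line when `(X - q)^n
∣ h`, and to order `d - deg h` at `∞`. Let `p` be a further point of the affine line, distinct from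
the `r_j`, and `V₁ = V(-p)` the members divisible by `X - p`, an `(N-1)`-dimensional system in the
line bundle twisted down by `p` (its vanishing orders at points `q ≠ p`, and at `∞`, are read off
exactly as for `V`; at `p` itself they are one less than the order of divisibility by `X - p`). Then
`dim V₁ = N - 1`, the point `p` is not a ramification point of `V₁` (no nonzero member of `V₁` is
divisible by `(X - p)^N`), and `V₁` has at most one ramification point off the marked points, a
simple one: at every `q` other than `p` and the `r_j`, no nonzero member is divisible by `(X - q)^N`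
and at most a line of members is divisible by `(X - q)^(N-2)`, and at most one such `q` has a
nonzero member divisible by `(X - q)^(N-1)`. (The published statement is over the complex numbers
with all points arbitrary; one marked point is placed at `∞` here and `p` is taken distinct from the
marked points.) -/
theorem result
    (k : Type*) [Field k] [CharZero k] (m : ℕ) (r : Fin m → k) (hr : Function.Injective r)
    (a : Fin m → ℕ) (ha : ∀ j, 1 ≤ a j) (b : ℕ) (hb : 1 ≤ b) (N d : ℕ)
    (hN : N = (∑ j, a j) + b) (hd : d + 1 = (∑ j, (a j + 1)) + b)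
    (V : Submodule k (Polynomial k))
    (hV : V = (Polynomial.degreeLT k b).map (LinearMap.mulLeft k (∏ j, (X - C (r j)) ^ (a j + 1))) ⊔
      ⨆ i, (Polynomial.degreeLT k (a i)).map
        (LinearMap.mulLeft k (∏ j ∈ Finset.univ.erase i, (X - C (r j)) ^ (a j + 1))))
    (p : k) (hp : ∀ j, p ≠ r j) (V₁ : Submodule k (Polynomial k))
    (hV₁ : V₁ = V ⊓ (Ideal.span {X - C p}).restrictScalars k) :
    Module.finrank k ↥V₁ + 1 = N ∧
    (V₁ ⊓ (Ideal.span {(X - C p) ^ N}).restrictScalars k) = ⊥ ∧
    (∀ q : k, (∀ j, q ≠ r j) → q ≠ p →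
      (V₁ ⊓ (Ideal.span {(X - C q) ^ N}).restrictScalars k) = ⊥ ∧
      Module.finrank k ↥(V₁ ⊓ (Ideal.span {(X - C q) ^ (N - 2)}).restrictScalars k) ≤ 1) ∧
    (∀ q q' : k, (∀ j, q ≠ r j) → q ≠ p → (∀ j, q' ≠ r j) → q' ≠ p →
      (V₁ ⊓ (Ideal.span {(X - C q) ^ (N - 1)}).restrictScalars k) ≠ ⊥ →
      (V₁ ⊓ (Ideal.span {(X - C q') ^ (N - 1)}).restrictScalars k) ≠ ⊥ → q = q') := by
  classical
  subst hV hV₁
  have hVeq : (Polynomial.degreeLT k b).map (LinearMap.mulLeft k (∏ j, (X - C (r j)) ^ (a j + 1))) ⊔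
      ⨆ i, (Polynomial.degreeLT k (a i)).map
        (LinearMap.mulLeft k (∏ j ∈ Finset.univ.erase i, (X - C (r j)) ^ (a j + 1))) =
      Vsp r a b := rfl
  have hIq : ∀ (q : k) (n : ℕ), (Ideal.span {(X - C q) ^ n}).restrictScalars k = Iq q n :=
    fun _ _ => rfl
  have hIp : (Ideal.span {X - C p}).restrictScalars k = Iq p 1 := by rw [← hIq, pow_one]
  rw [hVeq, hIp]
  simp only [hIq]
  have hfd : FiniteDimensional k (Vsp r a b) := Vsp_fd r a b
  have hfd1 : FiniteDimensional k (Vsp r a b ⊓ Iq p 1 : Submodule k k[X]) :=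
    Submodule.finiteDimensional_inf_left _ _
  have hE := natDegree_Ep r a
  have hfin1 : Module.finrank k (Vsp r a b ⊓ Iq p 1 : Submodule k k[X]) = N - 1 := by
    rw [finrank_Vsp_Iq_unmarked r a ha hr hp]; omega
  have hLp := eval_Lp_ne_zero r hp
  have hNk : (N : k) ≠ 0 := by exact_mod_cast (by omega : N ≠ 0)
  -- the key computation for the last clause
  have key : ∀ q : k, (∀ j, q ≠ r j) → q ≠ p → Vsp r a b ⊓ Iq p 1 ⊓ Iq q (N - 1) ≠ ⊥ →
      (Lp r).eval p * (N : k) = (Mp r a).eval p * (p - q) := by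
    intro q hq hqp hne
    obtain ⟨h, hhmem, hh0⟩ := Submodule.exists_mem_ne_zero_of_ne_bot hne
    obtain ⟨hh12, hhI⟩ := Submodule.mem_inf.1 hhmem
    obtain ⟨hh1, hhp⟩ := Submodule.mem_inf.1 hh12
    obtain ⟨Q, hQ, hQd, hQdeg⟩ := mem_Vsp_Iq_unmarked r a ha hq hh1 (mem_Iq.1 hhI)
    rw [show N - 1 + 1 = N by omega] at hQd
    obtain ⟨α, rfl⟩ := eq_C_mul_pow_of_dvd hQd (by omega)
    have hα : α ≠ 0 := by rintro rfl; apply hh0; rw [← hQ]; simp
    have hev : h.eval p = 0 := by
      have := mem_Iq.1 hhp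
      rw [pow_one, dvd_iff_isRoot] at this
      exact this
    rw [← hQ, ← smul_eq_C_mul, map_smul, eval_smul, smul_eq_mul, eval_T_pow] at hev
    have hev2 := (mul_eq_zero.1 hev).resolve_left hα
    have hpq : p - q ≠ 0 := sub_ne_zero.2 (Ne.symm hqp)
    obtain ⟨t, ht⟩ : ∃ t, N = t + 1 := ⟨N - 1, by omega⟩
    rw [ht, Nat.add_sub_cancel] at hev2
    rw [ht]
    have h3 : (p - q) ^ t * ((Lp r).eval p * ((t + 1 : ℕ) : k) - (Mp r a).eval p * (p - q)) = 0 := by
      rw [← hev2]; ring
    have h4 := (mul_eq_zero.1 h3).resolve_left (pow_ne_zero _ hpq)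
    linear_combination h4
  refine ⟨by omega, ?_, ?_, ?_⟩
  · exact eq_bot_iff.2 ((inf_le_inf_right _ inf_le_left).trans
      (Vsp_inf_Iq_eq_bot r a ha hp (by omega)).le)
  · intro q hq hqp
    refine ⟨eq_bot_iff.2 ((inf_le_inf_right _ inf_le_left).trans
      (Vsp_inf_Iq_eq_bot r a ha hq (by omega)).le), ?_⟩
    show Module.finrank k ↥(Vsp r a b ⊓ Iq p 1 ⊓ Iq q (N - 2)) ≤ 1
    rcases Nat.lt_or_ge N 3 with hN3 | hN3
    · have := Submodule.finrank_mono (inf_le_left : Vsp r a b ⊓ Iq p 1 ⊓ Iq q (N - 2) ≤ _)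
      omega
    · by_contra hcon
      push Not at hcon
      have hVI : Module.finrank k (Vsp r a b ⊓ Iq q (N - 2) : Submodule k k[X]) = 2 := by
        rw [finrank_Vsp_Iq_unmarked r a ha hr hq]; omega
      have hfdVI : FiniteDimensional k (Vsp r a b ⊓ Iq q (N - 2) : Submodule k k[X]) :=
        Submodule.finiteDimensional_inf_left _ _
      have heq : Vsp r a b ⊓ Iq p 1 ⊓ Iq q (N - 2) = Vsp r a b ⊓ Iq q (N - 2) :=
        Submodule.eq_of_le_of_finrank_le (inf_le_inf_right _ inf_le_left) (by omega)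
      have hw : ∀ n, n ≤ N → N - 1 ≤ n → T r a ((X - C q) ^ n) ∈ Vsp r a b ⊓ Iq q (N - 2) := by
        intro n hn1 hn2
        refine Submodule.mem_inf.2 ⟨?_, ?_⟩
        · rw [Vsp_eq_T r a ha hr b]
          refine ⟨_, mem_degreeLT_of_natDegree_lt ?_, rfl⟩
          rw [(monic_X_sub_C q).natDegree_pow, natDegree_X_sub_C]; omega
        · obtain ⟨B, hB, -⟩ := T_unmarked r a (q := q) hq (s := n) (by omega) (R := 1) (by simp)
          rw [mul_one] at hB
          rw [mem_Iq, hB]
          exact (pow_dvd_pow _ (by omega)).trans (dvd_mul_right _ _)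
      have hp0 : ∀ n, n ≤ N → N - 1 ≤ n → (T r a ((X - C q) ^ n)).eval p = 0 := by
        intro n hn1 hn2
        have h1 := hw n hn1 hn2
        rw [← heq] at h1
        have h2 := mem_Iq.1 (Submodule.mem_inf.1 (Submodule.mem_inf.1 h1).1).2
        rw [pow_one, dvd_iff_isRoot] at h2
        exact h2
      have e1 := hp0 (N - 1) (by omega) le_rfl
      have e2 := hp0 N le_rfl (by omega)
      rw [eval_T_pow] at e1 e2
      have hpq : p - q ≠ 0 := sub_ne_zero.2 (Ne.symm hqp)
      obtain ⟨t, ht⟩ : ∃ t, N = t + 2 := ⟨N - 2, by omega⟩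
      rw [ht, show t + 2 - 1 = t + 1 by omega, Nat.add_sub_cancel] at e1
      rw [ht, show t + 2 - 1 = t + 1 by omega] at e2
      push_cast at e1 e2
      have h3 : (Lp r).eval p * (p - q) ^ (t + 1) = 0 := by
        linear_combination e2 - (p - q) * e1
      exact hLp ((mul_eq_zero.1 h3).resolve_right (pow_ne_zero _ hpq))
  · intro q q' hq hqp hq' hq'p h1 h2
    have k1 := key q hq hqp h1
    have k2 := key q' hq' hq'p h2
    have hM : (Mp r a).eval p ≠ 0 := by
      intro h0
      rw [h0, zero_mul] at k1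
      exact (mul_ne_zero hLp hNk) k1
    have : (Mp r a).eval p * (p - q) = (Mp r a).eval p * (p - q') := by rw [← k1, ← k2]
    have h5 := mul_left_cancel₀ hM this
    linear_combination -h5

end Groth.Agent.S17245
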