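import Groth.Statements.S17246
import Groth.Agent.Lib.Helper25.EffDiv
-- import your own Groth.Agent.* helpers here

set_option autoImplicit false
open W4c4effdivwronsk2

namespace Groth.Agent.S17246

open Groth.Agent.Lib.Helper25.EffDiv


open Polynomial in
/-- Let `k` be a field of characteristic zero and take, on the projective line over `k`, the point `∞`
and `m` further distinct points `r_1, …, r_m` of the affine line, with positive integers `b` (at
`∞`) and `a_1, …, a_m`; put `N = b + ∑ a_j`. The sum of the spaces of differentials with a single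
pole, of order at most `b + 1` at `∞`, resp. at most `a_j + 1` at `r_j`, `V = H⁰(ω((b+1)∞)) + ∑_j
H⁰(ω((a_j+1)r_j)) ⊆ H⁰(ω((b+1)∞ + ∑_j (a_j+1)r_j)) ≅ H⁰(O(d))`, `d = b - 1 + ∑ (a_j+1)`, becomes,
after multiplying by `dX⁻¹ ∏_j (X - r_j)^(a_j+1)`, the subspace of `k[X]_{≤ d}` spanned by
`D·k[X]_{<b}` and the `D_i·k[X]_{<a_i}`, where `D = ∏_j (X - r_j)^(a_j+1)` and `D_i` omits the
`i`-th factor; a member `h` vanishes to order `n` at a point `q` of the affine line when `(X - q)^n
∣ h`, and to order `d - deg h` at `∞`. Let `p` be a further point of the affine line, distinct from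
the `r_j`, and `V₁ = V(-p)` the members divisible by `X - p` (an `(N-1)`-dimensional system in the
line bundle twisted down by `p`, with vanishing orders at the marked points read off as for `V`).
With the weight of `V₁` at a marked point defined as `∑_{n=1}^{d} dim V₁(-n·point) - (N-1 choose
2)`: the weight at `r_i` is `∑_{j≠i} a_j + b - 1 + ε_i` and the weight at `∞` is `∑_j a_j - 1 + ε`,
with all `ε` in `{0, 1}`. (The published statement is over the complex numbers with all points
arbitrary; one marked point is placed at `∞` here and `p` is taken distinct from the marked points.) -/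
theorem result
    (k : Type*) [Field k] [CharZero k] (m : ℕ) (r : Fin m → k) (hr : Function.Injective r)
    (a : Fin m → ℕ) (ha : ∀ j, 1 ≤ a j) (b : ℕ) (hb : 1 ≤ b) (N d : ℕ)
    (hN : N = (∑ j, a j) + b) (hd : d + 1 = (∑ j, (a j + 1)) + b)
    (V : Submodule k (Polynomial k))
    (hV : V = (Polynomial.degreeLT k b).map (LinearMap.mulLeft k (∏ j, (X - C (r j)) ^ (a j + 1))) ⊔
      ⨆ i, (Polynomial.degreeLT k (a i)).map
        (LinearMap.mulLeft k (∏ j ∈ Finset.univ.erase i, (X - C (r j)) ^ (a j + 1))))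
    (p : k) (hp : ∀ j, p ≠ r j) (V₁ : Submodule k (Polynomial k))
    (hV₁ : V₁ = V ⊓ (Ideal.span {X - C p}).restrictScalars k) :
    (∀ i : Fin m, ∃ ε : ℕ, ε ≤ 1 ∧
      (∑ n ∈ Finset.range d, Module.finrank k ↥(V₁ ⊓ (Ideal.span {(X - C (r i)) ^ (n + 1)}).restrictScalars k)) + 1 =
        (N - 1).choose 2 + (N - a i) + ε) ∧
    (∃ ε : ℕ, ε ≤ 1 ∧
      (∑ n ∈ Finset.range d, Module.finrank k ↥(V₁ ⊓ Polynomial.degreeLT k (d - n))) + 1 =
        (N - 1).choose 2 + (N - b) + ε) := by
  classical
  subst hV hV₁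
  have hVeq : (Polynomial.degreeLT k b).map (LinearMap.mulLeft k (∏ j, (X - C (r j)) ^ (a j + 1))) ⊔
      ⨆ i, (Polynomial.degreeLT k (a i)).map
        (LinearMap.mulLeft k (∏ j ∈ Finset.univ.erase i, (X - C (r j)) ^ (a j + 1))) =
      Vsp r a b := rfl
  have hIq : ∀ (q : k) (n : ℕ), (Ideal.span {(X - C q) ^ n}).restrictScalars k = Iq q n :=
    fun _ _ => rfl
  have hIp : (Ideal.span {X - C p}).restrictScalars k = Iq p 1 := by rw [← hIq, pow_one]
  rw [hVeq, hIp]
  have hfd : FiniteDimensional k (Vsp r a b) := Vsp_fd r a b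
  have hsum : ∑ j, (a j + 1) = ∑ j, a j + m := by rw [Finset.sum_add_distrib]; simp
  have hfin1 : Module.finrank k (Vsp r a b ⊓ Iq p 1 : Submodule k k[X]) + 1 =
      Module.finrank k (Vsp r a b) := by
    rw [finrank_Vsp_Iq_unmarked r a ha hr hp, finrank_Vsp r a hr]; omega
  have hLp := eval_Lp_ne_zero r hp
  have hC := choose_two_id N (by omega)
  have hE := natDegree_Ep r a
  refine ⟨fun i => ?_, ?_⟩
  · -- at the marked point `r i`
    have hm : 0 < m := i.pos
    have hA : a i ≤ ∑ j, a j :=
      Finset.single_le_sum (fun j _ => Nat.zero_le (a j)) (Finset.mem_univ i)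
    have hlow : ¬ Vsp r a b ⊓ Iq (r i) (N - 1) ≤ Vsp r a b ⊓ Iq p 1 := by
      intro hle
      have hP₀W : T r a ((X - C (r i)) ^ (N - 1) * (X - C p)) ∈ Vsp r a b := by
        rw [Vsp_eq_T r a ha hr b]
        refine ⟨_, mem_degreeLT_of_natDegree_lt ?_, rfl⟩
        refine natDegree_mul_le.trans_lt ?_
        rw [(monic_X_sub_C _).natDegree_pow, natDegree_X_sub_C, natDegree_X_sub_C]
        omega
      have hP₀I : T r a ((X - C (r i)) ^ (N - 1) * (X - C p)) ∈ Iq (r i) (N - 1) := by
        rw [mem_Iq, T_apply, L_eq r i]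
        rw [show (X - C (r i)) * Li r i * derivative ((X - C (r i)) ^ (N - 1) * (X - C p)) =
          Li r i * ((X - C (r i)) * derivative ((X - C (r i)) ^ (N - 1) * (X - C p))) by ring,
          xd_pow_mul]
        exact dvd_sub (dvd_mul_of_dvd_right (dvd_mul_right _ _) _)
          (dvd_mul_of_dvd_right (dvd_mul_right _ _) _)
      have h1 := hle (Submodule.mem_inf.2 ⟨hP₀W, hP₀I⟩)
      have h2 := mem_Iq.1 (Submodule.mem_inf.1 h1).2
      rw [pow_one, dvd_iff_isRoot, IsRoot, T_apply, derivative_mul, derivative_X_sub_C] at h2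
      simp only [eval_sub, eval_mul, eval_add, eval_pow, eval_X, eval_C, sub_self, mul_zero,
        zero_add, mul_one, sub_zero] at h2
      exact hLp ((mul_eq_zero.1 h2).resolve_right (pow_ne_zero _ (sub_ne_zero.2 (hp i))))
    have hhigh : Vsp r a b ⊓ Iq (r i) (N + 1) ≤ Vsp r a b ⊓ Iq p 1 := by
      have h0 := finrank_Vsp_marked r a ha hr hN i (N + 1)
      rw [if_neg (by omega), Nat.sub_self] at h0
      rw [Submodule.finrank_eq_zero.1 h0]
      exact bot_le
    obtain ⟨o, ho1, ho2, ho⟩ := exists_o_high (Vsp r a b) (Vsp r a b ⊓ Iq p 1) (Iq (r i))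
      (fun n n' h => Iq_anti _ h) N hlow hhigh
    have hs := sum_hyper (Vsp r a b) (Vsp r a b ⊓ Iq p 1) inf_le_left hfin1 (Iq (r i)) N (a i) o d
      (fun n _ => indicator_of_formula
        (fun n => Module.finrank k (Vsp r a b ⊓ Iq (r i) n : Submodule k k[X])) N (a i)
        (by omega) (finrank_Vsp_marked r a ha hr hN i) n) (fun n _ => ho n)
    have hD := sumN_ge N d (by omega)
    refine ⟨N - o, by omega, ?_⟩
    rw [min_eq_left (by omega), min_eq_left (by omega), hD] at hs
    change ∑ n ∈ Finset.range d, Module.finrank k ↥(Vsp r a b ⊓ Iq p 1 ⊓ Iq (r i) (n + 1)) + 1 = _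
    omega
  · -- at infinity
    have hF : Antitone (fun n => degreeLT k (d + 1 - n)) :=
      fun n n' h => degreeLT_mono (by omega)
    have hlow : ¬ Vsp r a b ⊓ degreeLT k (d + 1 - (N - 1)) ≤ Vsp r a b ⊓ Iq p 1 := by
      intro hle
      have hW : T r a (X - C p) ∈ Vsp r a b := by
        rw [Vsp_eq_T r a ha hr b]
        exact ⟨_, mem_degreeLT_of_natDegree_lt (by rw [natDegree_X_sub_C]; omega), rfl⟩
      have hD : T r a (X - C p) ∈ degreeLT k (d + 1 - (N - 1)) := by
        apply mem_degreeLT_of_natDegree_lt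
        have := T_natDegree_le r a (X - C p)
        rw [natDegree_X_sub_C] at this
        omega
      have h1 := hle (Submodule.mem_inf.2 ⟨hW, hD⟩)
      have h2 := mem_Iq.1 (Submodule.mem_inf.1 h1).2
      rw [pow_one, dvd_iff_isRoot, IsRoot, T_apply, derivative_X_sub_C] at h2
      simp only [eval_sub, eval_mul, eval_X, eval_C, sub_self, mul_zero, mul_one,
        sub_zero] at h2
      exact hLp h2
    have hhigh : Vsp r a b ⊓ degreeLT k (d + 1 - (N + 1)) ≤ Vsp r a b ⊓ Iq p 1 := by
      rw [show d + 1 - (N + 1) = m - 1 by omega, Vsp_inf_infty_eq_bot r a ha b]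
      exact bot_le
    obtain ⟨o, ho1, ho2, ho⟩ := exists_o_high (Vsp r a b) (Vsp r a b ⊓ Iq p 1)
      (fun n => degreeLT k (d + 1 - n)) hF N hlow hhigh
    have hs := sum_hyper (Vsp r a b) (Vsp r a b ⊓ Iq p 1) inf_le_left hfin1
      (fun n => degreeLT k (d + 1 - n)) N b o d
      (fun n _ => indicator_of_formula
        (fun n => Module.finrank k (Vsp r a b ⊓ degreeLT k (d + 1 - n) : Submodule k k[X])) N b
        (by omega) (finrank_Vsp_infty r a ha hr hN hd) n) (fun n _ => ho n)
    beta_reduce at hs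
    have hsum' : ∑ n ∈ Finset.range d, Module.finrank k ↥(Vsp r a b ⊓ Iq p 1 ⊓ degreeLT k (d - n)) =
        ∑ n ∈ Finset.range d,
          Module.finrank k ↥(Vsp r a b ⊓ Iq p 1 ⊓ degreeLT k (d + 1 - (n + 1))) :=
      Finset.sum_congr rfl fun n _ => by rw [show d - n = d + 1 - (n + 1) by omega]
    rw [hsum']
    rcases Nat.eq_zero_or_pos m with hm | hm
    · have hdN : d = N - 1 := by omega
      have hD := sumN_pred N (by omega)
      subst hdN
      have hA0 : ∑ j, a j = 0 := by subst hm; simp
      rw [min_eq_right (show N - 1 ≤ o by omega), min_eq_right (show N - 1 ≤ b by omega)] at hs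
      refine ⟨1, le_rfl, ?_⟩
      omega
    · have hD := sumN_ge N d (by omega)
      rw [min_eq_left (by omega), min_eq_left (by omega), hD] at hs
      refine ⟨N - o, by omega, ?_⟩

      omega

end Groth.Agent.S17246
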