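import Groth.Statements.S17259
-- import your own Groth.Agent.* helpers here

set_option autoImplicit false
open CAlg

namespace Groth.Agent.S17259

/-- Let A, B, C be rings, f : B → A and g : B → C ring homomorphisms, and φ : A → B a homomorphism of
additive groups such that the sequence A → B → C → 0 (maps φ, g) is exact and f ∘ φ is
multiplication by a central element a of A which is not a zero divisor. Then the projection p : A →
A/(a) composed with f factors through g as a ring homomorphism q : C → A/(a), the homomorphism (f,
g) : B → A × C is injective, and its image is the fibre product of A and C over A/(a) along p and q;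
thus (f, g) is a ring isomorphism from B onto that fibre product. (The two-sidedness of the ideal
generated by a, automatic for a central element, is carried as an instance hypothesis.) -/
theorem result {A B C : Type*} [Ring A] [Ring B] [Ring C]
    (f : B →+* A) (g : B →+* C) (φ : A →+ B) (a : A)
    (hc : ∀ x : A, Commute a x) (ha : a ∈ nonZeroDivisors A)
    (hex : Function.Exact φ g) (hg : Function.Surjective g)
    (hφ : ∀ x : A, f (φ x) = a * x)
    [(Ideal.span ({a} : Set A)).IsTwoSided] :
    ∃ q : C →+* A ⧸ Ideal.span ({a} : Set A),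
      q.comp g = (Ideal.Quotient.mk (Ideal.span ({a} : Set A))).comp f ∧
      Function.Injective (f.prod g) ∧
      (f.prod g).range = (Ideal.Quotient.mk (Ideal.span ({a} : Set A))).pullback q := by
  set I := Ideal.span ({a} : Set A) with hI
  have hker : RingHom.ker g ≤ RingHom.ker ((Ideal.Quotient.mk I).comp f) := by
    intro b hb
    rw [RingHom.mem_ker] at hb
    obtain ⟨x, rfl⟩ := (hex b).1 hb
    rw [RingHom.mem_ker, RingHom.comp_apply, hφ, Ideal.Quotient.eq_zero_iff_mem, (hc x).eq]
    exact Ideal.mul_mem_left _ _ (Ideal.subset_span rfl)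
  let q := g.liftOfSurjective hg ⟨(Ideal.Quotient.mk I).comp f, hker⟩
  have hq : q.comp g = (Ideal.Quotient.mk I).comp f := g.liftOfRightInverse_comp _ _ _
  have hq' : ∀ b, q (g b) = Ideal.Quotient.mk I (f b) := fun b => congrArg (fun h => h b) hq
  refine ⟨q, hq, ?_, ?_⟩
  · rw [injective_iff_map_eq_zero]
    intro b hb
    have h1 : f b = 0 := congrArg Prod.fst hb
    have h2 : g b = 0 := congrArg Prod.snd hb
    obtain ⟨x, rfl⟩ := (hex b).1 h2
    rw [hφ] at h1
    have : x = 0 := ha.1 x h1
    rw [this, map_zero]
  · ext ⟨x, c⟩
    constructor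
    · rintro ⟨b, hb⟩
      have h1 : f b = x := congrArg Prod.fst hb
      have h2 : g b = c := congrArg Prod.snd hb
      show (Ideal.Quotient.mk I) x = q c
      rw [← h1, ← h2, hq']
    · intro h
      change (Ideal.Quotient.mk I) x = q c at h
      obtain ⟨b, rfl⟩ := hg c
      rw [hq', Ideal.Quotient.eq] at h
      rw [hI, Ideal.mem_span_singleton'] at h
      obtain ⟨y, hy⟩ := h
      refine ⟨b + φ y, ?_⟩
      have hgy : g (φ y) = 0 := (hex (φ y)).2 ⟨y, rfl⟩
      show (f (b + φ y), g (b + φ y)) = (x, g b)
      rw [map_add, map_add, hφ, hgy, add_zero, (hc y).eq, hy]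
      simp

end Groth.Agent.S17259
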