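import Groth.Statements.S17260
-- import your own Groth.Agent.* helpers here

set_option autoImplicit false
open CAlg

namespace Groth.Agent.S17260

/-- Let A₁ → A₁/I₁ → B ← A₂/I₂ ← A₂ be ring homomorphisms in which the outer maps are the quotient maps
by two-sided ideals I₁ and I₂. Then the product of the quotient maps carries the fibre product A₁
×_B A₂ (formed along the composite maps to B) onto the fibre product (A₁/I₁) ×_B (A₂/I₂), and an
element of A₁ ×_B A₂ is sent to zero exactly when its two components lie in I₁ and I₂ respectively;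
hence (A₁/I₁) ×_B (A₂/I₂) is identified with the quotient of A₁ ×_B A₂ by the ideal generated by I₁
and I₂. -/
theorem result {A₁ A₂ B : Type*} [Ring A₁] [Ring A₂] [Ring B]
    (I₁ : Ideal A₁) (I₂ : Ideal A₂) [I₁.IsTwoSided] [I₂.IsTwoSided]
    (u₁ : A₁ ⧸ I₁ →+* B) (u₂ : A₂ ⧸ I₂ →+* B) :
    Subring.map ((Ideal.Quotient.mk I₁).prodMap (Ideal.Quotient.mk I₂))
        ((u₁.comp (Ideal.Quotient.mk I₁)).pullback (u₂.comp (Ideal.Quotient.mk I₂))) = u₁.pullback u₂ ∧
      ∀ x ∈ (u₁.comp (Ideal.Quotient.mk I₁)).pullback (u₂.comp (Ideal.Quotient.mk I₂)),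
        ((Ideal.Quotient.mk I₁).prodMap (Ideal.Quotient.mk I₂)) x = 0 ↔ (x.1 ∈ I₁ ∧ x.2 ∈ I₂) := by
  refine ⟨?_, ?_⟩
  · ext ⟨a, b⟩
    simp only [Subring.mem_map, RingHom.mem_eqLocus, RingHom.coe_comp, Function.comp_apply,
      RingHom.coe_fst, RingHom.coe_snd, Prod.exists, RingHom.coe_prodMap, Prod.map]
    constructor
    · rintro ⟨x, y, hxy, h⟩
      simp only [Prod.mk.injEq] at h
      obtain ⟨rfl, rfl⟩ := h
      exact hxy
    · intro h
      obtain ⟨x, rfl⟩ := Ideal.Quotient.mk_surjective a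
      obtain ⟨y, rfl⟩ := Ideal.Quotient.mk_surjective b
      exact ⟨x, y, h, rfl⟩
  · intro x _
    simp only [RingHom.coe_prodMap, Prod.map, Prod.mk_eq_zero, Ideal.Quotient.eq_zero_iff_mem]

end Groth.Agent.S17260
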