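import Groth.Statements.S1728
-- import your own Groth.Agent.* helpers here

set_option autoImplicit false
universe u
open InjHull

namespace Groth.Agent.S1728

/-- Let I be an injective R-module and E a submodule of I. Then E is an injective module if and only if
every submodule E' of I containing E, such that every nonzero submodule of E' meets E nontrivially,
is equal to E. -/
theorem result (R : Type u) [CommRing R] (I : Type u) [AddCommGroup I] [Module R I] [Module.Injective R I] (E : Submodule R I) : Module.Injective R E ↔ ∀ E' : Submodule R I, E ≤ E' → (∀ N : Submodule R I, N ≤ E' → N ≠ ⊥ → N ⊓ E ≠ ⊥) → E' = E := by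
  constructor
  · intro hE E' hEE' hess
    obtain ⟨r, hr⟩ := Module.Injective.extension_property R E E I E.subtype
      Subtype.val_injective LinearMap.id
    have hr' : ∀ x : E, r x = x := fun x => LinearMap.congr_fun hr x
    refine le_antisymm ?_ hEE'
    have hN : E' ⊓ LinearMap.ker r = ⊥ := by
      by_contra hne
      apply hess _ inf_le_left hne
      rw [eq_bot_iff]
      rintro x ⟨⟨-, hx0⟩, hxE⟩
      have h1 := hr' ⟨x, hxE⟩
      rw [LinearMap.mem_ker.mp hx0] at h1
      have : x = 0 := by
        have := congrArg Subtype.val h1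
        simpa using this.symm
      simp [this]
    intro y hy
    have h1 : y - (r y : I) ∈ E' ⊓ LinearMap.ker r := by
      refine Submodule.mem_inf.mpr ⟨E'.sub_mem hy (hEE' (r y).2), ?_⟩
      rw [LinearMap.mem_ker, map_sub, hr']
      simp
    rw [hN] at h1
    have : y = r y := sub_eq_zero.mp h1
    rw [this]; exact (r y).2
  · intro h
    obtain ⟨C, -, hC⟩ := zorn_le_nonempty₀ {C : Submodule R I | Disjoint C E} (by
      intro c hcs hc y hy
      refine ⟨sSup c, ?_, fun z hz => le_sSup hz⟩
      show Disjoint (sSup c) E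
      rw [Submodule.disjoint_def]
      intro x hx hxE
      obtain ⟨z, hz, hxz⟩ := (Submodule.mem_sSup_of_directed ⟨y, hy⟩ hc.directedOn).mp hx
      exact (Submodule.disjoint_def.mp (hcs hz)) x hxz hxE) ⊥ (by simp)
    have hCE : Disjoint C E := hC.prop
    have hinj : Function.Injective (C.mkQ ∘ₗ E.subtype) := by
      rw [← LinearMap.ker_eq_bot, LinearMap.ker_comp, Submodule.ker_mkQ, eq_bot_iff]
      intro x hx
      simp only [Submodule.mem_comap, Submodule.subtype_apply] at hx
      have := (Submodule.disjoint_def.mp hCE) x hx x.2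
      simp [Subtype.ext_iff, this]
    obtain ⟨φ, hφ⟩ := Module.Injective.extension_property R I E (I ⧸ C) (C.mkQ ∘ₗ E.subtype)
      hinj E.subtype
    let ψ : I →ₗ[R] I := φ ∘ₗ C.mkQ
    have hψE : ∀ x ∈ E, ψ x = x := fun x hx => LinearMap.congr_fun hφ ⟨x, hx⟩
    have hψC : ∀ x ∈ C, ψ x = 0 := fun x hx => by
      simp [ψ, (Submodule.Quotient.mk_eq_zero C).mpr hx]
    have key : ∀ N : Submodule R I, N ≤ LinearMap.range ψ → N ⊓ E = ⊥ → N = ⊥ := by
      intro N hN hNE
      have hM : Disjoint (N.comap ψ) E := by
        rw [Submodule.disjoint_def]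
        intro x hx hxE
        have h1 : ψ x ∈ N ⊓ E := Submodule.mem_inf.mpr ⟨hx, by rw [hψE x hxE]; exact hxE⟩
        rw [hNE] at h1
        rw [← hψE x hxE]; simpa using h1
      have hCM : C ≤ N.comap ψ := fun x hx => by
        simp only [Submodule.mem_comap, hψC x hx]; exact N.zero_mem
      have hMC := hC.2 hM hCM
      rw [eq_bot_iff]
      intro n hn
      obtain ⟨m, rfl⟩ := hN hn
      have : m ∈ C := hMC hn
      simp [hψC m this]
    have hrange : LinearMap.range ψ = E := by
      apply h
      · intro x hx; exact ⟨x, hψE x hx⟩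
      · intro N hN hN0 hNE
        exact hN0 (key N hN hNE)
    let ρ : I →ₗ[R] E := ψ.codRestrict E (fun x => by rw [← hrange]; exact LinearMap.mem_range_self ψ x)
    have hρ : ∀ x : E, ρ x = x := fun x => Subtype.ext (hψE x x.2)
    refine ⟨fun X Y _ _ _ _ f hf g => ?_⟩
    obtain ⟨k, hk⟩ := Module.Injective.out (R := R) (Q := I) f hf (E.subtype ∘ₗ g)
    refine ⟨ρ ∘ₗ k, fun x => ?_⟩
    simp only [LinearMap.comp_apply, hk]
    exact hρ (g x)

end Groth.Agent.S1728
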