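import Groth.Statements.S1729
import Mathlib.RingTheory.Nakayama
import Mathlib.RingTheory.LocalRing.MaximalIdeal.Basic
import Mathlib.RingTheory.Jacobson.Ideal
-- import your own Groth.Agent.* helpers here

set_option autoImplicit false
universe u
open Dual2

namespace Groth.Agent.S1729

/-- Over a local ring, every finite module M admits a projective cover: a surjection from a projective
module P onto M such that no proper submodule of P maps onto M. -/
theorem result (R : Type u) [CommRing R] [IsLocalRing R] (M : Type u) [AddCommGroup M] [Module R M] [Module.Finite R M] : ∃ (P : Type u) (_ : AddCommGroup P) (_ : Module R P) (f : P →ₗ[R] M), Dual2.IsProjectiveCover f := by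
  classical
  have hex : ∃ n : ℕ, ∃ s : Finset M, s.card = n ∧ Submodule.span R (s : Set M) = ⊤ := by
    obtain ⟨s, hs⟩ := (Module.Finite.fg_top : (⊤ : Submodule R M).FG)
    exact ⟨s.card, s, rfl, hs⟩
  obtain ⟨s, hscard, hs⟩ := Nat.find_spec hex
  have hmin : ∀ t : Finset M, Submodule.span R (t : Set M) = ⊤ → s.card ≤ t.card := by
    intro t ht
    rw [hscard]
    exact Nat.find_min' hex ⟨t, rfl, ht⟩
  let f : (s → R) →ₗ[R] M := Fintype.linearCombination R (fun i : s => (i : M))
  have hfsurj : Function.Surjective f := by
    rw [← LinearMap.range_eq_top, Fintype.range_linearCombination]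
    convert hs
    ext x
    simp
  -- relations have coefficients in the maximal ideal
  have hker : ∀ a : s → R, f a = 0 → ∀ i, a i ∈ IsLocalRing.maximalIdeal R := by
    intro a ha j
    by_contra hj
    have hu : IsUnit (a j) := by
      by_contra hnu
      exact hj hnu
    have hrel : ∑ i, a i • (i : M) = 0 := by
      rw [← Fintype.linearCombination_apply]; exact ha
    have hmemj : (j : M) ∈ Submodule.span R ((s.erase (j : M) : Finset M) : Set M) := by
      rw [← Finset.add_sum_erase _ _ (Finset.mem_univ j)] at hrel
      have h2 : a j • (j : M) = -∑ i ∈ Finset.univ.erase j, a i • (i : M) := eq_neg_of_add_eq_zero_left hrel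
      have h3 : a j • (j : M) ∈ Submodule.span R ((s.erase (j : M) : Finset M) : Set M) := by
        rw [h2]
        refine Submodule.neg_mem _ (Submodule.sum_mem _ fun i hi => Submodule.smul_mem _ _ ?_)
        apply Submodule.subset_span
        rw [Finset.mem_coe, Finset.mem_erase]
        refine ⟨fun h => (Finset.mem_erase.mp hi).1 (Subtype.ext h), i.2⟩
      obtain ⟨u, hu'⟩ := hu
      have : (j : M) = (↑u⁻¹ : R) • (a j • (j : M)) := by
        rw [smul_smul, ← hu', Units.inv_mul, one_smul]
      have key := Submodule.smul_mem _ (↑u⁻¹ : R) h3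
      rw [← this] at key
      exact key
    have hspan : Submodule.span R ((s.erase (j : M) : Finset M) : Set M) = ⊤ := by
      rw [eq_top_iff, ← hs, Submodule.span_le]
      intro x hx
      by_cases hxj : x = (j : M)
      · rw [hxj]; exact hmemj
      · apply Submodule.subset_span
        rw [Finset.mem_coe, Finset.mem_erase]
        exact ⟨hxj, hx⟩
    have := hmin _ hspan
    rw [Finset.card_erase_of_mem j.2] at this
    have hpos : 0 < s.card := Finset.card_pos.mpr ⟨j, j.2⟩
    omega
  refine ⟨s → R, inferInstance, inferInstance, f, ⟨inferInstance, hfsurj, ?_⟩⟩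
  intro N hN
  have hkerle : LinearMap.ker f ≤ IsLocalRing.maximalIdeal R • (⊤ : Submodule R (s → R)) := by
    intro a ha
    rw [pi_eq_sum_univ a]
    exact Submodule.sum_mem _ fun i _ => Submodule.smul_mem_smul (hker a ha i) trivial
  have hle : (⊤ : Submodule R (s → R)) ≤ N ⊔ IsLocalRing.maximalIdeal R • ⊤ := by
    intro p _
    have : f p ∈ Submodule.map f N := by rw [hN]; trivial
    obtain ⟨q, hq, hqp⟩ := this
    have hpq : p - q ∈ LinearMap.ker f := by
      rw [LinearMap.mem_ker, map_sub, hqp, sub_self]
    have : p = q + (p - q) := by abel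
    rw [this]
    exact Submodule.add_mem_sup hq (hkerle hpq)
  exact top_le_iff.mp (Submodule.le_of_le_smul_of_le_jacobson_bot Module.Finite.fg_top
    (IsLocalRing.maximalIdeal_le_jacobson ⊥) hle)

end Groth.Agent.S1729
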