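import Groth.Statements.S1730
-- import your own Groth.Agent.* helpers here

set_option autoImplicit false
universe u
open Dual2

namespace Groth.Agent.S1730

/-- If f : P → M and f' : P' → M are two projective covers of an R-module M, then there is an
isomorphism P ≃ P' compatible with the maps to M. -/
theorem result (R : Type u) [CommRing R] (M P P' : Type u) [AddCommGroup M] [Module R M] [AddCommGroup P] [Module R P] [AddCommGroup P'] [Module R P'] (f : P →ₗ[R] M) (f' : P' →ₗ[R] M) (hf : Dual2.IsProjectiveCover f) (hf' : Dual2.IsProjectiveCover f') : ∃ e : P ≃ₗ[R] P', f' ∘ₗ e.toLinearMap = f := by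
  have hP := hf.projective
  have hP' := hf'.projective
  obtain ⟨g, hg⟩ := Module.projective_lifting_property f f' hf.surjective
  -- g : P' → P with f ∘ g = f'
  have hgs : Function.Surjective g := by
    have h1 : Submodule.map f (LinearMap.range g) = ⊤ := by
      rw [← LinearMap.range_comp, hg, LinearMap.range_eq_top]
      exact hf'.surjective
    have := hf.essential _ h1
    exact LinearMap.range_eq_top.mp this
  obtain ⟨s, hs⟩ := Module.projective_lifting_property g LinearMap.id hgs
  -- s : P → P' with g ∘ s = id
  have hfs : f' ∘ₗ s = f := by
    rw [← hg, LinearMap.comp_assoc, hs, LinearMap.comp_id]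
  have hss : Function.Surjective s := by
    have h1 : Submodule.map f' (LinearMap.range s) = ⊤ := by
      rw [← LinearMap.range_comp, hfs, LinearMap.range_eq_top]
      exact hf.surjective
    have := hf'.essential _ h1
    exact LinearMap.range_eq_top.mp this
  have hsi : Function.Injective s := by
    intro x y hxy
    have := congrArg g hxy
    rw [← LinearMap.comp_apply, ← LinearMap.comp_apply, hs] at this
    simpa using this
  exact ⟨LinearEquiv.ofBijective s ⟨hsi, hss⟩, hfs⟩

end Groth.Agent.S1730
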