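import Groth.Statements.S1733
-- import your own Groth.Agent.* helpers here

set_option autoImplicit false
universe u
open LocCoh

namespace Groth.Agent.S1733

/-- Let f_1, …, f_r and g be elements of a ring (r ≥ 1). If the family f_1, …, f_{r-1}, f_r g is
independent (every linear relation has coefficients in the ideal the family generates), then f_1, …,
f_r is independent. -/
theorem result (A : Type u) [CommRing A] (r : ℕ) (f : Fin (r + 1) → A) (g : A) (h : Dual2.Independent (Function.update f (Fin.last r) (f (Fin.last r) * g))) : Dual2.Independent f := by
  classical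
  set F' := Function.update f (Fin.last r) (f (Fin.last r) * g) with hF'
  have hsub : Ideal.span (Set.range F') ≤ Ideal.span (Set.range f) := by
    rw [Ideal.span_le]
    rintro _ ⟨i, rfl⟩
    by_cases hi : i = Fin.last r
    · subst hi
      simp only [hF', Function.update_self]
      exact Ideal.mul_mem_right _ _ (Ideal.subset_span ⟨_, rfl⟩)
    · simp only [hF', Function.update_of_ne hi]
      exact Ideal.subset_span ⟨_, rfl⟩
  have hfl : f (Fin.last r) ∈ Ideal.span (Set.range f) := Ideal.subset_span ⟨_, rfl⟩
  intro a ha
  -- first relation
  set b : Fin (r + 1) → A := fun i => if i = Fin.last r then a (Fin.last r) else g * a i with hb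
  have hbrel : ∑ i, b i * F' i = 0 := by
    have : ∀ i, b i * F' i = g * (a i * f i) := by
      intro i
      by_cases hi : i = Fin.last r
      · subst hi; simp only [hb, hF', if_pos, Function.update_self]; ring
      · simp only [hb, hF', if_neg hi, Function.update_of_ne hi]; ring
    simp only [this, ← Finset.mul_sum, ha, mul_zero]
  have hlast : a (Fin.last r) ∈ Ideal.span (Set.range F') := by
    have := h b hbrel (Fin.last r)
    simpa [hb] using this
  obtain ⟨c, hc⟩ := (Submodule.mem_span_range_iff_exists_fun A).mp hlast
  simp only [smul_eq_mul] at hc
  set d : Fin (r + 1) → A := fun i =>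
    if i = Fin.last r then c (Fin.last r) * f (Fin.last r) else a i + c i * f (Fin.last r) with hd
  have hdrel : ∑ i, d i * F' i = 0 := by
    have : ∀ i, d i * F' i = a i * f i + c i * F' i * f (Fin.last r) -
        (if i = Fin.last r then a (Fin.last r) * f (Fin.last r) else 0) := by
      intro i
      by_cases hi : i = Fin.last r
      · subst hi; simp only [hd, hF', if_pos, Function.update_self]; ring
      · simp only [hd, hF', if_neg hi, Function.update_of_ne hi]; ring
    simp only [this, Finset.sum_sub_distrib, Finset.sum_add_distrib, ha, ← Finset.sum_mul, hc,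
      Finset.sum_ite_eq', Finset.mem_univ, if_true]
    ring
  intro i
  by_cases hi : i = Fin.last r
  · subst hi; exact hsub hlast
  · have h1 := hsub (h d hdrel i)
    simp only [hd, if_neg hi] at h1
    have h2 : c i * f (Fin.last r) ∈ Ideal.span (Set.range f) := Ideal.mul_mem_left _ _ hfl
    have := Ideal.sub_mem _ h1 h2
    simpa using this

end Groth.Agent.S1733
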