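import Groth.Statements.S17409
import Mathlib.Algebra.MvPolynomial.PDeriv
-- import your own Groth.Agent.* helpers here

set_option autoImplicit false
universe u
open Prym5

namespace Groth.Agent.S17409

/-- Over a perfect field K of characteristic different from 2 and 3, let G₂, G₃, G₄ be polynomials in
two variables x, y and consider G₂ z² + 2 G₃ z + G₄ as a polynomial in the three variables x, y, z.
If it lies in the square of the ideal (x, y, z) — the surface it defines has a double point at the
origin — then the discriminant G₃² − G₂ G₄ lies in the square of the ideal (x, y) of K[x, y], so the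
plane curve G₃² − G₂ G₄ = 0 is singular at the origin. (This is the affine-local form used in the
published proof: the surface is a quartic with a node at the centre of projection placed at infinity
on the z-axis, and the curve is the branch sextic of that projection.) -/
theorem result (K : Type u) [Field K] [PerfectField K]
    (h2 : (2 : K) ≠ 0) (h3 : (3 : K) ≠ 0) (G₂ G₃ G₄ : MvPolynomial (Fin 2) K)
    (h : MvPolynomial.rename (Fin.castSucc : Fin 2 → Fin 3) G₂ * MvPolynomial.X (2 : Fin 3) ^ 2
        + 2 * MvPolynomial.rename (Fin.castSucc : Fin 2 → Fin 3) G₃ * MvPolynomial.X (2 : Fin 3)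
        + MvPolynomial.rename (Fin.castSucc : Fin 2 → Fin 3) G₄
        ∈ (Ideal.span (Set.range (MvPolynomial.X : Fin 3 → MvPolynomial (Fin 3) K))) ^ 2) :
    G₃ ^ 2 - G₂ * G₄ ∈ (Ideal.span (Set.range (MvPolynomial.X : Fin 2 → MvPolynomial (Fin 2) K))) ^ 2 := by
  classical
  set I₃ := Ideal.span (Set.range (MvPolynomial.X : Fin 3 → MvPolynomial (Fin 3) K)) with hI₃
  set I₂ := Ideal.span (Set.range (MvPolynomial.X : Fin 2 → MvPolynomial (Fin 2) K)) with hI₂
  let ψ : Fin 3 → MvPolynomial (Fin 2) K := Fin.lastCases 0 (fun i => MvPolynomial.X i)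
  let φ : MvPolynomial (Fin 3) K →ₐ[K] MvPolynomial (Fin 2) K := MvPolynomial.aeval ψ
  have hφX2 : φ (MvPolynomial.X (2 : Fin 3)) = 0 := by
    simp only [φ, MvPolynomial.aeval_X]
    exact Fin.lastCases_last
  have hφren : ∀ G : MvPolynomial (Fin 2) K,
      φ (MvPolynomial.rename (Fin.castSucc : Fin 2 → Fin 3) G) = G := by
    intro G
    simp only [φ, MvPolynomial.aeval_rename]
    have : ψ ∘ (Fin.castSucc : Fin 2 → Fin 3) = MvPolynomial.X := by
      funext i; simp [ψ]
    rw [this, MvPolynomial.aeval_X_left_apply]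
  have hφI : ∀ p ∈ I₃, φ p ∈ I₂ := by
    intro p hp
    have : Ideal.map φ I₃ ≤ I₂ := by
      rw [hI₃, Ideal.map_span, Ideal.span_le]
      rintro _ ⟨_, ⟨i, rfl⟩, rfl⟩
      refine Fin.lastCases ?_ (fun j => ?_) i
      · simp only [φ, MvPolynomial.aeval_X, ψ, Fin.lastCases_last]
        exact zero_mem _
      · simp only [φ, MvPolynomial.aeval_X, ψ, Fin.lastCases_castSucc]
        exact Ideal.subset_span ⟨j, rfl⟩
    exact this (Ideal.mem_map_of_mem _ hp)
  have hφI2 : ∀ p ∈ I₃ ^ 2, φ p ∈ I₂ ^ 2 := by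
    intro p hp
    have h1 : Ideal.map φ I₃ ≤ I₂ := by
      intro x hx
      refine Submodule.span_induction ?_ ?_ ?_ ?_ hx
      · rintro _ ⟨q, hq, rfl⟩
        exact hφI q hq
      · exact zero_mem _
      · intro a b _ _ ha hb; exact add_mem ha hb
      · intro a b _ hb; exact Ideal.mul_mem_left _ a hb
    have := Ideal.mem_map_of_mem φ hp
    rw [Ideal.map_pow] at this
    exact Ideal.pow_right_mono h1 2 this
  -- the derivative in z
  set D := MvPolynomial.pderiv (R := K) (2 : Fin 3) with hD
  have hDren : ∀ G : MvPolynomial (Fin 2) K,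
      D (MvPolynomial.rename (Fin.castSucc : Fin 2 → Fin 3) G) = 0 := by
    intro G
    induction G using MvPolynomial.induction_on with
    | C a => simp [hD]
    | add p q hp hq => rw [map_add, map_add, hp, hq, add_zero]
    | mul_X p i hp =>
      rw [map_mul, MvPolynomial.rename_X, hD, MvPolynomial.pderiv_mul, ← hD, hp,
        MvPolynomial.pderiv_X_of_ne]
      · simp
      · exact Fin.castSucc_ne_last i
  have hDI2 : ∀ p ∈ I₃ ^ 2, D p ∈ I₃ := by
    intro p hp
    rw [pow_two] at hp
    refine Submodule.mul_induction_on hp ?_ ?_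
    · intro a ha b hb
      rw [hD, MvPolynomial.pderiv_mul]
      exact add_mem (Ideal.mul_mem_left _ _ hb) (Ideal.mul_mem_right _ _ ha)
    · intro x y hx hy
      rw [map_add]; exact add_mem hx hy
  set hpoly := MvPolynomial.rename (Fin.castSucc : Fin 2 → Fin 3) G₂ * MvPolynomial.X (2 : Fin 3) ^ 2
      + 2 * MvPolynomial.rename (Fin.castSucc : Fin 2 → Fin 3) G₃ * MvPolynomial.X (2 : Fin 3)
      + MvPolynomial.rename (Fin.castSucc : Fin 2 → Fin 3) G₄ with hpoly_def
  have hG₄ : G₄ ∈ I₂ ^ 2 := by
    have := hφI2 _ h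
    rw [map_add, map_add, map_mul, map_mul, map_mul, map_pow, hφX2, hφren, hφren, hφren] at this
    simpa using this
  have hDh : D hpoly = MvPolynomial.rename (Fin.castSucc : Fin 2 → Fin 3) G₂ *
      (2 * MvPolynomial.X (2 : Fin 3)) + 2 * MvPolynomial.rename (Fin.castSucc : Fin 2 → Fin 3) G₃ := by
    rw [hpoly_def, map_add, map_add, hDren, add_zero]
    rw [hD, MvPolynomial.pderiv_mul, MvPolynomial.pderiv_mul, MvPolynomial.pderiv_mul, ← hD,
      hDren, hDren]
    rw [hD, MvPolynomial.pderiv_X_self, pow_two, MvPolynomial.pderiv_mul,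
      MvPolynomial.pderiv_X_self]
    have h2 : MvPolynomial.pderiv (2 : Fin 3) (2 : MvPolynomial (Fin 3) K) = 0 := by
      rw [show (2 : MvPolynomial (Fin 3) K) = MvPolynomial.C 2 from rfl, MvPolynomial.pderiv_C]
    rw [h2]
    ring
  have hG₃' : 2 * G₃ ∈ I₂ := by
    have := hφI _ (hDI2 _ h)
    rw [hDh, map_add, map_mul, map_mul, map_mul, hφX2, hφren, hφren, map_ofNat] at this
    simpa using this
  have hG₃ : G₃ ∈ I₂ := by
    have h2u : IsUnit (2 : MvPolynomial (Fin 2) K) := by
      rw [show (2 : MvPolynomial (Fin 2) K) = MvPolynomial.C 2 from rfl]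
      exact (IsUnit.mk0 _ h2).map MvPolynomial.C
    obtain ⟨u, hu⟩ := h2u
    have : G₃ = (↑u⁻¹ : MvPolynomial (Fin 2) K) * (2 * G₃) := by
      rw [← hu, ← mul_assoc, Units.inv_mul, one_mul]
    rw [this]
    exact Ideal.mul_mem_left _ _ hG₃'
  refine sub_mem ?_ (Ideal.mul_mem_left _ _ hG₄)
  exact Ideal.pow_mem_pow hG₃ 2

end Groth.Agent.S17409
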