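import Groth.Statements.S17414
import Groth.Agent.S17409
import Mathlib.RingTheory.MvPolynomial.Ideal
-- import your own Groth.Agent.* helpers here

set_option autoImplicit false
universe u
open Prym5

namespace Groth.Agent.S17414

theorem mem_span_X_iff {K : Type u} [Field K] {n : ℕ} (p : MvPolynomial (Fin n) K) :
    p ∈ Ideal.span (Set.range (MvPolynomial.X : Fin n → MvPolynomial (Fin n) K)) ↔
      MvPolynomial.constantCoeff p = 0 := by
  rw [← Set.image_univ, MvPolynomial.mem_ideal_span_X_image]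
  constructor
  · intro h
    rw [MvPolynomial.constantCoeff_eq]
    by_contra hne
    obtain ⟨i, -, hi⟩ := h 0 (MvPolynomial.mem_support_iff.2 hne)
    exact hi rfl
  · intro h m hm
    have hm0 : m ≠ 0 := by
      rintro rfl
      rw [MvPolynomial.mem_support_iff] at hm
      apply hm
      have := h
      change (MvPolynomial.constantCoeff : MvPolynomial (Fin n) K → K) p = 0 at this
      rw [MvPolynomial.constantCoeff_eq] at this
      exact this
    obtain ⟨i, hi⟩ : ∃ i, m i ≠ 0 := by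
      by_contra hcon
      push Not at hcon
      exact hm0 (Finsupp.ext hcon)
    exact ⟨i, Set.mem_univ _, hi⟩


/-- Over a perfect field K of characteristic different from 2 and 3, let G₂, G₃, G₄ be polynomials in x,
y, let h = G₂ z² + 2 G₃ z + G₄ in K[x, y, z] and D = G₃² − G₂ G₄ in K[x, y]. Suppose h ∈ (x, y, z) —
the origin Q lies on the surface h = 0 — and D ∈ (x, y) — the image of Q under (x, y, z) ↦ (x, y)
lies on the discriminant curve D = 0. Then D ∈ (x, y)², i.e. the image point is singular on the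
discriminant curve, if and only if either h ∈ (x, y, z)², i.e. Q is a singular point of the surface,
or G₂, G₃, G₄ ∈ (x, y), i.e. Q lies on all three cones G₂ = G₃ = G₄ = 0. (Affine-local form, in a
chart where the node projected from sits at infinity on the z-axis and Q at the origin, of the
published claim: for a point Q ≠ P of the nodal quartic whose projection lies on the branch sextic,
the projection is singular on the sextic exactly when Q is singular on the quartic or lies on the
cones u₂ = u₃ = u₄ = 0.) -/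
theorem result (K : Type u) [Field K] [PerfectField K]
    (h2 : (2 : K) ≠ 0) (h3 : (3 : K) ≠ 0) (G₂ G₃ G₄ : MvPolynomial (Fin 2) K)
    (hQ : MvPolynomial.rename (Fin.castSucc : Fin 2 → Fin 3) G₂ * MvPolynomial.X (2 : Fin 3) ^ 2
        + 2 * MvPolynomial.rename (Fin.castSucc : Fin 2 → Fin 3) G₃ * MvPolynomial.X (2 : Fin 3)
        + MvPolynomial.rename (Fin.castSucc : Fin 2 → Fin 3) G₄
        ∈ Ideal.span (Set.range (MvPolynomial.X : Fin 3 → MvPolynomial (Fin 3) K)))
    (hD : G₃ ^ 2 - G₂ * G₄ ∈ Ideal.span (Set.range (MvPolynomial.X : Fin 2 → MvPolynomial (Fin 2) K))) :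
    G₃ ^ 2 - G₂ * G₄ ∈ (Ideal.span (Set.range (MvPolynomial.X : Fin 2 → MvPolynomial (Fin 2) K))) ^ 2 ↔
      (MvPolynomial.rename (Fin.castSucc : Fin 2 → Fin 3) G₂ * MvPolynomial.X (2 : Fin 3) ^ 2
          + 2 * MvPolynomial.rename (Fin.castSucc : Fin 2 → Fin 3) G₃ * MvPolynomial.X (2 : Fin 3)
          + MvPolynomial.rename (Fin.castSucc : Fin 2 → Fin 3) G₄
          ∈ (Ideal.span (Set.range (MvPolynomial.X : Fin 3 → MvPolynomial (Fin 3) K))) ^ 2 ∨
        (G₂ ∈ Ideal.span (Set.range (MvPolynomial.X : Fin 2 → MvPolynomial (Fin 2) K)) ∧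
          G₃ ∈ Ideal.span (Set.range (MvPolynomial.X : Fin 2 → MvPolynomial (Fin 2) K)) ∧
          G₄ ∈ Ideal.span (Set.range (MvPolynomial.X : Fin 2 → MvPolynomial (Fin 2) K)))) := by
  classical
  set I₃ := Ideal.span (Set.range (MvPolynomial.X : Fin 3 → MvPolynomial (Fin 3) K)) with hI₃
  set I₂ := Ideal.span (Set.range (MvPolynomial.X : Fin 2 → MvPolynomial (Fin 2) K)) with hI₂
  set ren := MvPolynomial.rename (R := K) (Fin.castSucc : Fin 2 → Fin 3) with hren
  have hcc_ren : ∀ G, MvPolynomial.constantCoeff (ren G) = MvPolynomial.constantCoeff G := by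
    intro G; rw [hren, MvPolynomial.constantCoeff_rename]
  have hren1 : ∀ G ∈ I₂, ren G ∈ I₃ := by
    intro G hG
    rw [hI₃, mem_span_X_iff, hcc_ren, ← mem_span_X_iff]; exact hG
  have hren2 : ∀ G ∈ I₂ ^ 2, ren G ∈ I₃ ^ 2 := by
    intro G hG
    have h1 : Ideal.map ren I₂ ≤ I₃ := by
      rw [Ideal.map_le_iff_le_comap]
      intro x hx; exact hren1 x hx
    have := Ideal.mem_map_of_mem ren hG
    rw [Ideal.map_pow] at this
    exact Ideal.pow_right_mono h1 2 this
  have hX2 : (MvPolynomial.X (2 : Fin 3) : MvPolynomial (Fin 3) K) ∈ I₃ :=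
    Ideal.subset_span ⟨2, rfl⟩
  -- constant coefficients
  have hg₄ : G₄ ∈ I₂ := by
    rw [hI₂, mem_span_X_iff]
    have := (mem_span_X_iff _).1 hQ
    simp only [map_add, map_mul, map_pow, MvPolynomial.constantCoeff_X, hcc_ren] at this
    simpa using this
  have hg₃ : G₃ ∈ I₂ := by
    rw [hI₂, mem_span_X_iff]
    have h4 := (mem_span_X_iff _).1 hg₄
    have := (mem_span_X_iff _).1 hD
    rw [map_sub, map_pow, map_mul, h4, mul_zero, sub_zero] at this
    exact pow_eq_zero_iff (two_ne_zero) |>.1 this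
  have hright_to : (G₂ ∈ I₂ ∧ G₃ ∈ I₂ ∧ G₄ ∈ I₂) → G₃ ^ 2 - G₂ * G₄ ∈ I₂ ^ 2 := by
    rintro ⟨h2', h3', h4'⟩
    refine sub_mem (Ideal.pow_mem_pow h3' 2) ?_
    rw [pow_two]; exact Ideal.mul_mem_mul h2' h4'
  constructor
  · intro hD2
    by_cases hG₂ : G₂ ∈ I₂
    · exact Or.inr ⟨hG₂, hg₃, hg₄⟩
    · left
      have hc : MvPolynomial.constantCoeff G₂ ≠ 0 := by
        intro h0; apply hG₂; rw [hI₂, mem_span_X_iff]; exact h0
      set c := MvPolynomial.constantCoeff G₂ with hc_def
      have hG₂c : G₂ - MvPolynomial.C c ∈ I₂ := by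
        rw [hI₂, mem_span_X_iff, map_sub, MvPolynomial.constantCoeff_C, sub_self]
      have hprod : G₂ * G₄ ∈ I₂ ^ 2 := by
        have : G₂ * G₄ = G₃ ^ 2 - (G₃ ^ 2 - G₂ * G₄) := by ring
        rw [this]; exact sub_mem (Ideal.pow_mem_pow hg₃ 2) hD2
      have hcG₄ : MvPolynomial.C c * G₄ ∈ I₂ ^ 2 := by
        have : MvPolynomial.C c * G₄ = G₂ * G₄ - (G₂ - MvPolynomial.C c) * G₄ := by ring
        rw [this]
        refine sub_mem hprod ?_
        rw [pow_two]; exact Ideal.mul_mem_mul hG₂c hg₄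
      have hG₄2 : G₄ ∈ I₂ ^ 2 := by
        have : G₄ = MvPolynomial.C c⁻¹ * (MvPolynomial.C c * G₄) := by
          rw [← mul_assoc, ← map_mul, inv_mul_cancel₀ hc, map_one, one_mul]
        rw [this]; exact Ideal.mul_mem_left _ _ hcG₄
      refine add_mem (add_mem ?_ ?_) (hren2 _ hG₄2)
      · exact Ideal.mul_mem_left _ _ (Ideal.pow_mem_pow hX2 2)
      · rw [pow_two]
        exact Ideal.mul_mem_mul (Ideal.mul_mem_left _ _ (hren1 _ hg₃)) hX2
  · rintro (h | h)
    · exact Groth.Agent.S17409.result K h2 h3 G₂ G₃ G₄ h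
    · exact hright_to h

end Groth.Agent.S17414
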