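import Groth.Statements.S17444
-- import your own Groth.Agent.* helpers here

set_option autoImplicit false
universe u v
open SSRed

namespace Groth.Agent.S17444

/-- Let K be a field of characteristic zero, V a K-vector space and g a K-linear endomorphism of V such
that g - 1 is nilpotent (a unipotent automorphism). Then for every integer n > 0 the endomorphisms
gⁿ - 1 and g - 1 have the same kernel: a vector fixed by gⁿ is fixed by g. (The published statement
assumes V finite-dimensional; this row allows any V.) -/
theorem result (K : Type u) (V : Type v) [Field K] [CharZero K]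
    [AddCommGroup V] [Module K V] (g : Module.End K V) (hg : IsNilpotent (g - 1)) (n : ℕ) (hn : 0 < n) :
    LinearMap.ker (g ^ n - 1) = LinearMap.ker (g - 1) := by
  set N := g - 1 with hN
  have hcomm : ∀ i, Commute (g ^ i) N := fun i =>
    ((Commute.refl g).sub_right (Commute.one_right g)).pow_left i
  set T : Module.End K V := ∑ i ∈ Finset.range n, ∑ j ∈ Finset.range i, g ^ j with hT
  have hTc : Commute T N :=
    Commute.sum_left _ _ _ (fun i _ => Commute.sum_left _ _ _ (fun j _ => hcomm j))
  have hsum : (∑ i ∈ Finset.range n, g ^ i) = (n : Module.End K V) + T * N := by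
    rw [hT, Finset.sum_mul]
    have : ∀ i ∈ Finset.range n, g ^ i = 1 + (∑ j ∈ Finset.range i, g ^ j) * N := by
      intro i _
      rw [hN, geom_sum_mul]
      abel
    rw [Finset.sum_congr rfl this, Finset.sum_add_distrib]
    simp
  have hnil : IsNilpotent (T * N) := hTc.isNilpotent_mul_left hg
  have hu : IsUnit ((n : Module.End K V)) := by
    have h0 : (n : K) ≠ 0 := by exact_mod_cast hn.ne'
    have : (n : Module.End K V) = algebraMap K (Module.End K V) (n : K) := by simp
    rw [this]
    exact (IsUnit.mk0 _ h0).map _
  have hsU : IsUnit (∑ i ∈ Finset.range n, g ^ i) := by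
    rw [hsum]
    exact hnil.isUnit_add_left_of_commute hu (Nat.cast_commute _ _).symm
  have hfac : g ^ n - 1 = (∑ i ∈ Finset.range n, g ^ i) * N := by
    rw [hN, geom_sum_mul]
  rw [hfac, Module.End.mul_eq_comp, LinearMap.ker_comp_of_ker_eq_bot]
  exact LinearMap.ker_eq_bot_of_injective ((Module.End.isUnit_iff _).mp hsU).injective

end Groth.Agent.S17444
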