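import Groth.Statements.S17446
-- import your own Groth.Agent.* helpers here

set_option autoImplicit false
universe u v
open SSRed

namespace Groth.Agent.S17446

variable {K : Type u} {V : Type v} [Field K] [AddCommGroup V] [Module K V]

/-- The endomorphism `e - 1`. -/
abbrev dm (e : V ≃ₗ[K] V) : Module.End K V := (e : Module.End K V) - 1

lemma dm_apply (e : V ≃ₗ[K] V) (w : V) : dm e w = e w - w := by
  simp [dm]

/-- `h - 1` for an element of a subgroup. -/
def dmS (H : Subgroup (V ≃ₗ[K] V)) (h : H) : Module.End K V := dm (h : V ≃ₗ[K] V)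

lemma dmS_apply (H : Subgroup (V ≃ₗ[K] V)) (h : H) (w : V) :
    dmS H h w = (h : V ≃ₗ[K] V) w - w := dm_apply _ w

/-- The filtration `V_k` spanned by images of `k`-fold products of `h - 1`, `h ∈ H₁`. -/
def filt (H₁ : Subgroup (V ≃ₗ[K] V)) : ℕ → Submodule K V
  | 0 => ⊤
  | k + 1 => ⨆ h : H₁, (filt H₁ k).map (dm (h : V ≃ₗ[K] V))

lemma filt_succ (H₁ : Subgroup (V ≃ₗ[K] V)) (k : ℕ) :
    filt H₁ (k + 1) = ⨆ h : H₁, (filt H₁ k).map (dm (h : V ≃ₗ[K] V)) := rfl

lemma sub_mem_filt (H₁ : Subgroup (V ≃ₗ[K] V)) {h : V ≃ₗ[K] V} (hh : h ∈ H₁) {k : ℕ} {w : V}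
    (hw : w ∈ filt H₁ k) : h w - w ∈ filt H₁ (k + 1) := by
  rw [filt_succ]
  apply Submodule.mem_iSup_of_mem ⟨h, hh⟩
  exact ⟨w, hw, dm_apply h w⟩

lemma filt_succ_le (H₁ : Subgroup (V ≃ₗ[K] V)) : ∀ k, filt H₁ (k + 1) ≤ filt H₁ k
  | 0 => le_top
  | k + 1 => by
    rw [filt_succ H₁ (k + 1), filt_succ H₁ k]
    exact iSup_mono fun h => Submodule.map_mono (filt_succ_le H₁ k)

lemma mem_filt_of_mem_H1 (H₁ : Subgroup (V ≃ₗ[K] V)) {h : V ≃ₗ[K] V} (hh : h ∈ H₁) {k : ℕ}
    {w : V} (hw : w ∈ filt H₁ k) : h w ∈ filt H₁ k := by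
  have h1 := filt_succ_le H₁ k (sub_mem_filt H₁ hh hw)
  have h2 := Submodule.add_mem _ h1 hw
  simpa using h2

lemma mem_filt_of_mem_H2 (H₁ H₂ : Subgroup (V ≃ₗ[K] V))
    (hnorm : ∀ g ∈ H₂, ∀ h ∈ H₁, g * h * g⁻¹ ∈ H₁) {g : V ≃ₗ[K] V} (hg : g ∈ H₂) :
    ∀ k, ∀ w ∈ filt H₁ k, g w ∈ filt H₁ k
  | 0 => fun _ _ => Submodule.mem_top
  | k + 1 => by
    intro w hw
    rw [filt_succ] at hw
    refine Submodule.iSup_induction _ (motive := fun w => g w ∈ filt H₁ (k + 1)) hw ?_ ?_ ?_
    · intro h x hx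
      obtain ⟨u, hu, rfl⟩ := hx
      have hmem : g * (h : V ≃ₗ[K] V) * g⁻¹ ∈ H₁ := hnorm g hg h h.2
      have := sub_mem_filt H₁ hmem (mem_filt_of_mem_H2 H₁ H₂ hnorm hg k u hu)
      convert this using 1
      simp [map_sub]
    · simp
    · intro x y hx hy
      rw [map_add]
      exact Submodule.add_mem _ hx hy

lemma prod_H2_mem (H₁ H₂ : Subgroup (V ≃ₗ[K] V))
    (hnorm : ∀ g ∈ H₂, ∀ h ∈ H₁, g * h * g⁻¹ ∈ H₁) (l : List H₂) (k : ℕ) (w : V)
    (hw : w ∈ filt H₁ k) : (l.map (dmS H₂)).prod w ∈ filt H₁ k := by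
  induction l with
  | nil => simpa using hw
  | cons x l ih =>
    simp only [List.map_cons, List.prod_cons, Module.End.mul_apply, dmS_apply]
    exact Submodule.sub_mem _ (mem_filt_of_mem_H2 H₁ H₂ hnorm x.2 k _ ih) ih


/-- Let K be a field, V a finite-dimensional K-vector space and H₁, H₂ subgroups of the group of
K-linear automorphisms of V such that H₂ normalizes H₁. Call the action of a subgroup H unipotent
when, for some n, every product (h₁ - 1)(h₂ - 1)⋯(hₙ - 1) with all hᵢ in H is the zero endomorphism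
(equivalently, V has an H-stable flag on whose successive quotients H acts trivially). If H₁ and H₂
act unipotently, then the subgroup generated by H₁ and H₂ acts unipotently. (In the published result
H₁ and H₂ are the absolute Galois groups of two finite Galois extensions of a strictly henselian
discretely valued field over which an abelian variety becomes semistable, acting on its rational
ℓ-adic Tate module, and the conclusion is semistability over the intersection of the two fields; the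
printed argument uses only that H₂ normalizes H₁.) -/
theorem result (K : Type u) (V : Type v) [Field K]
    [AddCommGroup V] [Module K V] [FiniteDimensional K V]
    (H₁ H₂ : Subgroup (V ≃ₗ[K] V)) (hnorm : ∀ g ∈ H₂, ∀ h ∈ H₁, g * h * g⁻¹ ∈ H₁)
    (h₁ : ∃ n : ℕ, ∀ f : Fin n → ↥H₁,
      (List.ofFn fun i => (((f i : ↥H₁) : V ≃ₗ[K] V) : Module.End K V) - 1).prod = 0)
    (h₂ : ∃ n : ℕ, ∀ f : Fin n → ↥H₂,
      (List.ofFn fun i => (((f i : ↥H₂) : V ≃ₗ[K] V) : Module.End K V) - 1).prod = 0) :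
    ∃ n : ℕ, ∀ f : Fin n → ↥(H₁ ⊔ H₂),
      (List.ofFn fun i => (((f i : ↥(H₁ ⊔ H₂)) : V ≃ₗ[K] V) : Module.End K V) - 1).prod = 0 := by
  obtain ⟨n₁, hn₁⟩ := h₁
  obtain ⟨n₂, hn₂⟩ := h₂
  have hl₁ : ∀ l : List H₁, l.length = n₁ → (l.map (dmS H₁)).prod = 0 := by
    intro l hl
    subst hl
    have := hn₁ (fun i => l.get i)
    rw [← this]
    congr 1
    rw [← List.ofFn_getElem_eq_map]
    rfl
  have hl₂ : ∀ l : List H₂, l.length = n₂ → (l.map (dmS H₂)).prod = 0 := by
    intro l hl
    subst hl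
    have := hn₂ (fun i => l.get i)
    rw [← this]
    congr 1
    rw [← List.ofFn_getElem_eq_map]
    rfl
  have hend : ∀ k, ∀ w ∈ filt H₁ k, ∀ l : List H₁, l.length + k = n₁ →
      (l.map (dmS H₁)).prod w = 0 := by
    intro k
    induction k with
    | zero =>
      intro w _ l hl
      rw [hl₁ l (by simpa using hl)]
      rfl
    | succ k ih =>
      intro w hw l hl
      rw [filt_succ] at hw
      refine Submodule.iSup_induction _
        (motive := fun w => (l.map (dmS H₁)).prod w = 0) hw ?_ ?_ ?_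
      · intro h x hx
        obtain ⟨u, hu, rfl⟩ := hx
        have := ih u hu (l ++ [h]) (by simp; omega)
        simp only [List.map_append, List.map_cons, List.map_nil, List.prod_append,
          List.prod_cons, List.prod_nil, mul_one, Module.End.mul_apply] at this
        exact this
      · simp
      · intro x y hx hy
        rw [map_add, hx, hy, add_zero]
  have hbot : ∀ w ∈ filt H₁ n₁, w = 0 := fun w hw => by
    simpa using hend n₁ w hw [] (by simp)
  have hpres : ∀ x ∈ H₁ ⊔ H₂, ∀ k, ∀ w ∈ filt H₁ k, x w ∈ filt H₁ k := by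
    intro x hx
    rw [Subgroup.sup_eq_closure] at hx
    induction hx using Subgroup.closure_induction'' with
    | mem x hx =>
      rcases hx with hx | hx
      · exact fun k w hw => mem_filt_of_mem_H1 H₁ hx hw
      · exact fun k w hw => mem_filt_of_mem_H2 H₁ H₂ hnorm hx k w hw
    | inv_mem x hx =>
      rcases hx with hx | hx
      · exact fun k w hw => mem_filt_of_mem_H1 H₁ (H₁.inv_mem hx) hw
      · exact fun k w hw => mem_filt_of_mem_H2 H₁ H₂ hnorm (H₂.inv_mem hx) k w hw
    | one => intro k w hw; simpa using hw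
    | mul x y _ _ ihx ihy => intro k w hw; exact ihx k _ (ihy k w hw)
  have hshadow : ∀ x ∈ H₁ ⊔ H₂, ∃ x' ∈ H₂, ∀ k, ∀ w ∈ filt H₁ k,
      x w - x' w ∈ filt H₁ (k + 1) := by
    intro x hx
    rw [Subgroup.sup_eq_closure] at hx
    induction hx using Subgroup.closure_induction'' with
    | mem x hx =>
      rcases hx with hx | hx
      · exact ⟨1, H₂.one_mem, fun k w hw => by simpa using sub_mem_filt H₁ hx hw⟩
      · exact ⟨x, hx, fun k w hw => by simp⟩
    | inv_mem x hx =>
      rcases hx with hx | hx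
      · exact ⟨1, H₂.one_mem, fun k w hw => by simpa using sub_mem_filt H₁ (H₁.inv_mem hx) hw⟩
      · exact ⟨x⁻¹, H₂.inv_mem hx, fun k w hw => by simp⟩
    | one => exact ⟨1, H₂.one_mem, fun k w hw => by simp⟩
    | mul x y hx hy ihx ihy =>
      obtain ⟨x', hx'H, hx'⟩ := ihx
      obtain ⟨y', hy'H, hy'⟩ := ihy
      refine ⟨x' * y', H₂.mul_mem hx'H hy'H, fun k w hw => ?_⟩
      have e1 : (x * y) w - (x' * y') w = x (y w - y' w) + (x (y' w) - x' (y' w)) := by
        simp only [LinearEquiv.mul_apply, map_sub]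
        abel
      rw [e1]
      refine Submodule.add_mem _ ?_ ?_
      · exact hpres x (by rw [Subgroup.sup_eq_closure]; exact hx) (k + 1) _ (hy' k w hw)
      · exact hx' k _ (mem_filt_of_mem_H2 H₁ H₂ hnorm hy'H k w hw)
  have hblock : ∀ l : List ↥(H₁ ⊔ H₂), ∃ l' : List H₂, l'.length = l.length ∧
      ∀ k, ∀ w ∈ filt H₁ k, (l.map (dmS (H₁ ⊔ H₂))).prod w -
        (l'.map (dmS H₂)).prod w ∈ filt H₁ (k + 1) := by
    intro l
    induction l with
    | nil => exact ⟨[], rfl, fun k w hw => by simp⟩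
    | cons x l ih =>
      obtain ⟨l', hlen, hl'⟩ := ih
      obtain ⟨x', hx'H, hx'⟩ := hshadow x x.2
      refine ⟨⟨x', hx'H⟩ :: l', by simp [hlen], fun k w hw => ?_⟩
      simp only [List.map_cons, List.prod_cons, Module.End.mul_apply]
      have hP'w := prod_H2_mem H₁ H₂ hnorm l' k w hw
      have hd := hl' k w hw
      set P := (l.map (dmS (H₁ ⊔ H₂))).prod
      set P' := (l'.map (dmS H₂)).prod
      have e1 : dmS (H₁ ⊔ H₂) x (P w) - dmS H₂ ⟨x', hx'H⟩ (P' w) =
          dmS (H₁ ⊔ H₂) x (P w - P' w) + ((x : V ≃ₗ[K] V) (P' w) - x' (P' w)) := by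
        simp only [dmS_apply, map_sub]
        abel
      rw [e1]
      refine Submodule.add_mem _ ?_ (hx' k _ hP'w)
      rw [dmS_apply]
      exact Submodule.sub_mem _ (hpres x x.2 (k + 1) _ hd) hd
  have hfull : ∀ j, ∀ l : List ↥(H₁ ⊔ H₂), l.length = n₂ * j →
      ∀ w, (l.map (dmS (H₁ ⊔ H₂))).prod w ∈ filt H₁ j := by
    intro j
    induction j with
    | zero => intro l _ w; exact Submodule.mem_top
    | succ j ih =>
      intro l hl w
      rw [Nat.mul_succ] at hl
      rw [← List.take_append_drop n₂ l, List.map_append, List.prod_append, Module.End.mul_apply]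
      have hd := ih (l.drop n₂) (by
        rw [List.length_drop, hl]
        generalize n₂ * j = m
        omega) w
      obtain ⟨l', hlen, hl'⟩ := hblock (l.take n₂)
      have h1 := hl' j _ hd
      have hzero := hl₂ l' (by
        rw [hlen, List.length_take, hl]
        generalize n₂ * j = m
        omega)
      rw [hzero, LinearMap.zero_apply, sub_zero] at h1
      exact h1
  refine ⟨n₂ * n₁, fun f => ?_⟩
  apply LinearMap.ext
  intro w
  have h := hfull n₁ (List.ofFn f) (by simp) w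
  rw [List.map_ofFn] at h
  exact hbot _ h

end Groth.Agent.S17446
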