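import Groth.Statements.S17463
import Groth.Agent.S17444
-- import your own Groth.Agent.* helpers here

set_option autoImplicit false
universe u v w
open SSRed

namespace Groth.Agent.S17463

/-- Let K be a field of characteristic zero, V a K-vector space, G a group with a K-linear action ρ : G
→ GL(V) such that every ρ(g) is unipotent (ρ(g) - 1 is nilpotent), and H a subgroup of G of finite
index. Then the H-invariants equal the G-invariants: a vector fixed by every element of H is fixed
by every element of G. (In the source G and H are the absolute Galois groups of K and of a finite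
extension K', acting unipotently on the rational ℓ-adic Tate module of an abelian variety.) -/
theorem result (K : Type u) (V : Type v) (G : Type w) [Field K] [CharZero K]
    [AddCommGroup V] [Module K V] [Group G] (ρ : G →* (V ≃ₗ[K] V))
    (hunip : ∀ g : G, IsNilpotent (((ρ g : V ≃ₗ[K] V) : Module.End K V) - 1))
    (H : Subgroup G) [H.FiniteIndex] (v : V) (hv : ∀ h ∈ H, ρ h v = v) (g : G) :
    ρ g v = v := by
  obtain ⟨m, hm, -, hgm⟩ := H.exists_pow_mem_of_index_ne_zero (Subgroup.FiniteIndex.index_ne_zero) g
  have h1 := hv _ hgm
  set f : Module.End K V := ((ρ g : V ≃ₗ[K] V) : Module.End K V) with hf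
  have hmem : v ∈ LinearMap.ker (f ^ m - 1) := by
    rw [LinearMap.mem_ker, LinearMap.sub_apply, Module.End.one_apply, sub_eq_zero]
    rw [map_pow] at h1
    refine Eq.trans ?_ h1
    rw [hf, LinearEquiv.coe_pow, Module.End.coe_pow]
    rfl
  rw [Groth.Agent.S17444.result K V f (hunip g) m hm] at hmem
  simpa [hf, sub_eq_zero] using hmem

end Groth.Agent.S17463
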