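import Groth.Statements.S1758
-- import your own Groth.Agent.* helpers here

set_option autoImplicit false
universe u
open LocCoh

namespace Groth.Agent.S1758

/-- Let A → B be a flat ring map. If a family f_1, …, f_r of elements of A is independent (every linear
relation has coefficients in the ideal the family generates), then so is the family of their images
in B. -/
theorem result (A B : Type u) [CommRing A] [CommRing B] [Algebra A B] [Module.Flat A B] (r : ℕ) (f : Fin r → A) (hf : Dual2.Independent f) : Dual2.Independent (fun i => algebraMap A B (f i)) := by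
  intro b hb
  have hrel : ∑ i, f i • b i = 0 := by
    rw [← hb]
    refine Finset.sum_congr rfl fun i _ => ?_
    rw [Algebra.smul_def, mul_comm]
  obtain ⟨k, a, y, hx, hcol⟩ := Module.Flat.isTrivialRelation_of_sum_smul_eq_zero hrel
  have hmem : ∀ i j, a i j ∈ Ideal.span (Set.range f) := by
    intro i j
    have := hf (fun i => a i j) (by
      rw [← hcol j]
      refine Finset.sum_congr rfl fun i _ => ?_
      ring)
    exact this i
  intro i
  rw [hx i]
  refine Ideal.sum_mem _ fun j _ => ?_
  rw [Algebra.smul_def]
  refine Ideal.mul_mem_right _ _ ?_
  have : (Ideal.span (Set.range f)).map (algebraMap A B) ≤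
      Ideal.span (Set.range fun i => algebraMap A B (f i)) := by
    rw [Ideal.map_span]
    apply Ideal.span_mono
    rintro _ ⟨_, ⟨i, rfl⟩, rfl⟩
    exact ⟨i, rfl⟩
  exact this (Ideal.mem_map_of_mem _ (hmem i j))

end Groth.Agent.S1758
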