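import Groth.Statements.S17662
import Mathlib.LinearAlgebra.Matrix.NonsingularInverse
import Mathlib.Data.Fintype.Perm
-- import your own Groth.Agent.* helpers here

set_option autoImplicit false
universe u
open CIDisc

namespace Groth.Agent.S17662

section CB
open Matrix Finset Equiv

variable {R : Type u} [CommRing R]

abbrev Sub (r e : ℕ) := {s : Finset (Fin r) // s.card = e}

noncomputable abbrev emb {r e : ℕ} (s : Sub r e) : Fin e ↪o Fin r := s.1.orderEmbOfFin s.2

lemma range_emb_comp {r e : ℕ} (s : Sub r e) (τ : Perm (Fin e)) :
    Set.range (emb s ∘ τ) = (s.1 : Set (Fin r)) := by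
  rw [Set.range_comp, τ.range_eq_univ, Set.image_univ, Finset.range_orderEmbOfFin]

lemma sum_inj_reindex {r e : ℕ} {β : Type*} [AddCommMonoid β] (F : (Fin e → Fin r) → β) :
    ∑ g ∈ (univ : Finset (Fin e → Fin r)).filter Function.Injective, F g =
      ∑ p : Sub r e × Perm (Fin e), F (emb p.1 ∘ p.2) := by
  symm
  refine Finset.sum_bij (fun p _ => emb p.1 ∘ p.2) ?_ ?_ ?_ ?_
  · intro p _
    simp only [mem_filter, mem_univ, true_and]
    exact (emb p.1).injective.comp p.2.injective
  · intro p _ q _ h
    have hs : p.1 = q.1 := by
      apply Subtype.ext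
      have h1 : Set.range (emb p.1 ∘ p.2) = Set.range (emb q.1 ∘ q.2) := by
        rw [h]
      rw [range_emb_comp, range_emb_comp] at h1
      exact_mod_cast h1
    obtain ⟨s, τ⟩ := p
    obtain ⟨s', τ'⟩ := q
    simp only at hs h
    subst hs
    have : τ = τ' := by
      ext i
      have := congrFun h i
      simp only [Function.comp_apply] at this
      exact congrArg Fin.val ((emb s).injective this)
    rw [this]
  · intro g hg
    simp only [mem_filter, mem_univ, true_and] at hg
    have hcard : (univ.image g).card = e := by
      rw [Finset.card_image_of_injective _ hg, Finset.card_univ, Fintype.card_fin]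
    let s : Sub r e := ⟨univ.image g, hcard⟩
    let τf : Fin e → Fin e := fun i =>
      (s.1.orderIsoOfFin s.2).symm ⟨g i, Finset.mem_image_of_mem g (mem_univ i)⟩
    have hτinj : Function.Injective τf := by
      intro i j hij
      simp only [τf, EmbeddingLike.apply_eq_iff_eq, Subtype.mk.injEq] at hij
      exact hg hij
    let τ : Perm (Fin e) := Equiv.ofBijective τf (Finite.injective_iff_bijective.mp hτinj)
    refine ⟨(s, τ), mem_univ _, ?_⟩
    funext i
    simp only [Function.comp_apply, τ, Equiv.ofBijective_apply, τf, emb]
    rw [← Finset.coe_orderIsoOfFin_apply, OrderIso.apply_symm_apply]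
  · intro p _
    rfl

theorem cauchyBinet {e r : ℕ} (A : Matrix (Fin e) (Fin r) R) (B : Matrix (Fin r) (Fin e) R) :
    (A * B).det = ∑ s : Sub r e,
      (A.submatrix id (emb s)).det * (B.submatrix (emb s) id).det := by
  -- expand
  have h1 : (A * B).det = ∑ g : Fin e → Fin r,
      (∏ i, B (g i) i) * (A.submatrix id g).det := by
    rw [det_apply]
    simp only [mul_apply]
    simp_rw [Finset.prod_univ_sum, Finset.smul_sum]
    rw [Finset.sum_comm]
    refine Finset.sum_congr rfl (fun g _ => ?_)
    rw [det_apply, Finset.mul_sum]
    refine Finset.sum_congr rfl (fun σ _ => ?_)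
    simp only [submatrix_apply, id]
    rw [Finset.prod_mul_distrib]
    simp only [Units.smul_def, zsmul_eq_mul]
    ring
  rw [h1]
  have h2 : ∑ g : Fin e → Fin r, (∏ i, B (g i) i) * (A.submatrix id g).det =
      ∑ g ∈ (univ : Finset (Fin e → Fin r)).filter Function.Injective,
        (∏ i, B (g i) i) * (A.submatrix id g).det := by
    rw [Finset.sum_filter]
    refine Finset.sum_congr rfl (fun g _ => ?_)
    split_ifs with hg
    · rfl
    · rw [Function.Injective] at hg
      push Not at hg
      obtain ⟨i, j, hij, hne⟩ := hg
      rw [det_zero_of_column_eq hne (fun k => by simp [hij]), mul_zero]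
  rw [h2, sum_inj_reindex, Fintype.sum_prod_type]
  refine Finset.sum_congr rfl (fun s _ => ?_)
  have h3 : ∀ τ : Perm (Fin e), (A.submatrix id (emb s ∘ τ)).det =
      Perm.sign τ * (A.submatrix id (emb s)).det := by
    intro τ
    rw [← det_permute' τ (A.submatrix id (emb s)), submatrix_submatrix]
    rfl
  simp_rw [h3]
  rw [det_apply (B.submatrix (emb s) id), Finset.mul_sum]
  refine Finset.sum_congr rfl (fun τ _ => ?_)
  simp only [submatrix_apply, id, Function.comp_apply, Units.smul_def, zsmul_eq_mul]
  ring

end CB


/-- Let R be a commutative ring, M an r × n matrix over R and e ≥ 0; for each e-element set L of row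
indices let A_L be an e × r matrix over R, and form the square matrix, indexed by the e-element sets
of row indices, whose (L, L') entry is the e × e minor of A_L on the columns L'. If the determinant
of that square matrix is a unit, then the sum over L of the ideals generated by the e × e minors of
the products A_L · M is the ideal generated by all e × e minors of M. (In the source R is the
coordinate ring of an affine scheme X of codimension e cut out by f_1, …, f_r in affine n-space, M
is the image of the Jacobian matrix of the f_j, the A_L have entries in the ground field and cut out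
complete intersections Z_L = V(A_L · f), so that the two sides are Σ_L Jac(Z_L) and Jac(X); the
source states the equality for general A_L and establishes it under the present invertibility
condition, which it shows to be generic.) -/
theorem result {R : Type u} [CommRing R] (e r n : ℕ)
    (M : Matrix (Fin r) (Fin n) R)
    (A : {s : Finset (Fin r) // s.card = e} → Matrix (Fin e) (Fin r) R)
    (hA : IsUnit (Matrix.det (Matrix.of fun i j : {s : Finset (Fin r) // s.card = e} =>
      ((A i).submatrix id (j.1.orderEmbOfFin j.2)).det))) :
    (⨆ i, Ideal.span (Set.range fun t : {s : Finset (Fin n) // s.card = e} =>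
        ((A i * M).submatrix id (t.1.orderEmbOfFin t.2)).det)) =
      Ideal.span (Set.range fun p : {s : Finset (Fin r) // s.card = e} × {s : Finset (Fin n) // s.card = e} =>
        (M.submatrix (p.1.1.orderEmbOfFin p.1.2) (p.2.1.orderEmbOfFin p.2.2)).det) := by
  classical
  set C : Matrix {s : Finset (Fin r) // s.card = e} {s : Finset (Fin r) // s.card = e} R :=
    Matrix.of fun i j : {s : Finset (Fin r) // s.card = e} =>
      ((A i).submatrix id (j.1.orderEmbOfFin j.2)).det with hC
  set X : Matrix {s : Finset (Fin r) // s.card = e} {s : Finset (Fin n) // s.card = e} R :=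
    Matrix.of fun L t => ((A L * M).submatrix id (t.1.orderEmbOfFin t.2)).det with hX
  set Mm : Matrix {s : Finset (Fin r) // s.card = e} {s : Finset (Fin n) // s.card = e} R :=
    Matrix.of fun L t => (M.submatrix (L.1.orderEmbOfFin L.2) (t.1.orderEmbOfFin t.2)).det
    with hMm
  have key : X = C * Mm := by
    ext L t
    simp only [hX, hC, hMm, Matrix.of_apply, Matrix.mul_apply]
    have h1 : (A L * M).submatrix id (t.1.orderEmbOfFin t.2) =
        A L * M.submatrix id (t.1.orderEmbOfFin t.2) := by
      ext i j
      simp [Matrix.mul_apply]
    rw [h1, cauchyBinet]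
    refine Finset.sum_congr rfl (fun s _ => ?_)
    rw [Matrix.submatrix_submatrix]
    rfl
  apply le_antisymm
  · refine iSup_le fun L => Ideal.span_le.mpr ?_
    rintro _ ⟨t, rfl⟩
    have h := congrFun (congrFun key L) t
    simp only [hX, Matrix.of_apply] at h
    beta_reduce
    rw [h, Matrix.mul_apply]
    exact Submodule.sum_mem _ (fun L' _ => Ideal.mul_mem_left _ _
      (Ideal.subset_span ⟨(L', t), rfl⟩))
  · refine Ideal.span_le.mpr ?_
    rintro _ ⟨⟨L', t⟩, rfl⟩
    have hinv : C⁻¹ * X = Mm := by
      rw [key, ← Matrix.mul_assoc, Matrix.nonsing_inv_mul C hA, Matrix.one_mul]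
    have h := congrFun (congrFun hinv L') t
    simp only [hMm, Matrix.of_apply] at h
    beta_reduce
    rw [← h, Matrix.mul_apply]
    refine Submodule.sum_mem _ (fun L _ => Ideal.mul_mem_left _ _ ?_)
    exact Submodule.mem_iSup_of_mem L (Ideal.subset_span ⟨t, rfl⟩)

end Groth.Agent.S17662
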