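import Groth.Statements.S17678
import Mathlib.Algebra.MonoidAlgebra.Basic
import Mathlib.LinearAlgebra.FreeModule.Basic
-- import your own Groth.Agent.* helpers here

set_option autoImplicit false
universe u v
open DiagMon

namespace Groth.Agent.S17678

/-- Let R be a commutative ring and N an abelian group. Then the ring map R[N] → R[N × N] of monoid
algebras induced by the diagonal n ↦ (n, n), which is the comorphism of the multiplication morphism
of the diagonalizable group scheme Spec R[N] over Spec R, is flat. (The published statement asserts
flatness for every cancellative commutative monoid N, on the ground that N acts freely on N × N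
through the diagonal; but for the submonoid N of the natural numbers generated by 2 and 3, the pairs
(x, x − 1) with x ≥ 3 form one orbit class that is not a free orbit, and the corresponding direct
summand of k[N × N] is the ideal t³k[t] viewed as a module over k[t², t³], which is not flat. The
statement is therefore given for groups, where N × N is a free N-set with basis the pairs (0, b).) -/
theorem result (R : Type u) [CommRing R] (N : Type v)
    [AddCommGroup N] :
    (AddMonoidAlgebra.mapDomainRingHom R ((AddMonoidHom.id N).prod (AddMonoidHom.id N))).Flat := by
  classical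
  let e : N × N ≃+ N × N :=
    { toFun := fun p => (p.1 + p.2, p.2)
      invFun := fun p => (p.1 - p.2, p.2)
      left_inv := fun p => by simp
      right_inv := fun p => by simp
      map_add' := fun p q => by
        ext
        · simp only [Prod.fst_add, Prod.snd_add]; abel
        · simp only [Prod.snd_add] }
  let ψ : AddMonoidAlgebra R (N × N) →+* AddMonoidAlgebra R (N × N) :=
    AddMonoidAlgebra.mapDomainRingHom R e.toAddMonoidHom
  let ψ' : AddMonoidAlgebra R (N × N) →+* AddMonoidAlgebra R (N × N) :=
    AddMonoidAlgebra.mapDomainRingHom R e.symm.toAddMonoidHom
  have hψψ' : ∀ x, ψ (ψ' x) = x := by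
    intro x
    induction x using AddMonoidAlgebra.induction_linear with
    | zero => simp
    | add x y hx hy => rw [map_add, map_add, hx, hy]
    | single p r =>
      simp [ψ, ψ', AddMonoidAlgebra.mapDomainRingHom_apply, AddMonoidAlgebra.mapDomain_single]
  have hψ'ψ : ∀ x, ψ' (ψ x) = x := by
    intro x
    induction x using AddMonoidAlgebra.induction_linear with
    | zero => simp
    | add x y hx hy => rw [map_add, map_add, hx, hy]
    | single p r =>
      simp [ψ, ψ', AddMonoidAlgebra.mapDomainRingHom_apply, AddMonoidAlgebra.mapDomain_single]
  have hψ : Function.Bijective ψ :=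
    ⟨Function.LeftInverse.injective hψ'ψ, Function.RightInverse.surjective hψψ'⟩
  let c : AddMonoidAlgebra (AddMonoidAlgebra R N) N →+* AddMonoidAlgebra R (N × N) :=
    AddMonoidAlgebra.curryRingEquiv.symm.toRingHom
  have hc : Function.Bijective c := AddMonoidAlgebra.curryRingEquiv.symm.bijective
  have hflat : (algebraMap (AddMonoidAlgebra R N)
      (AddMonoidAlgebra (AddMonoidAlgebra R N) N)).Flat :=
    RingHom.flat_algebraMap_iff.2 inferInstance
  have heq : AddMonoidAlgebra.mapDomainRingHom R ((AddMonoidHom.id N).prod (AddMonoidHom.id N)) =
      ψ.comp (c.comp (algebraMap (AddMonoidAlgebra R N)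
        (AddMonoidAlgebra (AddMonoidAlgebra R N) N))) := by
    apply RingHom.ext
    intro x
    induction x using AddMonoidAlgebra.induction_linear with
    | zero => simp
    | add x y hx hy => rw [map_add, map_add, hx, hy]
    | single n r =>
      simp [ψ, c, AddMonoidAlgebra.mapDomainRingHom_apply, AddMonoidAlgebra.mapDomain_single,
        AddMonoidAlgebra.coe_algebraMap, e]
  rw [heq]
  exact RingHom.Flat.comp (RingHom.Flat.comp hflat (RingHom.Flat.of_bijective hc))
    (RingHom.Flat.of_bijective hψ)

end Groth.Agent.S17678
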