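import Groth.Statements.S17679
import Mathlib.LinearAlgebra.Dimension.OrzechProperty
import Mathlib.LinearAlgebra.Dimension.Constructions
import Mathlib.Algebra.Group.Submonoid.BigOperators
import Mathlib.RingTheory.FiniteType
-- import your own Groth.Agent.* helpers here

set_option autoImplicit false
open DiagMon

namespace Groth.Agent.S17679

/-- For n ≥ 1 the minimal number of generators of ℤ^n as an additive monoid is n + 1: some n + 1
elements generate ℤ^n as a monoid, and every finite set generating ℤ^n as a monoid has at least n +
1 elements. (For n = 0 the empty set generates the zero monoid, so the count n + 1 is stated for n ≥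
1 only.) -/
theorem result (n : ℕ) (hn : 1 ≤ n) :
    (∃ s : Finset (Fin n → ℤ), s.card = n + 1 ∧ AddSubmonoid.closure (s : Set (Fin n → ℤ)) = ⊤) ∧
    ∀ s : Finset (Fin n → ℤ), AddSubmonoid.closure (s : Set (Fin n → ℤ)) = ⊤ → n + 1 ≤ s.card := by
  classical
  constructor
  · let w : Fin n → ℤ := fun _ => -1
    let g : Fin (n + 1) → (Fin n → ℤ) := Fin.lastCases w (fun i => Pi.single i 1)
    have hg : Function.Injective g := by
      intro a b hab
      induction a using Fin.lastCases with
      | last =>
        induction b using Fin.lastCases with
        | last => rfl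
        | cast j =>
          exfalso
          simp only [g, Fin.lastCases_last, Fin.lastCases_castSucc] at hab
          have := congrFun hab j
          simp [w] at this
      | cast i =>
        induction b using Fin.lastCases with
        | last =>
          exfalso
          simp only [g, Fin.lastCases_last, Fin.lastCases_castSucc] at hab
          have := congrFun hab i
          simp [w] at this
        | cast j =>
          simp only [g, Fin.lastCases_castSucc] at hab
          have := congrFun hab i
          by_cases hij : i = j
          · rw [hij]
          · simp [Pi.single_apply, hij] at this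
    refine ⟨Finset.univ.image g, ?_, ?_⟩
    · rw [Finset.card_image_of_injective _ hg, Finset.card_univ, Fintype.card_fin]
    · rw [eq_top_iff]
      intro v _
      set m : ℕ := ∑ i, (v i).natAbs with hm
      have hle : ∀ i, 0 ≤ v i + m := by
        intro i
        have h1 : (v i).natAbs ≤ m := by
          rw [hm]
          exact Finset.single_le_sum (f := fun i => (v i).natAbs) (fun _ _ => Nat.zero_le _)
            (Finset.mem_univ i)
        have h2 : -(v i) ≤ ((v i).natAbs : ℤ) := by
          rw [Int.natCast_natAbs]; exact neg_le_abs (v i)
        omega
      have hv : v = (∑ i, (v i + m).toNat • (Pi.single i 1 : Fin n → ℤ)) + m • w := by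
        funext j
        simp only [Pi.add_apply, Finset.sum_apply, Pi.smul_apply, Pi.single_apply, smul_eq_mul,
          w]
        rw [Finset.sum_eq_single j]
        · simp only [if_true, nsmul_eq_mul, mul_one]
          have := hle j
          rw [Int.toNat_of_nonneg this]
          ring
        · intro b _ hb
          rw [if_neg (Ne.symm hb)]; simp
        · intro h; exact absurd (Finset.mem_univ j) h
      rw [hv]
      refine add_mem (sum_mem fun i _ => nsmul_mem (AddSubmonoid.subset_closure ?_) _)
        (nsmul_mem (AddSubmonoid.subset_closure ?_) _)
      · simp only [Finset.coe_image, Finset.coe_univ, Set.image_univ, Set.mem_range]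
        exact ⟨Fin.castSucc i, by simp [g]⟩
      · simp only [Finset.coe_image, Finset.coe_univ, Set.image_univ, Set.mem_range]
        exact ⟨Fin.last n, by simp [g]⟩
  · intro s hs
    have hspan : Submodule.span ℤ (s : Set (Fin n → ℤ)) = ⊤ := by
      rw [eq_top_iff]
      intro v _
      have hv : v ∈ AddSubmonoid.closure (s : Set (Fin n → ℤ)) := by rw [hs]; trivial
      exact (AddSubmonoid.closure_le (S := (Submodule.span ℤ (s : Set (Fin n → ℤ))).toAddSubmonoid)).2
        Submodule.subset_span hv
    have hfr : Module.finrank ℤ (Fin n → ℤ) = n := Module.finrank_fin_fun ℤ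
    have hge : n ≤ s.card := by
      have := finrank_span_finset_le_card (R := ℤ) s
      unfold Set.finrank at this
      rw [hspan, finrank_top, hfr] at this
      exact this
    by_contra hlt
    have hcard : s.card = n := by omega
    have hli : LinearIndependent ℤ (fun x : s => (x : Fin n → ℤ)) := by
      apply linearIndependent_of_top_le_span_of_card_le_finrank
      · rw [Subtype.range_coe_subtype, Finset.setOfPred_mem, hspan]
      · rw [Fintype.card_coe, hcard, hfr]
    obtain ⟨v₀, hv₀⟩ : s.Nonempty := by
      rw [← Finset.card_pos]; omega
    have hneg : -v₀ ∈ AddSubmonoid.closure (s : Set (Fin n → ℤ)) := by rw [hs]; trivial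
    obtain ⟨f, hfs, hf⟩ := AddSubmonoid.mem_closure_finset.1 hneg
    rw [Fintype.linearIndependent_iff] at hli
    let g : s → ℤ := fun x => (f x : ℤ) + if (x : Fin n → ℤ) = v₀ then 1 else 0
    have hrel : ∑ x : s, g x • (x : Fin n → ℤ) = 0 := by
      calc ∑ x : s, g x • (x : Fin n → ℤ)
          = ∑ a ∈ s, ((f a : ℤ) + if a = v₀ then 1 else 0) • a :=
            Finset.sum_coe_sort s (fun a => ((f a : ℤ) + if a = v₀ then 1 else 0) • a)
        _ = ∑ a ∈ s, (f a : ℤ) • a + ∑ a ∈ s, (if a = v₀ then (1 : ℤ) else 0) • a := by
            rw [← Finset.sum_add_distrib]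
            refine Finset.sum_congr rfl fun a _ => ?_
            rw [add_smul]
        _ = -v₀ + v₀ := by
            have e1 : ∑ a ∈ s, (f a : ℤ) • a = -v₀ := by
              rw [← hf]; exact Finset.sum_congr rfl fun a _ => natCast_zsmul _ _
            have e2 : ∑ a ∈ s, (if a = v₀ then (1 : ℤ) else 0) • a = v₀ := by
              simp [ite_smul, hv₀]
            rw [e1, e2]
        _ = 0 := neg_add_cancel v₀
    have := hli g hrel ⟨v₀, hv₀⟩
    simp only [g, if_true] at this
    omega

end Groth.Agent.S17679
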