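import Groth.Statements.S17682
-- import your own Groth.Agent.* helpers here

set_option autoImplicit false
universe u v w u'
open DiagMon

namespace Groth.Agent.S17682

/-- Let R be a commutative ring, A a commutative R-algebra graded by a commutative monoid M, N a
submonoid of M and R' a commutative R-algebra. For every R-algebra homomorphism F : A → R' vanishing
on the homogeneous elements of degree outside N there is a unique R-algebra homomorphism f : A →
R'[M] which is graded (a homogeneous element of degree m goes to a multiple of X^m), vanishes on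
homogeneous elements of degree outside N, and composes with the augmentation X^m ↦ 1 to F. In the
dictionary where an M-grading of A is an action of the diagonalizable monoid scheme Spec R[M] on
Spec A and graded maps A → R'[M] supported on N are equivariant maps from the monoid scheme of N
over R', this says that the attractor of Spec A for the magnet N is represented by the closed
subscheme of Spec A defined by the homogeneous elements of degree outside N. -/
theorem result (R : Type u) [CommRing R]
    (A : Type v) [CommRing A] [Algebra R A] (M : Type w) [AddCommMonoid M] [DecidableEq M]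
    (𝒜 : M → Submodule R A) [GradedAlgebra 𝒜] (N : AddSubmonoid M) (R' : Type u') [CommRing R']
    [Algebra R R'] (F : A →ₐ[R] R') (hF : ∀ m, m ∉ N → ∀ a ∈ 𝒜 m, F a = 0) :
    ∃! f : A →ₐ[R] AddMonoidAlgebra R' M,
      (∀ m, ∀ a ∈ 𝒜 m, f a =
          AddMonoidAlgebra.single m (Bialgebra.counitAlgHom R' (AddMonoidAlgebra R' M) (f a))) ∧
      (∀ m, m ∉ N → ∀ a ∈ 𝒜 m, f a = 0) ∧
      ∀ a, Bialgebra.counitAlgHom R' (AddMonoidAlgebra R' M) (f a) = F a := by
  classical
  set ε := Bialgebra.counitAlgHom R' (AddMonoidAlgebra R' M) with hε
  have hεs : ∀ (m : M) (r : R'), ε (AddMonoidAlgebra.single m r) = r := by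
    intro m r
    simp [hε]
  -- the ring hom out of the direct sum
  let φ : (DirectSum M fun m => 𝒜 m) →+* AddMonoidAlgebra R' M :=
    DirectSum.toSemiring
      (fun m => (AddMonoidAlgebra.singleAddHom m).comp
        ((F.toLinearMap.toAddMonoidHom).comp (𝒜 m).subtype.toAddMonoidHom))
      (by
        show AddMonoidAlgebra.single 0 (F 1) = 1
        rw [map_one]; rfl)
      (by
        intro i j ai aj
        show AddMonoidAlgebra.single (i + j) (F ((ai : A) * aj)) =
          AddMonoidAlgebra.single i (F ai) * AddMonoidAlgebra.single j (F aj)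
        rw [map_mul, AddMonoidAlgebra.single_mul_single])
  let f₀ : A →+* AddMonoidAlgebra R' M := φ.comp (DirectSum.decomposeRingEquiv 𝒜).toRingHom
  have hf₀ : ∀ (m : M) (a : A) (ha : a ∈ 𝒜 m), f₀ a = AddMonoidAlgebra.single m (F a) := by
    intro m a ha
    show φ (DirectSum.decompose 𝒜 a) = _
    rw [DirectSum.decompose_of_mem 𝒜 ha]
    simp [φ]
  let f : A →ₐ[R] AddMonoidAlgebra R' M :=
    { f₀ with
      commutes' := by
        intro r
        have hr : algebraMap R A r ∈ 𝒜 0 := SetLike.algebraMap_mem_graded 𝒜 r
        change f₀ (algebraMap R A r) = _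
        rw [hf₀ 0 _ hr, AlgHom.commutes]
        rfl }
  have hf : ∀ (m : M) (a : A) (ha : a ∈ 𝒜 m), f a = AddMonoidAlgebra.single m (F a) := hf₀
  have hεf : ∀ a, ε (f a) = F a := by
    intro a
    induction a using DirectSum.Decomposition.inductionOn 𝒜 with
    | zero => simp
    | homogeneous x => rw [hf _ _ x.2, hεs]
    | add x y hx hy => rw [map_add, map_add, hx, hy, map_add]
  refine ⟨f, ⟨?_, ?_, hεf⟩, ?_⟩
  · intro m a ha
    rw [hεf, hf m a ha]
  · intro m hm a ha
    rw [hf m a ha, hF m hm a ha, AddMonoidAlgebra.single_zero]
  · rintro g ⟨hg1, -, hg3⟩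
    apply AlgHom.ext
    intro a
    induction a using DirectSum.Decomposition.inductionOn 𝒜 with
    | zero => simp
    | homogeneous x => rw [hg1 _ _ x.2, hg3, hf _ _ x.2]
    | add x y hx hy => rw [map_add, map_add, hx, hy]

end Groth.Agent.S17682
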