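import Groth.Statements.S17683
-- import your own Groth.Agent.* helpers here

set_option autoImplicit false
universe u
open DiagMon

namespace Groth.Agent.S17683

/-- Let N be a commutative monoid and F a submonoid of N. The additive projection ℤ[N] → ℤ[F] of monoid
algebras keeping the monomials with exponent in F and killing the others is multiplicative, i.e. F
is a face of N, if and only if for all x, y in N the sum x + y lies in F exactly when both x and y
do. -/
theorem result {N : Type u} [AddCommMonoid N] (F : AddSubmonoid N) :
    (∀ a b : AddMonoidAlgebra ℤ N,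
        AddMonoidAlgebra.comapDomain ((↑) : F → N) Subtype.val_injective (a * b) =
          AddMonoidAlgebra.comapDomain ((↑) : F → N) Subtype.val_injective a *
            AddMonoidAlgebra.comapDomain ((↑) : F → N) Subtype.val_injective b) ↔
      ∀ x y : N, x + y ∈ F ↔ (x ∈ F ∧ y ∈ F) := by
  classical
  have hnot : ∀ (n : N) (r : ℤ), n ∉ F →
      AddMonoidAlgebra.comapDomain ((↑) : F → N) Subtype.val_injective
        (AddMonoidAlgebra.single n r) = 0 := by
    intro n r hn
    ext m
    have hm : (m : N) ≠ n := fun h => hn (h ▸ m.2)
    simp [AddMonoidAlgebra.coeff_single, Ne.symm hm]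
  have hin : ∀ (n : N) (hn : n ∈ F) (r : ℤ),
      AddMonoidAlgebra.comapDomain ((↑) : F → N) Subtype.val_injective
        (AddMonoidAlgebra.single n r) = AddMonoidAlgebra.single (⟨n, hn⟩ : F) r := by
    intro n hn r
    exact AddMonoidAlgebra.comapDomain_single_map ((↑) : F → N) Subtype.val_injective ⟨n, hn⟩ r
  constructor
  · intro H x y
    constructor
    · intro hxy
      have := H (AddMonoidAlgebra.single x 1) (AddMonoidAlgebra.single y 1)
      rw [AddMonoidAlgebra.single_mul_single, hin _ hxy] at this
      by_contra hneg
      rw [not_and_or] at hneg
      rcases hneg with hx | hy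
      · rw [hnot x 1 hx, zero_mul] at this
        exact (AddMonoidAlgebra.single_ne_zero.2 one_ne_zero) this
      · rw [hnot y 1 hy, mul_zero] at this
        exact (AddMonoidAlgebra.single_ne_zero.2 one_ne_zero) this
    · rintro ⟨hx, hy⟩
      exact F.add_mem hx hy
  · intro hface a b
    induction a using AddMonoidAlgebra.induction_linear with
    | zero => simp
    | add a a' ha ha' => rw [add_mul, AddMonoidAlgebra.comapDomain_add,
        AddMonoidAlgebra.comapDomain_add, ha, ha', add_mul]
    | single x r =>
      induction b using AddMonoidAlgebra.induction_linear with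
      | zero => simp
      | add b b' hb hb' => rw [mul_add, AddMonoidAlgebra.comapDomain_add,
          AddMonoidAlgebra.comapDomain_add, hb, hb', mul_add]
      | single y t =>
        rw [AddMonoidAlgebra.single_mul_single]
        by_cases hxy : x + y ∈ F
        · obtain ⟨hx, hy⟩ := (hface x y).1 hxy
          rw [hin _ hxy, hin _ hx, hin _ hy, AddMonoidAlgebra.single_mul_single]
          rfl
        · rw [hnot _ _ hxy]
          have : ¬ (x ∈ F ∧ y ∈ F) := fun h => hxy ((hface x y).2 h)
          rw [not_and_or] at this
          rcases this with hx | hy
          · rw [hnot x r hx, zero_mul]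
          · rw [hnot y t hy, mul_zero]

end Groth.Agent.S17683
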