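import Groth.Statements.S17684
-- import your own Groth.Agent.* helpers here

set_option autoImplicit false
universe u
open DiagMon

namespace Groth.Agent.S17684

/-- Let N ⊆ L ⊆ L' be submonoids of a commutative monoid M and suppose L is a face of L', that is, for
x, y in L' the sum x + y lies in L exactly when x and y do. Then the set difference of L' by the
difference of L and N is the underlying set of a submonoid N' of M containing N, and N is a face of
N'. (The published statement also identifies the monoid scheme of N' over any base with a push-out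
of schemes; that clause is not stated here.) -/
theorem result (M : Type u) [AddCommMonoid M] (N L L' : AddSubmonoid M)
    (hNL : N ≤ L) (hLL' : L ≤ L') (hface : ∀ x ∈ L', ∀ y ∈ L', x + y ∈ L ↔ (x ∈ L ∧ y ∈ L)) :
    ∃ N' : AddSubmonoid M, (N' : Set M) = (L' : Set M) \ ((L : Set M) \ (N : Set M)) ∧ N ≤ N' ∧
      ∀ x ∈ N', ∀ y ∈ N', x + y ∈ N ↔ (x ∈ N ∧ y ∈ N) := by
  let N' : AddSubmonoid M :=
    { carrier := (L' : Set M) \ ((L : Set M) \ (N : Set M))
      zero_mem' := ⟨L'.zero_mem, fun h => h.2 N.zero_mem⟩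
      add_mem' := by
        rintro x y ⟨hx, hx'⟩ ⟨hy, hy'⟩
        refine ⟨L'.add_mem hx hy, ?_⟩
        rintro ⟨hxyL, hxyN⟩
        obtain ⟨hxL, hyL⟩ := (hface x hx y hy).1 hxyL
        have hxN : x ∈ N := by
          by_contra hn; exact hx' ⟨hxL, hn⟩
        have hyN : y ∈ N := by
          by_contra hn; exact hy' ⟨hyL, hn⟩
        exact hxyN (N.add_mem hxN hyN) }
  refine ⟨N', rfl, ?_, ?_⟩
  · intro x hx
    exact ⟨hLL' (hNL hx), fun h => h.2 hx⟩
  · rintro x ⟨hx, hx'⟩ y ⟨hy, hy'⟩
    constructor
    · intro hxy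
      obtain ⟨hxL, hyL⟩ := (hface x hx y hy).1 (hNL hxy)
      constructor
      · by_contra hn; exact hx' ⟨hxL, hn⟩
      · by_contra hn; exact hy' ⟨hyL, hn⟩
    · rintro ⟨hxN, hyN⟩
      exact N.add_mem hxN hyN

end Groth.Agent.S17684
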