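import Groth.Statements.S17687
-- import your own Groth.Agent.* helpers here

set_option autoImplicit false
universe u v w
open DiagMon

namespace Groth.Agent.S17687

/-- Let R be a commutative ring and A a commutative R-algebra of finite type graded by a commutative
monoid M. Then the set of ideals J_N, N running over all submonoids of M, where J_N is generated by
the homogeneous elements of degree not in N (the ideal of the attractor of Spec A for the magnet N),
is finite: Spec A has finitely many attractors and hence finitely many pure magnets. (The source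
assumes Spec A of finite presentation over the base; its proof uses only a finite set of homogeneous
algebra generators, so finite type is assumed here.) -/
theorem result (R : Type u) [CommRing R] (A : Type v) [CommRing A]
    [Algebra R A] [Algebra.FiniteType R A] (M : Type w) [AddCommMonoid M] [DecidableEq M]
    (𝒜 : M → Submodule R A) [GradedAlgebra 𝒜] :
    (Set.range fun N : AddSubmonoid M => Ideal.span {a : A | ∃ m : M, m ∉ N ∧ a ∈ 𝒜 m}).Finite := by
  classical
  obtain ⟨s, hs⟩ := Algebra.FiniteType.out (R := R) (A := A)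
  let P : Finset (A × M) :=
    s.biUnion (fun x => ((DirectSum.decompose 𝒜 x).support).image (fun m => (x, m)))
  let t : A × M → A := fun p => (DirectSum.decompose 𝒜 p.1 p.2 : A)
  have ht : ∀ p, t p ∈ 𝒜 p.2 := fun p => (DirectSum.decompose 𝒜 p.1 p.2).2
  let J' : AddSubmonoid M → Ideal A := fun N => Ideal.span (t '' {p | p ∈ P ∧ p.2 ∉ N})
  have hadj : Algebra.adjoin R (t '' (P : Set (A × M))) = ⊤ := by
    rw [eq_top_iff, ← hs, Algebra.adjoin_le_iff]
    intro x hx
    rw [← DirectSum.sum_support_decompose 𝒜 x]
    refine Subalgebra.sum_mem _ fun m hm => Algebra.subset_adjoin ?_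
    refine ⟨(x, m), ?_, rfl⟩
    simp only [P, Finset.coe_biUnion, Finset.coe_image, Set.mem_iUnion, Set.mem_image,
      Finset.mem_coe, exists_prop]
    exact ⟨x, hx, m, hm, rfl⟩
  have key : ∀ N : AddSubmonoid M, ∀ y : A, ∀ m, m ∉ N → (DirectSum.decompose 𝒜 y m : A) ∈ J' N := by
    intro N y
    have hy : y ∈ Algebra.adjoin R (t '' (P : Set (A × M))) := by rw [hadj]; trivial
    induction hy using Algebra.adjoin_induction with
    | mem x hx =>
      intro m hm
      obtain ⟨p, hp, rfl⟩ := hx
      by_cases hpm : p.2 = m
      · subst hpm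
        rw [DirectSum.decompose_of_mem_same 𝒜 (ht p)]
        exact Ideal.subset_span ⟨p, ⟨hp, hm⟩, rfl⟩
      · rw [DirectSum.decompose_of_mem_ne 𝒜 (ht p) hpm]
        exact zero_mem _
    | algebraMap r =>
      intro m hm
      have hm0 : (0 : M) ≠ m := fun h => hm (h ▸ N.zero_mem)
      rw [DirectSum.decompose_of_mem_ne 𝒜 (SetLike.algebraMap_mem_graded 𝒜 r) hm0]
      exact zero_mem _
    | add x y _ _ hx hy =>
      intro m hm
      rw [DirectSum.decompose_add, DirectSum.add_apply, Submodule.coe_add]
      exact add_mem (hx m hm) (hy m hm)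
    | mul x y _ _ hx hy =>
      intro m hm
      rw [DirectSum.decompose_mul, DirectSum.coe_mul_apply]
      refine Submodule.sum_mem _ fun ij hij => ?_
      rw [Finset.mem_filter] at hij
      by_cases hi : ij.1 ∈ N
      · have hj : ij.2 ∉ N := by
          intro hj; apply hm; rw [← hij.2]; exact N.add_mem hi hj
        exact Ideal.mul_mem_left _ _ (hy _ hj)
      · exact Ideal.mul_mem_right _ _ (hx _ hi)
  have heq : ∀ N : AddSubmonoid M,
      Ideal.span {a : A | ∃ m : M, m ∉ N ∧ a ∈ 𝒜 m} = J' N := by
    intro N
    apply le_antisymm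
    · rw [Ideal.span_le]
      rintro a ⟨m, hm, ha⟩
      have := key N a m hm
      rwa [DirectSum.decompose_of_mem_same 𝒜 ha] at this
    · rw [Ideal.span_le]
      rintro _ ⟨p, ⟨_, hp⟩, rfl⟩
      exact Ideal.subset_span ⟨p.2, hp, ht p⟩
  let g : Finset (A × M) → Ideal A := fun S => Ideal.span (t '' (S : Set (A × M)))
  have hsub : (Set.range fun N : AddSubmonoid M =>
      Ideal.span {a : A | ∃ m : M, m ∉ N ∧ a ∈ 𝒜 m}) ⊆ g '' (P.powerset : Set (Finset (A × M))) := by
    rintro _ ⟨N, rfl⟩
    refine ⟨P.filter (fun p => p.2 ∉ N), ?_, ?_⟩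
    · simp only [Finset.coe_powerset, Set.mem_preimage, Set.mem_powerset_iff, Finset.coe_subset]
      exact Finset.filter_subset _ _
    · change g _ = Ideal.span {a : A | ∃ m : M, m ∉ N ∧ a ∈ 𝒜 m}
      rw [heq N]
      simp only [g, J', Finset.coe_filter]
  exact Set.Finite.subset (Set.Finite.image _ (Finset.finite_toSet _)) hsub

end Groth.Agent.S17687
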