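import Groth.Statements.S17715
-- import your own Groth.Agent.* helpers here

set_option autoImplicit false
open MoretBailly

namespace Groth.Agent.S17715

/-- Write B(x) = x/(1 - e^(-x)) for the exponential generating series of the Bernoulli numbers (B'_1 =
1/2). For all natural numbers d and p the coefficient of x^3 in B(-dx)^(-1) B(-dpx) B(x)^4
e^((dp-d-3)x), i.e. the case n = 3, s = 1 of the Todd-class integrand, equals
-d(d+2)(p-1)(dp-d-2)/24 = -(d^3+2d^2) p^2/24 + (d^3+3d^2+2d) p/12 - (d^3+4d^2+4d)/24. (The published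
closed form has the same p^2 and p coefficients but constant term -(d^3+2d^2+2d)/24; direct
expansion gives the value stated here, which vanishes at p = 1.) -/
theorem coeff_zero_mul' (f g : PowerSeries ℚ) :
    PowerSeries.coeff 0 (f * g) = PowerSeries.coeff 0 f * PowerSeries.coeff 0 g := by
  rw [PowerSeries.coeff_mul]
  simp

theorem coeff_one_mul' (f g : PowerSeries ℚ) :
    PowerSeries.coeff 1 (f * g) =
      PowerSeries.coeff 0 f * PowerSeries.coeff 1 g + PowerSeries.coeff 1 f * PowerSeries.coeff 0 g := by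
  rw [PowerSeries.coeff_mul]
  simp [Finset.Nat.sum_antidiagonal_succ]

theorem coeff_two_mul' (f g : PowerSeries ℚ) :
    PowerSeries.coeff 2 (f * g) =
      PowerSeries.coeff 0 f * PowerSeries.coeff 2 g + PowerSeries.coeff 1 f * PowerSeries.coeff 1 g +
        PowerSeries.coeff 2 f * PowerSeries.coeff 0 g := by
  rw [PowerSeries.coeff_mul]
  simp [Finset.Nat.sum_antidiagonal_succ]
  ring

theorem coeff_three_mul' (f g : PowerSeries ℚ) :
    PowerSeries.coeff 3 (f * g) =
      PowerSeries.coeff 0 f * PowerSeries.coeff 3 g + PowerSeries.coeff 1 f * PowerSeries.coeff 2 g +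
        PowerSeries.coeff 2 f * PowerSeries.coeff 1 g + PowerSeries.coeff 3 f * PowerSeries.coeff 0 g := by
  rw [PowerSeries.coeff_mul]
  simp [Finset.Nat.sum_antidiagonal_succ]
  ring

theorem inv_coeffs (d : ℚ) :
    PowerSeries.coeff 0 (PowerSeries.rescale (-d) (bernoulli'PowerSeries ℚ))⁻¹ = 1 ∧
    PowerSeries.coeff 1 (PowerSeries.rescale (-d) (bernoulli'PowerSeries ℚ))⁻¹ = d / 2 ∧
    PowerSeries.coeff 2 (PowerSeries.rescale (-d) (bernoulli'PowerSeries ℚ))⁻¹ = d ^ 2 / 6 ∧
    PowerSeries.coeff 3 (PowerSeries.rescale (-d) (bernoulli'PowerSeries ℚ))⁻¹ = d ^ 3 / 24 := by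
  set A := PowerSeries.rescale (-d) (bernoulli'PowerSeries ℚ) with hA
  have hA0 : PowerSeries.coeff 0 A = 1 := by
    simp [hA, PowerSeries.coeff_rescale, bernoulli'PowerSeries]
  have hA1 : PowerSeries.coeff 1 A = -d / 2 := by
    simp [hA, PowerSeries.coeff_rescale, bernoulli'PowerSeries, bernoulli'_one]
    ring
  have hA2 : PowerSeries.coeff 2 A = d ^ 2 / 12 := by
    simp [hA, PowerSeries.coeff_rescale, bernoulli'PowerSeries, bernoulli'_two, Nat.factorial]
    ring
  have hA3 : PowerSeries.coeff 3 A = 0 := by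
    simp [hA, PowerSeries.coeff_rescale, bernoulli'PowerSeries, bernoulli'_three]
  have hinv : A * A⁻¹ = 1 := PowerSeries.mul_inv_cancel A (by
    rw [← PowerSeries.coeff_zero_eq_constantCoeff_apply, hA0]; norm_num)
  have hI0 : PowerSeries.coeff 0 A⁻¹ = 1 := by
    have := congrArg (PowerSeries.coeff 0) hinv
    rw [coeff_zero_mul', hA0, one_mul] at this
    simpa using this
  have hI1 : PowerSeries.coeff 1 A⁻¹ = d / 2 := by
    have := congrArg (PowerSeries.coeff 1) hinv
    rw [coeff_one_mul', hA0, hA1, hI0, one_mul] at this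
    simp at this
    linarith
  have hI2 : PowerSeries.coeff 2 A⁻¹ = d ^ 2 / 6 := by
    have := congrArg (PowerSeries.coeff 2) hinv
    rw [coeff_two_mul', hA0, hA1, hA2, hI0, hI1, one_mul] at this
    simp at this
    linear_combination this
  have hI3 : PowerSeries.coeff 3 A⁻¹ = d ^ 3 / 24 := by
    have := congrArg (PowerSeries.coeff 3) hinv
    rw [coeff_three_mul', hA0, hA1, hA2, hA3, hI0, hI1, hI2, one_mul] at this
    simp at this
    linear_combination this
  exact ⟨hI0, hI1, hI2, hI3⟩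

theorem result (d p : ℕ) :
    PowerSeries.coeff 3 ((PowerSeries.rescale (-(d : ℚ)) (bernoulli'PowerSeries ℚ))⁻¹ * PowerSeries.rescale (-((d : ℚ) * p)) (bernoulli'PowerSeries ℚ) * bernoulli'PowerSeries ℚ ^ (4) * PowerSeries.rescale ((d : ℚ) * p - d - 3) (PowerSeries.exp ℚ)) =
      -((d : ℚ) * (d + 2) * (p - 1) * (d * p - d - 2)) / 24 := by
  obtain ⟨hI0, hI1, hI2, hI3⟩ := inv_coeffs (d : ℚ)
  rw [show bernoulli'PowerSeries ℚ ^ 4 = bernoulli'PowerSeries ℚ * bernoulli'PowerSeries ℚ *
    bernoulli'PowerSeries ℚ * bernoulli'PowerSeries ℚ by ring]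
  simp only [coeff_three_mul', coeff_two_mul', coeff_one_mul', coeff_zero_mul', hI0, hI1, hI2, hI3]
  simp [PowerSeries.coeff_rescale, bernoulli'PowerSeries, bernoulli'_one, bernoulli'_two,
    bernoulli'_three, PowerSeries.coeff_exp, Nat.factorial]
  ring

end Groth.Agent.S17715
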