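import Groth.Statements.S17716
import Groth.Agent.S17715
-- import your own Groth.Agent.* helpers here

set_option autoImplicit false
open MoretBailly

namespace Groth.Agent.S17716

/-- Write B(x) = x/(1 - e^(-x)) for the exponential generating series of the Bernoulli numbers (B'_1 =
1/2). For natural numbers d ≥ 1 and p ≥ 4 the coefficient of x^3 in B(-dx)^(-1) B(-dpx) B(x)^4
e^((dp-d-3)x) (the case n = 3, s = 1 of the Todd-class integrand) is strictly negative. The
published argument needs only primes p ≥ 7; this row covers every natural p ≥ 4. -/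
theorem result (d p : ℕ) (hd : 1 ≤ d) (hp : 4 ≤ p) :
    PowerSeries.coeff 3 ((PowerSeries.rescale (-(d : ℚ)) (bernoulli'PowerSeries ℚ))⁻¹ * PowerSeries.rescale (-((d : ℚ) * p)) (bernoulli'PowerSeries ℚ) * bernoulli'PowerSeries ℚ ^ (4) * PowerSeries.rescale ((d : ℚ) * p - d - 3) (PowerSeries.exp ℚ)) < 0 := by
  rw [Groth.Agent.S17715.result d p]
  have hd' : (1 : ℚ) ≤ d := by exact_mod_cast hd
  have hp' : (4 : ℚ) ≤ p := by exact_mod_cast hp
  have h1 : (0 : ℚ) < (d : ℚ) * (d + 2) := by positivity
  have h2 : (0 : ℚ) < (p : ℚ) - 1 := by linarith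
  have h3 : (0 : ℚ) < (d : ℚ) * p - d - 2 := by nlinarith
  have : (0 : ℚ) < (d : ℚ) * (d + 2) * (p - 1) * (d * p - d - 2) := by positivity
  linarith

end Groth.Agent.S17716
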