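import Groth.Statements.S17717
-- import your own Groth.Agent.* helpers here

set_option autoImplicit false
open MoretBailly

namespace Groth.Agent.S17717

/-- Write B(x) = x/(1 - e^(-x)) for the exponential generating series of the Bernoulli numbers (B'_1 =
1/2). For all natural numbers d, p and every integer s the coefficient of x in B(-dx)^(-1) B(-dpx)
B(x)^2 e^((dp-d-2+s)x), i.e. the case n = 1 of the Todd-class integrand, equals d(p-1)/2 + s - 1. -/
theorem coeff_one_mul' (f g : PowerSeries ℚ) :
    PowerSeries.coeff 1 (f * g) =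
      PowerSeries.coeff 0 f * PowerSeries.coeff 1 g + PowerSeries.coeff 1 f * PowerSeries.coeff 0 g := by
  rw [PowerSeries.coeff_mul]
  simp [Finset.Nat.sum_antidiagonal_succ]

theorem coeff_zero_mul' (f g : PowerSeries ℚ) :
    PowerSeries.coeff 0 (f * g) = PowerSeries.coeff 0 f * PowerSeries.coeff 0 g := by
  rw [PowerSeries.coeff_mul]
  simp

theorem result (d p : ℕ) (s : ℤ) :
    PowerSeries.coeff 1 ((PowerSeries.rescale (-(d : ℚ)) (bernoulli'PowerSeries ℚ))⁻¹ * PowerSeries.rescale (-((d : ℚ) * p)) (bernoulli'PowerSeries ℚ) * bernoulli'PowerSeries ℚ ^ (2) * PowerSeries.rescale ((d : ℚ) * p - d - 2 + s) (PowerSeries.exp ℚ)) =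
      (d : ℚ) * (p - 1) / 2 + s - 1 := by
  set A := PowerSeries.rescale (-(d : ℚ)) (bernoulli'PowerSeries ℚ) with hA
  have hA0 : PowerSeries.coeff 0 A = 1 := by
    simp [hA, PowerSeries.coeff_rescale, bernoulli'PowerSeries]
  have hA1 : PowerSeries.coeff 1 A = -(d : ℚ) / 2 := by
    simp [hA, PowerSeries.coeff_rescale, bernoulli'PowerSeries, bernoulli'_one]
    ring
  have hinv : A * A⁻¹ = 1 := PowerSeries.mul_inv_cancel A (by
    rw [← PowerSeries.coeff_zero_eq_constantCoeff_apply, hA0]; norm_num)
  have hI0 : PowerSeries.coeff 0 A⁻¹ = 1 := by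
    have := congrArg (PowerSeries.coeff 0) hinv
    rw [coeff_zero_mul', hA0, one_mul] at this
    simpa using this
  have hI1 : PowerSeries.coeff 1 A⁻¹ = (d : ℚ) / 2 := by
    have := congrArg (PowerSeries.coeff 1) hinv
    rw [coeff_one_mul', hA0, hA1, hI0, one_mul] at this
    simp at this
    linarith
  simp only [coeff_one_mul', coeff_zero_mul', pow_two, hI0, hI1]
  simp [PowerSeries.coeff_rescale, bernoulli'PowerSeries, bernoulli'_one, PowerSeries.coeff_exp]
  ring

end Groth.Agent.S17717
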