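import Groth.Statements.S17722
import Mathlib.RingTheory.Flat.FaithfullyFlat.Algebra
-- import your own Groth.Agent.* helpers here

set_option autoImplicit false
universe u
open CAlg

namespace Groth.Agent.S17722

/-- Let R → R' be a faithfully flat ring map between Noetherian integrally closed local domains, and p
an ideal of R. If the ideal pR' generated by the image of p is principal, then p is principal. (The
second assertion of the published lemma, descent of unique factorization, is not part of this row.) -/
theorem result
    (R R' : Type u) [CommRing R] [CommRing R'] [IsDomain R] [IsDomain R']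
    [IsNoetherianRing R] [IsNoetherianRing R'] [IsLocalRing R] [IsLocalRing R']
    [IsIntegrallyClosed R] [IsIntegrallyClosed R']
    [Algebra R R'] [Module.FaithfullyFlat R R']
    (p : Ideal R) (hp : (p.map (algebraMap R R')).IsPrincipal) :
    p.IsPrincipal := by
  obtain ⟨⟨a, ha⟩⟩ := hp
  change p.map (algebraMap R R') = Ideal.span {a} at ha
  by_cases ha0 : a = 0
  · subst ha0
    have h1 : p.map (algebraMap R R') = (⊥ : Ideal R).map (algebraMap R R') := by
      rw [Ideal.map_bot, ha, Ideal.span_singleton_eq_bot]
    have h2 := Ideal.map_injective_of_faithfullyFlat (B := R') h1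
    rw [h2]
    exact bot_isPrincipal
  by_cases hex : ∃ x ∈ p, ∃ s : R', IsUnit s ∧ algebraMap R R' x = a * s
  · obtain ⟨x, hx, s, hs, hxs⟩ := hex
    refine ⟨⟨x, ?_⟩⟩
    change p = Ideal.span {x}
    apply Ideal.map_injective_of_faithfullyFlat (B := R')
    rw [ha, Ideal.map_span, Set.image_singleton, hxs]
    exact (Ideal.span_singleton_mul_right_unit hs a).symm
  · push Not at hex
    exfalso
    have hle : p.map (algebraMap R R') ≤ Ideal.span {a} * IsLocalRing.maximalIdeal R' := by
      rw [Ideal.map_le_iff_le_comap]
      intro x hx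
      have hxa : algebraMap R R' x ∈ Ideal.span {a} := ha ▸ Ideal.mem_map_of_mem _ hx
      obtain ⟨s, hs⟩ := Ideal.mem_span_singleton'.mp hxa
      rw [Ideal.mem_comap, Ideal.mem_span_singleton_mul]
      refine ⟨s, ?_, by rw [mul_comm]; exact hs⟩
      rw [IsLocalRing.mem_maximalIdeal, mem_nonunits_iff]
      intro hu
      exact hex x hx s hu (by rw [← hs, mul_comm])
    have hmem : a ∈ Ideal.span {a} * IsLocalRing.maximalIdeal R' :=
      hle (ha ▸ Ideal.mem_span_singleton_self a)
    obtain ⟨z, hz, hza⟩ := Ideal.mem_span_singleton_mul.mp hmem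
    have hz1 : z = 1 := mul_left_cancel₀ ha0 (by rw [hza, mul_one])
    rw [IsLocalRing.mem_maximalIdeal, mem_nonunits_iff] at hz
    exact hz (hz1 ▸ isUnit_one)

end Groth.Agent.S17722
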