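import Groth.Statements.S17779
import Mathlib.Algebra.Group.ForwardDiff
import Mathlib.Tactic.LinearCombination
-- import your own Groth.Agent.* helpers here

set_option autoImplicit false
open DRR

namespace Groth.Agent.S17779

open Finset in
/-- The alternating sum as an iterated forward difference at `0`. -/
theorem altSum_eq_fwdDiff (n k : ℕ) :
    (∑ j ∈ Finset.range (n + 1), (-1 : ℤ) ^ (n - j) * (n.choose j : ℤ) * (j : ℤ) ^ k) =
      (fwdDiff (1 : ℤ))^[n] (fun r : ℤ => r ^ k) 0 := by
  rw [fwdDiff_iter_eq_sum_shift]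
  refine Finset.sum_congr rfl fun j _ => ?_
  simp

open Finset in
theorem fwdDiff_pow_succ_recursion (n k : ℕ) :
    (fwdDiff (1 : ℤ))^[n + 1] (fun r : ℤ => r ^ k) 0 =
      ∑ i ∈ range k, (k.choose i : ℤ) * (fwdDiff (1 : ℤ))^[n] (fun r : ℤ => r ^ i) 0 := by
  have : (fwdDiff (1 : ℤ) fun (r : ℤ) ↦ r ^ k) = ∑ i ∈ range k, k.choose i • fun r : ℤ ↦ r ^ i := by
    ext x
    simp [nsmul_eq_mul, fwdDiff, add_pow, sum_range_succ, mul_comm]
  rw [Function.iterate_succ_apply, this, fwdDiff_iter_finsetSum, Finset.sum_apply]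
  refine Finset.sum_congr rfl fun i _ => ?_
  rw [fwdDiff_iter_const_smul, Pi.smul_apply, nsmul_eq_mul]

theorem fwdDiff_pow_self_succ (n : ℕ) :
    (fwdDiff (1 : ℤ))^[n] (fun r : ℤ => r ^ (n + 1)) 0 =
      ((n + 1).choose 2 : ℤ) * (n.factorial : ℤ) := by
  induction n with
  | zero => simp
  | succ n ih =>
    rw [fwdDiff_pow_succ_recursion, Finset.sum_range_succ, Finset.sum_range_succ, ih,
      fwdDiff_iter_eq_factorial]
    rw [Finset.sum_eq_zero (fun i hi => by
      rw [fwdDiff_iter_pow_eq_zero_of_lt (Finset.mem_range.1 hi)]; simp)]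
    have h1 : ((n + 1).choose 2 : ℤ) * 2 = (n + 1) * n := by
      have := Nat.add_one_mul_choose_eq n 1
      rw [Nat.choose_one_right] at this
      exact_mod_cast this.symm
    have h2 : ((n + 1 + 1).choose 2 : ℤ) = (n + 1) + ((n + 1).choose 2 : ℤ) := by
      rw [Nat.choose_succ_succ, Nat.choose_one_right]; push_cast; ring
    have h3 : ((n + 1 + 1).choose n : ℤ) = ((n + 1 + 1).choose 2 : ℤ) := by
      rw [Nat.choose_symm_of_eq_add]; omega
    have h4 : ((n + 1 + 1).choose (n + 1) : ℤ) = n + 2 := by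
      rw [Nat.choose_succ_self_right]; push_cast; ring
    simp only [Pi.natCast_apply, Nat.factorial_succ]
    rw [h3, h4, h2]
    push_cast
    linear_combination (↑n.factorial : ℤ) * h1


/-- For natural numbers n and k with k ≤ n + 1, the alternating sum over j = 0, …, n of (−1)^(n−j) C(n,
j) j^k (with the convention 0^0 = 1) equals n! · n(n+1)/2 when k = n + 1, equals n! when k = n, and
vanishes when k < n. (The published statement takes n ≥ 1 and divides through by n!; the case n = 0
holds as well and is included.) -/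
theorem result (n k : ℕ) (hk : k ≤ n + 1) :
    (∑ j ∈ Finset.range (n + 1), (-1 : ℤ) ^ (n - j) * (n.choose j : ℤ) * (j : ℤ) ^ k) =
      (if k = n + 1 then (((n + 1).choose 2 * n.factorial : ℕ) : ℤ)
        else if k = n then (n.factorial : ℤ) else 0) := by
  rw [altSum_eq_fwdDiff]
  split_ifs with h1 h2
  · subst h1
    rw [fwdDiff_pow_self_succ]; push_cast; ring
  · subst h2
    rw [fwdDiff_iter_eq_factorial]; simp
  · have : k < n := by omega
    rw [fwdDiff_iter_pow_eq_zero_of_lt this]; rfl

end Groth.Agent.S17779
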