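import Groth.Statements.S17780
import Groth.Agent.S17779
-- import your own Groth.Agent.* helpers here

set_option autoImplicit false
universe u
open DRR

namespace Groth.Agent.S17780

/-- For x, y in a commutative ring and a natural number n, (n+1)! · x · y^n equals the sum over j = 0,
…, n of (−1)^(n−j) C(n, j) (x + j y)^(n+1), minus (n · (n+1)!/2) · y^(n+1). (The published identity
is stated in ℚ[x, y] with an overall factor 1/(n+1) and the coefficients C(n, j)(−1)^(n−j)/n!; it is
given here multiplied through by (n+1)!, which makes it an identity with integer coefficients valid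
in every commutative ring; n · (n+1)!/2 is an integer.) -/
theorem result (A : Type u) [CommRing A] (x y : A) (n : ℕ) :
    ((n + 1).factorial : A) * x * y ^ n =
      (∑ j ∈ Finset.range (n + 1), (-1 : A) ^ (n - j) * (n.choose j : A) * (x + (j : A) * y) ^ (n + 1))
        - ((n * (n + 1).factorial / 2 : ℕ) : A) * y ^ (n + 1) := by
  have hT : ∀ m : ℕ, m ≤ n + 1 →
      (∑ j ∈ Finset.range (n + 1), (-1 : A) ^ (n - j) * (n.choose j : A) * (j : A) ^ m) =
        ((if m = n + 1 then (((n + 1).choose 2 * n.factorial : ℕ) : ℤ)
          else if m = n then (n.factorial : ℤ) else 0 : ℤ) : A) := by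
    intro m hm
    rw [← Groth.Agent.S17779.result n m hm]
    push_cast
    rfl
  have hexp : (∑ j ∈ Finset.range (n + 1), (-1 : A) ^ (n - j) * (n.choose j : A) *
      (x + (j : A) * y) ^ (n + 1)) =
      ∑ k ∈ Finset.range (n + 1 + 1), x ^ k * y ^ (n + 1 - k) * ((n + 1).choose k : A) *
        (∑ j ∈ Finset.range (n + 1), (-1 : A) ^ (n - j) * (n.choose j : A) * (j : A) ^ (n + 1 - k)) := by
    simp_rw [add_pow, Finset.mul_sum]
    rw [Finset.sum_comm]
    refine Finset.sum_congr rfl fun k _ => Finset.sum_congr rfl fun j _ => ?_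
    rw [mul_pow]; ring
  rw [hexp]
  rw [Finset.sum_congr rfl (fun k hk => by rw [hT (n + 1 - k) (by omega)])]
  rw [Finset.sum_range_succ', Finset.sum_range_succ']
  rw [Finset.sum_eq_zero (fun i hi => by
    have hi' := Finset.mem_range.1 hi
    rw [if_neg (by omega), if_neg (by omega)]; simp)]
  have e1 : n + 1 - (0 + 1) = n := by omega
  simp only [e1, Nat.sub_zero, if_true, zero_add, pow_zero, pow_one, one_mul, Nat.choose_zero_right,
    Nat.choose_one_right, if_neg (show n ≠ n + 1 by omega), Nat.cast_one, mul_one]
  have hdiv : n * (n + 1).factorial / 2 = (n + 1).choose 2 * n.factorial := by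
    have h1 := Nat.add_one_mul_choose_eq n 1
    rw [Nat.choose_one_right] at h1
    apply Nat.div_eq_of_eq_mul_left (by norm_num)
    rw [Nat.factorial_succ]
    calc n * ((n + 1) * n.factorial) = ((n + 1) * n) * n.factorial := by ring
      _ = ((n + 1).choose 2 * (1 + 1)) * n.factorial := by rw [h1]
      _ = (n + 1).choose 2 * n.factorial * 2 := by ring
  rw [hdiv, Nat.factorial_succ]
  push_cast
  ring

end Groth.Agent.S17780
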