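import Groth.Statements.S17825
-- import your own Groth.Agent.* helpers here

set_option autoImplicit false
universe u
open CategoryTheory CategoryTheory.Limits AlgebraicGeometry
open JacVar

namespace Groth.Agent.S17825

/-- Let S be a scheme, Y an S-scheme separated over S, F a presheaf of sets on the category of
S-schemes, f : h_Y ⟶ F a morphism from the functor of points of Y, and s : F ⟶ h_Y a section of f (s
followed by f is the identity). Then F is represented by a closed subscheme of Y: there are an
S-scheme Z, a morphism i : Z ⟶ Y over S which is a closed immersion, and an isomorphism F ≅ h_Z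
whose composite with h_i : h_Z ⟶ h_Y is s. (The published lemma treats the case where Y is the r-th
symmetric power of a curve, F the functor of degree-r invertible families modulo twisting and f the
divisor-class map.) -/
theorem result {S : Scheme.{u}} (Y : Over S) [IsSeparated Y.hom]
    (F : (Over S)ᵒᵖ ⥤ Type u) (f : yoneda.obj Y ⟶ F) (s : F ⟶ yoneda.obj Y) (hsf : s ≫ f = 𝟙 F) :
    ∃ (Z : Over S) (i : Z ⟶ Y), IsClosedImmersion i.left ∧
      ∃ e : F ≅ yoneda.obj Z, e.hom ≫ yoneda.map i = s := by
  obtain ⟨ε, hε⟩ : ∃ ε : Y ⟶ Y, yoneda.map ε = f ≫ s :=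
    ⟨yoneda.preimage (f ≫ s), yoneda.map_preimage _⟩
  have hsf' : ∀ (T : (Over S)ᵒᵖ) (x : F.obj T), f.app T (s.app T x) = x := by
    intro T x
    have h2 := congrArg (fun φ => φ.app T x) hsf
    simpa using h2
  have hfs : ∀ (T : (Over S)ᵒᵖ) (y : T.unop ⟶ Y), s.app T (f.app T y) = y ≫ ε := by
    intro T y
    have h1 := congrArg (fun φ => φ.app T y) hε
    simpa using h1.symm
  have hsε : ∀ (T : (Over S)ᵒᵖ) (x : F.obj T), s.app T x ≫ ε = s.app T x := by
    intro T x
    rw [← hfs, hsf']
  have hεw : ε.left ≫ Y.hom = Y.hom := Over.w ε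
  let γ : Y.left ⟶ pullback Y.hom Y.hom := pullback.lift (𝟙 _) ε.left (by simp [hεw])
  have : IsClosedImmersion (pullback.diagonal Y.hom) := IsSeparated.isClosedImmersion_diagonal
  let i₀ : pullback (pullback.diagonal Y.hom) γ ⟶ Y.left := pullback.snd _ _
  have hi₀ : IsClosedImmersion i₀ := inferInstance
  have hi₀mono : Mono i₀ := inferInstance
  have hi₀ε : i₀ ≫ ε.left = i₀ := by
    have hc := pullback.condition (f := pullback.diagonal Y.hom) (g := γ)
    have h1 := congrArg (· ≫ pullback.fst Y.hom Y.hom) hc
    have h2 := congrArg (· ≫ pullback.snd Y.hom Y.hom) hc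
    simp only [Category.assoc, pullback.diagonal_fst, pullback.diagonal_snd, Category.comp_id,
      γ, pullback.lift_fst, pullback.lift_snd] at h1 h2
    rw [← h2, h1]
  have hlift : ∀ {T : Scheme.{u}} (a : T ⟶ Y.left), a ≫ ε.left = a →
      ∃ b : T ⟶ pullback (pullback.diagonal Y.hom) γ, b ≫ i₀ = a := by
    intro T a ha
    refine ⟨pullback.lift a a ?_, pullback.lift_snd _ _ _⟩
    apply pullback.hom_ext <;> simp only [Category.assoc, pullback.diagonal_fst,
      pullback.diagonal_snd, Category.comp_id, γ, pullback.lift_fst, pullback.lift_snd, ha]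
  let Z : Over S := Over.mk (i₀ ≫ Y.hom)
  let i : Z ⟶ Y := Over.homMk i₀ rfl
  refine ⟨Z, i, hi₀, ?_⟩
  have hiε : i ≫ ε = i := by
    ext
    exact hi₀ε
  have imono : ∀ {T : Over S} (z₁ z₂ : T ⟶ Z), z₁ ≫ i = z₂ ≫ i → z₁ = z₂ := by
    intro T z₁ z₂ h
    ext
    have := congrArg CommaMorphism.left h
    simp only [Over.comp_left, i, Over.homMk_left] at this
    exact (cancel_mono i₀).mp this
  have hliftO : ∀ {T : Over S} (a : T ⟶ Y), a ≫ ε = a → ∃ b : T ⟶ Z, b ≫ i = a := by
    intro T a ha
    obtain ⟨b, hb⟩ := hlift a.left (by rw [← Over.comp_left, ha])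
    refine ⟨Over.homMk b ?_, ?_⟩
    · simp only [Z, Over.mk_hom]
      rw [← Category.assoc, hb]
      exact Over.w a
    · ext
      simp [i, hb]
  choose lift hlift_spec using fun (T : (Over S)ᵒᵖ) (x : F.obj T) => hliftO (s.app T x) (hsε T x)
  let eqv : ∀ T : (Over S)ᵒᵖ, F.obj T ≃ (T.unop ⟶ Z) := fun T =>
    { toFun := fun x => lift T x
      invFun := fun z => f.app T (z ≫ i)
      left_inv := fun x => by
        simp only
        rw [hlift_spec, hsf']
      right_inv := fun z => by
        simp only
        apply imono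
        rw [hlift_spec, hfs, Category.assoc, hiε] }
  let e : F ≅ yoneda.obj Z := NatIso.ofComponents (fun T => (eqv T).toIso)
    (by
      intro T T' g
      ext x
      change lift T' (F.map g x) = g.unop ≫ lift T x
      apply imono
      rw [hlift_spec, Category.assoc, hlift_spec]
      have hn := congrArg (fun φ => φ x) (s.naturality g)
      simp only [types_comp_apply, yoneda_obj_map] at hn
      exact hn)
  refine ⟨e, ?_⟩
  ext T x
  simp [e, eqv, hlift_spec]

end Groth.Agent.S17825
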