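import Groth.Statements.S17843
import Mathlib.Algebra.Polynomial.Lifts
import Mathlib.Tactic.Ring
-- import your own Groth.Agent.* helpers here

set_option autoImplicit false
universe u v
open CAlg

namespace Groth.Agent.S17843

open Polynomial

lemma coeff_resc {S : Type*} [CommRing S] (s : S) (p : S[X]) (j : ℕ) :
    (aeval (C s * X) p).coeff j = p.coeff j * s ^ j := by
  rw [← comp_eq_aeval, comp_C_mul_X_coeff]

lemma resc_resc {S : Type*} [CommRing S] (a b : S) (p : S[X]) :
    aeval (C a * X) (aeval (C b * X) p) = aeval (C (b * a) * X) p := by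
  ext j
  simp only [coeff_resc, mul_pow]
  ring

lemma map_resc {R S : Type*} [CommRing R] [CommRing S] (ι : R →+* S) (c : R) (Y : R[X]) :
    (aeval (C c * X) Y).map ι = aeval (C (ι c) * X) (Y.map ι) := by
  ext j
  simp only [coeff_map, coeff_resc, map_mul, map_pow]

lemma exists_lift (R : Type u) [CommRing R] (r : R) (P : (Localization.Away r)[X]) (a : R)
    (ha : P.coeff 0 = algebraMap R (Localization.Away r) a) :
    ∃ e : ℕ, ∀ n ≥ e, ∃ Y : R[X], Y.coeff 0 = a ∧
      Y.map (algebraMap R (Localization.Away r)) =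
        aeval (C (algebraMap R (Localization.Away r) (r ^ n)) * X) P := by
  set ι := algebraMap R (Localization.Away r) with hι
  have hsurj : ∀ j, ∃ e : ℕ, ∃ b : R, P.coeff j * ι (r ^ e) = ι b := by
    intro j
    obtain ⟨⟨b, ⟨_, ⟨e, rfl⟩⟩⟩, h⟩ := IsLocalization.surj (Submonoid.powers r) (P.coeff j)
    exact ⟨e, b, h⟩
  choose e b hb using hsurj
  refine ⟨(Finset.range (P.natDegree + 1)).sup e, fun n hn => ?_⟩
  have hlifts : aeval (C (ι (r ^ n)) * X) P ∈ Polynomial.lifts ι := by
    rw [Polynomial.lifts_iff_coeff_lifts]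
    intro j
    rw [coeff_resc]
    rcases Nat.eq_zero_or_pos j with rfl | hj
    · exact ⟨a, by simp [ha]⟩
    · by_cases hjd : j ≤ P.natDegree
      · have hej : e j ≤ n := le_trans (Finset.le_sup (Finset.mem_range.mpr (by omega))) hn
        have hej' : e j ≤ n * j := le_trans hej (Nat.le_mul_of_pos_right n hj)
        refine ⟨r ^ (n * j - e j) * b j, ?_⟩
        rw [map_mul, ← hb j, map_pow, map_pow, map_pow, ← pow_mul]
        conv_rhs => rw [show n * j = (n * j - e j) + e j from (Nat.sub_add_cancel hej').symm]
        rw [pow_add]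
        ring
      · push Not at hjd
        rw [Polynomial.coeff_eq_zero_of_natDegree_lt hjd, zero_mul]
        exact ⟨0, map_zero ι⟩
  obtain ⟨Y₁, hY₁⟩ := (Polynomial.mem_lifts _).mp hlifts
  refine ⟨Y₁ - C (Y₁.coeff 0) + C a, by simp, ?_⟩
  rw [Polynomial.map_add, Polynomial.map_sub, Polynomial.map_C, Polynomial.map_C, hY₁]
  have h0 : ι (Y₁.coeff 0) = ι a := by
    rw [← Polynomial.coeff_map, hY₁, coeff_resc, pow_zero, mul_one, ha]
  rw [h0]
  ring

lemma exists_kill (R : Type u) [CommRing R] (r : R) (G : R[X]) (h0 : G.coeff 0 = 0)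
    (hG : G.map (algebraMap R (Localization.Away r)) = 0) :
    ∃ t : ℕ, ∀ m ≥ t, aeval (C (r ^ m) * X) G = 0 := by
  have hker : ∀ j, ∃ t : ℕ, r ^ t * G.coeff j = 0 := by
    intro j
    have : algebraMap R (Localization.Away r) (G.coeff j) = 0 := by
      rw [← Polynomial.coeff_map, hG, Polynomial.coeff_zero]
    obtain ⟨⟨_, ⟨t, rfl⟩⟩, ht⟩ :=
      (IsLocalization.map_eq_zero_iff (Submonoid.powers r) _ _).mp this
    exact ⟨t, ht⟩
  choose t ht using hker
  refine ⟨(Finset.range (G.natDegree + 1)).sup t, fun m hm => ?_⟩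
  ext j
  rw [coeff_resc, Polynomial.coeff_zero]
  rcases Nat.eq_zero_or_pos j with rfl | hj
  · rw [h0, zero_mul]
  · by_cases hjd : j ≤ G.natDegree
    · have htj : t j ≤ m := le_trans (Finset.le_sup (Finset.mem_range.mpr (by omega))) hm
      have htj' : t j ≤ m * j := le_trans htj (Nat.le_mul_of_pos_right m hj)
      rw [← pow_mul, show m * j = (m * j - t j) + t j from (Nat.sub_add_cancel htj').symm,
        pow_add, mul_comm, mul_assoc, ht j, mul_zero]
    · push Not at hjd
      rw [Polynomial.coeff_eq_zero_of_natDegree_lt hjd, zero_mul]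


/-- In the case of an affine scheme of finite presentation, let B be a finitely presented R-algebra, r ∈
R, and x : B → R[1/r][T] an R-algebra homomorphism whose value at T = 0, a homomorphism B → R[1/r],
is induced by a homomorphism x̃₀ : B → R. Then for every large enough n, the homomorphism x(rⁿT) : B
→ R[1/r][T] is induced by a homomorphism x̃ : B → R[T] whose value at T = 0 is x̃₀. The published
statement is for algebraic spaces locally of finite presentation over R; this row takes an affine
scheme of finite presentation. -/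
theorem result
    (R : Type u) (B : Type v) [CommRing R] [CommRing B] [Algebra R B]
    [Algebra.FinitePresentation R B] (r : R)
    (x : B →ₐ[R] Polynomial (Localization.Away r))
    (x₀ : B →ₐ[R] R)
    (hx₀ : (algebraMap R (Localization.Away r)).comp x₀.toRingHom =
      (Polynomial.evalRingHom 0).comp x.toRingHom) :
    ∃ N : ℕ, ∀ n : ℕ, N ≤ n →
      ∃ y : B →ₐ[R] Polynomial R,
        (Polynomial.evalRingHom 0).comp y.toRingHom = x₀.toRingHom ∧
        (Polynomial.mapRingHom (algebraMap R (Localization.Away r))).comp y.toRingHom =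
          (Polynomial.aeval (Polynomial.C (algebraMap R (Localization.Away r) (r ^ n)) * Polynomial.X) :
              Polynomial (Localization.Away r) →ₐ[Localization.Away r] Polynomial (Localization.Away r)).toRingHom.comp
            x.toRingHom := by
  obtain ⟨k, f, hf, hfg⟩ := Algebra.FinitePresentation.out (R := R) (A := B)
  obtain ⟨s, hs⟩ := hfg
  set ι := algebraMap R (Localization.Away r) with hι
  let P : Fin k → (Localization.Away r)[X] := fun i => x (f (MvPolynomial.X i))
  let a : Fin k → R := fun i => x₀ (f (MvPolynomial.X i))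
  have hP0 : ∀ i, (P i).coeff 0 = ι (a i) := by
    intro i
    have := congrArg (fun φ => φ (f (MvPolynomial.X i))) hx₀
    simp only [RingHom.comp_apply, AlgHom.toRingHom_eq_coe, RingHom.coe_coe,
      Polynomial.coe_evalRingHom] at this
    rw [Polynomial.coeff_zero_eq_eval_zero]
    exact this.symm
  choose e he using fun i => exists_lift R r (P i) (a i) (hP0 i)
  set N₁ := Finset.univ.sup e with hN₁
  choose Y hY0 hYmap using fun i => he i N₁ (Finset.le_sup (Finset.mem_univ i))
  have hxf : ((Polynomial.aeval (C (ι (r ^ N₁)) * X) :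
      (Localization.Away r)[X] →ₐ[Localization.Away r] (Localization.Away r)[X]).restrictScalars
        R).comp (x.comp f) = (Polynomial.mapAlg R (Localization.Away r)).comp
          (MvPolynomial.aeval Y) := by
    apply MvPolynomial.algHom_ext
    intro i
    simp only [AlgHom.comp_apply, AlgHom.coe_restrictScalars', MvPolynomial.aeval_X,
      Polynomial.mapAlg_eq_map]
    rw [hYmap i]
  have hG : ∀ g : s, ∃ t : ℕ, ∀ m ≥ t,
      aeval (C (r ^ m) * X) (MvPolynomial.aeval Y (g : MvPolynomial (Fin k) R)) = 0 := by
    intro g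
    have hgker : f g = 0 := by
      have : (g : MvPolynomial (Fin k) R) ∈ RingHom.ker f.toRingHom := hs ▸ Ideal.subset_span g.2
      simpa using this
    apply exists_kill R r
    · rw [Polynomial.coeff_zero_eq_eval_zero]
      have h1 : (Polynomial.aeval (0 : R)).comp (MvPolynomial.aeval Y) = x₀.comp f := by
        apply MvPolynomial.algHom_ext
        intro i
        simp only [AlgHom.comp_apply, MvPolynomial.aeval_X, Polynomial.coe_aeval_eq_eval]
        rw [← Polynomial.coeff_zero_eq_eval_zero, hY0 i]
      have := congrArg (fun φ => φ (g : MvPolynomial (Fin k) R)) h1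
      simp only [AlgHom.comp_apply, hgker, map_zero, Polynomial.coe_aeval_eq_eval] at this
      exact this
    · have := congrArg (fun φ => φ (g : MvPolynomial (Fin k) R)) hxf
      simp only [AlgHom.comp_apply, hgker, map_zero, Polynomial.mapAlg_eq_map] at this
      exact this.symm
  choose t ht using hG
  refine ⟨N₁ + Finset.univ.sup t, fun n hn => ?_⟩
  set m := n - N₁ with hm
  have hmT : Finset.univ.sup t ≤ m := by omega
  have hnm : n = N₁ + m := by omega
  let Y' : Fin k → R[X] := fun i => aeval (C (r ^ m) * X) (Y i)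
  let ψ : MvPolynomial (Fin k) R →ₐ[R] R[X] := MvPolynomial.aeval Y'
  have hψ : ψ = (Polynomial.aeval (C (r ^ m) * X) : R[X] →ₐ[R] R[X]).comp
      (MvPolynomial.aeval Y) := by rw [MvPolynomial.comp_aeval]
  have hψker : ∀ p ∈ RingHom.ker f, ψ p = 0 := by
    intro p hp
    have hp' : p ∈ Ideal.span (s : Set (MvPolynomial (Fin k) R)) := by
      rw [hs]
      exact hp
    refine Submodule.span_induction (fun g hg => ?_) (map_zero ψ) (fun a b _ _ ha hb => ?_)
      (fun c a _ ha => ?_) hp'
    · rw [hψ, AlgHom.comp_apply]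
      exact ht ⟨g, hg⟩ m (le_trans (Finset.le_sup (Finset.mem_univ _)) hmT)
    · rw [map_add, ha, hb, add_zero]
    · rw [smul_eq_mul, map_mul, ha, mul_zero]
  let y : B →ₐ[R] R[X] := (Ideal.Quotient.liftₐ (RingHom.ker f) ψ hψker).comp
    (Ideal.quotientKerAlgEquivOfSurjective hf).symm.toAlgHom
  have hyf : ∀ p, y (f p) = ψ p := by
    intro p
    show Ideal.Quotient.liftₐ _ ψ hψker ((Ideal.quotientKerAlgEquivOfSurjective hf).symm (f p)) = ψ p
    rw [Ideal.quotientKerAlgEquivOfSurjective_symm_apply]
    rfl
  refine ⟨y, ?_, ?_⟩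
  · have h1 : (Polynomial.aeval (0 : R)).comp ψ = x₀.comp f := by
      apply MvPolynomial.algHom_ext
      intro i
      simp only [AlgHom.comp_apply, MvPolynomial.aeval_X, Polynomial.coe_aeval_eq_eval, ψ, Y']
      rw [← Polynomial.coeff_zero_eq_eval_zero, coeff_resc, pow_zero, mul_one, hY0 i]
    refine RingHom.ext fun b => ?_
    obtain ⟨p, rfl⟩ := hf b
    have := congrArg (fun φ => φ p) h1
    simp only [AlgHom.comp_apply, Polynomial.coe_aeval_eq_eval] at this
    simp only [RingHom.comp_apply, AlgHom.toRingHom_eq_coe, RingHom.coe_coe,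
      Polynomial.coe_evalRingHom, hyf]
    exact this
  · have h1 : (Polynomial.mapAlg R (Localization.Away r)).comp ψ =
        ((Polynomial.aeval (C (ι (r ^ n)) * X) :
          (Localization.Away r)[X] →ₐ[Localization.Away r] (Localization.Away r)[X]).restrictScalars
            R).comp (x.comp f) := by
      apply MvPolynomial.algHom_ext
      intro i
      simp only [AlgHom.comp_apply, MvPolynomial.aeval_X, Polynomial.mapAlg_eq_map, ψ, Y',
        AlgHom.coe_restrictScalars']
      rw [map_resc, hYmap i, resc_resc, ← map_mul, ← pow_add, ← hnm]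
    refine RingHom.ext fun b => ?_
    obtain ⟨p, rfl⟩ := hf b
    have := congrArg (fun φ => φ p) h1
    simp only [AlgHom.comp_apply, Polynomial.mapAlg_eq_map, AlgHom.coe_restrictScalars'] at this
    simp only [RingHom.comp_apply, AlgHom.toRingHom_eq_coe, RingHom.coe_coe,
      Polynomial.coe_mapRingHom, hyf]
    exact this

end Groth.Agent.S17843
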