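import Groth.Statements.S17872
import Mathlib.Algebra.Polynomial.Roots
import Mathlib.LinearAlgebra.Dual.Lemmas
-- import your own Groth.Agent.* helpers here

set_option autoImplicit false
universe u v
open GRRSing

namespace Groth.Agent.S17872

/-- Let H be a vector space over a field K and let b_0, …, b_l be elements of H. If the sum of the t ^ i
• b_i vanishes for infinitely many scalars t of K, then all the b_i are zero. -/
theorem result {K : Type u} {H : Type v} [Field K] [AddCommGroup H] [Module K H]
    (l : ℕ) (b : Fin (l + 1) → H)
    (h : Set.Infinite {t : K | ∑ i : Fin (l + 1), t ^ (i : ℕ) • b i = 0}) :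
    b = 0 := by
  funext i
  rw [Pi.zero_apply]
  apply (Module.forall_dual_apply_eq_zero_iff K (b i)).mp
  intro φ
  set p : Polynomial K := ∑ j : Fin (l + 1), Polynomial.C (φ (b j)) * Polynomial.X ^ (j : ℕ) with hp
  have hp0 : p = 0 := by
    apply Polynomial.eq_zero_of_infinite_isRoot
    apply h.mono
    intro t ht
    simp only [Set.mem_ofPred_eq] at ht ⊢
    have := congrArg φ ht
    rw [map_sum, map_zero] at this
    simp only [map_smul, smul_eq_mul] at this
    rw [Polynomial.IsRoot, hp, Polynomial.eval_finsetSum]
    simp only [Polynomial.eval_mul, Polynomial.eval_C, Polynomial.eval_pow, Polynomial.eval_X]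
    rw [← this]
    exact Finset.sum_congr rfl (fun j _ => mul_comm _ _)
  have hc := congrArg (fun q => Polynomial.coeff q (i : ℕ)) hp0
  simp only [hp, Polynomial.finsetSum_coeff, Polynomial.coeff_C_mul_X_pow, Polynomial.coeff_zero] at hc
  rw [Finset.sum_eq_single i] at hc
  · simpa using hc
  · intro j _ hj
    rw [if_neg]
    intro h'
    exact hj (Fin.ext h'.symm)
  · intro hi
    exact absurd (Finset.mem_univ i) hi

end Groth.Agent.S17872
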