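import Groth.Statements.S17875
import Mathlib.Tactic.FieldSimp
import Mathlib.Tactic.Ring
-- import your own Groth.Agent.* helpers here

set_option autoImplicit false
universe u
open Polynomial
open GRRSing

namespace Groth.Agent.S17875

/-- Let R be a commutative ℚ-algebra, r an element of R and δ a natural number with (r - 1) ^ (δ + 1) =
0. Write s(k, j) for the signed Stirling numbers of the first kind, the coefficients of x (x - 1) ⋯
(x - k + 1) = Σ_j s(k, j) x ^ j. Then (i) for every natural number n, r ^ n = Σ_{k ≤ δ} [n (n - 1) ⋯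
(n - k + 1) / k!] (r - 1) ^ k; and (ii) in the polynomial ring R[x], Σ_{k ≤ δ} [x (x - 1) ⋯ (x - k +
1) / k!] (r - 1) ^ k = Σ_{j ≤ δ} [Σ_{k ≤ δ} Σ_{u ≤ k} (-1) ^ (k - u) s(k, j) / (u! (k - u)!) · r ^
u] x ^ j. -/
theorem result {R : Type u} [CommRing R] [Algebra ℚ R]
    (r : R) (δ : ℕ) (hr : (r - 1) ^ (δ + 1) = 0) :
    (∀ n : ℕ, r ^ n = ∑ k ∈ Finset.range (δ + 1), ((descPochhammer ℚ k).eval (n : ℚ) / (k.factorial : ℚ)) • (r - 1) ^ k) ∧
    (∑ k ∈ Finset.range (δ + 1), ((k.factorial : ℚ)⁻¹ • (descPochhammer R k * Polynomial.C ((r - 1) ^ k))) =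
      ∑ j ∈ Finset.range (δ + 1), Polynomial.C (∑ k ∈ Finset.range (δ + 1), ∑ u ∈ Finset.range (k + 1),
        (((-1 : ℚ) ^ (k - u) * (((descPochhammer ℤ k).coeff j : ℤ) : ℚ)) / ((u.factorial * (k - u).factorial : ℕ) : ℚ)) • r ^ u) * Polynomial.X ^ j) := by
  classical
  constructor
  · intro n
    have hcoef : ∀ k, ((descPochhammer ℚ k).eval (n : ℚ) / (k.factorial : ℚ)) = (n.choose k : ℚ) := by
      intro k
      rw [descPochhammer_eval_eq_descFactorial, Nat.descFactorial_eq_factorial_mul_choose]
      have : (k.factorial : ℚ) ≠ 0 := by exact_mod_cast Nat.factorial_ne_zero k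
      push_cast
      field_simp
    simp_rw [hcoef]
    have h1 : r ^ n = ∑ k ∈ Finset.range (n + 1), (n.choose k : ℚ) • (r - 1) ^ k := by
      have := add_pow (r - 1) 1 n
      rw [sub_add_cancel] at this
      rw [this]
      refine Finset.sum_congr rfl fun k _ => ?_
      rw [one_pow, mul_one, Nat.cast_smul_eq_nsmul, nsmul_eq_mul, mul_comm]
    rw [h1]
    have h2 : ∑ k ∈ Finset.range (n + 1), (n.choose k : ℚ) • (r - 1) ^ k =
        ∑ k ∈ Finset.range (n + δ + 1), (n.choose k : ℚ) • (r - 1) ^ k := by
      apply Finset.sum_subset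
      · intro k hk; simp only [Finset.mem_range] at hk ⊢; omega
      · intro k _ hk
        simp only [Finset.mem_range, not_lt] at hk
        rw [Nat.choose_eq_zero_of_lt (by omega)]; simp
    have h3 : ∑ k ∈ Finset.range (δ + 1), (n.choose k : ℚ) • (r - 1) ^ k =
        ∑ k ∈ Finset.range (n + δ + 1), (n.choose k : ℚ) • (r - 1) ^ k := by
      apply Finset.sum_subset
      · intro k hk; simp only [Finset.mem_range] at hk ⊢; omega
      · intro k _ hk
        simp only [Finset.mem_range, not_lt] at hk
        rw [pow_eq_zero_of_le hk hr, smul_zero]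
    rw [h2, h3]
  · ext m
    rw [Polynomial.finsetSum_coeff, Polynomial.finsetSum_coeff]
    simp_rw [Polynomial.coeff_smul, Polynomial.coeff_mul_C, Polynomial.coeff_C_mul_X_pow]
    rw [Finset.sum_ite_eq]
    have hcoeffR : ∀ k, (descPochhammer R k).coeff m = (((descPochhammer ℤ k).coeff m : ℤ) : R) := by
      intro k
      rw [← descPochhammer_map (Int.castRingHom R), Polynomial.coeff_map]
      rfl
    simp_rw [hcoeffR]
    split_ifs with hm
    · refine Finset.sum_congr rfl fun k _ => ?_
      have hsub : (r - 1) ^ k = ∑ u ∈ Finset.range (k + 1),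
          r ^ u * (-1 : R) ^ (k - u) * (k.choose u : R) := by
        rw [sub_eq_add_neg, add_pow]
      rw [hsub, Finset.mul_sum, Finset.smul_sum]
      refine Finset.sum_congr rfl fun u hu => ?_
      have hu' : u ≤ k := by simp only [Finset.mem_range] at hu; omega
      have hfac : ((k.choose u : ℚ) * (u.factorial : ℚ) * ((k - u).factorial : ℚ)) =
          (k.factorial : ℚ) := by exact_mod_cast Nat.choose_mul_factorial_mul_factorial hu'
      have hk0 : (k.factorial : ℚ) ≠ 0 := by exact_mod_cast Nat.factorial_ne_zero k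
      have hu0 : (u.factorial : ℚ) ≠ 0 := by exact_mod_cast Nat.factorial_ne_zero u
      have hku0 : ((k - u).factorial : ℚ) ≠ 0 := by exact_mod_cast Nat.factorial_ne_zero (k - u)
      set sc := (descPochhammer ℤ k).coeff m with hsc
      have lhs : (k.factorial : ℚ)⁻¹ • ((sc : R) * (r ^ u * (-1 : R) ^ (k - u) * (k.choose u : R))) =
          ((k.factorial : ℚ)⁻¹ * ((sc : ℚ) * (-1 : ℚ) ^ (k - u) * (k.choose u : ℚ))) • r ^ u := by
        rw [mul_smul]
        congr 1
        rw [Algebra.smul_def (A := R)]
        simp only [map_mul, map_pow, map_neg, map_one, map_intCast, map_natCast]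
        ring
      rw [lhs]
      congr 1
      push_cast
      field_simp
      rw [← hfac]
      ring
    · rw [Finset.sum_eq_zero]
      intro k hk
      have hk' : k < m := by
        simp only [Finset.mem_range, not_lt] at hk hm; omega
      have : (descPochhammer ℤ k).coeff m = 0 := by
        apply Polynomial.coeff_eq_zero_of_natDegree_lt
        rw [descPochhammer_natDegree]; exact hk'
      rw [this]; simp

end Groth.Agent.S17875
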