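import Groth.Statements.S18050
import Groth.Agent.H27.Euclid
-- import your own Groth.Agent.* helpers here

set_option autoImplicit false
open STCI

namespace Groth.Agent.S18050

open W4c5stcicurvesp3 Groth.Agent.H27.Euclid in
lemma main (b : ℕ) : ∀ a t, 0 < b → b ≤ a → 0 < t → irem a b t = 0 →
    (∀ i, 0 < i → i < t → irem a b i ≠ 0) →
    (∑ i ∈ Finset.Icc 1 t, idiv a b i) * Nat.gcd b a ≤ a := by
  induction b using Nat.strong_induction_on with
  | h b ih =>
  intro a t hb hba ht hz hmin
  by_cases h1 : a % b = 0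
  · have ht1 : t = 1 := by
      by_contra hne
      exact hmin 1 one_pos (by omega) (by rw [irem_one]; exact h1)
    subst ht1
    rw [Finset.Icc_self, Finset.sum_singleton, idiv_one]
    have : Nat.gcd b a = b := Nat.gcd_eq_left (Nat.dvd_of_mod_eq_zero h1)
    rw [this]; exact Nat.div_mul_le_self a b
  · have ht2 : 2 ≤ t := by
      by_contra hlt
      have : t = 1 := by omega
      subst this
      exact h1 (by rw [irem_one] at hz; exact hz)
    obtain ⟨t', rfl⟩ : ∃ t', t = t' + 1 := ⟨t - 1, by omega⟩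
    set r := a % b with hr
    have hr0 : 0 < r := Nat.pos_of_ne_zero h1
    have hrb : r < b := Nat.mod_lt a hb
    have hz' : irem b r t' = 0 := by rw [← irem_shift a b h1]; exact hz
    have hmin' : ∀ i, 0 < i → i < t' → irem b r i ≠ 0 := by
      intro i hi hit; rw [← irem_shift a b h1]; exact hmin (i+1) (by omega) (by omega)
    have IH := ih r hrb b t' hr0 hrb.le (by omega) hz' hmin'
    have hsum : ∑ i ∈ Finset.Icc 1 (t' + 1), idiv a b i =
        a / b + ∑ i ∈ Finset.Icc 1 t', idiv b r i := by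
      rw [sum_Icc_eq_sum_range, sum_Icc_eq_sum_range, Finset.sum_range_succ', idiv_one, add_comm]
      congr 1
      apply Finset.sum_congr rfl
      intro i _
      exact idiv_shift a b h1 i
    rw [hsum, Nat.gcd_rec b a]
    set g := Nat.gcd r b
    set S := ∑ i ∈ Finset.Icc 1 t', idiv b r i
    have hq : 1 ≤ a / b := Nat.div_pos hba hb
    have hg_r : g ≤ r := Nat.le_of_dvd hr0 (Nat.gcd_dvd_left r b)
    have hg_b : g ≤ b := Nat.le_of_dvd hb (Nat.gcd_dvd_right r b)
    have hdm := Nat.div_add_mod a b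
    nlinarith

open W4c5stcicurvesp3 in
/-- Let k ≤ N be positive integers, let t be the least positive integer with rem_t(N, k) = 0, where
rem_0 = k, rem_1 = N mod k and rem_i is the remainder of rem_{i-2} by rem_{i-1} (iterated Euclidean
remainders), and let d_i be the corresponding iterated quotients (d_1 = ⌊N/k⌋, d_i =
⌊rem_{i-2}/rem_{i-1}⌋). Then d_1 + ⋯ + d_t ≤ N/gcd(k, N); stated in the cleared form (d_1 + ⋯ + d_t)
· gcd(k, N) ≤ N. -/
theorem result (k N t : ℕ) (hk : 0 < k) (hkN : k ≤ N) (ht : 0 < t)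
    (hzero : irem N k t = 0) (hmin : ∀ i, 0 < i → i < t → irem N k i ≠ 0) :
    (∑ i ∈ Finset.Icc 1 t, idiv N k i) * Nat.gcd k N ≤ N := by
  exact main k N t hk hkN ht hzero hmin

end Groth.Agent.S18050
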