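import Groth.Statements.S18051
import Groth.Agent.H27.Euclid
-- import your own Groth.Agent.* helpers here

set_option autoImplicit false
open STCI

namespace Groth.Agent.S18051

open W4c5stcicurvesp3 in
/-- Let k ≤ N/2 be positive integers and let r_i = rem_i(N, k), d_i = div_i(N, k) be the iterated
Euclidean remainders and quotients of (N, k) (r_0 = k, r_1 = N mod k, r_2 = r_0 mod r_1, d_1 =
⌊N/k⌋, d_2 = ⌊r_0/r_1⌋). If the least positive t with r_t = 0 satisfies t ≥ 3, i.e. r_1 ≠ 0 and r_2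
≠ 0, then (r_0 - r_1)/d_1 + (r_1 - r_2)/(d_1 + d_2) + r_2/(d_1 + d_2 + 1) ≤ k²/N (in ℚ). -/
theorem result (k N : ℕ) (hk : 0 < k) (hkN : 2 * k ≤ N)
    (h1 : irem N k 1 ≠ 0) (h2 : irem N k 2 ≠ 0) :
    ((irem N k 0 : ℚ) - irem N k 1) / (idiv N k 1)
      + ((irem N k 1 : ℚ) - irem N k 2) / ((idiv N k 1 : ℚ) + idiv N k 2)
      + (irem N k 2 : ℚ) / ((idiv N k 1 : ℚ) + idiv N k 2 + 1)
      ≤ (k : ℚ) ^ 2 / N := by
  open Groth.Agent.H27.Euclid in
  have e2 : irem N k 2 = k % (N % k) := by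
    rw [irem_add_two, irem_one, irem_zero, if_neg (by rw [irem_one] at h1; exact h1)]
  have f2 : idiv N k 2 = k / (N % k) := by
    rw [idiv_add_two, irem_one, irem_zero, if_neg (by rw [irem_one] at h1; exact h1)]
  rw [Groth.Agent.H27.Euclid.irem_one] at h1
  rw [e2] at h2
  rw [Groth.Agent.H27.Euclid.irem_zero, Groth.Agent.H27.Euclid.irem_one, e2,
    Groth.Agent.H27.Euclid.idiv_one, f2]
  have hN : k * (N / k) + N % k = N := Nat.div_add_mod N k
  have hk' : (N % k) * (k / (N % k)) + k % (N % k) = k := Nat.div_add_mod k (N % k)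
  have hd1 : 2 ≤ N / k := (Nat.le_div_iff_mul_le hk).mpr (by linarith)
  have hr1k : N % k < k := Nat.mod_lt _ hk
  have hd2 : 1 ≤ k / (N % k) := Nat.div_pos hr1k.le (Nat.pos_of_ne_zero h1)
  have hr2r1 : k % (N % k) < N % k := Nat.mod_lt _ (Nat.pos_of_ne_zero h1)
  generalize N % k = r1 at *
  generalize k % r1 = r2 at *
  generalize N / k = d1 at *
  generalize k / r1 = d2 at *
  obtain ⟨Q, rfl⟩ : ∃ Q, d1 = 2 + Q := ⟨d1 - 2, by omega⟩
  obtain ⟨M, rfl⟩ : ∃ M, d2 = 1 + M := ⟨d2 - 1, by omega⟩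
  obtain ⟨A, rfl⟩ : ∃ A, r1 = r2 + A := ⟨r1 - r2, by omega⟩
  have hAc : 0 < (r2 : ℚ) + (A : ℚ) := by
    have : 0 < r2 + A := by omega
    exact_mod_cast this
  have hk2 : k = (1 + M) * (r2 + A) + r2 := by linarith
  have hN2 : N = (2 + Q) * ((1 + M) * (r2 + A) + r2) + (r2 + A) := by rw [← hk2]; linarith
  apply Groth.Agent.H27.Euclid.three_step_ineq (A := A) (M := M) (Q := Q) _ _ _ _ _ _
    (by positivity) (by positivity) (by positivity) (by positivity) hAc
  · exact_mod_cast hk2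
  · push_cast; ring
  · push_cast; ring
  · push_cast; ring
  · exact_mod_cast hN2

end Groth.Agent.S18051
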