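import Groth.Statements.S18052
import Groth.Agent.H27.Euclid
-- import your own Groth.Agent.* helpers here

set_option autoImplicit false
open STCI

namespace Groth.Agent.S18052

open W4c5stcicurvesp3 in
/-- Let k ≤ N/2 be positive integers, let r_i = rem_i(N, k) and d_i = div_i(N, k) be the iterated
Euclidean remainders and quotients of (N, k) (r_0 = k, r_1 = N mod k, …; d_1 = ⌊N/k⌋, d_i =
⌊r_{i-2}/r_{i-1}⌋), and let t be the least positive integer with r_t = 0. Then the sum over i = 0,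
…, t - 1 of (r_i - r_{i+1})/(d_1 + ⋯ + d_{i+1}) is at most k²/N (in ℚ). -/
theorem result (k N t : ℕ) (hk : 0 < k) (hkN : 2 * k ≤ N) (ht : 0 < t)
    (hzero : irem N k t = 0) (hmin : ∀ i, 0 < i → i < t → irem N k i ≠ 0) :
    ∑ i ∈ Finset.range t, ((irem N k i : ℚ) - irem N k (i + 1)) / (∑ j ∈ Finset.Icc 1 (i + 1), (idiv N k j : ℚ))
      ≤ (k : ℚ) ^ 2 / N := by
  have hD1 : ∑ j ∈ Finset.Icc 1 1, (idiv N k j : ℚ) = (idiv N k 1 : ℚ) := by simp
  have hD2 : ∑ j ∈ Finset.Icc 1 2, (idiv N k j : ℚ) = (idiv N k 1 : ℚ) + (idiv N k 2 : ℚ) := by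
    rw [show (2:ℕ) = 1 + 1 from rfl, Finset.sum_Icc_succ_top (by norm_num), hD1]
  rcases (show t = 1 ∨ t = 2 ∨ 3 ≤ t by omega) with h | h | h
  · subst h
    simp only [Finset.sum_range_one, zero_add, hD1]
    have h1 := hzero
    rw [Groth.Agent.H27.Euclid.irem_one] at h1
    rw [Groth.Agent.H27.Euclid.irem_zero, Groth.Agent.H27.Euclid.irem_one, h1,
      Groth.Agent.H27.Euclid.idiv_one]
    have hNk : N = k * (N / k) := (Nat.mul_div_cancel' (Nat.dvd_of_mod_eq_zero h1)).symm
    have hkq : (k:ℚ) ≠ 0 := by exact_mod_cast hk.ne'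
    have hNq : (N:ℚ) = (k:ℚ) * ((N / k : ℕ) : ℚ) := by exact_mod_cast hNk
    rw [hNq, pow_two, mul_div_mul_left _ _ hkq]
    simp
  · subst h
    rw [Finset.sum_range_succ, Finset.sum_range_one, zero_add, hD1, hD2]
    have h1 : irem N k 1 ≠ 0 := hmin 1 one_pos (by norm_num)
    have := Groth.Agent.H27.Euclid.three_step_gen k N hk hkN h1
    rw [hzero] at this ⊢
    simpa using this
  · obtain ⟨s, rfl⟩ : ∃ s, t = s + 2 := ⟨t - 2, by omega⟩
    have h1 : irem N k 1 ≠ 0 := hmin 1 one_pos (by omega)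
    have h2 : irem N k 2 ≠ 0 := hmin 2 (by norm_num) (by omega)
    rw [Finset.sum_range_succ', Finset.sum_range_succ', zero_add]
    -- tail bound
    set D2 : ℚ := (idiv N k 1 : ℚ) + (idiv N k 2 : ℚ) with hD2def
    have hd3 : 1 ≤ idiv N k 3 := by
      rw [show (3:ℕ) = 1 + 2 from rfl, Groth.Agent.H27.Euclid.idiv_add_two, if_neg h2]
      exact Nat.div_pos (Groth.Agent.H27.Euclid.irem_succ_lt N k 1 h1 hk).le (Nat.pos_of_ne_zero h2)
    have hDge : ∀ i, D2 + 1 ≤ ∑ j ∈ Finset.Icc 1 (i + 2 + 1), (idiv N k j : ℚ) := by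
      intro i
      have h3 : ∑ j ∈ Finset.Icc 1 3, (idiv N k j : ℚ) = D2 + (idiv N k 3 : ℚ) := by
        rw [show (3:ℕ) = 2 + 1 from rfl, Finset.sum_Icc_succ_top (by norm_num), hD2]
      have hsub : ∑ j ∈ Finset.Icc 1 3, (idiv N k j : ℚ) ≤ ∑ j ∈ Finset.Icc 1 (i + 2 + 1), (idiv N k j : ℚ) :=
        Finset.sum_le_sum_of_subset_of_nonneg (Finset.Icc_subset_Icc le_rfl (by omega))
          (fun _ _ _ => by positivity)
      have : (1:ℚ) ≤ (idiv N k 3 : ℚ) := by exact_mod_cast hd3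
      linarith
    have hD2pos : 0 < D2 + 1 := by positivity
    have htail : ∑ i ∈ Finset.range s, ((irem N k (i + 2) : ℚ) - irem N k (i + 2 + 1)) /
        (∑ j ∈ Finset.Icc 1 (i + 2 + 1), (idiv N k j : ℚ)) ≤ (irem N k 2 : ℚ) / (D2 + 1) := by
      calc _ ≤ ∑ i ∈ Finset.range s, ((irem N k (i + 2) : ℚ) - irem N k (i + 2 + 1)) / (D2 + 1) := by
            apply Finset.sum_le_sum
            intro i hi
            rw [Finset.mem_range] at hi
            have hne : irem N k (i + 2) ≠ 0 := hmin (i + 2) (by omega) (by omega)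
            have hlt := Groth.Agent.H27.Euclid.irem_succ_lt N k (i + 2) hne hk
            apply div_le_div_of_nonneg_left _ hD2pos (hDge i)
            have : ((irem N k (i + 2 + 1) : ℕ) : ℚ) ≤ (irem N k (i + 2) : ℚ) := by
              exact_mod_cast hlt.le
            linarith
        _ = (irem N k 2 : ℚ) / (D2 + 1) := by
            rw [← Finset.sum_div]
            congr 1
            have := Finset.sum_range_sub' (fun i => (irem N k (i + 2) : ℚ)) s
            rw [show ∑ i ∈ Finset.range s, ((irem N k (i + 2) : ℚ) - irem N k (i + 2 + 1)) =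
                ∑ i ∈ Finset.range s, ((irem N k (i + 2) : ℚ) - irem N k (i + 1 + 2)) from
                Finset.sum_congr rfl (fun i _ => by rw [show i + 2 + 1 = i + 1 + 2 by ring]), this,
              show s + 2 = s + 2 from rfl, hzero]
            simp
    have hmain := Groth.Agent.H27.Euclid.three_step_gen k N hk hkN h1
    rw [hD1, hD2]
    simp only [show (0 + 1 + 1 : ℕ) = 2 from rfl, show (1 + 1 : ℕ) = 2 from rfl] at *
    have e1 : ∑ j ∈ Finset.Icc 1 (1 + 1), (idiv N k j : ℚ) = D2 := hD2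
    linarith [htail, hmain]

end Groth.Agent.S18052
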