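import Groth.Statements.S18053
import Mathlib.Tactic
-- import your own Groth.Agent.* helpers here

set_option autoImplicit false
open STCI

namespace Groth.Agent.S18053

/-- Let (p_k)_{k ≥ 1} be a sequence of nonnegative integers and n a nonnegative integer such that (i)
p_1 ≤ 9 - (2/5)n, (ii) p_1 ≥ p_2 ≥ p_3 ≥ ⋯, (iii) Σ_k p_k ≤ 19 - n, and (iv) n/4 + Σ_{k ≥ 1}
p_k/(k(k+1)) ≥ 6. Then n = 0 and (p_k) is one of (9, 8, 2), (9, 9), (9, 9, 1) (followed by zeros).
Here the sequence is indexed from 0 (so p 0 is p_1 and the weight of p k is 1/((k+1)(k+2))), (iii)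
is stated for every partial sum, and the series in (iv) is the real sum Σ' over all k. -/
theorem result (p : ℕ → ℕ) (n : ℕ)
    (h1 : (p 0 : ℝ) ≤ 9 - (2 / 5 : ℝ) * n) (h2 : Antitone p)
    (h3 : ∀ m : ℕ, ((∑ k ∈ Finset.range m, p k : ℕ) : ℝ) ≤ 19 - (n : ℝ))
    (h4 : (6 : ℝ) ≤ (n : ℝ) / 4 + ∑' k : ℕ, (p k : ℝ) / (((k : ℝ) + 1) * ((k : ℝ) + 2))) :
    n = 0 ∧ (p = (fun k => if k = 0 then 9 else if k = 1 then 8 else if k = 2 then 2 else 0)
      ∨ p = (fun k => if k = 0 then 9 else if k = 1 then 9 else 0)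
      ∨ p = (fun k => if k = 0 then 9 else if k = 1 then 9 else if k = 2 then 1 else 0)) := by
  have hsum : ∀ m, (∑ k ∈ Finset.range m, (p k : ℝ)) ≤ 19 - n := by
    intro m; have := h3 m; push_cast at this; exact this
  have hn0 : (0 : ℝ) ≤ n := Nat.cast_nonneg n
  have hfin : ∀ k, 19 ≤ k → p k = 0 := by
    intro k hk
    by_contra hpk
    have hge : ∀ j ≤ k, 1 ≤ p j := fun j hj => le_trans (Nat.one_le_iff_ne_zero.2 hpk) (h2 hj)
    have h20 := h3 20
    have hle : 20 ≤ ∑ k ∈ Finset.range 20, p k := by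
      calc 20 = ∑ k ∈ Finset.range 20, 1 := by simp
        _ ≤ _ := Finset.sum_le_sum (fun j hj => hge j (by simp at hj; omega))
    have : (20 : ℝ) ≤ ((∑ k ∈ Finset.range 20, p k : ℕ) : ℝ) := by exact_mod_cast hle
    linarith
  have htsum : ∑' k : ℕ, (p k : ℝ) / (((k : ℝ) + 1) * ((k : ℝ) + 2))
      = ∑ k ∈ Finset.range 19, (p k : ℝ) / (((k : ℝ) + 1) * ((k : ℝ) + 2)) := by
    apply tsum_eq_sum
    intro k hk
    simp only [Finset.mem_range, not_lt] at hk
    simp [hfin k hk]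
  rw [htsum] at h4
  have h19 := hsum 19
  simp only [Finset.sum_range_succ, Finset.sum_range_zero] at h4 h19
  norm_num at h4 h19
  have hp : ∀ k, (0:ℝ) ≤ p k := fun k => Nat.cast_nonneg _
  have key : (360 : ℝ) ≤ 12 * n + 27 * p 0 + 7 * p 1 + 2 * p 2 + 57 := by
    linarith [hp 3, hp 4, hp 5, hp 6, hp 7, hp 8, hp 9, hp 10, hp 11, hp 12, hp 13, hp 14,
      hp 15, hp 16, hp 17, hp 18]
  have key' : 360 ≤ 12 * n + 27 * p 0 + 7 * p 1 + 2 * p 2 + 57 := by exact_mod_cast key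
  have h1' : 5 * p 0 + 2 * n ≤ 45 := by
    have : (5 : ℝ) * p 0 + 2 * n ≤ 45 := by linarith
    exact_mod_cast this
  have h4s := hsum 4
  simp only [Finset.sum_range_succ, Finset.sum_range_zero] at h4s
  norm_num at h4s
  have hT : p 0 + p 1 + p 2 + p 3 + n ≤ 19 := by
    have : (p 0 : ℝ) + p 1 + p 2 + p 3 + n ≤ 19 := by linarith
    exact_mod_cast this
  have ha : p 1 ≤ p 0 := h2 (by norm_num)
  have hb : p 2 ≤ p 1 := h2 (by norm_num)
  have hc : p 3 ≤ p 2 := h2 (by norm_num)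
  have hn : n = 0 := by omega
  have hp0 : p 0 = 9 := by omega
  have hp3 : p 3 = 0 := by omega
  have htail : ∀ k, p (k + 3) = 0 := fun k => by
    have := h2 (show 3 ≤ k + 3 by omega); omega
  refine ⟨hn, ?_⟩
  have hcases : (p 1 = 8 ∧ p 2 = 2) ∨ (p 1 = 9 ∧ p 2 = 0) ∨ (p 1 = 9 ∧ p 2 = 1) := by omega
  rcases hcases with ⟨e1, e2⟩ | ⟨e1, e2⟩ | ⟨e1, e2⟩
  · left
    funext k
    rcases k with _ | _ | _ | k
    · simp [hp0]
    · simp [e1]
    · simp [e2]
    · simp [htail k]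
  · right; left
    funext k
    rcases k with _ | _ | _ | k
    · simp [hp0]
    · simp [e1]
    · simp [e2]
    · simp [htail k]
  · right; right
    funext k
    rcases k with _ | _ | _ | k
    · simp [hp0]
    · simp [e1]
    · simp [e2]
    · simp [htail k]

end Groth.Agent.S18053
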