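import Groth.Statements.S18054
import Mathlib.Tactic
-- import your own Groth.Agent.* helpers here

set_option autoImplicit false
open STCI

namespace Groth.Agent.S18054

/-- Let s, t, d, g be integers with t ≥ s ≥ 4, d ≥ 1, g ≥ 0 and d dividing st; put n = st/d and assume n
≥ 2; put r = d[n(s - 4) + t] + (2 - 2g)n and assume r ≤ (s/3)(2s² - 6s + 7) - 1. Then d ≤ g + 3.
(The bound is written cleared of the denominator 3; s(2s² - 6s + 7) is always divisible by 3, so
this is the same condition.) -/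
theorem result (s t d g n : ℤ) (hs : 4 ≤ s) (hst : s ≤ t) (hd : 1 ≤ d) (hg : 0 ≤ g)
    (hn : s * t = d * n) (hn2 : 2 ≤ n)
    (hr : 3 * (d * (n * (s - 4) + t) + (2 - 2 * g) * n) ≤ s * (2 * s ^ 2 - 6 * s + 7) - 3) :
    d ≤ g + 3 := by
  by_contra hcon
  have hd4 : g + 4 ≤ d := by omega
  have hnpos : 0 < n := by omega
  have hdpos : 0 < d := by omega
  have h1 : (10 - 2 * d) * n ≤ (2 - 2 * g) * n := by nlinarith
  have h2 : 3 * (s * t * (s - 4) + d * t + (10 - 2 * d) * n) ≤ s * (2 * s ^ 2 - 6 * s + 7) - 3 := by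
    have : d * (n * (s - 4) + t) = s * t * (s - 4) + d * t := by
      rw [mul_add, ← mul_assoc, ← hn]
    nlinarith
  have h3 : 3 * (t * (s * (s - 6) * d + d * d + 10 * s)) ≤ (s * (2 * s ^ 2 - 6 * s + 7) - 3) * d := by
    have h := mul_le_mul_of_nonneg_right h2 hdpos.le
    have e : 3 * (s * t * (s - 4) + d * t + (10 - 2 * d) * n) * d
        = 3 * (t * (s * (s - 6) * d + d * d + 10 * s)) := by
      have : n * d = s * t := by rw [hn]; ring
      linear_combination (30 - 6 * d) * this
    linarith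
  have hpos : 0 < s * (s - 6) * d + d * d + 10 * s := by
    rcases (show s = 4 ∨ s = 5 ∨ 6 ≤ s by omega) with h | h | h
    · subst h; nlinarith [sq_nonneg (d - 4)]
    · subst h; nlinarith [sq_nonneg (d - 3)]
    · have : 0 ≤ s * (s - 6) * d := by
        apply mul_nonneg (mul_nonneg (by omega) (by omega)) hdpos.le
      nlinarith
  have h4 : 3 * (s * (s * (s - 6) * d + d * d + 10 * s)) ≤ (s * (2 * s ^ 2 - 6 * s + 7) - 3) * d := by
    have : s * (s * (s - 6) * d + d * d + 10 * s) ≤ t * (s * (s - 6) * d + d * d + 10 * s) :=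
      mul_le_mul_of_nonneg_right hst hpos.le
    linarith
  have hQ : 3 * s * d ^ 2 + (s ^ 3 - 12 * s ^ 2 - 7 * s + 3) * d + 30 * s ^ 2 ≤ 0 := by
    nlinarith
  rcases (show s ≤ 12 ∨ 13 ≤ s by omega) with hs12 | hs13
  · interval_cases s
    · -- s = 4
      have hd67 : d = 6 ∨ d = 7 := by
        have : 5 < d := by nlinarith
        have : d < 8 := by nlinarith
        omega
      have ht : t = 4 := by
        rcases hd67 with rfl | rfl
        · nlinarith
        · nlinarith
      subst ht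
      rcases hd67 with rfl | rfl <;> omega
    all_goals nlinarith [sq_nonneg (d - 5), sq_nonneg (d - 4), sq_nonneg (d - 6), sq_nonneg (d - 7), sq_nonneg (d - 8), sq_nonneg (d - 9), sq_nonneg (d - 10), sq_nonneg (d - 3)]
  · have h5 : 0 < s ^ 3 - 12 * s ^ 2 - 7 * s + 3 := by nlinarith
    have h6 : 0 ≤ (s ^ 3 - 12 * s ^ 2 - 7 * s + 3) * d := mul_nonneg h5.le hdpos.le
    nlinarith

end Groth.Agent.S18054
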