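import Groth.Statements.S18055
import Mathlib.Tactic
-- import your own Groth.Agent.* helpers here

set_option autoImplicit false
open STCI

namespace Groth.Agent.S18055

/-- Let d ≥ 1, g ≥ 0 and 1 ≤ s ≤ t be integers with d dividing st, put n = st/d and r = d[n(s - 4) + t]
+ (2 - 2g)n, and assume n ≥ 2, r > 0 and (n - 1) divides r. Then s < 2d² and t < 2d⁴. This is the
statement about the degree data (d, g the degree and genus of the curve, s ≤ t the degrees of the
two surfaces) to which the published proof reduces the degree bound: there the divisibility and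
positivity express that r/(n - 1), the common value of the type numbers of the pair, is a positive
integer; the geometric hypotheses themselves are not part of this row. -/
theorem result (d g s t n : ℤ) (hd : 1 ≤ d) (hg : 0 ≤ g) (hs : 1 ≤ s) (hst : s ≤ t)
    (hn : s * t = d * n) (hn2 : 2 ≤ n)
    (hpos : 0 < d * (n * (s - 4) + t) + (2 - 2 * g) * n)
    (hdvd : (n - 1) ∣ d * (n * (s - 4) + t) + (2 - 2 * g) * n) :
    s < 2 * d ^ 2 ∧ t < 2 * d ^ 4 := by
  obtain ⟨m, hm⟩ := hdvd
  have hn1 : 0 < n - 1 := by linarith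
  have hm1 : 1 ≤ m := by
    by_contra h
    push Not at h
    have : (n - 1) * m ≤ 0 := by nlinarith
    linarith
  obtain ⟨k, hk⟩ : ∃ k, k = m - d * (s - 4) - 2 + 2 * g := ⟨_, rfl⟩
  have hkn : k * n - d * t = m := by rw [hk]; linear_combination (-1 : ℤ) * hm
  have hY : k * (n - 1) ≤ d * (s + t - 4) + 2 := by
    have : k * (n - 1) = d * (s - 4) + d * t + 2 - 2 * g := by linear_combination hkn - hk
    rw [this]; linarith
  have ht1 : 1 ≤ t := le_trans hs hst
  have hA : 1 ≤ k * s - d ^ 2 := by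
    have h1 : k * (d * n) - d ^ 2 * t = d * m := by linear_combination d * hkn
    rw [← hn] at h1
    have h2 : t * (k * s - d ^ 2) = d * m := by linear_combination h1
    have h3 : 1 ≤ d * m := by nlinarith
    by_contra h
    push Not at h
    have : t * (k * s - d ^ 2) ≤ 0 := by nlinarith
    linarith
  have hB : k * (s * t - d) ≤ d ^ 2 * (s + t - 4) + 2 * d := by
    have := mul_le_mul_of_nonneg_left hY (by linarith : (0:ℤ) ≤ d)
    have e : d * (k * (n - 1)) = k * (s * t - d) := by rw [hn]; ring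
    rw [e] at this; linarith
  have hk1 : 1 ≤ k := by
    by_contra h
    push Not at h
    have : k * s ≤ 0 := by nlinarith
    nlinarith
  have hstd : d ≤ s * t - d := by rw [hn]; nlinarith
  have hs2 : s < 2 * d ^ 2 := by
    by_contra h
    push Not at h
    have h1 : s * t - d ≤ k * (s * t - d) := by nlinarith
    have h2 : d ^ 2 * (s + t) ≤ s * t := by nlinarith
    nlinarith
  refine ⟨hs2, ?_⟩
  by_contra h
  push Not at h
  obtain ⟨u, hu⟩ : ∃ u, u = k * s - d ^ 2 := ⟨_, rfl⟩
  rw [← hu] at hA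
  have hC : t * u ≤ d ^ 2 * s - 4 * d ^ 2 + 2 * d + k * d := by rw [hu]; nlinarith [hB]
  have hD : t * u * s ≤ d ^ 2 * s ^ 2 - 4 * d ^ 2 * s + 2 * d * s + d * u + d ^ 3 := by
    have := mul_le_mul_of_nonneg_right hC (by linarith : (0:ℤ) ≤ s)
    have e : k * d * s = d * u + d ^ 3 := by rw [hu]; ring
    nlinarith [this, e]
  have hus : 0 ≤ u * s := by nlinarith
  have hE : 2 * d ^ 4 * (u * s) ≤ t * (u * s) := mul_le_mul_of_nonneg_right h hus
  have hF : d * (2 * d ^ 3 * u * s - d * s ^ 2 + 4 * d * s - 2 * s - u - d ^ 2) ≤ 0 := by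
    nlinarith [hD, hE]
  have hG : 2 * d ^ 3 * u * s - d * s ^ 2 + 4 * d * s - 2 * s - u - d ^ 2 ≤ 0 := by
    by_contra hh
    push Not at hh
    have : 0 < d * (2 * d ^ 3 * u * s - d * s ^ 2 + 4 * d * s - 2 * s - u - d ^ 2) := by
      apply mul_pos (by linarith) hh
    linarith
  have hd3 : 1 ≤ d ^ 3 := one_le_pow₀ hd
  have hds : 1 ≤ d ^ 3 * s := by nlinarith
  have hH : 0 ≤ (2 * d ^ 3 * s - 1) * (u - 1) := by
    apply mul_nonneg (by linarith) (by linarith)
  have hH' : 0 ≤ 2 * d ^ 3 * s * u - 2 * d ^ 3 * s - u + 1 := by linarith [hH]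
  have hI : 0 ≤ d * s ^ 2 - 2 * d ^ 3 * s - 4 * d * s + 2 * s + d ^ 2 + 1 := by linarith [hG, hH']
  have hJ : 0 ≤ (s - 1) * (2 * d ^ 2 - 1 - s) := by
    apply mul_nonneg (by linarith) (by linarith)
  have hK : d * s ^ 2 ≤ 2 * d ^ 3 * s - 2 * d ^ 3 + d := by
    have := mul_le_mul_of_nonneg_left (by linarith [hJ] : s ^ 2 ≤ 2 * d ^ 2 * s - 2 * d ^ 2 + 1)
      (by linarith : (0:ℤ) ≤ d)
    linarith
  have hL : 0 ≤ (4 * d - 2) * (s - 1) := mul_nonneg (by linarith) (by linarith)
  have hM : 0 ≤ d ^ 2 * (d - 1) := mul_nonneg (by positivity) (by linarith)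
  have hd2 : 1 ≤ d ^ 2 := one_le_pow₀ hd
  nlinarith

end Groth.Agent.S18055
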