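import Groth.Statements.S18127
import Mathlib.Tactic
import Mathlib.LinearAlgebra.Matrix.Transvection
import Mathlib.LinearAlgebra.Matrix.Rank
-- import your own Groth.Agent.* helpers here

set_option autoImplicit false
universe u
open LocAlg

namespace Groth.Agent.S18127

open Matrix in
lemma det_mem_pow_of_cols {R : Type u} [CommRing R] {n : ℕ} (N : Matrix (Fin n) (Fin n) R)
    (I : Ideal R) (Z : Finset (Fin n)) (hZ : ∀ i, ∀ j ∈ Z, N i j ∈ I) :
    N.det ∈ I ^ Z.card := by
  rw [Matrix.det_apply]
  apply Ideal.sum_mem
  intro σ _
  rw [Units.smul_def]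
  apply Submodule.smul_of_tower_mem
  rw [← Finset.prod_filter_mul_prod_filter_not Finset.univ (fun i => i ∈ Z)]
  apply Ideal.mul_mem_right
  have hfilt : Finset.univ.filter (fun i => i ∈ Z) = Z := by ext; simp
  rw [hfilt]
  have := Ideal.prod_mem_prod (s := Z) (I := fun _ => I) (x := fun i => N (σ i) i)
    (fun i hi => hZ (σ i) i hi)
  rwa [Finset.prod_const] at this

/-- Let R be a local ring with maximal ideal m and algebraically closed residue field, and M an n × n
matrix over R whose reduction modulo m has rank at most r. Then the determinant of M lies in m^(n −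
r). (The published setting is the local ring of germs of holomorphic functions at a point of a
complex manifold, where this says that the determinant vanishes to order at least n − r at a point
where the matrix has rank at most r.) -/
theorem result
    {R : Type u} [CommRing R] [IsLocalRing R] [IsAlgClosed (IsLocalRing.ResidueField R)]
    {n : ℕ} (M : Matrix (Fin n) (Fin n) R) (r : ℕ)
    (hr : (M.map (IsLocalRing.residue R)).rank ≤ r) :
    M.det ∈ IsLocalRing.maximalIdeal R ^ (n - r) := by
  classical
  set φ := IsLocalRing.residue R with hφ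
  have hsurj : Function.Surjective φ := IsLocalRing.residue_surjective
  obtain ⟨L, L', D, hLD⟩ :=
    Matrix.Pivot.exists_list_transvec_mul_mul_list_transvec_eq_diagonal (M.map φ)
  set Lm := (L.map Matrix.TransvectionStruct.toMatrix).prod with hLm
  set L'm := (L'.map Matrix.TransvectionStruct.toMatrix).prod with hL'm
  have hdetL : Lm.det = 1 := Matrix.TransvectionStruct.det_toMatrix_prod L
  have hdetL' : L'm.det = 1 := Matrix.TransvectionStruct.det_toMatrix_prod L'
  set P : Matrix (Fin n) (Fin n) R := Matrix.of fun i j => Function.surjInv hsurj (Lm i j) with hP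
  set Q : Matrix (Fin n) (Fin n) R := Matrix.of fun i j => Function.surjInv hsurj (L'm i j) with hQ
  have hPm : P.map φ = Lm := by
    ext i j; simp [hP, Function.surjInv_eq hsurj]
  have hQm : Q.map φ = L'm := by
    ext i j; simp [hQ, Function.surjInv_eq hsurj]
  have hunit : ∀ X : Matrix (Fin n) (Fin n) R, (X.map φ).det = 1 → IsUnit X.det := by
    intro X hX
    have h1 : φ X.det = 1 := by rw [RingHom.map_det]; exact hX
    by_contra hcon
    have : X.det ∈ IsLocalRing.maximalIdeal R := (IsLocalRing.mem_maximalIdeal _).mpr hcon
    rw [← IsLocalRing.residue_eq_zero_iff] at this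
    rw [← hφ] at this
    rw [this] at h1
    exact zero_ne_one h1
  have hPu : IsUnit P.det := hunit P (by rw [hPm, hdetL])
  have hQu : IsUnit Q.det := hunit Q (by rw [hQm, hdetL'])
  set N := P * M * Q with hN
  have hNm : N.map φ = Matrix.diagonal D := by
    rw [hN, Matrix.map_mul, Matrix.map_mul, hPm, hQm]; exact hLD
  have hrank : (Matrix.diagonal D).rank ≤ r := by
    rw [← hLD, Matrix.rank_mul_eq_left_of_isUnit_det _ _ (by rw [hdetL']; exact isUnit_one),
      Matrix.rank_mul_eq_right_of_isUnit_det _ _ (by rw [hdetL]; exact isUnit_one)]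
    exact hr
  rw [Matrix.rank_diagonal] at hrank
  set Z := Finset.univ.filter (fun j : Fin n => D j = 0) with hZ
  have hZcard : n - r ≤ Z.card := by
    have hle : (Finset.univ.filter (fun j : Fin n => ¬ D j = 0)).card ≤ r := by
      have := hrank; rw [Fintype.card_subtype] at this; exact this
    have h2 : Z.card + (Finset.univ.filter (fun j : Fin n => ¬ D j = 0)).card = n := by
      have := Finset.card_filter_add_card_filter_not (s := (Finset.univ : Finset (Fin n)))
        (fun j : Fin n => D j = 0)
      rw [Finset.card_univ, Fintype.card_fin] at this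
      exact this
    omega
  have hcols : ∀ i, ∀ j ∈ Z, N i j ∈ IsLocalRing.maximalIdeal R := by
    intro i j hj
    rw [hZ, Finset.mem_filter] at hj
    rw [← IsLocalRing.residue_eq_zero_iff]
    have := congrFun (congrFun hNm i) j
    simp only [Matrix.map_apply] at this
    rw [← hφ, this, Matrix.diagonal_apply]
    split_ifs with h
    · subst h; exact hj.2
    · rfl
  have hdetN := det_mem_pow_of_cols N _ Z hcols
  rw [hN, Matrix.det_mul, Matrix.det_mul] at hdetN
  have hMdet : M.det = ((hPu.mul hQu).unit⁻¹ : Rˣ) * (P.det * M.det * Q.det) := by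
    symm; rw [Units.inv_mul_eq_iff_eq_mul, IsUnit.unit_spec]; ring
  rw [hMdet]
  exact Ideal.pow_le_pow_right hZcard (Ideal.mul_mem_left _ _ hdetN)

end Groth.Agent.S18127
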