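import Groth.Statements.S18173
import Groth.Agent.Lib.Helper16.FunFld3

set_option autoImplicit false
open FunFld

namespace Groth.Agent.S18173



/-- Let `k` be an algebraically closed field of characteristic zero and `K/k` a function field of one
variable (the function field of a smooth projective curve over `k`). A `g^r_d` is a divisor `D` of
degree `d` with a subspace `V ⊆ L(D)` of dimension `r + 1`; for a place `P` and `n ≥ 0`, `V(-nP) = V
∩ L(D - nP)` is the space of members vanishing to order at least `n` at `P`, so `dim V(-nP)` counts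
the vanishing orders `m_0 < ⋯ < m_r` of `V` at `P` that are at least `n`, and the weight of `V` at
`P` is `∑_{n=1}^{d} dim V(-nP) - r(r+1)/2`. Aspects `(D_Y, V_Y)` on `K_Y` and `(D_Z, V_Z)` on `K_Z`
of a limit `g^r_d` on two components meeting in a node (a place `P` of `K_Y` and a place `Q` of
`K_Z`) are compatible there when `m_i(V_Y, P) + m_{r-i}(V_Z, Q) = d` for every `i`, equivalently
`dim V_Y(-nP) + dim V_Z(-(d+1-n)Q) = r + 1` for `0 ≤ n ≤ d + 1`. If the aspects are compatible at
the node and `P'` is a place of `K_Y` other than `P`, then `m_i(V_Y, P') ≤ m_i(V_Z, Q)` for every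
`i`, that is, `dim V_Y(-nP') ≤ dim V_Z(-nQ)` for every `n`. (The source states this for curves over
the complex numbers.) -/
theorem result
    (k : Type*) [Field k] [IsAlgClosed k] [CharZero k]
    (KY : Type*) [Field KY] [Algebra k KY] (hKY : FunFld.IsFunctionField k KY) (KZ : Type*) [Field KZ] [Algebra k KZ] (hKZ : FunFld.IsFunctionField k KZ)
    (d r : ℕ) (DY : FunFld.Divisor k KY) (hDY : DY.deg = d) (DZ : FunFld.Divisor k KZ) (hDZ : DZ.deg = d)
    (VY : Submodule k KY) (hVY : VY ≤ FunFld.L DY) (hVYr : Module.finrank k ↥VY = r + 1)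
    (VZ : Submodule k KZ) (hVZ : VZ ≤ FunFld.L DZ) (hVZr : Module.finrank k ↥VZ = r + 1)
    (P : FunFld.Place k KY) (Q : FunFld.Place k KZ)
    (hcomp : ∀ n : ℕ, n ≤ d + 1 →
      Module.finrank k ↥(VY ⊓ FunFld.L (DY - Finsupp.single P ((n : ℤ)))) + Module.finrank k ↥(VZ ⊓ FunFld.L (DZ - Finsupp.single Q ((d : ℤ) + 1 - n))) = r + 1)
    (P' : FunFld.Place k KY) (hP' : P' ≠ P) (n : ℕ) :
    Module.finrank k ↥(VY ⊓ FunFld.L (DY - Finsupp.single P' ((n : ℤ)))) ≤ Module.finrank k ↥(VZ ⊓ FunFld.L (DZ - Finsupp.single Q ((n : ℤ)))) := by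
  exact Groth.Agent.Lib.Helper16.FunFldLib.compat_mono hKY d r DY hDY DZ VY hVYr VZ P Q hcomp P' hP' n

end Groth.Agent.S18173
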