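import Groth.Statements.S18184
import Groth.Agent.Lib.Helper16.FunFld3

set_option autoImplicit false
open FunFld

namespace Groth.Agent.S18184



/-- Let `k` be an algebraically closed field of characteristic zero and `K/k` a function field of one
variable (the function field of a smooth projective curve over `k`). A `g^r_d` is a divisor `D` of
degree `d` with a subspace `V ⊆ L(D)` of dimension `r + 1`; for a place `P` and `n ≥ 0`, `V(-nP) = V
∩ L(D - nP)` is the space of members vanishing to order at least `n` at `P`, so `dim V(-nP)` counts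
the vanishing orders `m_0 < ⋯ < m_r` of `V` at `P` that are at least `n`, and the weight of `V` at
`P` is `∑_{n=1}^{d} dim V(-nP) - r(r+1)/2`. Aspects `(D_Y, V_Y)` on `K_Y` and `(D_Z, V_Z)` on `K_Z`
of a limit `g^r_d` on two components meeting in a node (a place `P` of `K_Y` and a place `Q` of
`K_Z`) are compatible there when `m_i(V_Y, P) + m_{r-i}(V_Z, Q) = d` for every `i`, equivalently
`dim V_Y(-nP) + dim V_Z(-(d+1-n)Q) = r + 1` for `0 ≤ n ≤ d + 1`. Consider a chain of components
`U_0, U_1, …, U_n` (`n ≥ 1`; function fields `K_l`), `U_l` meeting `U_{l+1}` in a node given by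
places `B_l` of `K_l` and `A_{l+1}` of `K_{l+1}`, with `A_l ≠ B_l` on the inner components `U_1, …,
U_{n-1}`, which have genus `0`; each `U_l` carries an aspect `(D_l, V_l)` of a limit `g^r_d`,
consecutive aspects compatible at the nodes, and the weight of `V_0` at `B_0` is at most `(r+1)(d-r)
- c`. (In the source `U_0` is a backbone component of a flag curve with `g` tails, `U_1, …, U_{n-1}`
the chain of rational curves attached to it at `B_0`, `U_n` the elliptic tail, and `c = r(g-1)`, the
weight bound at `B_0` being the one established for backbone components.) Then for every `l ≥ 1` the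
weight of `V_l` at its upper node `A_l` is at least `c`: `c + r(r+1)/2 ≤ ∑_{j=1}^{d} dim
V_l(-jA_l)`. (The source states this for curves over the complex numbers.) -/
theorem result
    (k : Type*) [Field k] [IsAlgClosed k] [CharZero k]
    (n : ℕ) (hn : 0 < n) (U : Fin (n + 1) → Type*) [∀ l, Field (U l)] [∀ l, Algebra k (U l)]
    (hU : ∀ l, FunFld.IsFunctionField k (U l))
    (hrat : ∀ l : Fin (n + 1), 0 < (l : ℕ) → (l : ℕ) < n → FunFld.genus k (U l) = 0)
    (d r : ℕ) (D : ∀ l, FunFld.Divisor k (U l)) (hD : ∀ l, (D l).deg = d)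
    (V : ∀ l, Submodule k (U l)) (hV : ∀ l, V l ≤ FunFld.L (D l))
    (hVr : ∀ l, Module.finrank k ↥(V l) = r + 1)
    (A B : ∀ l, FunFld.Place k (U l))
    (hAB : ∀ l : Fin (n + 1), 0 < (l : ℕ) → (l : ℕ) < n → A l ≠ B l)
    (hcomp : ∀ (l : Fin n) (m : ℕ), m ≤ d + 1 →
      Module.finrank k ↥((V l.castSucc) ⊓ FunFld.L ((D l.castSucc) - Finsupp.single (B l.castSucc) ((m : ℤ)))) +
        Module.finrank k ↥((V l.succ) ⊓ FunFld.L ((D l.succ) - Finsupp.single (A l.succ) ((d : ℤ) + 1 - m))) = r + 1)
    (c : ℕ) (hc : (∑ j ∈ Finset.range d, Module.finrank k ↥((V 0) ⊓ FunFld.L ((D 0) - Finsupp.single (B 0) ((j : ℤ) + 1)))) + c + r * (r + 1) ≤ (r + 1) * d + r * (r + 1) / 2)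
    (l : Fin (n + 1)) (hl : 0 < (l : ℕ)) :
    c + r * (r + 1) / 2 ≤ (∑ j ∈ Finset.range d, Module.finrank k ↥((V l) ⊓ FunFld.L ((D l) - Finsupp.single (A l) ((j : ℤ) + 1)))) := by
  exact Groth.Agent.Lib.Helper16.FunFldLib.chain_weight n hn U hU d r D hD V hVr A B hAB hcomp c hc l hl

end Groth.Agent.S18184
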