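import Groth.Statements.S18188
import Mathlib.Tactic
-- import your own Groth.Agent.* helpers here

set_option autoImplicit false
universe u
open OrbRR

namespace Groth.Agent.S18188

/-- Let K be a field in which 6 ≠ 0, let j < N be natural numbers (so N ≥ 1), and let ζ ∈ K be a
primitive N-th root of unity. Then the sum over i = 1, …, N − 1 of ζ^{ij} / (2 − ζ^i − ζ^{−i})
equals j(j − N)/2 + (N² − 1)/12. (The published setting is characteristic zero; the identity is
stated here over any field of characteristic different from 2 and 3, where the published proof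
applies unchanged: a field containing a primitive N-th root of unity has characteristic prime to N,
and each denominator 2 − ζ^i − ζ^{−i} = −(1 − ζ^i)²/ζ^i with 0 < i < N is nonzero. In
characteristics 2 and 3 the right-hand side has no meaning.) -/
theorem result (K : Type u) [Field K] (h6 : (6 : K) ≠ 0)
    (N j : ℕ) (hj : j < N) (ζ : K) (hζ : IsPrimitiveRoot ζ N) :
    ∑ i ∈ Finset.Ioo 0 N, ζ ^ (i * j) / (2 - ζ ^ i - (ζ ^ i)⁻¹) =
      (j : K) * ((j : K) - (N : K)) / 2 + ((N : K) ^ 2 - 1) / 12 := by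
  have hN : 0 < N := by omega
  have hζ0 : ζ ≠ 0 := hζ.ne_zero (by omega)
  have hNK : (N : K) ≠ 0 := by
    have : NeZero N := ⟨by omega⟩
    exact (hζ.neZero').out
  have h2 : (2 : K) ≠ 0 := by
    intro h; apply h6; linear_combination 3 * h
  have h12 : (12 : K) ≠ 0 := by
    have : (12:K) = 2 * 6 := by norm_num
    rw [this]; exact mul_ne_zero h2 h6
  have hNeK : ∀ i : ℕ, (ζ ^ i) ^ N = 1 := fun i => by
    rw [← pow_mul, mul_comm, pow_mul, hζ.pow_eq_one, one_pow]
  have hrw : ∀ m : ℕ, ∑ i ∈ Finset.Ioo 0 N, ζ ^ (i * m) / (2 - ζ ^ i - (ζ ^ i)⁻¹)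
      = ∑ i ∈ Finset.Ioo 0 N, (ζ ^ i) ^ m / (2 - ζ ^ i - (ζ ^ i)⁻¹) := by
    intro m; apply Finset.sum_congr rfl; intro i _; rw [pow_mul]
  rw [hrw]
  obtain ⟨D, hD⟩ : ∃ D : ℕ → K, ∀ i, D i = 2 - ζ ^ i - (ζ ^ i)⁻¹ := ⟨_, fun i => rfl⟩
  simp only [← hD]
  have hDw : ∀ i, D i * ζ ^ i = -(ζ ^ i - 1) ^ 2 := by
    intro i
    have h0 : ζ ^ i ≠ 0 := pow_ne_zero _ hζ0
    rw [hD]; field_simp; ring
  have hDne : ∀ i ∈ Finset.Ioo 0 N, D i ≠ 0 := by
    intro i hi
    rw [Finset.mem_Ioo] at hi
    have h1 : ζ ^ i ≠ 1 := hζ.pow_ne_one_of_pos_of_lt hi.1.ne' hi.2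
    intro h
    apply h1
    have h3 : (ζ ^ i - 1) ^ 2 = 0 := by
      have := hDw i
      rw [h, zero_mul] at this
      linear_combination this
    have := pow_eq_zero_iff (n := 2) (by norm_num) |>.mp h3
    linear_combination this
  have geo : ∀ x : K, x ≠ 1 → x ^ N = 1 → ∑ i ∈ Finset.range N, x ^ i = 0 := by
    intro x hx hxN
    rw [geom_sum_eq hx, hxN, sub_self, zero_div]
  have geo' : ∀ m : ℕ, 0 < m → m < N → ∑ i ∈ Finset.Ioo 0 N, (ζ ^ i) ^ m = -1 := by
    intro m hm1 hm2
    have hx : ζ ^ m ≠ 1 := hζ.pow_ne_one_of_pos_of_lt hm1.ne' hm2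
    have hs := geo (ζ ^ m) hx (hNeK m)
    rw [Finset.range_eq_Ico, Finset.sum_eq_sum_Ico_succ_bot hN] at hs
    have : ∑ i ∈ Finset.Ioo 0 N, (ζ ^ i) ^ m = ∑ k ∈ Finset.Ico (0 + 1) N, (ζ ^ m) ^ k := by
      apply Finset.sum_congr (by ext; simp; omega)
      intro i _; rw [← pow_mul, ← pow_mul, mul_comm]
    rw [this]; simp only [pow_zero] at hs; linear_combination hs
  set f : ℕ → K := fun m => ∑ i ∈ Finset.Ioo 0 N, (ζ ^ i) ^ m / D i with hf
  set g : ℕ → K := fun m => (m : K) * ((m : K) - (N : K)) / 2 + ((N : K) ^ 2 - 1) / 12 with hg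
  show f j = g j
  have sdf : ∀ m, m + 2 ≤ N → f (m+2) - 2 * f (m+1) + f m = 1 := by
    intro m hm
    have : f (m+2) - 2 * f (m+1) + f m = -∑ i ∈ Finset.Ioo 0 N, (ζ ^ i) ^ (m+1) := by
      simp only [hf, Finset.mul_sum, ← Finset.sum_sub_distrib, ← Finset.sum_add_distrib,
        ← Finset.sum_neg_distrib]
      apply Finset.sum_congr rfl
      intro i hi
      have hDi := hDne i hi
      rw [show (ζ ^ i) ^ (m + 2) / D i - 2 * ((ζ ^ i) ^ (m + 1) / D i) + (ζ ^ i) ^ m / D i
          = ((ζ ^ i) ^ (m + 2) - 2 * (ζ ^ i) ^ (m + 1) + (ζ ^ i) ^ m) / D i by ring]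
      rw [div_eq_iff hDi]
      linear_combination ((ζ ^ i) ^ m) * hDw i
    rw [this, geo' (m+1) (by omega) (by omega)]; ring
  have sdg : ∀ m, g (m+2) - 2 * g (m+1) + g m = 1 := by
    intro m
    simp only [hg]; push_cast; field_simp; ring
  set h : ℕ → K := fun m => f m - g m with hh
  have sdh : ∀ m, m + 2 ≤ N → h (m+2) - 2 * h (m+1) + h m = 0 := by
    intro m hm
    simp only [hh]; linear_combination sdf m hm - sdg m
  have lin : ∀ m, m + 1 ≤ N → (h m = h 0 + m * (h 1 - h 0) ∧
      h (m+1) = h 0 + ((m:K)+1) * (h 1 - h 0)) := by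
    intro m
    induction m with
    | zero => intro _; constructor <;> simp
    | succ k ih =>
      intro hk
      obtain ⟨_, ih2⟩ := ih (by omega)
      constructor
      · rw [ih2]; push_cast; ring
      · have := sdh k (by omega)
        have ih1 := (ih (by omega)).1
        push_cast
        linear_combination this + 2 * ih2 - ih1
  have lin' : ∀ m, m ≤ N → h m = h 0 + m * (h 1 - h 0) := by
    intro m hm
    rcases m with _ | k
    · simp
    · rw [(lin k (by omega)).2]; push_cast; ring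
  have hfN : f N = f 0 := by simp only [hf, hNeK, pow_zero]
  have hgN : g N = g 0 := by simp only [hg]; push_cast; ring
  have hhN : h N = h 0 := by simp only [hh, hfN, hgN]
  have hd : h 1 - h 0 = 0 := by
    have := lin' N le_rfl
    rw [hhN] at this
    have h' : (N:K) * (h 1 - h 0) = 0 := by linear_combination -this
    rcases mul_eq_zero.mp h' with h'' | h''
    · exact absurd h'' hNK
    · exact h''
  have hconst : ∀ m, m ≤ N → h m = h 0 := by
    intro m hm; rw [lin' m hm, hd, mul_zero, add_zero]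
  have sumf : ∑ m ∈ Finset.range N, f m = 0 := by
    simp only [hf]
    rw [Finset.sum_comm]
    apply Finset.sum_eq_zero
    intro i hi
    rw [← Finset.sum_div]
    rw [Finset.mem_Ioo] at hi
    rw [geo (ζ ^ i) (hζ.pow_ne_one_of_pos_of_lt hi.1.ne' hi.2) (hNeK i), zero_div]
  have sumg_aux : ∀ n : ℕ, ∑ m ∈ Finset.range n, (6 * ((m:K) * ((m:K) - N)) + ((N:K)^2 - 1))
      = (n:K) * ((n:K) - 1) * (2 * n - 1) - 3 * N * n * (n - 1) + n * ((N:K)^2 - 1) := by
    intro n; induction n with
    | zero => simp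
    | succ n ih => rw [Finset.sum_range_succ, ih]; push_cast; ring
  have sumg : ∑ m ∈ Finset.range N, g m = 0 := by
    have : ∀ m : ℕ, g m = (6 * ((m:K) * ((m:K) - N)) + ((N:K)^2 - 1)) / 12 := by
      intro m; simp only [hg]; field_simp; ring
    simp only [this, ← Finset.sum_div, sumg_aux]
    rw [div_eq_zero_iff]; left; ring
  have sumh : ∑ m ∈ Finset.range N, h m = (N:K) * h 0 := by
    rw [Finset.sum_congr rfl (fun m hm => hconst m (by simp at hm; omega))]
    simp
  have hh0 : h 0 = 0 := by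
    have : ∑ m ∈ Finset.range N, h m = 0 := by
      simp only [hh, Finset.sum_sub_distrib, sumf, sumg, sub_zero]
    rw [sumh] at this
    rcases mul_eq_zero.mp this with h'' | h''
    · exact absurd h'' hNK
    · exact h''
  have := hconst j hj.le
  rw [hh0] at this
  simp only [hh] at this
  linear_combination this

end Groth.Agent.S18188
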