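import Groth.Statements.S18189
import Groth.Agent.S18188
import Mathlib.Tactic
-- import your own Groth.Agent.* helpers here

set_option autoImplicit false
open OrbRR

namespace Groth.Agent.S18189

/-- Let N ≥ 1 be a natural number, let ζ ∈ ℂ be a primitive N-th root of unity, and put f(i) = i(i −
N)/2 + (N² − 1)/12 for 0 ≤ i < N. For every natural number m the complex number ε_m = (1/N)
∑_{i=0}^{N−1} f(i) ζ^{mi}, an eigenvalue of the symmetric circulant N × N matrix with (i, j) entry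
f(j − i)/N, is real and nonnegative. -/
theorem result (N : ℕ) (hN : 0 < N) (ζ : ℂ)
    (hζ : IsPrimitiveRoot ζ N) (m : ℕ) :
    (∑ i ∈ Finset.range N,
        ((i : ℂ) * ((i : ℂ) - (N : ℂ)) / 2 + ((N : ℂ) ^ 2 - 1) / 12) / (N : ℂ) * ζ ^ (m * i)).im = 0 ∧
    0 ≤ (∑ i ∈ Finset.range N,
        ((i : ℂ) * ((i : ℂ) - (N : ℂ)) / 2 + ((N : ℂ) ^ 2 - 1) / 12) / (N : ℂ) * ζ ^ (m * i)).re := by
  have h6 : (6:ℂ) ≠ 0 := by norm_num
  have hNC : (N:ℂ) ≠ 0 := by exact_mod_cast hN.ne'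
  have hζn : ‖ζ‖ = 1 := hζ.norm'_eq_one hN.ne'
  have key : ∀ i ∈ Finset.range N, ((i : ℂ) * ((i : ℂ) - (N : ℂ)) / 2 + ((N : ℂ) ^ 2 - 1) / 12)
      = ∑ k ∈ Finset.Ioo 0 N, ζ ^ (k * i) / (2 - ζ ^ k - (ζ ^ k)⁻¹) := by
    intro i hi
    exact (Groth.Agent.S18188.result ℂ h6 N i (Finset.mem_range.mp hi) ζ hζ).symm
  have hsum : ∑ i ∈ Finset.range N,
        ((i : ℂ) * ((i : ℂ) - (N : ℂ)) / 2 + ((N : ℂ) ^ 2 - 1) / 12) / (N : ℂ) * ζ ^ (m * i)
      = ∑ k ∈ Finset.Ioo 0 N, (∑ i ∈ Finset.range N, (ζ ^ (k + m)) ^ i) /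
          ((N:ℂ) * (2 - ζ ^ k - (ζ ^ k)⁻¹)) := by
    rw [Finset.sum_congr rfl (fun i hi => by rw [key i hi])]
    simp only [Finset.sum_div, Finset.sum_mul]
    rw [Finset.sum_comm]
    apply Finset.sum_congr rfl; intro k _
    apply Finset.sum_congr rfl; intro i _
    rw [← pow_mul, add_mul, pow_add, mul_comm m i]
    simp only [div_eq_mul_inv, mul_inv]
    ring
  have hterm : ∀ k ∈ Finset.Ioo 0 N, ∃ r : ℝ, 0 ≤ r ∧
      (∑ i ∈ Finset.range N, (ζ ^ (k + m)) ^ i) / ((N:ℂ) * (2 - ζ ^ k - (ζ ^ k)⁻¹)) = (r : ℂ) := by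
    intro k hk
    rw [Finset.mem_Ioo] at hk
    set z := ζ ^ k with hz
    have hz1 : z ≠ 1 := hζ.pow_ne_one_of_pos_of_lt hk.1.ne' hk.2
    have hzn : ‖z‖ = 1 := by rw [hz, norm_pow, hζn, one_pow]
    have hzz : z * (starRingEnd ℂ) z = 1 := by
      rw [Complex.mul_conj, Complex.normSq_eq_norm_sq, hzn]; norm_num
    have hD : (2 - z - z⁻¹) = ((Complex.normSq (1 - z) : ℝ) : ℂ) := by
      rw [← Complex.mul_conj, Complex.inv_eq_conj hzn, map_sub, map_one]
      linear_combination -hzz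
    have hpos : 0 < Complex.normSq (1 - z) := by
      rw [Complex.normSq_pos]; intro h; apply hz1; linear_combination -h
    by_cases hw : ζ ^ (k + m) = 1
    · refine ⟨1 / Complex.normSq (1 - z), by positivity, ?_⟩
      rw [hw]; simp only [one_pow, Finset.sum_const, Finset.card_range, nsmul_eq_mul, mul_one]
      rw [hD]
      have : ((Complex.normSq (1 - z) : ℝ) : ℂ) ≠ 0 := by exact_mod_cast hpos.ne'
      push_cast
      field_simp
    · refine ⟨0, le_rfl, ?_⟩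
      have hwN : (ζ ^ (k + m)) ^ N = 1 := by
        rw [← pow_mul, mul_comm, pow_mul, hζ.pow_eq_one, one_pow]
      rw [geom_sum_eq hw, hwN, sub_self, zero_div, zero_div, Complex.ofReal_zero]
  rw [hsum, Complex.im_sum, Complex.re_sum]
  constructor
  · apply Finset.sum_eq_zero
    intro k hk
    obtain ⟨r, _, hr⟩ := hterm k hk
    rw [hr, Complex.ofReal_im]
  · apply Finset.sum_nonneg
    intro k hk
    obtain ⟨r, hr0, hr⟩ := hterm k hk
    rw [hr, Complex.ofReal_re]; exact hr0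

end Groth.Agent.S18189
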