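import Groth.Statements.S18190
import Groth.Agent.S18188
import Mathlib.Tactic
-- import your own Groth.Agent.* helpers here

set_option autoImplicit false
open OrbRR

namespace Groth.Agent.S18190

lemma pow_val_sub {N : ℕ} [NeZero N] (w : ℂ) (hw : w ^ N = 1) (i j : ZMod N) :
    w ^ (j - i).val * w ^ i.val = w ^ j.val := by
  have key : ∀ A : ℕ, w ^ A = w ^ (A % N) := by
    intro A
    conv_lhs => rw [← Nat.mod_add_div A N, pow_add, pow_mul, hw, one_pow, mul_one]
  rw [← pow_add, key ((j - i).val + i.val), ← ZMod.val_add, sub_add_cancel]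

/-- Let N ≥ 1 and let f : ℤ/Nℤ → ℚ be f(x) = x(x − N)/2 + (N² − 1)/12, where x is read as its
representative with 0 ≤ x < N. The real N × N matrix indexed by ℤ/Nℤ whose (i, j) entry is f(j −
i)/N, a symmetric circulant matrix, is positive semidefinite. -/
theorem result (N : ℕ) [NeZero N] :
    (Matrix.of fun i j : ZMod N =>
        ((((j - i).val : ℝ) * (((j - i).val : ℝ) - (N : ℝ))) / 2 + ((N : ℝ) ^ 2 - 1) / 12) / (N : ℝ)).PosSemidef := by
  have hNpos : 0 < N := Nat.pos_of_ne_zero (NeZero.ne N)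
  apply Matrix.PosSemidef.of_dotProduct_mulVec_nonneg
  · apply Matrix.IsHermitian.ext
    intro i j
    simp only [Matrix.of_apply, star_trivial]
    by_cases h : j - i = 0
    · have h' : i - j = 0 := by rw [← neg_sub, h, neg_zero]
      rw [h, h']
    · have h' : i - j = -(j - i) := by rw [neg_sub]
      have : NeZero (j - i) := ⟨h⟩
      rw [h', ZMod.val_neg_of_ne_zero]
      have hle : (j - i).val ≤ N := (ZMod.val_lt _).le
      push_cast [Nat.cast_sub hle]
      ring
  · intro x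
    simp only [star_trivial]
    set ζ : ℂ := Complex.exp (2 * Real.pi * Complex.I / N) with hζ
    have hprim : IsPrimitiveRoot ζ N := Complex.isPrimitiveRoot_exp N (NeZero.ne N)
    have hζn : ‖ζ‖ = 1 := hprim.norm'_eq_one (NeZero.ne N)
    have hNC : (N:ℂ) ≠ 0 := by exact_mod_cast (NeZero.ne N)
    have hexp : ∀ v : ℕ, v < N → ((v : ℂ) * ((v : ℂ) - (N : ℂ))) / 2 + ((N : ℂ) ^ 2 - 1) / 12
        = ∑ k ∈ Finset.Ioo 0 N, ζ ^ (k * v) / (2 - ζ ^ k - (ζ ^ k)⁻¹) := by
      intro v hv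
      rw [Groth.Agent.S18188.result ℂ (by norm_num) N v hv ζ hprim]
    have hD : ∀ k ∈ Finset.Ioo 0 N,
        ((Complex.normSq (1 - ζ ^ k) : ℝ) : ℂ) = 2 - ζ ^ k - (ζ ^ k)⁻¹ := by
      intro k _
      have hzn : ‖ζ ^ k‖ = 1 := by rw [norm_pow, hζn, one_pow]
      have hzz : ζ ^ k * (starRingEnd ℂ) (ζ ^ k) = 1 := by
        rw [Complex.mul_conj, Complex.normSq_eq_norm_sq, hzn]; norm_num
      rw [← Complex.mul_conj, Complex.inv_eq_conj hzn, map_sub, map_one]
      linear_combination hzz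
    have hS : ∀ k : ℕ, ((Complex.normSq (∑ j : ZMod N, (x j : ℂ) * (ζ ^ k) ^ j.val) : ℝ) : ℂ)
        = ∑ i : ZMod N, ∑ j : ZMod N, (x i : ℂ) * (x j : ℂ) * (ζ ^ k) ^ (j - i).val := by
      intro k
      set w := ζ ^ k with hw
      have hwn : ‖w‖ = 1 := by rw [hw, norm_pow, hζn, one_pow]
      have hwN : w ^ N = 1 := by rw [hw, ← pow_mul, mul_comm, pow_mul, hprim.pow_eq_one, one_pow]
      have hw0 : w ≠ 0 := by intro h; rw [h] at hwn; simp at hwn
      rw [← Complex.mul_conj, map_sum, Finset.sum_mul_sum]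
      rw [Finset.sum_comm]
      apply Finset.sum_congr rfl; intro i _
      apply Finset.sum_congr rfl; intro j _
      rw [map_mul, Complex.conj_ofReal, map_pow, ← Complex.inv_eq_conj hwn]
      have := pow_val_sub w hwN i j
      have hi0 : w ^ i.val ≠ 0 := pow_ne_zero _ hw0
      rw [← this, inv_pow]
      field_simp
    have hQ : dotProduct x (Matrix.mulVec (Matrix.of fun i j : ZMod N => ((((j - i).val : ℝ) *
        (((j - i).val : ℝ) - (N : ℝ))) / 2 + ((N : ℝ) ^ 2 - 1) / 12) / (N : ℝ)) x)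
        = ∑ k ∈ Finset.Ioo 0 N, (1 / ((N:ℝ) * Complex.normSq (1 - ζ ^ k))) *
            Complex.normSq (∑ j : ZMod N, (x j : ℂ) * (ζ ^ k) ^ j.val) := by
      have hexp' : ∀ a : ZMod N, ((a.val : ℂ) * ((a.val : ℂ) - (N : ℂ))) / 2 + ((N : ℂ) ^ 2 - 1) / 12
          = ∑ k ∈ Finset.Ioo 0 N, ζ ^ (k * a.val) / (2 - ζ ^ k - (ζ ^ k)⁻¹) :=
        fun a => hexp a.val (ZMod.val_lt a)
      have eR : ((∑ k ∈ Finset.Ioo 0 N, (1 / ((N:ℝ) * Complex.normSq (1 - ζ ^ k))) *
            Complex.normSq (∑ j : ZMod N, (x j : ℂ) * (ζ ^ k) ^ j.val) : ℝ) : ℂ)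
          = ∑ k ∈ Finset.Ioo 0 N, ∑ i : ZMod N, ∑ j : ZMod N,
              (x i : ℂ) * (x j : ℂ) * (ζ ^ k) ^ (j - i).val / ((N:ℂ) * (2 - ζ ^ k - (ζ ^ k)⁻¹)) := by
        push_cast
        apply Finset.sum_congr rfl; intro k hk
        rw [hS k, hD k hk, Finset.mul_sum]
        apply Finset.sum_congr rfl; intro i _
        rw [Finset.mul_sum]
        apply Finset.sum_congr rfl; intro j _
        ring
      apply Complex.ofReal_injective
      rw [eR]
      simp only [dotProduct, Matrix.mulVec, Matrix.of_apply]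
      push_cast
      simp only [hexp', Finset.sum_div, Finset.sum_mul, Finset.mul_sum]
      conv_rhs => rw [Finset.sum_comm]
      apply Finset.sum_congr rfl; intro i _
      conv_rhs => rw [Finset.sum_comm]
      apply Finset.sum_congr rfl; intro j _
      apply Finset.sum_congr rfl; intro k _
      rw [← pow_mul]
      simp only [div_eq_mul_inv, mul_inv]
      ring
    rw [hQ]
    apply Finset.sum_nonneg; intro k _
    exact mul_nonneg (div_nonneg zero_le_one (mul_nonneg (Nat.cast_nonneg _)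
      (Complex.normSq_nonneg _))) (Complex.normSq_nonneg _)

end Groth.Agent.S18190
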