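import Groth.Statements.S18292
import Mathlib.Tactic
import Mathlib.CategoryTheory.Limits.Types.Pullbacks

set_option autoImplicit false
universe v₁ u₁
open CategoryTheory MonoidalCategory CartesianMonoidalCategory MonObj Opposite
open Magnet Magnet.MonAct

namespace Groth.Agent.S18292

/-- Let A be a monoid object of a cartesian monoidal category acting on objects B, X₁, X₂, X₃ and P, let
f₁ : X₁ → X₂ and f₃ : X₃ → X₂ be equivariant, and let p₁ : P → X₁, p₃ : P → X₃ be equivariant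
morphisms making P the fibre product X₁ ×_{X₂} X₃ (in the source A = A(M)_S acts on S-spaces, B =
A(N)_S for a magnet N, and the fibre product carries its canonical action). Then attractors commute
with this fibre product: the square of functors T ↦ (equivariant maps B × T → ·) induced by p₁, p₃,
f₁, f₃ is cartesian, (X₁ ×_{X₂} X₃)^N = X₁^N ×_{X₂^N} X₃^N. -/
theorem result {C : Type u₁} [Category.{v₁} C] [CartesianMonoidalCategory C]
    {A B X₁ X₂ X₃ P : C} [MonObj A] (ρ : Magnet.MonAct A B) (a₁ : Magnet.MonAct A X₁) (a₂ : Magnet.MonAct A X₂)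
    (a₃ : Magnet.MonAct A X₃) (aP : Magnet.MonAct A P) (f₁ : X₁ ⟶ X₂) (f₃ : X₃ ⟶ X₂) (p₁ : P ⟶ X₁) (p₃ : P ⟶ X₃)
    (hsq : IsPullback p₁ p₃ f₁ f₃) (hf₁ : Magnet.MonAct.IsEquivariant a₁ a₂ f₁)
    (hf₃ : Magnet.MonAct.IsEquivariant a₃ a₂ f₃) (hp₁ : Magnet.MonAct.IsEquivariant aP a₁ p₁)
    (hp₃ : Magnet.MonAct.IsEquivariant aP a₃ p₃) :
    IsPullback (Magnet.MonAct.eqvHom.postcomp ρ p₁ hp₁) (Magnet.MonAct.eqvHom.postcomp ρ p₃ hp₃)
      (Magnet.MonAct.eqvHom.postcomp ρ f₁ hf₁) (Magnet.MonAct.eqvHom.postcomp ρ f₃ hf₃) := by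
  apply IsPullback.of_forall_isPullback_app
  intro T
  rw [CategoryTheory.Limits.Types.isPullback_iff]
  refine ⟨?_, ?_, ?_⟩
  · ext φ
    apply Subtype.ext
    change (φ.1 ≫ p₁) ≫ f₁ = (φ.1 ≫ p₃) ≫ f₃
    rw [Category.assoc, Category.assoc, hsq.w]
  · rintro φ ψ ⟨h1, h3⟩
    have e1 := congrArg Subtype.val h1
    have e3 := congrArg Subtype.val h3
    rw [eqvHom.postcomp_app_coe, eqvHom.postcomp_app_coe] at e1 e3
    exact Subtype.ext (hsq.hom_ext e1 e3)
  · intro x₂ x₃ hx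
    have hx' := congrArg Subtype.val hx
    rw [eqvHom.postcomp_app_coe, eqvHom.postcomp_app_coe] at hx'
    let φ : B ⊗ unop T ⟶ P := hsq.lift x₂.1 x₃.1 hx'
    have hφ₁ : φ ≫ p₁ = x₂.1 := hsq.lift_fst _ _ _
    have hφ₃ : φ ≫ p₃ = x₃.1 := hsq.lift_snd _ _ _
    have h2 := x₂.2
    have h3 := x₃.2
    unfold IsEquivariant at h2 h3 hp₁ hp₃
    refine ⟨⟨φ, ?_⟩, ?_, ?_⟩
    · unfold IsEquivariant
      apply hsq.hom_ext
      · rw [Category.assoc, Category.assoc, hφ₁, hp₁, h2, ← Category.assoc,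
          ← MonoidalCategory.whiskerLeft_comp, hφ₁]
      · rw [Category.assoc, Category.assoc, hφ₃, hp₃, h3, ← Category.assoc,
          ← MonoidalCategory.whiskerLeft_comp, hφ₃]
    · exact Subtype.ext hφ₁
    · exact Subtype.ext hφ₃

end Groth.Agent.S18292
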