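import Groth.Statements.S18293
import Mathlib.Tactic

set_option autoImplicit false
universe v₁ u₁
open CategoryTheory MonoidalCategory CartesianMonoidalCategory MonObj Opposite
open Magnet Magnet.MonAct

namespace Groth.Agent.S18293

/-- Let A be a monoid object of a cartesian monoidal category acting on X₁, X₂ and X₃, let f₁ : X₁ → X₂
and f₃ : X₃ → X₂ be equivariant, and let p₁ : P → X₁, p₃ : P → X₃ make P the fibre product X₁ ×_{X₂}
X₃ (in the source A = A(M)_S acts on S-spaces). Then P carries exactly one action of A for which p₁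
and p₃ are equivariant (the canonical action g • (x₁, x₃) = (g • x₁, g • x₃)); with it the square is
cartesian among objects with A-action. -/
theorem result {C : Type u₁} [Category.{v₁} C] [CartesianMonoidalCategory C]
    {A X₁ X₂ X₃ P : C} [MonObj A] (a₁ : Magnet.MonAct A X₁) (a₂ : Magnet.MonAct A X₂) (a₃ : Magnet.MonAct A X₃)
    (f₁ : X₁ ⟶ X₂) (f₃ : X₃ ⟶ X₂) (p₁ : P ⟶ X₁) (p₃ : P ⟶ X₃) (hsq : IsPullback p₁ p₃ f₁ f₃)
    (hf₁ : Magnet.MonAct.IsEquivariant a₁ a₂ f₁) (hf₃ : Magnet.MonAct.IsEquivariant a₃ a₂ f₃) :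
    ∃! aP : Magnet.MonAct A P, Magnet.MonAct.IsEquivariant aP a₁ p₁ ∧ Magnet.MonAct.IsEquivariant aP a₃ p₃ := by
  have hw : ((A ◁ p₁) ≫ a₁.act) ≫ f₁ = ((A ◁ p₃) ≫ a₃.act) ≫ f₃ := by
    rw [Category.assoc, Category.assoc, hf₁, hf₃, ← Category.assoc, ← Category.assoc,
      ← MonoidalCategory.whiskerLeft_comp, ← MonoidalCategory.whiskerLeft_comp, hsq.w]
  let act : A ⊗ P ⟶ P := hsq.lift ((A ◁ p₁) ≫ a₁.act) ((A ◁ p₃) ≫ a₃.act) hw
  have hact₁ : act ≫ p₁ = (A ◁ p₁) ≫ a₁.act := hsq.lift_fst _ _ _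
  have hact₃ : act ≫ p₃ = (A ◁ p₃) ≫ a₃.act := hsq.lift_snd _ _ _
  let aP : MonAct A P := MonAct.mk' act
    (fun T x => by
      apply hsq.hom_ext
      · rw [Category.assoc, hact₁, lift_whiskerLeft_assoc, lift_one_act]
      · rw [Category.assoc, hact₃, lift_whiskerLeft_assoc, lift_one_act])
    (fun T g h x => by
      apply hsq.hom_ext
      · rw [Category.assoc, Category.assoc, hact₁, lift_whiskerLeft_assoc, lift_whiskerLeft_assoc,
          Category.assoc, hact₁, lift_whiskerLeft_assoc, lift_mul_act]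
      · rw [Category.assoc, Category.assoc, hact₃, lift_whiskerLeft_assoc, lift_whiskerLeft_assoc,
          Category.assoc, hact₃, lift_whiskerLeft_assoc, lift_mul_act])
  refine ⟨aP, ⟨hact₁, hact₃⟩, ?_⟩
  rintro b ⟨hb₁, hb₃⟩
  apply MonAct.ext'
  show b.act = act
  apply hsq.hom_ext
  · rw [hact₁]; exact hb₁
  · rw [hact₃]; exact hb₃

end Groth.Agent.S18293
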