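import Groth.Statements.S18301
import Mathlib.Tactic

set_option autoImplicit false
universe v₁ u₁
open CategoryTheory MonoidalCategory CartesianMonoidalCategory MonObj Opposite
open Magnet Magnet.MonAct

namespace Groth.Agent.S18301

/-- Let A be a monoid object of a cartesian monoidal category acting on B and on a group object X by
group endomorphisms, i.e. the multiplication of X is equivariant for the diagonal action on X × X
(in the source A = A(M)_S, B = A(N)_S and X is a group S-space). Then X^N is a group functor: for
every T the equivariant maps B × T → X are closed under pointwise inversion in the group of maps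
into X (closure under products and the unit being the monoid case). -/
theorem result {C : Type u₁} [Category.{v₁} C]
    [CartesianMonoidalCategory C] {A B X : C} [MonObj A] [GrpObj X] (ρ : Magnet.MonAct A B) (a : Magnet.MonAct A X)
    (hμ : Magnet.MonAct.IsEquivariant (a.prod a) a μ[X]) (T : C) (φ : B ⊗ T ⟶ X)
    (hφ : Magnet.MonAct.IsEquivariant (ρ.prod (Magnet.MonAct.trivial A T)) a φ) :
    Magnet.MonAct.IsEquivariant (ρ.prod (Magnet.MonAct.trivial A T)) a φ⁻¹ := by
  rw [isEquivariant_iff] at hφ hμ ⊢
  intro T' g x
  rw [← Category.assoc, GrpObj.comp_inv, Category.assoc, hφ, GrpObj.comp_inv]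
  let S : (T' ⟶ X) →* (T' ⟶ X) := MonoidHom.mk' (fun w => lift g w ≫ a.act) (by
    intro w1 w2
    rw [Hom.mul_def, Hom.mul_def, ← hμ T' g (lift w1 w2), lift_prod_act_assoc])
  exact (map_inv S (x ≫ φ)).symm

end Groth.Agent.S18301
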