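import Groth.Statements.S18422
import Mathlib.Tactic
import Mathlib.Topology.Algebra.ClopenNhdofOne

set_option autoImplicit false
universe u v
open Pi1

namespace Groth.Agent.S18422

/-- Let p and l be distinct primes, G a profinite group (a compact totally disconnected topological
group) which is pro-p, meaning that every open normal subgroup of G has index a power of p, and H a
profinite group which is pro-l in the same sense. Then every continuous group homomorphism from G to
H is trivial. -/
theorem result {p l : ℕ} (hp : p.Prime) (hl : l.Prime) (hpl : p ≠ l)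
    (G : Type u) [Group G] [TopologicalSpace G] [IsTopologicalGroup G] [CompactSpace G]
    [TotallyDisconnectedSpace G]
    (H : Type v) [Group H] [TopologicalSpace H] [IsTopologicalGroup H] [CompactSpace H]
    [TotallyDisconnectedSpace H]
    (hG : ∀ U : OpenNormalSubgroup G, ∃ n : ℕ, U.toSubgroup.index = p ^ n)
    (hH : ∀ V : OpenNormalSubgroup H, ∃ n : ℕ, V.toSubgroup.index = l ^ n)
    (f : G →* H) (hf : Continuous f) (g : G) : f g = 1 := by
  by_contra hne
  haveI : T1Space H := inferInstance
  obtain ⟨V, hV⟩ := ProfiniteGrp.exist_openNormalSubgroup_sub_open_nhds_of_one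
    (isOpen_compl_singleton (x := f g)) (by simpa using Ne.symm hne)
  have hgV : f g ∉ (V : Set H) := fun h => hV h rfl
  haveI : V.toSubgroup.Normal := V.isNormal'
  let U : OpenNormalSubgroup G :=
    { toOpenSubgroup := V.toOpenSubgroup.comap f hf
      isNormal' := V.isNormal'.comap f }
  obtain ⟨a, ha⟩ := hG U
  obtain ⟨b, hb⟩ := hH V
  have hidx : U.toSubgroup.index = V.toSubgroup.relIndex f.range :=
    Subgroup.index_comap V.toSubgroup f
  have hdvd : p ^ a ∣ l ^ b := by
    rw [← ha, ← hb, hidx]
    exact Subgroup.relIndex_dvd_index_of_normal _ _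
  have ha0 : a = 0 := by
    by_contra ha0
    have hp1 : p ∣ p ^ a := dvd_pow_self p ha0
    have := hp.dvd_of_dvd_pow (hp1.trans hdvd)
    exact hpl ((Nat.prime_dvd_prime_iff_eq hp hl).mp this)
  rw [ha0, pow_zero, Subgroup.index_eq_one] at ha
  have hgU : g ∈ U.toSubgroup := by rw [ha]; exact Subgroup.mem_top g
  exact hgV hgU

end Groth.Agent.S18422
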