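import Groth.Statements.S18429
-- import your own Groth.Agent.* helpers here

set_option autoImplicit false
universe u
open SpinCurv

namespace Groth.Agent.S18429

/-- The piecewise linear candidate. -/
def ep (c j₀ : ℤ) (r : ℕ) (j : ℕ) : ℤ :=
  if (j : ℤ) ≤ j₀ then -c * j else -c * j + r * ((j : ℤ) - j₀)

theorem ep_second_diff (c j₀ : ℤ) (r : ℕ) (j : ℕ) (hj : 1 ≤ j) :
    ep c j₀ r (j - 1) - 2 * ep c j₀ r j + ep c j₀ r (j + 1)
      = if (j : ℤ) = j₀ then (r : ℤ) else 0 := by
  have hj1 : ((j - 1 : ℕ) : ℤ) = (j : ℤ) - 1 := by omega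
  have hj2 : ((j + 1 : ℕ) : ℤ) = (j : ℤ) + 1 := by push_cast; ring
  simp only [ep, hj1, hj2]
  rcases lt_trichotomy ((j : ℤ)) j₀ with h | h | h
  · rw [if_pos (by omega), if_pos (by omega), if_pos (by omega), if_neg (by omega)]; ring
  · have e1 : (j : ℤ) - 1 ≤ j₀ := by omega
    have e2 : (j : ℤ) ≤ j₀ := by omega
    have e3 : ¬ ((j : ℤ) + 1 ≤ j₀) := by omega
    rw [if_pos e1, if_pos e2, if_neg e3, if_pos h, h]; ring
  · have e2 : ¬ ((j : ℤ) ≤ j₀) := by omega
    have e3 : ¬ ((j : ℤ) + 1 ≤ j₀) := by omega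
    have e4 : ¬ ((j : ℤ) = j₀) := by omega
    rw [if_neg e2, if_neg e3, if_neg e4]
    split_ifs with e1
    · have : j₀ = (j : ℤ) - 1 := by omega
      rw [this]; ring
    · ring


/-- Let n ≥ 1 and r ≥ 2 be integers and let e_0, …, e_{nr} be integers with e_0 = e_{nr} = 0 (the
coefficients of a chain of nr - 1 exceptional curves joining two non-exceptional components with
coefficient zero) such that at every interior index 1 ≤ j ≤ nr - 1 the second difference e_{j-1} - 2
e_j + e_{j+1} (the degree of the divisor Σ e_i E_i on the j-th curve of the chain) is divisible by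
r. Then there are integers e'_0, …, e'_{nr}, with e'_j ≡ e_j modulo r for every interior j, with
e'_0 = e'_{nr} = 0 and every e'_j ≤ 0, whose second differences at the interior indices are each 0
or r, and are nonzero at no two distinct interior indices. -/
theorem result (n r : ℕ) (hn : 1 ≤ n) (hr : 2 ≤ r)
    (e : ℕ → ℤ) (he0 : e 0 = 0) (henr : e (n * r) = 0)
    (hdiv : ∀ j : ℕ, 1 ≤ j → j < n * r → (r : ℤ) ∣ e (j - 1) - 2 * e j + e (j + 1)) :
    ∃ e' : ℕ → ℤ, e' 0 = 0 ∧ e' (n * r) = 0 ∧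
      (∀ j : ℕ, 1 ≤ j → j < n * r → (r : ℤ) ∣ e' j - e j) ∧
      (∀ j : ℕ, j ≤ n * r → e' j ≤ 0) ∧
      (∀ j : ℕ, 1 ≤ j → j < n * r →
        (e' (j - 1) - 2 * e' j + e' (j + 1) = 0 ∨ e' (j - 1) - 2 * e' j + e' (j + 1) = r)) ∧
      (∀ j j' : ℕ, 1 ≤ j → j < n * r → 1 ≤ j' → j' < n * r →
        e' (j - 1) - 2 * e' j + e' (j + 1) ≠ 0 → e' (j' - 1) - 2 * e' j' + e' (j' + 1) ≠ 0 → j = j') := by
  have key : ∀ j : ℕ, j < n * r →
      (r : ℤ) ∣ e j - (j : ℤ) * e 1 ∧ (r : ℤ) ∣ e (j + 1) - ((j : ℤ) + 1) * e 1 := by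
    intro j
    induction j with
    | zero => intro _; simp [he0]
    | succ j ih =>
      intro hj
      obtain ⟨h1, h2⟩ := ih (by omega)
      refine ⟨by push_cast; exact h2, ?_⟩
      have h3 := hdiv (j + 1) (by omega) hj
      simp only [Nat.add_sub_cancel] at h3
      have : e (j + 1 + 1) - (((j + 1 : ℕ) : ℤ) + 1) * e 1
          = (e j - 2 * e (j + 1) + e (j + 1 + 1)) - (e j - (j : ℤ) * e 1)
            + 2 * (e (j + 1) - ((j : ℤ) + 1) * e 1) := by push_cast; ring
      rw [this]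
      exact dvd_add (dvd_sub h3 h1) (dvd_mul_of_dvd_right h2 _)
  have hrpos : (0 : ℤ) < r := by omega
  set c : ℤ := (-e 1) % (r : ℤ) with hc
  have hc0 : 0 ≤ c := Int.emod_nonneg _ (by omega)
  have hcr : c < r := Int.emod_lt_of_pos _ hrpos
  have hc_cong : (r : ℤ) ∣ c + e 1 := by
    have := Int.emod_def (-e 1) (r : ℤ)
    exact ⟨-((-e 1) / (r : ℤ)), by rw [hc, this]; ring⟩
  set j₀ : ℤ := ((r : ℤ) - c) * n with hj₀
  have hj₀0 : 0 ≤ j₀ := mul_nonneg (by linarith) (by positivity)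
  refine ⟨ep c j₀ r, ?_, ?_, ?_, ?_, ?_, ?_⟩
  · simp [ep, hj₀0]
  · unfold ep
    split_ifs with h
    · have : c * n ≤ 0 := by push_cast at h; nlinarith
      have hc' : c = 0 := by
        have : (0 : ℤ) < n := by exact_mod_cast hn
        nlinarith
      rw [hc']; ring
    · push_cast; rw [hj₀]; ring
  · intro j hj1 hj2
    obtain ⟨k1, _⟩ := key j hj2
    have hmain : (r : ℤ) ∣ -c * j - e j := by
      have : -c * (j : ℤ) - e j = -(c + e 1) * j - (e j - (j : ℤ) * e 1) := by ring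
      rw [this]
      exact dvd_sub (dvd_mul_of_dvd_left (dvd_neg.2 hc_cong) _) k1
    unfold ep
    split_ifs
    · exact hmain
    · have : -c * (j : ℤ) + r * ((j : ℤ) - j₀) - e j = (-c * j - e j) + r * ((j : ℤ) - j₀) := by ring
      rw [this]
      exact dvd_add hmain (dvd_mul_right _ _)
  · intro j hj
    unfold ep
    split_ifs with h
    · have : (0 : ℤ) ≤ j := by positivity
      nlinarith
    · have hjr : (j : ℤ) ≤ (n : ℤ) * r := by exact_mod_cast hj
      have : -c * (j : ℤ) + r * ((j : ℤ) - j₀) = ((r : ℤ) - c) * ((j : ℤ) - n * r) := by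
        rw [hj₀]; ring
      rw [this]
      exact mul_nonpos_of_nonneg_of_nonpos (by linarith) (by linarith)
  · intro j hj1 _
    rw [ep_second_diff c j₀ r j hj1]
    split_ifs
    · right; rfl
    · left; rfl
  · intro j j' hj1 _ hj'1 _ hne hne'
    rw [ep_second_diff c j₀ r j hj1] at hne
    rw [ep_second_diff c j₀ r j' hj'1] at hne'
    split_ifs at hne with h
    · split_ifs at hne' with h'
      · exact_mod_cast h.trans h'.symm
      · exact absurd rfl hne'
    · exact absurd rfl hne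

end Groth.Agent.S18429
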