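import Groth.Statements.S18430
import Mathlib.Tactic

set_option autoImplicit false
universe u
open SpinCurv

namespace Groth.Agent.S18430

/-- Let n ≥ 1 and r ≥ 2 be integers and let e_0, …, e_{nr} be integers, thought of as the coefficients
of two non-exceptional components C = E_0 and D = E_{nr} of the special fibre and of the chain of nr
- 1 exceptional curves joining them. If at every interior index 1 ≤ j ≤ nr - 1 the second difference
e_{j-1} - 2 e_j + e_{j+1} is divisible by r (the degree of the divisor on each exceptional curve of
the chain is a multiple of r), then e_0 ≡ e_{nr} modulo r. (The published statement deduces from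
this step, using that the special fibre is connected, that all non-exceptional components are joined
by such chains and that one non-exceptional coefficient may be taken to be 0, that every
non-exceptional coefficient can be assumed divisible by r; only the chain step is stated here.) -/
theorem result (n r : ℕ) (hn : 1 ≤ n) (hr : 2 ≤ r)
    (e : ℕ → ℤ)
    (hdiv : ∀ j : ℕ, 1 ≤ j → j < n * r → (r : ℤ) ∣ e (j - 1) - 2 * e j + e (j + 1)) :
    (r : ℤ) ∣ e (n * r) - e 0 := by
  have key : ∀ j : ℕ, j < n * r → (r : ℤ) ∣ (e (j + 1) - e j) - (e 1 - e 0) := by
    intro j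
    induction j with
    | zero => intro _; simp
    | succ j ih =>
      intro hj
      have h1 := hdiv (j + 1) (by omega) hj
      simp only [Nat.add_sub_cancel] at h1
      have ih' := ih (by omega)
      have : e (j + 1 + 1) - e (j + 1) - (e 1 - e 0) =
          (e j - 2 * e (j + 1) + e (j + 1 + 1)) + (e (j + 1) - e j - (e 1 - e 0)) := by ring
      rw [this]
      exact dvd_add h1 ih'
  have tele : e (n * r) - e 0 = ∑ j ∈ Finset.range (n * r), (e (j + 1) - e j) :=
    (Finset.sum_range_sub (fun j => e j) (n * r)).symm
  have split : ∑ j ∈ Finset.range (n * r), (e (j + 1) - e j) =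
      ∑ j ∈ Finset.range (n * r), ((e (j + 1) - e j) - (e 1 - e 0)) +
        ((n * r : ℕ) : ℤ) * (e 1 - e 0) := by
    have h' : ∀ j, (e (j + 1) - e j) = ((e (j + 1) - e j) - (e 1 - e 0)) + (e 1 - e 0) := by
      intro j; ring
    rw [Finset.sum_congr rfl (fun j _ => h' j), Finset.sum_add_distrib, Finset.sum_const,
      Finset.card_range, nsmul_eq_mul]
  rw [tele, split]
  apply dvd_add
  · apply Finset.dvd_sum
    intro j hj
    exact key j (Finset.mem_range.mp hj)
  · push_cast
    exact Dvd.dvd.mul_right (Dvd.intro_left _ rfl) _

end Groth.Agent.S18430
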