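import Groth.Statements.S18431
import Mathlib.Tactic

set_option autoImplicit false
universe u
open SpinCurv

namespace Groth.Agent.S18431

/-- Let R be a Noetherian local ring in which the natural number r is invertible and let ξ, ζ ∈ R
satisfy ξ^r = 1 and ζ^r = 1. Then either ξ = ζ, or ξ - ζ is a unit of R. (Consequently an element of
R annihilated by ξ - ζ is zero unless ξ = ζ. In the published setting R is moreover complete; the
step does not use completeness.) -/
theorem result (R : Type u) [CommRing R] [IsNoetherianRing R] [IsLocalRing R]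
    (r : ℕ) (hr : IsUnit (r : R)) (ξ ζ : R) (hξ : ξ ^ r = 1) (hζ : ζ ^ r = 1) :
    ξ = ζ ∨ IsUnit (ξ - ζ) := by
  by_cases hu : IsUnit (ξ - ζ)
  · exact Or.inr hu
  left
  have hm : ξ - ζ ∈ IsLocalRing.maximalIdeal R := hu
  have hres : IsLocalRing.residue R ξ = IsLocalRing.residue R ζ := by
    have := (IsLocalRing.residue_eq_zero_iff (ξ - ζ)).mpr hm
    rw [map_sub, sub_eq_zero] at this
    exact this
  have hr0 : r ≠ 0 := by
    rintro rfl
    simp at hr
  set S := ∑ i ∈ Finset.range r, ξ ^ i * ζ ^ (r - 1 - i) with hS
  have hSu : IsUnit S := by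
    rw [← IsLocalRing.residue_ne_zero_iff_isUnit]
    have hz : (IsLocalRing.residue R ζ) ^ r = 1 := by rw [← map_pow, hζ, map_one]
    have hcalc : IsLocalRing.residue R S = (r : IsLocalRing.ResidueField R) *
        (IsLocalRing.residue R ζ) ^ (r - 1) := by
      rw [hS, map_sum]
      have : ∀ i ∈ Finset.range r, IsLocalRing.residue R (ξ ^ i * ζ ^ (r - 1 - i)) =
          (IsLocalRing.residue R ζ) ^ (r - 1) := by
        intro i hi
        rw [map_mul, map_pow, map_pow, hres, ← pow_add]
        congr 1
        have := Finset.mem_range.mp hi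
        omega
      rw [Finset.sum_congr rfl this, Finset.sum_const, Finset.card_range, nsmul_eq_mul]
    rw [hcalc]
    apply mul_ne_zero
    · have := (IsLocalRing.residue_ne_zero_iff_isUnit (r : R)).mpr hr
      simpa using this
    · intro h0
      have : (IsLocalRing.residue R ζ) ^ r = 0 := by
        obtain ⟨m, hm⟩ : ∃ m, r = m + 1 := ⟨r - 1, by omega⟩
        rw [hm, pow_succ]
        rw [hm] at h0
        simp only [Nat.add_sub_cancel] at h0
        rw [h0, zero_mul]
      rw [hz] at this
      exact one_ne_zero this
  have hprod : S * (ξ - ζ) = 0 := by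
    rw [hS, geom_sum₂_mul, hξ, hζ, sub_self]
  have : ξ - ζ = 0 := by
    rcases hSu with ⟨u, hu'⟩
    have := congrArg (fun x => (↑u⁻¹ : R) * x) hprod
    simp only [mul_zero] at this
    rw [← mul_assoc, ← hu', Units.inv_mul, one_mul] at this
    exact this
  exact sub_eq_zero.mp this

end Groth.Agent.S18431
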