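import Groth.Statements.S18457
import Mathlib.Tactic

set_option autoImplicit false
open Finset
open Surf

namespace Groth.Agent.S18457

theorem card_eq_sum {n : ℕ} (a : Fin n → ℤ) (h01 : ∀ i, a i = 0 ∨ a i = 1) :
    ((Finset.univ.filter (fun i => a i = 1)).card : ℤ) = ∑ i, a i := by
  rw [Finset.card_filter]
  push_cast
  apply Finset.sum_congr rfl
  intro i _
  rcases h01 i with h | h <;> simp [h]

theorem zero_or_one_of {x : ℤ} (hx : 0 ≤ x) (h : x * (x - 1) = 0) : x = 0 ∨ x = 1 := by
  rcases mul_eq_zero.mp h with h | h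
  · left; exact h
  · right; linarith

/-- In the Picard lattice of the plane blown up at n ≤ 8 points, with basis h, e_1, …, e_n, form h² = 1,
e_i² = −1, all other products 0, and anticanonical class D = 3h − Σ e_i, let d·h − Σ a_i e_i be a
class with all a_i ≥ 0 (the class of the strict transform of a degree-d plane curve having
multiplicity a_i at the i-th point) which is a (−2)-class orthogonal to D, that is d² − Σ a_i² = −2
and 3d = Σ a_i. Then one of the following holds: d = 1 and every a_i is 0 or 1 with exactly three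
equal to 1; d = 2 and every a_i is 0 or 1 with exactly six equal to 1; d = 3, n = 8, and one a_i
equals 2 while the remaining seven equal 1. The published statement is geometric: under the
general-position hypotheses on the points, no smooth rational curve on the blown-up plane is
orthogonal to D; this row is the lattice enumeration its proof carries out (a line through three of
the points, a conic through six, a cubic through all eight and singular at one). -/
theorem result (n : ℕ) (hn : n ≤ 8)
    (d : ℤ) (a : Fin n → ℤ) (ha : ∀ i, 0 ≤ a i)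
    (hsq : d ^ 2 - ∑ i, (a i) ^ 2 = -2) (hK : 3 * d = ∑ i, a i) :
    (d = 1 ∧ (∀ i, a i = 0 ∨ a i = 1) ∧ (Finset.univ.filter (fun i => a i = 1)).card = 3) ∨
      (d = 2 ∧ (∀ i, a i = 0 ∨ a i = 1) ∧ (Finset.univ.filter (fun i => a i = 1)).card = 6) ∨
      (d = 3 ∧ n = 8 ∧ ∃ j, a j = 2 ∧ ∀ i, i ≠ j → a i = 1) := by
  have hsq' : ∑ i, a i ^ 2 = d ^ 2 + 2 := by linarith
  have hsum1 : ∑ i, a i * (a i - 1) = (d - 1) * (d - 2) := by
    have e : ∀ i, a i * (a i - 1) = a i ^ 2 - a i := fun i => by ring
    simp only [e, Finset.sum_sub_distrib]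
    rw [hsq', ← hK]
    ring
  have hnn : ∀ i, 0 ≤ a i * (a i - 1) := by
    intro i
    rcases (ha i).eq_or_lt with h | h
    · rw [← h]; simp
    · have : 1 ≤ a i := h
      nlinarith
  have hd0 : 0 ≤ d := by
    have := Finset.sum_nonneg (fun i (_ : i ∈ Finset.univ) => ha i)
    linarith
  have hCS : ∑ i, (3 * a i - d) ^ 2 = ((n : ℤ) - 9) * d ^ 2 + 18 := by
    have e : ∀ i, (3 * a i - d) ^ 2 = 9 * a i ^ 2 - 6 * d * a i + d ^ 2 := fun i => by ring
    simp only [e, Finset.sum_add_distrib, Finset.sum_sub_distrib, ← Finset.mul_sum,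
      Finset.sum_const, Finset.card_univ, Fintype.card_fin, nsmul_eq_mul]
    rw [hsq', ← hK]
    ring
  have hCSnn : (0 : ℤ) ≤ ∑ i, (3 * a i - d) ^ 2 := Finset.sum_nonneg (fun i _ => sq_nonneg _)
  have hn' : (n : ℤ) ≤ 8 := by exact_mod_cast hn
  have hd4 : d ≤ 4 := by nlinarith
  have all01 : ∑ i, a i * (a i - 1) = 0 → ∀ i, a i = 0 ∨ a i = 1 := by
    intro h0 i
    have := (Finset.sum_eq_zero_iff_of_nonneg (fun i (_ : i ∈ Finset.univ) => hnn i)).mp h0 i
      (Finset.mem_univ i)
    exact zero_or_one_of (ha i) this
  interval_cases d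
  · exfalso
    have h0 := (Finset.sum_eq_zero_iff_of_nonneg (fun i (_ : i ∈ Finset.univ) => ha i)).mp
      (by linarith)
    have : ∑ i, a i ^ 2 = 0 := Finset.sum_eq_zero (fun i hi => by rw [h0 i hi]; ring)
    linarith
  · left
    have h01 := all01 (by rw [hsum1]; ring)
    refine ⟨rfl, h01, ?_⟩
    have := card_eq_sum a h01
    rw [← hK] at this
    exact_mod_cast this
  · right; left
    have h01 := all01 (by rw [hsum1]; ring)
    refine ⟨rfl, h01, ?_⟩
    have := card_eq_sum a h01
    rw [← hK] at this
    exact_mod_cast this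
  · right; right
    have hs2 : ∑ i, a i * (a i - 1) = 2 := by rw [hsum1]; ring
    obtain ⟨j, hj⟩ : ∃ j, 2 ≤ a j := by
      by_contra hcon
      push Not at hcon
      have : ∑ i, a i * (a i - 1) = 0 := by
        apply Finset.sum_eq_zero
        intro i _
        have h1 : a i ≤ 1 := by have := hcon i; omega
        rcases (ha i).eq_or_lt with h | h
        · rw [← h]; ring
        · have : a i = 1 := by omega
          rw [this]; ring
      linarith
    have hle : a j * (a j - 1) ≤ 2 := by
      rw [← hs2]
      exact Finset.single_le_sum (fun i (_ : i ∈ Finset.univ) => hnn i) (Finset.mem_univ j)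
    have haj : a j = 2 := by nlinarith
    have hrest : ∑ i ∈ Finset.univ.erase j, a i * (a i - 1) = 0 := by
      have := Finset.add_sum_erase Finset.univ (fun i => a i * (a i - 1)) (Finset.mem_univ j)
      rw [hs2, haj] at this
      linarith
    have h01 : ∀ i ∈ Finset.univ.erase j, a i = 0 ∨ a i = 1 := by
      intro i hi
      have := (Finset.sum_eq_zero_iff_of_nonneg
        (fun i (_ : i ∈ Finset.univ.erase j) => hnn i)).mp hrest i hi
      exact zero_or_one_of (ha i) this
    have hsumr : ∑ i ∈ Finset.univ.erase j, a i = 7 := by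
      have := Finset.add_sum_erase Finset.univ a (Finset.mem_univ j)
      rw [haj, ← hK] at this
      linarith
    have hcard : ((Finset.univ.erase j).card : ℤ) = (n : ℤ) - 1 := by
      rw [Finset.card_erase_of_mem (Finset.mem_univ j), Finset.card_univ, Fintype.card_fin]
      have : 1 ≤ n := by
        rcases n with _ | n
        · exact j.elim0
        · omega
      push_cast [this]
      ring
    have hle1 : ∑ i ∈ Finset.univ.erase j, a i ≤ ∑ i ∈ Finset.univ.erase j, (1 : ℤ) := by
      apply Finset.sum_le_sum
      intro i hi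
      rcases h01 i hi with h | h <;> omega
    rw [Finset.sum_const, nsmul_eq_mul, mul_one, hcard, hsumr] at hle1
    have hn8 : n = 8 := by omega
    refine ⟨rfl, hn8, j, haj, ?_⟩
    intro i hij
    have hi : i ∈ Finset.univ.erase j := Finset.mem_erase.mpr ⟨hij, Finset.mem_univ i⟩
    have hz : ∑ k ∈ Finset.univ.erase j, (1 - a k) = 0 := by
      rw [Finset.sum_sub_distrib, Finset.sum_const, nsmul_eq_mul, mul_one, hcard, hsumr]
      rw [hn8]; norm_num
    have := (Finset.sum_eq_zero_iff_of_nonneg (fun k (hk : k ∈ Finset.univ.erase j) => by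
      rcases h01 k hk with h | h <;> omega)).mp hz i hi
    linarith
  · exfalso
    have hge : ∑ i : Fin n, (1 : ℤ) ≤ ∑ i, (3 * a i - 4) ^ 2 := by
      apply Finset.sum_le_sum
      intro i _
      have hne : 3 * a i - 4 ≠ 0 := by omega
      have hpos : 0 < (3 * a i - 4) ^ 2 := by positivity
      omega
    rw [Finset.sum_const, Finset.card_univ, Fintype.card_fin, nsmul_eq_mul, mul_one, hCS] at hge
    omega

end Groth.Agent.S18457
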