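import Groth.Statements.S18465
import Mathlib.Tactic

set_option autoImplicit false
universe u v w x
open WildLef

namespace Groth.Agent.S18465

/-- Let f : G₁ → G₂ be a homomorphism of groups, ρ : G₂ → Γ a homomorphism with finite image G, and A a
nontrivial commutative ring. Let G₂ act on the group algebra A[G] through ρ followed by the left
regular representation, and G₁ through f. If the elements of A[G] fixed by G₁ coincide with those
fixed by G₂, then ρ ∘ f and ρ have the same image. (The published statement has Γ a general linear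
group GL_r(A); over the zero ring that group is trivial, so requiring A nontrivial and allowing any
target group loses nothing.) -/
theorem result
    {G₁ : Type u} {G₂ : Type v} {Γ : Type w} [Group G₁] [Group G₂] [Group Γ]
    (f : G₁ →* G₂) (ρ : G₂ →* Γ) [Finite ρ.range] (A : Type x) [CommRing A] [Nontrivial A]
    (h : {x : MonoidAlgebra A ρ.range | ∀ g : G₁, MonoidAlgebra.of A ρ.range (ρ.rangeRestrict (f g)) * x = x} =
      {x : MonoidAlgebra A ρ.range | ∀ g : G₂, MonoidAlgebra.of A ρ.range (ρ.rangeRestrict g) * x = x}) :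
    (ρ.comp f).range = ρ.range := by
  classical
  haveI : Fintype ρ.range := Fintype.ofFinite _
  apply le_antisymm
  · rintro _ ⟨g, rfl⟩
    exact ⟨f g, rfl⟩
  set R₁ := (ρ.comp f).range with hR₁
  let c : ρ.range → A := fun h => if (h : Γ) ∈ R₁ then 1 else 0
  let x : MonoidAlgebra A ρ.range := ∑ h : ρ.range, MonoidAlgebra.single h (c h)
  have hxc : ∀ a, x.coeff a = c a := by
    intro a
    simp only [x, MonoidAlgebra.coeff_sum, MonoidAlgebra.coeff_single, Finsupp.finset_sum_apply,
      Finsupp.single_apply]
    simp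
  have hfix : ∀ a : ρ.range, (MonoidAlgebra.of A ρ.range a * x = x ↔ ∀ h, c (a⁻¹ * h) = c h) := by
    intro a
    constructor
    · intro ha h
      have := congrArg (fun y : MonoidAlgebra A ρ.range => y.coeff h) ha
      simp only [MonoidAlgebra.of_apply, MonoidAlgebra.coeff_single_mul_apply, one_mul, hxc] at this
      exact this
    · intro ha
      apply MonoidAlgebra.ext
      ext h
      simp only [MonoidAlgebra.of_apply, MonoidAlgebra.coeff_single_mul_apply, one_mul, hxc]
      exact ha h
  have hx1 : x ∈ {x : MonoidAlgebra A ρ.range | ∀ g : G₁,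
      MonoidAlgebra.of A ρ.range (ρ.rangeRestrict (f g)) * x = x} := by
    intro g
    rw [hfix]
    intro h
    have ha : ((ρ.rangeRestrict (f g) : ρ.range) : Γ) ∈ R₁ := ⟨g, rfl⟩
    have hiff : (((ρ.rangeRestrict (f g))⁻¹ * h : ρ.range) : Γ) ∈ R₁ ↔ (h : Γ) ∈ R₁ := by
      rw [Subgroup.coe_mul, Subgroup.coe_inv]
      exact Subgroup.mul_mem_cancel_left R₁ (R₁.inv_mem ha)
    simp only [c, hiff]
  rw [h] at hx1
  rintro γ ⟨g, rfl⟩
  have h2 := (hfix (ρ.rangeRestrict g)).mp (hx1 g) (ρ.rangeRestrict g)
  rw [inv_mul_cancel] at h2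
  have h1mem : ((1 : ρ.range) : Γ) ∈ R₁ := R₁.one_mem
  simp only [c, h1mem, if_true] at h2
  by_contra hcon
  have : ((ρ.rangeRestrict g : ρ.range) : Γ) ∉ R₁ := by
    simpa using hcon
  simp only [this, if_false] at h2
  exact one_ne_zero h2

end Groth.Agent.S18465
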