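import Groth.Statements.S18490
import Mathlib.Tactic
import Mathlib.RingTheory.Flat.Basic
-- import your own Groth.Agent.* helpers here

set_option autoImplicit false
universe u
open CategoryTheory CategoryTheory.Limits AlgebraicGeometry
open FlatMor

namespace Groth.Agent.S18490

theorem flat_of_retract {A B C : Type*} [CommRing A] [CommRing B] [CommRing C]
    (f : A →+* C) (φ : A →+* B) (ρ : C →+* B) (r : B →+* C) (hφ : φ.Flat)
    (h1 : ρ.comp f = φ) (h2 : r.comp ρ = RingHom.id C) : f.Flat := by
  algebraize [f, φ]
  have hr1 : r.comp φ = f := by rw [← h1, ← RingHom.comp_assoc, h2, RingHom.id_comp]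
  let i : C →ₗ[A] B :=
    { toFun := ρ
      map_add' := map_add ρ
      map_smul' := fun a c => by
        simp only [Algebra.smul_def, RingHom.id_apply, map_mul]
        show ρ (f a) * ρ c = φ a * ρ c
        rw [← h1]; rfl }
  let r' : B →ₗ[A] C :=
    { toFun := r
      map_add' := map_add r
      map_smul' := fun a b => by
        simp only [Algebra.smul_def, RingHom.id_apply, map_mul]
        show r (φ a) * r b = f a * r b
        rw [← hr1]; rfl }
  exact Module.Flat.of_retract i r' (by ext c; exact congrArg (fun g => g c) h2)


/-- Let f : X → S and g : Y → S be morphisms of schemes and suppose that g has a section y : S → Y. If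
the structure morphism X ×_S Y → S (first projection followed by f) is quasi-compact, then so is f;
likewise for locally of finite type, for separated, and for flat. (Finite type, also listed in the
source, is the conjunction of the first two.) -/
theorem result {X Y S : Scheme.{u}} (f : X ⟶ S) (g : Y ⟶ S)
    (y : S ⟶ Y) (hy : y ≫ g = 𝟙 S) :
    (QuasiCompact (pullback.fst f g ≫ f) → QuasiCompact f) ∧
    (LocallyOfFiniteType (pullback.fst f g ≫ f) → LocallyOfFiniteType f) ∧
    (IsSeparated (pullback.fst f g ≫ f) → IsSeparated f) ∧
    (Flat (pullback.fst f g ≫ f) → Flat f) := by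
  set s : X ⟶ pullback f g := pullback.lift (𝟙 X) (f ≫ y)
    (by rw [Category.assoc, hy, Category.comp_id, Category.id_comp]) with hs_def
  have hs : s ≫ pullback.fst f g = 𝟙 X := pullback.lift_fst _ _ _
  have hf : f = s ≫ (pullback.fst f g ≫ f) := by rw [← Category.assoc, hs, Category.id_comp]
  have hx : ∀ x : X, (pullback.fst f g) (s x) = x := by
    intro x
    rw [← Scheme.Hom.comp_apply, hs]; rfl
  refine ⟨?_, ?_, ?_, ?_⟩
  · intro hqc
    constructor
    intro U hU hUc
    have : f ⁻¹' U = (pullback.fst f g) '' ((pullback.fst f g ≫ f) ⁻¹' U) := by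
      ext x
      constructor
      · intro hxU
        refine ⟨s x, ?_, hx x⟩
        show (pullback.fst f g ≫ f) (s x) ∈ U
        rw [Scheme.Hom.comp_apply, hx x]
        exact hxU
      · rintro ⟨p, hp, rfl⟩
        show f ((pullback.fst f g) p) ∈ U
        rw [← Scheme.Hom.comp_apply]
        exact hp
    rw [this]
    exact (hqc.isCompact_preimage U hU hUc).image (pullback.fst f g).continuous
  · intro hl
    have h1 : LocallyOfFiniteType (pullback.fst f g) := locallyOfFiniteType_of_comp _ f
    have h2 : LocallyOfFiniteType s := by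
      have : LocallyOfFiniteType (s ≫ pullback.fst f g) := by rw [hs]; infer_instance
      exact locallyOfFiniteType_of_comp s (pullback.fst f g)
    rw [hf]; infer_instance
  · intro hsep
    have h2 : IsSeparated s := by
      have : IsSeparated (s ≫ pullback.fst f g) := by rw [hs]; infer_instance
      exact IsSeparated.of_comp s (pullback.fst f g)
    rw [hf]; infer_instance
  · intro hfl
    rw [Flat.iff_flat_stalkMap]
    intro x
    rw [← hx x]
    have hφ : ((pullback.fst f g ≫ f).stalkMap (s x)).hom.Flat := Flat.stalkMap _ _
    have hC : (pullback.fst f g ≫ f).stalkMap (s x)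
        = f.stalkMap ((pullback.fst f g) (s x)) ≫ (pullback.fst f g).stalkMap (s x) :=
      Scheme.Hom.stalkMap_comp _ _ _
    have hB : (pullback.fst f g).stalkMap (s x) ≫ s.stalkMap x
        = (X.presheaf.stalkCongr (.of_eq (hx x))).hom := by
      rw [← Scheme.Hom.stalkMap_comp, Scheme.Hom.stalkMap_congr_hom (s ≫ pullback.fst f g) (𝟙 X) hs x,
        Scheme.Hom.stalkMap_id]
      exact Category.comp_id _
    apply flat_of_retract (f.stalkMap _).hom ((pullback.fst f g ≫ f).stalkMap (s x)).hom
      ((pullback.fst f g).stalkMap (s x)).hom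
      ((s.stalkMap x) ≫ (X.presheaf.stalkCongr (.of_eq (hx x))).inv).hom hφ
    · rw [hC]; rfl
    · rw [← CommRingCat.hom_comp, ← Category.assoc, hB, Iso.hom_inv_id]; rfl

end Groth.Agent.S18490
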