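import Groth.Statements.S18538
import Mathlib.Tactic
import Mathlib.LinearAlgebra.Dual.Lemmas
import Mathlib.RingTheory.IntegralClosure.IsIntegral.Basic
-- import your own Groth.Agent.* helpers here

set_option autoImplicit false
universe u
open EtAlg

namespace Groth.Agent.S18538

/-- Let A ⊆ B be an injective finite extension of integrally closed domains, with fraction fields K ⊆ L
and L separable over K. Then A → B → B ⊗_A B is exact, the second map being b ↦ b ⊗ 1 - 1 ⊗ b: every
element of B whose two images in B ⊗_A B agree comes from A. -/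
theorem result
    (A B K L : Type u) [CommRing A] [CommRing B] [IsDomain A] [IsDomain B]
    [IsIntegrallyClosed A] [IsIntegrallyClosed B] [Algebra A B] [FaithfulSMul A B] [Module.Finite A B]
    [Field K] [Field L] [Algebra A K] [IsFractionRing A K] [Algebra B L] [IsFractionRing B L]
    [Algebra K L] [Algebra A L] [IsScalarTower A K L] [IsScalarTower A B L]
    [Algebra.IsSeparable K L] :
    Algebra.IsEffective A B := by
  classical
  intro b
  constructor
  · intro hb
    rw [Algebra.TensorProduct.includeLeftSubRight_apply] at hb
    obtain ⟨φ₀, hφ₀⟩ : ∃ φ : Module.Dual K L, φ 1 ≠ 0 := by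
      by_contra h
      push Not at h
      exact one_ne_zero ((Module.forall_dual_apply_eq_zero_iff K (1 : L)).1 h)
    set φ : L →ₗ[K] K := (φ₀ 1)⁻¹ • φ₀ with hφ
    have hφ1 : φ 1 = 1 := by
      rw [hφ, LinearMap.smul_apply, smul_eq_mul, inv_mul_cancel₀ hφ₀]
    have hAKL : ∀ c : A, algebraMap K L (algebraMap A K c) = algebraMap A L c :=
      fun c => (IsScalarTower.algebraMap_apply A K L c).symm
    have hsmulB : ∀ (c : A) (m : B), algebraMap B L (c • m) = algebraMap A L c * algebraMap B L m := by
      intro c m
      rw [Algebra.smul_def, map_mul, ← IsScalarTower.algebraMap_apply]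
    have hsmulK : ∀ (c : A) (l : L), φ (algebraMap A L c * l) = algebraMap A K c * φ l := by
      intro c l
      rw [← hAKL, ← Algebra.smul_def, map_smul, smul_eq_mul]
    let f : B →ₗ[A] B →ₗ[A] L := LinearMap.mk₂ A
      (fun b₁ b₂ => algebraMap K L (φ (algebraMap B L b₁)) * algebraMap B L b₂)
      (by intro m₁ m₂ n; simp only [map_add, add_mul])
      (by
        intro c m n
        rw [hsmulB, hsmulK, map_mul, hAKL, Algebra.smul_def (c : A) (_ : L)]
        ring)
      (by intro m n₁ n₂; simp only [map_add, mul_add])
      (by
        intro c m n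
        rw [hsmulB, Algebra.smul_def (c : A) (_ : L)]
        ring)
    have h1 := congrArg (TensorProduct.lift f) hb
    simp only [map_sub, map_zero, TensorProduct.lift.tmul, f, LinearMap.mk₂_apply, map_one,
      hφ1, mul_one, one_mul] at h1
    have hbK : algebraMap B L b = algebraMap K L (φ (algebraMap B L b)) := (sub_eq_zero.1 h1).symm
    have hint : IsIntegral A b := Algebra.IsIntegral.isIntegral b
    have hint2 : IsIntegral A (algebraMap K L (φ (algebraMap B L b))) := by
      rw [← hbK]; exact hint.algebraMap
    have hint3 : IsIntegral A (φ (algebraMap B L b)) :=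
      (isIntegral_algHom_iff (IsScalarTower.toAlgHom A K L) (algebraMap K L).injective).1 hint2
    obtain ⟨a, ha⟩ := (IsIntegrallyClosed.isIntegral_iff (K := K)).1 hint3
    refine ⟨a, ?_⟩
    apply IsFractionRing.injective B L
    rw [Algebra.linearMap_apply, ← IsScalarTower.algebraMap_apply, ← hAKL, ha, ← hbK]
  · exact Algebra.TensorProduct.includeLeftSubRight_zero_of_mem_range

end Groth.Agent.S18538
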