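import Groth.Statements.S18539
import Mathlib.Tactic
import Mathlib.RingTheory.Regular.RegularSequence

set_option autoImplicit false
universe u v w
open CAlg

namespace Groth.Agent.S18539

open scoped Pointwise

/-- For a commutative ring R, R-modules M and N and elements r₁, r₂ of R such that r₁ is a
non-zero-divisor on N and r₂ is a non-zero-divisor on N/r₁N, the element r₁ is a non-zero-divisor on
the module Hom_R(M, N) and r₂ is a non-zero-divisor on Hom_R(M, N)/r₁Hom_R(M, N). (Weak regularity
on both sides: no condition that the quotient by (r₁, r₂) is nonzero, which would fail for M = 0.) -/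
theorem result
    (R : Type u) [CommRing R] (M : Type v) (N : Type w)
    [AddCommGroup M] [Module R M] [AddCommGroup N] [Module R N]
    (r₁ r₂ : R) (h : RingTheory.Sequence.IsWeaklyRegular N [r₁, r₂]) :
    RingTheory.Sequence.IsWeaklyRegular (M →ₗ[R] N) [r₁, r₂] := by
  rw [RingTheory.Sequence.isWeaklyRegular_cons_iff,
    RingTheory.Sequence.isWeaklyRegular_singleton_iff] at h ⊢
  obtain ⟨h1, h2⟩ := h
  refine ⟨?_, ?_⟩
  · intro f g hfg
    ext m
    apply h1
    have := congrArg (fun F : M →ₗ[R] N => F m) hfg
    simpa using this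
  · rw [isSMulRegular_quotient_iff_mem_of_smul_mem] at h2 ⊢
    intro φ hφ
    rw [Submodule.mem_smul_pointwise_iff_exists] at hφ
    obtain ⟨κ, _, hκ⟩ := hφ
    have hpt : ∀ m, ∃ n : N, r₁ • n = φ m := by
      intro m
      have hm : r₂ • φ m ∈ r₁ • (⊤ : Submodule R N) := by
        rw [Submodule.mem_smul_pointwise_iff_exists]
        refine ⟨κ m, trivial, ?_⟩
        rw [← LinearMap.smul_apply, hκ, LinearMap.smul_apply]
      have := h2 (φ m) hm
      rw [Submodule.mem_smul_pointwise_iff_exists] at this
      obtain ⟨n, _, hn⟩ := this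
      exact ⟨n, hn⟩
    choose H hH using hpt
    let Hl : M →ₗ[R] N :=
      { toFun := H
        map_add' := fun a b => h1 (by
          show r₁ • H (a + b) = r₁ • (H a + H b)
          rw [smul_add, hH, hH, hH, map_add])
        map_smul' := fun c a => h1 (by
          show r₁ • H (c • a) = r₁ • (c • H a)
          rw [hH, smul_comm, hH, map_smul]) }
    rw [Submodule.mem_smul_pointwise_iff_exists]
    refine ⟨Hl, trivial, ?_⟩
    ext m
    simp only [LinearMap.smul_apply]
    exact hH m

end Groth.Agent.S18539
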