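import Groth.Statements.S18548
import Mathlib.Tactic

set_option autoImplicit false
open scoped TensorProduct
universe u v w
open GalCoh

namespace Groth.Agent.S18548

open TensorProduct

theorem two_smul_zero {M : Type*} [AddCommGroup M] [Module (ZMod 2) M] (x : M) : x + x = 0 := by
  have : x + x = (2 : ZMod 2) • x := by rw [two_smul]
  rw [this, show (2 : ZMod 2) = 0 from rfl, zero_smul]

/-- Let G be a group acting linearly on a vector space V over the field 𝔽₂ with two elements, and
suppose V is a permutation module: G permutes the vectors of some basis of V. Then the short exact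
sequence of G-modules 0 → V → S²V → Λ²V → 0 (v ↦ v·v, x·y ↦ x ∧ y) splits G-equivariantly. Here, for
a vector space V over the field with two elements carrying a linear action ρ of a group G, write N_a
⊆ V ⊗ V for the span of the tensors v ⊗ v and N_s ⊆ N_a for the span of the tensors x ⊗ y + y ⊗ x,
so that S²V = (V ⊗ V)/N_s, Λ²V = (V ⊗ V)/N_a and the surjection S²V → Λ²V, x·y ↦ x ∧ y, is
G-equivariant for the diagonal action; a G-equivariant linear section of this surjection is the same
thing as a G-stable subspace W of V ⊗ V with W ∩ N_a = N_s and W + N_a = V ⊗ V, which is how the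
splitting is stated. (The source has the absolute Galois group of a field acting continuously; any
group and any basis index set are allowed here.) -/
theorem result (G : Type u) [Group G] (V : Type v)
    [AddCommGroup V] [Module (ZMod 2) V] (ρ : Representation (ZMod 2) G V)
    (ι : Type w) (b : Module.Basis ι (ZMod 2) V) (hb : ∀ g : G, ∀ i : ι, ∃ j : ι, ρ g (b i) = b j) :
    ∃ W : Submodule (ZMod 2) (V ⊗[ZMod 2] V),
      (∀ g : G, ∀ w ∈ W, ρ.tprod ρ g w ∈ W) ∧
      W ⊓ Submodule.span (ZMod 2) (Set.range fun v : V => v ⊗ₜ[ZMod 2] v) =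
        Submodule.span (ZMod 2) (Set.range fun p : V × V => p.1 ⊗ₜ[ZMod 2] p.2 + p.2 ⊗ₜ[ZMod 2] p.1) ∧
      W ⊔ Submodule.span (ZMod 2) (Set.range fun v : V => v ⊗ₜ[ZMod 2] v) = ⊤ := by
  set T := b.tensorProduct b with hT
  set Na := Submodule.span (ZMod 2) (Set.range fun v : V => v ⊗ₜ[ZMod 2] v) with hNa
  set Ns := Submodule.span (ZMod 2)
    (Set.range fun p : V × V => p.1 ⊗ₜ[ZMod 2] p.2 + p.2 ⊗ₜ[ZMod 2] p.1) with hNs
  set W := Submodule.span (ZMod 2) (T '' {p : ι × ι | p.1 ≠ p.2}) with hW
  set D := Submodule.span (ZMod 2) (T '' {p : ι × ι | p.1 = p.2}) with hD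
  have hTapp : ∀ p : ι × ι, T p = b p.1 ⊗ₜ b p.2 := fun p => by
    rw [hT, Module.Basis.tensorProduct_apply']
  -- characterization of W
  have memW : ∀ t, t ∈ W ↔ ∀ i, T.repr t (i, i) = 0 := by
    intro t
    rw [hW, Module.Basis.mem_span_image]
    constructor
    · intro h i
      by_contra hne
      have := h (Finsupp.mem_support_iff.mpr hne)
      exact this rfl
    · intro h p hp
      rw [Finset.mem_coe, Finsupp.mem_support_iff] at hp
      intro heq
      apply hp
      obtain ⟨p1, p2⟩ := p
      simp only at heq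
      subst heq
      exact h p1
  have memD : ∀ t, t ∈ D ↔ ↑(T.repr t).support ⊆ {p : ι × ι | p.1 = p.2} := fun t => by
    rw [hD, Module.Basis.mem_span_image]
  have NsW : Ns ≤ W := by
    rw [hNs, Submodule.span_le]
    rintro _ ⟨⟨x, y⟩, rfl⟩
    rw [SetLike.mem_coe, memW]
    intro i
    simp only [map_add, Finsupp.add_apply, hT, Module.Basis.tensorProduct_repr_tmul_apply,
      smul_eq_mul]
    rw [mul_comm (b.repr x i)]
    exact two_smul_zero _
  have NsNa : Ns ≤ Na := by
    rw [hNs, Submodule.span_le]
    rintro _ ⟨⟨x, y⟩, rfl⟩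
    have h1 : (x + y) ⊗ₜ[ZMod 2] (x + y) ∈ Na := Submodule.subset_span ⟨x + y, rfl⟩
    have h2 : x ⊗ₜ[ZMod 2] x ∈ Na := Submodule.subset_span ⟨x, rfl⟩
    have h3 : y ⊗ₜ[ZMod 2] y ∈ Na := Submodule.subset_span ⟨y, rfl⟩
    have : x ⊗ₜ[ZMod 2] y + y ⊗ₜ[ZMod 2] x =
        (x + y) ⊗ₜ[ZMod 2] (x + y) - x ⊗ₜ[ZMod 2] x - y ⊗ₜ[ZMod 2] y := by
      simp only [add_tmul, tmul_add]; abel
    simp only [SetLike.mem_coe]
    rw [this]
    exact Na.sub_mem (Na.sub_mem h1 h2) h3
  have NaDNs : Na ≤ D ⊔ Ns := by
    rw [hNa, Submodule.span_le]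
    rintro _ ⟨v, rfl⟩
    have hv : v ∈ Submodule.span (ZMod 2) (Set.range b) := by rw [b.span_eq]; trivial
    simp only [SetLike.mem_coe]
    induction hv using Submodule.span_induction with
    | mem x hx =>
      obtain ⟨i, rfl⟩ := hx
      apply Submodule.mem_sup_left
      apply Submodule.subset_span
      exact ⟨(i, i), rfl, hTapp (i, i)⟩
    | zero => simp
    | add x y _ _ hx hy =>
      have : (x + y) ⊗ₜ[ZMod 2] (x + y) =
          x ⊗ₜ[ZMod 2] x + y ⊗ₜ[ZMod 2] y + (x ⊗ₜ[ZMod 2] y + y ⊗ₜ[ZMod 2] x) := by
        simp only [add_tmul, tmul_add]; abel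
      rw [this]
      refine Submodule.add_mem _ (Submodule.add_mem _ hx hy) (Submodule.mem_sup_right ?_)
      exact Submodule.subset_span ⟨(x, y), rfl⟩
    | smul c x _ hx =>
      rw [← smul_tmul', tmul_smul, smul_smul]
      exact Submodule.smul_mem _ _ hx
  refine ⟨W, ?_, ?_, ?_⟩
  · -- G-stability
    intro g t ht
    have hinj : Function.Injective (ρ g) := by
      intro x y hxy
      have := congrArg (ρ g⁻¹) hxy
      rwa [← Module.End.mul_apply, ← map_mul, inv_mul_cancel, map_one, Module.End.one_apply,
        ← Module.End.mul_apply, ← map_mul, inv_mul_cancel, map_one, Module.End.one_apply] at this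
    rw [hW] at ht
    induction ht using Submodule.span_induction with
    | mem x hx =>
      obtain ⟨⟨i, j⟩, hij, rfl⟩ := hx
      obtain ⟨i', hi'⟩ := hb g i
      obtain ⟨j', hj'⟩ := hb g j
      rw [hTapp, Representation.tprod_apply, map_tmul, hi', hj']
      apply Submodule.subset_span
      refine ⟨(i', j'), ?_, hTapp _⟩
      intro heq
      apply hij
      simp only at heq
      apply b.injective
      apply hinj
      simp only
      rw [hi', hj', heq]
    | zero => simp
    | add x y _ _ hx hy => rw [map_add]; exact W.add_mem hx hy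
    | smul c x _ hx => rw [map_smul]; exact W.smul_mem c hx
  · apply le_antisymm
    · rintro t ⟨htW, htNa⟩
      obtain ⟨d, hd, n, hn, rfl⟩ := Submodule.mem_sup.mp (NaDNs htNa)
      have hdW : d ∈ W := by
        have : d = (d + n) - n := by abel
        rw [this]; exact W.sub_mem htW (NsW hn)
      have hd0 : d = 0 := by
        rw [memD] at hd
        rw [memW] at hdW
        have : T.repr d = 0 := by
          ext ⟨i, j⟩
          by_contra hne
          have hmem : (i, j) ∈ (T.repr d).support := Finsupp.mem_support_iff.mpr hne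
          have hij : i = j := hd hmem
          subst hij
          exact hne (hdW i)
        simpa using this
      rw [hd0, zero_add]; exact hn
    · exact le_inf NsW NsNa
  · rw [eq_top_iff]
    rintro t -
    have ht : t ∈ Submodule.span (ZMod 2) (Set.range T) := by rw [T.span_eq]; trivial
    refine (Submodule.span_le.mpr ?_) ht
    rintro _ ⟨⟨i, j⟩, rfl⟩
    by_cases hij : i = j
    · subst hij
      apply Submodule.mem_sup_right
      apply Submodule.subset_span
      exact ⟨b i, (hTapp (i, i)).symm⟩
    · apply Submodule.mem_sup_left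
      apply Submodule.subset_span
      exact ⟨(i, j), hij, rfl⟩

end Groth.Agent.S18548
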