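import Groth.Statements.S18589
import Mathlib.Tactic
-- import your own Groth.Agent.* helpers here

set_option autoImplicit false
open CAlg

namespace Groth.Agent.S18589

open MvPolynomial in
lemma rat_hom (p : ℕ) [Fact p.Prime] (n : ℕ) :
    IsWeightedHomogeneous (fun i : Fin 2 × ℕ => p ^ i.2)
      (wittStructureRat p (X 0 + X 1 : MvPolynomial (Fin 2) ℚ) n) (p ^ n) := by
  induction n using Nat.strong_induction_on with
  | h n IH =>
    rw [wittStructureRat_rec]
    apply IsWeightedHomogeneous.C_mul
    apply IsWeightedHomogeneous.sub
    · have hW : ∀ b : Fin 2, IsWeightedHomogeneous (fun i : Fin 2 × ℕ => p ^ i.2)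
          (rename (fun i => (b, i)) (wittPolynomial p ℚ n)) (p ^ n) := by
        intro b
        rw [wittPolynomial_eq_sum_C_mul_X_pow, map_sum]
        apply IsWeightedHomogeneous.sum
        intro i hi
        rw [map_mul, rename_C, map_pow (rename fun i => (b, i)), rename_X]
        apply IsWeightedHomogeneous.C_mul
        have := (isWeightedHomogeneous_X ℚ (fun i : Fin 2 × ℕ => p ^ i.2) (b, i)).pow (p ^ (n - i))
        have hdeg : p ^ n = p ^ (n - i) • p ^ i := by
          rw [smul_eq_mul, ← pow_add]; congr 1; simp at hi; omega
        rw [hdeg]; exact this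
      rw [map_add, bind₁_X_right, bind₁_X_right]
      exact (hW 0).add (hW 1)
    · apply IsWeightedHomogeneous.sum
      intro i hi
      apply IsWeightedHomogeneous.C_mul
      have := (IH i (Finset.mem_range.mp hi)).pow (p ^ (n - i))
      have hdeg : p ^ n = p ^ (n - i) • p ^ i := by
        rw [smul_eq_mul, ← pow_add]; congr 1; simp at hi; omega
      rw [hdeg]; exact this

/-- For a prime p and every natural number n, the n-th Witt addition polynomial over the integers (the
polynomial S_n with (x + y)_n = S_n(x_0, y_0, …, x_n, y_n) for p-typical Witt vectors x, y) is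
weighted homogeneous of weighted degree p ^ n for the grading in which the variables x_i and y_i
have weight p ^ i. -/
theorem result (p : ℕ) [Fact p.Prime] (n : ℕ) :
    MvPolynomial.IsWeightedHomogeneous (fun i : Fin 2 × ℕ => p ^ i.2) (WittVector.wittAdd p n) (p ^ n) := by
  intro d hd
  apply rat_hom p n
  have : MvPolynomial.map (Int.castRingHom ℚ) (WittVector.wittAdd p n) =
      wittStructureRat p (MvPolynomial.X 0 + MvPolynomial.X 1 : MvPolynomial (Fin 2) ℚ) n := by
    rw [WittVector.wittAdd, map_wittStructureInt]
    simp
  rw [← this, MvPolynomial.coeff_map]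
  simpa using hd

end Groth.Agent.S18589
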