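import Groth.Statements.S1859
-- import your own Groth.Agent.* helpers here

set_option autoImplicit false
universe u
open CategoryTheory AlgebraicGeometry
open Cyc

namespace Groth.Agent.S1859

theorem residueDegree_comp' {X Y Z : Scheme.{u}} (f : X ⟶ Y) (g : Y ⟶ Z) (x : X) :
    (f ≫ g).residueDegree x = g.residueDegree (f x) * f.residueDegree x := by
  let i1 := (f.residueFieldMap x).hom.toAlgebra
  let i2 := (g.residueFieldMap (f x)).hom.toAlgebra
  let i3 : Algebra (Z.residueField (g (f x))) (X.residueField x) :=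
    ((f ≫ g).residueFieldMap x).hom.toAlgebra
  have : IsScalarTower (Z.residueField (g (f x))) (Y.residueField (f x)) (X.residueField x) := by
    apply IsScalarTower.of_algebraMap_eq
    intro r
    show ((f ≫ g).residueFieldMap x).hom r = (f.residueFieldMap x).hom ((g.residueFieldMap (f x)).hom r)
    rw [Scheme.residueFieldMap_comp]
    rfl
  have := Module.finrank_mul_finrank (Z.residueField (g (f x))) (Y.residueField (f x))
    (X.residueField x)
  exact this.symm

theorem coeff_comp {X Y Z : Scheme.{u}} (f : X ⟶ Y) (g : Y ⟶ Z) (δX : X → ℤ) (δY : Y → ℤ) (δZ : Z → ℤ)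
    (hf : Cyc.DeltaCompat f δX δY) (hg : Cyc.DeltaCompat g δY δZ) (x : X) :
    ((AlgebraicCycle.mapCoeff f δX δY x : ℕ) : ℤ) * ((AlgebraicCycle.mapCoeff g δY δZ (f x) : ℕ) : ℤ) =
      ((AlgebraicCycle.mapCoeff (f ≫ g) δX δZ x : ℕ) : ℤ) := by
  obtain ⟨n₁, -, h₁⟩ := hf x
  obtain ⟨n₂, -, h₂⟩ := hg (f x)
  unfold AlgebraicCycle.mapCoeff
  by_cases e1 : δX x = δY (f x)
  · by_cases e2 : δY (f x) = δZ (g (f x))
    · have e3 : δX x = δZ ((f ≫ g) x) := by rw [e1, e2]; rfl
      rw [if_pos e1, if_pos e2, if_pos e3, residueDegree_comp']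
      push_cast
      ring
    · have e3 : ¬ δX x = δZ ((f ≫ g) x) := by
        intro h
        apply e2
        have : δX x = δZ (g (f x)) := h
        omega
      rw [if_neg e2, if_neg e3]
      simp
  · have e3 : ¬ δX x = δZ ((f ≫ g) x) := by
      intro h
      apply e1
      have : δX x = δZ (g (f x)) := h
      omega
    rw [if_neg e1, if_neg e3]
    simp

/-- For proper morphisms f : X → Y and g : Y → Z and a k-cycle α on X, g_*(f_*α) = (g ∘ f)_*α. Here a
pair (X, δ) with Cyc.IsSetup plays the role of a scheme locally of finite type over a fixed base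
with a dimension function (X locally Noetherian with universally catenary local rings, δ a dimension
function), and Cyc.DeltaCompat records that the dimension function upstairs is the induced one. -/
theorem result (X Y Z : Scheme.{u}) (δX : X → ℤ) (δY : Y → ℤ) (δZ : Z → ℤ) (hX : Cyc.IsSetup X δX) (hY : Cyc.IsSetup Y δY) (hZ : Cyc.IsSetup Z δZ) (f : X ⟶ Y) (g : Y ⟶ Z) [IsProper f] [IsProper g] (hf : Cyc.DeltaCompat f δX δY) (hg : Cyc.DeltaCompat g δY δZ) (k : ℤ) (α : AlgebraicCycle X ℤ) (hα : α ∈ Cyc.Zk X δX k) : AlgebraicCycle.map g δY δZ (AlgebraicCycle.map f δX δY α) = AlgebraicCycle.map (f ≫ g) δX δZ α := by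
  classical
  ext z
  simp only [AlgebraicCycle.map, Function.locallyFinsupp.map_apply]
  obtain ⟨_, ⟨V, hV, rfl⟩, hzV, -⟩ := (Z.isBasis_affineOpens).exists_subset_of_mem_open
    (Set.mem_univ z) isOpen_univ
  have hV' : IsAffineOpen V := hV
  have hfin : ((⇑(f ≫ g)) ⁻¹' (V : Set Z) ∩ Function.support α).Finite :=
    α.locallyFiniteSupport.finite_inter_support_of_isCompact
      (QuasiCompact.isCompact_preimage _ V.isOpen hV'.isCompact)
  set T := hfin.toFinset with hTdef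
  have hT : ∀ x, g (f x) = z → α x ≠ 0 → x ∈ T := by
    intro x hx hα
    rw [hTdef, Set.Finite.mem_toFinset]
    refine ⟨?_, hα⟩
    show (f ≫ g) x ∈ (V : Set Z)
    rw [Scheme.Hom.comp_apply, hx]
    exact hzV
  set T' := T.filter (fun x => g (f x) = z) with hT'def
  have hT'mem : ∀ x, x ∈ T' ↔ (g (f x) = z ∧ x ∈ T) := by
    intro x; rw [hT'def, Finset.mem_filter]; tauto
  -- right hand side
  have hR : ∑ᶠ x ∈ ⇑(f ≫ g) ⁻¹' {z}, α x * ((AlgebraicCycle.mapCoeff (f ≫ g) δX δZ x : ℕ) : ℤ) =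
      ∑ x ∈ T', α x * ((AlgebraicCycle.mapCoeff (f ≫ g) δX δZ x : ℕ) : ℤ) := by
    apply finsum_mem_eq_sum_of_subset
    · rintro x ⟨hx, hxs⟩
      have hx' : g (f x) = z := hx
      have hα : α x ≠ 0 := by
        intro h0; apply hxs; simp [h0]
      exact (hT'mem x).mpr ⟨hx', hT x hx' hα⟩
    · intro x hx
      exact ((hT'mem x).mp hx).1
  -- inner sums
  have hI : ∀ y, g y = z → ∑ᶠ x ∈ ⇑f ⁻¹' {y}, α x * ((AlgebraicCycle.mapCoeff f δX δY x : ℕ) : ℤ) =
      ∑ x ∈ T'.filter (fun x => f x = y), α x * ((AlgebraicCycle.mapCoeff f δX δY x : ℕ) : ℤ) := by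
    intro y hy
    apply finsum_mem_eq_sum_of_subset
    · rintro x ⟨hx, hxs⟩
      have hx' : f x = y := hx
      have hα : α x ≠ 0 := by
        intro h0; apply hxs; simp [h0]
      rw [Finset.coe_filter]
      refine ⟨(hT'mem x).mpr ⟨by rw [hx', hy], hT x (by rw [hx', hy]) hα⟩, hx'⟩
    · intro x hx
      rw [Finset.coe_filter] at hx
      exact hx.2
  have hL : ∑ᶠ y ∈ ⇑g ⁻¹' {z}, (∑ᶠ x ∈ ⇑f ⁻¹' {y}, α x * ((AlgebraicCycle.mapCoeff f δX δY x : ℕ) : ℤ)) *
        ((AlgebraicCycle.mapCoeff g δY δZ y : ℕ) : ℤ) =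
      ∑ y ∈ T'.image f, (∑ᶠ x ∈ ⇑f ⁻¹' {y}, α x * ((AlgebraicCycle.mapCoeff f δX δY x : ℕ) : ℤ)) *
        ((AlgebraicCycle.mapCoeff g δY δZ y : ℕ) : ℤ) := by
    apply finsum_mem_eq_sum_of_subset
    · rintro y ⟨hy, hys⟩
      have hy' : g y = z := hy
      rw [Function.mem_support] at hys
      have hne : ∑ᶠ x ∈ ⇑f ⁻¹' {y}, α x * ((AlgebraicCycle.mapCoeff f δX δY x : ℕ) : ℤ) ≠ 0 := by
        intro h0; apply hys; rw [h0, zero_mul]
      rw [hI y hy'] at hne
      obtain ⟨x, hx, -⟩ := Finset.exists_ne_zero_of_sum_ne_zero hne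
      rw [Finset.mem_filter] at hx
      rw [Finset.coe_image]
      exact ⟨x, hx.1, hx.2⟩
    · intro y hy
      rw [Finset.coe_image] at hy
      obtain ⟨x, hx, rfl⟩ := hy
      exact ((hT'mem x).mp hx).1
  rw [hL, hR]
  have : ∀ y ∈ T'.image f, (∑ᶠ x ∈ ⇑f ⁻¹' {y}, α x * ((AlgebraicCycle.mapCoeff f δX δY x : ℕ) : ℤ)) *
        ((AlgebraicCycle.mapCoeff g δY δZ y : ℕ) : ℤ) =
      ∑ x ∈ T'.filter (fun x => f x = y), α x * ((AlgebraicCycle.mapCoeff (f ≫ g) δX δZ x : ℕ) : ℤ) := by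
    intro y hy
    have hy' : g y = z := by
      obtain ⟨x, hx, rfl⟩ := Finset.mem_image.mp hy
      exact ((hT'mem x).mp hx).1
    rw [hI y hy', Finset.sum_mul]
    refine Finset.sum_congr rfl fun x hx => ?_
    rw [Finset.mem_filter] at hx
    rw [← hx.2, mul_assoc, coeff_comp f g δX δY δZ hf hg x]
  rw [Finset.sum_congr rfl this]
  exact Finset.sum_fiberwise_of_maps_to (fun x hx => Finset.mem_image_of_mem f hx) _

end Groth.Agent.S1859
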