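import Groth.Statements.S18590
import Groth.Agent.S18589
import Mathlib.Tactic
-- import your own Groth.Agent.* helpers here

set_option autoImplicit false
universe u
open CAlg

namespace Groth.Agent.S18590

open MvPolynomial

lemma hom_of_eq {σ R : Type*} [CommSemiring R] {w : σ → ℕ} {φ : MvPolynomial σ R} {m m' : ℕ}
    (h : IsWeightedHomogeneous w φ m) (e : m = m') : IsWeightedHomogeneous w φ m' := e ▸ h

lemma rat_hom_mul (p : ℕ) [Fact p.Prime] (n : ℕ) :
    IsWeightedHomogeneous (fun i : Fin 2 × ℕ => if i.1 = 0 then 0 else p ^ i.2)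
      (wittStructureRat p (X 0 * X 1 : MvPolynomial (Fin 2) ℚ) n) (p ^ n) := by
  induction n using Nat.strong_induction_on with
  | h n IH =>
    rw [wittStructureRat_rec]
    apply IsWeightedHomogeneous.C_mul
    apply IsWeightedHomogeneous.sub
    · have hW0 : IsWeightedHomogeneous (fun i : Fin 2 × ℕ => if i.1 = 0 then 0 else p ^ i.2)
          (rename (fun i => ((0 : Fin 2), i)) (wittPolynomial p ℚ n)) 0 := by
        rw [wittPolynomial_eq_sum_C_mul_X_pow, map_sum]
        apply IsWeightedHomogeneous.sum
        intro i _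
        rw [map_mul, rename_C, map_pow (rename fun i => ((0 : Fin 2), i)), rename_X]
        apply IsWeightedHomogeneous.C_mul
        have := (isWeightedHomogeneous_X ℚ (fun i : Fin 2 × ℕ => if i.1 = 0 then 0 else p ^ i.2)
          ((0 : Fin 2), i)).pow (p ^ (n - i))
        exact hom_of_eq this (by simp)
      have hW1 : IsWeightedHomogeneous (fun i : Fin 2 × ℕ => if i.1 = 0 then 0 else p ^ i.2)
          (rename (fun i => ((1 : Fin 2), i)) (wittPolynomial p ℚ n)) (p ^ n) := by
        rw [wittPolynomial_eq_sum_C_mul_X_pow, map_sum]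
        apply IsWeightedHomogeneous.sum
        intro i hi
        rw [map_mul, rename_C, map_pow (rename fun i => ((1 : Fin 2), i)), rename_X]
        apply IsWeightedHomogeneous.C_mul
        have := (isWeightedHomogeneous_X ℚ (fun i : Fin 2 × ℕ => if i.1 = 0 then 0 else p ^ i.2)
          ((1 : Fin 2), i)).pow (p ^ (n - i))
        refine hom_of_eq this ?_
        simp only [smul_eq_mul, Fin.one_eq_zero_iff, OfNat.ofNat_ne_one, if_false]
        rw [← pow_add]; congr 1; simp at hi; omega
      rw [map_mul, bind₁_X_right, bind₁_X_right]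
      exact hom_of_eq (hW0.mul hW1) (zero_add _)
    · apply IsWeightedHomogeneous.sum
      intro i hi
      apply IsWeightedHomogeneous.C_mul
      have := (IH i (Finset.mem_range.mp hi)).pow (p ^ (n - i))
      refine hom_of_eq this ?_
      rw [smul_eq_mul, ← pow_add]; congr 1; simp at hi; omega

lemma int_hom_mul (p : ℕ) [Fact p.Prime] (n : ℕ) :
    IsWeightedHomogeneous (fun i : Fin 2 × ℕ => if i.1 = 0 then 0 else p ^ i.2)
      (WittVector.wittMul p n) (p ^ n) := by
  intro d hd
  apply rat_hom_mul p n
  have : MvPolynomial.map (Int.castRingHom ℚ) (WittVector.wittMul p n) =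
      wittStructureRat p (MvPolynomial.X 0 * MvPolynomial.X 1 : MvPolynomial (Fin 2) ℚ) n := by
    rw [WittVector.wittMul, map_wittStructureInt]
    simp
  rw [← this, MvPolynomial.coeff_map]
  simpa using hd

lemma int_hom_add (p : ℕ) [Fact p.Prime] (n : ℕ) :
    IsWeightedHomogeneous (fun i : Fin 2 × ℕ => p ^ i.2) (WittVector.wittAdd p n) (p ^ n) :=
  Groth.Agent.S18589.result p n

lemma eval_mem {A K : Type*} [CommRing A] [CommRing K] [Algebra A K] {σ : Type*}
    (M : ℕ → Submodule A K) (hmul : ∀ (i j : ℕ) (a b : K), a ∈ M i → b ∈ M j → a * b ∈ M (i + j))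
    (h1 : (1 : K) ∈ M 0) (w : σ → ℕ) (P : MvPolynomial σ ℤ) (m : ℕ)
    (hP : IsWeightedHomogeneous w P m) (f : σ → K) (hf : ∀ v, f v ∈ M (w v)) :
    aeval f P ∈ M m := by
  have hpow : ∀ (a : K) (k e : ℕ), a ∈ M k → a ^ e ∈ M (e * k) := by
    intro a k e ha
    induction e with
    | zero => simpa using h1
    | succ e ih => rw [pow_succ, add_mul, one_mul]; exact hmul _ _ _ _ ih ha
  have hprod : ∀ (d : σ →₀ ℕ) (s : Finset σ), ∏ v ∈ s, f v ^ d v ∈ M (∑ v ∈ s, d v * w v) := by
    intro d s
    classical
    induction s using Finset.induction_on with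
    | empty => simpa using h1
    | insert v s hv ih =>
      rw [Finset.prod_insert hv, Finset.sum_insert hv]
      exact hmul _ _ _ _ (hpow _ _ _ (hf v)) ih
  rw [aeval_def, eval₂_eq]
  apply Submodule.sum_mem
  intro d hd
  have hw : Finsupp.weight w d = m := hP (mem_support_iff.mp hd)
  have : ∑ v ∈ d.support, d v * w v = m := by
    rw [← hw, Finsupp.weight_apply, Finsupp.sum]
    simp [smul_eq_mul]
  rw [← this]
  rw [algebraMap_int_eq, eq_intCast, ← zsmul_eq_mul]
  exact zsmul_mem (hprod d d.support) _

/-- Let p be a prime, A a commutative ring, K a commutative A-algebra of characteristic p and M_0, M_1,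
M_2, … A-submodules of K with M_i · M_j ⊆ M_(i+j) for all i, j. Then the subset of the ring W(K) of
p-typical Witt vectors consisting of the vectors whose n-th coordinate lies in M_(p^n) for every n
is closed under addition and under multiplication by the image of W(A) under W of the structure map;
in other words it is a W(A)-submodule of W(K). (The published statement is the case of an integral
normal noetherian scheme X of characteristic p with function field K, an affine open subset U with
coordinate ring A, and M_k the module of sections over U of the divisorial sheaf of k·D for a real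
Weil divisor D on X; these form such a multiplicative family, and the subset is then the module of
sections over U of the Witt divisorial sheaf of D inside W(K). Only the two stated properties of
that family enter.) -/
theorem result
    (p : ℕ) [Fact p.Prime] (A K : Type u) [CommRing A] [CommRing K] [Algebra A K] [CharP K p]
    (M : ℕ → Submodule A K)
    (hmul : ∀ (i j : ℕ) (a b : K), a ∈ M i → b ∈ M j → a * b ∈ M (i + j)) :
    (∀ φ ψ : WittVector p K, (∀ n : ℕ, φ.coeff n ∈ M (p ^ n)) → (∀ n : ℕ, ψ.coeff n ∈ M (p ^ n)) →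
        ∀ n : ℕ, (φ + ψ).coeff n ∈ M (p ^ n)) ∧
      (∀ (x : WittVector p A) (φ : WittVector p K), (∀ n : ℕ, φ.coeff n ∈ M (p ^ n)) →
        ∀ n : ℕ, (WittVector.map (algebraMap A K) x * φ).coeff n ∈ M (p ^ n)) := by
  classical
  set M' : ℕ → Submodule A K := fun k => if k = 0 then M 0 ⊔ Submodule.span A {(1 : K)} else M k
    with hM'
  have hM'ne : ∀ k, k ≠ 0 → M' k = M k := fun k hk => by simp [hM', hk]
  have hpn : ∀ n, p ^ n ≠ 0 := fun n => pow_ne_zero _ (Fact.out : p.Prime).ne_zero
  have h1 : (1 : K) ∈ M' 0 := by
    simp only [hM', if_true]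
    exact Submodule.mem_sup_right (Submodule.subset_span rfl)
  have hspan : ∀ j (b : K) (c : A), b ∈ M j → c • b ∈ M j := fun j b c hb => (M j).smul_mem c hb
  have hmul' : ∀ (i j : ℕ) (a b : K), a ∈ M' i → b ∈ M' j → a * b ∈ M' (i + j) := by
    intro i j a b ha hb
    by_cases hi : i = 0
    · subst hi
      simp only [hM', if_true] at ha
      obtain ⟨a0, ha0, a1, ha1, rfl⟩ := Submodule.mem_sup.mp ha
      obtain ⟨c, rfl⟩ := Submodule.mem_span_singleton.mp ha1
      by_cases hj : j = 0
      · subst hj
        simp only [hM', if_true] at hb ⊢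
        obtain ⟨b0, hb0, b1, hb1, rfl⟩ := Submodule.mem_sup.mp hb
        obtain ⟨c', rfl⟩ := Submodule.mem_span_singleton.mp hb1
        have e : (a0 + c • (1:K)) * (b0 + c' • (1:K)) =
            (a0 * b0 + c' • a0 + c • b0) + (c * c') • (1:K) := by
          simp only [Algebra.smul_def, mul_one, map_mul]; ring
        rw [e]
        refine Submodule.add_mem_sup ?_ (Submodule.smul_mem _ _ (Submodule.subset_span rfl))
        refine Submodule.add_mem _ (Submodule.add_mem _ ?_ ?_) ?_
        · exact hmul 0 0 _ _ ha0 hb0
        · exact (M 0).smul_mem _ ha0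
        · exact (M 0).smul_mem _ hb0
      · rw [hM'ne j hj] at hb
        rw [zero_add, hM'ne j hj]
        rw [add_mul, smul_mul_assoc, one_mul]
        refine Submodule.add_mem _ ?_ ((M j).smul_mem _ hb)
        have := hmul 0 j _ _ ha0 hb
        rwa [zero_add] at this
    · rw [hM'ne i hi] at ha
      by_cases hj : j = 0
      · subst hj
        simp only [hM', if_true] at hb
        rw [add_zero, hM'ne i hi]
        obtain ⟨b0, hb0, b1, hb1, rfl⟩ := Submodule.mem_sup.mp hb
        obtain ⟨c', rfl⟩ := Submodule.mem_span_singleton.mp hb1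
        rw [mul_add, mul_smul_comm, mul_one]
        refine Submodule.add_mem _ ?_ ((M i).smul_mem _ ha)
        have := hmul i 0 _ _ ha hb0
        rwa [add_zero] at this
      · rw [hM'ne j hj] at hb
        rw [hM'ne (i + j) (by omega)]
        exact hmul i j a b ha hb
  constructor
  · intro φ ψ hφ hψ n
    rw [WittVector.add_coeff, WittVector.peval, ← hM'ne _ (hpn n)]
    apply eval_mem M' hmul' h1 (fun i : Fin 2 × ℕ => p ^ i.2) _ _ (int_hom_add p n)
    rintro ⟨b, i⟩
    rw [hM'ne _ (hpn i)]
    fin_cases b
    · simpa using hφ i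
    · simpa using hψ i
  · intro x φ hφ n
    rw [WittVector.mul_coeff, WittVector.peval, ← hM'ne _ (hpn n)]
    apply eval_mem M' hmul' h1 (fun i : Fin 2 × ℕ => if i.1 = 0 then 0 else p ^ i.2) _ _
      (int_hom_mul p n)
    rintro ⟨b, i⟩
    fin_cases b
    · simp only [hM', if_true]
      apply Submodule.mem_sup_right
      simp only [Fin.zero_eta, Fin.isValue, Function.uncurry_apply_pair, Matrix.cons_val_zero,
        WittVector.map_coeff]
      rw [Submodule.mem_span_singleton]
      exact ⟨x.coeff i, by rw [Algebra.smul_def, mul_one]⟩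
    · simp only [Fin.mk_one, Fin.isValue, one_ne_zero, if_false]
      rw [hM'ne _ (hpn i)]
      simpa using hφ i

end Groth.Agent.S18590
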