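import Groth.Statements.S18598
import Mathlib.Tactic
import Mathlib.RingTheory.Polynomial.Cyclotomic.Eval
import Mathlib.RingTheory.RootsOfUnity.CyclotomicUnits
import Mathlib.Data.Nat.Factors
-- import your own Groth.Agent.* helpers here

set_option autoImplicit false
universe u
open SSRed

namespace Groth.Agent.S18598

open Polynomial

theorem pow_dvd_pow_le {O : Type*} [CommRing O] [IsDomain O] [CharZero O] (p : ℕ) (hp : p.Prime)
    (hpu : ¬ IsUnit (p : O)) (a c : ℕ) (h : (p : O) ^ a ∣ (p : O) ^ c) : a ≤ c := by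
  by_contra hac
  push Not at hac
  have hp0 : (p : O) ≠ 0 := Nat.cast_ne_zero.2 hp.ne_zero
  have h1 : (p : O) ^ c * (p : O) ^ (a - c) ∣ (p : O) ^ c * 1 := by
    rw [← pow_add, Nat.add_sub_cancel' hac.le, mul_one]; exact h
  have h2 := (mul_dvd_mul_iff_left (pow_ne_zero c hp0)).1 h1
  exact hpu ((isUnit_pow_iff (by omega)).1 (isUnit_of_dvd_one h2))

theorem assoc_cyc {O : Type*} [CommRing O] [IsDomain O] (α : O) (m : ℕ) (hm : 0 < m)
    (hζ : IsPrimitiveRoot α m) :
    Associated ((α - 1) ^ Nat.totient m) (eval 1 (cyclotomic m O)) := by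
  rw [cyclotomic_eq_prod_X_sub_primitiveRoots hζ, eval_prod]
  simp only [eval_sub, eval_X, eval_C]
  rw [← hζ.card_primitiveRoots, ← Finset.prod_const]
  apply Associated.prod
  intro μ hμ
  rw [mem_primitiveRoots hm] at hμ
  have : NeZero m := ⟨hm.ne'⟩
  obtain ⟨i, _, hi⟩ := hζ.eq_pow_of_pow_eq_one hμ.pow_eq_one
  have hcop : i.Coprime m := (hζ.pow_iff_coprime hm i).1 (hi ▸ hμ)
  have := hζ.associated_sub_one_pow_sub_one_of_coprime hcop
  rw [hi] at this
  have h' : (1 : O) - μ = -(μ - 1) := by ring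
  rw [h']
  exact this.neg_right


/-- Let O be a commutative integral domain of characteristic zero, n a positive integer such that no
prime number dividing n is a unit in O, and α an element of O of finite multiplicative order such
that (α − 1)² is divisible by n in O. Then α = 1 if n ≥ 5, α² = 1 if n = 4, α³ = 1 if n = 3, and α⁴
= 1 if n = 2. -/
theorem result (O : Type u) [CommRing O] [IsDomain O] [CharZero O]
    (n : ℕ) (hn : 0 < n) (hO : ∀ p : ℕ, p.Prime → p ∣ n → ¬ IsUnit (p : O))
    (α : O) (hα : IsOfFinOrder α) (h : (n : O) ∣ (α - 1) ^ 2) :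
    (5 ≤ n → α = 1) ∧ (n = 4 → α ^ 2 = 1) ∧ (n = 3 → α ^ 3 = 1) ∧ (n = 2 → α ^ 4 = 1) := by
  by_cases hα1 : α = 1
  · subst hα1; simp
  set m := orderOf α with hm_def
  have hmpos : 0 < m := hα.orderOf_pos
  have hm1 : m ≠ 1 := fun h => hα1 (orderOf_eq_one_iff.1 h)
  have hζ : IsPrimitiveRoot α m := IsPrimitiveRoot.orderOf α
  have hassoc := assoc_cyc α m hmpos hζ
  have hφpos : 0 < Nat.totient m := Nat.totient_pos.2 hmpos
  have hdvd : (n : O) ^ Nat.totient m ∣ (eval 1 (cyclotomic m O)) ^ 2 := by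
    have h1 : (n : O) ^ Nat.totient m ∣ ((α - 1) ^ 2) ^ Nat.totient m := pow_dvd_pow_of_dvd h _
    rw [← pow_mul, mul_comm, pow_mul] at h1
    exact h1.trans (hassoc.pow_pow (n := 2)).dvd
  suffices key : 2 ≤ n →
      (5 ≤ n → α = 1) ∧ (n = 4 → α ^ 2 = 1) ∧ (n = 3 → α ^ 3 = 1) ∧ (n = 2 → α ^ 4 = 1) by
    by_cases hn2 : 2 ≤ n
    · exact key hn2
    · exact ⟨fun h => by omega, fun h => by omega, fun h => by omega, fun h => by omega⟩
  intro hn2
  obtain ⟨q, hq, hqn⟩ := Nat.exists_prime_and_dvd (show n ≠ 1 by omega)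
  have hqO : (q : O) ∣ (n : O) := Nat.cast_dvd_cast hqn
  by_cases hpp : ∃ p k : ℕ, p.Prime ∧ m = p ^ (k + 1)
  · obtain ⟨p, k, hp, hmpk⟩ := hpp
    have := Fact.mk hp
    have heval : eval 1 (cyclotomic m O) = (p : O) := by
      rw [hmpk, eval_one_cyclotomic_prime_pow]
    rw [heval] at hdvd
    have hall : ∀ {d : ℕ}, d.Prime → d ∣ n → d = p := by
      intro d hd hdn
      by_contra hdp
      have hcop : Nat.Coprime (d ^ Nat.totient m) (p ^ 2) :=
        Nat.Coprime.pow _ _ ((Nat.coprime_primes hd hp).2 hdp)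
      have hcopO : IsCoprime ((d ^ Nat.totient m : ℕ) : O) ((p ^ 2 : ℕ) : O) := by
        have h1 := Nat.isCoprime_iff_coprime.2 hcop
        have h2 := h1.map (Int.castRingHom O)
        simpa using h2
      have hdd : ((d ^ Nat.totient m : ℕ) : O) ∣ ((p ^ 2 : ℕ) : O) := by
        push_cast
        exact (pow_dvd_pow_of_dvd (Nat.cast_dvd_cast hdn) _).trans hdvd
      have hu := hcopO.isUnit_of_dvd' dvd_rfl hdd
      push_cast at hu
      exact hO d hd hdn ((isUnit_pow_iff hφpos.ne').1 hu)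
    have hnp : n = p ^ n.primeFactorsList.length :=
      Nat.eq_prime_pow_of_unique_prime_dvd (by omega) hall
    set b := n.primeFactorsList.length with hb_def
    have hb1 : 1 ≤ b := by
      rcases Nat.eq_zero_or_pos b with h0 | h0
      · rw [h0, pow_zero] at hnp; omega
      · exact h0
    have hpu : ¬ IsUnit (p : O) := hO p hp (by rw [hnp]; exact dvd_pow_self p (by omega))
    have hbφ : b * Nat.totient m ≤ 2 := by
      apply pow_dvd_pow_le p hp hpu
      rw [pow_mul]
      have := hdvd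
      rw [hnp] at this
      push_cast at this
      exact this
    rw [hmpk, Nat.totient_prime_pow_succ hp] at hbφ
    have hp2 := hp.two_le
    have hpk : 1 ≤ p ^ k := Nat.one_le_pow _ _ (by omega)
    have hp3 : p - 1 ≤ 2 := by
      have : 1 * (1 * (p - 1)) ≤ b * (p ^ k * (p - 1)) :=
        Nat.mul_le_mul hb1 (Nat.mul_le_mul hpk le_rfl)
      omega
    have hpk2 : p ^ k ≤ 2 := by
      have : 1 * (p ^ k * 1) ≤ b * (p ^ k * (p - 1)) :=
        Nat.mul_le_mul hb1 (Nat.mul_le_mul le_rfl (by omega))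
      omega
    have hb2 : b ≤ 2 := by
      have : b * (1 * 1) ≤ b * (p ^ k * (p - 1)) :=
        Nat.mul_le_mul le_rfl (Nat.mul_le_mul hpk (by omega))
      omega
    have hk1 : k ≤ 1 := by
      by_contra hk
      push Not at hk
      have : p ^ 2 ≤ p ^ k := Nat.pow_le_pow_right (by omega) hk
      nlinarith
    have hp3' : p ≤ 3 := by omega
    have hαm : α ^ (p ^ (k + 1)) = 1 := by rw [← hmpk]; exact pow_orderOf_eq_one α
    rw [hnp]
    clear_value b
    interval_cases p <;> interval_cases k <;> interval_cases b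
    all_goals (first | (norm_num at hbφ; done) | skip)
    all_goals refine ⟨fun h5 => ?_, fun h5 => ?_, fun h5 => ?_, fun h5 => ?_⟩
    all_goals (first | (norm_num at h5; done) | skip)
    all_goals exact orderOf_dvd_iff_pow_eq_one.1 (by rw [← hm_def, hmpk]; norm_num)
  · have heval : eval 1 (cyclotomic m O) = 1 := by
      apply eval_one_cyclotomic_not_prime_pow
      intro p hp k hk
      rcases k with _ | k
      · simp at hk; omega
      · exact hpp ⟨p, k, hp, hk.symm⟩
    rw [heval, one_pow] at hdvd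
    have hu : IsUnit ((n : O) ^ Nat.totient m) := isUnit_of_dvd_one hdvd
    have hnu : IsUnit (n : O) := (isUnit_pow_iff hφpos.ne').1 hu
    exact absurd (isUnit_of_dvd_unit hqO hnu) (hO q hq hqn)

end Groth.Agent.S18598
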