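import Groth.Statements.S18614
import Mathlib.Tactic

set_option autoImplicit false
universe u v
open LinTop

namespace Groth.Agent.S18614

/-- A linear functional to a discrete field whose kernel contains an open submodule is continuous. -/
theorem cont_of_ker {k : Type*} {M : Type*} [Field k] [TopologicalSpace k] [DiscreteTopology k]
    [AddCommGroup M] [Module k M] [TopologicalSpace M] [IsTopologicalAddGroup M]
    (φ : M →ₗ[k] k) (U : Submodule k M) (hU : IsOpen (U : Set M)) (hker : ∀ u ∈ U, φ u = 0) :
    Continuous φ := by
  rw [continuous_def]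
  intro S _
  rw [isOpen_iff_mem_nhds]
  intro y hy
  have hW : IsOpen {z : M | z - y ∈ U} := hU.preimage (continuous_id.sub continuous_const)
  have hyW : y ∈ {z : M | z - y ∈ U} := by
    simp only [Set.mem_ofPred_eq, sub_self]
    exact U.zero_mem
  apply Filter.mem_of_superset (hW.mem_nhds hyW)
  intro z hz
  simp only [Set.mem_preimage] at hy ⊢
  have : φ z = φ (z - y) + φ y := by rw [← map_add, sub_add_cancel]
  rw [this, hker _ hz, zero_add]
  exact hy

/-- Let k be a field carrying the discrete topology and M a separated topological k-module with a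
k-linear topology (the open k-submodules form a basis of neighbourhoods of zero and M is a
topological additive group). For a closed submodule M₁, the perpendicular of the perpendicular of
M₁, both taken with respect to the pairing of M with its continuous dual (the continuous k-linear
maps M → k), is M₁ itself: an element killed by every continuous functional vanishing on M₁ belongs
to M₁. -/
theorem result (k : Type u) (M : Type v) [Field k]
    [TopologicalSpace k] [DiscreteTopology k] [AddCommGroup M] [Module k M] [TopologicalSpace M]
    [IsTopologicalAddGroup M] [IsLinearTopology k M] [T2Space M]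
    (M₁ : Submodule k M) (hM₁ : IsClosed (M₁ : Set M)) (x : M)
    (hx : ∀ φ : M →L[k] k, (∀ m ∈ M₁, φ m = 0) → φ x = 0) : x ∈ M₁ := by
  by_contra hxM
  have hnhds : (M₁ : Set M)ᶜ ∈ nhds x := hM₁.isOpen_compl.mem_nhds hxM
  have hg : Filter.Tendsto (fun z : M => x + z) (nhds 0) (nhds x) :=
    (continuous_const_add x).tendsto' 0 x (by simp)
  obtain ⟨U, hUo, hUsub⟩ := (IsLinearTopology.hasBasis_open_submodule k (M := M)).mem_iff.mp
    (hg hnhds)
  have hxW : x ∉ M₁ ⊔ U := by
    intro hx'
    obtain ⟨m, hm, u, hu, hmu⟩ := Submodule.mem_sup.mp hx'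
    have h1 : x + (-u) ∉ (M₁ : Set M) := hUsub (U.neg_mem hu)
    apply h1
    have : x + -u = m := by rw [← hmu]; abel
    rw [this]
    exact hm
  obtain ⟨g, hg0, hgx⟩ := LinearMap.exists_extend_of_notMem (K := k) (V := M) (V' := k)
    (0 : ↥(M₁ ⊔ U) →ₗ[k] k) hxW 1
  have hgW : ∀ w ∈ M₁ ⊔ U, g w = 0 := by
    intro w hw
    have := congrArg (fun F => F ⟨w, hw⟩) hg0
    simpa using this
  have hcont : Continuous g := cont_of_ker g U hUo (fun u hu => hgW u (Submodule.mem_sup_right hu))
  have := hx ⟨g, hcont⟩ (fun m hm => hgW m (Submodule.mem_sup_left hm))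
  simp only [ContinuousLinearMap.coe_mk'] at this
  rw [hgx] at this
  exact one_ne_zero this

end Groth.Agent.S18614
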