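import Groth.Statements.S18615
import Mathlib.Tactic

set_option autoImplicit false
universe u v
open LinTop

namespace Groth.Agent.S18615

/-- A linear functional to a discrete field whose kernel contains an open submodule is continuous. -/
theorem cont_of_ker {k : Type*} {M : Type*} [Field k] [TopologicalSpace k] [DiscreteTopology k]
    [AddCommGroup M] [Module k M] [TopologicalSpace M] [IsTopologicalAddGroup M]
    (φ : M →ₗ[k] k) (U : Submodule k M) (hU : IsOpen (U : Set M)) (hker : ∀ u ∈ U, φ u = 0) :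
    Continuous φ := by
  rw [continuous_def]
  intro S _
  rw [isOpen_iff_mem_nhds]
  intro y hy
  have hW : IsOpen {z : M | z - y ∈ U} := hU.preimage (continuous_id.sub continuous_const)
  have hyW : y ∈ {z : M | z - y ∈ U} := by
    simp only [Set.mem_ofPred_eq, sub_self]
    exact U.zero_mem
  apply Filter.mem_of_superset (hW.mem_nhds hyW)
  intro z hz
  simp only [Set.mem_preimage] at hy ⊢
  have : φ z = φ (z - y) + φ y := by rw [← map_add, sub_add_cancel]
  rw [this, hker _ hz, zero_add]
  exact hy

/-- Let k be a field carrying the discrete topology and M a separated topological k-module with a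
k-linear topology (open k-submodules form a basis of neighbourhoods of zero, M a topological
additive group). For closed submodules M₁ ⊆ M₂ there is a short exact sequence 0 → M₂^⊥ → M₁^⊥ →
(M₂/M₁)^* → 0 of plain k-modules, where ⊥ denotes the annihilator in the continuous dual of M and *
the continuous dual. Stated here as its one non-formal part, surjectivity on the right: every
continuous functional on M₂ (subspace topology) that vanishes on M₁ is the restriction of a
continuous functional on M vanishing on M₁ (continuous functionals on M₂/M₁ being the continuous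
functionals on M₂ that kill M₁). -/
theorem result (k : Type u) (M : Type v) [Field k]
    [TopologicalSpace k] [DiscreteTopology k] [AddCommGroup M] [Module k M] [TopologicalSpace M]
    [IsTopologicalAddGroup M] [IsLinearTopology k M] [T2Space M]
    (M₁ M₂ : Submodule k M) (h₁₂ : M₁ ≤ M₂) (hM₁ : IsClosed (M₁ : Set M))
    (hM₂ : IsClosed (M₂ : Set M)) (ψ : M₂ →L[k] k)
    (hψ : ∀ m : M₂, (m : M) ∈ M₁ → ψ m = 0) :
    ∃ φ : M →L[k] k, (∀ m ∈ M₁, φ m = 0) ∧ ∀ m : M₂, φ (m : M) = ψ m := by
  -- the kernel of ψ is open in M₂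
  have hopen : IsOpen ((fun m : M₂ => ψ m) ⁻¹' {0}) :=
    (isOpen_discrete ({0} : Set k)).preimage ψ.continuous
  obtain ⟨t, ht, htpre⟩ := isOpen_induced_iff.mp hopen
  have h0t : (0 : M) ∈ t := by
    have : (0 : M₂) ∈ (Subtype.val ⁻¹' t : Set M₂) := by
      rw [htpre]; simp
    simpa using this
  obtain ⟨U, hUo, hUsub⟩ := (IsLinearTopology.hasBasis_open_submodule k (M := M)).mem_iff.mp
    (ht.mem_nhds h0t)
  have hψU : ∀ m : M₂, (m : M) ∈ U → ψ m = 0 := by
    intro m hm
    have : m ∈ (Subtype.val ⁻¹' t : Set M₂) := hUsub hm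
    rw [htpre] at this
    simpa using this
  let f : M₂ →ₗ[k] M ⧸ U := U.mkQ ∘ₗ M₂.subtype
  have hker : LinearMap.ker f ≤ LinearMap.ker (ψ : M₂ →ₗ[k] k) := by
    intro m hm
    rw [LinearMap.mem_ker] at hm ⊢
    apply hψU
    simpa [f, Submodule.Quotient.mk_eq_zero] using hm
  let χ₀ : LinearMap.range f →ₗ[k] k :=
    ((LinearMap.ker f).liftQ (ψ : M₂ →ₗ[k] k) hker) ∘ₗ (f.quotKerEquivRange.symm : _ →ₗ[k] _)
  obtain ⟨χ, hχ⟩ := LinearMap.exists_extend χ₀
  let φ₀ : M →ₗ[k] k := χ ∘ₗ U.mkQ
  have hφψ : ∀ m : M₂, φ₀ (m : M) = ψ m := by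
    intro m
    have h1 : φ₀ (m : M) = χ (f m) := rfl
    have h2 : χ (f m) = χ₀ ⟨f m, LinearMap.mem_range_self f m⟩ := by
      have := congrArg (fun F => F ⟨f m, LinearMap.mem_range_self f m⟩) hχ
      simpa using this
    rw [h1, h2]
    simp only [χ₀, LinearMap.coe_comp, Function.comp_apply, LinearEquiv.coe_coe,
      LinearMap.quotKerEquivRange_symm_apply_image, Submodule.mkQ_apply, Submodule.liftQ_apply]
    rfl
  have hφU : ∀ u ∈ U, φ₀ u = 0 := by
    intro u hu
    simp only [φ₀, LinearMap.coe_comp, Function.comp_apply, Submodule.mkQ_apply]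
    rw [(Submodule.Quotient.mk_eq_zero U).mpr hu, map_zero]
  refine ⟨⟨φ₀, cont_of_ker φ₀ U hUo hφU⟩, ?_, ?_⟩
  · intro m hm
    show φ₀ m = 0
    rw [show m = ((⟨m, h₁₂ hm⟩ : M₂) : M) from rfl, hφψ]
    exact hψ _ hm
  · intro m
    exact hφψ m

end Groth.Agent.S18615
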