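import Groth.Statements.S18617
import Mathlib.Tactic

set_option autoImplicit false
universe u
open LocRes

namespace Groth.Agent.S18617

/-- The antiderivative coefficients. -/
noncomputable def antiCoeff {k : Type u} [Field k] (g : LaurentSeries k) (m : ℤ) : k :=
  if m = 0 then 0 else ((m : k))⁻¹ * g.coeff (m - 1)

theorem antiCoeff_support_subset {k : Type u} [Field k] (g : LaurentSeries k) :
    Function.support (antiCoeff g) ⊆ (fun m : ℤ => m + 1) '' Function.support g.coeff := by
  intro m hm
  refine ⟨m - 1, ?_, by ring⟩
  intro h
  apply hm
  simp only [antiCoeff]
  split_ifs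
  · rfl
  · rw [h, mul_zero]

/-- The antiderivative as a Laurent series. -/
noncomputable def anti {k : Type u} [Field k] (g : LaurentSeries k) : LaurentSeries k where
  coeff := antiCoeff g
  isPWO_support' := by
    refine Set.IsPWO.mono ?_ (antiCoeff_support_subset g)
    exact g.isPWO_support.image_of_monotone (fun a b hab => by simpa using hab)

/-- The published statement is that, for a complete separated linearly topologized commutative algebra K
over a field of characteristic zero, the separated de Rham complex of K tensored with the exterior
algebra on symbols α_1, ..., α_n maps quasi-isomorphically to the separated de Rham complex of the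
iterated Laurent series ring K((t_1, ..., t_n)), α_i going to dlog t_i; this row is the case K = k
and n = 1, unpacked: over a field k of characteristic 0, a formal Laurent series f in k((t)) has
term-by-term derivative zero if and only if it is the constant series on its coefficient of degree
0, and a Laurent series g is the derivative of some Laurent series if and only if its residue (the
coefficient of t⁻¹) vanishes; so H⁰ of the complex k((t)) → k((t)) dt is k and H¹ is the line
spanned by the class of dt/t, on which the residue is 1. -/
theorem result (k : Type u) [Field k] [CharZero k] :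
    (∀ f : LaurentSeries k, LocRes.D k f = 0 ↔ f = HahnSeries.C (f.coeff 0)) ∧
      ∀ g : LaurentSeries k, (∃ f : LaurentSeries k, LocRes.D k f = g) ↔ LocRes.res k g = 0 := by
  refine ⟨fun f => ⟨fun h => ?_, fun h => ?_⟩, fun g => ⟨?_, fun h => ?_⟩⟩
  · ext n
    rw [HahnSeries.C_apply, HahnSeries.coeff_single]
    split_ifs with hn
    · rw [hn]
    · have h1 := congrArg (fun x : LaurentSeries k => x.coeff (n - 1)) h
      simp only [LocRes.D_coeff, HahnSeries.coeff_zero] at h1
      rw [show n - 1 + 1 = n by ring, zsmul_eq_mul] at h1
      rcases mul_eq_zero.mp h1 with h2 | h2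
      · exact absurd (by exact_mod_cast h2) hn
      · exact h2
  · rw [h, LocRes.D_apply, LocRes.derivative_C]
  · rintro ⟨f, rfl⟩
    rw [LocRes.res_apply, LocRes.D_coeff]
    simp
  · refine ⟨anti g, ?_⟩
    ext n
    rw [LocRes.D_coeff]
    show (n + 1) • antiCoeff g (n + 1) = g.coeff n
    simp only [antiCoeff]
    split_ifs with hn
    · have : n = -1 := by omega
      rw [this]
      rw [LocRes.res_apply] at h
      rw [h, smul_zero]
    · rw [zsmul_eq_mul, show n + 1 - 1 = n by ring, ← mul_assoc]
      have hn' : ((n + 1 : ℤ) : k) ≠ 0 := by exact_mod_cast hn
      rw [mul_inv_cancel₀ hn', one_mul]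

end Groth.Agent.S18617
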