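import Groth.Statements.S18790
import Mathlib.Tactic.Abel
-- import your own Groth.Agent.* helpers here

set_option autoImplicit false
universe u v w
open TorusGr

namespace Groth.Agent.S18790

/-- Let `A` be a commutative algebra over a field `k`, graded by an additive commutative group `M` (for
`M` the character group of a split torus `T`, a `T`-action on `Spec A`), let `J` be the ideal
generated by the homogeneous elements of non-zero degree (its zero locus is the fixed-point
subscheme) and let `m ⊇ J` be a maximal ideal with residue field `k` (a fixed rational point) at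
which the fixed-point subscheme is the reduced point: `J` and `m` agree after localizing at `m`.
Then the cotangent space `m/m²` has no part of weight zero: every degree-zero element of `m` lies in
`m²`. (The published statement has `M ≅ ℤ^r`, a split torus, and phrases the conclusion as the
non-vanishing of the weights of a semi-invariant basis of `m/m²`; here `M` is any additive
commutative group, i.e. any diagonalizable group.) -/
theorem result
    {k : Type u} [Field k] {M : Type v} [AddCommGroup M] [DecidableEq M]
    {A : Type w} [CommRing A] [Algebra k A] (𝒜 : M → Submodule k A) [GradedAlgebra 𝒜]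
    (m : Ideal A) [m.IsMaximal] (hrat : Function.Surjective (algebraMap k (A ⧸ m)))
    (hfix : ∀ i : M, i ≠ 0 → ∀ a ∈ 𝒜 i, a ∈ m)
    (hred : ∀ a ∈ m, ∃ s ∉ m, s * a ∈ Ideal.span {b : A | ∃ i : M, i ≠ 0 ∧ b ∈ 𝒜 i})
    {f : A} (hf0 : f ∈ 𝒜 0) (hfm : f ∈ m) : f ∈ m ^ 2 := by
  classical
  let π : A → A := fun x => (DirectSum.decompose 𝒜 x 0 : A)
  have hπadd : ∀ x y, π (x + y) = π x + π y := by
    intro x y; simp only [π, DirectSum.decompose_add, DirectSum.add_apply, Submodule.coe_add]
  have hπzero : π 0 = 0 := by simp [π]
  have hJ : ∀ x ∈ Ideal.span {b : A | ∃ i : M, i ≠ 0 ∧ b ∈ 𝒜 i}, ∀ r : A, π (r * x) ∈ m ^ 2 := by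
    intro x hx
    induction hx using Submodule.span_induction with
    | mem b hb =>
      obtain ⟨i, hi, hbi⟩ := hb
      intro r
      have h : π (r * b) = (DirectSum.decompose 𝒜 r (-i) : A) * b := by
        have := DirectSum.coe_decompose_mul_add_of_right_mem 𝒜 (i := -i) (a := r) hbi
        rw [neg_add_cancel] at this
        exact this
      rw [h, pow_two]
      exact Ideal.mul_mem_mul (hfix (-i) (neg_ne_zero.2 hi) _ (Submodule.coe_mem _))
        (hfix i hi b hbi)
    | zero => intro r; rw [mul_zero, hπzero]; exact Ideal.zero_mem _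
    | add x y _ _ hx hy => intro r; rw [mul_add, hπadd]; exact Ideal.add_mem _ (hx r) (hy r)
    | smul a x _ hx => intro r; rw [smul_eq_mul, ← mul_assoc]; exact hx (r * a)
  obtain ⟨s, hs, hsf⟩ := hred f hfm
  have h1 : π (s * f) ∈ m ^ 2 := by simpa using hJ _ hsf 1
  have h2 : π (s * f) = π s * f := by
    have := DirectSum.coe_decompose_mul_add_of_right_mem 𝒜 (i := 0) (a := s) hf0
    rw [add_zero] at this
    exact this
  have h3 : ∀ x : A, x - π x ∈ m := by
    intro x
    induction x using DirectSum.Decomposition.inductionOn 𝒜 with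
    | zero => simp [π]
    | @homogeneous i x =>
      by_cases hi : i = 0
      · subst hi
        have : π (x : A) = x := DirectSum.decompose_of_mem_same 𝒜 x.2
        rw [this, sub_self]; exact Ideal.zero_mem _
      · have : π (x : A) = 0 := DirectSum.decompose_of_mem_ne 𝒜 x.2 hi
        rw [this, sub_zero]; exact hfix i hi x x.2
    | add x y hx hy =>
      rw [hπadd]
      have := m.add_mem hx hy
      convert this using 1
      abel
  have hs0 : π s ∉ m := by
    intro h; apply hs
    have := m.add_mem (h3 s) h
    rwa [sub_add_cancel] at this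
  obtain ⟨c, hc⟩ := hrat (Ideal.Quotient.mk m (π s))
  have ht : π s - algebraMap k A c ∈ m := by
    rw [← Ideal.Quotient.eq, ← hc, Ideal.Quotient.mk_algebraMap]
  have hc0 : c ≠ 0 := by
    rintro rfl
    apply hs0
    simpa using ht
  have htf : (π s - algebraMap k A c) * f ∈ m ^ 2 := by
    rw [pow_two]; exact Ideal.mul_mem_mul ht hfm
  have hcf : algebraMap k A c * f ∈ m ^ 2 := by
    have := (m ^ 2).sub_mem (h2 ▸ h1) htf
    rwa [sub_mul, sub_sub_cancel] at this
  have hfe : f = algebraMap k A c⁻¹ * (algebraMap k A c * f) := by
    rw [← mul_assoc, ← map_mul, inv_mul_cancel₀ hc0, map_one, one_mul]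
  rw [hfe]
  exact Ideal.mul_mem_left _ _ hcf

end Groth.Agent.S18790
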