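import Groth.Statements.S18791
import Mathlib.Tactic.Abel
import Mathlib.LinearAlgebra.Matrix.Adjugate
import Mathlib.RingTheory.Ideal.Quotient.Operations
-- import your own Groth.Agent.* helpers here

set_option autoImplicit false
universe u v w x
open TorusGr

namespace Groth.Agent.S18791

/-- The kernel of `A → A_m` is homogeneous (determinant trick). -/
theorem ker_loc_homog_aux {k : Type u} [Field k] {M : Type v} [AddCommGroup M] [DecidableEq M]
    {A : Type w} [CommRing A] [Algebra k A] (𝒜 : M → Submodule k A) [GradedAlgebra 𝒜]
    (m : Ideal A) [m.IsMaximal] (hfix : ∀ i : M, i ≠ 0 → ∀ a ∈ 𝒜 i, a ∈ m)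
    (s a : A) (hs : s ∉ m) (hsa : s * a = 0) (i : M) :
    ∃ t : A, t ∉ m ∧ t * (DirectSum.decompose 𝒜 a i : A) = 0 := by
  classical
  let π : M → A → A := fun d x => (DirectSum.decompose 𝒜 x d : A)
  have hπadd : ∀ d x y, π d (x + y) = π d x + π d y := by
    intro d x y; simp only [π, DirectSum.decompose_add, DirectSum.add_apply, Submodule.coe_add]
  -- s - s₀ ∈ m
  have h3 : ∀ x : A, x - π 0 x ∈ m := by
    intro x
    induction x using DirectSum.Decomposition.inductionOn 𝒜 with
    | zero => simp [π]
    | @homogeneous i x =>
      by_cases hi : i = 0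
      · subst hi
        have : π 0 (x : A) = x := DirectSum.decompose_of_mem_same 𝒜 x.2
        rw [this, sub_self]; exact Ideal.zero_mem _
      · have : π 0 (x : A) = 0 := DirectSum.decompose_of_mem_ne 𝒜 x.2 hi
        rw [this, sub_zero]; exact hfix i hi x x.2
    | add x y hx hy =>
      rw [hπadd]
      have := m.add_mem hx hy
      convert this using 1
      abel
  have hs0 : π 0 s ∉ m := by
    intro h; apply hs
    have := m.add_mem (h3 s) h
    rwa [sub_add_cancel] at this
  set J := (DirectSum.decompose 𝒜 a).support with hJ
  by_cases hiJ : i ∉ J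
  · refine ⟨1, fun h => (Ideal.IsMaximal.ne_top inferInstance) ((Ideal.eq_top_iff_one m).2 h), ?_⟩
    rw [DFinsupp.notMem_support_iff] at hiJ
    rw [hiJ, one_mul, ZeroMemClass.coe_zero]
  rw [not_not] at hiJ
  let T : Matrix J J A := fun d j => π ((d : M) - j) s
  let v : J → A := fun j => π j a
  have hmul : ∀ d : M, π d (s * a) = ∑ j : J, π ((d : M) - j) s * π j a := by
    intro d
    have ha : a = ∑ j ∈ J, π j a := (DirectSum.sum_support_decompose 𝒜 a).symm
    conv_lhs => rw [ha, Finset.mul_sum]
    rw [← Finset.sum_coe_sort J]
    have hsum : ∀ (t : Finset J) (f : J → A), π d (∑ j ∈ t, f j) = ∑ j ∈ t, π d (f j) := by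
      intro t f
      induction t using Finset.induction_on with
      | empty => simp [π]
      | insert x t hx ih => rw [Finset.sum_insert hx, Finset.sum_insert hx, hπadd, ih]
    rw [hsum]
    apply Finset.sum_congr rfl
    intro j _
    have hj : π j a ∈ 𝒜 j := Submodule.coe_mem _
    have := DirectSum.coe_decompose_mul_add_of_right_mem 𝒜 (i := d - j) (a := s) hj
    rw [sub_add_cancel] at this
    exact this
  have hTv : T.mulVec v = 0 := by
    funext d
    show ∑ j : J, T d j * v j = 0
    have := hmul d
    rw [hsa] at this
    simp only [π, DirectSum.decompose_zero, DirectSum.zero_apply, ZeroMemClass.coe_zero] at this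
    exact this.symm
  have hdet : T.det • v = 0 := by
    have h := congrArg (fun w => T.adjugate.mulVec w) hTv
    simp only [Matrix.mulVec_mulVec, Matrix.adjugate_mul, Matrix.smul_mulVec, Matrix.one_mulVec,
      Matrix.mulVec_zero] at h
    exact h
  have hdetm : T.det ∉ m := by
    intro h
    have h0 : Ideal.Quotient.mk m T.det = 0 := Ideal.Quotient.eq_zero_iff_mem.2 h
    rw [RingHom.map_det] at h0
    have hdiag : (Ideal.Quotient.mk m).mapMatrix T =
        Matrix.diagonal (fun _ => Ideal.Quotient.mk m (π 0 s)) := by
      ext d j
      rw [RingHom.mapMatrix_apply, Matrix.map_apply, Matrix.diagonal_apply]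
      split_ifs with hdj
      · subst hdj; simp [T]
      · rw [Ideal.Quotient.eq_zero_iff_mem]
        apply hfix ((d : M) - j) (sub_ne_zero.2 (fun h => hdj (Subtype.ext h)))
        exact Submodule.coe_mem _
    rw [hdiag, Matrix.det_diagonal, Finset.prod_const] at h0
    have := pow_eq_zero_iff (n := Finset.univ.card) (M₀ := A ⧸ m) ?_ |>.1 h0
    · exact hs0 (Ideal.Quotient.eq_zero_iff_mem.1 this)
    · have : Nonempty J := ⟨⟨i, hiJ⟩⟩
      rw [Finset.card_univ]; exact Fintype.card_ne_zero
  refine ⟨T.det, hdetm, ?_⟩
  have := congrFun hdet ⟨i, hiJ⟩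
  simpa [v, π] using this


/-- Let `φ : B → A` be a degree-preserving homomorphism of commutative algebras over a field `k` graded
by an additive commutative group `M` (for `M` the character group of a split torus, an equivariant
morphism `Spec A → Spec B`), and let `m` be a maximal ideal of `A` containing all homogeneous
elements of non-zero degree (a fixed point). Then the ideal of those `b` whose image is zero in the
local ring `A_m` is homogeneous: the homogeneous (weight) components of such a `b` again die in
`A_m`. Since `A_m` embeds in its completion when `A` is Noetherian, these are the elements of `B`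
that die in the completed local ring. (The published lemma asserts moreover that, for `B = k[Y_1, …,
Y_d]` mapping the `Y_i` to semi-invariant lifts of a basis of `m/m²`, the kernel of the induced
surjection of completions `k[[Y]] → Â_m` is generated by semi-invariant polynomials; generation of
that kernel by polynomials can fail, so only the statement about polynomial elements of the kernel
is recorded here. The published statement has `M ≅ ℤ^r` (a split torus) and `B` the polynomial ring
on the lifts; here `M` is any additive commutative group and `B` any `M`-graded `k`-algebra.) -/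
theorem result
    {k : Type u} [Field k] {M : Type v} [AddCommGroup M] [DecidableEq M]
    {A : Type w} [CommRing A] [Algebra k A] (𝒜 : M → Submodule k A) [GradedAlgebra 𝒜]
    {B : Type x} [CommRing B] [Algebra k B] (ℬ : M → Submodule k B) [GradedAlgebra ℬ]
    (φ : B →ₐ[k] A) (hφ : ∀ i : M, ∀ b ∈ ℬ i, φ b ∈ 𝒜 i)
    (m : Ideal A) [m.IsMaximal] (hfix : ∀ i : M, i ≠ 0 → ∀ a ∈ 𝒜 i, a ∈ m) :
    (RingHom.ker ((algebraMap A (Localization.AtPrime m)).comp (φ : B →+* A))).IsHomogeneous ℬ := by
  classical
  intro i b hb
  rw [RingHom.mem_ker, RingHom.comp_apply, IsLocalization.map_eq_zero_iff m.primeCompl] at hb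
  obtain ⟨⟨s, hs⟩, hsb⟩ := hb
  have hφd : ∀ x : B, φ (DirectSum.decompose ℬ x i : B) = (DirectSum.decompose 𝒜 (φ x) i : A) := by
    intro x
    induction x using DirectSum.Decomposition.inductionOn ℬ with
    | zero => simp
    | @homogeneous j x =>
      by_cases hji : j = i
      · subst hji
        rw [DirectSum.decompose_of_mem_same ℬ x.2,
          DirectSum.decompose_of_mem_same 𝒜 (hφ j x x.2)]
      · rw [DirectSum.decompose_of_mem_ne ℬ x.2 hji,
          DirectSum.decompose_of_mem_ne 𝒜 (hφ j x x.2) hji, map_zero]
    | add x y hx hy =>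
      simp only [DirectSum.decompose_add, DirectSum.add_apply, Submodule.coe_add, map_add] at hx hy ⊢
      rw [hx, hy]
  obtain ⟨t, ht, htb⟩ := ker_loc_homog_aux 𝒜 m hfix s (φ b) hs hsb i
  rw [RingHom.mem_ker, RingHom.comp_apply, IsLocalization.map_eq_zero_iff m.primeCompl]
  refine ⟨⟨t, ht⟩, ?_⟩
  show t * φ (DirectSum.decompose ℬ b i : B) = 0
  rw [hφd]
  exact htb

end Groth.Agent.S18791
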