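import Groth.Statements.S18792
-- import your own Groth.Agent.* helpers here

set_option autoImplicit false
universe u
open DefMod

namespace Groth.Agent.S18792

/-- Let A be an associative unital algebra over ℚ, let a ∈ A be nilpotent and let b ∈ A. Then the
commutator map x ↦ a x − x a is a nilpotent ℚ-linear endomorphism of A, and exp(a) b exp(−a) =
exp(ad a)(b), where exp is the finite exponential series of a nilpotent element and ad a is the
commutator map. (The published statement takes A an algebra over an arbitrary commutative ring; the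
factorials in the exponential series require the rationals to act, so A is taken to be a ℚ-algebra
here. The intermediate double-sum expansion printed between the two sides is not restated.) -/
theorem result {A : Type u} [Ring A] [Algebra ℚ A] (a b : A)
    (ha : IsNilpotent a) :
    IsNilpotent (LinearMap.mulLeft ℚ a - LinearMap.mulRight ℚ a) ∧
      IsNilpotent.exp a * b * IsNilpotent.exp (-a) =
        IsNilpotent.exp (LinearMap.mulLeft ℚ a - LinearMap.mulRight ℚ a) b := by
  set L := LinearMap.mulLeft ℚ a with hLdef
  set R := LinearMap.mulRight ℚ a with hRdef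
  have hLR : Commute L R := LinearMap.commute_mulLeft_right a a
  obtain ⟨k, hk⟩ := ha
  have hLk : L ^ k = 0 := by
    rw [hLdef, LinearMap.pow_mulLeft, hk]; ext x; simp
  have hRk : R ^ k = 0 := by
    rw [hRdef, LinearMap.pow_mulRight, hk]; ext x; simp
  have hL : IsNilpotent L := ⟨k, hLk⟩
  have hR : IsNilpotent R := ⟨k, hRk⟩
  refine ⟨hLR.isNilpotent_sub hL hR, ?_⟩
  have hnegR : -R = LinearMap.mulRight ℚ (-a) := by
    ext x; simp [hRdef]
  have hnak : (-a) ^ k = 0 := by rw [neg_pow, hk, mul_zero]
  have hnRk : (-R) ^ k = 0 := by
    rw [hnegR, LinearMap.pow_mulRight, hnak]; ext x; simp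
  have hexpL : ∀ x, IsNilpotent.exp L x = IsNilpotent.exp a * x := by
    intro x
    rw [IsNilpotent.exp_eq_sum hLk, IsNilpotent.exp_eq_sum hk, LinearMap.sum_apply, Finset.sum_mul]
    apply Finset.sum_congr rfl
    intro i _
    rw [LinearMap.smul_apply, hLdef, LinearMap.pow_mulLeft, LinearMap.mulLeft_apply,
      smul_mul_assoc]
  have hexpR : ∀ x, IsNilpotent.exp (-R) x = x * IsNilpotent.exp (-a) := by
    intro x
    rw [IsNilpotent.exp_eq_sum hnRk, IsNilpotent.exp_eq_sum hnak, LinearMap.sum_apply, Finset.mul_sum]
    apply Finset.sum_congr rfl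
    intro i _
    rw [LinearMap.smul_apply, hnegR, LinearMap.pow_mulRight, LinearMap.mulRight_apply,
      mul_smul_comm]
  rw [sub_eq_add_neg, IsNilpotent.exp_add_of_commute hLR.neg_right hL hR.neg,
    Module.End.mul_apply, hexpR, hexpL, mul_assoc]

end Groth.Agent.S18792
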