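import Groth.Statements.S18793
import Groth.Agent.H28Colon
import Mathlib.RingTheory.Artinian.Ring
import Mathlib.RingTheory.HopkinsLevitzki
-- import your own Groth.Agent.* helpers here

set_option autoImplicit false
universe u v w w'
open DefMod

namespace Groth.Agent.S18793

/-- Let E be a nonzero left module over an associative algebra D over a field K of characteristic zero,
whose D-linear endomorphisms are exactly the scalars of K. Let R be an Artinian local K-algebra with
residue field K, and let F carry commuting R- and D-module structures (a left module over R ⊗_K D)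
with F flat over R, together with a D-linear map θ : F → E that is semilinear over the augmentation
R → K, surjective, and whose kernel is m_R F (so θ induces an isomorphism K ⊗_R F ≅ E; that is, (F,
θ) is a deformation of E over R). Then every endomorphism of F that is both R-linear and D-linear is
multiplication by a unique element of R. (The published statement adds that the automorphisms of (F,
θ) are then exactly the elements 1 + m_R of R; that consequence is stated separately.) -/
theorem result
    {K : Type u} [Field K] [CharZero K]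
    {D : Type v} [Ring D] [Algebra K D]
    {E : Type w} [AddCommGroup E] [Module K E] [Module D E] [IsScalarTower K D E] [Nontrivial E]
    (hE : ∀ ψ : E →ₗ[D] E, ∃ c : K, ∀ y : E, ψ y = c • y)
    (R : ArtFun.Art K K)
    {F : Type w'} [AddCommGroup F] [Module K F] [Module R F] [Module D F]
    [IsScalarTower K R F] [IsScalarTower K D F] [SMulCommClass R D F] [Module.Flat R F]
    (θ : F →ₗ[D] E) (hθ : ∀ (r : R) (x : F), θ (r • x) = R.res r • θ x)
    (hsurj : Function.Surjective θ)
    (hker : ∀ x : F, θ x = 0 ↔ x ∈ IsLocalRing.maximalIdeal R • (⊤ : Submodule R F))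
    (φ : F →ₗ[R] F) (hφ : ∀ (d : D) (x : F), φ (d • x) = d • φ x) :
    ∃! r : R, ∀ x : F, φ x = r • x := by
  classical
  set m := IsLocalRing.maximalIdeal R with hm
  have hDstab : ∀ (I : Ideal R) (d : D) (z : F), z ∈ I • (⊤ : Submodule R F) →
      d • z ∈ I • (⊤ : Submodule R F) := by
    intro I d z hz
    refine Submodule.smul_induction_on (p := fun z => d • z ∈ I • (⊤ : Submodule R F)) hz ?_ ?_
    · intro r hr n _
      rw [← smul_comm r d n]
      exact Submodule.smul_mem_smul hr Submodule.mem_top
    · intro x y hx hy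
      rw [smul_add]
      exact Submodule.add_mem _ hx hy
  have hnil : ∃ N : ℕ, m ^ N = ⊥ := by
    have h := IsArtinianRing.isNilpotent_jacobson_bot (R := R)
    rw [IsLocalRing.jacobson_eq_maximalIdeal ⊥ bot_ne_top] at h
    exact h
  have key : ∀ I : Ideal R, ∃ r : R, ∀ x : F, φ x - r • x ∈ I • (⊤ : Submodule R F) := by
    intro I
    induction I using WellFoundedGT.induction with
    | _ I ih =>
    by_cases hI : I = ⊤
    · refine ⟨0, fun x => ?_⟩
      rw [hI, Submodule.top_smul]
      exact Submodule.mem_top
    obtain ⟨N, hN⟩ := hnil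
    have hex : ∃ k, m ^ k ≤ I := ⟨N, by rw [hN]; exact bot_le⟩
    have hk : m ^ (Nat.find hex) ≤ I := Nat.find_spec hex
    have hk0 : Nat.find hex ≠ 0 := by
      intro h0
      apply hI
      have h := hk
      rw [h0, pow_zero, Ideal.one_eq_top] at h
      exact top_le_iff.mp h
    have hk1 : ¬ m ^ (Nat.find hex - 1) ≤ I := Nat.find_min hex (by omega)
    obtain ⟨a, ha1, ha2⟩ := Set.not_subset.mp hk1
    have hma : ∀ b ∈ m, b * a ∈ I := by
      intro b hb
      apply hk
      have e : m ^ (Nat.find hex) = m * m ^ (Nat.find hex - 1) := by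
        rw [← pow_succ']
        congr 1
        omega
      rw [e]
      exact Ideal.mul_mem_mul hb ha1
    have hIJ : I < I ⊔ Ideal.span {a} := by
      refine lt_of_le_of_ne le_sup_left (fun h => ha2 ?_)
      rw [h]
      exact Ideal.mem_sup_right (Ideal.mem_span_singleton_self a)
    obtain ⟨r, hr⟩ := ih _ hIJ
    let ψ : F → F := fun x => φ x - r • x
    have hdec : ∀ x, ∃ y, ψ x - a • y ∈ I • (⊤ : Submodule R F) := by
      intro x
      have h := hr x
      rw [Submodule.sup_smul, Submodule.mem_sup] at h
      obtain ⟨u, hu, v, hv, huv⟩ := h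
      rw [Submodule.ideal_span_singleton_smul, Submodule.mem_smul_pointwise_iff_exists] at hv
      obtain ⟨y, -, rfl⟩ := hv
      refine ⟨y, ?_⟩
      have e : ψ x - a • y = u := by
        simp only [ψ]
        rw [← huv]
        abel
      rw [e]
      exact hu
    choose y hy using hdec
    have ham : ∀ w ∈ m • (⊤ : Submodule R F), a • w ∈ I • (⊤ : Submodule R F) := by
      intro w hw
      refine Submodule.smul_induction_on (p := fun w => a • w ∈ I • (⊤ : Submodule R F)) hw ?_ ?_
      · intro b hb n _
        rw [smul_smul, mul_comm]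
        exact Submodule.smul_mem_smul (hma b hb) Submodule.mem_top
      · intro x₁ x₂ h₁ h₂
        rw [smul_add]
        exact Submodule.add_mem _ h₁ h₂
    have hwd : ∀ y₁ y₂ : F, a • y₁ - a • y₂ ∈ I • (⊤ : Submodule R F) → θ y₁ = θ y₂ := by
      intro y₁ y₂ h
      rw [← smul_sub] at h
      have h' := Groth.Agent.H28Colon.colon_lemma I a ha2 _ h
      rw [← hker, map_sub, sub_eq_zero] at h'
      exact h'
    have hψadd : ∀ x₁ x₂, ψ (x₁ + x₂) = ψ x₁ + ψ x₂ := by
      intro x₁ x₂
      simp only [ψ, map_add, smul_add]
      abel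
    have hgadd : ∀ x₁ x₂, θ (y (x₁ + x₂)) = θ (y x₁) + θ (y x₂) := by
      intro x₁ x₂
      rw [← map_add]
      apply hwd
      have e : a • y (x₁ + x₂) - a • (y x₁ + y x₂) =
          (ψ x₁ - a • y x₁) + (ψ x₂ - a • y x₂) - (ψ (x₁ + x₂) - a • y (x₁ + x₂)) := by
        rw [hψadd, smul_add]
        abel
      rw [e]
      exact Submodule.sub_mem _ (Submodule.add_mem _ (hy x₁) (hy x₂)) (hy (x₁ + x₂))
    have hψD : ∀ (d : D) x, ψ (d • x) = d • ψ x := by
      intro d x
      simp only [ψ, hφ, smul_sub]
      rw [smul_comm r d x]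
    have hgD : ∀ (d : D) x, θ (y (d • x)) = d • θ (y x) := by
      intro d x
      rw [← θ.map_smul]
      apply hwd
      have e : a • y (d • x) - a • (d • y x) =
          d • (ψ x - a • y x) - (ψ (d • x) - a • y (d • x)) := by
        rw [hψD, smul_sub, smul_comm a d (y x)]
        abel
      rw [e]
      exact Submodule.sub_mem _ (hDstab I d _ (hy x)) (hy (d • x))
    have hψm : ∀ x ∈ m • (⊤ : Submodule R F), ψ x ∈ I • (⊤ : Submodule R F) := by
      intro x hx
      refine Submodule.smul_induction_on (p := fun x => ψ x ∈ I • (⊤ : Submodule R F)) hx ?_ ?_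
      · intro b hb n _
        have e : ψ (b • n) = b • (ψ n - a • y n) + (b * a) • y n := by
          simp only [ψ, map_smul, smul_sub, smul_smul, mul_comm r b]
          abel
        rw [e]
        exact Submodule.add_mem _ (Submodule.smul_mem _ b (hy n))
          (Submodule.smul_mem_smul (hma b hb) Submodule.mem_top)
      · intro x₁ x₂ h₁ h₂
        rw [hψadd]
        exact Submodule.add_mem _ h₁ h₂
    have hgm : ∀ x ∈ m • (⊤ : Submodule R F), θ (y x) = 0 := by
      intro x hx
      have h1 : a • y x ∈ I • (⊤ : Submodule R F) := by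
        have h := Submodule.sub_mem _ (hψm x hx) (hy x)
        rwa [sub_sub_cancel] at h
      exact (hker _).mpr (Groth.Agent.H28Colon.colon_lemma I a ha2 _ h1)
    choose s hs using hsurj
    have hgwd : ∀ x₁ x₂, θ x₁ = θ x₂ → θ (y x₁) = θ (y x₂) := by
      intro x₁ x₂ h
      have hm' : x₁ - x₂ ∈ m • (⊤ : Submodule R F) := (hker _).mp (by rw [map_sub, h, sub_self])
      have h0 := hgm _ hm'
      have e : x₁ = (x₁ - x₂) + x₂ := by abel
      rw [e, hgadd, h0, zero_add]
    let Ψ : E →ₗ[D] E :=
      { toFun := fun e => θ (y (s e))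
        map_add' := fun e₁ e₂ => by
          rw [← hgadd]
          apply hgwd
          rw [map_add, hs, hs, hs]
        map_smul' := fun d e => by
          simp only [RingHom.id_apply]
          rw [← hgD]
          apply hgwd
          rw [θ.map_smul, hs, hs] }
    have hΨ : ∀ x, Ψ (θ x) = θ (y x) := fun x => hgwd _ _ (hs _)
    obtain ⟨c, hc⟩ := hE Ψ
    refine ⟨r + algebraMap K R c * a, fun x => ?_⟩
    have h1 : θ (y x - algebraMap K R c • x) = 0 := by
      rw [map_sub, hθ, ← hΨ, hc, AlgHom.commutes]
      simp
    have h2 := ham _ ((hker _).mp h1)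
    have e : φ x - (r + algebraMap K R c * a) • x = (ψ x - a • y x) + a • (y x - algebraMap K R c • x) := by
      simp only [ψ, add_smul, smul_sub, smul_smul, mul_comm a]
      abel
    rw [e]
    exact Submodule.add_mem _ (hy x) h2
  obtain ⟨r, hr⟩ := key ⊥
  have hr' : ∀ x, φ x = r • x := by
    intro x
    have h := hr x
    rw [Submodule.bot_smul, Submodule.mem_bot, sub_eq_zero] at h
    exact h
  refine ⟨r, hr', ?_⟩
  intro r' hr''
  by_contra hne
  have hne' : r' - r ∉ (⊥ : Ideal R) := by
    rw [Ideal.mem_bot]
    exact sub_ne_zero.mpr hne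
  have hall : ∀ z : F, z ∈ m • (⊤ : Submodule R F) := by
    intro z
    apply Groth.Agent.H28Colon.colon_lemma ⊥ (r' - r) hne'
    rw [Submodule.bot_smul, Submodule.mem_bot, sub_smul, ← hr'' z, ← hr' z, sub_self]
  obtain ⟨e, he⟩ := exists_ne (0 : E)
  obtain ⟨z, rfl⟩ := hsurj e
  exact he ((hker z).mpr (hall z))

end Groth.Agent.S18793
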