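import Groth.Statements.S18794
import Mathlib.FieldTheory.IsAlgClosed.Basic
import Mathlib.LinearAlgebra.Dual.Lemmas
import Mathlib.LinearAlgebra.TensorProduct.Finiteness
import Mathlib.FieldTheory.IntermediateField.Adjoin.Basic
import Mathlib.RingTheory.Flat.FaithfullyFlat.Basic
import Mathlib.LinearAlgebra.Basis.VectorSpace
-- import your own Groth.Agent.* helpers here

set_option autoImplicit false
universe u v w
open scoped TensorProduct
open DefMod

namespace H28AbsIrr

variable {K : Type u} [Field K]
variable {D : Type v} [Ring D] [Algebra K D]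
variable {E : Type w} [AddCommGroup E] [Module K E] [Module D E] [IsScalarTower K D E]

lemma nontrivial_of_tensor (L : Type*) [Field L] [Algebra K L] (h : Nontrivial (L ⊗[K] E)) :
    Nontrivial E := by
  by_contra hE
  rw [not_nontrivial_iff_subsingleton] at hE
  have : ∀ x : L ⊗[K] E, x = 0 := by
    intro x
    induction x using TensorProduct.induction_on with
    | zero => rfl
    | tmul p e => rw [Subsingleton.elim e 0, TensorProduct.tmul_zero]
    | add x y hx hy => rw [hx, hy, add_zero]
  obtain ⟨a, b, hab⟩ := h
  exact hab ((this a).trans (this b).symm)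

lemma one_tmul_ne_zero (L : Type*) [Field L] [Algebra K L] {e : E} (he : e ≠ 0) :
    (1 : L) ⊗ₜ[K] e ≠ 0 := by
  obtain ⟨ℓ, hℓ⟩ : ∃ ℓ : Module.Dual K E, ℓ e ≠ 0 := by
    by_contra hcon
    push Not at hcon
    exact he ((Module.forall_dual_apply_eq_zero_iff K e).1 hcon)
  intro h
  have := congrArg ((TensorProduct.rid K L).toLinearMap ∘ₗ ℓ.lTensor L) h
  simp only [LinearMap.coe_comp, LinearEquiv.coe_coe, Function.comp_apply, LinearMap.lTensor_tmul,
    TensorProduct.rid_tmul, map_zero, smul_eq_zero, one_ne_zero, or_false] at this
  exact hℓ this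

lemma tensor_nontrivial (L : Type*) [Field L] [Algebra K L] (h : Nontrivial E) :
    Nontrivial (L ⊗[K] E) := by
  obtain ⟨e, he⟩ := exists_ne (0 : E)
  exact nontrivial_of_ne _ _ (one_tmul_ne_zero L he)

/-- the comparison map along a field embedding -/
noncomputable def ι {L M : Type*} [Field L] [Algebra K L] [Field M] [Algebra K M] (σ : L →ₐ[K] M) :
    L ⊗[K] E →ₗ[K] M ⊗[K] E := σ.toLinearMap.rTensor E

lemma ι_tmul {L M : Type*} [Field L] [Algebra K L] [Field M] [Algebra K M] (σ : L →ₐ[K] M)
    (l : L) (e : E) : ι σ (l ⊗ₜ[K] e) = σ l ⊗ₜ[K] e := rfl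

lemma ι_smul {L M : Type*} [Field L] [Algebra K L] [Field M] [Algebra K M] (σ : L →ₐ[K] M)
    (l : L) (y : L ⊗[K] E) : ι σ (l • y) = σ l • ι σ y := by
  induction y using TensorProduct.induction_on with
  | zero => simp
  | tmul p e =>
    rw [TensorProduct.smul_tmul', ι_tmul, ι_tmul, TensorProduct.smul_tmul', smul_eq_mul, smul_eq_mul,
      map_mul]
  | add x y hx hy => rw [smul_add, map_add, hx, hy, map_add, smul_add]

lemma ι_comm {L M : Type*} [Field L] [Algebra K L] [Field M] [Algebra K M] (σ : L →ₐ[K] M)
    (d : D) (y : L ⊗[K] E) :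
    (DistribSMul.toLinearMap K E d).baseChange M (ι σ y) =
      ι σ ((DistribSMul.toLinearMap K E d).baseChange L y) := by
  induction y using TensorProduct.induction_on with
  | zero => simp
  | tmul p e => rfl
  | add x y hx hy => rw [map_add, map_add, hx, hy, map_add, map_add]

lemma ι_injective {L M : Type*} [Field L] [Algebra K L] [Field M] [Algebra K M] (σ : L →ₐ[K] M) :
    Function.Injective (ι (E := E) σ) := by
  have : Module.Flat K E := Module.Flat.of_free
  exact Module.Flat.rTensor_preserves_injective_linearMap _ σ.toRingHom.injective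

end H28AbsIrr

open H28AbsIrr

namespace Groth.Agent.S18794

/-- Let E be a left module over an associative algebra D over a field K of characteristic zero. For a
field extension L of K, the base change L ⊗_K E is a module over L ⊗_K D, i.e. an L-vector space
with a commuting action of D; call it irreducible when it is nonzero and its only L-subspaces stable
under every element of D are 0 and the whole space. Then E is absolutely irreducible (its base
change to an algebraic closure of K is irreducible) if and only if L ⊗_K E is irreducible for every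
finite extension L of K. (Finite extensions are taken in the universe of K.) -/
theorem result
    {K : Type u} [Field K] [CharZero K]
    {D : Type v} [Ring D] [Algebra K D]
    {E : Type w} [AddCommGroup E] [Module K E] [Module D E] [IsScalarTower K D E] :
    (Nontrivial (AlgebraicClosure K ⊗[K] E) ∧ ∀ N : Submodule (AlgebraicClosure K) (AlgebraicClosure K ⊗[K] E), (∀ (d : D) (x : AlgebraicClosure K ⊗[K] E), x ∈ N → (DistribSMul.toLinearMap K E d).baseChange (AlgebraicClosure K) x ∈ N) → N = ⊥ ∨ N = ⊤) ↔
      ∀ (L : Type u) [Field L] [Algebra K L] [FiniteDimensional K L],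
        (Nontrivial (L ⊗[K] E) ∧ ∀ N : Submodule (L) (L ⊗[K] E), (∀ (d : D) (x : L ⊗[K] E), x ∈ N → (DistribSMul.toLinearMap K E d).baseChange (L) x ∈ N) → N = ⊥ ∨ N = ⊤) := by
  classical
  constructor
  · rintro ⟨hnt, hirr⟩ L _ _ _
    have hE : Nontrivial E := nontrivial_of_tensor _ hnt
    refine ⟨tensor_nontrivial L hE, ?_⟩
    intro N hN
    let σ : L →ₐ[K] AlgebraicClosure K := IsAlgClosed.lift
    let N' : Submodule (AlgebraicClosure K) (AlgebraicClosure K ⊗[K] E) :=
      Submodule.span (AlgebraicClosure K) (ι σ '' (N : Set (L ⊗[K] E)))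
    have hN' : ∀ (d : D) (x : AlgebraicClosure K ⊗[K] E), x ∈ N' →
        (DistribSMul.toLinearMap K E d).baseChange (AlgebraicClosure K) x ∈ N' := by
      intro d x hx
      induction hx using Submodule.span_induction with
      | mem z hz =>
        obtain ⟨y, hy, rfl⟩ := hz
        rw [ι_comm]
        exact Submodule.subset_span ⟨_, hN d y hy, rfl⟩
      | zero => simp
      | add a b _ _ ha hb => rw [map_add]; exact N'.add_mem ha hb
      | smul c a _ ha => rw [map_smul]; exact N'.smul_mem c ha
    rcases hirr N' hN' with h | h
    · left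
      rw [eq_bot_iff]
      intro y hy
      have : ι σ y ∈ N' := Submodule.subset_span ⟨y, hy, rfl⟩
      rw [h, Submodule.mem_bot] at this
      rw [Submodule.mem_bot]
      exact ι_injective σ (this.trans (map_zero _).symm)
    · right
      by_contra hNtop
      obtain ⟨lam, hlam, hlamN⟩ := Submodule.exists_dual_map_eq_bot_of_lt_top (lt_top_iff_ne_top.2 hNtop)
        inferInstance
      let g : E →ₗ[K] AlgebraicClosure K :=
        σ.toLinearMap ∘ₗ (lam.restrictScalars K) ∘ₗ (TensorProduct.mk K L E 1)
      let Λ := g.liftBaseChange (AlgebraicClosure K)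
      have hΛ : ∀ y, Λ (ι σ y) = σ (lam y) := by
        intro y
        induction y using TensorProduct.induction_on with
        | zero => simp
        | tmul p e =>
          rw [ι_tmul, LinearMap.liftBaseChange_tmul]
          simp only [g, LinearMap.coe_comp, Function.comp_apply, TensorProduct.mk_apply,
            LinearMap.coe_restrictScalars, AlgHom.toLinearMap_apply, smul_eq_mul]
          rw [← map_mul, ← smul_eq_mul, ← map_smul, TensorProduct.smul_tmul', smul_eq_mul, mul_one]
        | add x y hx hy => rw [map_add, map_add, hx, hy, map_add, map_add]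
      have hker : N' ≤ LinearMap.ker Λ := by
        rw [Submodule.span_le]
        rintro _ ⟨y, hy, rfl⟩
        simp only [SetLike.mem_coe, LinearMap.mem_ker]
        rw [hΛ]
        have : lam y ∈ N.map lam := Submodule.mem_map_of_mem hy
        rw [hlamN, Submodule.mem_bot] at this
        rw [this, map_zero]
      rw [h, top_le_iff, LinearMap.ker_eq_top] at hker
      apply hlam
      apply LinearMap.ext
      intro y
      have := hΛ y
      rw [hker, LinearMap.zero_apply] at this
      rw [LinearMap.zero_apply]
      exact σ.toRingHom.injective (this.symm.trans (map_zero _).symm)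
  · intro hL
    have hK := hL K
    have hE : Nontrivial E := nontrivial_of_tensor _ hK.1
    refine ⟨tensor_nontrivial _ hE, ?_⟩
    intro N hN
    by_cases hbot : N = ⊥
    · left; exact hbot
    right
    obtain ⟨x, hxN, hx0⟩ := Submodule.exists_mem_ne_zero_of_ne_bot hbot
    obtain ⟨S, rfl⟩ := TensorProduct.exists_finset x
    set F : IntermediateField K (AlgebraicClosure K) :=
      IntermediateField.adjoin K (↑(S.image Prod.fst) : Set (AlgebraicClosure K)) with hF
    have hFfin : FiniteDimensional K F :=
      IntermediateField.finiteDimensional_adjoin (fun y _ => Algebra.IsIntegral.isIntegral y)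
    have hmem : ∀ s ∈ S, s.1 ∈ F := fun s hs =>
      IntermediateField.subset_adjoin K _ (by simp only [Finset.coe_image]; exact ⟨s, hs, rfl⟩)
    let σ : F →ₐ[K] AlgebraicClosure K := F.val
    let xF : F ⊗[K] E := ∑ s ∈ S.attach, (⟨s.1.1, hmem s.1 s.2⟩ : F) ⊗ₜ[K] s.1.2
    have hxF : ι σ xF = ∑ i ∈ S, i.1 ⊗ₜ[K] i.2 := by
      simp only [xF, map_sum, ι_tmul]
      rw [← Finset.sum_attach S (fun i => i.1 ⊗ₜ[K] i.2)]
      rfl
    let NF : Submodule F (F ⊗[K] E) :=
      { carrier := {y | ι σ y ∈ N}
        add_mem' := by
          intro a b ha hb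
          simp only [Set.mem_ofPred_eq, map_add] at ha hb ⊢
          exact N.add_mem ha hb
        zero_mem' := by simp
        smul_mem' := by
          intro c y hy
          simp only [Set.mem_ofPred_eq] at hy ⊢
          rw [ι_smul]
          exact N.smul_mem _ hy }
    have hNF : ∀ (d : D) (y : F ⊗[K] E), y ∈ NF →
        (DistribSMul.toLinearMap K E d).baseChange F y ∈ NF := by
      intro d y hy
      show ι σ _ ∈ N
      rw [← ι_comm]
      exact hN d _ hy
    rcases (hL F).2 NF hNF with h | h
    · exfalso
      have : xF ∈ NF := by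
        show ι σ xF ∈ N
        rw [hxF]; exact hxN
      rw [h, Submodule.mem_bot] at this
      apply hx0
      rw [← hxF, this, map_zero]
    · rw [eq_top_iff]
      rintro z -
      induction z using TensorProduct.induction_on with
      | zero => exact N.zero_mem
      | tmul c e =>
        have h1 : (1 : F) ⊗ₜ[K] e ∈ NF := by rw [h]; trivial
        have h2 : ι σ ((1 : F) ⊗ₜ[K] e) ∈ N := h1
        rw [ι_tmul, map_one] at h2
        have := N.smul_mem c h2
        rwa [TensorProduct.smul_tmul', smul_eq_mul, mul_one] at this
      | add a b ha hb => exact N.add_mem ha hb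

end Groth.Agent.S18794
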