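import Groth.Statements.S18795
import Mathlib.FieldTheory.IsAlgClosed.Basic
import Mathlib.LinearAlgebra.Dual.Lemmas
import Mathlib.RingTheory.IntegralClosure.IsIntegralClosure.Basic
-- import your own Groth.Agent.* helpers here

set_option autoImplicit false
universe u v w
open scoped TensorProduct
open DefMod

open Polynomial

namespace Groth.Agent.S18795

/-- Let E be a left module over an associative algebra D over a field K of characteristic zero. Assume
that the D-linear endomorphisms of E form a finite-dimensional K-vector space, that E has a finite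
presentation over D, and that E is absolutely irreducible: its base change K̄ ⊗_K E to an algebraic
closure K̄ of K is nonzero and its only K̄-subspaces stable under every element of D are 0 and the
whole space. Then End_D(E) = K: every D-linear endomorphism of E is multiplication by a scalar from
K. -/
theorem result
    {K : Type u} [Field K] [CharZero K]
    {D : Type v} [Ring D] [Algebra K D]
    {E : Type w} [AddCommGroup E] [Module K E] [Module D E] [IsScalarTower K D E]
    [Module.Finite K (E →ₗ[D] E)] [Module.FinitePresentation D E]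
    (habs : (Nontrivial (AlgebraicClosure K ⊗[K] E) ∧ ∀ N : Submodule (AlgebraicClosure K) (AlgebraicClosure K ⊗[K] E), (∀ (d : D) (x : AlgebraicClosure K ⊗[K] E), x ∈ N → (DistribSMul.toLinearMap K E d).baseChange (AlgebraicClosure K) x ∈ N) → N = ⊥ ∨ N = ⊤))
    (φ : E →ₗ[D] E) : ∃ c : K, ∀ x : E, φ x = c • x := by
  classical
  set L := AlgebraicClosure K
  obtain ⟨hnt, hirr⟩ := habs
  -- the base change ring hom
  let β : Module.End D E →+* Module.End L (L ⊗[K] E) :=
    { toFun := fun f => (f.restrictScalars K).baseChange L
      map_one' := by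
        apply TensorProduct.AlgebraTensorModule.ext; intro p e; simp
      map_mul' := by
        intro f g
        apply TensorProduct.AlgebraTensorModule.ext; intro p e; simp
      map_zero' := by
        apply TensorProduct.AlgebraTensorModule.ext; intro p e; simp
      map_add' := by
        intro f g
        apply TensorProduct.AlgebraTensorModule.ext; intro p e; simp }
  have hβ : ∀ (f : Module.End D E) (p : L) (e : E), β f (p ⊗ₜ e) = p ⊗ₜ f e := by
    intro f p e; rfl
  -- β ∘ algebraMap
  have hβalg : β.comp (algebraMap K (Module.End D E)) =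
      (algebraMap L (Module.End L (L ⊗[K] E))).comp (algebraMap K L) := by
    ext c x
    simp only [TensorProduct.AlgebraTensorModule.curry_apply, TensorProduct.curry_apply,
      LinearMap.restrictScalars_apply, RingHom.comp_apply]
    rw [hβ]
    simp only [Module.algebraMap_end_apply]
    rw [TensorProduct.smul_tmul', Algebra.algebraMap_eq_smul_one, smul_eq_mul, mul_one]
    simp [TensorProduct.smul_tmul]
  -- integrality
  obtain ⟨p, hpm, hp⟩ := (Algebra.IsIntegral.isIntegral (R := K) φ)
  set q := p.map (algebraMap K L) with hq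
  have hqm : q.Monic := hpm.map _
  have hq0 : aeval (β φ) q = 0 := by
    rw [aeval_def, hq, eval₂_map, ← hβalg, ← Polynomial.hom_eval₂, hp, map_zero]
  have hroots := Polynomial.prod_multiset_X_sub_C_of_monic_of_roots_card_eq hqm
    (IsAlgClosed.card_roots_eq_natDegree)
  rw [← hroots] at hq0
  -- equivariance
  set δ : D → Module.End L (L ⊗[K] E) := fun d => (DistribSMul.toLinearMap K E d).baseChange L with hδ
  have hcomm : ∀ (a : L) (d : D), (β φ - algebraMap L _ a) ∘ₗ δ d = δ d ∘ₗ (β φ - algebraMap L _ a) := by
    intro a d
    apply TensorProduct.AlgebraTensorModule.ext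
    intro p e
    simp only [LinearMap.comp_apply, LinearMap.sub_apply, Module.algebraMap_end_apply, hδ,
      LinearMap.baseChange_tmul, DistribSMul.toLinearMap_apply, hβ, map_sub, map_smul]
  -- Schur
  have hschur : ∀ ψ : Module.End L (L ⊗[K] E), (∀ d, ψ ∘ₗ δ d = δ d ∘ₗ ψ) →
      ψ = 0 ∨ Function.Injective ψ := by
    intro ψ hψ
    rcases hirr (LinearMap.ker ψ) (by
      intro d x hx
      rw [LinearMap.mem_ker] at hx ⊢
      have := congrArg (fun g => g x) (hψ d)
      simp only [LinearMap.comp_apply] at this
      rw [this, hx, map_zero]) with h | h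
    · right; exact LinearMap.ker_eq_bot.1 h
    · left; exact LinearMap.ker_eq_top.1 h
  -- product lemma
  have hprod : ∀ s : Multiset L,
      aeval (β φ) ((s.map (fun a => X - C a)).prod) = 0 →
      ∃ a ∈ s, β φ - algebraMap L (Module.End L (L ⊗[K] E)) a = 0 := by
    intro s
    induction s using Multiset.induction_on with
    | empty =>
      intro h
      rw [Multiset.map_zero, Multiset.prod_zero, map_one] at h
      exact absurd h one_ne_zero
    | cons a s ih =>
      intro h
      rw [Multiset.map_cons, Multiset.prod_cons, map_mul, map_sub, aeval_X, aeval_C] at h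
      rcases hschur _ (hcomm a) with h0 | hinj
      · exact ⟨a, Multiset.mem_cons_self a s, h0⟩
      · have h' : aeval (β φ) ((s.map (fun a => X - C a)).prod) = 0 := by
          apply LinearMap.ext
          intro x
          apply hinj
          have := congrArg (fun g => g x) h
          simp only [Module.End.mul_apply, LinearMap.zero_apply] at this
          rw [this, LinearMap.zero_apply, map_zero]
        obtain ⟨b, hb, hb0⟩ := ih h'
        exact ⟨b, Multiset.mem_cons_of_mem hb, hb0⟩
  obtain ⟨a, -, ha⟩ := hprod _ hq0
  have hφa : ∀ x : E, (1 : L) ⊗ₜ[K] φ x = a ⊗ₜ[K] x := by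
    intro x
    have := congrArg (fun g => g ((1 : L) ⊗ₜ[K] x)) ha
    simp only [LinearMap.sub_apply, LinearMap.zero_apply, hβ, Module.algebraMap_end_apply] at this
    rw [sub_eq_zero.1 this, TensorProduct.smul_tmul', smul_eq_mul, mul_one]
  -- the functional trick
  let T : Module.Dual K E → (L ⊗[K] E →ₗ[K] L) := fun ℓ =>
    (TensorProduct.rid K L).toLinearMap ∘ₗ ℓ.lTensor L
  have hT : ∀ (ℓ : Module.Dual K E) (p : L) (y : E), T ℓ (p ⊗ₜ y) = ℓ y • p := by
    intro ℓ p y
    simp [T]
  by_cases hE : ∃ e : E, e ≠ 0
  · obtain ⟨e, he⟩ := hE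
    obtain ⟨ℓ, hℓ⟩ : ∃ ℓ : Module.Dual K E, ℓ e ≠ 0 := by
      by_contra hcon
      push Not at hcon
      exact he ((Module.forall_dual_apply_eq_zero_iff K e).1 hcon)
    set ℓ' : Module.Dual K E := (ℓ e)⁻¹ • ℓ with hℓ'
    have hℓ'e : ℓ' e = 1 := by
      rw [hℓ', LinearMap.smul_apply, smul_eq_mul, inv_mul_cancel₀ hℓ]
    refine ⟨ℓ' (φ e), ?_⟩
    have ha' : a = algebraMap K L (ℓ' (φ e)) := by
      have := congrArg (T ℓ') (hφa e)
      rw [hT, hT, hℓ'e, one_smul] at this
      rw [← this, Algebra.algebraMap_eq_smul_one]
    intro x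
    have h1 : (1 : L) ⊗ₜ[K] (φ x - ℓ' (φ e) • x) = 0 := by
      rw [TensorProduct.tmul_sub, hφa, ha', Algebra.algebraMap_eq_smul_one, TensorProduct.smul_tmul,
        sub_self]
    rw [← sub_eq_zero]
    apply (Module.forall_dual_apply_eq_zero_iff K _).1
    intro ℓ''
    have := congrArg (T ℓ'') h1
    rw [hT, map_zero, smul_eq_zero] at this
    rcases this with h | h
    · exact h
    · exact absurd h one_ne_zero
  · push Not at hE
    refine ⟨0, fun x => ?_⟩
    rw [hE x, map_zero, smul_zero]

end Groth.Agent.S18795
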