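import Groth.Statements.S18796
import Mathlib.LinearAlgebra.TensorProduct.Basis
import Mathlib.LinearAlgebra.Basis.VectorSpace
-- import your own Groth.Agent.* helpers here

set_option autoImplicit false
universe u v w w' u'
open scoped TensorProduct
open DefMod

namespace Groth.Agent.S18796

/-- Let K be a field of characteristic zero, D an associative K-algebra, E a left D-module that is
finitely presented over D, F a left D-module and P a commutative K-algebra. The canonical P-linear
map Φ : P ⊗_K Hom_D(E, F) → Hom_P(P ⊗_K E, P ⊗_K F), determined by p ⊗ f ↦ p · (1_P ⊗ f), is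
injective, and its image consists exactly of the P-linear maps that commute with the action of every
element of D; in other words Φ identifies P ⊗_K Hom_D(E, F) with the module of homomorphisms P ⊗_K E
→ P ⊗_K F over P ⊗_K D. The map Φ is pinned here by its values on pure tensors. -/
theorem result
    {K : Type u} [Field K] [CharZero K]
    {D : Type v} [Ring D] [Algebra K D]
    {E : Type w} [AddCommGroup E] [Module K E] [Module D E] [IsScalarTower K D E]
    [Module.FinitePresentation D E]
    {F : Type w'} [AddCommGroup F] [Module K F] [Module D F] [IsScalarTower K D F]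
    (P : Type u') [CommRing P] [Algebra K P]
    (Φ : P ⊗[K] (E →ₗ[D] F) →ₗ[P] (P ⊗[K] E →ₗ[P] P ⊗[K] F))
    (hΦ : ∀ (p : P) (f : E →ₗ[D] F), Φ (p ⊗ₜ[K] f) = p • (f.restrictScalars K).baseChange P) :
    Function.Injective Φ ∧
      ∀ g : P ⊗[K] E →ₗ[P] P ⊗[K] F,
        g ∈ LinearMap.range Φ ↔
          ∀ d : D, g ∘ₗ (DistribSMul.toLinearMap K E d).baseChange P =
            (DistribSMul.toLinearMap K F d).baseChange P ∘ₗ g := by
  classical
  let b := Module.Basis.ofVectorSpace K P
  have hΦ1 : ∀ (c : _ →₀ (E →ₗ[D] F)) (e : E),
      Φ (c.sum fun i f => b i ⊗ₜ[K] f) (1 ⊗ₜ e) = c.sum fun i f => b i ⊗ₜ[K] f e := by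
    intro c e
    unfold Finsupp.sum
    rw [map_sum, LinearMap.sum_apply]
    apply Finset.sum_congr rfl
    intro i _
    rw [hΦ, LinearMap.smul_apply, LinearMap.baseChange_tmul, TensorProduct.smul_tmul', smul_eq_mul, mul_one]
    rfl
  have hext : ∀ g h : P ⊗[K] E →ₗ[P] P ⊗[K] F, (∀ e : E, g (1 ⊗ₜ e) = h (1 ⊗ₜ e)) → g = h := by
    intro g h H
    apply TensorProduct.AlgebraTensorModule.ext
    intro p e
    have : p ⊗ₜ[K] e = p • ((1 : P) ⊗ₜ[K] e) := by
      rw [TensorProduct.smul_tmul', smul_eq_mul, mul_one]
    rw [this, map_smul, map_smul, H]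
  refine ⟨?_, ?_⟩
  · -- injectivity
    refine (injective_iff_map_eq_zero Φ).2 ?_
    intro t ht
    obtain ⟨c, rfl⟩ := TensorProduct.eq_repr_basis_left b t
    have hc : c = 0 := by
      ext i e
      have h1 := hΦ1 c e
      rw [ht, LinearMap.zero_apply] at h1
      have h2 : (c.mapRange (fun f => f e) (by simp)).sum (fun i n => b i ⊗ₜ[K] n) = 0 := by
        rw [Finsupp.sum_mapRange_index (by simp)]
        exact h1.symm
      have h3 := TensorProduct.sum_tmul_basis_left_eq_zero b _ h2
      have h4 := congrArg (fun c => c i) h3
      simpa using h4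
    rw [hc, Finsupp.sum_zero_index]
  · intro g
    constructor
    · rintro ⟨t, rfl⟩ d
      induction t using TensorProduct.induction_on with
      | zero => simp
      | tmul p f =>
        rw [hΦ, LinearMap.smul_comp, LinearMap.comp_smul, ← LinearMap.baseChange_comp,
          ← LinearMap.baseChange_comp]
        congr 2
        ext e
        simp
      | add x y hx hy => rw [map_add, LinearMap.add_comp, LinearMap.comp_add, hx, hy]
    · intro hg
      have hcoord : ∀ (x : P ⊗[K] F) (d : D) j,
          TensorProduct.equivFinsuppOfBasisLeft b ((DistribSMul.toLinearMap K F d).baseChange P x) j =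
            d • TensorProduct.equivFinsuppOfBasisLeft b x j := by
        intro x d j
        induction x using TensorProduct.induction_on with
        | zero => simp
        | tmul p y =>
          rw [LinearMap.baseChange_tmul, TensorProduct.equivFinsuppOfBasisLeft_apply_tmul_apply,
            TensorProduct.equivFinsuppOfBasisLeft_apply_tmul_apply]
          simp only [DistribSMul.toLinearMap_apply]
          rw [smul_comm]
        | add x y hx hy => simp only [map_add, Finsupp.add_apply, hx, hy, smul_add]
      let fj : _ → E →ₗ[D] F := fun j =>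
        { toFun := fun e => TensorProduct.equivFinsuppOfBasisLeft b (g (1 ⊗ₜ e)) j
          map_add' := by intro x y; simp [TensorProduct.tmul_add]
          map_smul' := by
            intro d e
            have h1 := congrArg (fun φ => φ (1 ⊗ₜ e)) (hg d)
            simp only [LinearMap.comp_apply, LinearMap.baseChange_tmul, DistribSMul.toLinearMap_apply] at h1
            simp only [RingHom.id_apply]
            rw [h1, hcoord] }
      have hfj : ∀ j e, fj j e = TensorProduct.equivFinsuppOfBasisLeft b (g (1 ⊗ₜ e)) j := fun _ _ => rfl
      obtain ⟨S, hS⟩ := (Module.finite_def.1 (inferInstance : Module.Finite D E))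
      let J := S.biUnion (fun e => (TensorProduct.equivFinsuppOfBasisLeft b (g (1 ⊗ₜ e))).support)
      have hvan : ∀ j, j ∉ J → fj j = 0 := by
        intro j hj
        apply LinearMap.ext_on hS
        intro e he
        rw [hfj, LinearMap.zero_apply]
        by_contra hne
        apply hj
        rw [Finset.mem_biUnion]
        exact ⟨e, he, Finsupp.mem_support_iff.2 hne⟩
      refine ⟨∑ j ∈ J, b j ⊗ₜ[K] fj j, ?_⟩
      apply hext
      intro e
      rw [map_sum, LinearMap.sum_apply]
      have hsum : ∀ j ∈ J, Φ (b j ⊗ₜ[K] fj j) (1 ⊗ₜ e) = b j ⊗ₜ[K] fj j e := by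
        intro j _
        rw [hΦ, LinearMap.smul_apply, LinearMap.baseChange_tmul, TensorProduct.smul_tmul', smul_eq_mul, mul_one]
        rfl
      rw [Finset.sum_congr rfl hsum]
      conv_rhs => rw [← (TensorProduct.equivFinsuppOfBasisLeft b).symm_apply_apply (g (1 ⊗ₜ e)),
        TensorProduct.equivFinsuppOfBasisLeft_symm_apply]
      rw [Finsupp.sum_of_support_subset _ (s := J)]
      · rfl
      · intro j hj
        by_contra hjJ
        have := hvan j hjJ
        rw [Finsupp.mem_support_iff, ← hfj, this, LinearMap.zero_apply] at hj
        exact hj rfl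
      · intro i _
        simp

end Groth.Agent.S18796
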