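import Groth.Statements.S18797
-- import your own Groth.Agent.* helpers here

set_option autoImplicit false
universe u v w
open DefMod

namespace Groth.Agent.S18797

/-- Let K be a field of characteristic zero, O a commutative K-algebra with a K-linear derivation ∂, and
E a finite free O-module equipped with a K-linear map ∂_E satisfying the Leibniz rule ∂_E(a e) =
∂(a) e + a ∂_E(e) (a differential module). The induced derivation on End_O(E) sends φ to ∂_E ∘ φ − φ
∘ ∂_E, which is again O-linear; the trace End_O(E) → O is compatible with the two derivations: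
tr(∂_E ∘ φ − φ ∘ ∂_E) = ∂(tr φ). Here the O-linear map ψ = ∂_E ∘ φ − φ ∘ ∂_E is given by its values.
(The published lemma also asserts that the trace is split surjective and that it respects commutator
brackets; the split surjectivity fails for E = 0 over a nonzero ring and holds only in positive
rank, and neither clause is restated.) -/
theorem result
    {K : Type u} [Field K] [CharZero K]
    {O : Type v} [CommRing O] [Algebra K O] (δ : Derivation K O O)
    {E : Type w} [AddCommGroup E] [Module O E] [Module K E] [IsScalarTower K O E]
    [Module.Free O E] [Module.Finite O E]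
    (δE : E →ₗ[K] E) (hδE : ∀ (a : O) (e : E), δE (a • e) = δ a • e + a • δE e)
    (φ ψ : E →ₗ[O] E) (hψ : ∀ e : E, ψ e = δE (φ e) - φ (δE e)) :
    LinearMap.trace O E ψ = δ (LinearMap.trace O E φ) := by
  classical
  let b := Module.Free.chooseBasis O E
  rw [LinearMap.trace_eq_matrix_trace O b ψ, LinearMap.trace_eq_matrix_trace O b φ]
  simp only [Matrix.trace, Matrix.diag, LinearMap.toMatrix_apply]
  rw [map_sum]
  set M : Module.Free.ChooseBasisIndex O E → Module.Free.ChooseBasisIndex O E → O :=
    fun j i => b.repr (φ (b i)) j with hM
  set N : Module.Free.ChooseBasisIndex O E → Module.Free.ChooseBasisIndex O E → O :=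
    fun j i => b.repr (δE (b i)) j with hN
  have hφb : ∀ i, φ (b i) = ∑ j, M j i • b j := fun i => (b.sum_repr (φ (b i))).symm
  have hδb : ∀ i, δE (b i) = ∑ j, N j i • b j := fun i => (b.sum_repr (δE (b i))).symm
  have hc : ∀ i j, b.repr (b j) i = if j = i then 1 else 0 := by
    intro i j
    rw [b.repr_self, Finsupp.single_apply]
  have key : ∀ i, b.repr (ψ (b i)) i =
      δ (M i i) + ∑ j, M j i * N i j - ∑ j, N j i * M i j := by
    intro i
    rw [hψ, map_sub, Finsupp.sub_apply]
    congr 1
    · rw [hφb i, map_sum]
      simp_rw [hδE]
      rw [map_sum, Finsupp.coe_finsetSum, Finset.sum_apply]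
      simp_rw [map_add, map_smul, Finsupp.add_apply, Finsupp.smul_apply, smul_eq_mul, hc]
      rw [Finset.sum_add_distrib]
      simp [hN]
    · rw [hδb i, map_sum, map_sum, Finsupp.coe_finsetSum, Finset.sum_apply]
      simp_rw [map_smul, Finsupp.smul_apply, smul_eq_mul]
      rfl
  rw [Finset.sum_congr rfl (fun i _ => key i), Finset.sum_sub_distrib, Finset.sum_add_distrib]
  have hswap : ∑ i, ∑ j, N j i * M i j = ∑ i, ∑ j, M j i * N i j := by
    rw [Finset.sum_comm]
    apply Finset.sum_congr rfl; intro i _
    apply Finset.sum_congr rfl; intro j _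
    rw [mul_comm]
  rw [hswap, add_sub_cancel_right]

end Groth.Agent.S18797
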