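import Groth.Statements.S18799
import Mathlib.Algebra.Module.BigOperators
-- import your own Groth.Agent.* helpers here

set_option autoImplicit false
universe u v w
open DefMod

namespace Groth.Agent.S18799

/-- Let K be a field of characteristic zero, O a commutative K-algebra with a K-linear derivation ∂, and
E a finite free O-module with a K-linear map ∂_E satisfying the Leibniz rule (a differential
module), with O-basis (e_1, …, e_n) and N the matrix of ∂_E in this basis, ∂_E e_i = Σ_j N_ji e_j.
The differential structure on det E = ⋀ⁿE is given on the generator by ∂(e_1 ∧ … ∧ e_n) = Σ_i e_1 ∧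
… ∧ ∂_E e_i ∧ … ∧ e_n; this element equals tr(N) · (e_1 ∧ … ∧ e_n), so the derivation of det E acts
on the generator e_1 ∧ … ∧ e_n by multiplication by the trace of N. -/
theorem result
    {K : Type u} [Field K] [CharZero K]
    {O : Type v} [CommRing O] [Algebra K O] (δ : Derivation K O O)
    {E : Type w} [AddCommGroup E] [Module O E] [Module K E] [IsScalarTower K O E]
    (δE : E →ₗ[K] E) (hδE : ∀ (a : O) (e : E), δE (a • e) = δ a • e + a • δE e)
    {n : ℕ} (b : Module.Basis (Fin n) O E) (N : Matrix (Fin n) (Fin n) O)
    (hN : ∀ i : Fin n, δE (b i) = ∑ j : Fin n, N j i • b j) :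
    ∑ i : Fin n, exteriorPower.ιMulti O n (Function.update (⇑b) i (δE (b i))) =
      N.trace • exteriorPower.ιMulti O n ⇑b := by
  classical
  have h1 : ∀ i, exteriorPower.ιMulti O n (Function.update (⇑b) i (δE (b i))) =
      N i i • exteriorPower.ιMulti O n ⇑b := by
    intro i
    rw [hN i, AlternatingMap.map_update_sum]
    simp_rw [AlternatingMap.map_update_smul]
    rw [Finset.sum_eq_single i]
    · rw [Function.update_eq_self]
    · intro j _ hji
      rw [AlternatingMap.map_eq_zero_of_eq _ _ (i := i) (j := j)
        (by simp [Function.update_apply, hji]) (Ne.symm hji), smul_zero]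
    · simp
  rw [Finset.sum_congr rfl (fun i _ => h1 i), ← Finset.sum_smul]
  rfl

end Groth.Agent.S18799
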