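import Groth.Statements.S18800
import Groth.Agent.S18793
-- import your own Groth.Agent.* helpers here

set_option autoImplicit false
universe u v w w'
open DefMod

namespace Groth.Agent.S18800

/-- Let E be a nonzero left module over an associative algebra D over a field K of characteristic zero,
whose D-linear endomorphisms are exactly the scalars of K; let R be an Artinian local K-algebra with
residue field K and (F, θ) a deformation of E over R: F carries commuting R- and D-module structures
and is flat over R, and θ : F → E is D-linear, semilinear over the augmentation R → K, surjective,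
with kernel m_R F. Then every automorphism of (F, θ) is multiplication by an element of 1 + m_R:
every endomorphism α of F that is R-linear and D-linear and satisfies θ ∘ α = θ is multiplication by
a unique element r of R, and the residue of r in K is 1. -/
theorem result
    {K : Type u} [Field K] [CharZero K]
    {D : Type v} [Ring D] [Algebra K D]
    {E : Type w} [AddCommGroup E] [Module K E] [Module D E] [IsScalarTower K D E] [Nontrivial E]
    (hE : ∀ ψ : E →ₗ[D] E, ∃ c : K, ∀ y : E, ψ y = c • y)
    (R : ArtFun.Art K K)
    {F : Type w'} [AddCommGroup F] [Module K F] [Module R F] [Module D F]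
    [IsScalarTower K R F] [IsScalarTower K D F] [SMulCommClass R D F] [Module.Flat R F]
    (θ : F →ₗ[D] E) (hθ : ∀ (r : R) (x : F), θ (r • x) = R.res r • θ x)
    (hθsurj : Function.Surjective θ)
    (hθker : ∀ x : F, θ x = 0 ↔ x ∈ IsLocalRing.maximalIdeal R • (⊤ : Submodule R F))
    (α : F →ₗ[R] F) (hαD : ∀ (d : D) (x : F), α (d • x) = d • α x) (hαθ : ∀ x : F, θ (α x) = θ x) :
    ∃! r : R, R.res r = 1 ∧ ∀ x : F, α x = r • x := by
  obtain ⟨r, hr, huniq⟩ := Groth.Agent.S18793.result hE R θ hθ hθsurj hθker α hαD
  have hres : R.res r = 1 := by
    obtain ⟨e, he⟩ := exists_ne (0 : E)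
    obtain ⟨x, rfl⟩ := hθsurj e
    have h1 : R.res r • θ x = θ x := by
      rw [← hθ, ← hr, hαθ]
    have h2 : (R.res r - 1) • θ x = 0 := by
      rw [sub_smul, one_smul, h1, sub_self]
    rcases smul_eq_zero.mp h2 with h | h
    · exact sub_eq_zero.mp h
    · exact absurd h he
  refine ⟨r, ⟨hres, hr⟩, ?_⟩
  rintro r' ⟨-, hr'⟩
  exact huniq r' hr'

end Groth.Agent.S18800
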