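import Groth.Statements.S18801
import Groth.Agent.S18800
-- import your own Groth.Agent.* helpers here

set_option autoImplicit false
universe u v w w' w''
open CategoryTheory
open DefMod

namespace Groth.Agent.S18801

/-- Fix a field K of characteristic zero and an associative K-algebra D, and suppose E is a nonzero left
D-module whose only D-linear endomorphisms are scalars from K. Take a surjection π : R' → R between
Artinian local K-algebras, each having residue field K. Suppose (F', θ') is a deformation of E over
R' and (F, θ) one over R (meaning: the ring and D-actions commute, the module is flat, and θ' resp.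
θ is D-linear, semilinear with respect to the augmentation, onto, and has kernel m_{R'} F' resp. m_R
F). Suppose further that u : F' → F is a morphism of deformations lying over π, i.e. u is D-linear,
π-semilinear, satisfies θ ∘ u = θ', is onto, and has kernel (ker π) F' (hence u induces R ⊗_{R'} F'
≅ F). Under these assumptions the map Aut(F', θ') → Aut(F, θ) is onto: given any bijection α of F
that is both R-linear and D-linear with θ ∘ α = θ, there exists an R'-linear, D-linear bijection α'
of F' satisfying θ' ∘ α' = θ' and u ∘ α' = α ∘ u. (The second assertion of the corollary, namely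
that E has a prorepresentable deformation functor once Ext¹_D(E, E) is additionally
finite-dimensional, is not formalized here.) -/
theorem result
    {K : Type u} [Field K] [CharZero K]
    {D : Type v} [Ring D] [Algebra K D]
    {E : Type w} [AddCommGroup E] [Module K E] [Module D E] [IsScalarTower K D E] [Nontrivial E]
    (hE : ∀ ψ : E →ₗ[D] E, ∃ c : K, ∀ y : E, ψ y = c • y)
    {R' R : ArtFun.Art K K} (π : R' ⟶ R) (hπ : Function.Surjective π)
    {F' : Type w''} [AddCommGroup F'] [Module K F'] [Module R' F'] [Module D F']
    [IsScalarTower K R' F'] [IsScalarTower K D F'] [SMulCommClass R' D F'] [Module.Flat R' F']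
    (θ' : F' →ₗ[D] E) (hθ' : ∀ (r : R') (x : F'), θ' (r • x) = R'.res r • θ' x)
    (hθ'surj : Function.Surjective θ')
    (hθ'ker : ∀ x : F', θ' x = 0 ↔ x ∈ IsLocalRing.maximalIdeal R' • (⊤ : Submodule R' F'))
    {F : Type w'} [AddCommGroup F] [Module K F] [Module R F] [Module D F]
    [IsScalarTower K R F] [IsScalarTower K D F] [SMulCommClass R D F] [Module.Flat R F]
    (θ : F →ₗ[D] E) (hθ : ∀ (r : R) (x : F), θ (r • x) = R.res r • θ x)
    (hθsurj : Function.Surjective θ)
    (hθker : ∀ x : F, θ x = 0 ↔ x ∈ IsLocalRing.maximalIdeal R • (⊤ : Submodule R F))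
    (u : F' →ₗ[D] F) (huπ : ∀ (r : R') (x : F'), u (r • x) = π r • u x)
    (huθ : ∀ x : F', θ (u x) = θ' x) (husurj : Function.Surjective u)
    (huker : ∀ x : F', u x = 0 ↔ x ∈ (RingHom.ker π.toAlgHom) • (⊤ : Submodule R' F'))
    (α : F →ₗ[R] F) (hαD : ∀ (d : D) (x : F), α (d • x) = d • α x) (hαθ : ∀ x : F, θ (α x) = θ x)
    (hαbij : Function.Bijective α) :
    ∃ α' : F' →ₗ[R'] F', (∀ (d : D) (x : F'), α' (d • x) = d • α' x) ∧ (∀ x : F', θ' (α' x) = θ' x) ∧
      Function.Bijective α' ∧ ∀ x : F', u (α' x) = α (u x) := by
  obtain ⟨r, ⟨hres, hr⟩, -⟩ := Groth.Agent.S18800.result hE R θ hθ hθsurj hθker α hαD hαθ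
  obtain ⟨r', hr'⟩ := hπ r
  have hres' : R'.res r' = 1 := by
    rw [← ArtFun.Art.res_app π r', hr', hres]
  have hunit : IsUnit r' := by
    by_contra h
    have hm : r' ∈ IsLocalRing.maximalIdeal R' := (IsLocalRing.mem_maximalIdeal r').mpr h
    rw [ArtFun.Art.mem_maximalIdeal_iff, hres'] at hm
    exact one_ne_zero hm
  refine ⟨r' • LinearMap.id, ?_, ?_, ?_, ?_⟩
  · intro d x
    simp only [LinearMap.smul_apply, LinearMap.id_apply]
    exact (smul_comm r' d x)
  · intro x
    simp only [LinearMap.smul_apply, LinearMap.id_apply]
    rw [hθ', hres', one_smul]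
  · obtain ⟨v, hv⟩ := hunit
    constructor
    · intro x₁ x₂ h
      simp only [LinearMap.smul_apply, LinearMap.id_apply] at h
      have h' := congrArg (fun z => (↑v⁻¹ : R') • z) h
      simp only [smul_smul] at h'
      rwa [← hv, Units.inv_mul, one_smul, one_smul] at h'
    · intro x
      refine ⟨(↑v⁻¹ : R') • x, ?_⟩
      simp only [LinearMap.smul_apply, LinearMap.id_apply, smul_smul]
      rw [← hv, Units.mul_inv, one_smul]
  · intro x
    simp only [LinearMap.smul_apply, LinearMap.id_apply]
    rw [huπ, hr', hr]

end Groth.Agent.S18801
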