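import Groth.Statements.S18802
import Mathlib.Algebra.Module.Projective
import Mathlib.LinearAlgebra.Basis.VectorSpace
-- import your own Groth.Agent.* helpers here

set_option autoImplicit false
universe u v w w' w''
open DefMod

namespace Groth.Agent.S18802

/-- Let K be a field of characteristic zero, D an associative K-algebra and E, F left D-modules. A
K-linear map s : D → Hom_K(E, F) with s(ab)(e) = a s(b)(e) + s(a)(b e) (a derivation into the
bimodule Hom_K(E, F), i.e. a Hochschild 1-cocycle) defines the twisted sum F ⊕_s E = F × E with a ·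
(f, e) = (a f + s(a) e, a e), an extension of E by F. Every extension of left D-modules 0 → F → Q →
E → 0 arises this way: there are such an s and a D-linear isomorphism Q ≅ F ⊕_s E carrying the given
map F → Q to the inclusion f ↦ (f, 0) and compatible with the two projections onto E. (Together with
the splitting criterion this identifies derivations modulo principal derivations with Ext¹_D(E, F);
the compatibility of that identification with addition and scalars is not restated.) -/
theorem result
    {K : Type u} [Field K] [CharZero K]
    {D : Type v} [Ring D] [Algebra K D]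
    {E : Type w} [AddCommGroup E] [Module K E] [Module D E] [IsScalarTower K D E]
    {F : Type w'} [AddCommGroup F] [Module K F] [Module D F] [IsScalarTower K D F]
    {Q : Type w''} [AddCommGroup Q] [Module D Q]
    (i : F →ₗ[D] Q) (p : Q →ₗ[D] E) (hi : Function.Injective i) (hp : Function.Surjective p)
    (hex : Function.Exact i p) :
    ∃ (s : D →ₗ[K] E →ₗ[K] F) (hs : W4c6defoisocp1.IsHomDerivation s) (Φ : Q ≃ₗ[D] W4c6defoisocp1.TwistExt s hs),
      (∀ f : F, Φ (i f) = W4c6defoisocp1.TwistExt.inl f) ∧ ∀ q : Q, W4c6defoisocp1.TwistExt.snd (Φ q) = p q := by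
  classical
  let _ : Module K Q := Module.compHom Q (algebraMap K D)
  have hKQ : ∀ (c : K) (q : Q), c • q = (algebraMap K D c) • q := fun _ _ => rfl
  let pK : Q →ₗ[K] E :=
    { toFun := p
      map_add' := p.map_add
      map_smul' := fun c q => by
        show p (c • q) = c • p q
        rw [hKQ, p.map_smul, algebraMap_smul] }
  let iK : F →ₗ[K] Q :=
    { toFun := i
      map_add' := i.map_add
      map_smul' := fun c f => by
        show i (c • f) = c • i f
        rw [hKQ, ← i.map_smul, algebraMap_smul] }
  have : Module.Projective K E := Module.Projective.of_free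
  obtain ⟨τ, hτ⟩ := pK.exists_rightInverse_of_surjective (LinearMap.range_eq_top.mpr hp)
  have hpτ : ∀ e, p (τ e) = e := fun e => LinearMap.congr_fun hτ e
  -- retraction onto F
  have hmem : ∀ q : Q, q - τ (p q) ∈ LinearMap.range iK := by
    intro q
    have h0 : p (q - τ (p q)) = 0 := by rw [map_sub, hpτ, sub_self]
    obtain ⟨f, hf⟩ := (hex _).mp h0
    exact ⟨f, hf⟩
  let Ei := LinearEquiv.ofInjective iK hi
  let ρ : Q →ₗ[K] F := Ei.symm.toLinearMap ∘ₗ
    (LinearMap.codRestrict (LinearMap.range iK) (LinearMap.id - τ ∘ₗ pK) hmem)
  have hiρ : ∀ q, i (ρ q) = q - τ (p q) := by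
    intro q
    have h := congrArg Subtype.val (Ei.apply_symm_apply
      ⟨q - τ (p q), hmem q⟩)
    exact h
  have hρi : ∀ f, ρ (i f) = f := by
    intro f
    apply hi
    rw [hiρ, hex.apply_apply_eq_zero, map_zero, sub_zero]
  -- commuting scalars
  have hcomm : ∀ (c : K) (a : D) (q : Q), a • (c • q) = c • (a • q) := by
    intro c a q
    rw [hKQ, hKQ, smul_smul, smul_smul, Algebra.commutes]
  let sfun : D → E → F := fun a e => ρ (a • τ e)
  let s : D →ₗ[K] E →ₗ[K] F := LinearMap.mk₂ K sfun
    (fun a₁ a₂ e => by simp only [sfun, add_smul, map_add])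
    (fun c a e => by
      simp only [sfun]
      have h : (c • a) • τ e = c • (a • τ e) := by
        rw [hKQ, smul_smul, Algebra.smul_def]
      rw [h, ρ.map_smul])
    (fun a e₁ e₂ => by simp only [sfun, map_add, smul_add])
    (fun c a e => by
      simp only [sfun]
      rw [τ.map_smul, hcomm, ρ.map_smul])
  have hsapp : ∀ a e, i (s a e) = a • τ e - τ (a • e) := by
    intro a e
    show i (ρ (a • τ e)) = _
    rw [hiρ, p.map_smul, hpτ]
  have hs : W4c6defoisocp1.IsHomDerivation s := by
    intro a b e
    apply hi
    rw [map_add, i.map_smul, hsapp, hsapp, hsapp, smul_sub, mul_smul, mul_smul]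
    abel
  let Φ : Q ≃ₗ[D] W4c6defoisocp1.TwistExt s hs :=
    { toFun := fun q => W4c6defoisocp1.TwistExt.mk (ρ q, p q)
      invFun := fun x => i (W4c6defoisocp1.TwistExt.val x).1 + τ (W4c6defoisocp1.TwistExt.val x).2
      map_add' := by
        intro q₁ q₂
        apply W4c6defoisocp1.TwistExt.ext <;> simp
      map_smul' := by
        intro a q
        apply W4c6defoisocp1.TwistExt.ext
        · simp only [W4c6defoisocp1.TwistExt.val_mk, W4c6defoisocp1.TwistExt.val_smul,
            RingHom.id_apply]
          apply hi
          rw [map_add, i.map_smul, hsapp, hiρ, hiρ, p.map_smul, smul_sub]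
          abel
        · simp
      left_inv := by
        intro q
        simp only [W4c6defoisocp1.TwistExt.val_mk]
        rw [hiρ]
        abel
      right_inv := by
        intro x
        apply W4c6defoisocp1.TwistExt.ext
        · simp only [W4c6defoisocp1.TwistExt.val_mk]
          apply hi
          rw [hiρ, map_add, hpτ, hex.apply_apply_eq_zero, zero_add]
          abel
        · simp only [W4c6defoisocp1.TwistExt.val_mk]
          rw [map_add, hpτ, hex.apply_apply_eq_zero, zero_add] }
  refine ⟨s, hs, Φ, ?_, ?_⟩
  · intro f
    apply W4c6defoisocp1.TwistExt.ext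
    · show ρ (i f) = f
      exact hρi f
    · show p (i f) = 0
      exact hex.apply_apply_eq_zero f
  · intro q
    rfl

end Groth.Agent.S18802
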