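import Groth.Statements.S18803
-- import your own Groth.Agent.* helpers here

set_option autoImplicit false
universe u v w w'
open DefMod

namespace Groth.Agent.S18803

/-- Let K be a field of characteristic zero, D an associative K-algebra, E and F left D-modules, and s :
D → Hom_K(E, F) a K-linear map with s(ab)(e) = a s(b)(e) + s(a)(b e). The twisted sum F ⊕_s E (that
is F × E with a · (f, e) = (a f + s(a) e, a e)) is a trivial extension of E by F — there is a
D-linear isomorphism F ⊕_s E ≅ F × E with the direct-sum module structure, carrying the inclusion f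
↦ (f, 0) to itself and compatible with the second projections — if and only if s is principal:
s(a)(e) = a σ(e) − σ(a e) for some K-linear σ : E → F (a Hochschild 1-coboundary). -/
theorem result
    {K : Type u} [Field K] [CharZero K]
    {D : Type v} [Ring D] [Algebra K D]
    {E : Type w} [AddCommGroup E] [Module K E] [Module D E] [IsScalarTower K D E]
    {F : Type w'} [AddCommGroup F] [Module K F] [Module D F] [IsScalarTower K D F]
    (s : D →ₗ[K] E →ₗ[K] F) (hs : W4c6defoisocp1.IsHomDerivation s) :
    (∃ Ψ : W4c6defoisocp1.TwistExt s hs ≃ₗ[D] F × E,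
        (∀ f : F, Ψ (W4c6defoisocp1.TwistExt.inl f) = (f, 0)) ∧ ∀ x : W4c6defoisocp1.TwistExt s hs, (Ψ x).2 = W4c6defoisocp1.TwistExt.snd x) ↔
      W4c6defoisocp1.IsPrincipal s := by
  classical
  constructor
  · rintro ⟨Ψ, hinl, hsnd⟩
    let σfun : E → F := fun e => (Ψ (W4c6defoisocp1.TwistExt.mk ((0 : F), e))).1
    have hadd : ∀ e₁ e₂ : E, σfun (e₁ + e₂) = σfun e₁ + σfun e₂ := by
      intro e₁ e₂
      have h : (W4c6defoisocp1.TwistExt.mk ((0 : F), e₁ + e₂) : W4c6defoisocp1.TwistExt s hs) =
          W4c6defoisocp1.TwistExt.mk (0, e₁) + W4c6defoisocp1.TwistExt.mk (0, e₂) := by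
        apply W4c6defoisocp1.TwistExt.ext <;> simp
      simp only [σfun, h, map_add, Prod.fst_add]
    have hs1 : ∀ c : K, s (algebraMap K D c) = 0 := by
      intro c
      rw [Algebra.algebraMap_eq_smul_one, map_smul, W4c6defoisocp1.TwistExt.map_one_eq_zero hs,
        smul_zero]
    have hsmul : ∀ (c : K) (e : E), σfun (c • e) = c • σfun e := by
      intro c e
      have h : (W4c6defoisocp1.TwistExt.mk ((0 : F), c • e) : W4c6defoisocp1.TwistExt s hs) =
          (algebraMap K D c) • W4c6defoisocp1.TwistExt.mk (0, e) := by
        apply W4c6defoisocp1.TwistExt.ext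
        · simp [hs1]
        · simp [algebraMap_smul]
      simp only [σfun, h, map_smul, Prod.smul_fst, algebraMap_smul]
    refine ⟨{ toFun := σfun, map_add' := hadd, map_smul' := hsmul }, ?_⟩
    intro a e
    show s a e = a • σfun e - σfun (a • e)
    have hdecomp : a • (W4c6defoisocp1.TwistExt.mk ((0 : F), e) : W4c6defoisocp1.TwistExt s hs) =
        W4c6defoisocp1.TwistExt.inl (s a e) + W4c6defoisocp1.TwistExt.mk (0, a • e) := by
      apply W4c6defoisocp1.TwistExt.ext <;> simp
    have h := congrArg (fun x => (Ψ x).1) hdecomp
    simp only [map_smul, map_add, hinl, Prod.smul_fst, Prod.fst_add] at h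
    simp only [σfun]
    rw [h]
    abel
  · rintro ⟨σ, hσ⟩
    let Ψ : W4c6defoisocp1.TwistExt s hs ≃ₗ[D] F × E :=
      { toFun := fun x => ((W4c6defoisocp1.TwistExt.val x).1 + σ (W4c6defoisocp1.TwistExt.val x).2,
          (W4c6defoisocp1.TwistExt.val x).2)
        invFun := fun y => W4c6defoisocp1.TwistExt.mk (y.1 - σ y.2, y.2)
        map_add' := by
          intro x y
          simp only [W4c6defoisocp1.TwistExt.val_add, Prod.fst_add, Prod.snd_add, map_add,
            Prod.mk_add_mk]
          congr 1
          abel
        map_smul' := by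
          intro a x
          simp only [W4c6defoisocp1.TwistExt.val_smul, RingHom.id_apply, Prod.smul_mk, smul_add,
            hσ]
          congr 1
          abel
        left_inv := by
          intro x
          apply W4c6defoisocp1.TwistExt.ext <;> simp
        right_inv := by
          intro y
          simp }
    refine ⟨Ψ, ?_, ?_⟩
    · intro f
      show (f + σ 0, 0) = (f, 0)
      simp
    · intro x
      rfl

end Groth.Agent.S18803
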