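import Groth.Statements.S18862
import Mathlib.RingTheory.Flat.Basic
import Mathlib.LinearAlgebra.Basis.VectorSpace
-- import your own Groth.Agent.* helpers here

set_option autoImplicit false
universe u v w
open HopfRep

namespace Groth.Agent.S18862

/-- Let k be a field, C a coalgebra over k and f : V → W a morphism of right C-comodules (a k-linear map
commuting with the coactions). Then the kernel of f is a subcomodule of V, that is, the coaction of
V maps ker f into the image of (ker f) ⊗ C in V ⊗ C; hence ker f with the restricted coaction is a
kernel of f among comodules. (The source states this for finite-dimensional comodules, on the way to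
the category of finite-dimensional comodules being abelian; the dimension plays no role.) -/
theorem result (k : Type u) (C : Type v) [Field k] [AddCommGroup C] [Module k C]
    [Coalgebra k C] (V W : Type w) [AddCommGroup V] [Module k V] [HopfRep.Comod k C V]
    [AddCommGroup W] [Module k W] [HopfRep.Comod k C W] (f : V →ₗ[k] W) (hf : Hoch.IsComodHom C f) :
    HopfRep.IsSubcomod (k := k) (A := C) (LinearMap.ker f) := by
  intro v hv
  have : Module.Flat k C := Module.Flat.of_free
  have hex := Module.Flat.rTensor_exact C (LinearMap.exact_subtype_ker_map f)
  have h0 : f.rTensor C (HopfRep.Comod.coact (k := k) (A := C) v) = 0 := by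
    have := LinearMap.congr_fun hf v
    simp only [LinearMap.comp_apply] at this
    rw [← this, LinearMap.mem_ker.mp hv, map_zero]
  exact LinearMap.mem_range.mpr ((hex _).mp h0)

end Groth.Agent.S18862
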