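import Groth.Statements.S18864
import Mathlib.RingTheory.Flat.Basic
import Mathlib.LinearAlgebra.FreeModule.Basic
import Mathlib.LinearAlgebra.Basis.VectorSpace
-- import your own Groth.Agent.* helpers here

set_option autoImplicit false
universe u v w
open HopfRep

namespace Groth.Agent.S18864

/-- Let k be a field and G = lim G_i a pro-algebraic group scheme over k, so that G = Spec A with A the
direct limit of the Hopf algebras A_i of the affine group schemes G_i of finite type; assume
moreover that the maps A_i → A are injective, so that A is the directed union of the A_i, here given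
as injective bialgebra maps A_i → A with directed, jointly covering images. Then every homomorphism
from G to an affine group scheme H = Spec B of finite type over k factors through some projection G
→ G_i: every bialgebra map f : B → A with B finitely generated as a k-algebra is the composite of
A_i → A with a bialgebra map B → A_i for some i. (The published statement allows arbitrary
transition maps in the system; this row assumes each A_i → A injective, the case the printed
argument treats. The source also states the pro-finite variant with H finite, which is the case of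
finite-dimensional A_i and B; finite generation of the A_i is not used.) -/
theorem result (k : Type u) [Field k]
    (A : Type v) [CommRing A] [HopfAlgebra k A] {ι : Type v} (Aι : ι → Type v)
    [∀ i, CommRing (Aι i)] [∀ i, HopfAlgebra k (Aι i)] (emb : ∀ i, Aι i →ₐc[k] A)
    (hinj : ∀ i, Function.Injective (emb i))
    (hdir : ∀ i j, ∃ l, Set.range (emb i) ⊆ Set.range (emb l) ∧ Set.range (emb j) ⊆ Set.range (emb l))
    (hcov : ∀ a : A, ∃ i, a ∈ Set.range (emb i))
    (B : Type w) [CommRing B] [HopfAlgebra k B] [Algebra.FiniteType k B] (f : B →ₐc[k] A) :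
    ∃ (i : ι) (g : B →ₐc[k] Aι i), (emb i).comp g = f := by
  classical
  obtain ⟨s, hs⟩ := Algebra.FiniteType.out (R := k) (A := B)
  -- find an index containing the images of the generators
  have hfin : ∀ t : Finset B, ∃ l, ∀ b ∈ t, f b ∈ Set.range (emb l) := by
    intro t
    induction t using Finset.induction_on with
    | empty =>
      obtain ⟨i0, -⟩ := hcov 0
      exact ⟨i0, fun b hb => absurd hb (Finset.notMem_empty b)⟩
    | insert a t ha ih =>
      obtain ⟨l, hl⟩ := ih
      obtain ⟨i, hi⟩ := hcov (f a)
      obtain ⟨l', hl1, hl2⟩ := hdir l i
      refine ⟨l', fun b hb => ?_⟩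
      rcases Finset.mem_insert.mp hb with rfl | hb'
      · exact hl2 hi
      · exact hl1 (hl b hb')
  obtain ⟨l, hl⟩ := hfin s
  let e : Aι l →ₐ[k] A := (emb l : Aι l →ₐ[k] A)
  let fa : B →ₐ[k] A := (f : B →ₐ[k] A)
  have hfr : ∀ b, fa b ∈ e.range := by
    intro b
    have hb : b ∈ Algebra.adjoin k (s : Set B) := hs ▸ Algebra.mem_top
    have h1 : fa b ∈ (Algebra.adjoin k (s : Set B)).map fa := ⟨b, hb, rfl⟩
    rw [AlgHom.map_adjoin] at h1
    refine (Algebra.adjoin_le ?_) h1
    rintro _ ⟨c, hc, rfl⟩
    exact hl c hc
  let E := AlgEquiv.ofInjective e (hinj l)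
  let g0 : B →ₐ[k] Aι l := E.symm.toAlgHom.comp (fa.codRestrict e.range hfr)
  have hg0 : ∀ b, emb l (g0 b) = f b := by
    intro b
    have h := congrArg Subtype.val (E.apply_symm_apply ⟨fa b, hfr b⟩)
    exact h
  have : Module.Free k A := Module.Free.of_divisionRing k A
  have : Module.Free k (Aι l) := Module.Free.of_divisionRing k (Aι l)
  have : Module.Flat k A := Module.Flat.of_free
  have : Module.Flat k (Aι l) := Module.Flat.of_free
  have hinjT : Function.Injective (TensorProduct.map (emb l : Aι l →ₗ[k] A) (emb l : Aι l →ₗ[k] A)) :=
    TensorProduct.map_injective_of_flat_flat _ _ (hinj l) (hinj l)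
  let g : B →ₐc[k] Aι l :=
    { toLinearMap := g0.toLinearMap
      counit_comp := by
        ext b
        show Coalgebra.counit (g0 b) = Coalgebra.counit b
        rw [← CoalgHomClass.counit_comp_apply (emb l) (g0 b), hg0,
          CoalgHomClass.counit_comp_apply f b]
      map_comp_comul := by
        ext b
        apply hinjT
        show TensorProduct.map (emb l : Aι l →ₗ[k] A) (emb l : Aι l →ₗ[k] A)
            (TensorProduct.map g0.toLinearMap g0.toLinearMap (Coalgebra.comul b)) =
          TensorProduct.map (emb l : Aι l →ₗ[k] A) (emb l : Aι l →ₗ[k] A)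
            (Coalgebra.comul (g0 b))
        rw [← LinearMap.comp_apply, ← TensorProduct.map_comp]
        have hc : (emb l : Aι l →ₗ[k] A).comp g0.toLinearMap = (f : B →ₗ[k] A) := by
          ext b'; exact hg0 b'
        rw [hc]
        rw [CoalgHomClass.map_comp_comul_apply f b, CoalgHomClass.map_comp_comul_apply (emb l) (g0 b),
          hg0]
      map_one' := g0.map_one
      map_mul' := g0.map_mul }
  refine ⟨l, g, ?_⟩
  ext b
  exact hg0 b

end Groth.Agent.S18864
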