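import Groth.Statements.S18887
import Mathlib.LinearAlgebra.FreeModule.StrongRankCondition
import Mathlib.LinearAlgebra.Matrix.Trace
import Mathlib.RingTheory.Trace.Defs
-- import your own Groth.Agent.* helpers here

set_option autoImplicit false
universe u v
open DblCov

namespace Groth.Agent.S18887

/-- Let A be a commutative ring in which 2 is invertible and B a commutative A-algebra which is free of
rank 2 as an A-module and whose trace form tr : B → A has kernel free of rank 1 over A. Then σ(b) =
tr(b) − b defines an A-algebra endomorphism σ of B with σ ≠ id and σ ∘ σ = id, and the elements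
fixed by σ are exactly the image of A in B. -/
theorem result {A : Type u} {B : Type v} [CommRing A] [CommRing B]
    [Algebra A B] (h2 : IsUnit (2 : A)) [Module.Free A B] [Module.Finite A B]
    (hrk : Module.finrank A B = 2)
    [Module.Free A (LinearMap.ker (Algebra.trace A B))]
    (hker : Module.finrank A (LinearMap.ker (Algebra.trace A B)) = 1) :
    ∃ σ : B →ₐ[A] B, (∀ b : B, σ b = algebraMap A B (Algebra.trace A B b) - b) ∧
      σ ≠ AlgHom.id A B ∧ σ.comp σ = AlgHom.id A B ∧
      ∀ b : B, σ b = b ↔ b ∈ Set.range (algebraMap A B) := by
  classical
  have hnt : Nontrivial A := by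
    by_contra h
    rw [not_nontrivial_iff_subsingleton] at h
    have := Module.finrank_subsingleton (R := A) (M := B)
    omega
  let bas : Module.Basis (Fin 2) A B := Module.finBasisOfFinrankEq A B hrk
  let T := Algebra.trace A B
  have key : ∀ b c : B, b * c + c * b - algebraMap A B (T b) * c - algebraMap A B (T c) * b
      + algebraMap A B (T b * T c - T (b * c)) = 0 := by
    intro b c
    apply Algebra.leftMulMatrix_injective bas
    rw [map_zero]
    simp only [map_add, map_sub, map_mul, AlgHom.commutes]
    simp only [T]
    rw [Algebra.trace_eq_matrix_trace bas b, Algebra.trace_eq_matrix_trace bas c,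
      Algebra.trace_eq_matrix_trace bas (b * c), map_mul]
    ext i j
    fin_cases i <;> fin_cases j <;>
      simp [Matrix.trace_fin_two, Matrix.mul_apply, Fin.sum_univ_two,
        Matrix.algebraMap_matrix_apply] <;> ring
  have Talg : ∀ a : A, T (algebraMap A B a) = 2 * a := by
    intro a
    simp only [T]
    rw [Algebra.trace_algebraMap, hrk, nsmul_eq_mul]
    norm_num
  have T1 : T 1 = 2 := by
    have := Talg 1
    rwa [map_one, mul_one] at this
  let σ : B →ₐ[A] B :=
    { toFun := fun b => algebraMap A B (T b) - b
      map_one' := by
        simp only [T1, map_ofNat]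
        norm_num
      map_mul' := fun b c => by
        have := key b c
        simp only [map_sub, map_mul] at this ⊢
        linear_combination (-1 : B) * this
      map_zero' := by simp
      map_add' := fun b c => by
        simp only [map_add]
        ring
      commutes' := fun a => by
        simp only [Talg, map_mul, map_ofNat]
        ring }
  have hσ : ∀ b : B, σ b = algebraMap A B (T b) - b := fun b => rfl
  have hfix : ∀ b : B, σ b = b ↔ b ∈ Set.range (algebraMap A B) := by
    intro b
    constructor
    · intro h
      rw [hσ] at h
      have h' : algebraMap A B (T b) = 2 * b := by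
        linear_combination h
      refine ⟨h2.unit⁻¹.1 * T b, ?_⟩
      rw [map_mul, h', ← mul_assoc]
      have : algebraMap A B h2.unit⁻¹.1 * 2 = 1 := by
        rw [← map_ofNat (algebraMap A B) 2, ← map_mul]
        have : h2.unit⁻¹.1 * 2 = 1 := by
          have := h2.unit.inv_mul
          rwa [IsUnit.unit_spec] at this
        rw [this, map_one]
      rw [this, one_mul]
    · rintro ⟨a, rfl⟩
      rw [hσ, Talg, map_mul, map_ofNat]
      ring
  refine ⟨σ, hσ, ?_, ?_, hfix⟩
  · intro h
    have hs : Function.Surjective (algebraMap A B) := by
      intro b
      have : σ b = b := by rw [h]; rfl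
      exact (hfix b).1 this
    have h1 : Function.Surjective (Algebra.linearMap A B) := hs
    have := LinearMap.finrank_le_finrank_of_surjective h1
    rw [Module.finrank_self, hrk] at this
    omega
  · ext b
    show σ (σ b) = b
    rw [hσ, hσ, map_sub, Talg]
    have : T b = T b := rfl
    simp only [map_sub, map_mul, map_ofNat]
    ring

end Groth.Agent.S18887
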