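import Groth.Statements.S18890
-- import your own Groth.Agent.* helpers here

set_option autoImplicit false
universe u v w w'
open CAlg

namespace Groth.Agent.S18890

/-- Let R be a commutative ring, G a finite group whose order is invertible in R, M an R-module with an
R-linear action ρ of G and N an arbitrary R-module. Then the natural map M^G ⊗_R N → M ⊗_R N induced
by the inclusion of the invariants is injective, and its image is the submodule of invariants of M
⊗_R N under the action ρ ⊗ 1 (G acting on the first factor). (The source lets G be a group of
R-automorphisms of M; a possibly non-faithful linear action changes nothing.) -/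
theorem result {R : Type u} [CommRing R]
    {G : Type v} [Group G] [Finite G] (hG : IsUnit ((Nat.card G : ℕ) : R))
    {M : Type w} {N : Type w'} [AddCommGroup M] [Module R M] [AddCommGroup N] [Module R N]
    (ρ : Representation R G M) :
    Function.Injective (LinearMap.rTensor N ρ.invariants.subtype) ∧
      LinearMap.range (LinearMap.rTensor N ρ.invariants.subtype) =
        (ρ.tprod (Representation.trivial R G N)).invariants := by
  classical
  have : Fintype G := Fintype.ofFinite G
  set u := hG.unit with hu
  have hcard : ((Fintype.card G : ℕ) : R) = (u : R) := by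
    rw [hu, IsUnit.unit_spec, Nat.card_eq_fintype_card]
  -- the averaging operator
  let avg : M →ₗ[R] M := (↑u⁻¹ : R) • ∑ g : G, ρ g
  have havg : ∀ m, avg m = (↑u⁻¹ : R) • ∑ g : G, ρ g m := by
    intro m; simp [avg, LinearMap.sum_apply]
  have havg_inv : ∀ m, avg m ∈ ρ.invariants := by
    intro m
    rw [Representation.mem_invariants]
    intro h
    rw [havg, map_smul, map_sum]
    congr 1
    simp_rw [← Module.End.mul_apply, ← map_mul]
    exact Fintype.sum_equiv (Equiv.mulLeft h) _ _ (fun g => rfl)
  have havg_fix : ∀ m ∈ ρ.invariants, avg m = m := by
    intro m hm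
    rw [havg]
    simp_rw [(Representation.mem_invariants ρ m).1 hm]
    rw [Finset.sum_const, Finset.card_univ, ← Nat.cast_smul_eq_nsmul R, smul_smul, hcard,
      Units.inv_mul, one_smul]
  let P : M →ₗ[R] ρ.invariants := LinearMap.codRestrict ρ.invariants avg havg_inv
  have hPsub : P ∘ₗ ρ.invariants.subtype = LinearMap.id := by
    ext ⟨m, hm⟩
    simp only [LinearMap.coe_comp, Function.comp_apply, Submodule.coe_subtype, LinearMap.id_coe,
      id_eq]
    exact havg_fix m hm
  have hleft : ∀ x, LinearMap.rTensor N P (LinearMap.rTensor N ρ.invariants.subtype x) = x := by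
    intro x
    rw [← LinearMap.comp_apply, ← LinearMap.rTensor_comp, hPsub, LinearMap.rTensor_id,
      LinearMap.id_apply]
  refine ⟨Function.LeftInverse.injective hleft, ?_⟩
  ext x
  constructor
  · rintro ⟨y, rfl⟩
    rw [Representation.mem_invariants]
    intro g
    rw [Representation.tprod_apply]
    rw [← LinearMap.comp_apply]
    congr 1
    apply TensorProduct.ext'
    intro a n
    simp only [LinearMap.coe_comp, Function.comp_apply, LinearMap.rTensor_tmul,
      Submodule.coe_subtype, TensorProduct.map_tmul, Representation.trivial_apply]
    rw [(Representation.mem_invariants ρ _).1 a.2 g]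
  · intro hx
    rw [Representation.mem_invariants] at hx
    refine ⟨LinearMap.rTensor N P x, ?_⟩
    -- rTensor (subtype ∘ P) x = u⁻¹ • Σ_g (ρ g ⊗ id) x = x
    have key : ∀ z : TensorProduct R M N,
        LinearMap.rTensor N ρ.invariants.subtype (LinearMap.rTensor N P z) =
          (↑u⁻¹ : R) • ∑ g : G, (ρ.tprod (Representation.trivial R G N)) g z := by
      intro z
      induction z using TensorProduct.induction_on with
      | zero => simp
      | tmul m n =>
        simp only [LinearMap.rTensor_tmul, Submodule.coe_subtype, Representation.tprod_apply,
          TensorProduct.map_tmul, Representation.trivial_apply]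
        show (avg m) ⊗ₜ[R] n = _
        rw [havg, ← TensorProduct.smul_tmul', TensorProduct.sum_tmul]
      | add z w hz hw =>
        rw [map_add, map_add, hz, hw, ← smul_add, ← Finset.sum_add_distrib]
        congr 1
        apply Finset.sum_congr rfl
        intro g _
        rw [map_add]
    rw [key]
    simp_rw [hx]
    rw [Finset.sum_const, Finset.card_univ, ← Nat.cast_smul_eq_nsmul R, smul_smul, hcard,
      Units.inv_mul, one_smul]

end Groth.Agent.S18890
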