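import Groth.Statements.S18908
import Mathlib.RingTheory.Etale.Field
import Mathlib.RingTheory.Etale.Descent
import Mathlib.RingTheory.Etale.Pi
import Mathlib.RingTheory.Unramified.Pi
import Mathlib.RingTheory.Flat.FaithfullyFlat.Basic
-- import your own Groth.Agent.* helpers here

set_option autoImplicit false
universe u v w
open scoped TensorProduct
open CAlg

namespace Groth.Agent.S18908

/-- Let K ⊇ k be a finite field extension of degree n and Ω ⊇ k an algebraically closed extension. Then
K is separable over k if and only if Ω ⊗_k K is isomorphic, as an Ω-algebra, to the product of n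
copies of Ω. (The source says 'for every (some) algebraically closed extension Ω'; the equivalence
is stated for each fixed Ω, which gives both readings.) -/
theorem result (k : Type u) (K : Type v) (Ω : Type w)
    [Field k] [Field K] [Algebra k K] [FiniteDimensional k K]
    [Field Ω] [Algebra k Ω] [IsAlgClosed Ω] :
    Algebra.IsSeparable k K ↔ Nonempty ((Ω ⊗[k] K) ≃ₐ[Ω] (Fin (Module.finrank k K) → Ω)) := by
  classical
  constructor
  · intro hsep
    have : Algebra.FormallyEtale k K := Algebra.FormallyEtale.of_isSeparable k K
    have : Algebra.FormallyEtale Ω (Ω ⊗[k] K) := inferInstance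
    have : Module.Finite Ω (Ω ⊗[k] K) := inferInstance
    have : Algebra.EssFiniteType Ω (Ω ⊗[k] K) := inferInstance
    have : IsArtinianRing (Ω ⊗[k] K) := IsArtinianRing.of_finite Ω _
    let e := Algebra.FormallyEtale.equivPiOfIsSepClosed Ω (Ω ⊗[k] K)
    have : Fintype (PrimeSpectrum (Ω ⊗[k] K)) := Fintype.ofFinite _
    have hcard : Fintype.card (PrimeSpectrum (Ω ⊗[k] K)) = Module.finrank k K := by
      rw [← Module.finrank_fintype_fun_eq_card (R := Ω), ← e.toLinearEquiv.finrank_eq,
        Module.finrank_baseChange]
    exact ⟨e.trans (AlgEquiv.piCongrLeft' Ω (fun _ => Ω) (Fintype.equivFinOfCardEq hcard))⟩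
  · rintro ⟨e⟩
    have : Algebra.FormallyUnramified Ω (Fin (Module.finrank k K) → Ω) :=
      (Algebra.FormallyUnramified.pi_iff _).mpr (fun _ => inferInstance)
    have : Algebra.FormallyUnramified Ω (Ω ⊗[k] K) := .of_equiv e.symm
    have : Algebra.FormallyUnramified k K :=
      Algebra.FormallyUnramified.of_formallyUnramified_tensorProduct_of_faithfullyFlat Ω
    exact Algebra.FormallyUnramified.isSeparable k K

end Groth.Agent.S18908
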