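import Groth.Statements.S18920
-- import your own Groth.Agent.* helpers here

set_option autoImplicit false
universe u
open CAlg

namespace Groth.Agent.S18920

/-- Let M be a commutative monoid, s ≥ 1, and ξ_1, …, ξ_s elements of M with ξ_i ^ (s!/i) = 1 for 1 ≤ i
≤ s (an (s!/i)-th root of unity for each i). Suppose that for every finitely supported function d on
{1, …, s} with Σ_i i · d_i = s! the product ∏_i ξ_i ^ d_i equals 1. Then ξ_1 ^ j = ξ_j for every 1 ≤
j ≤ s. (The source works with roots of unity in the complex numbers.) -/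
theorem result
    {M : Type u} [CommMonoid M] (s : ℕ) (hs : 1 ≤ s) (ξ : ℕ → M)
    (hξ : ∀ i : ℕ, 1 ≤ i → i ≤ s → ξ i ^ (s.factorial / i) = 1)
    (hprod : ∀ d : ℕ →₀ ℕ, (∀ i ∈ d.support, 1 ≤ i ∧ i ≤ s) →
      (d.sum fun i n => i * n) = s.factorial → (d.prod fun i n => ξ i ^ n) = 1)
    (j : ℕ) (hj : 1 ≤ j) (hjs : j ≤ s) :
    ξ 1 ^ j = ξ j := by
  classical
  have hjf : j ≤ s.factorial := le_trans hjs (Nat.self_le_factorial s)
  by_cases hj1 : j = 1
  · subst hj1; simp
  set d : ℕ →₀ ℕ := Finsupp.single 1 (s.factorial - j) + Finsupp.single j 1 with hd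
  have hsupp : ∀ i ∈ d.support, 1 ≤ i ∧ i ≤ s := by
    intro i hi
    have := Finsupp.support_add hi
    rcases Finset.mem_union.mp this with h | h
    · have := Finsupp.support_single_subset h
      simp at this; subst this; exact ⟨le_rfl, hs⟩
    · have := Finsupp.support_single_subset h
      simp at this; subst this; exact ⟨hj, hjs⟩
  have hsum : (d.sum fun i n => i * n) = s.factorial := by
    rw [hd, Finsupp.sum_add_index' (by simp) (fun _ _ _ => Nat.mul_add _ _ _)]
    simp only [Finsupp.sum_single_index, mul_zero, one_mul, mul_one]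
    omega
  have h1 := hprod d hsupp hsum
  rw [hd, Finsupp.prod_add_index' (by simp) (by intros; rw [pow_add])] at h1
  simp only [Finsupp.prod_single_index, pow_zero, pow_one] at h1
  have h2 : ξ 1 ^ s.factorial = 1 := by
    have := hξ 1 le_rfl hs
    simpa using this
  calc ξ 1 ^ j = ξ 1 ^ j * (ξ 1 ^ (s.factorial - j) * ξ j) := by rw [h1, mul_one]
    _ = ξ 1 ^ (j + (s.factorial - j)) * ξ j := by rw [pow_add, mul_assoc]
    _ = ξ j := by rw [Nat.add_sub_cancel' hjf, h2, one_mul]

end Groth.Agent.S18920
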