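import Groth.Statements.S18948
import Mathlib.Tactic.Group
-- import your own Groth.Agent.* helpers here

set_option autoImplicit false
universe u v
open CExt

namespace Groth.Agent.S18948

/-- Let f : E → G be a surjective homomorphism of groups whose kernel is central in E, and let x ∈ E.
Then f maps the conjugacy class of x bijectively onto the conjugacy class of f(x) if and only if
every element of G commuting with f(x) is the image of some element of E commuting with x. (In the
source E → G is the central extension, with kernel the roots of unity, attached to a Brauer class of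
the classifying stack of a finite tame étale group scheme, and a conjugacy class of E mapping
bijectively onto a given class of G is a marking; the equivalence is stated here for an arbitrary
central extension of abstract groups.) -/
theorem result {E : Type u} {G : Type v} [Group E] [Group G]
    (f : E →* G) (hf : Function.Surjective f) (hker : f.ker ≤ Subgroup.center E) (x : E) :
    Set.BijOn f (MulAction.orbit (ConjAct E) x) (MulAction.orbit (ConjAct G) (f x)) ↔
      ∀ g : G, g * f x = f x * g → ∃ e : E, f e = g ∧ e * x = x * e := by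
  classical
  have hmemE : ∀ y : E, y ∈ MulAction.orbit (ConjAct E) x ↔ ∃ c : E, c * x * c⁻¹ = y := by
    intro y
    rw [MulAction.mem_orbit_iff]
    constructor
    · rintro ⟨c, rfl⟩
      exact ⟨ConjAct.ofConjAct c, by rw [ConjAct.smul_def]⟩
    · rintro ⟨c, rfl⟩
      exact ⟨ConjAct.toConjAct c, by rw [ConjAct.smul_def, ConjAct.ofConjAct_toConjAct]⟩
  have hmemG : ∀ y : G, y ∈ MulAction.orbit (ConjAct G) (f x) ↔ ∃ c : G, c * f x * c⁻¹ = y := by
    intro y
    rw [MulAction.mem_orbit_iff]
    constructor
    · rintro ⟨c, rfl⟩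
      exact ⟨ConjAct.ofConjAct c, by rw [ConjAct.smul_def]⟩
    · rintro ⟨c, rfl⟩
      exact ⟨ConjAct.toConjAct c, by rw [ConjAct.smul_def, ConjAct.ofConjAct_toConjAct]⟩
  constructor
  · intro hB g hg
    obtain ⟨e, rfl⟩ := hf g
    refine ⟨e, rfl, ?_⟩
    have h1 : e * x * e⁻¹ ∈ MulAction.orbit (ConjAct E) x := (hmemE _).2 ⟨e, rfl⟩
    have h2 : x ∈ MulAction.orbit (ConjAct E) x := MulAction.mem_orbit_self x
    have h3 : f (e * x * e⁻¹) = f x := by
      rw [map_mul, map_mul, map_inv, hg, mul_inv_cancel_right]
    have := hB.injOn h1 h2 h3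
    calc e * x = e * x * e⁻¹ * e := by rw [inv_mul_cancel_right]
      _ = x * e := by rw [this]
  · intro hL
    refine ⟨?_, ?_, ?_⟩
    · intro y hy
      obtain ⟨c, rfl⟩ := (hmemE y).1 hy
      exact (hmemG _).2 ⟨f c, by rw [map_mul, map_mul, map_inv]⟩
    · intro y₁ hy₁ y₂ hy₂ hfy
      obtain ⟨a, rfl⟩ := (hmemE y₁).1 hy₁
      obtain ⟨b, rfl⟩ := (hmemE y₂).1 hy₂
      -- c := b⁻¹ * a satisfies f(c x c⁻¹) = f x
      set c := b⁻¹ * a with hc
      have hfc : f c * f x = f x * f c := by
        have h := hfy
        simp only [map_mul, map_inv] at h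
        have : f c * f x * (f c)⁻¹ = f x := by
          rw [hc, map_mul, map_inv]
          calc (f b)⁻¹ * f a * f x * ((f b)⁻¹ * f a)⁻¹
              = (f b)⁻¹ * (f a * f x * (f a)⁻¹) * f b := by group
            _ = (f b)⁻¹ * (f b * f x * (f b)⁻¹) * f b := by rw [h]
            _ = f x := by group
        calc f c * f x = f c * f x * (f c)⁻¹ * f c := by group
          _ = f x * f c := by rw [this]
      obtain ⟨e, hfe, hex⟩ := hL (f c) hfc
      have hk : e⁻¹ * c ∈ f.ker := by
        rw [MonoidHom.mem_ker, map_mul, map_inv, hfe, inv_mul_cancel]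
      have hcen := hker hk
      rw [Subgroup.mem_center_iff] at hcen
      have hcx : c * x * c⁻¹ = x := by
        have hce : c = e * (e⁻¹ * c) := by group
        rw [hce]
        have hxk : (e⁻¹ * c) * x = x * (e⁻¹ * c) := (hcen x).symm
        calc e * (e⁻¹ * c) * x * (e * (e⁻¹ * c))⁻¹
            = e * ((e⁻¹ * c) * x) * (e⁻¹ * c)⁻¹ * e⁻¹ := by group
          _ = e * (x * (e⁻¹ * c)) * (e⁻¹ * c)⁻¹ * e⁻¹ := by rw [hxk]
          _ = e * x * e⁻¹ := by group
          _ = x * e * e⁻¹ := by rw [hex]
          _ = x := by group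
      have ha : a = b * c := by rw [hc]; group
      rw [ha]
      calc b * c * x * (b * c)⁻¹ = b * (c * x * c⁻¹) * b⁻¹ := by group
        _ = b * x * b⁻¹ := by rw [hcx]
    · intro y hy
      obtain ⟨c, rfl⟩ := (hmemG y).1 hy
      obtain ⟨e, rfl⟩ := hf c
      exact ⟨e * x * e⁻¹, (hmemE _).2 ⟨e, rfl⟩, by rw [map_mul, map_mul, map_inv]⟩

end Groth.Agent.S18948
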