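import Groth.Statements.S18949
import Mathlib.Tactic.Group
-- import your own Groth.Agent.* helpers here

set_option autoImplicit false
universe u v
open CExt

namespace Groth.Agent.S18949

/-- Automorphisms over the base: let f : E → G be a surjective homomorphism of groups with central
kernel A. For every homomorphism χ : G → A the map e ↦ χ(f(e)) · e is an endomorphism of E over G
which is the identity on A; and every endomorphism α of E with f ∘ α = f and α equal to the identity
on A is of this form for exactly one χ. (In the source this identifies the automorphisms of a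
central extension fixing its kernel with Hom(G, A), for extensions of profinite étale group schemes
over a field; stated here for abstract groups.) -/
theorem result {E : Type u} {G : Type v} [Group E] [Group G]
    (f : E →* G) (hf : Function.Surjective f) (hker : f.ker ≤ Subgroup.center E) :
    (∀ χ : G →* f.ker, ∃ α : E →* E, f.comp α = f ∧ (∀ a ∈ f.ker, α a = a) ∧
        ∀ e : E, α e = (χ (f e) : E) * e) ∧
      ∀ α : E →* E, f.comp α = f → (∀ a ∈ f.ker, α a = a) →
        ∃! χ : G →* f.ker, ∀ e : E, α e = (χ (f e) : E) * e := by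
  classical
  have hcenK : ∀ k ∈ f.ker, ∀ y : E, k * y = y * k := fun k hk y =>
    (Subgroup.mem_center_iff.1 (hker hk) y).symm
  refine ⟨?_, ?_⟩
  · intro χ
    let α : E →* E :=
      { toFun := fun e => (χ (f e) : E) * e
        map_one' := by simp
        map_mul' := by
          intro e1 e2
          simp only [map_mul, Subgroup.coe_mul]
          have h := hcenK _ (χ (f e2)).2 e1
          calc (χ (f e1) : E) * (χ (f e2) : E) * (e1 * e2)
              = (χ (f e1) : E) * ((χ (f e2) : E) * e1) * e2 := by group
            _ = (χ (f e1) : E) * (e1 * (χ (f e2) : E)) * e2 := by rw [h]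
            _ = (χ (f e1) : E) * e1 * ((χ (f e2) : E) * e2) := by group }
    refine ⟨α, ?_, ?_, fun e => rfl⟩
    · ext e
      show f ((χ (f e) : E) * e) = f e
      rw [map_mul, (MonoidHom.mem_ker).1 (χ (f e)).2, one_mul]
    · intro a ha
      show (χ (f a) : E) * a = a
      rw [(MonoidHom.mem_ker).1 ha, map_one]
      simp
  · intro α hα hαA
    have hαf : ∀ e, f (α e) = f e := fun e => DFunLike.congr_fun hα e
    have hkmem : ∀ e, α e * e⁻¹ ∈ f.ker := fun e => by
      rw [MonoidHom.mem_ker, map_mul, map_inv, hαf, mul_inv_cancel]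
    have hcen : ∀ e y, (α e * e⁻¹) * y = y * (α e * e⁻¹) := fun e y => hcenK _ (hkmem e) y
    have hfac : ∀ e1 e2, f e1 = f e2 → α e1 * e1⁻¹ = α e2 * e2⁻¹ := by
      intro e1 e2 h
      have hk : e2⁻¹ * e1 ∈ f.ker := by
        rw [MonoidHom.mem_ker, map_mul, map_inv, h, inv_mul_cancel]
      have hαk : α (e2⁻¹ * e1) = e2⁻¹ * e1 := hαA _ hk
      have he : e1 = e2 * (e2⁻¹ * e1) := by group
      calc α e1 * e1⁻¹ = α (e2 * (e2⁻¹ * e1)) * (e2 * (e2⁻¹ * e1))⁻¹ := by rw [← he]
        _ = α e2 * (e2⁻¹ * e1) * (e2 * (e2⁻¹ * e1))⁻¹ := by rw [map_mul, hαk]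
        _ = α e2 * e2⁻¹ := by group
    let χ : G →* f.ker :=
      { toFun := fun g => ⟨α (Function.surjInv hf g) * (Function.surjInv hf g)⁻¹, hkmem _⟩
        map_one' := by
          apply Subtype.ext
          show α (Function.surjInv hf 1) * (Function.surjInv hf 1)⁻¹ = 1
          rw [hfac (Function.surjInv hf 1) 1 (by rw [Function.surjInv_eq hf, map_one]),
            map_one, inv_one, mul_one]
        map_mul' := by
          intro g1 g2
          apply Subtype.ext
          show α (Function.surjInv hf (g1 * g2)) * (Function.surjInv hf (g1 * g2))⁻¹ =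
            (α (Function.surjInv hf g1) * (Function.surjInv hf g1)⁻¹) *
              (α (Function.surjInv hf g2) * (Function.surjInv hf g2)⁻¹)
          set s1 := Function.surjInv hf g1 with hs1
          set s2 := Function.surjInv hf g2 with hs2
          rw [hfac (Function.surjInv hf (g1 * g2)) (s1 * s2)
            (by rw [map_mul, hs1, hs2, Function.surjInv_eq hf, Function.surjInv_eq hf,
              Function.surjInv_eq hf])]
          rw [map_mul]
          calc α s1 * α s2 * (s1 * s2)⁻¹ = α s1 * ((α s2 * s2⁻¹) * s1⁻¹) := by group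
            _ = α s1 * (s1⁻¹ * (α s2 * s2⁻¹)) := by rw [hcen s2 s1⁻¹]
            _ = α s1 * s1⁻¹ * (α s2 * s2⁻¹) := by group }
    have hχ : ∀ e : E, α e = (χ (f e) : E) * e := by
      intro e
      show α e = α (Function.surjInv hf (f e)) * (Function.surjInv hf (f e))⁻¹ * e
      rw [hfac (Function.surjInv hf (f e)) e (Function.surjInv_eq hf _)]
      group
    refine ⟨χ, hχ, fun χ2 h2 => ?_⟩
    ext g
    obtain ⟨e, rfl⟩ := hf g
    have h := (h2 e).symm.trans (hχ e)
    exact mul_right_cancel h

end Groth.Agent.S18949
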