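import Groth.Statements.S18950
-- import your own Groth.Agent.* helpers here

set_option autoImplicit false
universe u v
open CExt

namespace Groth.Agent.S18950

/-- Let f : E → G be a homomorphism of groups whose kernel is central in E, let α be an endomorphism of
E with f ∘ α = f which is the identity on the kernel, and let S ⊆ E be a subset fixed pointwise by α
such that f(S) generates G. Then α is the identity. (In the source S is the marking of a marked
central extension of finite tame étale group schemes and the hypothesis is that the marked conjugacy
classes generate G; the conclusion there is that a morphism of marked extensions inducing the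
identity on the kernel and on G is unique.) -/
theorem result {E : Type u} {G : Type v} [Group E] [Group G]
    (f : E →* G) (hker : f.ker ≤ Subgroup.center E) (α : E →* E) (hα : f.comp α = f)
    (hαA : ∀ a ∈ f.ker, α a = a) (S : Set E) (hS : Subgroup.closure (f '' S) = ⊤)
    (hαS : ∀ s ∈ S, α s = s) : α = MonoidHom.id E := by
  classical
  let H : Subgroup E := MonoidHom.eqLocus α (MonoidHom.id E)
  have hSH : S ⊆ H := fun s hs => hαS s hs
  have hKH : f.ker ≤ H := fun a ha => hαA a ha
  have hmap : Subgroup.map f H = ⊤ := by
    rw [eq_top_iff, ← hS, Subgroup.closure_le]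
    rintro _ ⟨s, hs, rfl⟩
    exact ⟨s, hSH hs, rfl⟩
  ext e
  have he : f e ∈ Subgroup.map f H := by rw [hmap]; trivial
  obtain ⟨h, hH, hfh⟩ := he
  have hk : h⁻¹ * e ∈ f.ker := by
    rw [MonoidHom.mem_ker, map_mul, map_inv, hfh, inv_mul_cancel]
  have : h * (h⁻¹ * e) ∈ H := H.mul_mem hH (hKH hk)
  rw [mul_inv_cancel_left] at this
  exact this

end Groth.Agent.S18950
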