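import Groth.Statements.S18951
-- import your own Groth.Agent.* helpers here

set_option autoImplicit false
universe u
open OrbPic

namespace Groth.Agent.S18951

/-- Let G be a group and C ⊆ G a subset that generates G. Then the projection (χ, w) ↦ w from the group
of geometric partial orbifold line bundles with respect to C to functions G → ℚ is injective, its
image contains every conjugation-invariant integer-valued function vanishing at 1 and outside C, and
the group is torsion-free. (The source works with the geometric points of a tame finite étale group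
scheme, characters with values in roots of unity and weights on conjugacy classes of the Tate twist;
here these are identified with a group, homomorphisms to ℚ/ℤ and class functions as the source does
after choosing roots of unity. The case C = G ∖ {1} is the statement for full orbifold line
bundles.) -/
theorem result (G : Type u) [Group G] (C : Set G)
    (hC : Subgroup.closure C = ⊤) :
    Set.InjOn (fun p : (Additive G →+ W4c6brauerbgmalle.QmodZ) × (G → ℚ) => p.2) (W4c6brauerbgmalle.picOrb G C) ∧
      (∀ w ∈ W4c6brauerbgmalle.intWeights G C, ((0 : Additive G →+ W4c6brauerbgmalle.QmodZ), w) ∈ W4c6brauerbgmalle.picOrb G C) ∧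
      ∀ (n : ℕ) (p : (Additive G →+ W4c6brauerbgmalle.QmodZ) × (G → ℚ)), p ∈ W4c6brauerbgmalle.picOrb G C → n ≠ 0 →
        n • p = 0 → p = 0 := by
  classical
  -- two characters agreeing on C agree everywhere
  have hext : ∀ χ χ' : Additive G →+ W4c6brauerbgmalle.QmodZ,
      (∀ g ∈ C, χ (Additive.ofMul g) = χ' (Additive.ofMul g)) → χ = χ' := by
    intro χ χ' h
    have hall : ∀ g : G, χ (Additive.ofMul g) = χ' (Additive.ofMul g) := by
      intro g
      have hg : g ∈ Subgroup.closure C := by rw [hC]; trivial
      induction hg using Subgroup.closure_induction with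
      | mem x hx => exact h x hx
      | one => simp
      | mul x y _ _ hx hy => rw [ofMul_mul, map_add, map_add, hx, hy]
      | inv x _ hx => rw [ofMul_inv, map_neg, map_neg, hx]
    ext x
    exact hall (Additive.toMul x)
  have hinj : Set.InjOn (fun p : (Additive G →+ W4c6brauerbgmalle.QmodZ) × (G → ℚ) => p.2)
      (W4c6brauerbgmalle.picOrb G C) := by
    rintro p ⟨-, -, -, hp4⟩ q ⟨-, -, -, hq4⟩ hpq
    simp only at hpq
    refine Prod.ext ?_ hpq
    apply hext
    intro g hg
    rw [← hp4 g hg, ← hq4 g hg, hpq]
  refine ⟨hinj, ?_, ?_⟩
  · rintro w ⟨h1, h2, h3, h4⟩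
    refine ⟨h1, h2, h3, fun g _ => ?_⟩
    obtain ⟨n, hn⟩ := h4 g
    show W4c6brauerbgmalle.toQmodZ (w g) = (0 : Additive G →+ W4c6brauerbgmalle.QmodZ) (Additive.ofMul g)
    rw [hn, AddMonoidHom.zero_apply]
    simp only [W4c6brauerbgmalle.toQmodZ, QuotientAddGroup.mk'_apply]
    rw [QuotientAddGroup.eq_zero_iff, AddSubgroup.mem_zmultiples_iff]
    exact ⟨n, by simp⟩
  · intro n p hp hn hnp
    have hp2 : p.2 = 0 := by
      have h := congrArg Prod.snd hnp
      simp only [Prod.smul_snd, Prod.snd_zero] at h
      funext g
      have := congrFun h g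
      simp only [Pi.smul_apply, Pi.zero_apply, nsmul_eq_mul] at this
      rcases mul_eq_zero.1 this with h0 | h0
      · exact absurd (by exact_mod_cast h0) hn
      · exact h0
    exact hinj hp (W4c6brauerbgmalle.picOrb G C).zero_mem hp2

end Groth.Agent.S18951
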