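import Groth.Statements.S18952
import Mathlib.Tactic.Group
import Mathlib.Tactic.Abel
-- import your own Groth.Agent.* helpers here

set_option autoImplicit false
universe u
open OrbPic

namespace Groth.Agent.S18952

/-- Let G be a group and C ⊆ G a subset stable under conjugation. Then (χ, w) ↦ χ maps the group of
geometric partial orbifold line bundles with respect to C onto all characters G → ℚ/ℤ, and a pair in
its kernel (χ trivial) has w a conjugation-invariant integer-valued function vanishing at 1 and
outside C: with the inclusion of such functions this is the exact sequence 0 → Hom(C/conj, ℤ) → Pic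
→ Hom(G, ℚ/ℤ) → 0 over a separably closed field. (As in the source after a choice of roots of unity,
the group G stands for the geometric points of a tame finite étale group scheme, characters are
homomorphisms to ℚ/ℤ and weights are class functions on G.) -/
theorem result (G : Type u) [Group G] (C : Set G)
    (hC : ∀ g h : G, g ∈ C → h * g * h⁻¹ ∈ C) :
    (∀ χ : Additive G →+ W4c6brauerbgmalle.QmodZ, ∃ w : G → ℚ, (χ, w) ∈ W4c6brauerbgmalle.picOrb G C) ∧
      (∀ p : (Additive G →+ W4c6brauerbgmalle.QmodZ) × (G → ℚ), p ∈ W4c6brauerbgmalle.picOrb G C → p.1 = 0 →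
        p.2 ∈ W4c6brauerbgmalle.intWeights G C) := by
  classical
  have hconj : ∀ g h : G, h * g * h⁻¹ ∈ C ↔ g ∈ C := by
    intro g h
    constructor
    · intro hg
      have := hC _ h⁻¹ hg
      simpa [mul_assoc] using this
    · exact hC g h
  refine ⟨?_, ?_⟩
  · intro χ
    let lift : W4c6brauerbgmalle.QmodZ → ℚ := fun x => Quotient.out x
    have hlift : ∀ x, W4c6brauerbgmalle.toQmodZ (lift x) = x := by
      intro x
      simp only [W4c6brauerbgmalle.toQmodZ, QuotientAddGroup.mk'_apply, lift]
      exact Quotient.out_eq x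
    have hχconj : ∀ g h : G, χ (Additive.ofMul (h * g * h⁻¹)) = χ (Additive.ofMul g) := by
      intro g h
      rw [ofMul_mul, ofMul_mul, ofMul_inv, map_add, map_add, map_neg]
      abel
    refine ⟨fun g => if g ∈ C ∧ g ≠ 1 then lift (χ (Additive.ofMul g)) else 0, ?_, ?_, ?_, ?_⟩
    · simp
    · intro g hg
      simp [hg]
    · intro g h
      simp only
      have h1 : h * g * h⁻¹ ≠ 1 ↔ g ≠ 1 := by
        constructor
        · intro hne hg; apply hne; rw [hg]; group
        · intro hne hg; apply hne
          have : g = h⁻¹ * (h * g * h⁻¹) * h := by group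
          rw [this, hg]; group
      rw [hχconj g h]
      by_cases hgc : g ∈ C ∧ g ≠ 1
      · rw [if_pos hgc, if_pos ⟨(hconj g h).2 hgc.1, h1.2 hgc.2⟩]
      · rw [if_neg hgc, if_neg]
        rintro ⟨ha, hb⟩
        exact hgc ⟨(hconj g h).1 ha, h1.1 hb⟩
    · intro g hg
      simp only
      by_cases h1 : g = 1
      · subst h1
        simp
      · rw [if_pos ⟨hg, h1⟩, hlift]
  · rintro p ⟨h1, h2, h3, h4⟩ hp1
    refine ⟨h1, h2, h3, fun g => ?_⟩
    by_cases hg : g ∈ C
    · have := h4 g hg
      rw [hp1, AddMonoidHom.zero_apply] at this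
      simp only [W4c6brauerbgmalle.toQmodZ, QuotientAddGroup.mk'_apply] at this
      rw [QuotientAddGroup.eq_zero_iff, AddSubgroup.mem_zmultiples_iff] at this
      obtain ⟨n, hn⟩ := this
      exact ⟨n, by rw [← hn]; simp⟩
    · exact ⟨0, by rw [h2 g hg]; simp⟩

end Groth.Agent.S18952
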