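import Groth.Statements.S18953
import Mathlib.Tactic.Group
-- import your own Groth.Agent.* helpers here

set_option autoImplicit false
universe u v
open OrbPic

namespace Groth.Agent.S18953

/-- Let G₁ and G₂ be groups with subsets C₁ ⊆ G₁ and C₂ ⊆ G₂, and let C ⊆ G₁ × G₂ be the union of C₁ ×
{1} and {1} × C₂. Restricting the character and the weight along the two inclusions G₁ → G₁ × G₂ and
G₂ → G₁ × G₂ is a bijection from the geometric partial orbifold line bundles of G₁ × G₂ with respect
to C onto pairs of geometric partial orbifold line bundles of G₁ with respect to C₁ and of G₂ with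
respect to C₂. (As in the source after a choice of roots of unity, each group stands for the
geometric points of a tame finite étale group scheme, characters are homomorphisms to ℚ/ℤ and
weights are class functions; the source states the Galois-equivariant version, which follows by
taking invariants.) -/
theorem result (G₁ : Type u) (G₂ : Type v) [Group G₁] [Group G₂] (C₁ : Set G₁) (C₂ : Set G₂) :
    Set.BijOn
      (fun p : (Additive (G₁ × G₂) →+ W4c6brauerbgmalle.QmodZ) × (G₁ × G₂ → ℚ) =>
        ((p.1.comp (MonoidHom.toAdditive (MonoidHom.inl G₁ G₂)), fun g => p.2 (g, 1)),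
          (p.1.comp (MonoidHom.toAdditive (MonoidHom.inr G₁ G₂)), fun g => p.2 (1, g))))
      (W4c6brauerbgmalle.picOrb (G₁ × G₂) ((fun g => (g, (1 : G₂))) '' C₁ ∪ (fun g => ((1 : G₁), g)) '' C₂))
      ((W4c6brauerbgmalle.picOrb G₁ C₁ : Set _) ×ˢ (W4c6brauerbgmalle.picOrb G₂ C₂ : Set _)) := by
  classical
  set C : Set (G₁ × G₂) := (fun g => (g, (1 : G₂))) '' C₁ ∪ (fun g => ((1 : G₁), g)) '' C₂ with hCdef
  have hmem1 : ∀ a : G₁, (a, (1 : G₂)) ∈ C → a ∈ C₁ ∨ a = 1 := by
    rintro a (⟨x, hx, hxa⟩ | ⟨y, hy, hya⟩)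
    · simp only [Prod.mk.injEq] at hxa; exact Or.inl (hxa.1 ▸ hx)
    · simp only [Prod.mk.injEq] at hya; exact Or.inr hya.1.symm
  have hmem2 : ∀ b : G₂, ((1 : G₁), b) ∈ C → b ∈ C₂ ∨ b = 1 := by
    rintro b (⟨x, hx, hxa⟩ | ⟨y, hy, hya⟩)
    · simp only [Prod.mk.injEq] at hxa; exact Or.inr hxa.2.symm
    · simp only [Prod.mk.injEq] at hya; exact Or.inl (hya.2 ▸ hy)
  have hmem12 : ∀ a : G₁, ∀ b : G₂, a ≠ 1 → b ≠ 1 → (a, b) ∉ C := by
    rintro a b ha hb (⟨x, hx, hxa⟩ | ⟨y, hy, hya⟩)
    · simp only [Prod.mk.injEq] at hxa; exact hb hxa.2.symm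
    · simp only [Prod.mk.injEq] at hya; exact ha hya.1.symm
  have hofMul : ∀ (a : G₁) (b : G₂), Additive.ofMul ((a, b) : G₁ × G₂) =
      Additive.ofMul ((a, (1 : G₂)) : G₁ × G₂) + Additive.ofMul (((1 : G₁), b) : G₁ × G₂) := by
    intro a b
    rw [← ofMul_mul]
    congr 1
    ext <;> simp
  refine ⟨?_, ?_, ?_⟩
  · -- MapsTo
    rintro p ⟨h1, h2, h3, h4⟩
    refine ⟨⟨?_, ?_, ?_, ?_⟩, ⟨?_, ?_, ?_, ?_⟩⟩
    · exact h1
    · intro g hg
      by_cases hg1 : g = 1
      · subst hg1; exact h1
      · apply h2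
        intro hgC
        rcases hmem1 g hgC with h | h
        · exact hg h
        · exact hg1 h
    · intro g h
      have := h3 (g, 1) (h, 1)
      simp only [Prod.mk_mul_mk, Prod.inv_mk, mul_one, inv_one] at this
      exact this
    · intro g hg
      exact h4 (g, 1) (Or.inl ⟨g, hg, rfl⟩)
    · exact h1
    · intro g hg
      by_cases hg1 : g = 1
      · subst hg1; exact h1
      · apply h2
        intro hgC
        rcases hmem2 g hgC with h | h
        · exact hg h
        · exact hg1 h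
    · intro g h
      have := h3 (1, g) (1, h)
      simp only [Prod.mk_mul_mk, Prod.inv_mk, mul_one, inv_one] at this
      exact this
    · intro g hg
      exact h4 (1, g) (Or.inr ⟨g, hg, rfl⟩)
  · -- InjOn
    rintro p ⟨-, hp2, -, -⟩ q ⟨-, hq2, -, -⟩ hpq
    simp only [Prod.mk.injEq] at hpq
    obtain ⟨⟨hc1, hw1⟩, ⟨hc2, hw2⟩⟩ := hpq
    refine Prod.ext ?_ ?_
    · ext x
      obtain ⟨a, b⟩ := Additive.toMul x
      show p.1 (Additive.ofMul (Additive.toMul x)) = q.1 (Additive.ofMul (Additive.toMul x))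
      obtain ⟨a, b⟩ := Additive.toMul x
      rw [hofMul, map_add, map_add]
      have e1 := DFunLike.congr_fun hc1 (Additive.ofMul a)
      have e2 := DFunLike.congr_fun hc2 (Additive.ofMul b)
      simp only [AddMonoidHom.comp_apply] at e1 e2
      exact congrArg₂ (· + ·) e1 e2
    · funext x
      obtain ⟨a, b⟩ := x
      by_cases hb : b = 1
      · subst hb; exact congrFun hw1 a
      · by_cases ha : a = 1
        · subst ha; exact congrFun hw2 b
        · rw [hp2 _ (hmem12 a b ha hb), hq2 _ (hmem12 a b ha hb)]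
  · -- SurjOn
    rintro ⟨⟨χ₁, w₁⟩, ⟨χ₂, w₂⟩⟩ ⟨⟨a1, a2, a3, a4⟩, ⟨b1, b2, b3, b4⟩⟩
    simp only at a1 a2 a3 a4 b1 b2 b3 b4
    let χ : Additive (G₁ × G₂) →+ W4c6brauerbgmalle.QmodZ :=
      χ₁.comp (MonoidHom.toAdditive (MonoidHom.fst G₁ G₂)) +
        χ₂.comp (MonoidHom.toAdditive (MonoidHom.snd G₁ G₂))
    have hχ : ∀ (a : G₁) (b : G₂), χ (Additive.ofMul (a, b)) =
        χ₁ (Additive.ofMul a) + χ₂ (Additive.ofMul b) := fun a b => rfl
    let w : G₁ × G₂ → ℚ := fun x => if x.2 = 1 then w₁ x.1 else if x.1 = 1 then w₂ x.2 else 0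
    refine ⟨(χ, w), ⟨?_, ?_, ?_, ?_⟩, ?_⟩
    · show (if (1 : G₂) = 1 then w₁ 1 else _) = 0
      rw [if_pos rfl, a1]
    · rintro ⟨a, b⟩ hab
      show (if b = 1 then w₁ a else if a = 1 then w₂ b else 0) = 0
      by_cases hb : b = 1
      · subst hb
        rw [if_pos rfl]
        apply a2
        intro ha
        exact hab (Or.inl ⟨a, ha, rfl⟩)
      · rw [if_neg hb]
        by_cases ha : a = 1
        · subst ha
          rw [if_pos rfl]
          apply b2
          intro hb'
          exact hab (Or.inr ⟨b, hb', rfl⟩)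
        · rw [if_neg ha]
    · rintro ⟨a, b⟩ ⟨c, d⟩
      show (if d * b * d⁻¹ = 1 then w₁ (c * a * c⁻¹) else
          if c * a * c⁻¹ = 1 then w₂ (d * b * d⁻¹) else 0) =
        (if b = 1 then w₁ a else if a = 1 then w₂ b else 0)
      have e1 : d * b * d⁻¹ = 1 ↔ b = 1 := by
        constructor
        · intro h; have : b = d⁻¹ * (d * b * d⁻¹) * d := by group
          rw [this, h]; group
        · intro h; rw [h]; group
      have e2 : c * a * c⁻¹ = 1 ↔ a = 1 := by
        constructor
        · intro h; have : a = c⁻¹ * (c * a * c⁻¹) * c := by group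
          rw [this, h]; group
        · intro h; rw [h]; group
      simp only [e1, e2, a3, b3]
    · rintro ⟨a, b⟩ hab
      show W4c6brauerbgmalle.toQmodZ (if b = 1 then w₁ a else if a = 1 then w₂ b else 0) =
        χ (Additive.ofMul (a, b))
      rw [hχ]
      rcases hab with ⟨x, hx, hxa⟩ | ⟨y, hy, hya⟩
      · simp only [Prod.mk.injEq] at hxa
        obtain ⟨rfl, rfl⟩ := hxa
        rw [if_pos rfl, a4 x hx, ofMul_one, map_zero, add_zero]
      · simp only [Prod.mk.injEq] at hya
        obtain ⟨rfl, rfl⟩ := hya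
        by_cases hy1 : y = 1
        · subst hy1
          rw [if_pos rfl, a1]
          have z1 : χ₁ (Additive.ofMul (1 : G₁)) = 0 := by rw [ofMul_one, map_zero]
          have z2 : χ₂ (Additive.ofMul (1 : G₂)) = 0 := by rw [ofMul_one, map_zero]
          rw [z1, z2, map_zero, add_zero]
        · rw [if_neg hy1, if_pos rfl, b4 y hy, ofMul_one, map_zero, zero_add]
    · -- the image is the given pair
      simp only [Prod.mk.injEq]
      refine ⟨⟨?_, ?_⟩, ⟨?_, ?_⟩⟩
      · ext x
        show χ (Additive.ofMul (Additive.toMul x, (1 : G₂))) = χ₁ x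
        rw [hχ, ofMul_one, map_zero, add_zero]
        rfl
      · funext g
        show (if (1 : G₂) = 1 then w₁ g else _) = w₁ g
        rw [if_pos rfl]
      · ext x
        show χ (Additive.ofMul ((1 : G₁), Additive.toMul x)) = χ₂ x
        rw [hχ, ofMul_one, map_zero, zero_add]
        rfl
      · funext g
        show (if g = 1 then w₁ (1 : G₁) else if (1 : G₁) = 1 then w₂ g else 0) = w₂ g
        by_cases hg : g = 1
        · subst hg; rw [if_pos rfl, a1, b1]
        · rw [if_neg hg, if_pos rfl]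

end Groth.Agent.S18953
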