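import Groth.Statements.S18954
import Mathlib.Tactic.FieldSimp
import Mathlib.Tactic.Ring
-- import your own Groth.Agent.* helpers here

set_option autoImplicit false
universe u v w
open Classical
open BGCount

namespace Groth.Agent.S18954

/-- Let a finite group G act on a finite set X, let W be a finite set of orbits and f a function on
orbits with values in a field of characteristic zero. Then Σ_{O ∈ W} f(O)/|Stab(x_O)|, with x_O any
point of O, equals |G|⁻¹ · Σ f(orbit(x)) over the points x of X whose orbit lies in W. (In the
source X is the set of 1-cocycles of the absolute Galois group of a field in a finite étale group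
scheme G, acted on by the geometric points of G, the orbits are the isomorphism classes of G-torsors
and the stabilisers their automorphism groups; stated here for an arbitrary action of a finite group
on a finite set, the representative x_O being chosen by Quotient.out.) -/
theorem result {G : Type u} {X : Type v} (𝕜 : Type w)
    [Group G] [Fintype G] [MulAction G X] [Fintype X] [Field 𝕜] [CharZero 𝕜]
    (W : Finset (MulAction.orbitRel.Quotient G X)) (f : MulAction.orbitRel.Quotient G X → 𝕜) :
    (∑ O ∈ W, f O / (Nat.card (MulAction.stabilizer G O.out) : 𝕜)) =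
      (Fintype.card G : 𝕜)⁻¹ *
        ∑ x ∈ Finset.univ.filter (fun x : X => (Quotient.mk (MulAction.orbitRel G X) x) ∈ W),
          f (Quotient.mk (MulAction.orbitRel G X) x) := by
  have hOS : ∀ b : X, Nat.card (MulAction.orbit G b) * Nat.card (MulAction.stabilizer G b) =
      Fintype.card G := by
    intro b
    rw [← Nat.card_prod, Nat.card_congr (MulAction.orbitProdStabilizerEquivGroup G b),
      Nat.card_eq_fintype_card]
  have hmem : ∀ (O : MulAction.orbitRel.Quotient G X) (x : X),
      Quotient.mk (MulAction.orbitRel G X) x = O ↔ x ∈ MulAction.orbit G O.out := by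
    intro O x
    conv_lhs => rw [← Quotient.out_eq O]
    rw [Quotient.eq]
    exact MulAction.orbitRel_apply
  have hcard : ∀ O : MulAction.orbitRel.Quotient G X,
      (Finset.univ.filter (fun x : X => Quotient.mk (MulAction.orbitRel G X) x = O)).card =
        Nat.card (MulAction.orbit G O.out) := by
    intro O
    rw [← Fintype.card_subtype, ← Nat.card_eq_fintype_card]
    exact Nat.card_congr (Equiv.subtypeEquivRight (fun x => hmem O x))
  have hinner : ∀ O ∈ W,
      ∑ x ∈ (Finset.univ.filter (fun x : X => Quotient.mk (MulAction.orbitRel G X) x ∈ W)).filter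
          (fun x => Quotient.mk (MulAction.orbitRel G X) x = O),
        f (Quotient.mk (MulAction.orbitRel G X) x) =
      (Nat.card (MulAction.orbit G O.out) : 𝕜) * f O := by
    intro O hO
    rw [Finset.sum_congr rfl (fun x hx => by rw [(Finset.mem_filter.1 hx).2])]
    rw [Finset.sum_const, nsmul_eq_mul, Finset.filter_filter]
    congr 2
    rw [← hcard O]
    congr 1
    apply Finset.filter_congr
    intro x _
    constructor
    · exact fun h => h.2
    · intro h; exact ⟨h ▸ hO, h⟩
  rw [← Finset.sum_fiberwise_of_maps_to (g := fun x => Quotient.mk (MulAction.orbitRel G X) x)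
    (t := W) (fun x hx => (Finset.mem_filter.1 hx).2)]
  rw [Finset.mul_sum]
  apply Finset.sum_congr rfl
  intro O hO
  rw [hinner O hO]
  have hG : (Fintype.card G : 𝕜) =
      (Nat.card (MulAction.orbit G O.out) : 𝕜) * (Nat.card (MulAction.stabilizer G O.out) : 𝕜) := by
    rw [← Nat.cast_mul, hOS]
  have horb : (Nat.card (MulAction.orbit G O.out) : 𝕜) ≠ 0 := by
    have : Nat.card (MulAction.orbit G O.out) ≠ 0 := by
      have : Nonempty (MulAction.orbit G O.out) := ⟨⟨O.out, MulAction.mem_orbit_self _⟩⟩
      have := Nat.card_pos (α := MulAction.orbit G O.out)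
      omega
    exact_mod_cast this
  have hstab : (Nat.card (MulAction.stabilizer G O.out) : 𝕜) ≠ 0 := by
    have : Nat.card (MulAction.stabilizer G O.out) ≠ 0 := by
      have := Nat.card_pos (α := MulAction.stabilizer G O.out)
      omega
    exact_mod_cast this
  rw [hG]
  field_simp

end Groth.Agent.S18954
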