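import Groth.Statements.S19005
import Mathlib.Tactic.Ring
import Mathlib.Tactic.NormNum
import Mathlib.Algebra.Group.Int.Even
-- import your own Groth.Agent.* helpers here

set_option autoImplicit false
open scoped TensorProduct
open K2Cent

namespace Groth.Agent.S19005

/-- For abelian groups X and M and ε in M with 2ε = 0 (in the source X is the character group of a split
torus and ε is the class of −1 among the units), the map x ↦ (x ⊗ x, −(x ⊗ ε)) into (X ⊗ X) × (X ⊗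
M) is quadratic over ℤ, i.e. it underlies an integer quadratic map with exactly these values. -/
theorem result (X M : Type*) [AddCommGroup X]
    [AddCommGroup M] (ε : M) (hε : 2 • ε = 0) :
    ∃ R : QuadraticMap ℤ X (TensorProduct ℤ X X × TensorProduct ℤ X M),
      ∀ x : X, R x = (x ⊗ₜ[ℤ] x, -(x ⊗ₜ[ℤ] ε)) := by
  have h2 : ∀ x : X, (2 : ℕ) • (x ⊗ₜ[ℤ] ε) = 0 := by
    intro x
    rw [← TensorProduct.tmul_smul, hε, TensorProduct.tmul_zero]
  have h2' : ∀ x : X, (2 : ℤ) • (x ⊗ₜ[ℤ] ε) = 0 := by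
    intro x
    rw [show (2 : ℤ) = ((2 : ℕ) : ℤ) by norm_num, natCast_zsmul, h2]
  have hsq : ∀ (a : ℤ) (x : X), (a * a) • (x ⊗ₜ[ℤ] ε) = a • (x ⊗ₜ[ℤ] ε) := by
    intro a x
    obtain ⟨k, hk⟩ := Int.even_mul_pred_self a
    have : a * a = (k + k) + a := by rw [← hk]; ring
    rw [this, add_smul, ← two_mul, mul_comm, mul_smul, h2', smul_zero, zero_add]
  let B : X →ₗ[ℤ] X →ₗ[ℤ] (TensorProduct ℤ X X × TensorProduct ℤ X M) :=
    (TensorProduct.mk ℤ X X + (TensorProduct.mk ℤ X X).flip).compr₂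
      (LinearMap.inl ℤ (TensorProduct ℤ X X) (TensorProduct ℤ X M))
  have hB : ∀ x y : X, B x y = (x ⊗ₜ[ℤ] y + y ⊗ₜ[ℤ] x, 0) := fun x y => rfl
  have hsmul : ∀ (a : ℤ) (x : X), ((a • x) ⊗ₜ[ℤ] (a • x), -((a • x) ⊗ₜ[ℤ] ε)) =
      (a * a) • (x ⊗ₜ[ℤ] x, -(x ⊗ₜ[ℤ] ε)) := by
    intro a x
    ext
    · simp only [Prod.smul_fst]
      rw [TensorProduct.tmul_smul, ← TensorProduct.smul_tmul', smul_smul]
    · simp only [Prod.smul_snd, smul_neg]
      rw [hsq, TensorProduct.smul_tmul']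
  have hcomp : ∀ x y : X, ((x + y) ⊗ₜ[ℤ] (x + y), -((x + y) ⊗ₜ[ℤ] ε)) =
      (x ⊗ₜ[ℤ] x, -(x ⊗ₜ[ℤ] ε)) + (y ⊗ₜ[ℤ] y, -(y ⊗ₜ[ℤ] ε)) + B x y := by
    intro x y
    rw [hB]
    ext
    · simp only [Prod.fst_add, TensorProduct.add_tmul, TensorProduct.tmul_add]
      abel
    · simp only [Prod.snd_add, TensorProduct.add_tmul, neg_add, add_zero]
  let R : QuadraticMap ℤ X (TensorProduct ℤ X X × TensorProduct ℤ X M) :=
    { toFun := fun x => (x ⊗ₜ[ℤ] x, -(x ⊗ₜ[ℤ] ε))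
      toFun_smul := hsmul
      exists_companion' := ⟨B, hcomp⟩ }
  exact ⟨R, fun x => rfl⟩

end Groth.Agent.S19005
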