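import Groth.Statements.S19006
import Mathlib.Tactic.LinearCombination
-- import your own Groth.Agent.* helpers here

set_option autoImplicit false
universe u v w x
open RootD

namespace Groth.Agent.S19006

/-- For a root pairing over an integral domain of characteristic zero, a quadratic form Q on the
coweight module N with polar form B, and a root α with coroot α^∨, the form Q is invariant under the
reflection attached to α acting on N if and only if B(y, α^∨) = ⟨α, y⟩ Q(α^∨) for all y in N. (The
source states this for integer-valued forms on the cocharacter lattice of a split reductive group;
here the form takes values in the base ring of the pairing.) -/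
theorem result {ι : Type u} {R : Type v} {M : Type w} {N : Type x} [CommRing R] [IsDomain R] [CharZero R]
    [AddCommGroup M] [Module R M] [AddCommGroup N] [Module R N] (P : RootPairing ι R M N)
    (Q : QuadraticMap R N R) (j : ι) :
    (∀ y : N, Q (P.coreflection j y) = Q y) ↔
      ∀ y : N, QuadraticMap.polar Q y (P.coroot j) = P.root' j y * Q (P.coroot j) := by
  set v := P.coroot j with hv
  set c := P.root' j with hc
  have hcv : c v = 2 := P.pairing_same j
  have key : ∀ y, Q (P.coreflection j y) =
      Q y + (c y * c y) * Q v - c y * QuadraticMap.polar Q y v := by
    intro y
    rw [P.coreflection_apply, sub_eq_add_neg, ← neg_smul]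
    have hpol : Q (y + (-c y) • v) = Q y + Q ((-c y) • v) + QuadraticMap.polar Q y ((-c y) • v) := by
      unfold QuadraticMap.polar; ring
    rw [← hc, ← hv, hpol, QuadraticMap.map_smul, QuadraticMap.polar_smul_right, smul_eq_mul,
      smul_eq_mul]
    ring
  constructor
  · intro h y
    have h1 : ∀ y, c y * (c y * Q v - QuadraticMap.polar Q y v) = 0 := by
      intro y
      have := h y
      rw [key] at this
      linear_combination this
    by_cases hy : c y = 0
    · have h2 := h1 (y + v)
      have hc2 : c (y + v) = 2 := by rw [map_add, hy, hcv, zero_add]
      rw [hc2] at h2
      have h3 : (2 : R) * Q v - QuadraticMap.polar Q (y + v) v = 0 :=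
        (mul_eq_zero.1 h2).resolve_left two_ne_zero
      rw [QuadraticMap.polar_add_left, QuadraticMap.polar_self, two_nsmul] at h3
      rw [hy, zero_mul]
      linear_combination -h3
    · have := (mul_eq_zero.1 (h1 y)).resolve_left hy
      linear_combination -this
  · intro h y
    rw [key, h y]
    ring

end Groth.Agent.S19006
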