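import Groth.Statements.S19019
import Mathlib.Analysis.SpecialFunctions.Complex.Log
import Mathlib.Algebra.Field.GeomSum
import Mathlib.Analysis.Real.Cardinality
-- import your own Groth.Agent.* helpers here

set_option autoImplicit false
open scoped ComplexOrder
open Toeplitz

open Complex Matrix

namespace Groth.Agent.S19019

lemma orth (N : ℕ) (hN : 0 < N) (θ : ℝ) (n : ℤ) (hn : |n| < N) :
    ∑ s ∈ Finset.range N, Complex.exp (Complex.I * (n : ℂ) * ((θ + 2 * Real.pi * s / N : ℝ) : ℂ)) =
      if n = 0 then (N : ℂ) else 0 := by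
  split_ifs with h
  · subst h; simp
  · have hNc : (N : ℂ) ≠ 0 := by exact_mod_cast hN.ne'
    have hexp : ∀ s : ℕ, Complex.exp (Complex.I * (n : ℂ) * ((θ + 2 * Real.pi * s / N : ℝ) : ℂ)) =
        Complex.exp (Complex.I * n * θ) * (Complex.exp (2 * Real.pi * Complex.I * n / N)) ^ s := by
      intro s
      rw [← Complex.exp_nat_mul, ← Complex.exp_add]
      congr 1
      push_cast
      field_simp
    simp_rw [hexp]
    rw [← Finset.mul_sum]
    set ω := Complex.exp (2 * Real.pi * Complex.I * n / N) with hω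
    have hω1 : ω ≠ 1 := by
      intro h1
      rw [hω, Complex.exp_eq_one_iff] at h1
      obtain ⟨k, hk⟩ := h1
      have h2 : (2 * Real.pi * Complex.I : ℂ) ≠ 0 := by simp [Real.pi_ne_zero, Complex.I_ne_zero]
      have h3 : (n : ℂ) = k * N := by
        have := hk
        field_simp at this
        linear_combination this
      have h4 : n = k * N := by exact_mod_cast h3
      have h5 : |n| = |k| * N := by rw [h4, abs_mul]; simp
      rcases eq_or_ne k 0 with hk0 | hk0
      · exact h (by rw [h4, hk0, zero_mul])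
      · have : 1 ≤ |k| := Int.one_le_abs hk0
        have : (N : ℤ) ≤ |k| * N := by nlinarith
        omega
    have hωN : ω ^ N = 1 := by
      rw [hω, ← Complex.exp_nat_mul, Complex.exp_eq_one_iff]
      exact ⟨n, by field_simp⟩
    rw [geom_sum_eq hω1, hωN, sub_self, zero_div, mul_zero]

lemma E_mul (a b : ℤ) (r : ℝ) :
    Complex.exp (Complex.I * (a : ℂ) * (r : ℂ)) * Complex.exp (Complex.I * (b : ℂ) * (r : ℂ)) =
      Complex.exp (Complex.I * ((a + b : ℤ) : ℂ) * (r : ℂ)) := by
  rw [← Complex.exp_add]; congr 1; push_cast; ring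

lemma E_conj (a : ℤ) (r : ℝ) :
    (starRingEnd ℂ) (Complex.exp (Complex.I * (a : ℂ) * (r : ℂ))) =
      Complex.exp (Complex.I * ((-a : ℤ) : ℂ) * (r : ℂ)) := by
  rw [← Complex.exp_conj]; congr 1
  simp only [map_mul, Complex.conj_I, map_intCast, Complex.conj_ofReal]
  push_cast; ring


/-- Let A be an m × m complex Hermitian Toeplitz matrix, with entries A i j = t (j - i) constant along
diagonals, and let f(y) = Σ_{-m < k < m} t k · exp(i k y) be the trigonometric polynomial attached
to it. If f has positive real part at every real y outside a countable set, then A is positive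
definite (hence nondegenerate). (The source also states the mirror case: f negative off a countable
set gives A negative definite, which is this statement for -A.) -/
theorem result
    (m : ℕ) (t : ℤ → ℂ) (A : Matrix (Fin m) (Fin m) ℂ)
    (hA : ∀ i j : Fin m, A i j = t ((j : ℤ) - (i : ℤ))) (hH : A.IsHermitian)
    (hpos : Set.Countable {y : ℝ | ¬ 0 < (∑ k ∈ Finset.Ioo (-(m : ℤ)) (m : ℤ),
        t k * Complex.exp (Complex.I * (k : ℂ) * (y : ℂ))).re}) :
    A.PosDef := by
  classical
  set f : ℝ → ℂ := fun y => ∑ k ∈ Finset.Ioo (-(m : ℤ)) (m : ℤ),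
    t k * Complex.exp (Complex.I * (k : ℂ) * (y : ℂ)) with hf
  refine Matrix.PosDef.of_dotProduct_mulVec_pos hH (fun x hx => ?_)
  set N : ℕ := 2 * m + 1 with hN
  have hN0 : 0 < N := by omega
  -- choose θ
  obtain ⟨θ, hθ⟩ : ∃ θ : ℝ, ∀ s ∈ Finset.range N, 0 < (f (θ + 2 * Real.pi * s / N)).re := by
    by_contra hcon
    push Not at hcon
    have hcov : (Set.univ : Set ℝ) ⊆ ⋃ s ∈ (Finset.range N : Set ℕ),
        (fun y => y - 2 * Real.pi * s / N) '' {y : ℝ | ¬ 0 < (f y).re} := by
      intro θ _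
      obtain ⟨s, hs, hsB⟩ := hcon θ
      simp only [Set.mem_iUnion]
      exact ⟨s, hs, θ + 2 * Real.pi * s / N, by simpa using hsB, by ring⟩
    apply Cardinal.not_countable_real
    apply Set.Countable.mono hcov
    apply Set.Countable.biUnion (Finset.countable_toSet _)
    intro s _
    exact hpos.image _
  set y : ℕ → ℝ := fun s => θ + 2 * Real.pi * s / N with hy
  set p : ℕ → ℂ := fun s => ∑ j : Fin m, x j * Complex.exp (Complex.I * ((-(j : ℤ) : ℤ) : ℂ) * (y s : ℂ))
    with hp
  have hpc : ∀ s, (starRingEnd ℂ) (p s) =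
      ∑ i : Fin m, (starRingEnd ℂ) (x i) * Complex.exp (Complex.I * (((i : ℤ)) : ℂ) * (y s : ℂ)) := by
    intro s
    simp only [hp, map_sum, map_mul, E_conj, neg_neg]
  have hpp : ∀ s, (starRingEnd ℂ) (p s) * p s =
      ∑ i : Fin m, ∑ j : Fin m, (starRingEnd ℂ) (x i) * x j *
        Complex.exp (Complex.I * (((i : ℤ) + -(j : ℤ) : ℤ) : ℂ) * (y s : ℂ)) := by
    intro s
    rw [hpc]
    simp only [hp]
    rw [Finset.sum_mul_sum]
    apply Finset.sum_congr rfl; intro i _
    apply Finset.sum_congr rfl; intro j _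
    rw [← E_mul]; ring
  have horth : ∀ n : ℤ, |n| < N →
      ∑ s ∈ Finset.range N, Complex.exp (Complex.I * (n : ℂ) * (y s : ℂ)) = if n = 0 then (N : ℂ) else 0 :=
    fun n hn => orth N hN0 θ n hn
  -- Parseval
  have hpars : ∑ s ∈ Finset.range N, (starRingEnd ℂ) (p s) * p s =
      (N : ℂ) * ∑ i : Fin m, (starRingEnd ℂ) (x i) * x i := by
    simp_rw [hpp]
    rw [Finset.sum_comm]
    rw [Finset.mul_sum]
    apply Finset.sum_congr rfl; intro i _
    rw [Finset.sum_comm]
    simp_rw [← Finset.mul_sum]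
    have : ∀ j : Fin m, (starRingEnd ℂ) (x i) * x j * (∑ s ∈ Finset.range N,
        Complex.exp (Complex.I * (((i : ℤ) + -(j : ℤ) : ℤ) : ℂ) * (y s : ℂ))) =
        if j = i then (N : ℂ) * ((starRingEnd ℂ) (x i) * x i) else 0 := by
      intro j
      rw [horth _ (by have := i.2; have := j.2; rw [abs_lt]; constructor <;> omega)]
      by_cases hji : j = i
      · subst hji; simp; ring
      · have : (i : ℤ) + -(j : ℤ) ≠ 0 := by
          intro h; apply hji; ext; omega
        simp [this, hji]
    simp_rw [this]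
    simp
  have hmain : ∑ s ∈ Finset.range N, (starRingEnd ℂ) (p s) * p s * f (y s) =
      (N : ℂ) * ∑ i : Fin m, ∑ j : Fin m, (starRingEnd ℂ) (x i) * t ((j : ℤ) - (i : ℤ)) * x j := by
    have hexp : ∀ s, (starRingEnd ℂ) (p s) * p s * f (y s) =
        ∑ i : Fin m, ∑ j : Fin m, ∑ k ∈ Finset.Ioo (-(m : ℤ)) (m : ℤ),
          (starRingEnd ℂ) (x i) * x j * t k *
            Complex.exp (Complex.I * (((i : ℤ) + -(j : ℤ) + k : ℤ) : ℂ) * (y s : ℂ)) := by
      intro s
      rw [hpp, Finset.sum_mul]
      apply Finset.sum_congr rfl; intro i _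
      rw [Finset.sum_mul]
      apply Finset.sum_congr rfl; intro j _
      simp only [hf]
      rw [Finset.mul_sum]
      apply Finset.sum_congr rfl; intro k _
      rw [← E_mul ((i : ℤ) + -(j : ℤ)) k (y s)]; ring
    simp_rw [hexp]
    rw [Finset.sum_comm, Finset.mul_sum]
    apply Finset.sum_congr rfl; intro i _
    rw [Finset.sum_comm, Finset.mul_sum]
    apply Finset.sum_congr rfl; intro j _
    rw [Finset.sum_comm]
    simp_rw [← Finset.mul_sum]
    have hk : ∀ k ∈ Finset.Ioo (-(m : ℤ)) (m : ℤ), (starRingEnd ℂ) (x i) * x j * t k *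
        (∑ s ∈ Finset.range N,
          Complex.exp (Complex.I * (((i : ℤ) + -(j : ℤ) + k : ℤ) : ℂ) * (y s : ℂ))) =
        if k = (j : ℤ) - (i : ℤ) then (N : ℂ) * ((starRingEnd ℂ) (x i) * t ((j : ℤ) - (i : ℤ)) * x j)
          else 0 := by
      intro k hk
      rw [Finset.mem_Ioo] at hk
      rw [horth _ (by have := i.2; have := j.2; rw [abs_lt]; constructor <;> omega)]
      by_cases hki : k = (j : ℤ) - (i : ℤ)
      · have : (i : ℤ) + -(j : ℤ) + k = 0 := by omega
        rw [if_pos this, if_pos hki, hki]; ring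
      · have : (i : ℤ) + -(j : ℤ) + k ≠ 0 := by omega
        rw [if_neg this, if_neg hki, mul_zero]
    rw [Finset.sum_congr rfl hk, Finset.sum_ite_eq']
    rw [if_pos]
    rw [Finset.mem_Ioo]
    have := i.2; have := j.2
    constructor <;> omega
  have hQ : star x ⬝ᵥ (A *ᵥ x) =
      ∑ i : Fin m, ∑ j : Fin m, (starRingEnd ℂ) (x i) * t ((j : ℤ) - (i : ℤ)) * x j := by
    simp only [dotProduct, Matrix.mulVec, Pi.star_apply, Finset.mul_sum, hA]
    apply Finset.sum_congr rfl; intro i _
    apply Finset.sum_congr rfl; intro j _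
    rw [Complex.star_def]; ring
  set Q := star x ⬝ᵥ (A *ᵥ x) with hQdef
  have hconj : (starRingEnd ℂ) Q = Q := by
    rw [hQ]
    simp only [map_sum, map_mul, Complex.conj_conj]
    rw [Finset.sum_comm]
    apply Finset.sum_congr rfl; intro i _
    apply Finset.sum_congr rfl; intro j _
    have h1 := hH.apply i j
    rw [hA, hA] at h1
    rw [Complex.star_def] at h1
    rw [h1]; ring
  have him : Q.im = 0 := Complex.conj_eq_iff_im.1 hconj
  -- real part
  have hNre : ∀ z : ℂ, ((N : ℂ) * z).re = (N : ℝ) * z.re := by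
    intro z; rw [← Complex.ofReal_natCast, Complex.re_ofReal_mul]
  have hre : (N : ℝ) * Q.re = ∑ s ∈ Finset.range N, Complex.normSq (p s) * (f (y s)).re := by
    have h1 := congrArg Complex.re hmain
    rw [← hQ] at h1
    rw [Complex.re_sum] at h1
    rw [hNre] at h1
    rw [← h1]
    apply Finset.sum_congr rfl; intro s _
    rw [← Complex.normSq_eq_conj_mul_self, Complex.re_ofReal_mul]
  have hpars' : ∑ s ∈ Finset.range N, Complex.normSq (p s) = (N : ℝ) * ∑ i : Fin m, Complex.normSq (x i) := by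
    have h1 := congrArg Complex.re hpars
    rw [Complex.re_sum, hNre, Complex.re_sum] at h1
    simp only [← Complex.normSq_eq_conj_mul_self, Complex.ofReal_re] at h1
    exact h1
  obtain ⟨i0, hi0⟩ : ∃ i, x i ≠ 0 := by
    by_contra hcon; push Not at hcon; exact hx (funext hcon)
  have hxpos : 0 < ∑ i : Fin m, Complex.normSq (x i) :=
    Finset.sum_pos' (fun i _ => Complex.normSq_nonneg _) ⟨i0, Finset.mem_univ _, Complex.normSq_pos.2 hi0⟩
  have hNpos : (0 : ℝ) < N := by exact_mod_cast hN0
  obtain ⟨s0, hs0, hps0⟩ : ∃ s ∈ Finset.range N, 0 < Complex.normSq (p s) := by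
    by_contra hcon
    push Not at hcon
    have : ∑ s ∈ Finset.range N, Complex.normSq (p s) ≤ 0 := Finset.sum_nonpos hcon
    rw [hpars'] at this
    nlinarith
  have hsum : 0 < ∑ s ∈ Finset.range N, Complex.normSq (p s) * (f (y s)).re := by
    apply Finset.sum_pos'
    · intro s hs
      exact mul_nonneg (Complex.normSq_nonneg _) (hθ s hs).le
    · exact ⟨s0, hs0, mul_pos hps0 (hθ s0 hs0)⟩
  rw [← hre] at hsum
  have hQre : 0 < Q.re := by
    by_contra hcon; push Not at hcon; nlinarith
  rw [Complex.lt_def]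
  exact ⟨hQre, him.symm⟩

end Groth.Agent.S19019
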