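import Groth.Statements.S19020
import Mathlib.Data.Nat.Choose.Vandermonde
import Mathlib.Algebra.BigOperators.NatAntidiagonal
import Mathlib.Algebra.BigOperators.Fin
import Mathlib.Algebra.BigOperators.Intervals
import Mathlib.Algebra.Order.Star.Real
-- import your own Groth.Agent.* helpers here

set_option autoImplicit false
open Toeplitz

namespace Groth.Agent.S19020

open Finset Matrix

lemma vand (n d : ℕ) :
    ∑ a ∈ range (n + 1), (Nat.choose n (a + d) * Nat.choose n a) = Nat.choose (2 * n) (n + d) := by
  rw [two_mul, Nat.add_choose_eq, Finset.Nat.sum_antidiagonal_eq_sum_range_succ_mk]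
  have : (n + d).succ = d + (n + 1) := by omega
  conv_rhs => rw [this, Finset.sum_range_add]
  have h1 : ∑ x ∈ range d, Nat.choose n (x, n + d - x).1 * Nat.choose n (x, n + d - x).2 = 0 := by
    apply Finset.sum_eq_zero
    intro x hx
    simp only [Finset.mem_range] at hx
    simp only
    rw [Nat.choose_eq_zero_of_lt (n := n) (k := n + d - x) (by omega), mul_zero]
  rw [h1, zero_add]
  apply Finset.sum_congr rfl
  intro a ha
  simp only [Finset.mem_range] at ha
  simp only
  rw [show n + d - (d + a) = n - a by omega, Nat.choose_symm (by omega), add_comm a d]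

lemma key (n i j N : ℕ) (hi : i + n < N) (hj : j + n < N) :
    ∑ l ∈ range N, ((if i ≤ l then Nat.choose n (l - i) else 0) *
      (if j ≤ l then Nat.choose n (l - j) else 0)) = Nat.choose (2 * n) (n + Nat.dist i j) := by
  wlog hij : i ≤ j generalizing i j
  · rw [Nat.dist_comm]
    rw [← this j i hj hi (by omega)]
    apply Finset.sum_congr rfl
    intro l _
    ring
  have hd : Nat.dist i j = j - i := by
    unfold Nat.dist; omega
  rw [hd, ← vand n (j - i)]
  rw [← Finset.sum_range_add_sum_Ico _ (show j ≤ N by omega)]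
  have h1 : ∑ l ∈ range j, ((if i ≤ l then Nat.choose n (l - i) else 0) *
      (if j ≤ l then Nat.choose n (l - j) else 0)) = 0 := by
    apply Finset.sum_eq_zero
    intro l hl
    simp only [Finset.mem_range] at hl
    have : ¬ j ≤ l := by omega
    simp [this]
  rw [h1, zero_add, Finset.sum_Ico_eq_sum_range]
  have h2 : ∀ a, ((if i ≤ j + a then Nat.choose n (j + a - i) else 0) *
      (if j ≤ j + a then Nat.choose n (j + a - j) else 0)) = Nat.choose n (a + (j - i)) * Nat.choose n a := by
    intro a
    rw [if_pos (by omega), if_pos (by omega)]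
    congr 2 <;> omega
  simp_rw [h2]
  -- extend/truncate
  have hN : n + 1 ≤ N - j := by omega
  rw [← Finset.sum_range_add_sum_Ico _ hN]
  have h3 : ∑ a ∈ Ico (n + 1) (N - j), Nat.choose n (a + (j - i)) * Nat.choose n a = 0 := by
    apply Finset.sum_eq_zero
    intro a ha
    simp only [Finset.mem_Ico] at ha
    rw [Nat.choose_eq_zero_of_lt (n := n) (k := a) (by omega), mul_zero]
  rw [h3, add_zero]


/-- For natural numbers n and m, the m × m real Toeplitz matrix with (i, j) entry (-1)^(i+j) · C(2n, n +
|i - j|), i.e. with t_k = (-1)^k C(2n, n + k) on the k-th diagonal for |k| ≤ n and zero beyond, is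
positive definite; in particular it is nondegenerate, which is the printed assertion (positive
definiteness is what the printed proof establishes; m = 0 is the empty matrix). -/
theorem result (n m : ℕ) :
    (Matrix.of fun i j : Fin m =>
        (-1 : ℝ) ^ ((i : ℕ) + (j : ℕ)) * (Nat.choose (2 * n) (n + Nat.dist i j) : ℝ)).PosDef := by
  classical
  set B : Matrix (Fin m) (Fin (m + n)) ℝ := Matrix.of fun i l =>
    (-1 : ℝ) ^ (i : ℕ) * ((if (i : ℕ) ≤ l then Nat.choose n ((l : ℕ) - i) else 0 : ℕ) : ℝ) with hB
  have hBB : B * Bᴴ = Matrix.of fun i j : Fin m =>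
        (-1 : ℝ) ^ ((i : ℕ) + (j : ℕ)) * (Nat.choose (2 * n) (n + Nat.dist i j) : ℝ) := by
    ext i j
    simp only [Matrix.mul_apply, hB, Matrix.conjTranspose_apply, Matrix.of_apply, star_trivial]
    have : ∀ l : Fin (m + n), (-1 : ℝ) ^ (i : ℕ) * ((if (i : ℕ) ≤ l then Nat.choose n ((l : ℕ) - i) else 0 : ℕ) : ℝ) *
        ((-1 : ℝ) ^ (j : ℕ) * ((if (j : ℕ) ≤ l then Nat.choose n ((l : ℕ) - j) else 0 : ℕ) : ℝ)) =
        (-1 : ℝ) ^ ((i : ℕ) + (j : ℕ)) * (((if (i : ℕ) ≤ l then Nat.choose n ((l : ℕ) - i) else 0) *
          (if (j : ℕ) ≤ l then Nat.choose n ((l : ℕ) - j) else 0) : ℕ) : ℝ) := by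
      intro l
      push_cast
      ring
    simp_rw [this]
    rw [← Finset.mul_sum]
    congr 1
    rw [← Nat.cast_sum]
    congr 1
    rw [Fin.sum_univ_eq_sum_range (fun l => (if (i : ℕ) ≤ l then Nat.choose n (l - i) else 0) *
          (if (j : ℕ) ≤ l then Nat.choose n (l - j) else 0)) (m + n)]
    exact key n i j (m + n) (by omega) (by omega)
  rw [← hBB]
  apply Matrix.PosDef.mul_conjTranspose_self
  -- injectivity of vecMul
  intro x y hxy
  have hz : ∀ l : Fin (m + n), ∑ i : Fin m, (x i - y i) * B i l = 0 := by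
    intro l
    have := congrFun hxy l
    simp only [Matrix.vecMul, dotProduct] at this
    simp only [sub_mul, Finset.sum_sub_distrib, this, sub_self]
  have main : ∀ k : ℕ, ∀ i : Fin m, (i : ℕ) = k → x i - y i = 0 := by
    intro k
    induction k using Nat.strong_induction_on with
    | _ k ih =>
      intro i hik
      have h := hz ⟨i, by omega⟩
      rw [Finset.sum_eq_single i] at h
      · simp only [hB, Matrix.of_apply, le_refl, if_true, Nat.sub_self, Nat.choose_zero_right,
          Nat.cast_one, mul_one] at h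
        rcases mul_eq_zero.1 h with h | h
        · exact h
        · exact absurd h (pow_ne_zero _ (by norm_num))
      · intro b _ hb
        rcases lt_or_gt_of_ne (Fin.val_ne_of_ne hb) with h1 | h1
        · rw [ih b (by omega) b rfl, zero_mul]
        · have : ¬ (b : ℕ) ≤ (i : ℕ) := by omega
          simp [hB, this]
      · simp
  funext i
  rw [← sub_eq_zero]
  exact main i i rfl

end Groth.Agent.S19020
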