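import Groth.Statements.S19021
import Groth.Agent.S19020
import Mathlib.LinearAlgebra.Matrix.ToLinearEquiv
-- import your own Groth.Agent.* helpers here

set_option autoImplicit false
open Toeplitz

namespace Groth.Agent.S19021

open Matrix

lemma pascal' (n k : ℕ) : ((Nat.choose (2*n+1) (n+k) : ℕ) : ℝ) + ((Nat.choose (2*n+1) (n+1+k) : ℕ) : ℝ) =
    ((Nat.choose (2*(n+1)) (n+1+k) : ℕ) : ℝ) := by
  have := Nat.choose_succ_succ (2*n+1) (n+k)
  rw [show 2*(n+1) = 2*n+1+1 by ring, show n+1+k = n+k+1 by ring, this]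
  push_cast; ring

lemma diag' (n : ℕ) : ((Nat.choose (2*n+1) (n+1) : ℕ) : ℝ) + ((Nat.choose (2*n+1) (n+1) : ℕ) : ℝ) =
    ((Nat.choose (2*(n+1)) (n+1) : ℕ) : ℝ) := by
  have := Nat.choose_succ_succ (2*n+1) n
  rw [show 2*(n+1) = 2*n+1+1 by ring, this]
  have h2 := Nat.choose_symm_half n
  rw [h2]
  push_cast; ring


/-- For natural numbers n and m, the m × m integer Toeplitz matrix with (i, j) entry (-1)^(i+j) ·
C(2n+1, n+1+i-j) (the binomial coefficient being 0 outside the range 0 ≤ n+1+i-j ≤ 2n+1;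
equivalently s_k = (-1)^k C(2n+1, n+k+1) on the diagonal i - j = k for -n-1 ≤ k ≤ n and zero beyond)
is nondegenerate: its determinant is nonzero (m = 0 is the empty matrix, of determinant 1). -/
theorem result (n m : ℕ) :
    (Matrix.of fun i j : Fin m =>
        (-1 : ℤ) ^ ((i : ℕ) + (j : ℕ)) *
          (if (j : ℕ) ≤ (i : ℕ) then (Nat.choose (2 * n + 1) (n + 1 + ((i : ℕ) - (j : ℕ))) : ℤ)
            else (Nat.choose (2 * n + 1) (n + ((j : ℕ) - (i : ℕ))) : ℤ))).det ≠ 0 := by
  set A := (Matrix.of fun i j : Fin m =>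
        (-1 : ℤ) ^ ((i : ℕ) + (j : ℕ)) *
          (if (j : ℕ) ≤ (i : ℕ) then (Nat.choose (2 * n + 1) (n + 1 + ((i : ℕ) - (j : ℕ))) : ℤ)
            else (Nat.choose (2 * n + 1) (n + ((j : ℕ) - (i : ℕ))) : ℤ))) with hA
  set A' : Matrix (Fin m) (Fin m) ℝ := (Int.castRingHom ℝ).mapMatrix A with hA'
  have hS := Groth.Agent.S19020.result (n + 1) m
  have hsum : A' + A'ᵀ = Matrix.of fun i j : Fin m =>
        (-1 : ℝ) ^ ((i : ℕ) + (j : ℕ)) * (Nat.choose (2 * (n + 1)) ((n + 1) + Nat.dist i j) : ℝ) := by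
    ext i j
    simp only [hA', hA, Matrix.add_apply, Matrix.transpose_apply, RingHom.mapMatrix_apply,
      Matrix.map_apply, Matrix.of_apply, eq_intCast, Int.cast_mul, Int.cast_pow, Int.cast_neg,
      Int.cast_one]
    rcases lt_trichotomy (i : ℕ) (j : ℕ) with h | h | h
    · rw [if_neg (by omega), if_pos (by omega)]
      have hd : Nat.dist i j = j - i := by unfold Nat.dist; omega
      rw [hd, add_comm (j : ℕ) i, ← mul_add]
      congr 1
      exact pascal' n _
    · have hij : i = j := Fin.ext h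
      subst hij
      rw [if_pos le_rfl, Nat.dist_self]
      simp only [Nat.sub_self, add_zero]
      rw [← mul_add]
      congr 1
      exact diag' n
    · rw [if_pos (by omega), if_neg (by omega)]
      have hd : Nat.dist i j = i - j := by unfold Nat.dist; omega
      rw [hd, add_comm (j : ℕ) i, ← mul_add]
      congr 1
      rw [add_comm]
      exact pascal' n _
  rw [← hsum] at hS
  intro hdet
  have hdet' : A'.det = 0 := by
    rw [hA', ← RingHom.map_det, hdet, map_zero]
  obtain ⟨v, hv, hAv⟩ := Matrix.exists_mulVec_eq_zero_iff.2 hdet'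
  have hpos := hS.dotProduct_mulVec_pos hv
  rw [Matrix.add_mulVec, dotProduct_add, hAv, dotProduct_zero, zero_add, Matrix.dotProduct_mulVec,
    star_trivial, Matrix.vecMul_transpose, hAv, zero_dotProduct] at hpos
  exact lt_irrefl _ hpos

end Groth.Agent.S19021
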