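import Groth.Statements.S19024
import Mathlib.GroupTheory.OrderOfElement
import Mathlib.GroupTheory.Perm.Finite
-- import your own Groth.Agent.* helpers here

set_option autoImplicit false
open SymIdx

namespace Groth.Agent.S19024

/-- Let a be a map from Fin k to finite subsets of Fin n, R a set of elements of Fin n, and H^R(a) the
set of permutations of Fin k preserving each fibre a⁻¹({r}) for r ∈ R and fixing all other points.
Let τ be a permutation of Fin n carrying R onto itself and τ' a permutation of Fin k that lifts τ on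
the singleton fibres (a i = {j} implies a (τ' i) = {τ j}), is increasing on each such fibre, and
fixes every i for which a i is not a singleton. Then for every g in H^R(a) the conjugate τ' g τ'⁻¹
lies in H^R(a). (In the source τ ranges over the permutations supported on R that preserve the fibre
cardinalities, which is exactly when such a lift exists, the pairs (τ, τ') form the group Δ^R(a),
and the printed consequences — H^R(a) is normalised by Δ^R(a), so the group they generate is a
semidirect product — follow formally from this conjugation statement.) -/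
theorem result
    (n k : ℕ) (a : Fin k → Finset (Fin n)) (R : Set (Fin n))
    (τ : Equiv.Perm (Fin n)) (hτ : ∀ j : Fin n, τ j ∈ R ↔ j ∈ R)
    (τ' : Equiv.Perm (Fin k))
    (h1 : ∀ (i : Fin k) (j : Fin n), a i = {j} → a (τ' i) = {τ j})
    (h2 : ∀ i : Fin k, (∀ j : Fin n, a i ≠ {j}) → τ' i = i)
    (h3 : ∀ (i i' : Fin k) (j : Fin n), a i = {j} → a i' = {j} → i < i' → τ' i < τ' i')
    (g : Equiv.Perm (Fin k))
    (hg1 : ∀ (i : Fin k) (r : Fin n), r ∈ R → a i = {r} → a (g i) = {r})
    (hg2 : ∀ i : Fin k, (∀ r : Fin n, r ∈ R → a i ≠ {r}) → g i = i) :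
    (∀ (i : Fin k) (r : Fin n), r ∈ R → a i = {r} → a ((τ' * g * τ'⁻¹) i) = {r}) ∧
      (∀ i : Fin k, (∀ r : Fin n, r ∈ R → a i ≠ {r}) → (τ' * g * τ'⁻¹) i = i) := by
  have hai : ∀ {α : Type} (σ : Equiv.Perm α) (x : α), σ (σ⁻¹ x) = x := fun σ x => by simp
  have hpow : ∀ (m : ℕ) (i : Fin k) (j : Fin n), a i = {j} → a ((τ' ^ m) i) = {(τ ^ m) j} := by
    intro m
    induction m with
    | zero => intro i j h; simpa using h
    | succ m ih =>
      intro i j h
      rw [pow_succ', pow_succ', Equiv.Perm.mul_apply, Equiv.Perm.mul_apply]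
      exact h1 _ _ (ih i j h)
  set N := orderOf τ' * orderOf τ with hN
  have hNpos : N ≠ 0 := by
    rw [hN]
    exact Nat.mul_ne_zero (orderOf_pos τ').ne' (orderOf_pos τ).ne'
  have hτ'N : τ' ^ N = 1 := by rw [hN, pow_mul, pow_orderOf_eq_one, one_pow]
  have hτN : τ ^ N = 1 := by rw [hN, mul_comm, pow_mul, pow_orderOf_eq_one, one_pow]
  have hτ'inv : τ'⁻¹ = τ' ^ (N - 1) := by
    symm; apply eq_inv_of_mul_eq_one_left; rw [pow_sub_one_mul hNpos, hτ'N]
  have hτinv : τ⁻¹ = τ ^ (N - 1) := by
    symm; apply eq_inv_of_mul_eq_one_left; rw [pow_sub_one_mul hNpos, hτN]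
  have hinv : ∀ (i : Fin k) (j : Fin n), a i = {j} → a (τ'⁻¹ i) = {τ⁻¹ j} := by
    intro i j h
    rw [hτ'inv, hτinv]
    exact hpow _ i j h
  refine ⟨?_, ?_⟩
  · intro i r hr hi
    rw [Equiv.Perm.mul_apply, Equiv.Perm.mul_apply]
    have hi' := hinv i r hi
    have hr' : τ⁻¹ r ∈ R := by
      have := hτ (τ⁻¹ r)
      rw [hai] at this
      exact this.1 hr
    have := h1 _ _ (hg1 _ _ hr' hi')
    rwa [hai] at this
  · intro i hi
    rw [Equiv.Perm.mul_apply, Equiv.Perm.mul_apply]
    have hi' : ∀ r : Fin n, r ∈ R → a (τ'⁻¹ i) ≠ {r} := by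
      intro r hr h
      have := h1 _ _ h
      rw [hai] at this
      exact hi (τ r) ((hτ r).2 hr) this
    rw [hg2 _ hi', hai]

end Groth.Agent.S19024
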