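import Groth.Statements.S19092
import Mathlib.Tactic.Ring
import Mathlib.Algebra.CharP.Frobenius
-- import your own Groth.Agent.* helpers here

set_option autoImplicit false
universe u
open FrobAlg

namespace Groth.Agent.S19092

/-- Let p be a prime and A a commutative ring of characteristic p whose absolute Frobenius a ↦ a^p is a
finite ring homomorphism. Then the same holds for every quotient and every localization of A: for
every ideal I of A such that A ⧸ I has characteristic p (every proper ideal) the absolute Frobenius
of A ⧸ I is finite, and for every submonoid S of A and every localization B of A at S of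
characteristic p (every nonzero localization) the absolute Frobenius of B is finite. -/
theorem result (p : ℕ) [Fact p.Prime]
    (A : Type u) [CommRing A] [CharP A p] (hF : (frobenius A p).Finite) :
    (∀ (I : Ideal A) [CharP (A ⧸ I) p], (frobenius (A ⧸ I) p).Finite) ∧
      ∀ (S : Submonoid A) (B : Type u) [CommRing B] [Algebra A B] [IsLocalization S B] [CharP B p],
        (frobenius B p).Finite := by
  refine ⟨?_, ?_⟩
  · intro I _
    have hcomm : (frobenius (A ⧸ I) p).comp (Ideal.Quotient.mk I) =
        (Ideal.Quotient.mk I).comp (frobenius A p) := by
      ext x
      simp [frobenius_def, map_pow]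
    apply RingHom.Finite.of_comp_finite (f := Ideal.Quotient.mk I)
    rw [hcomm]
    exact RingHom.Finite.comp (RingHom.Finite.of_surjective _ Ideal.Quotient.mk_surjective) hF
  · intro S B _ _ _ _
    have hp : 0 < p := (Fact.out : p.Prime).pos
    have hloc : IsLocalization (S.map (frobenius A p)) B :=
      { map_units := by
          rintro ⟨_, s, hs, rfl⟩
          show IsUnit (algebraMap A B (frobenius A p s))
          rw [frobenius_def, map_pow]
          exact (IsLocalization.map_units B ⟨s, hs⟩).pow p
        surj := by
          intro z
          obtain ⟨⟨x, s⟩, hxs⟩ := IsLocalization.surj S z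
          refine ⟨⟨x * (s : A) ^ (p - 1), ⟨frobenius A p s, s, s.2, rfl⟩⟩, ?_⟩
          show z * algebraMap A B (frobenius A p s) = algebraMap A B (x * (s : A) ^ (p - 1))
          rw [frobenius_def, map_mul, map_pow, map_pow, ← hxs]
          conv_lhs => rw [← Nat.sub_add_cancel hp, pow_succ]
          ring
        exists_of_eq := by
          intro x y hxy
          obtain ⟨c, hc⟩ := (IsLocalization.eq_iff_exists S B).1 hxy
          refine ⟨⟨frobenius A p c, c, c.2, rfl⟩, ?_⟩
          show frobenius A p c * x = frobenius A p c * y
          rw [frobenius_def]
          conv_lhs => rw [← Nat.sub_add_cancel hp, pow_succ, mul_assoc, hc]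
          conv_rhs => rw [← Nat.sub_add_cancel hp, pow_succ, mul_assoc] }
    have hfin := RingHom.finite_localizationPreserves (frobenius A p) S B B hF
    have heq : (IsLocalization.map B (frobenius A p) (Submonoid.le_comap_map S) : B →+* B) =
        frobenius B p := by
      apply IsLocalization.ringHom_ext S
      ext x
      rw [RingHom.comp_apply, IsLocalization.map_eq, RingHom.comp_apply]
      rw [frobenius_def, frobenius_def, map_pow]
    rw [← heq]
    exact hfin

end Groth.Agent.S19092
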