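import Groth.Statements.S19136
import Mathlib.Tactic.Ring
import Mathlib.Tactic.Linarith
-- import your own Groth.Agent.* helpers here

set_option autoImplicit false
universe u
open Instab

namespace Groth.Agent.S19136

/-- Let p be a seminorm and ℓ a linear form on a real vector space, let y₀ and y₁ be vectors at which p
is positive and ℓ is non-negative, and let y = t y₀ + (1 - t) y₁ with 0 < t < 1 be a point of the
open segment at which p is positive. Then ℓ(y)/p(y) is at least the smaller of ℓ(y₀)/p(y₀) and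
ℓ(y₁)/p(y₁), and if it equals that smaller value then ℓ(y₀)/p(y₀) = ℓ(y₁)/p(y₁). (The published
lemma concerns the numerical invariant attached to a degree-two cohomology class and a semi-norm on
graded points of a stack; restricted to one rational simplex that invariant is the quotient of a
linear form by a semi-norm on the non-negative orthant of a real coordinate space, and local
quasi-concavity there amounts to this inequality with its equality clause, the set where the linear
form is non-negative being automatically convex; the lemma's further assertion, that the invariant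
is positive at no pair of antipodal points, is not stated here. The vector space is arbitrary here.) -/
theorem result {E : Type u} [AddCommGroup E] [Module ℝ E]
    (p : Seminorm ℝ E) (ℓ : E →ₗ[ℝ] ℝ) (y₀ y₁ : E) (h₀ : 0 < p y₀) (h₁ : 0 < p y₁)
    (hℓ₀ : 0 ≤ ℓ y₀) (hℓ₁ : 0 ≤ ℓ y₁) (t : ℝ) (ht₀ : 0 < t) (ht₁ : t < 1)
    (hy : 0 < p (t • y₀ + (1 - t) • y₁)) :
    min (ℓ y₀ / p y₀) (ℓ y₁ / p y₁) ≤ ℓ (t • y₀ + (1 - t) • y₁) / p (t • y₀ + (1 - t) • y₁) ∧
      (ℓ (t • y₀ + (1 - t) • y₁) / p (t • y₀ + (1 - t) • y₁) = min (ℓ y₀ / p y₀) (ℓ y₁ / p y₁) →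
        ℓ y₀ / p y₀ = ℓ y₁ / p y₁) := by
  set y := t • y₀ + (1 - t) • y₁ with hydef
  have hℓy : ℓ y = t * ℓ y₀ + (1 - t) * ℓ y₁ := by
    rw [hydef, map_add, map_smul, map_smul, smul_eq_mul, smul_eq_mul]
  have ht1' : 0 < 1 - t := by linarith
  have hpy : p y ≤ t * p y₀ + (1 - t) * p y₁ := by
    calc p y ≤ p (t • y₀) + p ((1 - t) • y₁) := map_add_le_add p _ _
      _ = t * p y₀ + (1 - t) * p y₁ := by
        rw [map_smul_eq_mul, map_smul_eq_mul, Real.norm_eq_abs, Real.norm_eq_abs,
          abs_of_pos ht₀, abs_of_pos ht1']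
  set m := min (ℓ y₀ / p y₀) (ℓ y₁ / p y₁) with hmdef
  have hm0 : 0 ≤ m := le_min (div_nonneg hℓ₀ h₀.le) (div_nonneg hℓ₁ h₁.le)
  have hmP0 : m * p y₀ ≤ ℓ y₀ := by
    have := min_le_left (ℓ y₀ / p y₀) (ℓ y₁ / p y₁)
    rwa [← hmdef, le_div_iff₀ h₀] at this
  have hmP1 : m * p y₁ ≤ ℓ y₁ := by
    have := min_le_right (ℓ y₀ / p y₀) (ℓ y₁ / p y₁)
    rwa [← hmdef, le_div_iff₀ h₁] at this
  have key : m * p y ≤ ℓ y := by
    calc m * p y ≤ m * (t * p y₀ + (1 - t) * p y₁) := mul_le_mul_of_nonneg_left hpy hm0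
      _ = t * (m * p y₀) + (1 - t) * (m * p y₁) := by ring
      _ ≤ t * ℓ y₀ + (1 - t) * ℓ y₁ := by
        apply add_le_add
        · exact mul_le_mul_of_nonneg_left hmP0 ht₀.le
        · exact mul_le_mul_of_nonneg_left hmP1 ht1'.le
      _ = ℓ y := hℓy.symm
  refine ⟨(le_div_iff₀ hy).2 key, ?_⟩
  intro heq
  by_contra hne
  rcases lt_or_gt_of_ne hne with hlt | hgt
  · have hm : m = ℓ y₀ / p y₀ := min_eq_left hlt.le
    have hstrict : m * p y₁ < ℓ y₁ := by
      rw [hm]; exact (lt_div_iff₀ h₁).1 hlt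
    have key' : m * p y < ℓ y := by
      calc m * p y ≤ m * (t * p y₀ + (1 - t) * p y₁) := mul_le_mul_of_nonneg_left hpy hm0
        _ = t * (m * p y₀) + (1 - t) * (m * p y₁) := by ring
        _ < t * ℓ y₀ + (1 - t) * ℓ y₁ := by
          apply add_lt_add_of_le_of_lt
          · exact mul_le_mul_of_nonneg_left hmP0 ht₀.le
          · exact mul_lt_mul_of_pos_left hstrict ht1'
        _ = ℓ y := hℓy.symm
    have := (lt_div_iff₀ hy).2 key'
    rw [heq] at this
    exact lt_irrefl _ this
  · have hm : m = ℓ y₁ / p y₁ := min_eq_right hgt.le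
    have hstrict : m * p y₀ < ℓ y₀ := by
      rw [hm]; exact (lt_div_iff₀ h₀).1 hgt
    have key' : m * p y < ℓ y := by
      calc m * p y ≤ m * (t * p y₀ + (1 - t) * p y₁) := mul_le_mul_of_nonneg_left hpy hm0
        _ = t * (m * p y₀) + (1 - t) * (m * p y₁) := by ring
        _ < t * ℓ y₀ + (1 - t) * ℓ y₁ := by
          apply add_lt_add_of_lt_of_le
          · exact mul_lt_mul_of_pos_left hstrict ht₀
          · exact mul_le_mul_of_nonneg_left hmP1 ht1'.le
        _ = ℓ y := hℓy.symm
    have := (lt_div_iff₀ hy).2 key'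
    rw [heq] at this
    exact lt_irrefl _ this

end Groth.Agent.S19136
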