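import Groth.Statements.S19137
import Mathlib.Tactic.Ring
import Mathlib.Tactic.Linarith
import Mathlib.Tactic.FieldSimp
import Mathlib.Tactic.Positivity
-- import your own Groth.Agent.* helpers here

set_option autoImplicit false
universe u
open Instab

namespace Groth.Agent.S19137

/-- Let p be a seminorm on a real vector space whose unit ball is strictly convex in the sense that p(a
+ b) < p(a) + p(b) whenever p(a) and p(b) are non-zero and b is not a positive multiple of a; let ℓ
be a linear form, y₀ and y₁ vectors with p and ℓ positive at both and y₁ not a positive multiple of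
y₀, and y = t y₀ + (1 - t) y₁ with 0 < t < 1 a point at which p is positive. Then ℓ(y)/p(y) is
strictly greater than the smaller of ℓ(y₀)/p(y₀) and ℓ(y₁)/p(y₁). (The published lemma says that
when the norm on graded points is locally a norm with strictly convex unit balls, the numerical
invariant attached to a degree-two class and that norm is strictly quasi-concave on each cone and is
positive at no pair of antipodal points; on one rational simplex the first property is this strict
form of the quasi-concavity inequality for the quotient of a linear form by the norm, at points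
where the linear form is positive, and the second property is not stated here. The vector space is
arbitrary here.) -/
theorem result {E : Type u} [AddCommGroup E] [Module ℝ E]
    (p : Seminorm ℝ E)
    (hp : ∀ a b : E, p a ≠ 0 → p b ≠ 0 → (¬ ∃ c : ℝ, 0 < c ∧ b = c • a) → p (a + b) < p a + p b)
    (ℓ : E →ₗ[ℝ] ℝ) (y₀ y₁ : E) (h₀ : 0 < p y₀) (h₁ : 0 < p y₁)
    (hℓ₀ : 0 < ℓ y₀) (hℓ₁ : 0 < ℓ y₁) (hne : ¬ ∃ c : ℝ, 0 < c ∧ y₁ = c • y₀)
    (t : ℝ) (ht₀ : 0 < t) (ht₁ : t < 1) (hy : 0 < p (t • y₀ + (1 - t) • y₁)) :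
    min (ℓ y₀ / p y₀) (ℓ y₁ / p y₁) < ℓ (t • y₀ + (1 - t) • y₁) / p (t • y₀ + (1 - t) • y₁) := by
  set y := t • y₀ + (1 - t) • y₁ with hydef
  have hℓy : ℓ y = t * ℓ y₀ + (1 - t) * ℓ y₁ := by
    rw [hydef, map_add, map_smul, map_smul, smul_eq_mul, smul_eq_mul]
  have ht1' : 0 < 1 - t := by linarith
  have hpa : p (t • y₀) = t * p y₀ := by
    rw [map_smul_eq_mul, Real.norm_eq_abs, abs_of_pos ht₀]
  have hpb : p ((1 - t) • y₁) = (1 - t) * p y₁ := by
    rw [map_smul_eq_mul, Real.norm_eq_abs, abs_of_pos ht1']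
  have hnotmul : ¬ ∃ c : ℝ, 0 < c ∧ (1 - t) • y₁ = c • (t • y₀) := by
    rintro ⟨c, hc, hcy⟩
    apply hne
    refine ⟨c * t / (1 - t), by positivity, ?_⟩
    have : y₁ = (1 - t)⁻¹ • ((1 - t) • y₁) := by
      rw [smul_smul, inv_mul_cancel₀ ht1'.ne', one_smul]
    rw [this, hcy, smul_smul, smul_smul]
    congr 1
    field_simp
  have hpy : p y < t * p y₀ + (1 - t) * p y₁ := by
    have := hp (t • y₀) ((1 - t) • y₁) (by rw [hpa]; positivity) (by rw [hpb]; positivity) hnotmul
    rw [hpa, hpb] at this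
    exact this
  set m := min (ℓ y₀ / p y₀) (ℓ y₁ / p y₁) with hmdef
  have hm0 : 0 < m := lt_min (div_pos hℓ₀ h₀) (div_pos hℓ₁ h₁)
  have hmP0 : m * p y₀ ≤ ℓ y₀ := by
    have := min_le_left (ℓ y₀ / p y₀) (ℓ y₁ / p y₁)
    rwa [← hmdef, le_div_iff₀ h₀] at this
  have hmP1 : m * p y₁ ≤ ℓ y₁ := by
    have := min_le_right (ℓ y₀ / p y₀) (ℓ y₁ / p y₁)
    rwa [← hmdef, le_div_iff₀ h₁] at this
  have key : m * p y < ℓ y := by
    calc m * p y < m * (t * p y₀ + (1 - t) * p y₁) := mul_lt_mul_of_pos_left hpy hm0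
      _ = t * (m * p y₀) + (1 - t) * (m * p y₁) := by ring
      _ ≤ t * ℓ y₀ + (1 - t) * ℓ y₁ := by
        apply add_le_add
        · exact mul_le_mul_of_nonneg_left hmP0 ht₀.le
        · exact mul_le_mul_of_nonneg_left hmP1 ht1'.le
      _ = ℓ y := hℓy.symm
  exact (lt_div_iff₀ hy).2 key

end Groth.Agent.S19137
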