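import Groth.Statements.S19167
import Mathlib.Algebra.Module.CharacterModule
import Mathlib.Topology.Algebra.OpenSubgroup
-- import your own Groth.Agent.* helpers here

set_option autoImplicit false
universe u v
open ProCompl

namespace Groth.Agent.S19167

open Topology in
/-- Let i : A → B be an injective continuous homomorphism of topological abelian groups inducing the
topology of A from that of B (a strict injection), with open image. Then every character χ : A → ℚ/ℤ
with open kernel extends along i to a character ψ : B → ℚ/ℤ with open kernel. Here ℚ/ℤ is regarded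
as a discrete group, so that continuity of a character means that its kernel is open. -/
theorem result
    {A : Type u} {B : Type v} [AddCommGroup A] [TopologicalSpace A] [IsTopologicalAddGroup A]
    [AddCommGroup B] [TopologicalSpace B] [IsTopologicalAddGroup B]
    (i : A →+ B) (hi : Continuous i) (hinj : Function.Injective i) (hind : IsInducing i)
    (hopen : IsOpen (Set.range i))
    (χ : A →+ ℚ ⧸ AddSubgroup.zmultiples (1 : ℚ)) (hχ : IsOpen (χ.ker : Set A)) :
    ∃ ψ : B →+ ℚ ⧸ AddSubgroup.zmultiples (1 : ℚ), IsOpen (ψ.ker : Set B) ∧ ψ.comp i = χ := by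
  obtain ⟨ψ, hψ⟩ := (Module.Baer.of_divisible (AddCircle (1 : ℚ))).extension_property_addMonoidHom
    i hinj χ
  refine ⟨ψ, ?_, hψ⟩
  obtain ⟨c, hc, hcs⟩ := hind.image_eq_isOpen_inter_range hχ
  have hH : IsOpen ((χ.ker.map i : AddSubgroup B) : Set B) := by
    rw [AddSubgroup.coe_map, hcs]
    exact hc.inter hopen
  refine AddSubgroup.isOpen_mono ?_ hH
  rintro _ ⟨a, ha, rfl⟩
  rw [AddMonoidHom.mem_ker]
  have := DFunLike.congr_fun hψ a
  rw [AddMonoidHom.comp_apply] at this
  rw [this]
  exact ha

end Groth.Agent.S19167
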