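import Groth.Statements.S19168
-- import your own Groth.Agent.* helpers here

set_option autoImplicit false
universe u v
open ProCompl

namespace Groth.Agent.S19168

/-- Let p : B → C be a continuous open surjective homomorphism of topological abelian groups (so that C
carries the quotient topology of B modulo the kernel of p). Then a character χ : B → ℚ/ℤ with open
kernel vanishing on the kernel of p factors uniquely through p, and the induced character of C again
has open kernel. In other words, for a topological exact sequence 0 → A → B → C → 0 with p open, the
sequence 0 → C^D → B^D → A^D of groups of characters with open kernel (continuous characters for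
discrete ℚ/ℤ) is exact; injectivity of C^D → B^D being immediate from surjectivity of p, this row
records exactness at B^D. -/
theorem result
    {B : Type u} {C : Type v} [AddCommGroup B] [TopologicalSpace B] [IsTopologicalAddGroup B]
    [AddCommGroup C] [TopologicalSpace C] [IsTopologicalAddGroup C]
    (p : B →+ C) (hp : Continuous p) (hpo : IsOpenMap p) (hps : Function.Surjective p)
    (χ : B →+ ℚ ⧸ AddSubgroup.zmultiples (1 : ℚ)) (hχ : IsOpen (χ.ker : Set B)) (hχp : p.ker ≤ χ.ker) :
    ∃ φ : C →+ ℚ ⧸ AddSubgroup.zmultiples (1 : ℚ), IsOpen (φ.ker : Set C) ∧ φ.comp p = χ := by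
  classical
  have hfac : ∀ b1 b2 : B, p b1 = p b2 → χ b1 = χ b2 := by
    intro b1 b2 h
    have hk : b1 - b2 ∈ p.ker := by
      rw [AddMonoidHom.mem_ker, map_sub, h, sub_self]
    have := hχp hk
    rw [AddMonoidHom.mem_ker, map_sub, sub_eq_zero] at this
    exact this
  let φ : C →+ ℚ ⧸ AddSubgroup.zmultiples (1 : ℚ) :=
    { toFun := fun c => χ (Function.surjInv hps c)
      map_zero' := by
        show χ (Function.surjInv hps 0) = 0
        rw [hfac (Function.surjInv hps 0) 0 (by rw [Function.surjInv_eq hps, map_zero]), map_zero]
      map_add' := by
        intro c1 c2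
        show χ (Function.surjInv hps (c1 + c2)) =
          χ (Function.surjInv hps c1) + χ (Function.surjInv hps c2)
        rw [← map_add]
        apply hfac
        rw [map_add, Function.surjInv_eq hps, Function.surjInv_eq hps, Function.surjInv_eq hps] }
  have hφp : φ.comp p = χ := by
    ext b
    show χ (Function.surjInv hps (p b)) = χ b
    exact hfac _ _ (Function.surjInv_eq hps _)
  refine ⟨φ, ?_, hφp⟩
  have hker : (φ.ker : Set C) = p '' (χ.ker : Set B) := by
    ext c
    simp only [SetLike.mem_coe, AddMonoidHom.mem_ker, Set.mem_image]
    constructor
    · intro hc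
      exact ⟨Function.surjInv hps c, hc, Function.surjInv_eq hps c⟩
    · rintro ⟨b, hb, rfl⟩
      have := DFunLike.congr_fun hφp b
      simp only [AddMonoidHom.comp_apply] at this
      rw [this]; exact hb
  rw [hker]
  exact hpo _ hχ

end Groth.Agent.S19168
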