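import Groth.Statements.S19169
import Mathlib.Topology.Algebra.OpenSubgroup
import Mathlib.Topology.Separation.Profinite
import Mathlib.GroupTheory.FiniteAbelian.Basic
import Mathlib.Topology.Algebra.Group.Quotient
-- import your own Groth.Agent.* helpers here

set_option autoImplicit false
universe u
open ProCompl

open Set Topology

namespace H28VD

variable {B : Type*} [AddCommGroup B] [TopologicalSpace B] [IsTopologicalAddGroup B]

lemma exists_open_addSubgroup_subset {C : Set B} (hCc : IsCompact C) (hCo : IsOpen C)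
    (h0 : (0 : B) ∈ C) : ∃ H : AddSubgroup B, IsOpen (H : Set B) ∧ (H : Set B) ⊆ C := by
  obtain ⟨V, hV, hVC⟩ := compact_open_separated_add_right hCc hCo subset_rfl
  let H : AddSubgroup B :=
    { carrier := {x | ∀ c, c ∈ C ↔ c + x ∈ C}
      add_mem' := by
        intro x y hx hy c
        rw [hx c, hy (c + x), add_assoc]
      zero_mem' := by intro c; simp
      neg_mem' := by
        intro x hx c
        have := hx (c + -x)
        rw [neg_add_cancel_right] at this
        exact this.symm }
  refine ⟨H, ?_, ?_⟩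
  · apply AddSubgroup.isOpen_of_mem_nhds H (g := 0)
    have hV' : V ∩ -V ∈ 𝓝 (0 : B) := Filter.inter_mem hV (neg_mem_nhds_zero B hV)
    refine Filter.mem_of_superset hV' ?_
    rintro v ⟨hv1, hv2⟩ c
    constructor
    · intro hc
      exact hVC (Set.add_mem_add hc hv1)
    · intro hc
      have := hVC (Set.add_mem_add hc (show -v ∈ V from hv2))
      simpa using this
  · intro x hx
    have := (hx 0).1 h0
    simpa using this

/-- residual finiteness of f.g. abelian groups -/
lemma exists_finiteIndex_not_mem {Q : Type*} [AddCommGroup Q] [AddGroup.FG Q] (x : Q)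
    (hx : x ≠ 0) : ∃ N : AddSubgroup Q, N.FiniteIndex ∧ x ∉ N := by
  classical
  obtain ⟨n, ι, _, p, hp, e, ⟨f⟩⟩ := AddCommGroup.equiv_free_prod_directSum_zmod Q
  have : ∀ i, NeZero (p i ^ e i) := fun i => ⟨pow_ne_zero _ (hp i).ne_zero⟩
  have : Finite (DirectSum ι fun i => ZMod (p i ^ e i)) :=
    Finite.of_equiv _ (DFinsupp.equivFunOnFintype).symm
  by_cases h2 : (f x).2 = 0
  · have h1 : (f x).1 ≠ 0 := by
      intro h1
      apply hx
      have : f x = 0 := Prod.ext h1 h2
      simpa using this
    obtain ⟨j, hj⟩ : ∃ j, (f x).1 j ≠ 0 := by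
      by_contra hcon
      push Not at hcon
      exact h1 (Finsupp.ext hcon)
    set m : ℕ := ((f x).1 j).natAbs + 1 with hm
    let φ : Q →+ ZMod m :=
      (Int.castAddHom (ZMod m)).comp ((Finsupp.applyAddHom j).comp
        ((AddMonoidHom.fst _ _).comp f.toAddMonoidHom))
    refine ⟨φ.ker, inferInstance, ?_⟩
    rw [AddMonoidHom.mem_ker]
    simp only [φ, AddMonoidHom.coe_comp, Function.comp_apply, Int.coe_castAddHom,
      Finsupp.applyAddHom_apply, AddMonoidHom.coe_fst, AddEquiv.coe_toAddMonoidHom]
    rw [ZMod.intCast_zmod_eq_zero_iff_dvd]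
    intro hdvd
    have := Int.natAbs_le_of_dvd_ne_zero hdvd hj
    rw [Int.natAbs_natCast] at this
    omega
  · let φ : Q →+ DirectSum ι fun i => ZMod (p i ^ e i) :=
      (AddMonoidHom.snd _ _).comp f.toAddMonoidHom
    refine ⟨φ.ker, inferInstance, ?_⟩
    rw [AddMonoidHom.mem_ker]
    exact h2

end H28VD

namespace Groth.Agent.S19169

/-- Let B be a Hausdorff, locally compact, totally disconnected topological abelian group which is
compactly generated, i.e. generated as a group by a compact subset. Then the open subgroups of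
finite index of B have trivial intersection: every nonzero b lies outside some open subgroup of
finite index. Equivalently, the natural map from B to its completion with respect to open subgroups
of finite index is injective. -/
theorem result
    {B : Type u} [AddCommGroup B] [TopologicalSpace B] [IsTopologicalAddGroup B]
    [T2Space B] [LocallyCompactSpace B] [TotallyDisconnectedSpace B]
    (hcg : ∃ K : Set B, IsCompact K ∧ AddSubgroup.closure K = ⊤) (b : B) (hb : b ≠ 0) :
    ∃ B' : AddSubgroup B, IsOpen (B' : Set B) ∧ B'.FiniteIndex ∧ b ∉ B' := by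
  classical
  obtain ⟨K, hKc, hKgen⟩ := hcg
  have hU : IsOpen ({b}ᶜ : Set B) := isOpen_compl_singleton
  have h0U : (0 : B) ∈ ({b}ᶜ : Set B) := by
    simp only [Set.mem_compl_iff, Set.mem_singleton_iff]; exact fun h => hb h.symm
  obtain ⟨s, hsc, hs0, hsU⟩ := exists_compact_subset hU h0U
  obtain ⟨C, hCclopen, hC0, hCs⟩ :=
    (loc_compact_Haus_tot_disc_of_zero_dim (H := B)).mem_nhds_iff.1
      (isOpen_interior.mem_nhds hs0)
  have hCc : IsCompact C := hsc.of_isClosed_subset hCclopen.1 (hCs.trans interior_subset)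
  obtain ⟨H, hHo, hHC⟩ := H28VD.exists_open_addSubgroup_subset hCc hCclopen.2 hC0
  have hbH : b ∉ H := fun hbH => (hsU (interior_subset (hCs (hHC hbH)))) rfl
  have hdisc : DiscreteTopology (B ⧸ H) := QuotientAddGroup.discreteTopology hHo
  have hfin : ((QuotientAddGroup.mk' H) '' K : Set (B ⧸ H)).Finite :=
    (hKc.image (continuous_quotient_mk')).finite_of_discrete
  have hfg : AddGroup.FG (B ⧸ H) := by
    rw [AddGroup.fg_def]
    refine ⟨hfin.toFinset, ?_⟩
    rw [Set.Finite.coe_toFinset, ← AddMonoidHom.map_closure, hKgen,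
      AddSubgroup.map_top_of_surjective _ (QuotientAddGroup.mk'_surjective H)]
  obtain ⟨N, hN, hbN⟩ := H28VD.exists_finiteIndex_not_mem (Q := B ⧸ H) (b : B ⧸ H) (by
    rwa [Ne, QuotientAddGroup.eq_zero_iff])
  refine ⟨N.comap (QuotientAddGroup.mk' H), ?_, ?_, ?_⟩
  · apply AddSubgroup.isOpen_mono (H₁ := H) _ hHo
    intro x hx
    rw [AddSubgroup.mem_comap, QuotientAddGroup.mk'_apply, (QuotientAddGroup.eq_zero_iff x).2 hx]
    exact N.zero_mem
  · exact ⟨by
      rw [AddSubgroup.index_comap_of_surjective _ (QuotientAddGroup.mk'_surjective H)]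
      exact hN.index_ne_zero⟩
  · simpa using hbN

end Groth.Agent.S19169
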