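import Groth.Statements.S19170
import Mathlib.GroupTheory.FiniteAbelian.Basic
import Mathlib.Topology.Compactness.Compact
-- import your own Groth.Agent.* helpers here

set_option autoImplicit false
universe u
open ProCompl

namespace Groth.Agent.S19170

/-- Let B be a topological abelian group generated as a group by a compact subset. Then every character
χ : B → ℚ/ℤ with open kernel (a continuous character for discrete ℚ/ℤ) has kernel of finite index;
consequently each such character factors through B^∧, the completion of B taken along its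
finite-index open subgroups, i.e. (B^∧)^D = B^D. (The published statement assumes moreover that B is
Hausdorff, locally compact and totally disconnected; only compact generation is needed for this
assertion, so those assumptions are dropped here.) -/
theorem result
    {B : Type u} [AddCommGroup B] [TopologicalSpace B] [IsTopologicalAddGroup B]
    (hcg : ∃ K : Set B, IsCompact K ∧ AddSubgroup.closure K = ⊤)
    (χ : B →+ ℚ ⧸ AddSubgroup.zmultiples (1 : ℚ)) (hχ : IsOpen (χ.ker : Set B)) : χ.ker.FiniteIndex := by
  classical
  obtain ⟨K, hK, hKcl⟩ := hcg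
  have hcover : K ⊆ ⋃ x ∈ K, (fun y => x + y) '' (χ.ker : Set B) := by
    intro x hx
    exact Set.mem_biUnion hx ⟨0, χ.ker.zero_mem, add_zero x⟩
  obtain ⟨t, htK, htfin, hcov⟩ := hK.elim_finite_subcover_image
    (fun x _ => (isOpenMap_add_left x) _ hχ) hcover
  have hfin : (χ '' K).Finite := by
    refine (htfin.image χ).subset ?_
    rintro _ ⟨y, hy, rfl⟩
    obtain ⟨x, hxt, hyx⟩ := Set.mem_iUnion₂.1 (hcov hy)
    obtain ⟨z, hz, rfl⟩ := hyx
    refine ⟨x, hxt, ?_⟩
    simp only [map_add]
    rw [(AddMonoidHom.mem_ker).1 hz, add_zero]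
  have hrange : χ.range = AddSubgroup.closure (χ '' K) := by
    rw [AddMonoidHom.range_eq_map, ← hKcl, AddMonoidHom.map_closure]
  have hFG : χ.range.FG := ⟨hfin.toFinset, by rw [hrange, Set.Finite.coe_toFinset]⟩
  have : AddGroup.FG χ.range := (AddGroup.fg_iff_addSubgroup_fg _).2 hFG
  have htors : IsAddTorsion χ.range := by
    rintro ⟨g, hg⟩
    obtain ⟨q, rfl⟩ := QuotientAddGroup.mk_surjective g
    rw [isOfFinAddOrder_iff_nsmul_eq_zero]
    refine ⟨q.den, q.den_pos, ?_⟩
    apply Subtype.ext
    simp only [AddSubgroup.coe_nsmul, AddSubgroup.coe_zero]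
    rw [← QuotientAddGroup.mk_nsmul, QuotientAddGroup.eq_zero_iff, AddSubgroup.mem_zmultiples_iff]
    refine ⟨q.num, ?_⟩
    rw [zsmul_eq_mul, mul_one, nsmul_eq_mul, mul_comm, Rat.mul_den_eq_num]
  have : Finite χ.range := AddCommGroup.finite_of_fg_isAddTorsion _ htors
  refine ⟨?_⟩
  rw [AddSubgroup.index_ker]
  exact Nat.card_pos.ne'

end Groth.Agent.S19170
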