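import Groth.Statements.S19182
import Mathlib.RingTheory.Smooth.StandardSmoothCotangent
import Mathlib.RingTheory.Extension.Presentation.Submersive
-- import your own Groth.Agent.* helpers here

set_option autoImplicit false
universe u
open CAlg

namespace Groth.Agent.S19182

open MvPolynomial in
lemma smooth_of_unit_pderiv (R : Type u) [CommRing R] (g : MvPolynomial (Fin 2) R) (i : Fin 2)
    (w : MvPolynomial (Fin 2) R) (h : pderiv i g * w - 1 ∈ Ideal.span {g}) :
    Algebra.Smooth R (MvPolynomial (Fin 2) R ⧸ Ideal.span {g}) := by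
  let v : Unit → MvPolynomial (Fin 2) R := fun _ => g
  have hv : Ideal.span (Set.range v) = Ideal.span {g} := by simp [v, Set.range_const]
  let P := Algebra.PreSubmersivePresentation.naive (v := v) (fun _ => i) (fun _ _ _ => rfl)
  have hP : IsUnit P.jacobian := by
    rw [P.jacobian_eq_jacobiMatrix_det, Matrix.det_unique]
    have hjm : P.jacobiMatrix default default = pderiv i g :=
      Algebra.PreSubmersivePresentation.jacobiMatrix_naive _ _ _ _ () ()
    rw [hjm]
    apply IsUnit.of_mul_eq_one (Ideal.Quotient.mk _ w)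
    show Ideal.Quotient.mk _ (pderiv i g) * Ideal.Quotient.mk _ w = 1
    rw [← map_mul, ← map_one (Ideal.Quotient.mk _), Ideal.Quotient.eq, hv]
    exact h
  let Q : Algebra.SubmersivePresentation R _ (Fin 2) Unit := { P with jacobian_isUnit := hP }
  have := Q.isStandardSmooth
  have : Algebra.IsStandardSmooth R (MvPolynomial (Fin 2) R ⧸ Ideal.span {g}) :=
    Algebra.IsStandardSmooth.of_algEquiv (Ideal.quotientEquivAlgOfEq R hv)
  infer_instance


open MvPolynomial in
/-- Let R be a commutative ring and a₁, a₂ ∈ R. The two affine charts of the blow-up of the plane curve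
y² + a₁xy = x³ + a₂x² at the section x = y = 0, with coordinate rings R[y, α]/(1 + a₁α − yα³ − a₂α²)
and R[x, β]/(β² + a₁β − x − a₂) (variables indexed 0 and 1 in this order), are smooth R-algebras
(formally smooth of finite presentation). This is the local computation behind the statement that
the blow-up of a Weierstrass curve along a section through its singular locus is a smooth proper
curve of genus 0. -/
theorem result (R : Type u) [CommRing R] (a₁ a₂ : R) :
    Algebra.Smooth R (MvPolynomial (Fin 2) R ⧸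
      Ideal.span ({1 + C a₁ * X 1 - X 0 * X 1 ^ 3 - C a₂ * X 1 ^ 2} : Set (MvPolynomial (Fin 2) R))) ∧
    Algebra.Smooth R (MvPolynomial (Fin 2) R ⧸
      Ideal.span ({X 1 ^ 2 + C a₁ * X 1 - X 0 - C a₂} : Set (MvPolynomial (Fin 2) R))) := by
  constructor
  · apply smooth_of_unit_pderiv R _ 0 (-(X 0 * X 1 ^ 2 + C a₂ * X 1 - C a₁) ^ 3)
    have hd : pderiv (0 : Fin 2) (1 + C a₁ * X 1 - X 0 * X 1 ^ 3 - C a₂ * X 1 ^ 2 : MvPolynomial (Fin 2) R) =
        -(X 1 ^ 3) := by
      simp [pderiv_X]
    rw [hd, Ideal.mem_span_singleton']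
    refine ⟨-3 + 3 * (1 + C a₁ * X 1 - X 0 * X 1 ^ 3 - C a₂ * X 1 ^ 2) -
      (1 + C a₁ * X 1 - X 0 * X 1 ^ 3 - C a₂ * X 1 ^ 2) ^ 2, ?_⟩
    ring
  · apply smooth_of_unit_pderiv R _ 0 (-1)
    have hd : pderiv (0 : Fin 2) (X 1 ^ 2 + C a₁ * X 1 - X 0 - C a₂ : MvPolynomial (Fin 2) R) = -1 := by
      simp [pderiv_X]
    rw [hd]
    simp

end Groth.Agent.S19182
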