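import Groth.Statements.S19183
import Mathlib.Tactic.Ring
import Mathlib.LinearAlgebra.LinearIndependent.Lemmas
import Mathlib.LinearAlgebra.Dimension.Free
import Mathlib.LinearAlgebra.FreeModule.StrongRankCondition
-- import your own Groth.Agent.* helpers here

set_option autoImplicit false
universe u
open CAlg

namespace Groth.Agent.S19183

/-- Let A be a non-zero commutative ring and f ∈ A a non-zero-divisor. The fibre product A ×_{A/(f)} A
of two copies of A over A/(f) — the A-submodule of A × A of pairs (x, y) with x − y ∈ (f), which is
the coordinate ring of two copies of Spec A glued along the Cartier divisor f = 0 — is a free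
A-module of rank 2. (This is what makes the gluing of two copies of a curve along an effective
Cartier divisor finite locally free of degree 2 over the curve.) -/
theorem result (A : Type u) [CommRing A] [Nontrivial A]
    (f : A) (hf : f ∈ nonZeroDivisors A) :
    Module.Free A (Submodule.comap (LinearMap.fst A A A - LinearMap.snd A A A) (Ideal.span ({f} : Set A))) ∧
      Module.finrank A (Submodule.comap (LinearMap.fst A A A - LinearMap.snd A A A) (Ideal.span ({f} : Set A))) = 2 := by
  classical
  set W := Submodule.comap (LinearMap.fst A A A - LinearMap.snd A A A) (Ideal.span ({f} : Set A))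
    with hW
  have hmem : ∀ x y : A, (x, y) ∈ W ↔ f ∣ x - y := by
    intro x y
    rw [hW, Submodule.mem_comap, LinearMap.sub_apply, LinearMap.fst_apply, LinearMap.snd_apply,
      Ideal.mem_span_singleton]
  let e1 : W := ⟨(1, 1), (hmem 1 1).2 (by simp)⟩
  let e2 : W := ⟨(f, 0), (hmem f 0).2 (by simp)⟩
  have hli : LinearIndependent A ![e1, e2] := by
    rw [LinearIndependent.pair_iff]
    intro s t hst
    have h1 := congrArg (fun w : W => (w : A × A).1) hst
    have h2 := congrArg (fun w : W => (w : A × A).2) hst
    simp [e1, e2] at h1 h2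
    subst h2
    simp at h1
    refine ⟨rfl, ?_⟩
    exact (mem_nonZeroDivisors_iff.1 hf).2 t h1
  have hsp : ⊤ ≤ Submodule.span A (Set.range ![e1, e2]) := by
    rintro ⟨⟨x, y⟩, hxy⟩ -
    obtain ⟨c, hc⟩ := (hmem x y).1 hxy
    have : (⟨(x, y), hxy⟩ : W) = y • e1 + c • e2 := by
      apply Subtype.ext
      simp only [e1, e2, Submodule.coe_add, Submodule.coe_smul, Prod.smul_mk, smul_eq_mul,
        mul_one, mul_zero, Prod.mk_add_mk, add_zero]
      refine Prod.ext ?_ rfl
      show x = y + c * f
      rw [mul_comm, ← hc]; ring
    rw [this]
    apply Submodule.add_mem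
    · exact Submodule.smul_mem _ _ (Submodule.subset_span ⟨0, rfl⟩)
    · exact Submodule.smul_mem _ _ (Submodule.subset_span ⟨1, rfl⟩)
  let b := Module.Basis.mk hli hsp
  refine ⟨Module.Free.of_basis b, ?_⟩
  rw [Module.finrank_eq_card_basis b, Fintype.card_fin]

end Groth.Agent.S19183
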