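import Groth.Statements.S19186
import Mathlib.Data.Int.GCD
import Mathlib.Tactic.Abel
-- import your own Groth.Agent.* helpers here

set_option autoImplicit false
universe u
open OneMot

namespace Groth.Agent.S19186

/-- Let p and ℓ be distinct prime numbers, r and n natural numbers, and f : A → B a homomorphism of
abelian groups whose kernel and cokernel are annihilated by p^r (f a = 0 implies p^r • a = 0, and
every p^r • b lies in the image of f). Then f induces a bijection between the ℓ^n-torsion subgroups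
of A and B and a bijection A/ℓ^n A → B/ℓ^n B. Spelled out without quotients: every ℓ^n-torsion
element of B has exactly one ℓ^n-torsion preimage; an element of A whose image is an ℓ^n-multiple is
itself an ℓ^n-multiple; and every element of B is the sum of an image and an ℓ^n-multiple. -/
theorem result {A B : Type u} [AddCommGroup A] [AddCommGroup B] (f : A →+ B) (p ℓ r n : ℕ) (hp : p.Prime) (hl : ℓ.Prime) (hne : ℓ ≠ p) (hker : ∀ a : A, f a = 0 → p ^ r • a = 0) (hcoker : ∀ b : B, ∃ a : A, f a = p ^ r • b) : (∀ b : B, ℓ ^ n • b = 0 → ∃! a : A, ℓ ^ n • a = 0 ∧ f a = b) ∧ (∀ a : A, (∃ b' : B, f a = ℓ ^ n • b') → ∃ a' : A, a = ℓ ^ n • a') ∧ (∀ b : B, ∃ (a : A) (b' : B), b = f a + ℓ ^ n • b') := by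
  set q := p ^ r with hq
  set m := ℓ ^ n with hm
  have hcop : Nat.Coprime q m := Nat.Coprime.pow r n ((Nat.coprime_primes hp hl).2 hne.symm)
  have hb : (q : ℤ) * Nat.gcdA q m + (m : ℤ) * Nat.gcdB q m = 1 := by
    rw [← Nat.gcd_eq_gcd_ab, hcop.gcd_eq_one, Nat.cast_one]
  set u := Nat.gcdA q m with hu
  set v := Nat.gcdB q m with hv
  have decA : ∀ x : A, x = u • (q • x) + v • (m • x) := by
    intro x
    have : ((q : ℤ) * u + (m : ℤ) * v) • x = x := by rw [hb, one_smul]
    rw [add_smul, mul_comm (q : ℤ) u, mul_comm (m : ℤ) v, mul_smul, mul_smul, natCast_zsmul,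
      natCast_zsmul] at this
    exact this.symm
  have decB : ∀ x : B, x = u • (q • x) + v • (m • x) := by
    intro x
    have : ((q : ℤ) * u + (m : ℤ) * v) • x = x := by rw [hb, one_smul]
    rw [add_smul, mul_comm (q : ℤ) u, mul_comm (m : ℤ) v, mul_smul, mul_smul, natCast_zsmul,
      natCast_zsmul] at this
    exact this.symm
  have commA : ∀ (c : ℕ) (z : ℤ) (x : A), c • (z • x) = z • (c • x) := by
    intro c z x
    rw [← natCast_zsmul, ← natCast_zsmul, smul_smul, smul_smul, mul_comm]
  have commB : ∀ (c : ℕ) (z : ℤ) (x : B), c • (z • x) = z • (c • x) := by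
    intro c z x
    rw [← natCast_zsmul, ← natCast_zsmul, smul_smul, smul_smul, mul_comm]
  have commNA : ∀ (c d : ℕ) (x : A), c • (d • x) = d • (c • x) := by
    intro c d x
    rw [smul_smul, smul_smul, mul_comm]
  have commNB : ∀ (c d : ℕ) (x : B), c • (d • x) = d • (c • x) := by
    intro c d x
    rw [smul_smul, smul_smul, mul_comm]
  refine ⟨?_, ?_, ?_⟩
  · intro b hmb
    obtain ⟨a₀, ha₀⟩ := hcoker b
    have hbq : u • (q • b) = b := by
      conv_rhs => rw [decB b]
      rw [hmb, smul_zero, add_zero]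
    set a' := u • a₀ with ha'
    have hfa' : f a' = b := by rw [ha', map_zsmul, ha₀, hbq]
    have hfma' : f (m • a') = 0 := by rw [map_nsmul, hfa', hmb]
    have hqma' : q • (m • a') = 0 := hker _ hfma'
    refine ⟨u • (q • a'), ⟨?_, ?_⟩, ?_⟩
    · rw [commA, commNA, hqma', smul_zero]
    · rw [map_zsmul, map_nsmul, hfa', hbq]
    · rintro a₂ ⟨hma₂, hfa₂⟩
      have hd1 : m • (a₂ - u • (q • a')) = 0 := by
        rw [smul_sub, hma₂, commA, commNA, hqma', smul_zero, sub_zero]
      have hd2 : f (a₂ - u • (q • a')) = 0 := by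
        rw [map_sub, hfa₂, map_zsmul, map_nsmul, hfa', hbq, sub_self]
      have hd3 : q • (a₂ - u • (q • a')) = 0 := hker _ hd2
      have := decA (a₂ - u • (q • a'))
      rw [hd1, hd3, smul_zero, smul_zero, add_zero] at this
      exact sub_eq_zero.1 this
  · rintro a ⟨b', hb'⟩
    obtain ⟨a₁, ha₁⟩ := hcoker b'
    set k := q • a - m • a₁ with hk
    have hfk : f k = 0 := by
      rw [hk, map_sub, map_nsmul, map_nsmul, hb', ha₁, commNB, sub_self]
    have hqk : q • k = 0 := hker k hfk
    have hk' : k = m • (v • k) := by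
      conv_lhs => rw [decA k]
      rw [hqk, smul_zero, zero_add, commA]
    have hqa : q • a = m • (a₁ + v • k) := by
      rw [smul_add, ← hk', hk]
      abel
    refine ⟨u • (a₁ + v • k) + v • a, ?_⟩
    conv_lhs => rw [decA a]
    rw [hqa, ← commA m u, ← commA m v, ← smul_add]
  · intro b
    obtain ⟨a₀, ha₀⟩ := hcoker b
    refine ⟨u • a₀, v • b, ?_⟩
    rw [map_zsmul, ha₀, commB]
    exact decB b

end Groth.Agent.S19186
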