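import Groth.Statements.S19374
-- import your own Groth.Agent.* helpers here

set_option autoImplicit false
universe u
open CategoryTheory Opposite Instab
open Instab Instab.Fan

namespace Groth.Agent.S19374

theorem realMap_id' (n : ICone) (v : Fin n.dim → ℝ) : (𝟙 n : n ⟶ n).realMap v = v := by
  funext j
  simp only [ICone.Hom.realMap]
  have : ∀ i, ((𝟙 n : n ⟶ n).toLin (Pi.single i 1) j : ℝ) = if j = i then 1 else 0 := by
    intro i
    change ((Pi.single i (1 : ℤ) : Fin n.dim → ℤ) j : ℝ) = _
    by_cases h : j = i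
    · subst h; simp
    · simp [Pi.single_apply, h]
  simp only [this, ite_mul, one_mul, zero_mul]
  simp

theorem mk_smul' {F : Fan.{u}} {n : ICone} (ξ : F.obj (op n)) (v w : Orth n) (c : ℝ)
    (hc : 0 < c) (h : w.1 = c • v.1) : P.mk ξ w = P.mk ξ v := by
  have hr := Rel.glue (F := F) (𝟙 n) ξ v w c hc (by rw [realMap_id']; exact h)
  have e : F.map (𝟙 n).op ξ = ξ := by simp
  rw [e] at hr
  exact (Quot.sound hr).symm

/-- Let F be a formal fan and U ⊆ P F. Then U is locally convex in the simplex-wise sense — for every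
rational simplex, a ray lying strictly between two rays that map into U also maps into U — if and
only if, for every n-cone ξ of F, the set of nonzero nonnegative vectors v of ℝ^n whose point of the
rational simplex of ξ lies in U is a convex subset of ℝ^n (convexity of the preimage of U in each
punctured cone of the affine realization). -/
theorem result (F : Fan.{u}) (U : Set (Fan.P F)) :
    Fan.IsLocallyConvex U ↔
      ∀ (n : ICone) (ξ : F.obj (op n)),
        Convex ℝ {v : Fin n.dim → ℝ | ∃ h : (∀ i, 0 ≤ v i) ∧ v ≠ 0, Fan.P.mk ξ (⟨v, h⟩ : Fan.Orth n) ∈ U} := by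
  constructor
  · intro hU n ξ
    intro v0 hv0 v2 hv2 a b ha hb hab
    obtain ⟨h0, hm0⟩ := hv0
    obtain ⟨h2, hm2⟩ := hv2
    rcases ha.eq_or_lt with ha0 | ha0
    · subst ha0
      have hb1 : b = 1 := by linarith
      subst hb1
      simpa using ⟨h2, hm2⟩
    rcases hb.eq_or_lt with hb0 | hb0
    · subst hb0
      have ha1 : a = 1 := by linarith
      subst ha1
      simpa using ⟨h0, hm0⟩
    have hnn : ∀ i, 0 ≤ (a • v0 + b • v2) i := by
      intro i
      simp only [Pi.add_apply, Pi.smul_apply, smul_eq_mul]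
      exact add_nonneg (mul_nonneg ha (h0.1 i)) (mul_nonneg hb (h2.1 i))
    have hne : a • v0 + b • v2 ≠ 0 := by
      intro hz
      apply h0.2
      funext i
      have hi := congr_fun hz i
      simp only [Pi.add_apply, Pi.smul_apply, smul_eq_mul, Pi.zero_apply] at hi
      have h1 := mul_nonneg ha (h0.1 i)
      have h2' := mul_nonneg hb (h2.1 i)
      have : a * v0 i = 0 := by linarith
      simpa [ha0.ne'] using this
    refine ⟨⟨hnn, hne⟩, ?_⟩
    exact hU n ξ ⟨v0, h0⟩ ⟨a • v0 + b • v2, hnn, hne⟩ ⟨v2, h2⟩ hm0 hm2 ⟨a, b, ha0, hb0, rfl⟩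
  · intro hC n ξ v0 v1 v2 hm0 hm2 ⟨a, b, ha, hb, hv1⟩
    have hab : 0 < a + b := add_pos ha hb
    have hconv := hC n ξ (x := v0.1) ⟨v0.2, hm0⟩ (y := v2.1) ⟨v2.2, hm2⟩
      (a := a / (a + b)) (b := b / (a + b)) (div_nonneg ha.le hab.le) (div_nonneg hb.le hab.le)
      (by field_simp)
    obtain ⟨hw, hmw⟩ := hconv
    have heq : P.mk ξ v1 = P.mk ξ ⟨_, hw⟩ := by
      apply mk_smul' ξ ⟨_, hw⟩ v1 (a + b) hab
      rw [hv1]
      simp only [smul_add, smul_smul]
      congr 1 <;> congr 1 <;> field_simp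
    rw [heq]
    exact hmw

end Groth.Agent.S19374
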