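import Groth.Statements.S19380
-- import your own Groth.Agent.* helpers here

set_option autoImplicit false
universe u
open CAlg

namespace Groth.Agent.S19380

open Polynomial in
theorem charpolyRev_map' {n : Type*} [Fintype n] [DecidableEq n] {R S : Type*} [CommRing R]
    [CommRing S] (M : Matrix n n R) (f : R →+* S) :
    (M.map f).charpolyRev = M.charpolyRev.map f := by
  unfold Matrix.charpolyRev
  rw [← Polynomial.coe_mapRingHom, RingHom.map_det, RingHom.mapMatrix_apply]
  congr 1
  ext i j
  by_cases h : i = j
  · subst h; simp
  · simp [h]

open Polynomial in
theorem charpolyRev_mul_comm' {n : Type*} [Fintype n] [DecidableEq n] {R : Type*} [CommRing R]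
    (A B : Matrix n n R) : (A * B).charpolyRev = (B * A).charpolyRev := by
  unfold Matrix.charpolyRev
  have h1 : (X : R[X]) • (A * B).map C = ((X : R[X]) • A.map C) * B.map C := by
    rw [Matrix.map_mul, Matrix.smul_mul]
  have h2 : (X : R[X]) • (B * A).map C = B.map C * ((X : R[X]) • A.map C) := by
    rw [Matrix.map_mul, Matrix.mul_smul]
  rw [h1, h2, Matrix.det_one_sub_mul_comm]

/-- Let L be a commutative ring, σ a ring automorphism of L of finite order dividing d (σ^d = 1), and C
an r × r matrix over L. The reverse characteristic polynomial det(1 − T·N) of the twisted product N
= C·σ(C)·σ²(C)⋯σ^(d−1)(C), with σ applied to the entries, is fixed by σ acting on coefficients. (In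
the source this is phrased for the fibre at a closed point x of degree d of a convergent F-module
with Frobenius matrix C: the d-th iterate of the semilinear Frobenius of the fibre is the linear map
with matrix N, so its characteristic polynomial has coefficients in the subfield fixed by the
Frobenius of K(x), namely K, and likewise with the valuation ring in place of K for an integral
F-module; only this linear-algebra statement, over any commutative ring, is given here.) -/
theorem result
    (L : Type u) [CommRing L] (σ : L ≃+* L) (d : ℕ) (hσ : σ ^ d = 1)
    (r : ℕ) (C : Matrix (Fin r) (Fin r) L) :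
    (Matrix.charpolyRev (((List.range d).map fun i => C.map ⇑(σ ^ i)).prod)).map (σ : L →+* L) =
      Matrix.charpolyRev (((List.range d).map fun i => C.map ⇑(σ ^ i)).prod) := by
  rcases d with _ | n
  · simp only [List.range_zero, List.map_nil, List.prod_nil]
    rw [← charpolyRev_map', Matrix.map_one _ (map_zero _) (map_one _)]
  · set f : ℕ → Matrix (Fin r) (Fin r) L := fun i => C.map ⇑(σ ^ i) with hf
    have hA : ((List.range (n+1)).map f).prod = C * ((List.range n).map fun i => f (i+1)).prod := by
      rw [List.range_succ_eq_map, List.map_cons, List.prod_cons, List.map_map]
      congr 1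
    have hmap : ∀ i, (f i).map (σ : L →+* L) = f (i + 1) := by
      intro i
      simp only [f, Matrix.map_map]
      congr 1
      funext x
      simp only [Function.comp_apply]
      rw [pow_succ']
      rfl
    have hB : (((List.range (n+1)).map f).prod).map (σ : L →+* L) =
        ((List.range n).map fun i => f (i+1)).prod * C := by
      have : (((List.range (n+1)).map f).prod).map (σ : L →+* L) =
          (σ : L →+* L).mapMatrix (((List.range (n+1)).map f).prod) := rfl
      rw [this, map_list_prod, List.map_map]
      have h2 : ((σ : L →+* L).mapMatrix ∘ f) = fun i => f (i + 1) := by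
        funext i; exact hmap i
      rw [h2, List.range_succ, List.map_append, List.prod_append]
      simp only [List.map_cons, List.map_nil, List.prod_cons, List.prod_nil, mul_one]
      congr 1
      show C.map ⇑(σ ^ (n+1)) = C
      rw [hσ]
      rfl
    rw [← charpolyRev_map', hB, hA, charpolyRev_mul_comm']

end Groth.Agent.S19380
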