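import Groth.Statements.S19383
-- import your own Groth.Agent.* helpers here
import Mathlib

set_option autoImplicit false
universe u
open CAlg

namespace Groth.Agent.S19383

/-- Over a discrete valuation ring, let V be a henselian discrete valuation ring with maximal ideal 𝔪
and B a Noetherian V-algebra, B̂ its 𝔪B-adic completion. Then B is flat over V if and only if B̂ is
flat over V. (The published lemma takes V an excellent normal ring with an ideal I such that (V,
V/I) is a henselian pair and B of finite type; in that generality it fails: for V = ℤ_p[[x]], I =
(p) and B = V[y]/(x, py − 1) ≅ ℚ_p one has IB = B, so B̂ = 0 is flat while B is not flat over V.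
Over a discrete valuation ring flatness is torsion-freeness and the statement holds for every
Noetherian B.) -/
theorem result
    (V : Type u) [CommRing V] [IsDomain V] [IsDiscreteValuationRing V] [HenselianLocalRing V]
    (B : Type u) [CommRing B] [Algebra V B] [IsNoetherianRing B] :
    Module.Flat V B ↔
      Module.Flat V (AdicCompletion ((IsLocalRing.maximalIdeal V).map (algebraMap V B)) B) := by
  set I := (IsLocalRing.maximalIdeal V).map (algebraMap V B) with hI
  constructor
  · intro hB
    exact Module.Flat.trans V B (AdicCompletion I B)
  · intro hB
    have hTF : Module.IsTorsionFree V (AdicCompletion I B) := inferInstance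
    obtain ⟨ϖ, hϖ⟩ := IsDiscreteValuationRing.exists_irreducible V
    have hIspan : I = Ideal.span {algebraMap V B ϖ} := by
      rw [hI, hϖ.maximalIdeal_eq, Ideal.map_span, Set.image_singleton]
    have key : ∀ b : B, ∀ r : V, r ≠ 0 → r • b = 0 → b = 0 := by
      intro b r hr hrb
      have h1 : AdicCompletion.of I B b = 0 := by
        have : r • AdicCompletion.of I B b = 0 := by
          rw [← LinearMap.map_smul_of_tower, hrb, map_zero]
        exact (smul_eq_zero_iff_right hr).mp this
      have h2 : b ∈ (⨅ i : ℕ, I ^ i • ⊤ : Submodule B B) := by
        rw [Submodule.mem_iInf]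
        intro n
        have := congrArg (fun x => x.1 n) h1
        simp only [AdicCompletion.of_apply, AdicCompletion.val_zero_apply] at this
        exact (Submodule.Quotient.mk_eq_zero _).mp this
      obtain ⟨⟨x, hx⟩, hxb⟩ := (I.mem_iInf_smul_pow_eq_bot_iff b).mp h2
      simp only [smul_eq_mul] at hxb
      rw [hIspan, Ideal.mem_span_singleton'] at hx
      obtain ⟨c, rfl⟩ := hx
      obtain ⟨k, u, rfl⟩ := IsDiscreteValuationRing.eq_unit_mul_pow_irreducible hr hϖ
      have hpow : ∀ n : ℕ, (c * algebraMap V B ϖ) ^ n * b = b := by
        intro n
        induction n with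
        | zero => simp
        | succ n ih => rw [pow_succ, mul_assoc, hxb, ih]
      have hk : algebraMap V B ϖ ^ k * b = 0 := by
        have h' : (↑u⁻¹ : V) • (((u : V) * ϖ ^ k) • b) = 0 := by rw [hrb, smul_zero]
        rw [smul_smul, ← mul_assoc, Units.inv_mul, one_mul, Algebra.smul_def, map_pow] at h'
        exact h'
      rw [← hpow k, mul_pow, mul_assoc, hk, mul_zero]
    have : Module.IsTorsionFree V B := by
      constructor
      intro r hr b₁ b₂ hb
      have hr0 : r ≠ 0 := hr.ne_zero
      have := key (b₁ - b₂) r hr0 (by simp only [smul_sub]; exact sub_eq_zero.mpr hb)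
      exact sub_eq_zero.mp this
    infer_instance

end Groth.Agent.S19383
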