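import Groth.Statements.S19399
-- import your own Groth.Agent.* helpers here
import Mathlib.Tactic.LinearCombination
import Mathlib.Tactic.FieldSimp

set_option autoImplicit false
universe u
open Curves

namespace Groth.Agent.S19399

/-- Over a field of characteristic different from 2 and 3, the invariant j(λ) = 256 (λ² − λ + 1)³ / (λ²
(λ − 1)²) of the cubic Y²Z = X(X − Z)(X − λZ), λ ≠ 0, 1, takes the same value at λ and μ exactly
when μ is one of the six values λ, 1 − λ, 1/λ, (λ − 1)/λ, λ/(λ − 1), 1/(1 − λ) obtained by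
reordering the branch points. This is the step, in the proof of the published corollary (over an
algebraically closed field, j gives a bijection between the isomorphism classes of elliptic curves
and the elements of the field), that identifies the fibres of λ ↦ j(λ) on the complement of {0, 1};
the bijection itself is not stated here. -/
theorem result (k : Type u) [Field k] (h2 : (2 : k) ≠ 0) (h3 : (3 : k) ≠ 0)
    (s t : k) (hs0 : s ≠ 0) (hs1 : s ≠ 1) (ht0 : t ≠ 0) (ht1 : t ≠ 1) :
    256 * (s ^ 2 - s + 1) ^ 3 / (s ^ 2 * (s - 1) ^ 2) = 256 * (t ^ 2 - t + 1) ^ 3 / (t ^ 2 * (t - 1) ^ 2) ↔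
      (t = s ∨ t = 1 - s ∨ t = 1 / s ∨ t = (s - 1) / s ∨ t = s / (s - 1) ∨ t = 1 / (1 - s)) := by
  have hs1' : s - 1 ≠ 0 := sub_ne_zero.mpr hs1
  have ht1' : t - 1 ≠ 0 := sub_ne_zero.mpr ht1
  have hs1'' : 1 - s ≠ 0 := sub_ne_zero.mpr (Ne.symm hs1)
  have hden_s : s ^ 2 * (s - 1) ^ 2 ≠ 0 := mul_ne_zero (pow_ne_zero _ hs0) (pow_ne_zero _ hs1')
  have hden_t : t ^ 2 * (t - 1) ^ 2 ≠ 0 := mul_ne_zero (pow_ne_zero _ ht0) (pow_ne_zero _ ht1')
  have h256 : (256 : k) ≠ 0 := by
    have : (256 : k) = 2 ^ 8 := by norm_num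
    rw [this]; exact pow_ne_zero _ h2
  have key : 256 * (s ^ 2 - s + 1) ^ 3 / (s ^ 2 * (s - 1) ^ 2) =
      256 * (t ^ 2 - t + 1) ^ 3 / (t ^ 2 * (t - 1) ^ 2) ↔
      (t - s) * (t - 1 + s) * (s * t - 1) * (s * t - s + 1) * ((s - 1) * t - s) *
        ((1 - s) * t - 1) = 0 := by
    rw [div_eq_div_iff hden_s hden_t]
    constructor
    · intro h
      have h' : 256 * ((t - s) * (t - 1 + s) * (s * t - 1) * (s * t - s + 1) * ((s - 1) * t - s) *
          ((1 - s) * t - 1)) = 0 := by linear_combination h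
      exact (mul_eq_zero.mp h').resolve_left h256
    · intro h
      linear_combination 256 * h
  rw [key]
  have e1 : t - s = 0 ↔ t = s := sub_eq_zero
  have e2 : t - 1 + s = 0 ↔ t = 1 - s := by
    constructor <;> intro h <;> linear_combination h
  have e3 : s * t - 1 = 0 ↔ t = 1 / s := by
    rw [eq_div_iff hs0]; constructor <;> intro h <;> linear_combination h
  have e4 : s * t - s + 1 = 0 ↔ t = (s - 1) / s := by
    rw [eq_div_iff hs0]; constructor <;> intro h <;> linear_combination h
  have e5 : (s - 1) * t - s = 0 ↔ t = s / (s - 1) := by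
    rw [eq_div_iff hs1']; constructor <;> intro h <;> linear_combination h
  have e6 : (1 - s) * t - 1 = 0 ↔ t = 1 / (1 - s) := by
    rw [eq_div_iff hs1'']; constructor <;> intro h <;> linear_combination h
  simp only [mul_eq_zero]
  rw [e1, e2, e3, e4, e5, e6]
  simp only [or_assoc]

end Groth.Agent.S19399
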