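import Groth.Statements.S19427
-- import your own Groth.Agent.* helpers here

set_option autoImplicit false
universe u
open MilnorK

namespace Groth.Agent.S19427

section Helper

variable {F : Type u} [Field F]

lemma sym_mul_left (b₁ b₂ c : Fˣ) :
    (MilK.symbol ![b₁ * b₂, c] : MilK.K F 2) = MilK.symbol ![b₁, c] + MilK.symbol ![b₂, c] := by
  simp only [MilK.symbol]
  rw [← map_add]
  congr 1
  have h := (PiTensorProduct.tprod ℤ (s := fun _ : Fin 2 => Additive Fˣ)).map_update_add
    (fun i => Additive.ofMul (![b₁, c] i)) 0 (Additive.ofMul b₁) (Additive.ofMul b₂)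
  have e0 : (fun i => Additive.ofMul (![b₁ * b₂, c] i)) =
      Function.update (fun i => Additive.ofMul (![b₁, c] i)) 0 (Additive.ofMul b₁ + Additive.ofMul b₂) := by
    funext i; fin_cases i <;> rfl
  rw [e0, h]
  congr 1 <;> (congr 1; funext i; fin_cases i <;> rfl)

lemma sym_mul_right (b c₁ c₂ : Fˣ) :
    (MilK.symbol ![b, c₁ * c₂] : MilK.K F 2) = MilK.symbol ![b, c₁] + MilK.symbol ![b, c₂] := by
  simp only [MilK.symbol]
  rw [← map_add]
  congr 1
  have h := (PiTensorProduct.tprod ℤ (s := fun _ : Fin 2 => Additive Fˣ)).map_update_add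
    (fun i => Additive.ofMul (![b, c₁] i)) 1 (Additive.ofMul c₁) (Additive.ofMul c₂)
  have e0 : (fun i => Additive.ofMul (![b, c₁ * c₂] i)) =
      Function.update (fun i => Additive.ofMul (![b, c₁] i)) 1 (Additive.ofMul c₁ + Additive.ofMul c₂) := by
    funext i; fin_cases i <;> rfl
  rw [e0, h]
  congr 1 <;> (congr 1; funext i; fin_cases i <;> rfl)

lemma sym_one_left (c : Fˣ) : (MilK.symbol ![1, c] : MilK.K F 2) = 0 := by
  have h := sym_mul_left (1 : Fˣ) 1 c
  rw [mul_one] at h
  exact (add_eq_left.mp h.symm)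

lemma sym_one_right (b : Fˣ) : (MilK.symbol ![b, 1] : MilK.K F 2) = 0 := by
  have h := sym_mul_right b (1 : Fˣ) 1
  rw [mul_one] at h
  exact (add_eq_left.mp h.symm)

lemma sym_inv_left (b c : Fˣ) : (MilK.symbol ![b⁻¹, c] : MilK.K F 2) = -MilK.symbol ![b, c] := by
  have h := sym_mul_left b⁻¹ b c
  rw [inv_mul_cancel, sym_one_left] at h
  exact eq_neg_of_add_eq_zero_left h.symm

lemma sym_inv_right (b c : Fˣ) : (MilK.symbol ![b, c⁻¹] : MilK.K F 2) = -MilK.symbol ![b, c] := by
  have h := sym_mul_right b c⁻¹ c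
  rw [inv_mul_cancel, sym_one_right] at h
  exact eq_neg_of_add_eq_zero_left h.symm

lemma sym_steinberg (a b : Fˣ) (h : (a : F) + (b : F) = 1) : (MilK.symbol ![a, b] : MilK.K F 2) = 0 :=
  MilK.symbol_eq_zero_of_isSteinberg _ ⟨0, 1, by decide, by simpa using h⟩

lemma sym_neg_self (x : Fˣ) : (MilK.symbol ![x, -x] : MilK.K F 2) = 0 := by
  by_cases hx : x = 1
  · subst hx; exact sym_one_left _
  have h1 : (1 : F) - (x : F) ≠ 0 := by
    intro h; apply hx; ext; simp only [Units.val_one]; linear_combination -h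
  have h2 : (1 : F) - ((x⁻¹ : Fˣ) : F) ≠ 0 := by
    intro h; apply hx
    have : ((x⁻¹ : Fˣ) : F) = 1 := by linear_combination -h
    have h3 : (x⁻¹ : Fˣ) = 1 := Units.ext this
    simpa using h3
  let u : Fˣ := Units.mk0 _ h1
  let w : Fˣ := Units.mk0 _ h2
  have hneg : -x = u * w⁻¹ := by
    apply Units.ext
    simp only [Units.val_neg, Units.val_mul, u, w, Units.val_mk0, Units.val_inv_eq_inv_val]
    have hx0 : (x : F) ≠ 0 := x.ne_zero
    have hx1 : (x : F) - 1 ≠ 0 := by intro h; apply h1; linear_combination -h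
    field_simp
    ring
  rw [hneg, sym_mul_right, sym_inv_right]
  have e1 : (MilK.symbol ![x, u] : MilK.K F 2) = 0 := sym_steinberg x u (by simp [u])
  have e2 : (MilK.symbol ![x⁻¹, w] : MilK.K F 2) = 0 := sym_steinberg x⁻¹ w (by simp [w])
  rw [sym_inv_left] at e2
  rw [e1, neg_eq_zero.mp e2]
  simp

lemma sym_antisymm (x y : Fˣ) :
    (MilK.symbol ![x, y] : MilK.K F 2) + MilK.symbol ![y, x] = 0 := by
  have h := sym_neg_self (x * y)
  have e1 : -(x * y) = (-x) * y := by rw [neg_mul]
  have e2 : -(x * y) = x * (-y) := by rw [mul_neg]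
  rw [sym_mul_left] at h
  have h3 : (MilK.symbol ![x, -(x * y)] : MilK.K F 2) = MilK.symbol ![x, y] := by
    rw [e1, sym_mul_right, sym_neg_self, zero_add]
  have h4 : (MilK.symbol ![y, -(x * y)] : MilK.K F 2) = MilK.symbol ![y, x] := by
    rw [e2, sym_mul_right, sym_neg_self, add_zero]
  rw [h3, h4] at h
  exact h

end Helper

/-- For a field F and nonzero b, c with b + c ≠ 0, in the Milnor K-group K_2(F) one has {b, c} + {b + c,
-b/c} = 0, that is {b, c} = -{b + c, -b/c} = {b + c, -c/b}. (The identity as displayed in the source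
is {b, c} = {b + c, -b/c}, which differs from this by a sign and fails in general: for b = 3, c = 5
over the rationals the tame symbol at 5 takes the values 3 and 1/3 on the two sides; the
accompanying derivation from the Steinberg relation b/(b+c) + c/(b+c) = 1 gives exactly the identity
stated here.) -/
theorem result (F : Type u) [Field F] (b c : Fˣ)
    (h : (b : F) + (c : F) ≠ 0) :
    (MilK.symbol ![b, c] : MilK.K F 2) + MilK.symbol ![Units.mk0 ((b : F) + (c : F)) h, -(b / c)] = 0 := by
  set s : Fˣ := Units.mk0 ((b : F) + (c : F)) h with hs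
  have hst : (MilK.symbol ![b * s⁻¹, c * s⁻¹] : MilK.K F 2) = 0 := by
    apply sym_steinberg
    simp only [Units.val_mul, Units.val_inv_eq_inv_val, hs, Units.val_mk0]
    field_simp
  rw [sym_mul_left, sym_mul_right, sym_mul_right, sym_inv_left, sym_inv_right, sym_inv_left,
    sym_inv_right] at hst
  have hss : (MilK.symbol ![s, s] : MilK.K F 2) = MilK.symbol ![s, -1] := by
    have : s = (-1) * (-s) := by simp
    conv_lhs => rw [show ![s, s] = ![s, (-1) * (-s)] by rw [← this]]
    rw [sym_mul_right, sym_neg_self, add_zero]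
  have hbc : -(b / c) = (-1) * b * c⁻¹ := by rw [div_eq_mul_inv, neg_mul, one_mul, neg_mul]
  rw [hbc, sym_mul_right, sym_mul_right, sym_inv_right]
  rw [neg_neg, hss] at hst
  have ha := sym_antisymm b s
  -- hst : {b,c} - {b,s} - ({s,c} - {s,-1}) = 0  (up to arrangement)
  have key : (MilK.symbol ![b, c] : MilK.K F 2) + (MilK.symbol ![s, -1] + MilK.symbol ![s, b] +
      -MilK.symbol ![s, c]) = (MilK.symbol ![b, c] + -MilK.symbol ![b, s] + (-MilK.symbol ![s, c] +
      MilK.symbol ![s, -1])) + (MilK.symbol ![b, s] + MilK.symbol ![s, b]) := by abel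
  rw [key, hst, ha, add_zero]

end Groth.Agent.S19427
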