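import Groth.Statements.S19436
-- import your own Groth.Agent.* helpers here
import Mathlib.RingTheory.Nakayama
import Mathlib.LinearAlgebra.FiniteDimensional.Lemmas
import Mathlib.LinearAlgebra.Dimension.Finite

set_option autoImplicit false
universe u
open CAlg

namespace Groth.Agent.S19436

/-- For a Noetherian local commutative algebra R over a field k, with maximal ideal M, and an ideal I of
R whose quotient R/I is finite-dimensional over k of dimension n, the power M^n lies in I. -/
theorem result (k : Type u) [Field k] (R : Type u) [CommRing R]
    [Algebra k R] [IsNoetherianRing R] [IsLocalRing R] (I : Ideal R) [Module.Finite k (R ⧸ I)] (n : ℕ)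
    (hn : Module.finrank k (R ⧸ I) = n) : IsLocalRing.maximalIdeal R ^ n ≤ I := by
  classical
  set M := IsLocalRing.maximalIdeal R with hMdef
  let N : ℕ → Submodule R (R ⧸ I) := fun j => (M ^ j) • (⊤ : Submodule R (R ⧸ I))
  have hjac : M ≤ (⊥ : Ideal R).jacobson := by
    rw [IsLocalRing.jacobson_eq_maximalIdeal ⊥ bot_ne_top]
  have hsucc : ∀ j, N (j + 1) = M • N j := by
    intro j
    simp only [N, pow_succ', Submodule.mul_smul]
  have hle : ∀ j, N (j + 1) ≤ N j := by
    intro j
    rw [hsucc j]
    exact Submodule.smul_le_right
  have hfg : ∀ j, (N j).FG := fun j => IsNoetherian.noetherian _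
  have key : ∀ j, N j = ⊥ ∨
      Module.finrank k ((N j).restrictScalars k) + j ≤ n := by
    intro j
    induction j with
    | zero =>
      right
      have : Module.finrank k ((N 0).restrictScalars k) ≤ Module.finrank k (R ⧸ I) :=
        Submodule.finrank_le _
      omega
    | succ j ih =>
      rcases ih with h | h
      · left
        exact eq_bot_iff.mpr (h ▸ hle j)
      · by_cases heq : N (j + 1) = N j
        · left
          have h1 : N j ≤ M • N j := by rw [← hsucc j, heq]
          have := Submodule.eq_bot_of_le_smul_of_le_jacobson_bot M (N j) (hfg j) h1 hjac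
          rw [heq, this]
        · right
          have hlt : (N (j + 1)).restrictScalars k < (N j).restrictScalars k := by
            refine lt_of_le_of_ne ((Submodule.restrictScalars_le k).mpr (hle j)) ?_
            intro h'
            exact heq (Submodule.restrictScalars_injective k _ _ h')
          have := Submodule.finrank_lt_finrank_of_lt hlt
          omega
  have hNn : N n = ⊥ := by
    rcases key n with h | h
    · exact h
    · have h0 : Module.finrank k ((N n).restrictScalars k) = 0 := by omega
      rw [Submodule.finrank_eq_zero, Submodule.restrictScalars_eq_bot_iff] at h0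
      exact h0
  intro x hx
  have hmem : x • (1 : R ⧸ I) ∈ N n := Submodule.smul_mem_smul hx Submodule.mem_top
  rw [hNn, Submodule.mem_bot, Algebra.smul_def, mul_one] at hmem
  exact Ideal.Quotient.eq_zero_iff_mem.mp hmem

end Groth.Agent.S19436
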