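import Groth.Statements.S19438
-- import your own Groth.Agent.* helpers here
import Mathlib

set_option autoImplicit false
universe u
open CAlg

namespace Groth.Agent.S19438

/-- First assertion: let A be a Noetherian local commutative algebra over a field k with maximal ideal
M, residue field k (the map from k to A/M is onto) and embedding dimension dim M/M^2 at least 2, and
let I be a proper ideal with A/I finite-dimensional over k. If A/I is generated as a k-algebra by
one element, then some element of I does not lie in M^2; that is, the finite closed subscheme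
defined by I lies on a smooth hypersurface germ (it is curvilinear). (The published statement is for
the local ring of a smooth surface at a closed point; only a Noetherian local algebra with residue
field k and embedding dimension at least 2 is assumed here, which is what the published argument
uses.) -/
theorem result (k : Type u) [Field k]
    (A : Type u) [CommRing A] [Algebra k A] [IsNoetherianRing A] [IsLocalRing A]
    (hres : Function.Surjective (algebraMap k (IsLocalRing.ResidueField A)))
    (hemb : 2 ≤ Module.finrank (IsLocalRing.ResidueField A) (IsLocalRing.CotangentSpace A))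
    (I : Ideal A) (hI : I ≠ ⊤) [Module.Finite k (A ⧸ I)]
    (f : A ⧸ I) (hf : Algebra.adjoin k {f} = ⊤) :
    ∃ g ∈ I, g ∉ IsLocalRing.maximalIdeal A ^ 2 := by
  classical
  by_contra hcon
  push Not at hcon
  obtain ⟨F, rfl⟩ := Ideal.Quotient.mk_surjective f
  obtain ⟨c₀, hc₀⟩ := hres (IsLocalRing.residue A F)
  set m := IsLocalRing.maximalIdeal A with hm
  set y : A := F - algebraMap k A c₀ with hydef
  have hy : y ∈ m := by
    rw [← IsLocalRing.residue_eq_zero_iff, hydef, map_sub, ← hc₀,
      IsScalarTower.algebraMap_apply k A (IsLocalRing.ResidueField A)]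
    simp
  have hy2 : y ^ 2 ∈ m ^ 2 := Ideal.pow_mem_pow hy 2
  have key : ∀ u ∈ m, ∃ c : k, u - algebraMap k A c * y ∈ m ^ 2 := by
    intro u hu
    have hmem : Ideal.Quotient.mk I u ∈ Algebra.adjoin k {Ideal.Quotient.mk I F} := by
      rw [hf]; exact Algebra.mem_top
    rw [Algebra.adjoin_singleton_eq_range_aeval] at hmem
    obtain ⟨p, hp⟩ := hmem
    have hp' : Ideal.Quotient.mk I (Polynomial.aeval F p) = Ideal.Quotient.mk I u := by
      rw [← hp]
      change Ideal.Quotient.mkₐ k I (Polynomial.aeval F p) =
        Polynomial.aeval (Ideal.Quotient.mkₐ k I F) p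
      rw [Polynomial.aeval_algHom_apply]
    have h1 : u - Polynomial.aeval F p ∈ m ^ 2 := by
      apply hcon
      rw [← Ideal.Quotient.eq]; exact hp'.symm
    -- Taylor expansion in A ⧸ m ^ 2
    have hyQ : (Ideal.Quotient.mk (m ^ 2) y) ^ 2 = 0 := by
      rw [← map_pow, Ideal.Quotient.eq_zero_iff_mem]; exact hy2
    have hF : F = algebraMap k A c₀ + y := by rw [hydef]; ring
    have htay := Polynomial.aeval_add_of_sq_eq_zero p
      (algebraMap k (A ⧸ m ^ 2) c₀) (Ideal.Quotient.mk (m ^ 2) y) hyQ
    have hmkF : Polynomial.aeval (Ideal.Quotient.mk (m ^ 2) F) p =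
        Ideal.Quotient.mk (m ^ 2) (Polynomial.aeval F p) := by
      change Polynomial.aeval (Ideal.Quotient.mkₐ k (m ^ 2) F) p =
        Ideal.Quotient.mkₐ k (m ^ 2) (Polynomial.aeval F p)
      rw [Polynomial.aeval_algHom_apply]
    have hmkF2 : Ideal.Quotient.mk (m ^ 2) F =
        algebraMap k (A ⧸ m ^ 2) c₀ + Ideal.Quotient.mk (m ^ 2) y := by
      rw [hF, map_add]; rfl
    rw [hmkF2, htay, Polynomial.aeval_algebraMap_apply, Polynomial.aeval_algebraMap_apply,
      Polynomial.coe_aeval_eq_eval] at hmkF
    -- hmkF : alg (p.eval c₀) + alg (p'.eval c₀) * mk y = mk (aeval F p)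
    set a := p.eval c₀
    set b := p.derivative.eval c₀
    have h2 : Polynomial.aeval F p - (algebraMap k A a + algebraMap k A b * y) ∈ m ^ 2 := by
      rw [← Ideal.Quotient.eq_zero_iff_mem, map_sub, ← hmkF, map_add, map_mul]
      simp only [Ideal.Quotient.mk_algebraMap]
      ring
    have h3 : u - (algebraMap k A a + algebraMap k A b * y) ∈ m ^ 2 := by
      have := Ideal.add_mem _ h1 h2
      simpa using this
    have hm2 : m ^ 2 ≤ m := Ideal.pow_le_self two_ne_zero
    have ha : algebraMap k A a ∈ m := by
      have h4 : u - (algebraMap k A a + algebraMap k A b * y) ∈ m := hm2 h3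
      have h5 : u - algebraMap k A b * y ∈ m := Ideal.sub_mem _ hu (Ideal.mul_mem_left _ _ hy)
      have := Ideal.sub_mem _ h5 h4
      simpa using this
    have ha0 : a = 0 := by
      by_contra hne
      have hu' : IsUnit (algebraMap k A a) := (IsUnit.mk0 a hne).map (algebraMap k A)
      exact (IsLocalRing.mem_maximalIdeal _).mp ha hu'
    refine ⟨b, ?_⟩
    rw [ha0, map_zero, zero_add] at h3
    exact h3
  have hle : Module.finrank (IsLocalRing.ResidueField A) (IsLocalRing.CotangentSpace A) ≤ 1 := by
    rw [finrank_le_one_iff]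
    refine ⟨m.toCotangent ⟨y, hy⟩, ?_⟩
    intro w
    obtain ⟨⟨u, hu⟩, rfl⟩ := m.toCotangent_surjective w
    obtain ⟨c, hc⟩ := key u hu
    refine ⟨IsLocalRing.residue A (algebraMap k A c), ?_⟩
    have e1 : (IsLocalRing.residue A (algebraMap k A c)) • m.toCotangent ⟨y, hy⟩ =
        (algebraMap k A c) • m.toCotangent ⟨y, hy⟩ := by
      rw [← IsLocalRing.ResidueField.algebraMap_eq, algebraMap_smul]
    rw [e1, ← map_smul, Ideal.toCotangent_eq]
    have : ((algebraMap k A c • (⟨y, hy⟩ : m) : m) : A) - u = -(u - algebraMap k A c * y) := by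
      simp only [SetLike.mk_smul_mk, smul_eq_mul]
      ring
    rw [this]
    exact Submodule.neg_mem _ hc
  omega

end Groth.Agent.S19438
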