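import Groth.Statements.S19439
-- import your own Groth.Agent.* helpers here
import Mathlib

set_option autoImplicit false
universe u
open CAlg

namespace Groth.Agent.S19439

/-- Affine form: for all n and N there is an integer d, that depends only on n and N, such that for
every algebraically closed field k and every ideal I of the polynomial ring in N variables over k
whose quotient has finite dimension n over k, the polynomials of total degree at most d map onto the
quotient. -/
theorem result (n N : ℕ) :
    ∃ d : ℕ, ∀ (k : Type u) [Field k] [IsAlgClosed k] (I : Ideal (MvPolynomial (Fin N) k))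
      [Module.Finite k (MvPolynomial (Fin N) k ⧸ I)],
      Module.finrank k (MvPolynomial (Fin N) k ⧸ I) = n →
      Submodule.map (Ideal.Quotient.mkₐ k I).toLinearMap (MvPolynomial.restrictTotalDegree (Fin N) k d) = ⊤ := by
  refine ⟨n, fun k _ _ I _ hn => ?_⟩
  classical
  let W : ℕ → Submodule k (MvPolynomial (Fin N) k ⧸ I) := fun j =>
    Submodule.map (Ideal.Quotient.mkₐ k I).toLinearMap (MvPolynomial.restrictTotalDegree (Fin N) k j)
  have hmemW : ∀ j (s : Fin N →₀ ℕ), s.degree ≤ j →
      Ideal.Quotient.mk I (MvPolynomial.monomial s (1:k)) ∈ W j := by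
    intro j s hs
    exact Submodule.mem_map_of_mem (f := (Ideal.Quotient.mkₐ k I).toLinearMap)
      ((MvPolynomial.monomial_mem_restrictSupport k).mpr (Or.inl hs))
  have hWle : ∀ j (V : Submodule k (MvPolynomial (Fin N) k ⧸ I)),
      (∀ s : Fin N →₀ ℕ, s.degree ≤ j → Ideal.Quotient.mk I (MvPolynomial.monomial s (1:k)) ∈ V) →
      W j ≤ V := by
    intro j V hV
    show Submodule.map _ (MvPolynomial.restrictSupport k _) ≤ V
    rw [MvPolynomial.restrictSupport_eq_span, Submodule.map_span, Submodule.span_le]
    rintro _ ⟨_, ⟨s, hs, rfl⟩, rfl⟩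
    exact hV s hs
  have hmono : Monotone W := fun j j' hjj' => hWle j _ (fun s hs => hmemW j' s (hs.trans hjj'))
  have hstep : ∀ j, W j = W (j+1) → W (j+1) = W (j+2) := by
    intro j hj
    apply le_antisymm (hmono (by omega))
    apply hWle
    intro s hs
    by_cases hs' : s.degree ≤ j + 1
    · exact hmemW _ s hs'
    · have hne : s ≠ 0 := by rintro rfl; simp at hs'
      obtain ⟨i, hi⟩ : ∃ i, s i ≠ 0 := by
        by_contra hcon; push Not at hcon; exact hne (Finsupp.ext hcon)
      have hle1 : Finsupp.single i 1 ≤ s := by
        rw [Finsupp.single_le_iff]; omega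
      obtain ⟨s', hs_eq⟩ : ∃ s', s = s' + Finsupp.single i 1 :=
        ⟨s - Finsupp.single i 1, (tsub_add_cancel_of_le hle1).symm⟩
      subst hs_eq
      have hdeg : (s' + Finsupp.single i 1).degree = s'.degree + 1 := by
        rw [map_add, Finsupp.degree_single]
      have h1 : Ideal.Quotient.mk I (MvPolynomial.monomial s' (1:k)) ∈ W (j+1) :=
        hmemW _ s' (by omega)
      rw [← hj] at h1
      obtain ⟨q, hq, hqe⟩ := h1
      have : Ideal.Quotient.mk I (MvPolynomial.monomial (s' + Finsupp.single i 1) (1:k)) =
          Ideal.Quotient.mk I (q * MvPolynomial.X i) := by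
        rw [MvPolynomial.monomial_add_single, pow_one, map_mul, map_mul, ← hqe]; rfl
      rw [this]
      apply Submodule.mem_map_of_mem
      rw [SetLike.mem_coe, MvPolynomial.mem_restrictTotalDegree] at hq
      rw [MvPolynomial.mem_restrictTotalDegree]
      calc (q * MvPolynomial.X i).totalDegree ≤ q.totalDegree + (MvPolynomial.X i : MvPolynomial (Fin N) k).totalDegree :=
            MvPolynomial.totalDegree_mul _ _
        _ ≤ j + 1 := by rw [MvPolynomial.totalDegree_X]; omega
  have hchain : ∀ j, W j = W (j+1) → ∀ t, W (j + t) = W j := by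
    intro j hj t
    have h2 : ∀ t, W (j + t) = W (j + t + 1) := by
      intro t
      induction t with
      | zero => simpa using hj
      | succ t iht => exact hstep (j + t) iht
    induction t with
    | zero => rfl
    | succ t iht => rw [← iht, ← add_assoc]; exact (h2 t).symm
  have hcover : ∀ x : MvPolynomial (Fin N) k ⧸ I, ∃ j, x ∈ W j := by
    intro x
    obtain ⟨p, rfl⟩ := Ideal.Quotient.mk_surjective x
    exact ⟨p.totalDegree, Submodule.mem_map_of_mem
      ((MvPolynomial.mem_restrictTotalDegree _ _ _).mpr le_rfl)⟩
  by_contra hne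
  have hlt : ∀ j ≤ n, W j < W (j+1) := by
    intro j hj
    refine lt_of_le_of_ne (hmono (by omega)) (fun heq => hne ?_)
    rw [eq_top_iff]
    intro x _
    obtain ⟨m, hm⟩ := hcover x
    rcases le_total m n with hmn | hnm
    · exact hmono hmn hm
    · have e1 := hchain j heq (n - j)
      have e2 := hchain j heq (m - j)
      rw [Nat.add_sub_cancel' hj] at e1
      rw [Nat.add_sub_cancel' (le_trans hj hnm)] at e2
      change x ∈ W n
      rw [e1]; rw [e2] at hm; exact hm
  have hrank : ∀ j ≤ n + 1, j ≤ Module.finrank k (W j) := by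
    intro j
    induction j with
    | zero => intro _; exact Nat.zero_le _
    | succ j ih =>
      intro hj
      have := Submodule.finrank_lt_finrank_of_lt (hlt j (by omega))
      have := ih (by omega)
      omega
  have h1 := hrank (n+1) le_rfl
  have h2 := Submodule.finrank_le (W (n+1))
  omega

end Groth.Agent.S19439
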