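import Groth.Statements.S19443
-- import your own Groth.Agent.* helpers here

set_option autoImplicit false
universe u
open LinAlg

namespace Groth.Agent.S19443

/-- Algebraic form: let G be a finite group with order invertible in the field k, ρ a linear
representation of G on a k-vector space V, and ω a nondegenerate bilinear form on V invariant under
G. Then ω restricted to the fixed subspace V^G is nondegenerate (for a finite group of symplectic
automorphisms, the fixed subspace is a symplectic subspace). -/
theorem result (k : Type u) [Field k]
    (G : Type u) [Group G] [Finite G] (hG : (Nat.card G : k) ≠ 0)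
    (V : Type u) [AddCommGroup V] [Module k V] (ρ : Representation k G V)
    (ω : LinearMap.BilinForm k V) (hω : ω.Nondegenerate)
    (hinv : ∀ (g : G) (v w : V), ω (ρ g v) (ρ g w) = ω v w) :
    (ω.restrict ρ.invariants).Nondegenerate := by
  classical
  letI := Fintype.ofFinite G
  have hsum_inv : ∀ u : V, (∑ g : G, ρ g u) ∈ ρ.invariants := by
    intro u
    rw [Representation.mem_invariants]
    intro g
    rw [map_sum]
    simp only [← Module.End.mul_apply, ← map_mul]
    exact Fintype.sum_equiv (Equiv.mulLeft g) _ _ (fun h => rfl)
  have hcard : (Nat.card G : k) = (Fintype.card G : k) := by rw [Nat.card_eq_fintype_card]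
  refine ⟨?_, ?_⟩
  · rintro ⟨v, hv⟩ h
    apply Subtype.ext
    apply hω.1 v
    intro u
    have h1 := h ⟨_, hsum_inv u⟩
    simp only [LinearMap.BilinForm.restrict_apply, LinearMap.domRestrict_apply] at h1
    have h2 : ω v (∑ g : G, ρ g u) = (Nat.card G : k) * ω v u := by
      rw [map_sum]
      have : ∀ g, ω v (ρ g u) = ω v u := fun g => by
        rw [← hinv g v u, (Representation.mem_invariants ρ v).mp hv g]
      simp [this, Finset.sum_const, Finset.card_univ, hcard, nsmul_eq_mul]
    rw [h2] at h1
    exact (mul_eq_zero.mp h1).resolve_left hG
  · rintro ⟨w, hw⟩ h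
    apply Subtype.ext
    apply hω.2 w
    intro u
    have h1 := h ⟨_, hsum_inv u⟩
    simp only [LinearMap.BilinForm.restrict_apply, LinearMap.domRestrict_apply] at h1
    have h2 : ω (∑ g : G, ρ g u) w = (Nat.card G : k) * ω u w := by
      rw [map_sum, LinearMap.sum_apply]
      have : ∀ g, ω (ρ g u) w = ω u w := fun g => by
        rw [← hinv g u w, (Representation.mem_invariants ρ w).mp hw g]
      simp [this, Finset.sum_const, Finset.card_univ, hcard, nsmul_eq_mul]
    rw [h2] at h1
    exact (mul_eq_zero.mp h1).resolve_left hG

end Groth.Agent.S19443
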