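import Groth.Statements.S19448
-- import your own Groth.Agent.* helpers here
import Groth.Agent.Lib.Helper29.UnipFix

set_option autoImplicit false
universe u
open CAlg

namespace Groth.Agent.S19448

/-- Let k be a field, A a Noetherian local k-algebra with maximal ideal M and residue field k, and G a
finite group with |G| ≠ 0 in k acting on A by k-algebra automorphisms. An element of G which acts
trivially on M/M^2 acts trivially on A; in other words the stabilizer acts faithfully on the
cotangent space whenever it acts faithfully on the local ring. -/
theorem result (k : Type u) [Field k] (A : Type u) [CommRing A]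
    [Algebra k A] [IsLocalRing A] [IsNoetherianRing A]
    (hres : Function.Surjective (algebraMap k (IsLocalRing.ResidueField A)))
    (G : Type u) [Group G] [Finite G] [MulSemiringAction G A] [SMulCommClass G k A]
    (hG : (Nat.card G : k) ≠ 0) (g : G)
    (hg : ∀ a ∈ IsLocalRing.maximalIdeal A, g • a - a ∈ IsLocalRing.maximalIdeal A ^ 2) (a : A) :
    g • a = a := by
  apply Groth.Agent.Lib.Helper29.smul_eq_self_of_cotangent g
  · have hk : (orderOf g : k) ≠ 0 := by
      intro h0
      apply hG
      obtain ⟨q, hq⟩ := orderOf_dvd_natCard g
      rw [hq, Nat.cast_mul, h0, zero_mul]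
    have : (orderOf g : A) = algebraMap k A (orderOf g : k) := by simp
    rw [this]; exact (IsUnit.mk0 _ hk).map _
  · intro x
    obtain ⟨c, hc⟩ := hres (IsLocalRing.residue A x)
    have hx' : x - algebraMap k A c ∈ IsLocalRing.maximalIdeal A := by
      rw [← IsLocalRing.residue_eq_zero_iff, map_sub, ← hc,
        IsScalarTower.algebraMap_apply k A (IsLocalRing.ResidueField A)]
      simp
    have hgc : g • (algebraMap k A c) = algebraMap k A c := by
      rw [Algebra.algebraMap_eq_smul_one, smul_comm, smul_one]
    have e : g • x - x = g • (x - algebraMap k A c) - (x - algebraMap k A c) := by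
      rw [smul_sub, hgc]; ring
    rw [e]
    exact Ideal.pow_le_self two_ne_zero (hg _ hx')
  · exact hg

end Groth.Agent.S19448
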