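import Groth.Statements.S19453
-- import your own Groth.Agent.* helpers here
import Mathlib

set_option autoImplicit false
universe u
open CAlg

namespace Groth.Agent.S19453

/-- Converse direction: let k be a field, A a regular local k-algebra of Krull dimension 2 with maximal
ideal M and residue field k, and I an ideal with A/I of finite dimension n ≥ 1 over k. If some
element of I does not lie in M^2, then A/I is isomorphic as a k-algebra to k[x]/(x^n): a cluster
lying on a smooth curve germ of a smooth surface is curvilinear, with coordinate ring generated by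
one element. -/
theorem result (k : Type u) [Field k]
    (A : Type u) [CommRing A] [Algebra k A] [IsRegularLocalRing A] (hdim : ringKrullDim A = 2)
    (hres : Function.Surjective (algebraMap k (IsLocalRing.ResidueField A)))
    (I : Ideal A) [Module.Finite k (A ⧸ I)] (n : ℕ) (hn : Module.finrank k (A ⧸ I) = n) (h1 : 1 ≤ n)
    (g : A) (hgI : g ∈ I) (hg : g ∉ IsLocalRing.maximalIdeal A ^ 2) :
    Nonempty ((A ⧸ I) ≃ₐ[k] (Polynomial k ⧸ Ideal.span {(Polynomial.X : Polynomial k) ^ n})) := by
  classical
  have hItop : I ≠ ⊤ := by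
    rintro rfl
    have : Subsingleton (A ⧸ (⊤ : Ideal A)) := Ideal.Quotient.subsingleton_iff.mpr rfl
    rw [Module.finrank_zero_of_subsingleton] at hn
    omega
  have hgm : g ∈ IsLocalRing.maximalIdeal A := IsLocalRing.le_maximalIdeal hItop hgI
  have hrank : Module.finrank (IsLocalRing.ResidueField A) (IsLocalRing.CotangentSpace A) = 2 := by
    have := (IsRegularLocalRing.iff_finrank_cotangentSpace A).mp inferInstance
    rw [hdim] at this
    exact_mod_cast this
  let g' : IsLocalRing.maximalIdeal A := ⟨g, hgm⟩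
  have hv : (IsLocalRing.maximalIdeal A).toCotangent g' ≠ 0 := by
    rw [Ne, Ideal.toCotangent_eq_zero]; exact hg
  have hne : Submodule.span (IsLocalRing.ResidueField A)
      {(IsLocalRing.maximalIdeal A).toCotangent g'} ≠ ⊤ := by
    intro h
    have h2 := finrank_span_singleton (K := IsLocalRing.ResidueField A) hv
    rw [h, finrank_top, hrank] at h2
    norm_num at h2
  obtain ⟨w, -, hw⟩ := SetLike.exists_of_lt (lt_top_iff_ne_top.mpr hne)
  obtain ⟨t', rfl⟩ := (IsLocalRing.maximalIdeal A).toCotangent_surjective w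
  have hspan2 : Submodule.span (IsLocalRing.ResidueField A)
      ((IsLocalRing.maximalIdeal A).toCotangent '' {g', t'}) = ⊤ := by
    rw [Set.image_pair]
    apply Submodule.eq_top_of_finrank_eq
    apply le_antisymm (Submodule.finrank_le _)
    rw [hrank]
    have hlt : Submodule.span (IsLocalRing.ResidueField A)
        {(IsLocalRing.maximalIdeal A).toCotangent g'} <
        Submodule.span (IsLocalRing.ResidueField A)
        {(IsLocalRing.maximalIdeal A).toCotangent g', (IsLocalRing.maximalIdeal A).toCotangent t'} := by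
      refine lt_of_le_of_ne (Submodule.span_mono (by simp)) ?_
      intro h
      apply hw
      rw [h]
      exact Submodule.subset_span (by simp)
    have := Submodule.finrank_lt_finrank_of_lt hlt
    rw [finrank_span_singleton hv] at this
    omega
  rw [IsLocalRing.CotangentSpace.span_image_eq_top_iff] at hspan2
  have hm : ∀ a ∈ IsLocalRing.maximalIdeal A, ∃ c d : A, c * g + d * (t' : A) = a := by
    intro a ha
    have hmem : (⟨a, ha⟩ : IsLocalRing.maximalIdeal A) ∈ Submodule.span A {g', t'} := by
      rw [hspan2]; exact Submodule.mem_top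
    obtain ⟨c, d, hcd⟩ := Submodule.mem_span_pair.mp hmem
    exact ⟨c, d, congrArg Subtype.val hcd⟩
  have htm : (t' : A) ∈ IsLocalRing.maximalIdeal A := t'.2
  have hdecomp : ∀ c : A ⧸ I, ∃ (l : k) (c' : A ⧸ I),
      c = algebraMap k (A ⧸ I) l + Ideal.Quotient.mk I (t' : A) * c' := by
    intro c
    obtain ⟨a, rfl⟩ := Ideal.Quotient.mk_surjective c
    obtain ⟨l, hl⟩ := hres (IsLocalRing.residue A a)
    have hmem : a - algebraMap k A l ∈ IsLocalRing.maximalIdeal A := by
      rw [← IsLocalRing.residue_eq_zero_iff, map_sub, ← IsLocalRing.ResidueField.algebraMap_eq,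
        ← IsScalarTower.algebraMap_apply k A (IsLocalRing.ResidueField A), hl,
        IsLocalRing.ResidueField.algebraMap_eq, sub_self]
    obtain ⟨c₁, d, hcd⟩ := hm _ hmem
    refine ⟨l, Ideal.Quotient.mk I d, ?_⟩
    have hg0 : Ideal.Quotient.mk I g = 0 := Ideal.Quotient.eq_zero_iff_mem.mpr hgI
    have ha : a = algebraMap k A l + (c₁ * g + d * (t' : A)) := by rw [hcd]; ring
    rw [ha, map_add, map_add, map_mul, map_mul, hg0, mul_zero, zero_add,
      IsScalarTower.algebraMap_apply k A (A ⧸ I), Ideal.Quotient.algebraMap_eq, mul_comm]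
  have : IsArtinianRing (A ⧸ I) := IsArtinianRing.of_finite k (A ⧸ I)
  have hτJ : Ideal.Quotient.mk I (t' : A) ∈ Ideal.jacobson (⊥ : Ideal (A ⧸ I)) := by
    rw [Ideal.mem_jacobson_bot]
    intro y
    obtain ⟨a, rfl⟩ := Ideal.Quotient.mk_surjective y
    have hu : IsUnit ((t' : A) * a + 1) := by
      rw [← IsLocalRing.notMem_maximalIdeal]
      intro h
      have h1 : (1 : A) ∈ IsLocalRing.maximalIdeal A := by
        have := Ideal.sub_mem _ h (Ideal.mul_mem_right a _ htm)
        simpa using this
      exact (IsLocalRing.maximalIdeal.isMaximal A).ne_top ((Ideal.eq_top_iff_one _).mpr h1)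
    have := hu.map (Ideal.Quotient.mk I)
    simp at this
    exact this
  obtain ⟨N, hN⟩ := IsArtinianRing.isNilpotent_jacobson_bot (R := A ⧸ I)
  have hτN : Ideal.Quotient.mk I (t' : A) ^ N = 0 := by
    have h1 : Ideal.Quotient.mk I (t' : A) ^ N ∈ (Ideal.jacobson (⊥ : Ideal (A ⧸ I))) ^ N :=
      Ideal.pow_mem_pow hτJ N
    rw [hN] at h1
    exact h1
  let ψ : Polynomial k →ₐ[k] A ⧸ I := Polynomial.aeval (Ideal.Quotient.mk I (t' : A))
  have hstep : ∀ M : ℕ, ∀ c : A ⧸ I, ∃ p : Polynomial k, ∃ c' : A ⧸ I,
      c = ψ p + Ideal.Quotient.mk I (t' : A) ^ M * c' := by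
    intro M
    induction M with
    | zero => intro c; exact ⟨0, c, by simp⟩
    | succ M ih =>
      intro c
      obtain ⟨p, c', hc⟩ := ih c
      obtain ⟨l, c'', hc'⟩ := hdecomp c'
      refine ⟨p + Polynomial.C l * Polynomial.X ^ M, c'', ?_⟩
      rw [hc, hc', map_add, map_mul, map_pow]
      simp only [ψ, Polynomial.aeval_C, Polynomial.aeval_X]
      ring
  have hψ : Function.Surjective ψ := by
    intro c
    obtain ⟨p, c', hc⟩ := hstep N c
    exact ⟨p, by rw [hc, hτN, zero_mul, add_zero]⟩
  have hint : IsIntegral k (Ideal.Quotient.mk I (t' : A)) := Algebra.IsIntegral.isIntegral _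
  have hdvd : minpoly k (Ideal.Quotient.mk I (t' : A)) ∣ Polynomial.X ^ N :=
    minpoly.dvd k _ (by simp [hτN])
  obtain ⟨i, -, hi⟩ := (dvd_prime_pow Polynomial.prime_X N).mp hdvd
  have hmin : minpoly k (Ideal.Quotient.mk I (t' : A)) = Polynomial.X ^ i :=
    Polynomial.eq_of_monic_of_associated (minpoly.monic hint) (Polynomial.monic_X_pow i) hi
  have hker : RingHom.ker ψ = Ideal.span {Polynomial.X ^ i} := by
    simp only [ψ]
    rw [minpoly.ker_aeval_eq_span_minpoly, hmin]
  let e : (Polynomial k ⧸ Ideal.span {(Polynomial.X : Polynomial k) ^ i}) ≃ₐ[k] A ⧸ I :=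
    (Ideal.quotientEquivAlgOfEq k hker.symm).trans (Ideal.quotientKerAlgEquivOfSurjective hψ)
  have hin : i = n := by
    have h1 := e.toLinearEquiv.finrank_eq
    rw [finrank_quotient_span_eq_natDegree, Polynomial.natDegree_X_pow, hn] at h1
    exact h1
  subst hin
  exact ⟨e.symm⟩

end Groth.Agent.S19453
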