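import Groth.Statements.S19461
-- import your own Groth.Agent.* helpers here
import Groth.Agent.Lib.Helper29.FlatTower

set_option autoImplicit false
universe u
open CAlg

namespace Groth.Agent.S19461

/-- The implication from isomorphic completions to flat and unramified. Let A → B be a local
homomorphism of Noetherian local rings and ψ a ring map from the completion of A at its maximal
ideal to that of B whose composite with A → A^ is A → B → B^. If ψ is bijective, then A → B is flat
and the maximal ideal of A generates the maximal ideal of B. (The published statement is the
implication, for a morphism of algebraic varieties over an algebraically closed field, from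
isomorphic induced maps of completed local rings at every point to flat and unramified; its proof is
this local-ring argument, valid for any Noetherian local rings. The converse implication is a
separate result.) -/
theorem result (A B : Type u) [CommRing A]
    [CommRing B] [IsLocalRing A] [IsLocalRing B] [IsNoetherianRing A] [IsNoetherianRing B]
    [Algebra A B] [IsLocalHom (algebraMap A B)]
    (ψ : AdicCompletion (IsLocalRing.maximalIdeal A) A →+* AdicCompletion (IsLocalRing.maximalIdeal B) B)
    (hψ : ψ.comp (algebraMap A (AdicCompletion (IsLocalRing.maximalIdeal A) A)) =
      (algebraMap B (AdicCompletion (IsLocalRing.maximalIdeal B) B)).comp (algebraMap A B))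
    (hbij : Function.Bijective ψ) :
    Module.Flat A B ∧
      Ideal.map (algebraMap A B) (IsLocalRing.maximalIdeal A) = IsLocalRing.maximalIdeal B := by
  have hflatA : (algebraMap A (AdicCompletion (IsLocalRing.maximalIdeal A) A)).Flat := by
    rw [RingHom.flat_algebraMap_iff]; infer_instance
  have hcomp : ((algebraMap B (AdicCompletion (IsLocalRing.maximalIdeal B) B)).comp
      (algebraMap A B)).Flat := by
    rw [← hψ]; exact RingHom.Flat.comp hflatA (RingHom.Flat.of_bijective hbij)
  have hFF : Module.FaithfullyFlat B (AdicCompletion (IsLocalRing.maximalIdeal B) B) :=
    Module.FaithfullyFlat.of_flat_of_isLocalHom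
  constructor
  · have : Module.Flat A (AdicCompletion (IsLocalRing.maximalIdeal B) B) := by
      rw [← RingHom.flat_algebraMap_iff, IsScalarTower.algebraMap_eq A B]
      exact hcomp
    exact Groth.Agent.Lib.Helper29.flat_of_faithfullyFlat_tower A B
      (AdicCompletion (IsLocalRing.maximalIdeal B) B)
  · apply le_antisymm
    · rw [Ideal.map_le_iff_le_comap]
      intro a ha
      exact map_nonunit (algebraMap A B) a ha
    · rw [← Ideal.comap_map_eq_self_of_faithfullyFlat (B := AdicCompletion (IsLocalRing.maximalIdeal B) B)
        (Ideal.map (algebraMap A B) (IsLocalRing.maximalIdeal A))]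
      rw [Ideal.map_map, ← hψ, ← Ideal.map_map, ← AdicCompletion.maximalIdeal_eq_map]
      intro b hb
      rw [Ideal.mem_comap]
      have hy := map_nonunit (algebraMap B (AdicCompletion (IsLocalRing.maximalIdeal B) B)) b hb
      obtain ⟨x, hx⟩ := hbij.2 (algebraMap B (AdicCompletion (IsLocalRing.maximalIdeal B) B) b)
      rw [← hx] at hy ⊢
      have hx' : x ∈ IsLocalRing.maximalIdeal (AdicCompletion (IsLocalRing.maximalIdeal A) A) := by
        rw [IsLocalRing.mem_maximalIdeal, mem_nonunits_iff] at hy ⊢
        exact fun hu => hy (hu.map ψ)
      exact Ideal.mem_map_of_mem ψ hx'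

end Groth.Agent.S19461
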