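import Groth.Statements.S19479
-- import your own Groth.Agent.* helpers here
import Groth.Agent.Lib.Helper5.ComodSQ
import Mathlib

set_option autoImplicit false
universe u v w
open HopfRep

namespace Groth.Agent.S19479

open Groth.Agent.Lib.Helper5.ComodSQ

section Lat

variable {K : Type u} {C : Type v} [Field K] [AddCommGroup C] [Module K C] [Coalgebra K C]
  {V : Type w} [AddCommGroup V] [Module K V] [HopfRep.Comod K C V]

variable (K C V) in
/-- The complete sublattice of subcomodules. -/
noncomputable def Lsub : CompleteSublattice (Submodule K V) :=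
  CompleteSublattice.mk' {W | HopfRep.IsSubcomod (k := K) (A := C) W}
    (fun s hs => by
      have := isSubcomod_iSup (A := C) (fun W : s => (W : Submodule K V)) (fun W => hs W.2)
      rwa [← sSup_eq_iSup'] at this)
    (fun s hs => isSubcomod_sInf (A := C) s hs)

theorem mem_Lsub (W : Submodule K V) :
    W ∈ Lsub K C V ↔ HopfRep.IsSubcomod (k := K) (A := C) W := Iff.rfl

instance : IsModularLattice (Lsub K C V) :=
  ⟨fun {x} y {z} h => by
    show ((x : Submodule K V) ⊔ y) ⊓ z ≤ (x : Submodule K V) ⊔ (y ⊓ z)
    exact IsModularLattice.sup_inf_le_assoc_of_le (y : Submodule K V) h⟩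

variable (K C) in
/-- The subcomodule generated by a vector. -/
noncomputable def gen (v : V) : Lsub K C V := sInf {W | v ∈ (W : Submodule K V)}

theorem mem_gen (v : V) : v ∈ ((gen K C v : Lsub K C V) : Submodule K V) := by
  rw [gen, CompleteSublattice.coe_sInf, Submodule.mem_sInf]
  rintro _ ⟨W, hW, rfl⟩
  exact hW

theorem gen_le {v : V} {W : Lsub K C V} (h : v ∈ (W : Submodule K V)) : gen K C v ≤ W :=
  sInf_le h

theorem gen_compact (v : V) : IsCompactElement (gen K C v) := by
  rw [CompleteLattice.isCompactElement_iff_le_of_directed_sSup_le]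
  intro s hne hdir hle
  have hv : v ∈ ((sSup s : Lsub K C V) : Submodule K V) := hle (mem_gen v)
  rw [CompleteSublattice.coe_sSup] at hv
  have hc := Submodule.singleton_span_isCompactElement (R := K) v
  rw [CompleteLattice.isCompactElement_iff_le_of_directed_sSup_le] at hc
  obtain ⟨W, ⟨W', hW's, rfl⟩, hW⟩ := hc (Subtype.val '' s) (hne.image _)
    (directedOn_image.mpr (hdir.mono fun a b h => h))
    (by rw [Submodule.span_singleton_le_iff_mem]; exact hv)
  exact ⟨W', hW's, gen_le ((Submodule.span_singleton_le_iff_mem _ _).mp hW)⟩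

instance : IsCompactlyGenerated (Lsub K C V) :=
  ⟨fun x => ⟨{y | ∃ v ∈ (x : Submodule K V), gen K C v = y},
    by rintro _ ⟨v, -, rfl⟩; exact gen_compact v, by
    apply le_antisymm
    · apply sSup_le; rintro _ ⟨v, hv, rfl⟩; exact gen_le hv
    · intro v hv
      exact (le_sSup (show gen K C v ∈ {y | ∃ v ∈ (x : Submodule K V), gen K C v = y} from ⟨v, hv, rfl⟩)
        : gen K C v ≤ _) (mem_gen v)⟩⟩

end Lat

open TensorProduct in
/-- Let K be a field, C a K-coalgebra and V a right C-comodule. The following are equivalent: (i) V is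
the internal direct sum of a family of simple subcomodules, i.e. there is an independent family of
subcomodules W_i with sum V, each W_i nonzero and having no subcomodules inside it other than 0 and
W_i; (ii) every subcomodule of V has a complementary subcomodule. A subcomodule is a subspace W
whose coaction lands in the image of W ⊗ C. (The source states this for left comodules; a left
comodule over C is a right comodule over the co-opposite coalgebra, so the statement is the same.) -/
theorem result {K : Type u} {C : Type v} [Field K]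
    [AddCommGroup C] [Module K C] [Coalgebra K C] (V : Type w) [AddCommGroup V] [Module K V] [HopfRep.Comod K C V] :
    (∃ (ι : Type w) (W : ι → Submodule K V), iSupIndep W ∧ iSup W = ⊤ ∧ ∀ i,
        HopfRep.IsSubcomod (k := K) (A := C) (W i) ∧ W i ≠ ⊥ ∧
          ∀ W' : Submodule K V, HopfRep.IsSubcomod (k := K) (A := C) W' → W' ≤ W i → W' = ⊥ ∨ W' = W i) ↔
      HopfRep.IsSemisimpleComod K C V := by
  constructor
  · rintro ⟨ι, W, hind, htop, hW⟩
    have hatom : ∀ i, IsAtom (⟨W i, (hW i).1⟩ : Lsub K C V) := by
      intro i
      refine ⟨fun h => (hW i).2.1 (congrArg Subtype.val h), fun b hb => ?_⟩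
      rcases (hW i).2.2 b b.2 hb.le with h | h
      · exact Subtype.ext h
      · exact absurd (Subtype.ext h) hb.ne
    have hsup : sSup {a : Lsub K C V | IsAtom a} = ⊤ := by
      apply eq_top_iff.mpr
      have : (⊤ : Lsub K C V) = ⨆ i, (⟨W i, (hW i).1⟩ : Lsub K C V) := by
        apply Subtype.ext
        rw [CompleteSublattice.coe_iSup, CompleteSublattice.coe_top]
        exact htop.symm
      rw [this]
      exact iSup_le fun i => le_sSup (hatom i)
    have hc := complementedLattice_of_sSup_atoms_eq_top hsup
    intro W₀ hW₀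
    exact (CompleteSublattice.isComplemented_iff.mp hc) W₀ hW₀
  · intro hss
    have hc : ComplementedLattice (Lsub K C V) := CompleteSublattice.isComplemented_iff.mpr hss
    obtain ⟨s, hind, htop, hatom⟩ := exists_sSupIndep_of_sSup_atoms_eq_top
      (sSup_atoms_eq_top : sSup {a : Lsub K C V | IsAtom a} = ⊤)
    refine ⟨s, fun a => (a.1 : Submodule K V), ?_, ?_, fun a => ⟨a.1.2, ?_, ?_⟩⟩
    · intro a
      have h1 := hind a.2
      rw [CompleteSublattice.disjoint_iff] at h1
      refine h1.mono_right ?_
      apply iSup_le
      intro b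
      apply iSup_le
      intro hba
      have hb : b.1 ∈ s \ {a.1} := ⟨b.2, fun h => hba (Subtype.ext h)⟩
      exact (le_sSup hb : b.1 ≤ sSup (s \ {a.1}))
    · have : ((sSup s : Lsub K C V) : Submodule K V) = ⊤ := by rw [htop]; rfl
      rw [← this, CompleteSublattice.coe_sSup]
      apply le_antisymm
      · exact iSup_le fun a => le_sSup ⟨a.1, a.2, rfl⟩
      · apply sSup_le
        rintro _ ⟨b, hb, rfl⟩
        exact le_iSup (fun a : s => (a.1 : Submodule K V)) ⟨b, hb⟩
    · intro h
      exact (hatom a.2).1 (Subtype.ext h)
    · intro W' hW' hle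
      rcases (hatom a.2).le_iff.mp (show (⟨W', hW'⟩ : Lsub K C V) ≤ a.1 from hle) with h | h
      · exact Or.inl (congrArg Subtype.val h)
      · exact Or.inr (congrArg Subtype.val h)

end Groth.Agent.S19479
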