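import Groth.Statements.S19502
-- import your own Groth.Agent.* helpers here
import Mathlib

set_option autoImplicit false
universe u
open W4c3ghconstell

namespace Groth.Agent.S19502

/-- Let ι index the irreducible representations, θ : ι → ℚ a weight which is negative exactly on the
finite set D₋, h h' : ι → ℕ with h' ≤ h pointwise (the isotypic dimensions of an object and of a
sub-object) and Σ_i θ_i h_i summable. For a finite set D of indices put S_D = Σ_{i ∉ D} θ_i h_i, d =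
#(D ∖ D₋) and θ̃_D = Σ_{i ∈ D} θ_i h'_i + (S_D / d) · Σ_{i ∈ D ∖ D₋} h'_i / h_i, the modified weight
attached to the parameters chosen for D (a quotient by zero is read as zero). Then for finite sets
D₋ ⊆ D ⊆ D̃ contained in the locus θ ≠ 0: (first error term) θ̃_{D̃} − θ̃_D = Σ_{τ ∈ D̃ ∖ D} (θ_τ
h_τ + S_{D̃}/d̃) · (h'_τ/h_τ − (1/d) Σ_{σ ∈ D ∖ D₋} h'_σ/h_σ); (second error term) Σ_i θ_i h'_i −
θ̃_D = Σ_{τ ∉ D} θ_τ h_τ · (h'_τ/h_τ − (1/d) Σ_{σ ∈ D ∖ D₋} h'_σ/h_σ). -/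
theorem result {ι : Type u} [DecidableEq ι]
    (θ : ι → ℚ) (h h' : ι → ℕ) (hle : ∀ i, h' i ≤ h i) (hfin : {i | θ i < 0}.Finite)
    (hsum : Summable (fun i => (θ i : ℝ) * (h i : ℝ))) (D D' : Finset ι)
    (hDm : hfin.toFinset ⊆ D) (hDD' : D ⊆ D') (hsupp : ∀ i ∈ D', θ i ≠ 0) :
    (((∑ i ∈ D', (θ i : ℝ) * (h' i : ℝ)) + ((∑' i, if i ∈ D' then (0 : ℝ) else (θ i : ℝ) * (h i : ℝ)) / ((D' \ hfin.toFinset).card : ℝ)) * (∑ σ ∈ D' \ hfin.toFinset, ((h' σ : ℝ) / (h σ : ℝ)))) - ((∑ i ∈ D, (θ i : ℝ) * (h' i : ℝ)) + ((∑' i, if i ∈ D then (0 : ℝ) else (θ i : ℝ) * (h i : ℝ)) / ((D \ hfin.toFinset).card : ℝ)) * (∑ σ ∈ D \ hfin.toFinset, ((h' σ : ℝ) / (h σ : ℝ)))) =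
      ∑ τ ∈ D' \ D, ((θ τ : ℝ) * (h τ : ℝ) + (∑' i, if i ∈ D' then (0 : ℝ) else (θ i : ℝ) * (h i : ℝ)) / ((D' \ hfin.toFinset).card : ℝ)) *
        (((h' τ : ℝ) / (h τ : ℝ)) - (1 / ((D \ hfin.toFinset).card : ℝ)) * (∑ σ ∈ D \ hfin.toFinset, ((h' σ : ℝ) / (h σ : ℝ))))) ∧
    ((∑' i, (θ i : ℝ) * (h' i : ℝ)) - ((∑ i ∈ D, (θ i : ℝ) * (h' i : ℝ)) + ((∑' i, if i ∈ D then (0 : ℝ) else (θ i : ℝ) * (h i : ℝ)) / ((D \ hfin.toFinset).card : ℝ)) * (∑ σ ∈ D \ hfin.toFinset, ((h' σ : ℝ) / (h σ : ℝ)))) =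
      ∑' τ, if τ ∈ D then (0 : ℝ) else (θ τ : ℝ) * (h τ : ℝ) *
        (((h' τ : ℝ) / (h τ : ℝ)) - (1 / ((D \ hfin.toFinset).card : ℝ)) * (∑ σ ∈ D \ hfin.toFinset, ((h' σ : ℝ) / (h σ : ℝ))))) := by
  classical
  have hprod : ∀ i, (θ i : ℝ) * (h i : ℝ) * ((h' i : ℝ) / (h i : ℝ)) = (θ i : ℝ) * (h' i : ℝ) := by
    intro i
    by_cases hi : h i = 0
    · have h0 : h' i = 0 := Nat.le_zero.mp (hi ▸ hle i)
      simp [hi, h0]
    · have : (h i : ℝ) ≠ 0 := by exact_mod_cast hi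
      field_simp
  have habs : Summable (fun i => |(θ i : ℝ) * (h i : ℝ)|) := hsum.abs
  have hs' : Summable (fun i => (θ i : ℝ) * (h' i : ℝ)) := by
    refine Summable.of_norm_bounded habs (fun i => ?_)
    rw [Real.norm_eq_abs, abs_mul, abs_mul]
    apply mul_le_mul_of_nonneg_left _ (abs_nonneg _)
    rw [abs_of_nonneg (Nat.cast_nonneg _), abs_of_nonneg (Nat.cast_nonneg _)]
    exact_mod_cast hle i
  have hsE : ∀ (E : Finset ι) (g : ι → ℝ), Summable g →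
      Summable (fun i => if i ∈ E then (0:ℝ) else g i) := by
    intro E g hg
    refine Summable.of_norm_bounded hg.abs (fun i => ?_)
    split_ifs <;> simp
  have hsplit : ∀ (E : Finset ι) (g : ι → ℝ), Summable g →
      ∑' i, g i = ∑ i ∈ E, g i + ∑' i, (if i ∈ E then (0:ℝ) else g i) := by
    intro E g hg
    have e1 : ∀ i, g i = (if i ∈ E then g i else 0) + (if i ∈ E then (0:ℝ) else g i) := by
      intro i; split_ifs <;> simp
    have hfin' : Summable (fun i => if i ∈ E then g i else (0:ℝ)) := by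
      refine Summable.of_norm_bounded hg.abs (fun i => ?_)
      split_ifs <;> simp
    calc ∑' i, g i = ∑' i, ((if i ∈ E then g i else 0) + (if i ∈ E then (0:ℝ) else g i)) :=
          tsum_congr e1
      _ = ∑' i, (if i ∈ E then g i else 0) + ∑' i, (if i ∈ E then (0:ℝ) else g i) :=
          hfin'.tsum_add (hsE E g hg)
      _ = _ := by
        congr 1
        rw [tsum_eq_sum (s := E) (fun b hb => by simp [hb])]
        exact Finset.sum_congr rfl (fun b hb => by simp [hb])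
  set F := hfin.toFinset with hF
  have hunion : D' \ F = (D \ F) ∪ (D' \ D) := by
    ext x
    simp only [Finset.mem_sdiff, Finset.mem_union]
    constructor
    · rintro ⟨h1, h2⟩
      by_cases h3 : x ∈ D
      · exact Or.inl ⟨h3, h2⟩
      · exact Or.inr ⟨h1, h3⟩
    · rintro (⟨h1, h2⟩ | ⟨h1, h2⟩)
      · exact ⟨hDD' h1, h2⟩
      · exact ⟨h1, fun h3 => h2 (hDm h3)⟩
  have hdisj : Disjoint (D \ F) (D' \ D) := by
    rw [Finset.disjoint_left]
    intro x hx hx'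
    simp only [Finset.mem_sdiff] at hx hx'
    exact hx'.2 hx.1
  have hcard : ((D' \ F).card : ℝ) = ((D \ F).card : ℝ) + ((D' \ D).card : ℝ) := by
    rw [hunion, Finset.card_union_of_disjoint hdisj]; push_cast; ring
  have hR : ∑ σ ∈ D' \ F, ((h' σ : ℝ) / (h σ : ℝ)) =
      ∑ σ ∈ D \ F, ((h' σ : ℝ) / (h σ : ℝ)) + ∑ σ ∈ D' \ D, ((h' σ : ℝ) / (h σ : ℝ)) := by
    rw [hunion, Finset.sum_union hdisj]
  have hP : ∑ i ∈ D', (θ i : ℝ) * (h' i : ℝ) =
      ∑ i ∈ D, (θ i : ℝ) * (h' i : ℝ) + ∑ i ∈ D' \ D, (θ i : ℝ) * (h' i : ℝ) := by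
    rw [← Finset.sum_sdiff hDD']; ring
  have hS : (∑' i, if i ∈ D then (0 : ℝ) else (θ i : ℝ) * (h i : ℝ)) =
      (∑' i, if i ∈ D' then (0 : ℝ) else (θ i : ℝ) * (h i : ℝ)) + ∑ i ∈ D' \ D, (θ i : ℝ) * (h i : ℝ) := by
    have := hsplit (D' \ D) (fun i => if i ∈ D then (0:ℝ) else (θ i : ℝ) * (h i : ℝ)) (hsE D _ hsum)
    rw [this, add_comm]
    congr 1
    · apply tsum_congr
      intro i
      by_cases h1 : i ∈ D' <;> by_cases h2 : i ∈ D <;> simp [h1, h2]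
      exact absurd (hDD' h2) h1
    · apply Finset.sum_congr rfl
      intro i hi
      simp only [Finset.mem_sdiff] at hi
      simp [hi.2]
  refine ⟨?_, ?_⟩
  · rw [hP, hR, hcard, hS]
    simp only [add_mul, mul_sub, Finset.sum_add_distrib, Finset.sum_sub_distrib, Finset.sum_const,
      nsmul_eq_mul, ← Finset.mul_sum, ← Finset.sum_mul, hprod]
    rcases eq_or_ne ((D \ F).card) 0 with hn | hn
    · have h0 : D \ F = ∅ := Finset.card_eq_zero.mp hn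
      simp only [h0, Finset.card_empty, Finset.sum_empty, Nat.cast_zero, zero_add, div_zero,
        mul_zero, add_zero, sub_zero]
      ring
    · have hn' : ((D \ F).card : ℝ) ≠ 0 := by exact_mod_cast hn
      have hnm : ((D \ F).card : ℝ) + ((D' \ D).card : ℝ) ≠ 0 := by positivity
      field_simp
      ring
  · have e := hsplit D (fun i => (θ i : ℝ) * (h' i : ℝ)) hs'
    rw [e]
    have e2 : ∀ τ, (if τ ∈ D then (0 : ℝ) else (θ τ : ℝ) * (h τ : ℝ) *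
        (((h' τ : ℝ) / (h τ : ℝ)) - (1 / ((D \ F).card : ℝ)) * (∑ σ ∈ D \ F, ((h' σ : ℝ) / (h σ : ℝ))))) =
        (if τ ∈ D then (0 : ℝ) else (θ τ : ℝ) * (h' τ : ℝ)) -
          ((1 / ((D \ F).card : ℝ)) * (∑ σ ∈ D \ F, ((h' σ : ℝ) / (h σ : ℝ)))) *
            (if τ ∈ D then (0 : ℝ) else (θ τ : ℝ) * (h τ : ℝ)) := by
      intro τ
      split_ifs
      · simp
      · rw [mul_sub, hprod]; ring
    rw [tsum_congr e2, Summable.tsum_sub (hsE D _ hs') ((hsE D _ hsum).mul_left _), tsum_mul_left]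
    ring

end Groth.Agent.S19502
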