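import Groth.Statements.S19550
-- import your own Groth.Agent.* helpers here
import Mathlib

set_option autoImplicit false
universe u
open SchFin SchFin.RSpace

namespace Groth.Agent.S19550

lemma idem_zero_or_one {S : Type*} [CommRing S] [ConnectedSpace (PrimeSpectrum S)] (e : S)
    (he : IsIdempotentElem e) : e = 0 ∨ e = 1 := by
  have hmul : e * (1 - e) = 0 := by rw [mul_sub, mul_one, he.eq, sub_self]
  have hadd : e + (1 - e) = 1 := by ring
  have hcl := PrimeSpectrum.isClopen_basicOpen_of_mul_add e (1 - e) hmul hadd
  have hnil : ∀ x : S, IsIdempotentElem x →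
      ((PrimeSpectrum.basicOpen x : TopologicalSpace.Opens (PrimeSpectrum S)) : Set (PrimeSpectrum S)) = ∅ →
      x = 0 := by
    intro x hx h0
    have : PrimeSpectrum.basicOpen x = ⊥ := by
      ext1; simpa using h0
    rw [PrimeSpectrum.basicOpen_eq_bot_iff] at this
    exact hx.eq_zero_of_isNilpotent this
  rcases isClopen_iff.mp hcl with h | h
  · left; exact hnil e he h
  · right
    have h1 : ((PrimeSpectrum.basicOpen (1 - e) : TopologicalSpace.Opens (PrimeSpectrum S)) :
        Set (PrimeSpectrum S)) = ∅ := by
      have h2 := congrArg (fun U : TopologicalSpace.Opens (PrimeSpectrum S) => (U : Set (PrimeSpectrum S)))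
        (PrimeSpectrum.basicOpen_mul e (1 - e))
      simp only [hmul, TopologicalSpace.Opens.coe_inf, h, Set.univ_inter] at h2
      rw [← h2]
      have : PrimeSpectrum.basicOpen (0 : S) = ⊥ := PrimeSpectrum.basicOpen_zero
      rw [this]; rfl
    have := hnil (1 - e) he.one_sub h1
    exact (sub_eq_zero.mp this).symm

open SchFin in
/-- Let X be a well-connected schematic finite space and f : A → B a morphism of quasi-coherent algebras
between trivial étale covers A ≅ O_X^F and B ≅ O_X^E, F and E finite sets. Then f is induced by a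
map of finite sets φ : E → F. Here the trivial algebras are written out: f is a family of
O_p-algebra maps (F → O_p) → (E → O_p), one for each point p, compatible with the restriction maps,
and the conclusion says f_p(g) = g ∘ φ for every p and g. (The published statement names a map F →
E; a map of algebras of functions O^F → O^E is composition with a map E → F, which is what this row
states.) -/
theorem result (X : RSpace.{u})
    (hX : X.IsSchematic) (hW : X.IsWellConnected) (F E : Type) [Finite F] [Finite E]
    (f : ∀ p : X.pt, (F → X.ring p) →ₐ[X.ring p] (E → X.ring p))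
    (hf : ∀ (p q : X.pt) (h : p ≤ q) (g : F → X.ring p) (e : E),
      X.res h (f p g e) = f q (fun i => X.res h (g i)) e) :
    ∃ φ : E → F, ∀ (p : X.pt) (g : F → X.ring p) (e : E), f p g e = g (φ e) := by
  classical
  cases nonempty_fintype F
  have hconn : ConnectedSpace (PrimeSpectrum (X.sectRing Set.univ)) := hW.1
  have hres1 : ∀ (p q : X.pt) (h : p ≤ q) (i j : F),
      X.res h ((Pi.single i (1 : X.ring p) : F → X.ring p) j) =
        (Pi.single i (1 : X.ring q) : F → X.ring q) j := by
    intro p q h i j
    by_cases hij : j = i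
    · subst hij; simp
    · simp [Pi.single_apply, hij]
  -- the global idempotent sections
  let ε : E → F → X.sectRing Set.univ := fun e i =>
    ⟨fun q => f q.1 (Pi.single i 1) e, by
      intro q q' h
      change X.res h (f q.1 (Pi.single i 1) e) = f q'.1 (Pi.single i 1) e
      rw [hf]
      have h2 : (fun j => X.res h ((Pi.single i (1 : X.ring q.1) : F → X.ring q.1) j)) =
          (Pi.single i (1 : X.ring q'.1) : F → X.ring q'.1) := funext (hres1 _ _ h i)
      rw [h2]⟩
  have hεval : ∀ e i (q : X.pt), (ε e i).1 ⟨q, Set.mem_univ q⟩ = f q (Pi.single i 1) e := fun _ _ _ => rfl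
  have hεidem : ∀ e i, IsIdempotentElem (ε e i) := by
    intro e i
    apply Subtype.ext
    funext q
    change f q.1 (Pi.single i 1) e * f q.1 (Pi.single i 1) e = f q.1 (Pi.single i 1) e
    rw [← Pi.mul_apply, ← map_mul]
    have h2 : (Pi.single i (1 : X.ring q.1) : F → X.ring q.1) * Pi.single i 1 = Pi.single i 1 := by
      funext j
      by_cases hj : j = i
      · subst hj; simp
      · simp [Pi.single_apply, hj]
    rw [h2]
  have hεsum : ∀ e, ∑ i, ε e i = 1 := by
    intro e
    apply Subtype.ext
    funext q
    rw [AddSubmonoidClass.coe_finsetSum, Finset.sum_apply]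
    change ∑ i, f q.1 (Pi.single i 1) e = 1
    rw [← Finset.sum_apply, ← map_sum]
    have : ∑ i, (Pi.single i (1 : X.ring q.1) : F → X.ring q.1) = 1 := by
      funext j; simp [Finset.sum_apply, Pi.single_apply]
    rw [this, map_one]; rfl
  have hεmul : ∀ e i j, i ≠ j → ε e i * ε e j = 0 := by
    intro e i j hij
    apply Subtype.ext
    funext q
    change f q.1 (Pi.single i 1) e * f q.1 (Pi.single j 1) e = 0
    rw [← Pi.mul_apply, ← map_mul]
    have : (Pi.single i (1 : X.ring q.1) : F → X.ring q.1) * Pi.single j 1 = 0 := by
      funext l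
      by_cases hl : l = i
      · subst hl; simp [Pi.single_apply, hij]
      · simp [Pi.single_apply, hl]
    rw [this, map_zero]; rfl
  have hnt : Nontrivial (X.sectRing Set.univ) := by
    obtain ⟨P⟩ := hconn.toNonempty
    exact ⟨⟨0, 1, fun h => P.2.ne_top (by rw [Ideal.eq_top_iff_one, ← h]; exact Ideal.zero_mem _)⟩⟩
  have hex : ∀ e, ∃ i, ε e i = 1 := by
    intro e
    by_contra hno
    push Not at hno
    have h0 : ∀ i, ε e i = 0 := fun i => (idem_zero_or_one _ (hεidem e i)).resolve_right (hno i)
    have := hεsum e
    simp [h0] at this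
  choose φ hφ using hex
  refine ⟨φ, fun p g e => ?_⟩
  have hg : g = ∑ j, g j • (Pi.single j (1 : X.ring p) : F → X.ring p) := by
    funext l; simp [Finset.sum_apply, Pi.single_apply]
  have hδ : ∀ j, f p (Pi.single j 1) e = if j = φ e then 1 else 0 := by
    intro j
    by_cases hj : j = φ e
    · subst hj
      rw [if_pos rfl, ← hεval, hφ]; rfl
    · rw [if_neg hj, ← hεval]
      have h1 := hεmul e (φ e) j (Ne.symm hj)
      rw [hφ, one_mul] at h1
      rw [h1]; rfl
  conv_lhs => rw [hg]
  rw [map_sum, Finset.sum_apply]
  simp only [map_smul, Pi.smul_apply, smul_eq_mul, hδ, mul_ite, mul_one, mul_zero,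
    Finset.sum_ite_eq', Finset.mem_univ, if_true]

end Groth.Agent.S19550
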