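import Groth.Statements.S19571
-- import your own Groth.Agent.* helpers here
import Mathlib

set_option autoImplicit false
universe u
open CategoryTheory AlgebraicGeometry
open EtaPt

namespace Groth.Agent.S19571

/-- Let f : Y → X be a morphism of schemes which is flat, surjective and locally of finite presentation.
Then every affine open U of X is covered by affine opens V each of which is the image f(W) of some
affine open W of Y; stated pointwise: for every x ∈ U there are an affine open V of X with x ∈ V ≤ U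
and an affine open W of Y with f(W) = V as sets. (For such V and W the induced ring map Γ(V) → Γ(W)
is then faithfully flat.) -/
theorem result
    {X Y : Scheme.{u}} (f : Y ⟶ X) [Flat f] [Surjective f] [LocallyOfFinitePresentation f]
    (U : X.affineOpens) (x : X) (hx : x ∈ (U : X.Opens)) :
    ∃ V : X.affineOpens, x ∈ (V : X.Opens) ∧ (V : X.Opens) ≤ (U : X.Opens) ∧
      ∃ W : Y.affineOpens, f.base '' ((W : Y.Opens) : Set Y) = ((V : X.Opens) : Set X) := by
  classical
  obtain ⟨y, hy⟩ := Surjective.surj (f := f) x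
  have hyU : y ∈ f ⁻¹ᵁ (U : X.Opens) := by
    show f y ∈ (U : X.Opens)
    rw [hy]; exact hx
  obtain ⟨W₀, hW₀, hyW₀, hW₀U⟩ := exists_isAffineOpen_mem_and_subset hyU
  have hopen : IsOpen (f.base '' (W₀ : Set Y)) := f.isOpenMap _ W₀.isOpen
  let O : X.Opens := ⟨f.base '' (W₀ : Set Y), hopen⟩
  have hxO : x ∈ O := ⟨y, hyW₀, hy⟩
  obtain ⟨s, hsO, hxs⟩ := U.2.exists_basicOpen_le (V := O) ⟨x, hxO⟩ hx
  refine ⟨⟨X.basicOpen s, U.2.basicOpen s⟩, hxs, X.basicOpen_le s, ?_⟩
  have hle : W₀ ≤ f ⁻¹ᵁ (U : X.Opens) := hW₀U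
  let t : Γ(Y, W₀) := Y.presheaf.map (homOfLE hle).op (f.app (U : X.Opens) s)
  refine ⟨⟨Y.basicOpen t, hW₀.basicOpen t⟩, ?_⟩
  have hW : (Y.basicOpen t : Set Y) = (W₀ : Set Y) ∩ f.base ⁻¹' (X.basicOpen s : Set X) := by
    simp only [t, Scheme.basicOpen_res, ← Scheme.preimage_basicOpen]
    rfl
  show f.base '' (Y.basicOpen t : Set Y) = (X.basicOpen s : Set X)
  rw [hW, Set.image_inter_preimage]
  exact Set.inter_eq_right.mpr hsO

end Groth.Agent.S19571
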