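import Groth.Statements.S19575
import Groth.Agent.Lib.Helper20.EtaPt16

set_option autoImplicit false
universe u
open EtaPt

namespace Groth.Agent.S19575

/-- Let η be the field-endofunctor datum of the pointwise construction, A a commutative ring with
finitely many minimal prime ideals and φ : A → B a ring map inducing a surjection on prime spectra.
If the canonical map A → (B/A)_η (the corestriction of φ onto the subring of B of elements whose
image in ∏_q F(k(q)) comes from M_η(A)) is bijective, then for every f ∈ A the canonical map A_f →
(B_f/A_f)_η attached to the localized map A_f → B_{φ(f)} is bijective as well. -/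
theorem result (η : EtaPt.FieldEndo.{u}) {A B : Type u} [CommRing A] [CommRing B]
    (hA : (minimalPrimes A).Finite) (φ : A →+* B) (hs : Function.Surjective (PrimeSpectrum.comap φ))
    (h : Function.Bijective (η.qRel φ)) (f : A) :
    Function.Bijective (η.qRel (Localization.awayMap φ f)) := by
  rw [Groth.Agent.Lib.Helper20.qRel_bijective_iff] at h ⊢
  refine ⟨Localization.awayMap_injective_iff.mpr (fun a ha => ⟨0, ?_⟩), fun y hy => ?_⟩
  · rw [pow_zero, one_mul]
    exact h.1 (ha.trans (map_zero φ).symm)
  · obtain ⟨x, hx, n, hxn⟩ := Groth.Agent.Lib.Helper20.rel_away_exists η hA φ f y hy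
    obtain ⟨a, rfl⟩ := h.2 x hx
    refine ⟨IsLocalization.mk' (Localization.Away f) a
      (⟨f ^ n, Submonoid.pow_mem _ (Submonoid.mem_powers f) n⟩ : Submonoid.powers f), ?_⟩
    simp only [IsLocalization.Away.map, IsLocalization.map_mk']
    rw [IsLocalization.mk'_eq_iff_eq_mul]
    rw [← hxn]
    simp only [map_pow]

end Groth.Agent.S19575
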