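import Groth.Statements.S19576
import Groth.Agent.Lib.Helper20.EtaPt16

set_option autoImplicit false
universe u
open EtaPt

namespace Groth.Agent.S19576

/-- Let η be the field-endofunctor datum of the pointwise construction, A a commutative ring with
finitely many minimal prime ideals and φ : A → B a ring map inducing a surjection on prime spectra.
If finitely many elements f_1, …, f_n of A generate the unit ideal and, for each i, the canonical
map A_{f_i} → (B_{f_i}/A_{f_i})_η attached to the localized map A_{f_i} → B_{φ(f_i)} is bijective,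
then the canonical map A → (B/A)_η is bijective. -/
theorem result (η : EtaPt.FieldEndo.{u}) {A B : Type u} [CommRing A] [CommRing B]
    (hA : (minimalPrimes A).Finite) (φ : A →+* B) (hs : Function.Surjective (PrimeSpectrum.comap φ))
    (s : Finset A) (hspan : Ideal.span (s : Set A) = ⊤)
    (h : ∀ f ∈ s, Function.Bijective (η.qRel (Localization.awayMap φ f))) :
    Function.Bijective (η.qRel φ) := by
  classical
  rw [Groth.Agent.Lib.Helper20.qRel_bijective_iff]
  refine ⟨?_, fun b hb => ?_⟩
  · rw [injective_iff_map_eq_zero]
    intro a ha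
    have h1 := Submodule.mem_of_span_eq_top_of_smul_pow_mem (⊥ : Submodule A A) (s : Set A) hspan a
      (fun r => by
        obtain ⟨n, hn⟩ := Localization.awayMap_injective_iff.mp
          ((Groth.Agent.Lib.Helper20.qRel_bijective_iff η _).mp (h r.1 r.2)).1 a ha
        exact ⟨n, by rw [smul_eq_mul, hn]; exact Submodule.zero_mem _⟩)
    exact (Submodule.mem_bot A).mp h1
  · let _ : Algebra A B := φ.toAlgebra
    have h1 := Submodule.mem_of_span_eq_top_of_smul_pow_mem
      (LinearMap.range (Algebra.linearMap A B)) (s : Set A) hspan b (fun r => by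
        have hr := (Groth.Agent.Lib.Helper20.qRel_bijective_iff η _).mp (h r.1 r.2)
        have hb' : algebraMap B (Localization.Away (φ r.1)) b ∈
            η.rel (Localization.awayMap φ r.1) :=
          Groth.Agent.Lib.Helper20.rel_away_le η φ r.1 ⟨b, hb, rfl⟩
        obtain ⟨z, hz⟩ := hr.2 _ hb'
        obtain ⟨⟨a, ⟨_, n, rfl⟩⟩, hza⟩ := IsLocalization.mk'_surjective (Submonoid.powers r.1) z
        dsimp only at hza
        rw [← hza] at hz
        simp only [IsLocalization.Away.map, IsLocalization.map_mk'] at hz
        rw [IsLocalization.mk'_eq_iff_eq_mul, ← map_mul] at hz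
        obtain ⟨⟨_, m, rfl⟩, hm⟩ := (IsLocalization.eq_iff_exists (Submonoid.powers (φ r.1)) _).mp hz
        refine ⟨m + n, r.1 ^ m * a, ?_⟩
        show φ (r.1 ^ m * a) = φ (r.1 ^ (m + n)) * b
        simp only [map_mul, map_pow] at hm ⊢
        rw [hm, pow_add]
        ring)
    obtain ⟨a, ha⟩ := h1
    exact ⟨a, ha⟩

end Groth.Agent.S19576
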