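import Groth.Statements.S19577
import Groth.Agent.Lib.Helper20.EtaPt13

set_option autoImplicit false
universe u
open EtaPt

namespace Groth.Agent.S19577

/-- Let f : A → B be a homomorphism of commutative rings, each with only finitely many minimal primes.
Then M_η(f) : M_η(A) → M_η(B) is integral exactly when f is integral, and Spec M_η(f) is surjective
exactly when Spec f is. Here η is the field-endofunctor datum of the pointwise construction, M_η(A)
⊆ ∏_p F(k(p)) the subring attached to A with q_A : A → M_η(A), and M_η(f) : M_η(A) → M_η(B) the ring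
map induced by N_η(f), pinned here as the ring map g compatible with N_η(f) under the two subring
inclusions. -/
theorem result (η : EtaPt.FieldEndo.{u}) {A B : Type u} [CommRing A] [CommRing B]
    (hA : (minimalPrimes A).Finite) (hB : (minimalPrimes B).Finite) (f : A →+* B)
    (g : η.M A →+* η.M B) (hg : ∀ x : η.M A, ((g x : η.M B) : η.N B) = η.Nmap f (x : η.N A)) :
    (f.IsIntegral ↔ g.IsIntegral) ∧
      (Function.Surjective (PrimeSpectrum.comap f) ↔ Function.Surjective (PrimeSpectrum.comap g)) := by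
  have hgq := Groth.Agent.Lib.Helper20.lift_comp_q η f g hg
  have hqA := Groth.Agent.S13802.result η A hA
  have hqB := Groth.Agent.S13802.result η B hB
  have hsA := (Groth.Agent.S13803.result η A hA).1
  have hsB := (Groth.Agent.S13803.result η B hB).1
  refine ⟨⟨fun hf => ?_, fun hgi => ?_⟩, ⟨fun hs => ?_, fun hs => ?_⟩⟩
  · have h1 : ((η.q B).comp f).IsIntegral := RingHom.IsIntegral.trans f (η.q B) hf hqB
    rw [← hgq] at h1
    exact RingHom.IsIntegral.tower_top (η.q A) g h1
  · have h1 : (g.comp (η.q A)).IsIntegral := RingHom.IsIntegral.trans (η.q A) g hqA hgi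
    rw [hgq] at h1
    intro b
    obtain ⟨P, hPm, hP⟩ := h1 (η.q B b)
    have h2 : η.t B (Polynomial.eval₂ f b P) = 0 := by
      have h3 : η.q B (Polynomial.eval₂ f b P) = 0 := by
        rw [Polynomial.hom_eval₂]
        exact hP
      exact congrArg Subtype.val h3
    obtain ⟨n, hn⟩ := Groth.Agent.Lib.Helper20.isNilpotent_of_t_eq_zero η B _ h2
    exact ⟨P ^ n, hPm.pow n, by rw [Polynomial.eval₂_pow, hn]⟩
  · intro Q
    obtain ⟨PB, hPB⟩ := hs (PrimeSpectrum.comap (η.q A) Q)
    obtain ⟨Q'', hQ''⟩ := hsB.2 PB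
    refine ⟨Q'', hsA.1 ?_⟩
    rw [← PrimeSpectrum.comap_comp_apply, hgq, PrimeSpectrum.comap_comp_apply, hQ'', hPB]
  · intro P
    obtain ⟨Q, hQ⟩ := hsA.2 P
    obtain ⟨Q', hQ'⟩ := hs Q
    refine ⟨PrimeSpectrum.comap (η.q B) Q', ?_⟩
    rw [← PrimeSpectrum.comap_comp_apply, ← hgq, PrimeSpectrum.comap_comp_apply, hQ', hQ]

end Groth.Agent.S19577
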