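import Groth.Statements.S19578
import Groth.Agent.Lib.Helper20.EtaPt13

set_option autoImplicit false
universe u
open EtaPt

namespace Groth.Agent.S19578

/-- Let f : A → B be a homomorphism of commutative rings, each with only finitely many minimal primes,
and suppose the induced map M_η(f) : M_η(A) → M_η(B) is an isomorphism. Then Spec f is a bijection
between the prime ideals of B and of A, and for every prime q of B, with p = f⁻¹(q), there is a ring
map φ : k(q) → F(k(p)) whose composite with the residue field map k(p) → k(q) equals η_{k(p)}. Here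
η is the field-endofunctor datum of the pointwise construction, M_η(A) ⊆ ∏_p F(k(p)) the subring
attached to A with q_A : A → M_η(A), and M_η(f) : M_η(A) → M_η(B) the ring map induced by N_η(f),
pinned here as the ring map g compatible with N_η(f) under the two subring inclusions. -/
theorem result (η : EtaPt.FieldEndo.{u}) {A B : Type u} [CommRing A] [CommRing B]
    (hA : (minimalPrimes A).Finite) (hB : (minimalPrimes B).Finite) (f : A →+* B)
    (g : η.M A →+* η.M B) (hg : ∀ x : η.M A, ((g x : η.M B) : η.N B) = η.Nmap f (x : η.N A))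
    (hbij : Function.Bijective g) :
    Function.Bijective (PrimeSpectrum.comap f) ∧
      ∀ Q : PrimeSpectrum B,
        ∃ φ : Q.asIdeal.ResidueField →+* η.obj (PrimeSpectrum.comap f Q).asIdeal.ResidueField,
          φ.comp (Ideal.ResidueField.map (PrimeSpectrum.comap f Q).asIdeal Q.asIdeal f rfl) =
            η.eta (PrimeSpectrum.comap f Q).asIdeal.ResidueField := by
  have hgq := Groth.Agent.Lib.Helper20.lift_comp_q η f g hg
  have hsA := (Groth.Agent.S13803.result η A hA).1
  have hsB := (Groth.Agent.S13803.result η B hB).1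
  let e : η.M A ≃+* η.M B := RingEquiv.ofBijective g hbij
  have hcg : Function.Bijective (PrimeSpectrum.comap g) :=
    (PrimeSpectrum.isHomeomorph_comap_of_bijective hbij).bijective
  have hfun : (PrimeSpectrum.comap f) ∘ (PrimeSpectrum.comap (η.q B)) =
      (PrimeSpectrum.comap (η.q A)) ∘ (PrimeSpectrum.comap g) := by
    funext Q
    simp only [Function.comp]
    rw [← PrimeSpectrum.comap_comp_apply, ← hgq, PrimeSpectrum.comap_comp_apply]
  have hfbij : Function.Bijective (PrimeSpectrum.comap f) :=
    (Function.Bijective.of_comp_iff (PrimeSpectrum.comap f) hsB).mp (hfun ▸ hsA.comp hcg)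
  refine ⟨hfbij, fun Q => ?_⟩
  let ev : B →+* η.obj (PrimeSpectrum.comap f Q).asIdeal.ResidueField :=
    (Groth.Agent.Lib.Helper20.evM η A (PrimeSpectrum.comap f Q)).comp
      ((e.symm : η.M B →+* η.M A).comp (η.q B))
  have hesg : ((e.symm : η.M B →+* η.M A).comp g) = RingHom.id _ :=
    RingHom.ext fun x => e.symm_apply_apply x
  have hcomp : ((e.symm : η.M B →+* η.M A).comp (η.q B)).comp f = η.q A := by
    rw [RingHom.comp_assoc, ← hgq, ← RingHom.comp_assoc, hesg, RingHom.id_comp]
  let Qe : PrimeSpectrum B := PrimeSpectrum.comap ((e.symm : η.M B →+* η.M A).comp (η.q B))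
    (Groth.Agent.Lib.Helper20.kerPt η A (PrimeSpectrum.comap f Q))
  have hQe : PrimeSpectrum.comap f Qe = PrimeSpectrum.comap f Q := by
    show PrimeSpectrum.comap f (PrimeSpectrum.comap _ _) = _
    rw [← PrimeSpectrum.comap_comp_apply, hcomp, Groth.Agent.Lib.Helper20.comap_kerPt]
  have hQeQ : Qe = Q := hfbij.1 hQe
  have hker : Q.asIdeal = RingHom.ker ev := by
    rw [← congrArg PrimeSpectrum.asIdeal hQeQ]
    ext b
    exact Iff.rfl
  have hf₁ : Q.asIdeal ≤ RingHom.ker ev := hker.le
  have hf₂ : Q.asIdeal.primeCompl ≤ (IsUnit.submonoid _).comap ev := by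
    intro y hy
    show IsUnit _
    apply IsUnit.mk0
    intro h0
    apply hy
    rw [hker]
    exact h0
  refine ⟨Ideal.ResidueField.lift Q.asIdeal ev hf₁ hf₂, ?_⟩
  apply Ideal.ResidueField.ringHom_ext
  ext a
  simp only [RingHom.comp_apply]
  have h1 : Ideal.ResidueField.map (PrimeSpectrum.comap f Q).asIdeal Q.asIdeal f rfl
      (algebraMap A _ a) = algebraMap B Q.asIdeal.ResidueField (f a) :=
    Ideal.ResidueField.map_algebraMap _ _ _ _ a
  refine (congrArg (Ideal.ResidueField.lift Q.asIdeal ev hf₁ hf₂) h1).trans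
    ((Ideal.ResidueField.lift_algebraMap Q.asIdeal ev hf₁ hf₂ (f a)).trans ?_)
  show Groth.Agent.Lib.Helper20.evM η A _
    ((((e.symm : η.M B →+* η.M A).comp (η.q B)).comp f) a) = _
  rw [hcomp]
  rfl

end Groth.Agent.S19578
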