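import Groth.Statements.S1959
-- import your own Groth.Agent.* helpers here

set_option autoImplicit false
universe u
open Polynomial
open EtAlg

namespace Groth.Agent.S1959

/-- Let I be an ideal of a ring A, A -> B an integral ring map and b an element of B whose image in B/IB
is idempotent. Then there are d ≥ 1 and a monic polynomial f over A with f(b) = 0 whose reduction
modulo I is x^d (x - 1)^d. -/
theorem result (A B : Type u) [CommRing A] [CommRing B] [Algebra A B]
    [Algebra.IsIntegral A B] (I : Ideal A) (b : B)
    (hb : IsIdempotentElem (Ideal.Quotient.mk (I.map (algebraMap A B)) b)) :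
    ∃ (f : A[X]) (d : ℕ), f.Monic ∧ 1 ≤ d ∧ aeval b f = 0 ∧
      f.map (Ideal.Quotient.mk I) = X ^ d * (X - 1) ^ d := by
  classical
  rcases subsingleton_or_nontrivial A with hA | hA
  · have : Subsingleton B := by
      constructor; intro x y
      have h1 : (1 : B) = 0 := by
        rw [← map_one (algebraMap A B), Subsingleton.elim (1 : A) 0, map_zero]
      rw [← mul_one x, ← mul_one y, h1, mul_zero, mul_zero]
    have : Subsingleton (A ⧸ I) := by
      constructor; intro x y
      obtain ⟨x, rfl⟩ := Ideal.Quotient.mk_surjective x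
      obtain ⟨y, rfl⟩ := Ideal.Quotient.mk_surjective y
      rw [Subsingleton.elim x y]
    refine ⟨X, 1, ?_, le_rfl, Subsingleton.elim _ _, Subsingleton.elim _ _⟩
    exact Subsingleton.elim _ _
  -- b * b - b ∈ I B
  have hbb : b * b - b ∈ I.map (algebraMap A B) := by
    rw [← Ideal.Quotient.eq, map_mul]
    exact hb
  rw [Ideal.map, Submodule.mem_span_set'] at hbb
  obtain ⟨n, c, g, hcg⟩ := hbb
  have hg : ∀ k, ∃ i ∈ I, algebraMap A B i = (g k : B) := fun k => (g k).2
  choose i hiI hig using hg
  set S : Set B := insert b (Set.range c) with hS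
  set B' := Algebra.adjoin A S with hB'
  have hfin : Module.Finite A B' :=
    Algebra.finite_adjoin_of_finite_of_isIntegral ((Set.finite_range c).insert b)
      (fun x _ => Algebra.IsIntegral.isIntegral x)
  have hbB' : b ∈ B' := Algebra.subset_adjoin (Set.mem_insert _ _)
  have hcB' : ∀ k, c k ∈ B' := fun k => Algebra.subset_adjoin (Set.mem_insert_of_mem _ ⟨k, rfl⟩)
  set x : B' := ⟨b * b - b, B'.sub_mem (B'.mul_mem hbB' hbB') hbB'⟩ with hx
  set φ : Module.End A B' := Algebra.lmul A B' x with hφ
  have hφy : ∀ y, φ y = x * y := fun y => rfl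
  have hrange : LinearMap.range φ ≤ I • ⊤ := by
    rintro _ ⟨y, rfl⟩
    have : φ y = ∑ k, i k • (⟨c k, hcB' k⟩ * y) := by
      apply Subtype.ext
      rw [hφy, Subalgebra.coe_mul]
      show (b * b - b) * (y : B) = _
      rw [← hcg, Finset.sum_mul, AddSubmonoidClass.coe_finsetSum]
      refine Finset.sum_congr rfl fun k _ => ?_
      rw [Subalgebra.coe_smul, Subalgebra.coe_mul, ← hig k, smul_eq_mul, Algebra.smul_def]
      ring
    rw [this]
    exact Submodule.sum_mem _ fun k _ => Submodule.smul_mem_smul (hiI k) trivial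
  obtain ⟨p, hpm, -, hpcoeff, hpaeval⟩ :=
    LinearMap.exists_monic_and_natDegree_eq_and_coeff_mem_pow_and_aeval_eq_zero A φ I hrange
  have hpx : aeval x p = 0 := by
    have h1 : Algebra.lmul A B' (aeval x p) = 0 := by
      rw [← Polynomial.aeval_algHom_apply]; exact hpaeval
    have := congrArg (fun ψ : Module.End A B' => ψ 1) h1
    simpa using this
  have hpb : aeval (b * b - b) p = 0 := by
    have := congrArg (fun y : B' => (y : B)) hpx
    simp only [ZeroMemClass.coe_zero] at this
    rw [← this, Polynomial.aeval_subalgebra_coe]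
  have hmapp : p.map (Ideal.Quotient.mk I) = X ^ p.natDegree := by
    ext k
    rw [coeff_map, coeff_X_pow]
    rcases lt_trichotomy k p.natDegree with hk | hk | hk
    · rw [if_neg hk.ne, Ideal.Quotient.eq_zero_iff_mem]
      have := hpcoeff k
      exact Ideal.pow_le_self (by omega) this
    · subst hk
      rw [if_pos rfl, ← leadingCoeff, hpm.leadingCoeff, map_one]
    · rw [if_neg hk.ne', coeff_eq_zero_of_natDegree_lt hk, map_zero]
  set q : A[X] := X * (X - 1) with hq
  have h1m : (X - 1 : A[X]).Monic := by simpa using monic_X_sub_C (1 : A)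
  have h1d : (X - 1 : A[X]).natDegree = 1 := by simpa using natDegree_X_sub_C (1 : A)
  have hqm : q.Monic := monic_X.mul h1m
  · have hqdeg : q.natDegree = 2 := by
      rw [hq, (monic_X).natDegree_mul h1m, natDegree_X, h1d]
    refine ⟨(X * p).comp q, p.natDegree + 1, (monic_X.mul hpm).comp hqm (by omega), by omega, ?_, ?_⟩
    · rw [aeval_comp, map_mul, aeval_X]
      have : aeval b q = b * b - b := by simp [hq, mul_sub]
      rw [this, hpb, mul_zero]
    · rw [map_comp, Polynomial.map_mul, map_X, hmapp, hq, Polynomial.map_mul, map_X, Polynomial.map_sub,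
        map_X, Polynomial.map_one, ← pow_succ', X_pow_comp, mul_pow]

end Groth.Agent.S1959
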