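import Groth.Statements.S19590
-- import your own Groth.Agent.* helpers here
import Mathlib.Tactic.NoncommRing
import Mathlib.GroupTheory.OrderOfElement
import Mathlib.Data.Int.Basic
import Mathlib.RingTheory.Int.Basic

set_option autoImplicit false
open BddFin

namespace Groth.Agent.S19590

theorem pow_one_add_expand {R : Type*} [Ring R] (x : R) (p : ℕ) :
    ∃ y : R, (1 + x) ^ p = 1 + (p : ℤ) • x + x ^ 2 * y := by
  induction p with
  | zero => exact ⟨0, by simp⟩
  | succ p ih =>
    obtain ⟨y, hy⟩ := ih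
    refine ⟨(p : ℤ) • (1 : R) + y + y * x, ?_⟩
    rw [pow_succ, hy]
    have e1 : ((p : ℤ) • x) * x = x ^ 2 * ((p : ℤ) • (1 : R)) := by
      rw [smul_mul_assoc, mul_smul_comm, mul_one, pow_two]
    calc (1 + (p : ℤ) • x + x ^ 2 * y) * (1 + x)
        = 1 + x + (p : ℤ) • x + ((p : ℤ) • x) * x + x ^ 2 * y + x ^ 2 * y * x := by noncomm_ring
      _ = 1 + x + (p : ℤ) • x + x ^ 2 * ((p : ℤ) • (1 : R)) + x ^ 2 * y + x ^ 2 * y * x := by rw [e1]
      _ = 1 + ((p + 1 : ℕ) : ℤ) • x + x ^ 2 * ((p : ℤ) • (1 : R) + y + y * x) := by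
          push_cast; rw [add_smul, one_smul]; noncomm_ring

theorem mat_key {n : ℕ} (M : Matrix (Fin n) (Fin n) ℤ) (p : ℕ) (hp : p.Prime) (hM : M ^ p = 1)
    (j : ℕ) (C : Matrix (Fin n) (Fin n) ℤ) (hMC : M = 1 + ((3 : ℤ) ^ (j + 1)) • C) :
    ∀ a b, (3 : ℤ) ∣ C a b := by
  set x : Matrix (Fin n) (Fin n) ℤ := ((3 : ℤ) ^ (j + 1)) • C with hx
  have hxp : (1 + x) ^ p = 1 := by rw [← hMC]; exact hM
  by_cases hp3 : p = 3
  · subst hp3
    have hexp : (1 + x) ^ 3 = 1 + ((3 : ℤ) • x + (3 : ℤ) • (x * x) + x * x * x) := by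
      simp only [zsmul_eq_mul]
      push_cast
      noncomm_ring
    rw [hexp] at hxp
    have h0 : (3 : ℤ) • x + (3 : ℤ) • (x * x) + x * x * x = 0 := add_eq_left.mp hxp
    have h1 : ((3 : ℤ) ^ (j + 2)) • (C + ((3 : ℤ) ^ (j + 1)) • (C * C) +
        ((3 : ℤ) ^ (2 * j + 1)) • (C * C * C)) = 0 := by
      rw [← h0, hx]
      simp only [smul_add, Matrix.smul_mul, Matrix.mul_smul, smul_smul]
      congr 1
      · congr 1
        · congr 1; ring
        · congr 1; ring
      · congr 1; ring
    have h2 : C + ((3 : ℤ) ^ (j + 1)) • (C * C) + ((3 : ℤ) ^ (2 * j + 1)) • (C * C * C) = 0 := by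
      have hne : ((3 : ℤ) ^ (j + 2)) ≠ 0 := pow_ne_zero _ (by norm_num)
      exact (smul_eq_zero.mp h1).resolve_left hne
    intro a b
    have h3 := congrFun (congrFun h2 a) b
    simp only [Matrix.add_apply, Matrix.smul_apply, smul_eq_mul, Matrix.zero_apply] at h3
    have : C a b = -(3 * ((3 : ℤ) ^ j * (C * C) a b + (3 : ℤ) ^ (2 * j) * (C * C * C) a b)) := by
      rw [pow_succ, pow_succ] at h3
      linarith
    rw [this]
    exact Dvd.dvd.neg_right (dvd_mul_right 3 _)
  · obtain ⟨y, hy⟩ := pow_one_add_expand x p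
    rw [hy, add_assoc] at hxp
    have h0 : (p : ℤ) • x + x ^ 2 * y = 0 := add_eq_left.mp hxp
    have h1 : ((3 : ℤ) ^ (j + 1)) • ((p : ℤ) • C + ((3 : ℤ) ^ (j + 1)) • (C * C * y)) = 0 := by
      rw [← h0, hx]
      simp only [smul_add, Matrix.smul_mul, Matrix.mul_smul, smul_smul, pow_two]
      congr 1
      · congr 1; ring
    have h2 : (p : ℤ) • C + ((3 : ℤ) ^ (j + 1)) • (C * C * y) = 0 := by
      have hne : ((3 : ℤ) ^ (j + 1)) ≠ 0 := pow_ne_zero _ (by norm_num)
      exact (smul_eq_zero.mp h1).resolve_left hne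
    intro a b
    have h3 := congrFun (congrFun h2 a) b
    simp only [Matrix.add_apply, Matrix.smul_apply, smul_eq_mul, Matrix.zero_apply] at h3
    have h4 : (3 : ℤ) ∣ (p : ℤ) * C a b := by
      have : (p : ℤ) * C a b = -(3 * ((3 : ℤ) ^ j * (C * C * y) a b)) := by
        rw [pow_succ] at h3
        linarith
      rw [this]
      exact Dvd.dvd.neg_right (dvd_mul_right 3 _)
    have hprime : Prime (3 : ℤ) := Int.prime_iff_natAbs_prime.mpr Nat.prime_three
    rcases hprime.dvd_or_dvd h4 with h5 | h5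
    · exfalso
      have h6 : (3 : ℕ) ∣ p := by exact_mod_cast h5
      have := (Nat.prime_dvd_prime_iff_eq Nat.prime_three hp).mp h6
      exact hp3 this.symm
    · exact h5

theorem mat_main {n : ℕ} (M : Matrix (Fin n) (Fin n) ℤ) (p : ℕ) (hp : p.Prime) (hM : M ^ p = 1)
    (h3 : ∀ a b, (3 : ℤ) ∣ (M - 1) a b) : M = 1 := by
  have key : ∀ j : ℕ, ∀ a b, (3 : ℤ) ^ (j + 1) ∣ (M - 1) a b := by
    intro j
    induction j with
    | zero => simpa using h3
    | succ j ih =>
      let C : Matrix (Fin n) (Fin n) ℤ := Matrix.of fun a b => (M - 1) a b / 3 ^ (j + 1)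
      have hN : M - 1 = ((3 : ℤ) ^ (j + 1)) • C := by
        ext a b
        simp only [C, Matrix.smul_apply, Matrix.of_apply, smul_eq_mul]
        exact (Int.mul_ediv_cancel' (ih a b)).symm
      have hMC : M = 1 + ((3 : ℤ) ^ (j + 1)) • C := by rw [← hN]; abel
      have hC := mat_key M p hp hM j C hMC
      intro a b
      rw [hN, Matrix.smul_apply, smul_eq_mul, pow_succ (3 : ℤ) (j + 1)]
      exact mul_dvd_mul_left _ (hC a b)
  have hz : M - 1 = 0 := by
    ext a b
    have hd := key ((M - 1) a b).natAbs a b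
    apply Int.eq_zero_of_dvd_of_natAbs_lt_natAbs hd
    rw [Int.natAbs_pow]
    have h1 : ((M - 1) a b).natAbs + 1 < 3 ^ (((M - 1) a b).natAbs + 1) :=
      Nat.lt_pow_self (by norm_num)
    simp only [Int.reduceAbs] at *
    omega
  exact sub_eq_zero.mp hz

/-- For every n, the orders of the finite subgroups of GL_n(ℤ) are bounded: there is B such that every
finite subgroup of GL_n(ℤ) has at most B elements. -/
theorem result (n : ℕ) :
    ∃ B : ℕ, ∀ H : Subgroup (Matrix.GeneralLinearGroup (Fin n) ℤ), Finite H → Nat.card H ≤ B := by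
  classical
  refine ⟨Nat.card (Matrix.GeneralLinearGroup (Fin n) (ZMod 3)), ?_⟩
  intro H hH
  let ρ : Matrix.GeneralLinearGroup (Fin n) ℤ →* Matrix.GeneralLinearGroup (Fin n) (ZMod 3) :=
    Matrix.GeneralLinearGroup.map (Int.castRingHom (ZMod 3))
  have hinj : Function.Injective (fun h : H => ρ h) := by
    intro g h hgh
    by_contra hne
    set k : H := g⁻¹ * h with hkdef
    have hk1 : k ≠ 1 := by
      intro e
      apply hne
      have : g⁻¹ * h = 1 := e
      rw [inv_mul_eq_one] at this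
      exact this
    have hρk : ρ (k : Matrix.GeneralLinearGroup (Fin n) ℤ) = 1 := by
      have hgh' : ρ g = ρ h := hgh
      simp only [k, Subgroup.coe_mul, Subgroup.coe_inv, map_mul, map_inv, hgh', inv_mul_cancel]
    have hfin : IsOfFinOrder k := isOfFinOrder_of_finite k
    have hd : orderOf k ≠ 0 := hfin.orderOf_pos.ne'
    have hd1 : orderOf k ≠ 1 := by rwa [Ne, orderOf_eq_one_iff]
    obtain ⟨p, hp, hpd⟩ := Nat.exists_prime_and_dvd hd1
    set k' : H := k ^ (orderOf k / p) with hk'def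
    have hk'o : orderOf k' = p := orderOf_pow_orderOf_div hd hpd
    let M : Matrix (Fin n) (Fin n) ℤ := Units.val (k' : Matrix.GeneralLinearGroup (Fin n) ℤ)
    have hMp : M ^ p = 1 := by
      have e : k' ^ p = 1 := by rw [← hk'o]; exact pow_orderOf_eq_one k'
      have := congrArg (fun z : H => Units.val (z : Matrix.GeneralLinearGroup (Fin n) ℤ)) e
      simpa [M] using this
    have hρk' : ρ (k' : Matrix.GeneralLinearGroup (Fin n) ℤ) = 1 := by
      simp only [k', SubgroupClass.coe_pow, map_pow, hρk, one_pow]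
    have h3 : ∀ a b, (3 : ℤ) ∣ (M - 1) a b := by
      intro a b
      have := congrArg (fun z : Matrix.GeneralLinearGroup (Fin n) (ZMod 3) =>
        (z : Matrix (Fin n) (Fin n) (ZMod 3)) a b) hρk'
      simp only [ρ, Matrix.GeneralLinearGroup.map_apply, Units.val_one] at this
      have hz : (((M - 1) a b : ℤ) : ZMod 3) = 0 := by
        have e2 : (((M - 1) a b : ℤ) : ZMod 3) =
            ((M a b : ℤ) : ZMod 3) - (((1 : Matrix (Fin n) (Fin n) ℤ) a b : ℤ) : ZMod 3) := by
          simp [Matrix.sub_apply]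
        rw [e2, sub_eq_zero]
        simp only [M]
        rw [show ((Units.val (k' : Matrix.GeneralLinearGroup (Fin n) ℤ) a b : ℤ) : ZMod 3) =
          (Int.castRingHom (ZMod 3)) (Units.val (k' : Matrix.GeneralLinearGroup (Fin n) ℤ) a b) from rfl, this]
        by_cases hab : a = b
        · subst hab; simp
        · simp [Matrix.one_apply_ne hab]
      have := (ZMod.intCast_zmod_eq_zero_iff_dvd _ 3).mp hz
      exact_mod_cast this
    have hM1 : M = 1 := mat_main M p hp hMp h3
    have : k' = 1 := by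
      apply Subtype.ext
      apply Units.ext
      exact hM1
    rw [this, orderOf_one] at hk'o
    exact hp.one_lt.ne hk'o
  exact Nat.card_le_card_of_injective _ hinj

end Groth.Agent.S19590
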