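import Groth.Statements.S19591
-- import your own Groth.Agent.* helpers here

set_option autoImplicit false
universe u v
open BddFin

namespace Groth.Agent.S19591

/-- Let K be a perfect field of characteristic 2, V a finite-dimensional K-vector space with dim V > 2
and q a quadratic form on V whose polar bilinear form is non-degenerate. Then q represents zero
non-trivially. (Non-degeneracy of the polar form, which is alternating in characteristic 2, forces
dim V to be even, as the published lemma notes.) -/
theorem result
    (K : Type u) [Field K] [CharP K 2] [PerfectField K]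
    (V : Type v) [AddCommGroup V] [Module K V] [FiniteDimensional K V]
    (hV : 2 < Module.finrank K V) (q : QuadraticForm K V)
    (hq : (QuadraticMap.polarBilin q).Nondegenerate) :
    ∃ v : V, v ≠ 0 ∧ q v = 0 := by
  classical
  have h2 : (2 : K) = 0 := CharTwo.two_eq_zero
  have hpos : 0 < Module.finrank K V := by omega
  obtain ⟨e1, he1⟩ := Module.finrank_pos_iff_exists_ne_zero.mp hpos
  let f : V →ₗ[K] K := QuadraticMap.polarBilin q e1
  have hrk := LinearMap.finrank_range_add_finrank_ker f
  have hr : Module.finrank K (LinearMap.range f) ≤ 1 := by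
    have := Submodule.finrank_le (LinearMap.range f)
    simpa using this
  have hker : 2 ≤ Module.finrank K (LinearMap.ker f) := by omega
  have hspan : Module.finrank K (K ∙ e1) = 1 := finrank_span_singleton he1
  have hnle : ¬ LinearMap.ker f ≤ K ∙ e1 := by
    intro hle
    have := Submodule.finrank_mono hle
    omega
  obtain ⟨e2, he2k, he2s⟩ := Set.not_subset.mp hnle
  have hB : QuadraticMap.polar q e1 e2 = 0 := by
    have : f e2 = 0 := he2k
    simpa [f, QuadraticMap.polarBilin_apply_apply] using this
  obtain ⟨α, hα⟩ := surjective_frobenius K 2 (q e1)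
  obtain ⟨β, hβ⟩ := surjective_frobenius K 2 (q e2)
  simp only [frobenius_def] at hα hβ
  by_cases ha0 : α = 0
  · refine ⟨e1, he1, ?_⟩
    rw [← hα, ha0]; ring
  · refine ⟨β • e1 + α • e2, ?_, ?_⟩
    · intro h0
      apply he2s
      have : e2 = (-(β / α)) • e1 := by
        have h' : α • e2 = -(β • e1) := eq_neg_of_add_eq_zero_right h0
        calc e2 = α⁻¹ • (α • e2) := by rw [smul_smul, inv_mul_cancel₀ ha0, one_smul]
          _ = α⁻¹ • (-(β • e1)) := by rw [h']
          _ = (-(β / α)) • e1 := by rw [smul_neg, smul_smul, neg_smul]; congr 1; field_simp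
      rw [this]
      exact Submodule.smul_mem _ _ (Submodule.mem_span_singleton_self e1)
    · rw [QuadraticMap.map_add (⇑q), QuadraticMap.map_smul, QuadraticMap.map_smul,
        QuadraticMap.polar_smul_left, QuadraticMap.polar_smul_right, hB, ← hα, ← hβ]
      simp only [smul_eq_mul, mul_zero, add_zero]
      linear_combination (α ^ 2 * β ^ 2) * h2

end Groth.Agent.S19591
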