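import Groth.Statements.S1960
-- import your own Groth.Agent.* helpers here

set_option autoImplicit false
universe u
open EtAlg

namespace Groth.Agent.S1960

/-- For a ring map φ : R -> S and ideals I of R and J of S such that V(I) does not meet the closure in
Spec R of the image of V(J), some f in R is congruent to 1 modulo I and has φ(f) in J. -/
theorem result {R S : Type u} [CommRing R] [CommRing S] (φ : R →+* S) (I : Ideal R)
    (J : Ideal S)
    (h : Disjoint (closure (PrimeSpectrum.comap φ '' PrimeSpectrum.zeroLocus (J : Set S))) (PrimeSpectrum.zeroLocus (I : Set R))) :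
    ∃ f : R, f - 1 ∈ I ∧ φ f ∈ J := by
  rw [show PrimeSpectrum.zeroLocus (J : Set S) = PrimeSpectrum.zeroLocus ((J : Ideal S) : Set S) from rfl,
    PrimeSpectrum.closure_image_comap_zeroLocus] at h
  have htop : J.comap φ ⊔ I = ⊤ := by
    rw [← PrimeSpectrum.zeroLocus_empty_iff_eq_top, PrimeSpectrum.zeroLocus_sup]
    exact Set.disjoint_iff_inter_eq_empty.mp h
  have h1 : (1 : R) ∈ J.comap φ ⊔ I := by rw [htop]; trivial
  obtain ⟨a, ha, b, hb, hab⟩ := Submodule.mem_sup.mp h1
  refine ⟨a, ?_, ha⟩
  have : a - 1 = -b := by rw [← hab]; ring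
  rw [this]
  exact I.neg_mem hb

end Groth.Agent.S1960
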