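import Groth.Statements.S19609
-- import your own Groth.Agent.* helpers here

set_option autoImplicit false
universe u
open CartMod

namespace Groth.Agent.S19609

theorem mem_pow_smul_top {R : Type*} [CommRing R] (x : R) (n : ℕ) (y : R) :
    y ∈ ((Ideal.span {x}) ^ n • (⊤ : Submodule R R)) ↔ ∃ c, y = x ^ n * c := by
  have h : ((Ideal.span {x}) ^ n • (⊤ : Submodule R R)) = Ideal.span {x ^ n} := by
    rw [Ideal.span_singleton_pow]
    exact (Ideal.smul_eq_mul _ _).trans (Ideal.mul_top _)
  rw [h, Ideal.mem_span_singleton']
  constructor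
  · rintro ⟨a, rfl⟩; exact ⟨a, mul_comm _ _⟩
  · rintro ⟨c, rfl⟩; exact ⟨c, mul_comm _ _⟩

/-- Let p be a prime and u : A → B a ring homomorphism between commutative rings which are complete and
separated for the p-adic topology and have no p-torsion (flat over the p-adic base). If u induces a
bijection A/pA → B/pB (injectivity: u a ∈ pB forces a ∈ pA; surjectivity: every b ∈ B is congruent
to some u a modulo pB), then u is bijective. (The published statement is for a morphism of flat
p-adic formal schemes over the Witt vectors of a perfect field: if its special fibre is an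
isomorphism, so is the morphism; this row is its affine, ring-level case.) -/
theorem result (p : ℕ) [Fact p.Prime]
    {A B : Type u} [CommRing A] [CommRing B]
    [IsAdicComplete (Ideal.span {(p : A)}) A] [IsAdicComplete (Ideal.span {(p : B)}) B]
    (hA : IsSMulRegular A (p : A)) (hB : IsSMulRegular B (p : B)) (u : A →+* B)
    (hinj : ∀ a : A, u a ∈ Ideal.span {(p : B)} → a ∈ Ideal.span {(p : A)})
    (hsurj : ∀ b : B, ∃ a : A, b - u a ∈ Ideal.span {(p : B)}) :
    Function.Bijective u := by
  classical
  have hBp : ∀ (n : ℕ) (y : B), (p : B) ^ n * y = 0 → y = 0 := by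
    intro n y hy
    have hreg : IsSMulRegular B ((p : B) ^ n) := hB.pow n
    apply hreg
    simp only [smul_eq_mul, mul_zero]
    exact hy
  have hpB : ∀ y : B, y ∈ Ideal.span {(p : B)} ↔ ∃ c, y = (p : B) * c := by
    intro y
    rw [Ideal.mem_span_singleton']
    constructor
    · rintro ⟨a, rfl⟩; exact ⟨a, mul_comm _ _⟩
    · rintro ⟨c, rfl⟩; exact ⟨c, mul_comm _ _⟩
  have hpA : ∀ y : A, y ∈ Ideal.span {(p : A)} ↔ ∃ c, y = (p : A) * c := by
    intro y
    rw [Ideal.mem_span_singleton']
    constructor
    · rintro ⟨a, rfl⟩; exact ⟨a, mul_comm _ _⟩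
    · rintro ⟨c, rfl⟩; exact ⟨c, mul_comm _ _⟩
  constructor
  · rw [injective_iff_map_eq_zero]
    intro a ha
    have hall : ∀ n : ℕ, ∃ c, a = (p : A) ^ n * c := by
      intro n
      induction n with
      | zero => exact ⟨a, by simp⟩
      | succ n ih =>
        obtain ⟨c, hc⟩ := ih
        have huc : u c = 0 := by
          apply hBp n
          rw [← map_natCast u p, ← map_pow, ← map_mul, ← hc, ha]
        have := hinj c (by rw [huc]; exact Submodule.zero_mem _)
        obtain ⟨c', hc'⟩ := (hpA c).mp this
        exact ⟨c', by rw [hc, hc', pow_succ, mul_assoc]⟩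
    apply IsHausdorff.haus' (I := Ideal.span {(p : A)}) a
    intro n
    rw [SModEq.sub_mem, sub_zero, mem_pow_smul_top]
    exact hall n
  · intro b
    choose nxt hnxt using hsurj
    have hrest : ∀ y : B, ∃ z, y - u (nxt y) = (p : B) * z := fun y => (hpB _).mp (hnxt y)
    choose rest hrest using hrest
    let y : ℕ → B := fun n => rest^[n] b
    let s : ℕ → A := fun n => ∑ i ∈ Finset.range n, (p : A) ^ i * nxt (y i)
    have hys : ∀ n, b - u (s n) = (p : B) ^ n * y n := by
      intro n
      induction n with
      | zero => simp [s, y]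
      | succ n ih =>
        have hy : y (n + 1) = rest (y n) := Function.iterate_succ_apply' rest n b
        simp only [s, Finset.sum_range_succ, map_add, map_mul, map_pow, map_natCast] at ih ⊢
        rw [hy, pow_succ, mul_assoc, ← hrest (y n), mul_sub, ← ih]
        ring
    have hsm : ∀ m n, m ≤ n → ∃ c, s n - s m = (p : A) ^ m * c := by
      intro m n hmn
      induction n, hmn using Nat.le_induction with
      | base => exact ⟨0, by simp⟩
      | succ n hmn ih =>
        obtain ⟨c, hc⟩ := ih
        refine ⟨c + (p : A) ^ (n - m) * nxt (y n), ?_⟩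
        have : s (n + 1) = s n + (p : A) ^ n * nxt (y n) := Finset.sum_range_succ _ _
        rw [this, add_sub_right_comm, hc, mul_add, ← mul_assoc, ← pow_add,
          Nat.add_sub_cancel' hmn]
    obtain ⟨L, hL⟩ := IsPrecomplete.prec' (I := Ideal.span {(p : A)}) s (by
      intro m n hmn
      rw [SModEq.sub_mem, mem_pow_smul_top]
      obtain ⟨c, hc⟩ := hsm m n hmn
      exact ⟨-c, by rw [← neg_sub, hc, mul_neg]⟩)
    refine ⟨L, ?_⟩
    have h0 : b - u L = 0 := by
      apply IsHausdorff.haus' (I := Ideal.span {(p : B)}) (b - u L)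
      intro n
      rw [SModEq.sub_mem, sub_zero, mem_pow_smul_top]
      have h1 := hL n
      rw [SModEq.sub_mem, mem_pow_smul_top] at h1
      obtain ⟨c, hc⟩ := h1
      refine ⟨y n + u c, ?_⟩
      have : b - u L = (b - u (s n)) + u (s n - L) := by rw [map_sub]; ring
      rw [this, hys n, hc, map_mul, map_pow, map_natCast, mul_add]
    exact (sub_eq_zero.mp h0).symm

end Groth.Agent.S19609
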