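import Groth.Statements.S19651
-- import your own Groth.Agent.* helpers here

set_option autoImplicit false
universe u v
open AbVar

namespace Groth.Agent.S19651

theorem reverse_pow' {k : Type*} [Field k] (P : Polynomial k) (n : ℕ) :
    (P ^ n).reverse = P.reverse ^ n := by
  induction n with
  | zero => simp only [pow_zero]; simpa using Polynomial.reverse_C (1 : k)
  | succ n ih => rw [pow_succ, Polynomial.reverse_mul_of_domain, ih, pow_succ]

theorem inv_pow' {k : Type*} [Field k] {V : Type*} [AddCommGroup V] [Module k V]
    (B : LinearMap.BilinForm k V) (M : V ≃ₗ[k] V)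
    (hM : ∀ x y : V, B (M x) (M y) = B x y) (i : ℕ) (u w : V) :
    B (((M : V →ₗ[k] V) ^ i) u) (((M : V →ₗ[k] V) ^ i) w) = B u w := by
  induction i generalizing u w with
  | zero => simp
  | succ i ih =>
    rw [pow_succ, Module.End.mul_apply, Module.End.mul_apply, ih]
    exact hM u w

theorem key_rev {k : Type*} [Field k] {V : Type*} [AddCommGroup V] [Module k V]
    (B : LinearMap.BilinForm k V) (M : V ≃ₗ[k] V)
    (hM : ∀ x y : V, B (M x) (M y) = B x y) (P : Polynomial k) (x z : V) :
    B x ((Polynomial.aeval (M : V →ₗ[k] V) P.reverse) z) =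
      B ((Polynomial.aeval (M : V →ₗ[k] V) P) x) (((M : V →ₗ[k] V) ^ P.natDegree) z) := by
  set D := P.natDegree
  have h1 : Polynomial.aeval (M : V →ₗ[k] V) P.reverse =
      ∑ i ∈ Finset.range (D + 1), P.coeff i • (M : V →ₗ[k] V) ^ (D - i) := by
    rw [Polynomial.aeval_eq_sum_range' (Nat.lt_succ_of_le (Polynomial.reverse_natDegree_le P))]
    rw [← Finset.sum_range_reflect]
    apply Finset.sum_congr rfl
    intro i hi
    have hi' : i ≤ D := Nat.lt_succ_iff.mp (Finset.mem_range.mp hi)
    rw [Polynomial.coeff_reverse, Polynomial.revAt_le (by omega),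
      show D + 1 - 1 - i = D - i by omega, show D - (D - i) = i by omega]
  have h2 : Polynomial.aeval (M : V →ₗ[k] V) P =
      ∑ i ∈ Finset.range (D + 1), P.coeff i • (M : V →ₗ[k] V) ^ i :=
    Polynomial.aeval_eq_sum_range _
  rw [h1, h2]
  simp only [LinearMap.sum_apply, LinearMap.smul_apply, map_sum, map_smul, smul_eq_mul]
  apply Finset.sum_congr rfl
  intro i hi
  have hi' : i ≤ D := Nat.lt_succ_iff.mp (Finset.mem_range.mp hi)
  congr 1
  rw [← inv_pow' B M hM i x (((M : V →ₗ[k] V) ^ (D - i)) z), ← Module.End.mul_apply, ← pow_add,
    Nat.add_sub_cancel' hi']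

open Polynomial in
/-- Stated for an arbitrary invariant bilinear form, as the argument there allows. Let k be a field, V a
k-vector space with a bilinear form B and M a linear automorphism of V with B(Mx, My) = B(x, y) for
all x, y. If Q₁ and Q₂ are polynomials such that the reciprocal polynomial of Q₁ (its coefficient
list reversed) is coprime to Q₂, then every vector killed by a power of Q₁(M) is B-orthogonal to
every vector killed by a power of Q₂(M). With Q₁ = Q₂ = Q this says that the generalized kernel of
Q(M) is totally isotropic whenever Q is coprime to its reciprocal polynomial, which for an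
irreducible Q means that Q is not self-reciprocal. (The published statement takes M symplectic and
Q₁, Q₂ irreducible factors of the characteristic polynomial, with Q not self-reciprocal in the first
clause; its second clause asks Q₁ and Q₂ to be distinct and not reciprocal, which holds as proved
when this is read as saying that Q₂ is not the reciprocal of Q₁, but fails if it only means that
neither is self-reciprocal, as the diagonal matrix with entries 2 and 1/2 preserving the standard
alternating form on k² shows; the coprimality of the reciprocal of Q₁ with Q₂, which is what the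
published proof uses, is imposed here and covers both clauses.) -/
theorem result
    {k : Type u} [Field k] {V : Type v} [AddCommGroup V] [Module k V]
    (B : LinearMap.BilinForm k V) (M : V ≃ₗ[k] V)
    (hM : ∀ x y : V, B (M x) (M y) = B x y)
    (Q₁ Q₂ : k[X]) (h : IsCoprime Q₁.reverse Q₂)
    (x y : V)
    (hx : ∃ n : ℕ, (Polynomial.aeval (M : V →ₗ[k] V) Q₁ ^ n) x = 0)
    (hy : ∃ n : ℕ, (Polynomial.aeval (M : V →ₗ[k] V) Q₂ ^ n) y = 0) :
    B x y = 0 := by
  obtain ⟨n, hxn⟩ := hx
  obtain ⟨m, hym⟩ := hy
  rw [← map_pow] at hxn hym
  have hcop : IsCoprime (Q₁ ^ n).reverse (Q₂ ^ m) := by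
    rw [reverse_pow']
    exact h.pow
  obtain ⟨a, b, hab⟩ := hcop
  have hy' : y = (Polynomial.aeval (M : V →ₗ[k] V) (Q₁ ^ n).reverse)
      ((Polynomial.aeval (M : V →ₗ[k] V) a) y) := by
    have e := congrArg (fun q => (Polynomial.aeval (M : V →ₗ[k] V) q) y) hab
    simp only [map_add, map_mul, map_one, LinearMap.add_apply, Module.End.mul_apply,
      Module.End.one_apply, hym, map_zero, add_zero] at e
    conv_lhs => rw [← e]
    rw [← Module.End.mul_apply, ← Module.End.mul_apply, ← map_mul, ← map_mul, mul_comm]
  rw [hy', key_rev B M hM (Q₁ ^ n) x, hxn, LinearMap.map_zero₂]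

end Groth.Agent.S19651
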