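import Groth.Statements.S19652
-- import your own Groth.Agent.* helpers here
import Groth.Agent.S19651
import Mathlib.RingTheory.Artinian.Module

set_option autoImplicit false
universe u v
open AbVar

namespace Groth.Agent.S19652

theorem ker_pow_mono' {k : Type*} [Field k] {V : Type*} [AddCommGroup V] [Module k V]
    (f : Module.End k V) : Monotone (fun n : ℕ => LinearMap.ker (f ^ n)) := by
  intro n m hnm x hx
  simp only [LinearMap.mem_ker] at hx ⊢
  rw [← Nat.sub_add_cancel hnm, pow_add, Module.End.mul_apply, hx, map_zero]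

open Polynomial in
/-- Stated for an arbitrary invariant nondegenerate bilinear form, as the argument there allows. Let k
be a field, V a finite-dimensional k-vector space with a nondegenerate bilinear form B and M a
linear automorphism of V with B(Mx, My) = B(x, y) for all x, y. If Q is a polynomial associated to
its own reciprocal polynomial (its coefficient list reversed), then B restricted to the generalized
kernel of Q(M), the union of the kernels of the powers Q(M)^n, is nondegenerate. (The published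
statement takes M symplectic and Q a self-reciprocal divisor of the characteristic polynomial;
divisibility plays no role and is not assumed.) -/
theorem result
    {k : Type u} [Field k] {V : Type v} [AddCommGroup V] [Module k V] [FiniteDimensional k V]
    (B : LinearMap.BilinForm k V) (hB : B.Nondegenerate) (M : V ≃ₗ[k] V)
    (hM : ∀ x y : V, B (M x) (M y) = B x y)
    (Q : k[X]) (hQ : Associated Q Q.reverse) :
    (B.restrict (⨆ n : ℕ, LinearMap.ker (Polynomial.aeval (M : V →ₗ[k] V) Q ^ n))).Nondegenerate := by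
  classical
  set f : Module.End k V := Polynomial.aeval (M : V →ₗ[k] V) Q with hf
  obtain ⟨u, hu⟩ := hQ
  have hu' : ∃ c : k, c ≠ 0 ∧ Q.reverse = Q * Polynomial.C c := by
    obtain ⟨c, hc, hcu⟩ := Polynomial.isUnit_iff.mp u.isUnit
    exact ⟨c, hc.ne_zero, by rw [← hu, ← hcu]⟩
  obtain ⟨c, hc0, hc⟩ := hu'
  have hfN : ∀ N : ℕ, f ^ N = (c⁻¹) ^ N • Polynomial.aeval (M : V →ₗ[k] V) (Q ^ N).reverse := by
    intro N
    rw [Groth.Agent.S19651.reverse_pow', hc, mul_pow, map_mul, ← Polynomial.C_pow, Polynomial.aeval_C,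
      Algebra.algebraMap_eq_smul_one, mul_smul_comm, mul_one, smul_smul, ← mul_pow,
      inv_mul_cancel₀ hc0, one_pow, one_smul, map_pow]
  have hBflip : ∀ x y : V, B.flip (M x) (M y) = B.flip x y := fun x y => hM y x
  have hcomp := LinearMap.isCompl_iSup_ker_pow_iInf_range_pow f
  have hdir : Directed (· ≤ ·) (fun n : ℕ => LinearMap.ker (f ^ n)) := (ker_pow_mono' f).directed_le
  -- orthogonality
  have horthL : ∀ x ∈ (⨆ n : ℕ, LinearMap.ker (f ^ n)), ∀ w ∈ (⨅ n : ℕ, LinearMap.range (f ^ n)),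
      B x w = 0 := by
    intro x hx w hw
    obtain ⟨N, hN⟩ := (Submodule.mem_iSup_of_directed _ hdir).mp hx
    obtain ⟨w', rfl⟩ := (Submodule.mem_iInf _).mp hw N
    rw [hfN N, LinearMap.smul_apply, map_smul, Groth.Agent.S19651.key_rev B M hM (Q ^ N) x w']
    have : (Polynomial.aeval (M : V →ₗ[k] V) (Q ^ N)) x = 0 := by
      rw [map_pow, ← hf]; exact hN
    rw [this, LinearMap.map_zero₂, smul_zero]
  have horthR : ∀ x ∈ (⨆ n : ℕ, LinearMap.ker (f ^ n)), ∀ w ∈ (⨅ n : ℕ, LinearMap.range (f ^ n)),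
      B w x = 0 := by
    intro x hx w hw
    obtain ⟨N, hN⟩ := (Submodule.mem_iSup_of_directed _ hdir).mp hx
    obtain ⟨w', rfl⟩ := (Submodule.mem_iInf _).mp hw N
    have e : B ((Polynomial.aeval (M : V →ₗ[k] V) (Q ^ N).reverse) w') x =
        B (((M : V →ₗ[k] V) ^ (Q ^ N).natDegree) w') ((Polynomial.aeval (M : V →ₗ[k] V) (Q ^ N)) x) :=
      Groth.Agent.S19651.key_rev B.flip M hBflip (Q ^ N) x w'
    rw [hfN N, LinearMap.smul_apply, map_smul, LinearMap.smul_apply, e]
    have : (Polynomial.aeval (M : V →ₗ[k] V) (Q ^ N)) x = 0 := by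
      rw [map_pow, ← hf]; exact hN
    rw [this, map_zero, smul_zero]
  have hsup : ∀ v : V, ∃ v1 ∈ (⨆ n : ℕ, LinearMap.ker (f ^ n)),
      ∃ v2 ∈ (⨅ n : ℕ, LinearMap.range (f ^ n)), v1 + v2 = v := by
    intro v
    have : v ∈ (⨆ n : ℕ, LinearMap.ker (f ^ n)) ⊔ (⨅ n : ℕ, LinearMap.range (f ^ n)) := by
      rw [hcomp.sup_eq_top]; exact Submodule.mem_top
    exact Submodule.mem_sup.mp this
  refine ⟨?_, ?_⟩
  · rintro ⟨x, hx⟩ h
    apply Subtype.ext
    apply hB.1 x
    intro v
    obtain ⟨v1, hv1, v2, hv2, rfl⟩ := hsup v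
    rw [map_add, horthL x hx v2 hv2, add_zero]
    exact h ⟨v1, hv1⟩
  · rintro ⟨x, hx⟩ h
    apply Subtype.ext
    apply hB.2 x
    intro v
    obtain ⟨v1, hv1, v2, hv2, rfl⟩ := hsup v
    rw [map_add, LinearMap.add_apply, horthR x hx v2 hv2, add_zero]
    exact h ⟨v1, hv1⟩

end Groth.Agent.S19652
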