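import Groth.Statements.S1966
import Mathlib.RingTheory.AdicCompletion.Basic
import Mathlib.RingTheory.Nilpotent.Basic
-- import your own Groth.Agent.* helpers here

set_option autoImplicit false
universe u
open EtAlg

namespace Groth.Agent.S1966

open Polynomial

theorem isAdicComplete_of_pow_eq_bot {R : Type*} [CommRing R] (J : Ideal R) (n : ℕ)
    (h : J ^ n = ⊥) : IsAdicComplete J R := by
  have hle : ∀ m, n ≤ m → (J ^ m • ⊤ : Submodule R R) = ⊥ := by
    intro m hm
    rw [smul_eq_mul, Ideal.mul_top]
    exact eq_bot_iff.mpr ((Ideal.pow_le_pow_right hm).trans h.le)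
  refine { haus' := ?_, prec' := ?_ }
  · intro x hx
    have := hx n
    rw [hle n le_rfl, SModEq.sub_mem, sub_zero] at this
    simpa using this
  · intro f hf
    refine ⟨f n, fun m => ?_⟩
    rcases le_total m n with hmn | hnm
    · exact hf hmn
    · have := hf hnm
      rw [hle n le_rfl, SModEq.sub_mem] at this
      rw [hle m hnm, SModEq.sub_mem]
      rw [Submodule.mem_bot, sub_eq_zero] at this ⊢
      exact this.symm

theorem exists_root_of_nilpotent {S : Type*} [CommRing S] (g : S[X]) (hg : g.Monic) (s : S)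
    (hn : IsNilpotent (g.eval s)) (hu : IsUnit (g.derivative.eval s)) :
    ∃ r, g.IsRoot r ∧ r - s ∈ Ideal.span {g.eval s} := by
  obtain ⟨n, hn⟩ := hn
  have hJ : Ideal.span {g.eval s} ^ n = ⊥ := by
    rw [Ideal.span_singleton_pow, hn, Ideal.span_singleton_eq_bot]
  have := isAdicComplete_of_pow_eq_bot _ n hJ
  exact HenselianRing.is_henselian g hg s (Ideal.subset_span rfl) (hu.map _)


/-- Towers indexed by the natural numbers: let (A_k) be rings with surjective transition maps A_{k+1} ->
A_k whose kernels consist of nilpotent elements, and let A be a ring with compatible projections p_k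
: A -> A_k identifying A with the set of compatible sequences (p is jointly injective and every
compatible sequence comes from an element of A). Then for every k the pair (A, ker p_k) is
henselian. -/
theorem result (A : Type u) [CommRing A] (As : ℕ → Type u) [∀ k, CommRing (As k)]
    (t : ∀ k, As (k + 1) →+* As k) (ht : ∀ k, Function.Surjective (t k))
    (hnil : ∀ k (x : As (k + 1)), t k x = 0 → IsNilpotent x)
    (p : ∀ k, A →+* As k) (hp : ∀ k, (t k).comp (p (k + 1)) = p k)
    (hinj : ∀ a b : A, (∀ k, p k a = p k b) → a = b)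
    (hsurj : ∀ x : ∀ k, As k, (∀ k, t k (x (k + 1)) = x k) → ∃ a : A, ∀ k, p k a = x k) (k : ℕ) :
    HenselianRing A (RingHom.ker (p k)) := by
  classical
  have hlift : ∀ m (y : As (m + 1)), IsUnit (t m y) → IsUnit y := by
    intro m y hy
    obtain ⟨v, hv⟩ := hy.exists_right_inv
    obtain ⟨w, rfl⟩ := ht m v
    have h0 : t m (y * w - 1) = 0 := by rw [map_sub, map_mul, hv, map_one, sub_self]
    have hu : IsUnit (y * w) := by
      have := IsNilpotent.isUnit_one_add (hnil m _ h0)
      rwa [add_sub_cancel] at this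
    exact isUnit_of_mul_isUnit_left hu
  have hpt : ∀ m a, t m (p (m + 1) a) = p m a := fun m a => by
    rw [← RingHom.comp_apply, hp]
  have hdesc : ∀ m n, m ≤ n → ∃ ψ : As n →+* As m, ∀ a, ψ (p n a) = p m a := by
    intro m n hmn
    induction n, hmn using Nat.le_induction with
    | base => exact ⟨RingHom.id _, fun a => rfl⟩
    | succ n _ ih =>
      obtain ⟨ψ, hψ⟩ := ih
      exact ⟨ψ.comp (t n), fun a => by rw [RingHom.comp_apply, hpt, hψ]⟩
  have hunits : ∀ z : A, IsUnit (p k z) → ∀ m, IsUnit (p m z) := by
    intro z hz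
    have up : ∀ n, k ≤ n → IsUnit (p n z) := by
      intro n hn
      induction n, hn using Nat.le_induction with
      | base => exact hz
      | succ n _ ih => exact hlift n _ (by rw [hpt]; exact ih)
    intro m
    obtain ⟨ψ, hψ⟩ := hdesc m (max m k) (le_max_left _ _)
    rw [← hψ]
    exact (up (max m k) (le_max_right _ _)).map ψ
  constructor
  · intro x hx
    rw [Ideal.mem_jacobson_bot]
    intro y
    have hx' : p k x = 0 := hx
    have hz : IsUnit (p k (x * y + 1)) := by simp [hx']
    have hzm := hunits _ hz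
    let v : ∀ m, As m := fun m => (((hzm m).unit⁻¹ : (As m)ˣ) : As m)
    have hv : ∀ m, p m (x * y + 1) * v m = 1 := fun m => (hzm m).mul_val_inv
    have hvc : ∀ m, t m (v (m + 1)) = v m := by
      intro m
      apply (hzm m).mul_left_cancel
      rw [hv, ← hpt, ← map_mul, hv, map_one]
    obtain ⟨w, hw⟩ := hsurj v hvc
    have : (x * y + 1) * w = 1 := hinj _ _ (fun m => by rw [map_mul, hw, hv, map_one])
    exact IsUnit.of_mul_eq_one _ this
  · intro f hf a₀ hfa₀ hu
    have hfa₀' : p k (f.eval a₀) = 0 := hfa₀
    have hdk : IsUnit (p k (f.derivative.eval a₀)) := by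
      have := hu.map (RingHom.kerLift (p k))
      rwa [RingHom.kerLift_mk] at this
    obtain ⟨fm, hfm⟩ : ∃ fm : ∀ m, Polynomial (As m), ∀ m, fm m = f.map (p m) :=
      ⟨fun m => f.map (p m), fun m => rfl⟩
    have hevm : ∀ m a, (fm m).eval (p m a) = p m (f.eval a) := fun m a => by
      rw [hfm, Polynomial.eval_map, Polynomial.eval₂_at_apply]
    have hevdm : ∀ m a, (fm m).derivative.eval (p m a) = p m (f.derivative.eval a) := fun m a => by
      rw [hfm, Polynomial.derivative_map, Polynomial.eval_map, Polynomial.eval₂_at_apply]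
    have hfmt : ∀ m, (fm (m + 1)).map (t m) = fm m := fun m => by
      rw [hfm, hfm, Polynomial.map_map, hp]
    have hfmmon : ∀ m, (fm m).Monic := fun m => by rw [hfm]; exact hf.map _
    have hQk : ∀ n, n = k → (fm n).eval (p n a₀) = 0 ∧ IsUnit ((fm n).derivative.eval (p n a₀)) := by
      rintro n rfl
      rw [hevm, hevdm]; exact ⟨hfa₀', hdk⟩
    let Q : ∀ m, As m → Prop := fun m x =>
      (m ≤ k → x = p m a₀) ∧ (k ≤ m → (fm m).eval x = 0 ∧ IsUnit ((fm m).derivative.eval x))
    have hev_t : ∀ m (y : As (m + 1)), t m ((fm (m + 1)).eval y) = (fm m).eval (t m y) := by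
      intro m y
      rw [← hfmt m, Polynomial.eval_map, Polynomial.eval₂_at_apply]
    have hevd_t : ∀ m (y : As (m + 1)),
        t m ((fm (m + 1)).derivative.eval y) = (fm m).derivative.eval (t m y) := by
      intro m y
      rw [← hfmt m, Polynomial.derivative_map, Polynomial.eval_map, Polynomial.eval₂_at_apply]
    have step : ∀ m x, Q m x → ∃ y, Q (m + 1) y ∧ t m y = x := by
      intro m x hx
      by_cases hmk : m + 1 ≤ k
      · refine ⟨p (m + 1) a₀, ⟨fun _ => rfl, fun hk => hQk (m + 1) (le_antisymm hmk hk)⟩, ?_⟩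
        rw [hpt]; exact (hx.1 (by omega)).symm
      · have hkm : k ≤ m := by omega
        obtain ⟨hx0, hxu⟩ := hx.2 hkm
        obtain ⟨s, rfl⟩ := ht m x
        have hn : IsNilpotent ((fm (m + 1)).eval s) := hnil m _ (by rw [hev_t, hx0])
        have hud : IsUnit ((fm (m + 1)).derivative.eval s) :=
          hlift m _ (by rw [hevd_t]; exact hxu)
        obtain ⟨r, hr, hrs⟩ := exists_root_of_nilpotent (fm (m + 1)) (hfmmon _) s hn hud
        have htr : t m r = t m s := by
          have hmem : r - s ∈ RingHom.ker (t m) := by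
            refine (Ideal.span_le.mpr ?_) hrs
            intro z hz
            rw [Set.mem_singleton_iff] at hz
            rw [hz]
            show t m _ = 0
            rw [hev_t, hx0]
          rw [RingHom.mem_ker, map_sub, sub_eq_zero] at hmem
          exact hmem
        refine ⟨r, ⟨fun h => absurd h hmk, fun _ => ⟨hr, ?_⟩⟩, htr⟩
        exact hlift m _ (by rw [hevd_t, htr]; exact hxu)
    choose! g hgQ hgt using step
    let sq : ∀ m, As m := fun m => Nat.rec (motive := fun m => As m) (p 0 a₀) (fun m x => g m x) m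
    have hsqQ : ∀ m, Q m (sq m) := by
      intro m
      induction m with
      | zero => exact ⟨fun _ => rfl, fun h => hQk 0 (by omega)⟩
      | succ m ih => exact hgQ m _ ih
    have hsqt : ∀ m, t m (sq (m + 1)) = sq m := fun m => hgt m _ (hsqQ m)
    obtain ⟨a, ha⟩ := hsurj sq hsqt
    refine ⟨a, ?_, ?_⟩
    · show f.eval a = 0
      apply hinj
      intro m
      rw [map_zero]
      obtain ⟨ψ, hψ⟩ := hdesc m (max m k) (le_max_left _ _)
      rw [← hψ, ← hevm, ha, ((hsqQ _).2 (le_max_right _ _)).1, map_zero]
    · rw [RingHom.mem_ker, map_sub, ha, (hsqQ k).1 le_rfl, sub_self]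

end Groth.Agent.S1966
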