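import Groth.Statements.S19660
-- import your own Groth.Agent.* helpers here
import Mathlib.RingTheory.Artinian.Module
import Mathlib.Tactic.LinearCombination

set_option autoImplicit false
universe u v
open AbVar

namespace Groth.Agent.S19660

theorem nil_orth {k : Type*} [Field k] {V : Type*} [AddCommGroup V] [Module k V]
    (B : LinearMap.BilinForm k V) (q : k) (m h : Module.End k V) (c : k)
    (hm : m = c • (1 : Module.End k V) + h) (hinv : ∀ x y : V, B (m x) (m y) = q * B x y)
    (hc : c * c ≠ q) :
    ∀ n a b : ℕ, ∀ x x' : V, a + b ≤ n → (h ^ a) x = 0 → (h ^ b) x' = 0 → B x x' = 0 := by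
  intro n
  induction n with
  | zero =>
    intro a b x x' hab hx _
    have ha : a = 0 := by omega
    subst ha
    simp only [pow_zero, Module.End.one_apply] at hx
    rw [hx, LinearMap.map_zero₂]
  | succ n ih =>
    intro a b x x' hab hx hx'
    rcases Nat.eq_zero_or_pos a with ha | ha
    · subst ha
      simp only [pow_zero, Module.End.one_apply] at hx
      rw [hx, LinearMap.map_zero₂]
    rcases Nat.eq_zero_or_pos b with hb | hb
    · subst hb
      simp only [pow_zero, Module.End.one_apply] at hx'
      rw [hx', map_zero]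
    obtain ⟨a', rfl⟩ : ∃ a', a = a' + 1 := ⟨a - 1, by omega⟩
    obtain ⟨b', rfl⟩ : ∃ b', b = b' + 1 := ⟨b - 1, by omega⟩
    have hx1 : (h ^ a') (h x) = 0 := by rw [← Module.End.mul_apply, ← pow_succ]; exact hx
    have hx1' : (h ^ b') (h x') = 0 := by rw [← Module.End.mul_apply, ← pow_succ]; exact hx'
    have t1 : B (h x) x' = 0 := ih a' (b' + 1) (h x) x' (by omega) hx1 hx'
    have t2 : B x (h x') = 0 := ih (a' + 1) b' x (h x') (by omega) hx hx1'
    have t3 : B (h x) (h x') = 0 := ih a' b' (h x) (h x') (by omega) hx1 hx1'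
    have e := hinv x x'
    rw [hm] at e
    simp only [LinearMap.add_apply, LinearMap.smul_apply, Module.End.one_apply, map_add, map_smul,
      LinearMap.add_apply, LinearMap.smul_apply, smul_eq_mul, t1, t2, t3] at e
    have e2 : (c * c - q) * B x x' = 0 := by linear_combination e
    exact (mul_eq_zero.mp e2).resolve_left (sub_ne_zero.mpr hc)

/-- The text applies this to the Frobenius acting on the points of prime order of a principally
polarised abelian variety over a finite field with q elements and to their Weil pairing. Let k be a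
field, V a finite-dimensional k-vector space with a nondegenerate bilinear form B, q a nonzero
element of k and M a linear automorphism of V with B(Mx, My) = q·B(x, y) for all x, y. Write V₁ and
V_q for the generalized eigenspaces of M at 1 and at q. Then every vector of V₁ that is B-orthogonal
to all of V_q is zero, every vector of V_q that is B-orthogonal (on the right) to all of V₁ is zero,
and when q ≠ 1 the form B vanishes identically on V₁ × V₁ and on V_q × V_q. (The text asserts this
as the evident adaptation, to a form scaled by q, of the orthogonality and nondegeneracy facts for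
generalized kernels of an automorphism preserving a form; the abstract statement is recorded here,
the application to the Weil pairing needing that pairing's formalism.) -/
theorem result
    {k : Type u} [Field k] {V : Type v} [AddCommGroup V] [Module k V] [FiniteDimensional k V]
    (B : LinearMap.BilinForm k V) (hB : B.Nondegenerate) (q : k) (hq : q ≠ 0)
    (M : V ≃ₗ[k] V) (hM : ∀ x y : V, B (M x) (M y) = q * B x y) :
    (∀ x ∈ Module.End.maxGenEigenspace (M : Module.End k V) 1,
        (∀ y ∈ Module.End.maxGenEigenspace (M : Module.End k V) q, B x y = 0) → x = 0) ∧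
      (∀ y ∈ Module.End.maxGenEigenspace (M : Module.End k V) q,
        (∀ x ∈ Module.End.maxGenEigenspace (M : Module.End k V) 1, B x y = 0) → y = 0) ∧
      (q ≠ 1 → ∀ x ∈ Module.End.maxGenEigenspace (M : Module.End k V) 1,
        ∀ x' ∈ Module.End.maxGenEigenspace (M : Module.End k V) 1, B x x' = 0) ∧
      (q ≠ 1 → ∀ y ∈ Module.End.maxGenEigenspace (M : Module.End k V) q,
        ∀ y' ∈ Module.End.maxGenEigenspace (M : Module.End k V) q, B y y' = 0) := by
  classical
  set m : Module.End k V := (M : V →ₗ[k] V) with hmdef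
  set g : Module.End k V := (M.symm : V →ₗ[k] V) with hgdef
  have hmg : ∀ v, m (g v) = v := fun v => M.apply_symm_apply v
  have hgm : ∀ v, g (m v) = v := fun v => M.symm_apply_apply v
  have hinv : ∀ x y : V, B (m x) (m y) = q * B x y := hM
  set f1 : Module.End k V := m - (1 : k) • (1 : Module.End k V) with hf1
  set fq : Module.End k V := m - q • (1 : Module.End k V) with hfq
  -- adjoint formulas
  have A1 : ∀ x w, B x (m w) = q * B (g x) w := by
    intro x w
    rw [← hinv, hmg]
  have A2 : ∀ w y, B (m w) y = q * B w (g y) := by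
    intro w y
    rw [← hinv, hmg]
  have F1 : ∀ N x w, B x ((fq ^ N) w) = q ^ N * B (((g - 1) ^ N) x) w := by
    intro N
    induction N with
    | zero => intro x w; simp
    | succ N ih =>
      intro x w
      rw [pow_succ', Module.End.mul_apply]
      have : B x (fq ((fq ^ N) w)) = q * B ((g - 1) x) ((fq ^ N) w) := by
        simp only [hfq, LinearMap.sub_apply, LinearMap.smul_apply, Module.End.one_apply, map_sub,
          map_smul, smul_eq_mul, A1, LinearMap.sub_apply]
        ring
      rw [this, ih, show ((g - 1) ^ (N + 1)) x = ((g - 1) ^ N) ((g - 1) x) by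
        rw [pow_succ, Module.End.mul_apply]]
      ring
  have F2 : ∀ N w y, B ((f1 ^ N) w) y = B w (((q • g - 1) ^ N) y) := by
    intro N
    induction N with
    | zero => intro w y; simp
    | succ N ih =>
      intro w y
      rw [pow_succ', Module.End.mul_apply]
      have : B (f1 ((f1 ^ N) w)) y = B ((f1 ^ N) w) ((q • g - 1) y) := by
        simp only [hf1, LinearMap.sub_apply, LinearMap.smul_apply, Module.End.one_apply, map_sub,
          map_smul, smul_eq_mul, A2, LinearMap.sub_apply, one_smul, one_mul]
      rw [this, ih, show ((q • g - 1) ^ (N + 1)) y = ((q • g - 1) ^ N) ((q • g - 1) y) by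
        rw [pow_succ, Module.End.mul_apply]]
  have hcomm1 : Commute g f1 := by
    apply LinearMap.ext; intro v
    simp only [hf1, Module.End.mul_apply, LinearMap.sub_apply, LinearMap.smul_apply,
      Module.End.one_apply, map_sub, map_smul, hgm, hmg]
  have hcommq : Commute g fq := by
    apply LinearMap.ext; intro v
    simp only [hfq, Module.End.mul_apply, LinearMap.sub_apply, LinearMap.smul_apply,
      Module.End.one_apply, map_sub, map_smul, hgm, hmg]
  have Z1 : ∀ x ∈ Module.End.maxGenEigenspace (M : Module.End k V) 1, ∃ K, ((g - 1 : Module.End k V) ^ K) x = 0 := by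
    intro x hx
    obtain ⟨K, hK⟩ := (Module.End.mem_maxGenEigenspace _ _ _).mp hx
    refine ⟨K, ?_⟩
    have e : g - 1 = -(g * f1) := by
      apply LinearMap.ext; intro v
      simp only [hf1, Module.End.mul_apply, LinearMap.sub_apply, LinearMap.smul_apply,
        Module.End.one_apply, map_sub, map_smul, hgm, LinearMap.neg_apply, one_smul]
      abel
    rw [e, neg_pow, hcomm1.mul_pow, Module.End.mul_apply, Module.End.mul_apply]
    have : (f1 ^ K) x = 0 := hK
    rw [this, map_zero, map_zero]
  have Zq : ∀ y ∈ Module.End.maxGenEigenspace (M : Module.End k V) q, ∃ K, ((q • g - 1 : Module.End k V) ^ K) y = 0 := by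
    intro y hy
    obtain ⟨K, hK⟩ := (Module.End.mem_maxGenEigenspace _ _ _).mp hy
    refine ⟨K, ?_⟩
    have e : q • g - 1 = -(g * fq) := by
      apply LinearMap.ext; intro v
      simp only [hfq, Module.End.mul_apply, LinearMap.sub_apply, LinearMap.smul_apply,
        Module.End.one_apply, map_sub, map_smul, hgm, LinearMap.neg_apply]
      abel
    rw [e, neg_pow, hcommq.mul_pow, Module.End.mul_apply, Module.End.mul_apply]
    have : (fq ^ K) y = 0 := hK
    rw [this, map_zero, map_zero]
  have memV : ∀ (μ : k) (v : V), v ∈ (⨆ n : ℕ, LinearMap.ker ((m - μ • (1 : Module.End k V)) ^ n)) →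
      v ∈ Module.End.maxGenEigenspace (M : Module.End k V) μ := by
    intro μ v hv
    have hdir : Directed (· ≤ ·) (fun n : ℕ => LinearMap.ker ((m - μ • (1 : Module.End k V)) ^ n)) := by
      apply Monotone.directed_le
      intro a b hab w hw
      simp only [LinearMap.mem_ker] at hw ⊢
      rw [← Nat.sub_add_cancel hab, pow_add, Module.End.mul_apply, hw, map_zero]
    obtain ⟨N, hN⟩ := (Submodule.mem_iSup_of_directed _ hdir).mp hv
    exact (Module.End.mem_maxGenEigenspace _ _ _).mpr ⟨N, hN⟩
  have hsup : ∀ (f : Module.End k V) (v : V), ∃ v1 ∈ (⨆ n : ℕ, LinearMap.ker (f ^ n)),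
      ∃ v2 ∈ (⨅ n : ℕ, LinearMap.range (f ^ n)), v1 + v2 = v := by
    intro f v
    have : v ∈ (⨆ n : ℕ, LinearMap.ker (f ^ n)) ⊔ (⨅ n : ℕ, LinearMap.range (f ^ n)) := by
      rw [(LinearMap.isCompl_iSup_ker_pow_iInf_range_pow f).sup_eq_top]; exact Submodule.mem_top
    exact Submodule.mem_sup.mp this
  refine ⟨?_, ?_, ?_, ?_⟩
  · intro x hx hxy
    apply hB.1 x
    intro v
    obtain ⟨v1, hv1, v2, hv2, rfl⟩ := hsup fq v
    obtain ⟨K, hK⟩ := Z1 x hx
    obtain ⟨w, rfl⟩ := (Submodule.mem_iInf _).mp hv2 K
    rw [map_add, hxy v1 (memV q v1 hv1), F1, hK, LinearMap.map_zero₂, mul_zero, add_zero]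
  · intro y hy hxy
    apply hB.2 y
    intro v
    obtain ⟨v1, hv1, v2, hv2, rfl⟩ := hsup f1 v
    obtain ⟨K, hK⟩ := Zq y hy
    obtain ⟨w, rfl⟩ := (Submodule.mem_iInf _).mp hv2 K
    rw [map_add, LinearMap.add_apply, hxy v1 (memV 1 v1 hv1), F2, hK, map_zero, add_zero]
  · intro hq1 x hx x' hx'
    obtain ⟨a, ha⟩ := (Module.End.mem_maxGenEigenspace _ _ _).mp hx
    obtain ⟨b, hb⟩ := (Module.End.mem_maxGenEigenspace _ _ _).mp hx'
    refine nil_orth B q m f1 1 ?_ hinv ?_ (a + b) a b x x' le_rfl ha hb
    · simp [hf1]
    · rw [one_mul]; exact Ne.symm hq1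
  · intro hq1 y hy y' hy'
    obtain ⟨a, ha⟩ := (Module.End.mem_maxGenEigenspace _ _ _).mp hy
    obtain ⟨b, hb⟩ := (Module.End.mem_maxGenEigenspace _ _ _).mp hy'
    refine nil_orth B q m fq q ?_ hinv ?_ (a + b) a b y y' le_rfl ha hb
    · simp [hfq]
    · intro h
      apply hq1
      have : q * (q - 1) = 0 := by rw [mul_sub, mul_one, h, sub_self]
      rcases mul_eq_zero.mp this with h1 | h1
      · exact absurd h1 hq
      · exact sub_eq_zero.mp h1

end Groth.Agent.S19660
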