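import Groth.Statements.S19856
-- import your own Groth.Agent.* helpers here
import Groth.Agent.Lib.Helper29.UnipFix

set_option autoImplicit false
universe u v
open CAlg

namespace Groth.Agent.S19856

/-- Ring-level form: let O be a discrete valuation ring and G a finite group acting faithfully on O by
ring automorphisms, such that every element of G acts trivially on the residue field of O (that is,
g • a - a lies in the maximal ideal for all a) and such that the order of G is nonzero in the
residue field of O. Then G is cyclic. (The source states this for a finite group of order invertible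
in an algebraically closed field k acting faithfully on a smooth connected k-variety and the
subgroup of elements fixing pointwise a codimension-one irreducible component of the ramification
locus, applied to the local ring at the generic point of that component; it is stated here for an
arbitrary discrete valuation ring with a faithful action. The source also shows that this subgroup
is nontrivial; that geometric part is not stated.) -/
theorem result
    (O : Type u) [CommRing O] [IsDomain O] [IsDiscreteValuationRing O]
    (G : Type v) [Group G] [Finite G] [MulSemiringAction G O] [FaithfulSMul G O]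
    (htriv : ∀ (g : G) (a : O), g • a - a ∈ IsLocalRing.maximalIdeal O)
    (hcard : ((Nat.card G : ℕ) : IsLocalRing.ResidueField O) ≠ 0) :
    IsCyclic G := by
  classical
  obtain ⟨ϖ, hϖ⟩ := IsDiscreteValuationRing.exists_irreducible O
  have hm : IsLocalRing.maximalIdeal O = Ideal.span {ϖ} := hϖ.maximalIdeal_eq
  have hϖ0 : ϖ ≠ 0 := hϖ.ne_zero
  have hϖm : ϖ ∈ IsLocalRing.maximalIdeal O := by rw [hm]; exact Ideal.subset_span rfl
  have hpres : ∀ (g : G) (x : O), x ∈ IsLocalRing.maximalIdeal O → g • x ∈ IsLocalRing.maximalIdeal O := by
    intro g x hx
    have e : g • x = (g • x - x) + x := by ring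
    rw [e]; exact Ideal.add_mem _ (htriv g x) hx
  have hex : ∀ g : G, ∃ u : O, g • ϖ = u * ϖ := by
    intro g
    have := hpres g ϖ hϖm
    rw [hm, Ideal.mem_span_singleton'] at this
    obtain ⟨a, ha⟩ := this
    exact ⟨a, ha.symm⟩
  choose u hu using hex
  have hmul : ∀ g h : G, u (g * h) = (g • u h) * u g := by
    intro g h
    apply mul_right_cancel₀ hϖ0
    rw [← hu, mul_smul, hu, smul_mul', hu, mul_assoc]
  have hone : u 1 = 1 := by
    apply mul_right_cancel₀ hϖ0
    rw [← hu, one_smul, one_mul]
  have hres_eq : ∀ (g : G) (a : O), IsLocalRing.residue O (g • a) = IsLocalRing.residue O a := by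
    intro g a
    rw [← sub_eq_zero, ← map_sub, IsLocalRing.residue_eq_zero_iff]
    exact htriv g a
  let χ : G →* IsLocalRing.ResidueField O :=
    { toFun := fun g => IsLocalRing.residue O (u g)
      map_one' := by simp only [hone, map_one]
      map_mul' := by
        intro g h
        simp only [hmul, map_mul, hres_eq]
        ring }
  have hcardO : IsUnit ((Nat.card G : ℕ) : O) := by
    rw [← IsLocalRing.residue_ne_zero_iff_isUnit, map_natCast]
    exact hcard
  have hker : ∀ g : G, χ g = 1 → g = 1 := by
    intro g hg
    have hg' : IsLocalRing.residue O (u g) = 1 := hg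
    have hu1 : u g - 1 ∈ IsLocalRing.maximalIdeal O := by
      rw [← IsLocalRing.residue_eq_zero_iff, map_sub, hg', map_one, sub_self]
    have hcot : ∀ a ∈ IsLocalRing.maximalIdeal O, g • a - a ∈ IsLocalRing.maximalIdeal O ^ 2 := by
      intro a ha
      rw [hm, Ideal.mem_span_singleton'] at ha
      obtain ⟨b, rfl⟩ := ha
      have e : g • (b * ϖ) - b * ϖ = (g • b - b) * (g • ϖ) + b * ((u g - 1) * ϖ) := by
        rw [smul_mul', hu]; ring
      rw [e, pow_two]
      refine Ideal.add_mem _ (Ideal.mul_mem_mul (htriv g b) (hpres g ϖ hϖm)) ?_
      exact Ideal.mul_mem_left _ _ (Ideal.mul_mem_mul hu1 hϖm)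
    have hunit : IsUnit (orderOf g : O) := by
      obtain ⟨q, hq⟩ := orderOf_dvd_natCard g
      rw [hq, Nat.cast_mul] at hcardO
      exact isUnit_of_mul_isUnit_left hcardO
    have hfix : ∀ a : O, g • a = a :=
      Groth.Agent.Lib.Helper29.smul_eq_self_of_cotangent g hunit (htriv g) hcot
    apply FaithfulSMul.eq_of_smul_eq_smul (α := O)
    intro a
    rw [hfix a, one_smul]
  have hinj : Function.Injective χ := by
    intro g h hgh
    have : χ (g * h⁻¹) = 1 := by
      rw [map_mul, hgh, ← map_mul, mul_inv_cancel, map_one]
    have := hker _ this
    exact mul_inv_eq_one.mp this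
  exact isCyclic_of_injective_ringHom χ hinj

end Groth.Agent.S19856
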