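import Groth.Statements.S19904
-- import your own Groth.Agent.* helpers here
import Mathlib

set_option autoImplicit false
universe u v
open CategoryTheory
open ArtFun

namespace Groth.Agent.S19904

open Limits in
lemma pb_ext {Λ : Type u} {k : Type u} [CommRing Λ] [Field k] [Algebra Λ k]
    {F G G' : ArtFun.Art Λ k ⥤ Type v} (φ : F ⟶ G) (ψ : G' ⟶ G) (A : ArtFun.Art Λ k)
    (p q : (pullback φ ψ).obj A)
    (h1 : (pullback.fst φ ψ).app A p = (pullback.fst φ ψ).app A q)
    (h2 : (pullback.snd φ ψ).app A p = (pullback.snd φ ψ).app A q) : p = q := by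
  have hinj : Function.Injective
      ((Types.pullbackIsoPullback (φ.app A) (ψ.app A)).hom ∘ (pullbackObjIso φ ψ A).hom) := by
    intro a b hab
    have := congrArg ((pullbackObjIso φ ψ A).inv ∘ (Types.pullbackIsoPullback (φ.app A) (ψ.app A)).inv) hab
    simpa using this
  apply hinj
  apply Subtype.ext
  apply Prod.ext
  · simp only [Function.comp_apply, Types.pullbackIsoPullback_hom_fst]
    have e1 := ConcreteCategory.congr_hom (pullbackObjIso_hom_comp_fst φ ψ A) p
    have e2 := ConcreteCategory.congr_hom (pullbackObjIso_hom_comp_fst φ ψ A) q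
    simp only [types_comp_apply] at e1 e2
    rw [e1, e2, h1]
  · simp only [Function.comp_apply, Types.pullbackIsoPullback_hom_snd]
    have e1 := ConcreteCategory.congr_hom (pullbackObjIso_hom_comp_snd φ ψ A) p
    have e2 := ConcreteCategory.congr_hom (pullbackObjIso_hom_comp_snd φ ψ A) q
    simp only [types_comp_apply] at e1 e2
    rw [e1, e2, h2]

open Limits in
lemma pb_mk {Λ : Type u} {k : Type u} [CommRing Λ] [Field k] [Algebra Λ k]
    {F G G' : ArtFun.Art Λ k ⥤ Type v} (φ : F ⟶ G) (ψ : G' ⟶ G) (B : ArtFun.Art Λ k)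
    (x : F.obj B) (y : G'.obj B) (h : φ.app B x = ψ.app B y) :
    ∃ p : (pullback φ ψ).obj B, (pullback.fst φ ψ).app B p = x ∧ (pullback.snd φ ψ).app B p = y := by
  refine ⟨(pullbackObjIso φ ψ B).inv ((Types.pullbackIsoPullback (φ.app B) (ψ.app B)).inv ⟨(x, y), h⟩),
    ?_, ?_⟩
  · have e1 := ConcreteCategory.congr_hom (pullbackObjIso_inv_comp_fst φ ψ B)
      ((Types.pullbackIsoPullback (φ.app B) (ψ.app B)).inv ⟨(x, y), h⟩)
    simp only [types_comp_apply] at e1
    rw [e1, Types.pullbackIsoPullback_inv_fst_apply]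
  · have e1 := ConcreteCategory.congr_hom (pullbackObjIso_inv_comp_snd φ ψ B)
      ((Types.pullbackIsoPullback (φ.app B) (ψ.app B)).inv ⟨(x, y), h⟩)
    simp only [types_comp_apply] at e1
    rw [e1, Types.pullbackIsoPullback_inv_snd_apply]

/-- For functors F, G, G' on Artinian local Λ-algebras with residue field k and morphisms φ : F → G, ψ :
G' → G: if φ is smooth then the base change F ×_G G' → G' (second projection of the fibre product of
functors) is smooth. -/
theorem result {Λ : Type u} {k : Type u} [CommRing Λ] [Field k] [Algebra Λ k]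
    [IsNoetherianRing Λ] [Module.Finite Λ k]
    {F G G' : ArtFun.Art Λ k ⥤ Type v} (φ : F ⟶ G) (ψ : G' ⟶ G) (hφ : ArtFun.IsSmooth φ) :
    ArtFun.IsSmooth (Limits.pullback.snd φ ψ) := by
  intro B A μ hμ r
  obtain ⟨⟨p, y'⟩, hpy⟩ := r
  -- hpy : snd.app A p = G'.map μ y'
  have hcond : φ.app A ((Limits.pullback.fst φ ψ).app A p) = ψ.app A ((Limits.pullback.snd φ ψ).app A p) := by
    have := congrArg (fun t => t.app A p) (Limits.pullback.condition (f := φ) (g := ψ))
    simpa using this
  have hrel : φ.app A ((Limits.pullback.fst φ ψ).app A p) = G.map μ (ψ.app B y') := by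
    rw [hcond]
    change ψ.app A ((Limits.pullback.snd φ ψ).app A p) = G.map μ (ψ.app B y')
    rw [hpy, NatTrans.naturality_apply]
  obtain ⟨x', hx'⟩ := hφ μ hμ ⟨((Limits.pullback.fst φ ψ).app A p, ψ.app B y'), hrel⟩
  have hx1 : F.map μ x' = (Limits.pullback.fst φ ψ).app A p := congrArg (fun t => t.1.1) hx'
  have hx2 : φ.app B x' = ψ.app B y' := congrArg (fun t => t.1.2) hx'
  obtain ⟨p', hp'1, hp'2⟩ := pb_mk φ ψ B x' y' hx2
  refine ⟨p', ?_⟩
  apply Subtype.ext
  apply Prod.ext
  · change (Limits.pullback φ ψ).map μ p' = p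
    apply pb_ext φ ψ A
    · rw [NatTrans.naturality_apply, hp'1, hx1]
    · rw [NatTrans.naturality_apply, hp'2, hpy]
  · change (Limits.pullback.snd φ ψ).app B p' = y'
    exact hp'2

end Groth.Agent.S19904
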