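import Groth.Statements.S19919
-- import your own Groth.Agent.* helpers here

set_option autoImplicit false
universe u v w
open DPow

namespace Groth.Agent.S19919

lemma prod_fin {N : ℕ} {P : Type*} [CommRing P] (x : Fin N → ℕ → P) (hx0 : ∀ i, x i 0 = 1)
    (e : Fin N →₀ ℕ) : e.prod (fun i k => x i k) = ∏ i, x i (e i) :=
  Finsupp.prod_fintype e _ (fun i => hx0 i)

/-- Let R be a commutative ring and P = R⟨X_1, …, X_N⟩ the divided power polynomial algebra over R,
presented concretely as an R-algebra P with elements x i n = X_i^[n] (i < N, n ≥ 0) such that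
X_i^[0] = 1, X_i^[n] · X_i^[m] = C(n+m, n) X_i^[n+m], and the monomials ∏_i X_i^[e_i] form an
R-basis of P; let P_+ be the ideal generated by the X_i^[n] with n ≥ 1 and γ the divided power
structure on P_+ with γ_n(X_i^[1]) = X_i^[n]. Then (P, P_+, γ) is the free divided power R-algebra
on N variables: for every commutative R-algebra S, every ideal J of S with a divided power structure
δ and every family s_1, …, s_N of elements of J there is exactly one R-algebra homomorphism φ : P →
S that is a divided power morphism from (P_+, γ) to (J, δ) and satisfies φ(X_i^[1]) = s_i for all i. -/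
theorem result (R : Type u) [CommRing R] (N : ℕ)
    (P : Type v) [CommRing P] [Algebra R P] (x : Fin N → ℕ → P)
    (hx0 : ∀ i, x i 0 = 1)
    (hxmul : ∀ i n m, x i n * x i m = ((n + m).choose n : P) * x i (n + m))
    (b : Module.Basis (Fin N →₀ ℕ) R P) (hb : ∀ e : Fin N →₀ ℕ, b e = e.prod (fun i k => x i k))
    (γ : DividedPowers (Ideal.span {y : P | ∃ (i : Fin N) (n : ℕ), 1 ≤ n ∧ y = x i n}))
    (hγ : ∀ (i : Fin N) (n : ℕ), γ.dpow n (x i 1) = x i n)
    (S : Type w) [CommRing S] [Algebra R S] (J : Ideal S) (δ : DividedPowers J)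
    (s : Fin N → S) (hs : ∀ i, s i ∈ J) :
    ∃! φ : P →ₐ[R] S, γ.IsDPMorphism δ φ.toRingHom ∧ ∀ i, φ (x i 1) = s i := by
  classical
  have hxI : ∀ i, x i 1 ∈ Ideal.span {y : P | ∃ (i : Fin N) (n : ℕ), 1 ≤ n ∧ y = x i n} :=
    fun i => Ideal.subset_span ⟨i, 1, le_rfl, rfl⟩
  have hbx : ∀ e : Fin N →₀ ℕ, b e = ∏ i, x i (e i) := fun e => by rw [hb, prod_fin x hx0]
  let g : (Fin N →₀ ℕ) → S := fun e => ∏ i, δ.dpow (e i) (s i)
  let L : P →ₗ[R] S := b.constr R g
  have hL : ∀ e, L (b e) = g e := fun e => b.constr_basis R g e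
  have hmulb : ∀ e e' : Fin N →₀ ℕ,
      b e * b e' = ((∏ i, (e i + e' i).choose (e i) : ℕ) : P) * b (e + e') := by
    intro e e'
    rw [hbx, hbx, hbx, ← Finset.prod_mul_distrib, Nat.cast_prod, ← Finset.prod_mul_distrib]
    refine Finset.prod_congr rfl (fun i _ => ?_)
    rw [hxmul, Finsupp.add_apply]
  have hmulg : ∀ e e' : Fin N →₀ ℕ,
      g e * g e' = ((∏ i, (e i + e' i).choose (e i) : ℕ) : S) * g (e + e') := by
    intro e e'
    simp only [g]
    rw [← Finset.prod_mul_distrib, Nat.cast_prod, ← Finset.prod_mul_distrib]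
    refine Finset.prod_congr rfl (fun i _ => ?_)
    rw [δ.mul_dpow (hs i), Finsupp.add_apply]
  have hLnat : ∀ (c : ℕ) (p : P), L ((c : P) * p) = (c : S) * L p := by
    intro c p
    rw [← nsmul_eq_mul, ← nsmul_eq_mul, map_nsmul]
  have hone : L 1 = 1 := by
    have h1 : (1 : P) = b 0 := by rw [hbx]; simp [hx0]
    rw [h1, hL]
    simp [g, δ.dpow_zero (hs _)]
  have hmul : ∀ p q, L (p * q) = L p * L q := by
    have hB : (LinearMap.mul R P).compr₂ L = (LinearMap.mul R S).compl₁₂ L L :=
      b.ext fun e => b.ext fun e' => by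
        simp only [LinearMap.compr₂_apply, LinearMap.mul_apply', LinearMap.compl₁₂_apply]
        rw [hmulb, hLnat, hL, hL, hL, hmulg]
    intro p q
    have := LinearMap.congr_fun₂ hB p q
    simpa only [LinearMap.compr₂_apply, LinearMap.mul_apply', LinearMap.compl₁₂_apply] using this
  let φ : P →ₐ[R] S := AlgHom.ofLinearMap L hone hmul
  have hφb : ∀ e, φ (b e) = g e := hL
  have hφx : ∀ i n, φ (x i n) = δ.dpow n (s i) := by
    intro i n
    have h1 : x i n = b (Finsupp.single i n) := by
      rw [hb, Finsupp.prod_single_index (hx0 i)]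
    rw [h1, hφb]
    simp only [g]
    rw [Finset.prod_eq_single i]
    · simp
    · intro j _ hj
      rw [Finsupp.single_eq_of_ne hj, δ.dpow_zero (hs j)]
    · simp
  refine ⟨φ, ⟨?_, ?_⟩, ?_⟩
  · apply DividedPowers.IsDPMorphism.on_span γ δ
      (S := {y : P | ∃ (i : Fin N) (n : ℕ), 1 ≤ n ∧ y = x i n}) rfl
    · rintro _ ⟨i, n, hn, rfl⟩
      change φ (x i n) ∈ J
      rw [hφx]
      exact δ.dpow_mem (by omega) (hs i)
    · rintro m _ ⟨i, n, hn, rfl⟩
      change φ (γ.dpow m (x i n)) = δ.dpow m (φ (x i n))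
      have h1 : γ.dpow m (x i n) = (m.uniformBell n : P) * x i (m * n) := by
        rw [← hγ i n, γ.dpow_comp (by omega) (hxI i), hγ]
      rw [h1, map_mul, map_natCast, hφx, hφx, δ.dpow_comp (by omega) (hs i)]
  · intro i
    rw [hφx, δ.dpow_one (hs i)]
  · rintro ψ ⟨hψ, hψx⟩
    apply AlgHom.toLinearMap_injective
    apply b.ext
    intro e
    change ψ (b e) = φ (b e)
    rw [hφb, hbx, map_prod]
    refine Finset.prod_congr rfl (fun i _ => ?_)
    have h1 := hψ.map_dpow (n := e i) (hxI i)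
    simp only [AlgHom.toRingHom_eq_coe, RingHom.coe_coe] at h1
    rw [← hγ i (e i), h1, hψx]

end Groth.Agent.S19919
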