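import Groth.Statements.S1996
import Mathlib.RingTheory.Flat.FaithfullyFlat.Algebra
import Mathlib.RingTheory.Flat.Stability
import Mathlib.RingTheory.RingHom.Flat
-- import your own Groth.Agent.* helpers here

set_option autoImplicit false
universe u
open EtAlg

namespace Groth.Agent.S1996

open TensorProduct

-- Copied from helper2's `Groth/Agent/Lib/Helper2/FlatDesc.lean`.
theorem flat_of_faithfullyFlat_tower (R S T : Type*) [CommRing R] [CommRing S] [CommRing T]
    [Algebra R S] [Algebra S T] [Algebra R T] [IsScalarTower R S T]
    [Module.FaithfullyFlat S T] [Module.Flat R T] : Module.Flat R S := by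
  rw [Module.Flat.iff_lTensor_preserves_injective_linearMap]
  intro N P _ _ _ _ f hf
  have hT : Function.Injective (LinearMap.lTensor T f) :=
    Module.Flat.lTensor_preserves_injective_linearMap f hf
  have hcomm : ∀ x : T ⊗[S] (S ⊗[R] N),
      AlgebraTensorModule.cancelBaseChange R S T T P (LinearMap.lTensor T (f.baseChange S) x) =
        LinearMap.lTensor T f (AlgebraTensorModule.cancelBaseChange R S T T N x) := by
    intro x
    induction x using TensorProduct.induction_on with
    | zero => simp
    | tmul t y =>
      induction y using TensorProduct.induction_on with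
      | zero => simp
      | tmul s n => simp [AlgebraTensorModule.cancelBaseChange_tmul]
      | add y₁ y₂ h₁ h₂ =>
        simp only [TensorProduct.tmul_add, map_add] at h₁ h₂ ⊢
        rw [h₁, h₂]
    | add x₁ x₂ h₁ h₂ => simp only [map_add, h₁, h₂]
  have hinj : Function.Injective (LinearMap.lTensor T (f.baseChange S)) := by
    intro x y hxy
    apply (AlgebraTensorModule.cancelBaseChange R S T T N).injective
    apply hT
    rw [← hcomm, ← hcomm, hxy]
  have := (Module.FaithfullyFlat.lTensor_injective_iff_injective S T (f.baseChange S)).mp hinj
  rwa [LinearMap.baseChange_eq_ltensor] at this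


/-- Let A -> B -> C be ring maps with B -> C faithfully flat. Weak etaleness of A -> C then implies weak
etaleness of A -> B. -/
theorem result (A B C : Type u) [CommRing A] [CommRing B] [CommRing C] [Algebra A B]
    [Algebra B C] [Algebra A C] [IsScalarTower A B C] [Module.FaithfullyFlat B C] [Algebra.WeaklyEtale A C] :
    Algebra.WeaklyEtale A B := by
  have hB : Module.Flat A B := flat_of_faithfullyFlat_tower A B C
  let φ : B ⊗[A] B →+* B := (Algebra.TensorProduct.lmul' A (S := B)).toRingHom
  let _ : Algebra (B ⊗[A] B) B := φ.toAlgebra
  let _ : Algebra (B ⊗[A] B) C := ((algebraMap B C).comp φ).toAlgebra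
  have : IsScalarTower (B ⊗[A] B) B C := IsScalarTower.of_algebraMap_eq (fun _ => rfl)
  have hι : (IsScalarTower.toAlgHom A B C).Flat := by
    change (algebraMap B C).Flat
    rw [RingHom.flat_algebraMap_iff]; infer_instance
  have e : (algebraMap B C).comp φ = (Algebra.TensorProduct.lmul' A (S := C)).toRingHom.comp
      (Algebra.TensorProduct.map (IsScalarTower.toAlgHom A B C)
        (IsScalarTower.toAlgHom A B C)).toRingHom := by
    have : (IsScalarTower.toAlgHom A B C).comp (Algebra.TensorProduct.lmul' A (S := B)) =
        (Algebra.TensorProduct.lmul' A (S := C)).comp (Algebra.TensorProduct.map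
          (IsScalarTower.toAlgHom A B C) (IsScalarTower.toAlgHom A B C)) := by
      ext <;> simp
    exact congrArg AlgHom.toRingHom this
  have : Module.Flat (B ⊗[A] B) C := by
    have : ((algebraMap B C).comp φ).Flat := by
      rw [e]
      exact RingHom.Flat.comp (RingHom.Flat.tensorProductMap hι hι)
        (Algebra.WeaklyEtale.flat_lmul' A C)
    exact this
  have : Module.Flat (B ⊗[A] B) B := flat_of_faithfullyFlat_tower (B ⊗[A] B) B C
  exact { flat := hB, flat_lmul' := this }

end Groth.Agent.S1996
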