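import Groth.Statements.S1998
import Mathlib.Algebra.Polynomial.Lifts
-- import your own Groth.Agent.* helpers here

set_option autoImplicit false
universe u
open EtAlg

namespace Groth.Agent.S1998

/-- Let (A_j, I_j) be a directed system of henselian pairs (ring maps A_j -> A_k for j ≤ k carrying I_j
into I_k). Then the direct limit A of the A_j together with the ideal generated by the images of the
I_j is a henselian pair. -/
theorem result {ι : Type u} [Preorder ι] [IsDirected ι (· ≤ ·)] [Nonempty ι]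
    (G : ι → Type u) [∀ i, CommRing (G i)] (f : ∀ i j, i ≤ j → G i →+* G j)
    [DirectedSystem G fun i j h => f i j h] (I : ∀ i, Ideal (G i))
    (hI : ∀ i j (h : i ≤ j), (I i).map (f i j h) ≤ I j) (hh : ∀ i, HenselianRing (G i) (I i)) :
    HenselianRing (Ring.DirectLimit G fun i j h => f i j h)
      (⨆ i, (I i).map (Ring.DirectLimit.of G (fun i j h => f i j h) i)) := by
  classical
  let φ : ∀ i, G i →+* Ring.DirectLimit G (fun i j h => f i j h) := fun i =>
    Ring.DirectLimit.of G (fun i j h => f i j h) i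
  have hφ : ∀ i j (h : i ≤ j) x, φ j (f i j h x) = φ i x := fun i j h x =>
    Ring.DirectLimit.of_f (G := G) (f := fun i j h => f i j h) h x
  have hff : ∀ i j k (hij : i ≤ j) (hjk : j ≤ k) x,
      f j k hjk (f i j hij x) = f i k (hij.trans hjk) x := fun i j k hij hjk x =>
    DirectedSystem.map_map (f := fun i j h => f i j h) hij hjk x
  have hIf : ∀ i j (h : i ≤ j) a, a ∈ I i → f i j h a ∈ I j := fun i j h a ha =>
    hI i j h (Ideal.mem_map_of_mem _ ha)
  have heq : ∀ i (x y : G i), φ i x = φ i y → ∃ j, ∃ h : i ≤ j, f i j h x = f i j h y := by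
    intro i x y hxy
    have : φ i (x - y) = 0 := by rw [map_sub, hxy, sub_self]
    obtain ⟨j, hij, hj⟩ := Ring.DirectLimit.of.zero_exact this
    exact ⟨j, hij, by rw [map_sub] at hj; exact sub_eq_zero.mp hj⟩
  let J' : Ideal (Ring.DirectLimit G fun i j h => f i j h) :=
    { carrier := {x | ∃ i, ∃ a ∈ I i, φ i a = x}
      add_mem' := by
        rintro _ _ ⟨i, a, ha, rfl⟩ ⟨j, b, hb, rfl⟩
        obtain ⟨k, hik, hjk⟩ := exists_ge_ge i j
        exact ⟨k, f i k hik a + f j k hjk b, (I k).add_mem (hIf _ _ _ _ ha) (hIf _ _ _ _ hb),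
          by rw [map_add, hφ, hφ]⟩
      zero_mem' := ⟨Classical.arbitrary ι, 0, (I _).zero_mem, map_zero _⟩
      smul_mem' := by
        rintro r _ ⟨i, a, ha, rfl⟩
        obtain ⟨j, c, rfl⟩ := Ring.DirectLimit.exists_of r
        obtain ⟨k, hik, hjk⟩ := exists_ge_ge i j
        exact ⟨k, f j k hjk c * f i k hik a, (I k).mul_mem_left _ (hIf _ _ _ _ ha),
          by rw [map_mul, hφ, hφ, smul_eq_mul]⟩ }
  have hJ : (⨆ i, (I i).map (φ i)) = J' := by
    apply le_antisymm
    · exact iSup_le fun i => Ideal.map_le_iff_le_comap.mpr fun a ha => ⟨i, a, ha, rfl⟩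
    · rintro _ ⟨i, a, ha, rfl⟩
      exact Submodule.mem_iSup_of_mem i (Ideal.mem_map_of_mem _ ha)
  have hmem : ∀ x, x ∈ (⨆ i, (I i).map (φ i)) ↔ ∃ i, ∃ a ∈ I i, φ i a = x := by
    intro x; rw [hJ]; rfl
  constructor
  · intro x hx
    obtain ⟨i, a, ha, rfl⟩ := (hmem _).mp hx
    rw [Ideal.mem_jacobson_bot]
    intro y
    obtain ⟨j, b, rfl⟩ := Ring.DirectLimit.exists_of y
    obtain ⟨k, hik, hjk⟩ := exists_ge_ge i j
    have h1 : f i k hik a ∈ Ideal.jacobson ⊥ := (hh k).jac (hIf i k hik a ha)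
    rw [Ideal.mem_jacobson_bot] at h1
    have := (h1 (f j k hjk b)).map (φ k)
    rw [map_add, map_mul, map_one, hφ, hφ] at this
    exact this
  · intro P hP a₀ hP0 hunit
    obtain ⟨i₁, p₀, hp₀⟩ := Ring.DirectLimit.Polynomial.exists_of P
    obtain ⟨p, hpmap, -, hpmon⟩ := Polynomial.lifts_and_natDegree_eq_and_monic
      (Polynomial.mem_lifts P |>.mpr ⟨p₀, hp₀⟩) hP
    obtain ⟨i₂, b₀, rfl⟩ := Ring.DirectLimit.exists_of a₀
    obtain ⟨i₃, e₁, he₁, he₁'⟩ := (hmem _).mp hP0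
    obtain ⟨v, hv⟩ := hunit.exists_right_inv
    obtain ⟨u, rfl⟩ := Ideal.Quotient.mk_surjective v
    have hu : P.derivative.eval (φ i₂ b₀) * u - 1 ∈ (⨆ i, (I i).map (φ i)) := by
      rw [← map_mul, ← map_one (Ideal.Quotient.mk _)] at hv
      exact Ideal.Quotient.eq.mp hv
    obtain ⟨i₄, e₂, he₂, he₂'⟩ := (hmem _).mp hu
    obtain ⟨i₅, c, rfl⟩ := Ring.DirectLimit.exists_of u
    obtain ⟨k₁, h11, h21⟩ := exists_ge_ge i₁ i₂
    obtain ⟨k₂, h32, h42⟩ := exists_ge_ge i₃ i₄
    obtain ⟨k₃, hk13, hk23⟩ := exists_ge_ge k₁ k₂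
    obtain ⟨m, hk3m, h5m⟩ := exists_ge_ge k₃ i₅
    have hm1 : i₁ ≤ m := h11.trans (hk13.trans hk3m)
    have hm2 : i₂ ≤ m := h21.trans (hk13.trans hk3m)
    have hm3 : i₃ ≤ m := h32.trans (hk23.trans hk3m)
    have hm4 : i₄ ≤ m := h42.trans (hk23.trans hk3m)
    have hmap : ∀ i j (h : i ≤ j) (q : Polynomial (G i)),
        (q.map (f i j h)).map (φ j) = q.map (φ i) := by
      intro i j h q
      rw [Polynomial.map_map]
      congr 1
      ext x
      exact hφ i j h x
    have hmapf : ∀ i j k (hij : i ≤ j) (hjk : j ≤ k) (q : Polynomial (G i)),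
        (q.map (f i j hij)).map (f j k hjk) = q.map (f i k (hij.trans hjk)) := by
      intro i j k hij hjk q
      rw [Polynomial.map_map]
      congr 1
      ext x
      exact hff i j k hij hjk x
    obtain ⟨pm, hpm_def⟩ : ∃ pm, pm = p.map (f i₁ m hm1) := ⟨_, rfl⟩
    obtain ⟨bm, hbm_def⟩ : ∃ bm, bm = f i₂ m hm2 b₀ := ⟨_, rfl⟩
    have hpmmon : pm.Monic := hpm_def ▸ hpmon.map _
    have hpm : pm.map (φ m) = P := by rw [hpm_def, hmap, hpmap]
    have hev : ∀ x : G m, P.eval (φ m x) = φ m (pm.eval x) := fun x => by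
      rw [← hpm, Polynomial.eval_map, Polynomial.eval₂_at_apply]
    have hevd : ∀ x : G m, P.derivative.eval (φ m x) = φ m (pm.derivative.eval x) := fun x => by
      rw [← hpm, Polynomial.derivative_map, Polynomial.eval_map, Polynomial.eval₂_at_apply]
    have hb : φ m bm = φ i₂ b₀ := by rw [hbm_def]; exact hφ _ _ _ _
    have h1 : φ m (pm.eval bm) = φ m (f i₃ m hm3 e₁) := by
      rw [← hev, hb, hφ, he₁']
    have h2 : φ m (pm.derivative.eval bm * f i₅ m h5m c - 1) = φ m (f i₄ m hm4 e₂) := by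
      rw [map_sub, map_mul, map_one, ← hevd, hb, hφ, hφ, he₂']
    obtain ⟨n₁, hmn₁, hn₁⟩ := heq m _ _ h1
    obtain ⟨n₂, hmn₂, hn₂⟩ := heq m _ _ h2
    obtain ⟨n, hn1, hn2⟩ := exists_ge_ge n₁ n₂
    have hmn : m ≤ n := hmn₁.trans hn1
    obtain ⟨pn, hpn_def⟩ : ∃ pn, pn = pm.map (f m n hmn) := ⟨_, rfl⟩
    obtain ⟨bn, hbn_def⟩ : ∃ bn, bn = f m n hmn bm := ⟨_, rfl⟩
    have hevn : ∀ x : G m, f m n hmn (pm.eval x) = pn.eval (f m n hmn x) := fun x => by
      rw [hpn_def, Polynomial.eval_map, Polynomial.eval₂_at_apply]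
    have hevdn : ∀ x : G m, f m n hmn (pm.derivative.eval x) = pn.derivative.eval (f m n hmn x) :=
      fun x => by
        rw [hpn_def, Polynomial.derivative_map, Polynomial.eval_map, Polynomial.eval₂_at_apply]
    have hPn : pn.eval bn ∈ I n := by
      have key : f m n hmn (pm.eval bm) = f m n hmn (f i₃ m hm3 e₁) := by
        rw [← hff m n₁ n hmn₁ hn1, hn₁, hff]
      rw [hevn, ← hbn_def] at key
      rw [key]
      exact hIf _ _ _ _ (hIf _ _ _ _ he₁)
    have hDn : IsUnit (Ideal.Quotient.mk (I n) (pn.derivative.eval bn)) := by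
      have key : f m n hmn (pm.derivative.eval bm * f i₅ m h5m c - 1) =
          f m n hmn (f i₄ m hm4 e₂) := by
        rw [← hff m n₂ n hmn₂ hn2, hn₂, hff]
      rw [map_sub, map_mul, map_one, hevdn, ← hbn_def] at key
      have hmemn : pn.derivative.eval bn * f m n hmn (f i₅ m h5m c) - 1 ∈ I n := by
        rw [key]
        exact hIf _ _ _ _ (hIf _ _ _ _ he₂)
      refine IsUnit.of_mul_eq_one (Ideal.Quotient.mk (I n) (f m n hmn (f i₅ m h5m c))) ?_
      rw [← map_mul, ← map_one (Ideal.Quotient.mk (I n))]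
      exact Ideal.Quotient.eq.mpr hmemn
    obtain ⟨a, ha, han⟩ := (hh n).is_henselian pn (hpn_def ▸ hpmmon.map _) bn hPn hDn
    refine ⟨φ n a, ?_, ?_⟩
    · have hpnP : pn.map (φ n) = P := by rw [hpn_def, hmap, hpm]
      rw [Polynomial.IsRoot, ← hpnP, Polynomial.eval_map, Polynomial.eval₂_at_apply,
        ha.eq_zero, map_zero]
    · rw [hmem]
      exact ⟨n, a - bn, han, by rw [map_sub, hbn_def, hφ, hb]⟩

end Groth.Agent.S1998
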