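import Groth.Statements.S2005
-- import your own Groth.Agent.* helpers here
import Groth.Agent.Lib.Helper3.EtGlue

set_option autoImplicit false
universe u
open TensorProduct
open EtAlg

namespace Groth.Agent.S2005

open Groth.Agent.Lib.Helper3.EtGlue

/-- Let R -> R' induce bijections R/f^n R -> R'/f^n R' for all n > 0 and let M be an R-module. Then M is
glueable for (R -> R', f) if and only if m ↦ 1 ⊗ m maps the f-power torsion of M bijectively onto
the f-power torsion of R' ⊗_R M; and if (R -> R', f) is a glueing pair, injectivity on the f-power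
torsion already suffices. -/
theorem result (R R' : Type u) [CommRing R] [CommRing R'] [Algebra R R'] (f : R)
    (hq : EtGlue.QuotPowBijective R R' f) (M : Type u) [AddCommGroup M] [Module R M] :
    (EtGlue.IsGlueable R R' f M ↔
      ((∀ m : M, (∃ n : ℕ, f ^ n • m = 0) → (1 : R') ⊗ₜ[R] m = 0 → m = 0) ∧
       (∀ x : R' ⊗[R] M, (∃ n : ℕ, f ^ n • x = 0) → ∃ m : M, (∃ n : ℕ, f ^ n • m = 0) ∧ (1 : R') ⊗ₜ[R] m = x))) ∧
    (EtGlue.IsGlueingPair R R' f →
      (EtGlue.IsGlueable R R' f M ↔ ∀ m : M, (∃ n : ℕ, f ^ n • m = 0) → (1 : R') ⊗ₜ[R] m = 0 → m = 0)) := by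
  classical
  have tensorOfLoc_mk : ∀ (m : M) (k : ℕ),
      EtGlue.tensorOfLoc R R' f M (LocalizedModule.mk m
        ⟨f ^ k, (Submonoid.powers f).pow_mem (Submonoid.mem_powers f) k⟩) =
      LocalizedModule.mk ((1 : R') ⊗ₜ[R] m)
        ⟨f ^ k, (Submonoid.powers f).pow_mem (Submonoid.mem_powers f) k⟩ := by
    intro m k
    rw [IsLocalizedModule.mk_eq_mk', IsLocalizedModule.mk_eq_mk', EtGlue.tensorOfLoc,
      IsLocalizedModule.map_mk', TensorProduct.mk_apply]
  have part1 : EtGlue.IsGlueable R R' f M ↔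
      ((∀ m : M, (∃ n : ℕ, f ^ n • m = 0) → (1 : R') ⊗ₜ[R] m = 0 → m = 0) ∧
       (∀ x : R' ⊗[R] M, (∃ n : ℕ, f ^ n • x = 0) →
          ∃ m : M, (∃ n : ℕ, f ^ n • m = 0) ∧ (1 : R') ⊗ₜ[R] m = x)) := by
    constructor
    · rintro ⟨hinj, hfib⟩
      refine ⟨fun m ⟨n, hn⟩ hm => ?_, fun x ⟨n, hn⟩ => ?_⟩
      · apply hinj
        simp only [Prod.mk.injEq, TensorProduct.tmul_zero, map_zero]
        exact ⟨hm, (mk_eq_zero_iff' f m).mpr ⟨n, hn⟩⟩
      · have h0 : EtGlue.locOfTensor R R' f M x = 0 := (mk_eq_zero_iff' f x).mpr ⟨n, hn⟩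
        obtain ⟨m, hm1, hm2⟩ := hfib x 0 (by rw [h0, map_zero])
        exact ⟨m, (mk_eq_zero_iff' f m).mp hm2, hm1⟩
    · rintro ⟨tinj, tsurj⟩
      refine ⟨fun a b hab => ?_, fun x y hxy => ?_⟩
      · simp only [Prod.mk.injEq] at hab
        have h1 : (1 : R') ⊗ₜ[R] (a - b) = 0 := by rw [TensorProduct.tmul_sub, hab.1, sub_self]
        have h2 : LocalizedModule.mkLinearMap (Submonoid.powers f) M (a - b) = 0 := by
          rw [map_sub, hab.2, sub_self]
        exact sub_eq_zero.mp (tinj _ ((mk_eq_zero_iff' f _).mp h2) h1)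
      · induction y using LocalizedModule.induction_on with
        | h m₀ s =>
          obtain ⟨_, k, rfl⟩ := s
          have hs : (⟨f ^ k, ⟨k, rfl⟩⟩ : Submonoid.powers f) =
              ⟨f ^ k, (Submonoid.powers f).pow_mem (Submonoid.mem_powers f) k⟩ := rfl
          rw [hs, tensorOfLoc_mk, EtGlue.locOfTensor, LocalizedModule.mkLinearMap_apply,
            LocalizedModule.mk_eq] at hxy
          obtain ⟨⟨_, j, rfl⟩, hj⟩ := hxy
          simp only [Submonoid.smul_def, one_smul] at hj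
          -- hj : f ^ j • f ^ k • x = f ^ j • 1 ⊗ₜ m₀
          obtain ⟨v, ⟨i, hi⟩, hv⟩ := tsurj (f ^ k • x - (1 : R') ⊗ₜ[R] m₀)
            ⟨j, by rw [smul_sub, hj, sub_self]⟩
          obtain ⟨m₁, hm₁⟩ := exists_of_tmul_eq_smul hq k (m₀ + v) x (by
            rw [TensorProduct.tmul_add, hv]; abel)
          obtain ⟨w, ⟨l, hl⟩, hw⟩ := tsurj (x - (1 : R') ⊗ₜ[R] m₁)
            ⟨k, by
              rw [smul_sub, ← TensorProduct.tmul_smul, ← hm₁, TensorProduct.tmul_add, hv]
              abel⟩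
          refine ⟨m₁ + w, by rw [TensorProduct.tmul_add, hw]; abel, ?_⟩
          rw [hs, LocalizedModule.mkLinearMap_apply, LocalizedModule.mk_eq]
          refine ⟨⟨f ^ (i + l), (Submonoid.powers f).pow_mem (Submonoid.mem_powers f) _⟩, ?_⟩
          simp only [Submonoid.smul_def, one_smul]
          have e1 : f ^ k • (m₁ + w) = m₀ + v + f ^ k • w := by rw [smul_add, ← hm₁]
          have hv0 : f ^ (i + l) • v = 0 := torsion_mono hi (Nat.le_add_right _ _)
          have hw0 : f ^ (i + l) • f ^ k • w = 0 := by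
            rw [smul_comm, torsion_mono hl (Nat.le_add_left _ _), smul_zero]
          rw [e1, smul_add, smul_add, hv0, hw0, add_zero, add_zero]
  refine ⟨part1, fun hRR => ?_⟩
  rw [part1]
  exact ⟨fun h => h.1, fun h => ⟨h, fun x hx => torsion_surj_of_glueingPair hRR x hx⟩⟩

end Groth.Agent.S2005
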