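import Groth.Statements.S2000
-- import your own Groth.Agent.* helpers here
import Groth.Agent.Lib.Helper3.EtGlue
import Groth.Agent.S2005

set_option autoImplicit false
universe u
open TensorProduct
open EtAlg

namespace Groth.Agent.S2000

open Groth.Agent.Lib.Helper3.EtGlue

/-- Beauville–Laszlo, essential surjectivity with glueability: take a glueing pair (R -> R', f). Fix an
R'-module M', an R-module M₁ on which multiplication by f is bijective (i.e. an R_f-module), and α
an R'-linear isomorphism from the localization of M' at f to R' ⊗_R M₁ (an isomorphism of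
R'_f-modules). Then there is an R-module M, glueable for (R -> R', f), with an R'-isomorphism R' ⊗_R
M ≅ M' and an R-isomorphism M_f ≅ M₁ under which α becomes the canonical identification (R' ⊗_R M)_f
= R' ⊗_R M_f. -/
theorem result (R R' : Type u) [CommRing R] [CommRing R'] [Algebra R R'] (f : R)
    (hRR : EtGlue.IsGlueingPair R R' f) (M' : Type u) [AddCommGroup M'] [Module R' M'] (M₁ : Type u) [AddCommGroup M₁]
    [Module R M₁] (hf : Function.Bijective fun x : M₁ => f • x)
    (α : LocalizedModule (Submonoid.powers (algebraMap R R' f)) M' ≃ₗ[R'] R' ⊗[R] M₁) :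
    ∃ (M : Type u) (_ : AddCommGroup M) (_ : Module R M) (_ : EtGlue.IsGlueable R R' f M)
      (e' : R' ⊗[R] M ≃ₗ[R'] M') (e₁ : LocalizedModule (Submonoid.powers f) M ≃ₗ[R] M₁),
      ∀ m : M, α (LocalizedModule.mkLinearMap (Submonoid.powers (algebraMap R R' f)) M' (e' ((1 : R') ⊗ₜ[R] m))) =
        (1 : R') ⊗ₜ[R] e₁ (LocalizedModule.mkLinearMap (Submonoid.powers f) M m) := by
  classical
  let _ : Module R M' := Module.compHom M' (algebraMap R R')
  have : IsScalarTower R R' M' := IsScalarTower.of_algebraMap_smul fun r x => rfl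
  let ι' := LocalizedModule.mkLinearMap (Submonoid.powers (algebraMap R R' f)) M'
  have hfk : ∀ k : ℕ, Function.Bijective fun x : M₁ => f ^ k • x := by
    intro k
    induction k with
    | zero =>
      simp only [pow_zero, one_smul]
      exact Function.bijective_id
    | succ k ih =>
      have : (fun x : M₁ => f ^ (k + 1) • x) = (fun x : M₁ => f ^ k • x) ∘ (fun x : M₁ => f • x) := by
        funext x
        simp [pow_succ, mul_smul]
      rw [this]
      exact ih.comp hf
  have hFt : ∀ (k : ℕ) (r' : R') (a : M₁),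
      (algebraMap R R' f ^ k) • (r' ⊗ₜ[R] a) = r' ⊗ₜ[R] (f ^ k • a) := by
    intro k r' a
    rw [← map_pow, algebraMap_smul, TensorProduct.smul_tmul', ← TensorProduct.smul_tmul]
  have hsm : ∀ (r : R) (w : R' ⊗[R] M₁), (algebraMap R R' r) • w = r • w :=
    fun r w => algebraMap_smul R' r w
  let Msub : Submodule R (M' × M₁) :=
    { carrier := {p | α (ι' p.1) = (1 : R') ⊗ₜ[R] p.2}
      add_mem' := fun {a b} ha hb => by
        simp only [Set.mem_ofPred_eq, Prod.fst_add, Prod.snd_add, map_add] at ha hb ⊢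
        rw [ha, hb, TensorProduct.tmul_add]
      zero_mem' := by simp
      smul_mem' := fun r p hp => by
        simp only [Set.mem_ofPred_eq, Prod.smul_fst, Prod.smul_snd] at hp ⊢
        have : r • p.1 = (algebraMap R R' r) • p.1 := rfl
        rw [this, map_smul, map_smul, hp, hsm, TensorProduct.tmul_smul] }
  let M := ↥Msub
  let p₁ : M →ₗ[R] M' := (LinearMap.fst R M' M₁).comp Msub.subtype
  let p₂ : M →ₗ[R] M₁ := (LinearMap.snd R M' M₁).comp Msub.subtype
  have hmem : ∀ x : M, α (ι' (p₁ x)) = (1 : R') ⊗ₜ[R] p₂ x := fun x => x.2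
  -- `p₂` is a localization at the powers of `f`
  have hloc : IsLocalizedModule (Submonoid.powers f) p₂ := by
    constructor
    · rintro ⟨_, k, rfl⟩
      rw [Module.End.isUnit_iff]
      have : ⇑(algebraMap R (Module.End R M₁) (f ^ k)) = fun x : M₁ => f ^ k • x := by
        funext x
        exact Module.algebraMap_end_apply R R M₁ (f ^ k) x
      rw [this]
      exact hfk k
    · intro y
      obtain ⟨⟨μ, ⟨_, k, rfl⟩⟩, hμ⟩ :=
        IsLocalizedModule.surj (Submonoid.powers (algebraMap R R' f)) ι' (α.symm ((1 : R') ⊗ₜ[R] y))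
      simp only [Submonoid.smul_def] at hμ
      have hm : α (ι' μ) = (1 : R') ⊗ₜ[R] (f ^ k • y) := by
        rw [← hμ, map_smul, LinearEquiv.apply_symm_apply, hFt]
      refine ⟨(⟨(μ, f ^ k • y), hm⟩, ⟨f ^ k, k, rfl⟩), ?_⟩
      simp only [Submonoid.smul_def]
      rfl
    · intro x₁ x₂ h
      have hd : p₂ (x₁ - x₂) = 0 := by rw [map_sub, h, sub_self]
      have h1 : α (ι' (p₁ (x₁ - x₂))) = 0 := by rw [hmem, hd, TensorProduct.tmul_zero]
      have h2 : ι' (p₁ (x₁ - x₂)) = 0 := by
        rw [← map_zero α] at h1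
        exact α.injective h1
      obtain ⟨k, hk⟩ := (mk_eq_zero_iff' (algebraMap R R' f) (p₁ (x₁ - x₂))).mp h2
      refine ⟨⟨f ^ k, k, rfl⟩, ?_⟩
      simp only [Submonoid.smul_def]
      rw [← sub_eq_zero, ← smul_sub]
      apply Subtype.ext
      apply Prod.ext
      · change (algebraMap R R' (f ^ k)) • p₁ (x₁ - x₂) = 0
        rw [map_pow, hk]
      · change f ^ k • p₂ (x₁ - x₂) = 0
        rw [hd, smul_zero]
  let e₁ : LocalizedModule (Submonoid.powers f) M ≃ₗ[R] M₁ := IsLocalizedModule.iso (Submonoid.powers f) p₂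
  let θ : R' ⊗[R] M →ₗ[R'] M' := p₁.liftBaseChange R'
  let τ : R' ⊗[R] M →ₗ[R'] R' ⊗[R] M₁ := p₂.baseChange R'
  have hθτ : ∀ z, α (ι' (θ z)) = τ z := by
    intro z
    induction z using TensorProduct.induction_on with
    | zero => simp
    | tmul r' x =>
      simp only [θ, τ, LinearMap.liftBaseChange_tmul, LinearMap.baseChange_tmul, map_smul, hmem]
      rw [TensorProduct.smul_tmul', smul_eq_mul, mul_one]
    | add a b ha hb => rw [map_add, map_add, map_add, ha, hb, map_add]
  -- surjectivity of `θ`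
  have stepA : ∀ w : R' ⊗[R] M₁, ∃ (K : ℕ) (z : R' ⊗[R] M),
      (algebraMap R R' f ^ K) • w = τ z := by
    intro w
    induction w using TensorProduct.induction_on with
    | zero => exact ⟨0, 0, by simp⟩
    | tmul r' a =>
      obtain ⟨⟨x, ⟨_, k, rfl⟩⟩, hx⟩ := IsLocalizedModule.surj (Submonoid.powers f) p₂ a
      simp only [Submonoid.smul_def] at hx
      refine ⟨k, r' ⊗ₜ[R] x, ?_⟩
      rw [hFt, hx]
      rfl
    | add a b ha hb =>
      obtain ⟨K₁, z₁, h₁⟩ := ha
      obtain ⟨K₂, z₂, h₂⟩ := hb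
      refine ⟨K₁ + K₂, (algebraMap R R' f ^ K₂) • z₁ + (algebraMap R R' f ^ K₁) • z₂, ?_⟩
      rw [smul_add, map_add, map_smul, map_smul, ← h₁, ← h₂, smul_smul, smul_smul, ← pow_add,
        ← pow_add, add_comm K₂ K₁]
  have stepA' : ∀ m' : M', ∃ (K : ℕ) (z : R' ⊗[R] M), (algebraMap R R' f ^ K) • m' = θ z := by
    intro m'
    obtain ⟨K, z, hz⟩ := stepA (α (ι' m'))
    rw [← hθτ, ← map_smul, ← map_smul] at hz
    have h1 := α.injective hz
    obtain ⟨⟨_, j, rfl⟩, hj⟩ := IsLocalizedModule.exists_of_eq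
      (S := Submonoid.powers (algebraMap R R' f)) (f := ι') h1
    simp only [Submonoid.smul_def] at hj
    refine ⟨j + K, (algebraMap R R' f ^ j) • z, ?_⟩
    rw [pow_add, mul_smul, hj, map_smul]
  have stepB : ∀ (k : ℕ) (z : R' ⊗[R] M), ∃ (x : M) (z' : R' ⊗[R] M),
      z = (1 : R') ⊗ₜ[R] x + (algebraMap R R' f ^ k) • z' := by
    intro k z
    induction z using TensorProduct.induction_on with
    | zero => exact ⟨0, 0, by simp⟩
    | tmul r' y =>
      obtain ⟨s, t', hst⟩ := surj_level hRR.1 k r'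
      refine ⟨s • y, t' ⊗ₜ[R] y, ?_⟩
      have e1 : (algebraMap R R' s) ⊗ₜ[R] y = (1 : R') ⊗ₜ[R] (s • y) := by
        rw [Algebra.algebraMap_eq_smul_one, TensorProduct.smul_tmul]
      have e2 : (algebraMap R R' f ^ k * t') ⊗ₜ[R] y = (algebraMap R R' f ^ k) • (t' ⊗ₜ[R] y) := by
        rw [TensorProduct.smul_tmul', smul_eq_mul]
      rw [hst, TensorProduct.add_tmul, e1, e2]
    | add a b ha hb =>
      obtain ⟨x₁, z₁, h₁⟩ := ha
      obtain ⟨x₂, z₂, h₂⟩ := hb
      refine ⟨x₁ + x₂, z₁ + z₂, ?_⟩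
      rw [h₁, h₂, TensorProduct.tmul_add, smul_add]
      abel
  have hθ1 : ∀ x : M, θ ((1 : R') ⊗ₜ[R] x) = p₁ x := fun x => by
    simp only [θ, LinearMap.liftBaseChange_tmul, one_smul]
  have θsurj : Function.Surjective θ := by
    intro m'
    obtain ⟨K, z, hz⟩ := stepA' m'
    obtain ⟨x, z', rfl⟩ := stepB K z
    rw [map_add, map_smul, hθ1] at hz
    have hu' : (algebraMap R R' f ^ K) • (m' - θ z') = p₁ x := by rw [smul_sub, hz]; abel
    obtain ⟨a, ha⟩ := (hfk K).2 (p₂ x)
    simp only at ha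
    have h1 : (algebraMap R R' f ^ K) • α (ι' (m' - θ z')) =
        (algebraMap R R' f ^ K) • ((1 : R') ⊗ₜ[R] a) := by
      rw [← map_smul, ← map_smul, hu', hmem, hFt, ha]
    have h2 : (algebraMap R R' f ^ K) • ι' (m' - θ z') =
        (algebraMap R R' f ^ K) • α.symm ((1 : R') ⊗ₜ[R] a) := by
      apply α.injective
      rw [map_smul, map_smul, LinearEquiv.apply_symm_apply, h1]
    have hunit := IsLocalizedModule.map_units ι'
      (⟨algebraMap R R' f ^ K, K, rfl⟩ : Submonoid.powers (algebraMap R R' f))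
    have h3 : ι' (m' - θ z') = α.symm ((1 : R') ⊗ₜ[R] a) :=
      ((Module.End.isUnit_iff _).mp hunit).1 (by
        simp only [Module.algebraMap_end_apply]
        exact h2)
    have hmemu : (m' - θ z', a) ∈ Msub := by
      show α (ι' (m' - θ z')) = (1 : R') ⊗ₜ[R] a
      rw [h3, LinearEquiv.apply_symm_apply]
    refine ⟨z' + (1 : R') ⊗ₜ[R] (⟨(m' - θ z', a), hmemu⟩ : M), ?_⟩
    rw [map_add, hθ1]
    change θ z' + (m' - θ z') = m'
    abel
  -- injectivity of `θ`
  have θinj : Function.Injective θ := by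
    rw [← LinearMap.ker_eq_bot, LinearMap.ker_eq_bot']
    intro z hz
    have hτ : τ z = 0 := by rw [← hθτ, hz, map_zero, map_zero]
    have hloc' : IsLocalizedModule (Submonoid.powers f)
        (TensorProduct.AlgebraTensorModule.rTensor R R' p₂) :=
      IsLocalizedModule.rTensor R (Submonoid.powers f) (N := R') p₂
    have hcomm : TensorProduct.AlgebraTensorModule.rTensor R R' p₂ (TensorProduct.comm R R' M z) =
        TensorProduct.comm R R' M₁ (τ z) := by
      clear hz hτ
      induction z using TensorProduct.induction_on with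
      | zero => simp
      | tmul r' x => simp [τ]
      | add a b ha hb => rw [map_add, map_add, ha, hb, map_add, map_add]
    rw [hτ, map_zero] at hcomm
    obtain ⟨⟨_, k, rfl⟩, hk⟩ := (IsLocalizedModule.eq_zero_iff (Submonoid.powers f)
      (TensorProduct.AlgebraTensorModule.rTensor R R' p₂)).mp hcomm
    simp only [Submonoid.smul_def] at hk
    have hzk : f ^ k • z = 0 := by
      have := congrArg (TensorProduct.comm R R' M).symm hk
      rwa [map_smul, LinearEquiv.symm_apply_apply, map_zero] at this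
    obtain ⟨m, ⟨n, hn⟩, rfl⟩ := torsion_surj_of_glueingPair hRR z ⟨k, hzk⟩
    have h1 : p₁ m = 0 := by rw [← hθ1]; exact hz
    have h2 : p₂ m = 0 := by
      apply (hfk n).1
      simp only
      rw [smul_zero, ← map_smul, hn, map_zero]
    have : m = 0 := Subtype.ext (Prod.ext h1 h2)
    rw [this, TensorProduct.tmul_zero]
  have hglue : EtGlue.IsGlueable R R' f M := by
    refine ((Groth.Agent.S2005.result R R' f hRR.1 M).2 hRR).mpr ?_
    rintro m ⟨n, hn⟩ hm
    have h1 : p₁ m = 0 := by rw [← hθ1, hm, map_zero]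
    have h2 : p₂ m = 0 := by
      apply (hfk n).1
      simp only
      rw [smul_zero, ← map_smul, hn, map_zero]
    exact Subtype.ext (Prod.ext h1 h2)
  let e' : R' ⊗[R] M ≃ₗ[R'] M' := LinearEquiv.ofBijective θ ⟨θinj, θsurj⟩
  refine ⟨M, inferInstance, inferInstance, hglue, e', e₁, fun m => ?_⟩
  have he' : e' ((1 : R') ⊗ₜ[R] m) = p₁ m := hθ1 m
  rw [he']
  change α (ι' (p₁ m)) = _
  rw [hmem, LocalizedModule.mkLinearMap_apply, IsLocalizedModule.iso_mk_one]

end Groth.Agent.S2000
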