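import Groth.Statements.S2001
-- import your own Groth.Agent.* helpers here

set_option autoImplicit false
universe u
open TensorProduct
open EtAlg

namespace Groth.Agent.S2001

/-- Let (R -> R', f) be a glueing pair and M, N R-modules glueable for it. Given an R'-linear map φ' :
R' ⊗_R M -> R' ⊗_R N and an R-linear map φ₁ : M_f -> N_f which induce the same map into (R' ⊗_R N)_f
on elements of M, there is a unique R-linear map ψ : M -> N whose base change to R' is φ' and whose
localization is φ₁. -/
theorem result (R R' : Type u) [CommRing R] [CommRing R'] [Algebra R R'] (f : R)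
    (hRR : EtGlue.IsGlueingPair R R' f) (M N : Type u) [AddCommGroup M] [Module R M] [AddCommGroup N] [Module R N]
    (hM : EtGlue.IsGlueable R R' f M) (hN : EtGlue.IsGlueable R R' f N)
    (φ' : R' ⊗[R] M →ₗ[R'] R' ⊗[R] N)
    (φ₁ : LocalizedModule (Submonoid.powers f) M →ₗ[R] LocalizedModule (Submonoid.powers f) N)
    (hc : ∀ m : M, EtGlue.locOfTensor R R' f N (φ' ((1 : R') ⊗ₜ[R] m)) =
      EtGlue.tensorOfLoc R R' f N (φ₁ (LocalizedModule.mkLinearMap (Submonoid.powers f) M m))) :
    ∃! ψ : M →ₗ[R] N, ψ.baseChange R' = φ' ∧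
      IsLocalizedModule.map (Submonoid.powers f) (LocalizedModule.mkLinearMap (Submonoid.powers f) M)
        (LocalizedModule.mkLinearMap (Submonoid.powers f) N) ψ = φ₁ := by
  classical
  have key : ∀ m : M, ∃ n : N, (1 : R') ⊗ₜ[R] n = φ' ((1 : R') ⊗ₜ[R] m) ∧
      LocalizedModule.mkLinearMap (Submonoid.powers f) N n =
        φ₁ (LocalizedModule.mkLinearMap (Submonoid.powers f) M m) :=
    fun m => hN.2 _ _ (hc m)
  choose ψf hψ1 hψ2 using key
  have inj : ∀ a b : N, (1 : R') ⊗ₜ[R] a = (1 : R') ⊗ₜ[R] b →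
      LocalizedModule.mkLinearMap (Submonoid.powers f) N a =
        LocalizedModule.mkLinearMap (Submonoid.powers f) N b → a = b := by
    intro a b h1 h2
    exact hN.1 (Prod.ext h1 h2)
  let ψ : M →ₗ[R] N :=
    { toFun := ψf
      map_add' := fun a b => by
        apply inj
        · rw [TensorProduct.tmul_add, hψ1, hψ1, hψ1, ← map_add, ← TensorProduct.tmul_add]
        · rw [map_add, hψ2, hψ2, hψ2, ← map_add, ← map_add]
      map_smul' := fun r a => by
        apply inj
        · rw [RingHom.id_apply, hψ1, TensorProduct.tmul_smul, TensorProduct.tmul_smul, hψ1,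
            LinearMap.map_smul_of_tower]
        · simp only [RingHom.id_apply, hψ2, map_smul] }
  have hψ : ∀ m, ψ m = ψf m := fun _ => rfl
  refine ⟨ψ, ⟨?_, ?_⟩, ?_⟩
  · apply TensorProduct.AlgebraTensorModule.ext
    intro x m
    rw [LinearMap.baseChange_tmul, hψ]
    have : x ⊗ₜ[R] ψf m = x • ((1 : R') ⊗ₜ[R] ψf m) := by
      rw [TensorProduct.smul_tmul', smul_eq_mul, mul_one]
    rw [this, hψ1, ← map_smul, TensorProduct.smul_tmul', smul_eq_mul, mul_one]
  · apply IsLocalizedModule.ext (Submonoid.powers f)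
      (LocalizedModule.mkLinearMap (Submonoid.powers f) M)
      (IsLocalizedModule.map_units (LocalizedModule.mkLinearMap (Submonoid.powers f) N))
    rw [IsLocalizedModule.map_comp]
    ext m
    simp only [LinearMap.coe_comp, Function.comp_apply]
    rw [hψ, hψ2]
  · rintro ψ₂ ⟨h1, h2⟩
    ext m
    apply inj
    · rw [hψ, hψ1, ← h1, LinearMap.baseChange_tmul]
    · rw [hψ, hψ2, ← h2, IsLocalizedModule.map_apply]

end Groth.Agent.S2001
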