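import Groth.Statements.S20024
-- import your own Groth.Agent.* helpers here
import Mathlib.RingTheory.WittVector.Identities
import Mathlib.Algebra.CharP.Basic

set_option autoImplicit false
universe u
open WittFil

namespace Groth.Agent.S20024

/-- Case q = 0: let p be a prime, S a commutative ring of characteristic p and B a commutative S-algebra
(in the source B = S[[π]][1/π]), u a unit of B (the uniformizer π), m, s natural numbers, i, l
integers and c a p-typical Witt vector over S. Write Φ_v(c) for the length-m truncation of V^s(c ·
[v]), where c is mapped to the Witt vectors of B, [v] is the Teichmüller representative of v ∈ B and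
V is the Verschiebung; for n = p^(m−1−s) · i the degree-zero piece F_n^{m,0}(S) is the set of all
Φ_{u^i}(c). Then multiplication by the truncated Teichmüller representative [u^l] satisfies [u^l] ·
Φ_{u^i}(c) = Φ_{u^(i + p^s l)}(c); consequently [u^l] · F_n^{m,0}(S) = F_{n + p^(m−1) l}^{m,0}(S).
(Only the part of the lemma in differential degree q = 0 is stated; the source's S is a regular
local F-finite F_p-algebra, and the identity holds for any S-algebra B of characteristic p.) -/
theorem result (p : ℕ) [Fact p.Prime] {S B : Type u}
    [CommRing S] [CharP S p] [CommRing B] [Algebra S B] (m s : ℕ) (u : Bˣ) (i l : ℤ)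
    (c : WittVector p S) :
    WittVector.truncate m (WittVector.teichmuller p ((u ^ l : Bˣ) : B)) *
        WittFil.vShiftTeich p m s ((u ^ i : Bˣ) : B) c =
      WittFil.vShiftTeich p m s ((u ^ (i + (p : ℤ) ^ s * l) : Bˣ) : B) c := by
  rcases subsingleton_or_nontrivial B with hB | hB
  · exact TruncatedWittVector.ext fun _ => Subsingleton.elim _ _
  · have hp0 : (p : B) = 0 := by
      rw [← map_natCast (algebraMap S B), CharP.cast_eq_zero, map_zero]
    have : CharP B p := (CharP.charP_iff_prime_eq_zero (Fact.out)).mpr hp0
    have hF : ∀ a : B, WittVector.frobenius (WittVector.teichmuller p a) =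
        WittVector.teichmuller p (a ^ p) := by
      intro a
      rw [WittVector.frobenius_eq_map_frobenius, WittVector.map_teichmuller, frobenius_def]
    have hFs : ∀ (t : ℕ) (a : B), WittVector.frobenius^[t] (WittVector.teichmuller p a) =
        WittVector.teichmuller p (a ^ p ^ t) := by
      intro t
      induction t with
      | zero => intro a; simp
      | succ t ih =>
        intro a
        rw [Function.iterate_succ_apply', ih, hF, ← pow_mul, ← pow_succ]
    have hV : ∀ (t : ℕ) (x y : WittVector p B), x * WittVector.verschiebung^[t] y =
        WittVector.verschiebung^[t] (WittVector.frobenius^[t] x * y) := by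
      intro t
      induction t with
      | zero => intro x y; simp
      | succ t ih =>
        intro x y
        rw [Function.iterate_succ_apply', Function.iterate_succ_apply', mul_comm x,
          ← WittVector.verschiebung_mul_frobenius, mul_comm _ (WittVector.frobenius x), ih,
          Function.iterate_succ_apply]
    have key : WittVector.teichmuller p (((u ^ l : Bˣ) : B) ^ p ^ s) *
        (WittVector.map (algebraMap S B) c * WittVector.teichmuller p ((u ^ i : Bˣ) : B)) =
        WittVector.map (algebraMap S B) c *
          WittVector.teichmuller p ((u ^ (i + (p : ℤ) ^ s * l) : Bˣ) : B) := by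
      rw [mul_left_comm, ← map_mul]
      congr 2
      rw [← Units.val_pow_eq_pow_val, ← Units.val_mul]
      congr 1
      rw [← zpow_natCast, ← zpow_mul, ← zpow_add]
      congr 1
      push_cast
      ring
    unfold WittFil.vShiftTeich
    rw [← map_mul, hV, hFs, key]

end Groth.Agent.S20024
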