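import Groth.Statements.S2004
-- import your own Groth.Agent.* helpers here
import Groth.Agent.Lib.Helper3.EtGlue

set_option autoImplicit false
universe u
open TensorProduct
open EtAlg

namespace Groth.Agent.S2004

open Groth.Agent.Lib.Helper3.EtGlue

/-- Let R -> R' induce bijections R/f^n R -> R'/f^n R' for all n > 0. Then (R -> R', f) is a glueing
pair if and only if R -> R' maps the f-power torsion of R bijectively onto the f-power torsion of R'
(stated as: injective on f-power torsion elements, and every f-power torsion element of R' is the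
image of one of R). -/
theorem result (R R' : Type u) [CommRing R] [CommRing R'] [Algebra R R'] (f : R)
    (hq : EtGlue.QuotPowBijective R R' f) :
    EtGlue.IsGlueingPair R R' f ↔
      ((∀ x : R, (∃ n : ℕ, f ^ n * x = 0) → algebraMap R R' x = 0 → x = 0) ∧
       (∀ x' : R', (∃ n : ℕ, algebraMap R R' f ^ n * x' = 0) →
          ∃ x : R, (∃ n : ℕ, f ^ n * x = 0) ∧ algebraMap R R' x = x')) := by
  classical
  constructor
  · rintro ⟨-, hinj, hfib, -⟩
    refine ⟨fun x ⟨n, hn⟩ hx => ?_, fun x' ⟨n, hn⟩ => ?_⟩
    · apply hinj
      simp only [Prod.mk.injEq, map_zero]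
      exact ⟨hx, (loc_eq_zero_iff f x).mpr ⟨n, hn⟩⟩
    · have h0 : algebraMap R' (Localization.Away (algebraMap R R' f)) x' = 0 :=
        (loc_eq_zero_iff (algebraMap R R' f) x').mpr ⟨n, hn⟩
      obtain ⟨r, hr1, hr2⟩ := hfib x' 0 (by rw [map_zero]; exact h0)
      exact ⟨r, (loc_eq_zero_iff f r).mp hr2, hr1⟩
  · rintro ⟨tinj, tsurj⟩
    refine ⟨hq, ?_, ?_, ?_⟩
    · intro a b hab
      simp only [Prod.mk.injEq] at hab
      have h1 : algebraMap R R' (a - b) = 0 := by rw [map_sub, hab.1, sub_self]
      have h2 : algebraMap R (Localization.Away f) (a - b) = 0 := by rw [map_sub, hab.2, sub_self]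
      exact sub_eq_zero.mp (tinj _ ((loc_eq_zero_iff f _).mp h2) h1)
    · intro x' y hxy
      obtain ⟨m, s, hs⟩ := IsLocalization.Away.surj f y
      have h1 : algebraMap R' (Localization.Away (algebraMap R R' f)) (x' * algebraMap R R' f ^ m) =
          algebraMap R' (Localization.Away (algebraMap R R' f)) (algebraMap R R' s) := by
        rw [map_mul, hxy, map_pow, ← awayMap_algebraMap f f, ← map_pow, ← map_mul, hs,
          awayMap_algebraMap]
      obtain ⟨k, hk⟩ := IsLocalization.Away.exists_of_eq (algebraMap R R' f) h1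
      obtain ⟨u, ⟨j, hj⟩, hu⟩ := tsurj (x' * algebraMap R R' f ^ m - algebraMap R R' s)
        ⟨k, by rw [mul_sub, hk, sub_self]⟩
      obtain ⟨r₁, hr₁⟩ := inj_level hq m (s + u) x' (by rw [map_add, hu]; ring)
      obtain ⟨v, ⟨i, hi⟩, hv⟩ := tsurj (x' - algebraMap R R' r₁)
        ⟨m, by
          have : algebraMap R R' (s + u) = algebraMap R R' (f ^ m * r₁) := by rw [hr₁]
          rw [map_add, hu, map_mul, map_pow] at this
          linear_combination this⟩
      refine ⟨r₁ + v, by rw [map_add, hv]; ring, ?_⟩
      have hunit : IsUnit (algebraMap R (Localization.Away f) f ^ m) :=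
        (IsLocalization.Away.algebraMap_isUnit f).pow m
      apply hunit.mul_left_injective
      simp only
      rw [hs, ← map_pow, ← map_mul]
      apply (IsLocalization.eq_iff_exists (Submonoid.powers f) _).mpr
      refine ⟨⟨f ^ (j + i), _, rfl⟩, ?_⟩
      simp only
      have e : (r₁ + v) * f ^ m = s + u + v * f ^ m := by rw [hr₁]; ring
      rw [e]
      have hj' : f ^ (j + i) * u = 0 := by rw [pow_add, mul_comm (f ^ j), mul_assoc, hj, mul_zero]
      have hi' : f ^ (j + i) * v = 0 := by rw [pow_add, mul_assoc, hi, mul_zero]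
      linear_combination hj' + f ^ m * hi'
    · intro z
      obtain ⟨n, x', hx'⟩ := IsLocalization.Away.surj (algebraMap R R' f) z
      obtain ⟨r, y', hr⟩ := surj_level hq n x'
      refine ⟨y', -(IsLocalization.mk' (Localization.Away f) r
        (⟨f ^ n, (Submonoid.powers f).pow_mem (Submonoid.mem_powers f) n⟩ : Submonoid.powers f)), ?_⟩
      have hunit : IsUnit (algebraMap R' (Localization.Away (algebraMap R R' f)) (algebraMap R R' f) ^ n) :=
        (IsLocalization.Away.algebraMap_isUnit (algebraMap R R' f)).pow n
      apply hunit.mul_left_injective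
      simp only
      have hspec := IsLocalization.mk'_spec (Localization.Away f) r
        (⟨f ^ n, (Submonoid.powers f).pow_mem (Submonoid.mem_powers f) n⟩ : Submonoid.powers f)
      have hmap := congrArg (Localization.awayMap (algebraMap R R') f) hspec
      rw [map_mul, awayMap_algebraMap, awayMap_algebraMap, map_pow, map_pow] at hmap
      rw [hx', map_neg, sub_neg_eq_add, add_mul, hmap, hr, map_add, map_mul, map_pow]
      ring

end Groth.Agent.S2004
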