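import Groth.Statements.S2006
-- import your own Groth.Agent.* helpers here
import Groth.Agent.Lib.Helper3.EtGlue

set_option autoImplicit false
universe u
open TensorProduct
open EtAlg

namespace Groth.Agent.S2006

open Groth.Agent.Lib.Helper3.EtGlue

theorem exists_finset_tmul_span {R R' M : Type u} [CommRing R] [CommRing R'] [Algebra R R']
    [AddCommGroup M] [Module R M] (x : R' ⊗[R] M) :
    ∃ F : Finset M, x ∈ Submodule.span R' ((fun m => (1 : R') ⊗ₜ[R] m) '' (F : Set M)) := by
  classical
  induction x using TensorProduct.induction_on with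
  | zero => exact ⟨∅, Submodule.zero_mem _⟩
  | tmul r' m =>
    refine ⟨{m}, ?_⟩
    have : r' ⊗ₜ[R] m = r' • ((1 : R') ⊗ₜ[R] m) := by
      rw [TensorProduct.smul_tmul', smul_eq_mul, mul_one]
    rw [this]
    exact Submodule.smul_mem _ _ (Submodule.subset_span ⟨m, by simp, rfl⟩)
  | add a b ha hb =>
    obtain ⟨F₁, h₁⟩ := ha
    obtain ⟨F₂, h₂⟩ := hb
    refine ⟨F₁ ∪ F₂, Submodule.add_mem _ ?_ ?_⟩
    · exact Submodule.span_mono (Set.image_mono (by simp)) h₁
    · exact Submodule.span_mono (Set.image_mono (by simp)) h₂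

/-- Let R -> R' induce bijections R/f^n R -> R'/f^n R' for all n > 0 and let M be an R-module. Then M is
finitely generated if and only if R' ⊗_R M is finitely generated over R' and M_f is finitely
generated over R_f. -/
theorem result (R R' : Type u) [CommRing R] [CommRing R'] [Algebra R R'] (f : R)
    (hq : EtGlue.QuotPowBijective R R' f) (M : Type u) [AddCommGroup M] [Module R M] :
    Module.Finite R M ↔ Module.Finite R' (R' ⊗[R] M) ∧
      Module.Finite (Localization.Away f) (LocalizedModule (Submonoid.powers f) M) := by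
  classical
  constructor
  · intro _
    exact ⟨inferInstance, inferInstance⟩
  · rintro ⟨h1, h2⟩
    -- generators from `R' ⊗ M`
    obtain ⟨s₂, hs₂⟩ := h1.fg_top
    choose F hF using fun x : R' ⊗[R] M => exists_finset_tmul_span (R := R) (R' := R') x
    let A : Finset M := s₂.biUnion F
    have hA : Submodule.span R' ((fun m => (1 : R') ⊗ₜ[R] m) '' (A : Set M)) = ⊤ := by
      rw [eq_top_iff, ← hs₂, Submodule.span_le]
      intro g hg
      refine Submodule.span_mono (Set.image_mono ?_) (hF g)
      intro m hm
      simp only [A, Finset.coe_biUnion, Set.mem_iUnion, Finset.mem_coe]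
      exact ⟨g, hg, hm⟩
    -- generators from `M_f`
    obtain ⟨s₁, hs₁⟩ := h2.fg_top
    let S := Submonoid.powers f
    let B : Finset M := IsLocalizedModule.finsetIntegerMultiple S (LocalizedModule.mkLinearMap S M) s₁
    have hB : ∀ x : M, ∃ n : ℕ, f ^ n • x ∈ Submodule.span R (B : Set M) := by
      intro x
      obtain ⟨⟨_, n₁, rfl⟩, hn₁⟩ := multiple_mem_span_of_mem_localization_span S
        (Localization S) (s₁ : Set (LocalizedModule S M))
        (IsLocalizedModule.mk' (LocalizedModule.mkLinearMap S M) x (1 : S)) (by rw [hs₁]; trivial)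
      rw [Submonoid.smul_def, ← IsLocalizedModule.mk'_smul, IsLocalizedModule.mk'_one] at hn₁
      obtain ⟨⟨_, n₂, rfl⟩, hn₂⟩ := IsLocalizedModule.smul_mem_finsetIntegerMultiple_span
        S (LocalizedModule.mkLinearMap S M) _ s₁ hn₁
      rw [Submonoid.smul_def] at hn₂
      refine ⟨n₂ + n₁, ?_⟩
      rw [pow_add, mul_smul]
      exact hn₂
    let N : Submodule R M := Submodule.span R ((A ∪ B : Finset M) : Set M)
    have hQ : ∀ q : M ⧸ N, ∃ n : ℕ, f ^ n • q = 0 := by
      intro q
      obtain ⟨x, rfl⟩ := Submodule.Quotient.mk_surjective N q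
      obtain ⟨n, hn⟩ := hB x
      refine ⟨n, ?_⟩
      rw [← Submodule.Quotient.mk_smul, Submodule.Quotient.mk_eq_zero]
      exact Submodule.span_mono (by simp) hn
    have hzero : ∀ z : R' ⊗[R] (M ⧸ N), z = 0 := by
      intro z
      obtain ⟨w, rfl⟩ := LinearMap.lTensor_surjective R' (Submodule.mkQ_surjective N) z
      have hw : w ∈ Submodule.span R' ((fun m => (1 : R') ⊗ₜ[R] m) '' (A : Set M)) := by
        rw [hA]; trivial
      have : (LinearMap.baseChange R' N.mkQ) w = 0 := by
        refine Submodule.span_induction (p := fun w _ => (LinearMap.baseChange R' N.mkQ) w = 0)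
          ?_ ?_ ?_ ?_ hw
        · rintro _ ⟨a, ha, rfl⟩
          rw [LinearMap.baseChange_tmul, Submodule.mkQ_apply,
            (Submodule.Quotient.mk_eq_zero N).mpr (Submodule.subset_span (by simp [ha])),
            TensorProduct.tmul_zero]
        · simp
        · intro x y _ _ hx hy
          rw [map_add, hx, hy, add_zero]
        · intro a x _ hx
          rw [map_smul, hx, smul_zero]
      exact this
    have hN : N = ⊤ := by
      rw [eq_top_iff]
      intro x _
      have h0 : (N.mkQ x) = 0 := torsion_mk_injective (M ⧸ N) hQ hq (by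
        rw [TensorProduct.mk_apply, TensorProduct.mk_apply, TensorProduct.tmul_zero]
        exact hzero _)
      rwa [Submodule.mkQ_apply, Submodule.Quotient.mk_eq_zero] at h0
    exact ⟨⟨A ∪ B, hN⟩⟩

end Groth.Agent.S2006
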