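import Groth.Statements.S2012
import Mathlib.RingTheory.Nakayama
import Mathlib.RingTheory.Ideal.Pure
import Mathlib.RingTheory.IntegralClosure.IsIntegralClosure.Basic
-- import your own Groth.Agent.* helpers here

set_option autoImplicit false
universe u
open EtAlg

namespace Groth.Agent.S2012

/-- Let A be a ring and I an ideal contained in its Jacobson radical. Let B be an A-algebra which is
flat, integral and of finite presentation over A and such that A/I -> B/IB is bijective. Then A -> B
is bijective. -/
theorem result (A B : Type u) [CommRing A] [CommRing B] [Algebra A B]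
    (I : Ideal A) (hI : I ≤ (⊥ : Ideal A).jacobson) [Module.Flat A B] [Algebra.IsIntegral A B] [Algebra.FinitePresentation A B]
    (hq : Function.Bijective (Ideal.quotientMap (I.map (algebraMap A B)) (algebraMap A B) Ideal.le_comap_map)) :
    Function.Bijective (algebraMap A B) := by
  have hfin : Module.Finite A B := Algebra.IsIntegral.finite
  -- surjectivity by Nakayama
  have hsurj : Function.Surjective (algebraMap A B) := by
    have hle : (⊤ : Submodule A B) ≤ LinearMap.range (Algebra.linearMap A B) ⊔ I • ⊤ := by
      intro b _
      obtain ⟨a, ha⟩ := hq.2 (Ideal.Quotient.mk _ b)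
      obtain ⟨a, rfl⟩ := Ideal.Quotient.mk_surjective a
      rw [Ideal.quotientMap_mk, Ideal.Quotient.eq] at ha
      have hmem : b - algebraMap A B a ∈ I • (⊤ : Submodule A B) := by
        rw [Ideal.smul_top_eq_map]
        have := (I.map (algebraMap A B)).neg_mem ha
        simpa using this
      have : b = algebraMap A B a + (b - algebraMap A B a) := by ring
      rw [this]
      exact Submodule.add_mem_sup ⟨a, rfl⟩ hmem
    have := Submodule.le_of_le_smul_of_le_jacobson_bot (Module.Finite.fg_top) hI hle
    intro b
    obtain ⟨a, ha⟩ := this (Submodule.mem_top : b ∈ ⊤)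
    exact ⟨a, ha⟩
  refine ⟨?_, hsurj⟩
  -- injectivity
  set f : A →ₐ[A] B := Algebra.ofId A B with hf
  have hfs : Function.Surjective f := hsurj
  set K := RingHom.ker f.toRingHom with hK
  have hKfg : K.FG := Algebra.FinitePresentation.ker_fG_of_surjective f hfs
  have e : (A ⧸ K) ≃ₐ[A] B := Ideal.quotientKerAlgEquivOfSurjective hfs
  have hflat : Module.Flat A (A ⧸ K) := Module.Flat.of_linearEquiv e.toLinearEquiv
  have hK2 : IsIdempotentElem K := @Ideal.isIdempotentElem_of_pure A _ K hflat
  have hKI : K ≤ I := by
    intro k hk
    have hk' : algebraMap A B k = 0 := hk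
    have : Ideal.quotientMap (I.map (algebraMap A B)) (algebraMap A B) Ideal.le_comap_map
        (Ideal.Quotient.mk I k) = 0 := by
      rw [Ideal.quotientMap_mk, hk', map_zero]
    rw [← map_zero (Ideal.quotientMap (I.map (algebraMap A B)) (algebraMap A B) Ideal.le_comap_map)]
      at this
    have := hq.1 this
    exact Ideal.Quotient.eq_zero_iff_mem.mp this
  have hKbot : K = ⊥ := by
    apply Submodule.eq_bot_of_le_smul_of_le_jacobson_bot K K hKfg
    · rw [Ideal.smul_eq_mul, hK2.eq]
    · exact hKI.trans hI
  intro x y hxy
  have : x - y ∈ K := by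
    show algebraMap A B (x - y) = 0
    rw [map_sub, hxy, sub_self]
  rw [hKbot, Ideal.mem_bot, sub_eq_zero] at this
  exact this

end Groth.Agent.S2012
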