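import Groth.Statements.S2017
import Mathlib.RingTheory.Adjoin.Tower
import Mathlib.RingTheory.FiniteType
-- import your own Groth.Agent.* helpers here

set_option autoImplicit false
universe u
open EtAlg

namespace Groth.Agent.S2017

/-- Let R be a Noetherian ring, A, B, C R-algebras of finite type, f : A -> B a surjective R-algebra map
and g : C -> B an R-algebra map making B a finite C-module. Then the fibre product A ×_B C (the
equalizer of f ∘ pr₁ and g ∘ pr₂ in A × C) is an R-algebra of finite type. -/
theorem result (R A B C : Type u) [CommRing R] [IsNoetherianRing R] [CommRing A] [CommRing B]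
    [CommRing C] [Algebra R A] [Algebra R B] [Algebra R C] [Algebra.FiniteType R A] [Algebra.FiniteType R B]
    [Algebra.FiniteType R C] (f : A →ₐ[R] B) (hf : Function.Surjective f) (g : C →ₐ[R] B)
    (hg : (g.toRingHom).Finite) :
    Algebra.FiniteType R ↥(AlgHom.equalizer (f.comp (AlgHom.fst R A C)) (g.comp (AlgHom.snd R A C))) := by
  classical
  set D := AlgHom.equalizer (f.comp (AlgHom.fst R A C)) (g.comp (AlgHom.snd R A C)) with hD
  have memD : ∀ a c, f a = g c → (a, c) ∈ D := fun a c h => by
    rw [hD, AlgHom.mem_equalizer]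
    simpa using h
  -- B is spanned over C by a finite set
  have hspan : ∃ s : Finset B, ∀ b : B, ∃ c : B → C, b = ∑ x ∈ s, g (c x) * x := by
    let _ := g.toRingHom.toAlgebra
    have hfin : Module.Finite C B := hg
    obtain ⟨s, hs⟩ := hfin.fg_top
    refine ⟨s, fun b => ?_⟩
    have hb : b ∈ Submodule.span C (s : Set B) := by rw [hs]; trivial
    obtain ⟨c, -, hc⟩ := Submodule.mem_span_finset.mp hb
    refine ⟨c, ?_⟩
    rw [← hc]
    refine Finset.sum_congr rfl fun x _ => ?_
    rw [Algebra.smul_def, RingHom.algebraMap_toAlgebra]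
    rfl
  obtain ⟨s, hs⟩ := hspan
  choose a ha using fun x : B => hf x
  choose a' ha' using fun c : C => hf (g c)
  refine ⟨fg_of_fg_of_fg R D (A × C) Algebra.FiniteType.out ?_ Subtype.val_injective⟩
  let G : Set (A × C) := {(1, 0), (0, 1)} ∪ (fun x => (a x, (0 : C))) '' (s : Set B)
  have hGfin : G.Finite := (Set.toFinite _).union ((s.finite_toSet).image _)
  refine ⟨hGfin.toFinset, ?_⟩
  rw [Set.Finite.coe_toFinset, eq_top_iff]
  rintro ⟨x, c⟩ -
  have hx0 : ∀ x : A, ((x, (0 : C)) : A × C) ∈ Submodule.span D G := by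
    intro x
    obtain ⟨cc, hcc⟩ := hs (f x)
    -- e := x - ∑ a'(cc y) * a y lies in the kernel of f
    set e := x - ∑ y ∈ s, a' (cc y) * a y with he
    have hfe : f e = g 0 := by
      rw [he, map_sub, map_sum, map_zero, hcc]
      simp only [map_mul, ha, ha', sub_self]
    have hsplit : ((x, (0 : C)) : A × C) =
        (⟨(e, 0), memD e 0 hfe⟩ : D) • ((1, 0) : A × C) +
          ∑ y ∈ s, (⟨(a' (cc y), cc y), memD _ _ (ha' _)⟩ : D) • ((a y, 0) : A × C) := by
      simp only [Subalgebra.smul_def, smul_eq_mul, Prod.mk_mul_mk, mul_one, mul_zero, Prod.ext_iff,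
        Prod.fst_add, Prod.snd_add, Prod.fst_sum, Prod.snd_sum, Finset.sum_const_zero, add_zero]
      refine ⟨?_, trivial⟩
      rw [sub_add_cancel]
    rw [hsplit]
    refine Submodule.add_mem _ (Submodule.smul_mem _ _ (Submodule.subset_span ?_))
      (Submodule.sum_mem _ fun y hy => Submodule.smul_mem _ _ (Submodule.subset_span ?_))
    · exact Or.inl (Or.inl rfl)
    · exact Or.inr ⟨y, hy, rfl⟩
  have h0c : ((0 : A), c) ∈ Submodule.span D G := by
    have : (((0 : A), c) : A × C) = (⟨(a' c, c), memD _ _ (ha' c)⟩ : D) • ((0, 1) : A × C) := by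
      simp [Subalgebra.smul_def]
    rw [this]
    exact Submodule.smul_mem _ _ (Submodule.subset_span (Or.inl (Or.inr rfl)))
  have : ((x, c) : A × C) = (x, 0) + (0, c) := by simp
  rw [this]
  exact Submodule.add_mem _ (hx0 x) h0c

end Groth.Agent.S2017
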