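import Groth.Statements.S2018
-- import your own Groth.Agent.* helpers here

set_option autoImplicit false
universe u
open EtAlg

namespace Groth.Agent.S2018

/-- Let g : A' -> A be a surjective ring map and f : B -> A an integral ring map. Then the projection
from the fibre product B ×_A A' (the equalizer of f ∘ pr₁ and g ∘ pr₂ in B × A') to A' is integral. -/
theorem result (A A' B : Type u) [CommRing A] [CommRing A'] [CommRing B] (g : A' →+* A)
    (hg : Function.Surjective g) (f : B →+* A) (hf : f.IsIntegral) :
    ((RingHom.snd B A').comp ((f.comp (RingHom.fst B A')).eqLocus (g.comp (RingHom.snd B A'))).subtype).IsIntegral := by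
  classical
  set P := (f.comp (RingHom.fst B A')).eqLocus (g.comp (RingHom.snd B A')) with hP
  set φ : P →+* A' := (RingHom.snd B A').comp P.subtype with hφ
  set ρ : P →+* A := f.comp ((RingHom.fst B A').comp P.subtype) with hρ
  have hgφ : g.comp φ = ρ := by
    ext x
    exact x.2.symm
  intro a'
  rcases subsingleton_or_nontrivial P with hPs | hPn
  · have : Subsingleton A' := by
      constructor; intro x y
      have h1 : (1 : A') = 0 := by rw [← map_one φ, Subsingleton.elim (1 : P) 0, map_zero]
      rw [← mul_one x, ← mul_one y, h1, mul_zero, mul_zero]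
    exact ⟨Polynomial.X, Subsingleton.elim _ _, Subsingleton.elim _ _⟩
  obtain ⟨q, hqm, hq⟩ := hf (g a')
  have hlift : q.map f ∈ Polynomial.lifts ρ := by
    rw [Polynomial.lifts_iff_coeff_lifts]
    intro n
    rw [Polynomial.coeff_map]
    obtain ⟨c, hc⟩ := hg (f (q.coeff n))
    refine ⟨⟨(q.coeff n, c), ?_⟩, ?_⟩
    · show f (q.coeff n) = g c
      exact hc.symm
    · simp [hρ]
  obtain ⟨p', hp'map, -, hp'm⟩ := Polynomial.lifts_and_natDegree_eq_and_monic hlift (hqm.map f)
  set k := Polynomial.eval₂ φ a' p' with hk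
  have hgk : g k = 0 := by
    rw [hk, Polynomial.hom_eval₂, hgφ, ← Polynomial.eval_map, hp'map, Polynomial.eval_map]
    exact hq
  have hmem : ((0 : B), k * a') ∈ P := by
    show f 0 = g (k * a')
    rw [map_mul, hgk, zero_mul, map_zero]
  refine ⟨p' * Polynomial.X - Polynomial.C ⟨(0, k * a'), hmem⟩, ?_, ?_⟩
  · apply Polynomial.Monic.sub_of_left (hp'm.mul Polynomial.monic_X)
    rw [Polynomial.degree_mul_X, Polynomial.degree_eq_natDegree (Polynomial.Monic.ne_zero hp'm)]
    refine lt_of_le_of_lt Polynomial.degree_C_le ?_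
    exact_mod_cast Nat.succ_pos _
  · rw [Polynomial.eval₂_sub, Polynomial.eval₂_mul, Polynomial.eval₂_X, Polynomial.eval₂_C, ← hk]
    simp [hφ]

end Groth.Agent.S2018
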