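import Groth.Statements.S2056
import Groth.Agent.Lib.Helper3.UnivInj
-- import your own Groth.Agent.* helpers here

set_option autoImplicit false
universe u
open CAlg

namespace Groth.Agent.S2056

/-- A linear map of `R`-modules is universally injective (injective after tensoring with any module) if
and only if it is injective after tensoring with every finitely presented module. -/
theorem result {R M N : Type u} [CommRing R] [AddCommGroup M]
    [Module R M] [AddCommGroup N] [Module R N] (f : M →ₗ[R] N) :
    CAlgX.UniversallyInjective R f ↔
      ∀ (Q : Type u) [AddCommGroup Q] [Module R Q], Module.FinitePresentation R Q →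
        Function.Injective (f.rTensor Q) := by
  constructor
  · intro h Q _ _ _
    exact h Q
  · intro h Q _ _
    refine Groth.Agent.Lib.Helper3.rTensor_injective_of_quot f (fun n K hK => ?_) Q
    exact h _ (Module.finitePresentation_of_free_of_surjective K.mkQ K.mkQ_surjective
      (by rwa [Submodule.ker_mkQ]))

end Groth.Agent.S2056
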