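import Groth.Statements.S2057
import Groth.Agent.Lib.Helper3.UnivInj
-- import your own Groth.Agent.* helpers here

set_option autoImplicit false
universe u
open CAlg

namespace Groth.Agent.S2057

open TensorProduct

theorem piR_rTensor {R M N : Type u} [CommRing R] [AddCommGroup M] [Module R M] [AddCommGroup N]
    [Module R N] (f : M →ₗ[R] N) (n : ℕ) (u : M ⊗[R] (Fin n → R)) :
    piScalarRight R R N (Fin n) (f.rTensor _ u) = fun i => f (piScalarRight R R M (Fin n) u i) := by
  induction u using TensorProduct.induction_on with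
  | zero => ext i; simp
  | tmul x c => ext i; simp [piScalarRight_apply, piScalarRightHom_tmul]
  | add u v hu hv => ext i; simp only [map_add, Pi.add_apply] at hu hv ⊢; rw [hu, hv]

theorem piR_lTensor {R M : Type u} [CommRing R] [AddCommGroup M] [Module R M] (n m : ℕ)
    (A : (Fin m → R) →ₗ[R] (Fin n → R)) (t : M ⊗[R] (Fin m → R)) :
    piScalarRight R R M (Fin n) (A.lTensor M t) =
      fun i => ∑ j, A (Pi.single j 1) i • piScalarRight R R M (Fin m) t j := by
  induction t using TensorProduct.induction_on with
  | zero => ext i; simp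
  | tmul x c =>
    ext i
    simp only [LinearMap.lTensor_tmul, piScalarRight_apply, piScalarRightHom_tmul]
    have hc : c = ∑ j, c j • (Pi.single j 1 : Fin m → R) := by
      ext k; simp [Finset.sum_apply, Pi.single_apply]
    conv_lhs => rw [hc]
    simp only [map_sum, map_smul, Finset.sum_apply, Pi.smul_apply, smul_eq_mul, Finset.sum_smul,
      mul_smul]
    refine Finset.sum_congr rfl fun j _ => ?_
    rw [smul_comm]
  | add u v hu hv =>
    ext i; simp only [map_add, Pi.add_apply] at hu hv ⊢; rw [hu, hv]
    simp [smul_add, Finset.sum_add_distrib]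


/-- An injective linear map `f : M₁ → M₂` is universally injective if and only if: whenever elements
`x_i` of `M₁` satisfy `f(x_i) = Σ_j a_{ij} y_j` for some `y_j ∈ M₂` and scalars `a_{ij}`, there are
`z_j ∈ M₁` with `x_i = Σ_j a_{ij} z_j`. -/
theorem result {R M₁ M₂ : Type u} [CommRing R] [AddCommGroup M₁]
    [Module R M₁] [AddCommGroup M₂] [Module R M₂] (f : M₁ →ₗ[R] M₂) (hf : Function.Injective f) :
    CAlgX.UniversallyInjective R f ↔
      ∀ (n m : ℕ) (x : Fin n → M₁) (y : Fin m → M₂) (a : Fin n → Fin m → R),
        (∀ i, f (x i) = ∑ j, a i j • y j) → ∃ z : Fin m → M₁, ∀ i, x i = ∑ j, a i j • z j := by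
  constructor
  · intro hUI n m x y a hxy
    let A : (Fin m → R) →ₗ[R] (Fin n → R) :=
      { toFun := fun c i => ∑ j, a i j * c j
        map_add' := fun c d => by ext i; simp [mul_add, Finset.sum_add_distrib]
        map_smul' := fun r c => by ext i; simp [Finset.mul_sum, mul_left_comm] }
    have hA : ∀ i j, A (Pi.single j 1) i = a i j := fun i j => by
      simp [A, Pi.single_apply]
    let K := LinearMap.range A
    let u := (piScalarRight R R M₁ (Fin n)).symm x
    have hfu : f.rTensor _ u = A.lTensor M₂ ((piScalarRight R R M₂ (Fin m)).symm y) := by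
      apply (piScalarRight R R M₂ (Fin n)).injective
      rw [piR_rTensor, piR_lTensor]
      ext i
      simp only [u, LinearEquiv.apply_symm_apply, hA]
      exact hxy i
    have h0 : f.rTensor _ (K.mkQ.lTensor M₁ u) = f.rTensor _ 0 := by
      rw [Groth.Agent.Lib.Helper3.rTensor_lTensor_apply, hfu, map_zero, ← LinearMap.comp_apply,
        ← LinearMap.lTensor_comp]
      have : K.mkQ ∘ₗ A = 0 := by
        ext c; simp [K]
      rw [this, LinearMap.lTensor_zero, LinearMap.zero_apply]
    have h1 := hUI _ h0
    have hex := lTensor_exact M₁ (LinearMap.exact_map_mkQ_range A) (Submodule.mkQ_surjective _)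
    obtain ⟨t, ht⟩ := (hex u).mp h1
    refine ⟨piScalarRight R R M₁ (Fin m) t, fun i => ?_⟩
    have := congrFun (piR_lTensor n m A t) i
    rw [ht] at this
    simp only [u, LinearEquiv.apply_symm_apply, hA] at this
    exact this
  · intro hcrit Q _ _
    refine Groth.Agent.Lib.Helper3.rTensor_injective_of_quot f (fun n K hK => ?_) Q
    obtain ⟨m, A, hA⟩ := (Submodule.fg_iff_exists_fin_linearMap _ _).mp hK
    subst hA
    rw [injective_iff_map_eq_zero]
    intro w hw
    obtain ⟨u, rfl⟩ := LinearMap.lTensor_surjective M₁ (Submodule.mkQ_surjective (LinearMap.range A)) w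
    rw [Groth.Agent.Lib.Helper3.rTensor_lTensor_apply] at hw
    have hex₂ := lTensor_exact M₂ (LinearMap.exact_map_mkQ_range A) (Submodule.mkQ_surjective _)
    obtain ⟨s, hs⟩ := (hex₂ _).mp hw
    obtain ⟨z, hz⟩ := hcrit n m (piScalarRight R R M₁ (Fin n) u) (piScalarRight R R M₂ (Fin m) s)
      (fun i j => A (Pi.single j 1) i) (fun i => by
        have := congrFun (piR_lTensor n m A s) i
        rw [hs, piR_rTensor] at this
        exact this)
    have hu : u = A.lTensor M₁ ((piScalarRight R R M₁ (Fin m)).symm z) := by
      apply (piScalarRight R R M₁ (Fin n)).injective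
      rw [piR_lTensor]
      ext i
      simp only [LinearEquiv.apply_symm_apply]
      exact hz i
    rw [hu, ← LinearMap.comp_apply, ← LinearMap.lTensor_comp]
    have : (LinearMap.range A).mkQ ∘ₗ A = 0 := by
      ext c; simp
    rw [this, LinearMap.lTensor_zero, LinearMap.zero_apply]

end Groth.Agent.S2057
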