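import Groth.Statements.S2059
import Mathlib.RingTheory.AlgebraicIndependent.RankAndCardinality
import Mathlib.SetTheory.Cardinal.Subfield
import Mathlib.RingTheory.Jacobson.Ring
import Mathlib.RingTheory.Localization.Away.Basic
import Mathlib.RingTheory.IntegralClosure.IsIntegralClosure.Basic
-- import your own Groth.Agent.* helpers here

set_option autoImplicit false
universe u
open CAlg

namespace Groth.Agent.S2059

open Cardinal

theorem isAlgebraic_of_adjoin_card {k L : Type u} [Field k] [Field L] [Algebra k L] (s : Set L)
    (hs : Algebra.adjoin k s = ⊤) (hcard : max #s ℵ₀ < #k) : Algebra.IsAlgebraic k L := by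
  by_contra hna
  rw [← Algebra.transcendental_iff_not_isAlgebraic] at hna
  have h1 : Module.rank k L = #L := Algebra.Transcendental.rank_eq_cardinalMk k L
  have h2 : #k ≤ #L := Cardinal.mk_le_of_injective (algebraMap k L).injective
  have h3 : Module.rank k L ≤ max #s ℵ₀ := by
    have e := Algebra.adjoin_eq_span k s
    have : Module.rank k L = Module.rank k (Submodule.span k (Submonoid.closure s : Set L)) := by
      rw [← e, hs, Algebra.top_toSubmodule, rank_top]
    rw [this]
    refine (rank_span_le _).trans ?_
    have hsub : (Submonoid.closure s : Set L) ⊆ Subfield.closure s := by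
      intro x hx
      exact (Submonoid.closure_le (S := (Subfield.closure s).toSubmonoid)).mpr
        Subfield.subset_closure hx
    calc #(Submonoid.closure s : Set L) ≤ #(Subfield.closure s) := Cardinal.mk_le_mk_of_subset hsub
      _ ≤ max #s ℵ₀ := Subfield.cardinalMk_closure_le_max s
  rw [h1] at h3
  exact absurd (h3.trans_lt hcard) (not_lt.mpr h2)


/-- Let `k` be a field and `S` a `k`-algebra generated by a set of cardinality smaller than that of `k`.
Then for every maximal ideal `𝔪` of `S` the residue field `S/𝔪` is algebraic over `k`, and `S` is a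
Jacobson ring. -/
theorem result {k S : Type u} [Field k] [CommRing S] [Algebra k S]
    (s : Set S) (hs : Algebra.adjoin k s = ⊤) (hcard : Cardinal.mk s < Cardinal.mk k) :
    (∀ (m : Ideal S) [m.IsMaximal], Algebra.IsAlgebraic k (S ⧸ m)) ∧ IsJacobsonRing S := by
  classical
  rcases s.finite_or_infinite with hfin | hinf
  · have : Algebra.FiniteType k S := ⟨⟨hfin.toFinset, by simpa using hs⟩⟩
    refine ⟨fun m _ => ?_, isJacobsonRing_of_finiteType (A := k)⟩
    let _ := Ideal.Quotient.field m
    have : Module.Finite k (S ⧸ m) := finite_of_finite_type_of_isJacobsonRing k (S ⧸ m)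
    infer_instance
  · have hinf' : ℵ₀ ≤ #s := Cardinal.infinite_iff.mp hinf.to_subtype
    have hmax : max #s ℵ₀ = #s := max_eq_left hinf'
    have partA : ∀ (T : Type u) [CommRing T] [Algebra k T] (s' : Set T),
        Algebra.adjoin k s' = ⊤ → #s' ≤ #s →
        ∀ (N : Ideal T) [N.IsMaximal], Algebra.IsAlgebraic k (T ⧸ N) := by
      intro T _ _ s' hs' hcs' N _
      let _ := Ideal.Quotient.field N
      apply isAlgebraic_of_adjoin_card ((Ideal.Quotient.mkₐ k N) '' s')
      · rw [Algebra.adjoin_image, hs', Algebra.map_top, AlgHom.range_eq_top]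
        exact Ideal.Quotient.mkₐ_surjective k N
      · calc max #((Ideal.Quotient.mkₐ k N) '' s') ℵ₀ ≤ max #s ℵ₀ :=
            max_le_max (Cardinal.mk_image_le.trans hcs') le_rfl
          _ < #k := by rw [hmax]; exact hcard
    refine ⟨fun m _ => partA S s hs le_rfl m, ?_⟩
    rw [isJacobsonRing_iff_prime_eq]
    intro P hP
    refine le_antisymm ?_ Ideal.le_jacobson
    intro x hx
    by_contra hxP
    let y : S ⧸ P := Ideal.Quotient.mk P x
    have hy : y ≠ 0 := by
      simpa [y, Ideal.Quotient.eq_zero_iff_mem] using hxP
    let T := Localization.Away y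
    have hTinj : Function.Injective (algebraMap (S ⧸ P) T) :=
      IsLocalization.injective T (powers_le_nonZeroDivisors_of_noZeroDivisors hy)
    have : Nontrivial T := hTinj.nontrivial
    obtain ⟨N, hN⟩ := Ideal.exists_maximal T
    let ψ : S →ₐ[k] T := (IsScalarTower.toAlgHom k (S ⧸ P) T).comp (Ideal.Quotient.mkₐ k P)
    let s' : Set T := ψ '' s ∪ {IsLocalization.Away.invSelf y}
    have hs' : Algebra.adjoin k s' = ⊤ := by
      rw [eq_top_iff]
      intro z _
      obtain ⟨n, a, hz⟩ := IsLocalization.Away.surj y z
      obtain ⟨b, rfl⟩ := Ideal.Quotient.mk_surjective a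
      have hb : ψ b ∈ Algebra.adjoin k s' := by
        have : ψ b ∈ Algebra.adjoin k (ψ '' s) := by
          rw [Algebra.adjoin_image, hs, Algebra.map_top]
          exact ⟨b, rfl⟩
        exact Algebra.adjoin_mono Set.subset_union_left this
      have hinv : IsLocalization.Away.invSelf y ∈ Algebra.adjoin k s' :=
        Algebra.subset_adjoin (Set.mem_union_right _ rfl)
      have hz' : z = ψ b * (IsLocalization.Away.invSelf y) ^ n := by
        have h1 : algebraMap (S ⧸ P) T y * IsLocalization.Away.invSelf y = 1 :=
          IsLocalization.Away.mul_invSelf y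
        calc z = z * (algebraMap (S ⧸ P) T y * IsLocalization.Away.invSelf y) ^ n := by
              rw [h1, one_pow, mul_one]
          _ = (z * algebraMap (S ⧸ P) T y ^ n) * (IsLocalization.Away.invSelf y) ^ n := by ring
          _ = ψ b * (IsLocalization.Away.invSelf y) ^ n := by rw [hz]; rfl
      rw [hz']
      exact Subalgebra.mul_mem _ hb (Subalgebra.pow_mem _ hinv n)
    have hcs' : #s' ≤ #s := by
      calc #s' ≤ #(ψ '' s) + #({IsLocalization.Away.invSelf y} : Set T) := Cardinal.mk_union_le _ _
        _ ≤ #s + 1 := by
          gcongr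
          · exact Cardinal.mk_image_le
          · simp
        _ = #s := Cardinal.add_one_eq hinf'
    have halg := partA T s' hs' hcs' N
    let φ : S →ₐ[k] T ⧸ N := (Ideal.Quotient.mkₐ k N).comp ψ
    let M := RingHom.ker φ
    let _ := Ideal.Quotient.field N
    have hMmax : M.IsMaximal := by
      have hinjM : Function.Injective (Ideal.kerLiftAlg φ) := Ideal.kerLiftAlg_injective φ
      have : Algebra.IsAlgebraic k (S ⧸ M) := Algebra.IsAlgebraic.of_injective _ hinjM
      have : IsDomain (S ⧸ M) := hinjM.isDomain _
      exact Ideal.Quotient.maximal_of_isField _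
        (isField_of_isIntegral_of_isField' (R := k) (Field.toIsField k))
    have hPM : P ≤ M := by
      intro a ha
      show φ a = 0
      simp [φ, ψ, (Ideal.Quotient.eq_zero_iff_mem).mpr ha]
    have hxM : x ∉ M := by
      intro hxM
      have h0 : φ x = 0 := hxM
      have hu : IsUnit (ψ x) := IsLocalization.Away.algebraMap_isUnit y
      have := hu.map (Ideal.Quotient.mkₐ k N)
      rw [show (Ideal.Quotient.mkₐ k N) (ψ x) = φ x from rfl, h0] at this
      exact not_isUnit_zero this
    exact hxM ((Ideal.mem_jacobson_iff.mp hx) |> fun _ => Ideal.mem_sInf.mp hx ⟨hPM, hMmax⟩)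

end Groth.Agent.S2059
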