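import Groth.Statements.S2073
import Mathlib
-- import your own Groth.Agent.* helpers here

set_option autoImplicit false
universe u
open CAlg

namespace Groth.Agent.S2073

/-- Assembly step: from algebraically independent `y` and generic integrality, build `S'` and `f`. -/
theorem assemble {R S : Type u} [CommRing R] [IsDomain R] [CommRing S] [Algebra R S]
    [Algebra.FiniteType R S] {d : ℕ} (y : Fin d → S) (hy : AlgebraicIndependent R y)
    (hint : ∀ x : S, ∃ r : R, r ≠ 0 ∧ IsIntegral (Algebra.adjoin R (Set.range y)) (r • x)) :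
    ∃ (d : ℕ) (y : Fin d → S) (S' : Subalgebra R S), AlgebraicIndependent R y ∧ (∀ i, y i ∈ S') ∧
      S'.FG ∧ (∀ s ∈ S', IsIntegral (Algebra.adjoin R (Set.range y)) s) ∧
      ∃ f : R, f ≠ 0 ∧ ∀ s : S, ∃ n : ℕ, (f ^ n) • s ∈ S' := by
  classical
  obtain ⟨F, hF⟩ := Algebra.FiniteType.out (R := R) (A := S)
  choose r hr0 hri using hint
  set f : R := ∏ x ∈ F, r x with hf_def
  have hf0 : f ≠ 0 := Finset.prod_ne_zero_iff.mpr (fun x _ => hr0 x)
  set S' : Subalgebra R S := Algebra.adjoin R (Set.range y ∪ (fun x => f • x) '' (F : Set S))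
    with hS'
  refine ⟨d, y, S', hy, fun i => Algebra.subset_adjoin (Or.inl ⟨i, rfl⟩), ?_, ?_, f, hf0, ?_⟩
  · rw [Subalgebra.fg_def]
    exact ⟨_, (Set.finite_range y).union (F.finite_toSet.image _), rfl⟩
  · have hle : S' ≤ (integralClosure (Algebra.adjoin R (Set.range y)) S).restrictScalars R := by
      refine Algebra.adjoin_le ?_
      rintro _ (⟨i, rfl⟩ | ⟨x, hx, rfl⟩)
      · show IsIntegral _ (y i)
        exact (isIntegral_algebraMap (R := Algebra.adjoin R (Set.range y))
          (x := (⟨y i, Algebra.subset_adjoin ⟨i, rfl⟩⟩ : Algebra.adjoin R (Set.range y))))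
      · show IsIntegral _ (f • x)
        have hx' : x ∈ F := hx
        rw [hf_def, ← Finset.mul_prod_erase F r hx', mul_comm, mul_smul]
        exact (hri x).smul _
    intro s hs
    exact hle hs
  · intro s
    have hs : s ∈ Algebra.adjoin R (F : Set S) := by rw [hF]; trivial
    induction hs using Algebra.adjoin_induction with
    | mem x hx => exact ⟨1, by rw [pow_one]; exact Algebra.subset_adjoin (Or.inr ⟨x, hx, rfl⟩)⟩
    | algebraMap a => exact ⟨0, by rw [pow_zero, one_smul]; exact Subalgebra.algebraMap_mem _ _⟩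
    | add x z _ _ hx hz =>
      obtain ⟨a, ha⟩ := hx
      obtain ⟨b, hb⟩ := hz
      refine ⟨a + b, ?_⟩
      have : f ^ (a + b) • (x + z) = f ^ b • (f ^ a • x) + f ^ a • (f ^ b • z) := by
        rw [smul_add, smul_smul, smul_smul, ← pow_add, ← pow_add, add_comm b a]
      rw [this]
      exact S'.add_mem (S'.smul_mem ha _) (S'.smul_mem hb _)
    | mul x z _ _ hx hz =>
      obtain ⟨a, ha⟩ := hx
      obtain ⟨b, hb⟩ := hz
      refine ⟨a + b, ?_⟩
      have : f ^ (a + b) • (x * z) = (f ^ a • x) * (f ^ b • z) := by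
        rw [smul_mul_smul_comm, ← pow_add]
      rw [this]
      exact S'.mul_mem ha hb


open TensorProduct in
theorem algebraMap_tmul_eq {R S : Type u} [CommRing R] [IsDomain R] [CommRing S] [Algebra R S]
    (r : R) :
    (1 : FractionRing R) ⊗ₜ[R] algebraMap R S r =
      algebraMap (FractionRing R) (FractionRing R ⊗[R] S) (algebraMap R (FractionRing R) r) := by
  rw [Algebra.TensorProduct.algebraMap_apply, Algebra.algebraMap_eq_smul_one (A := S),
    Algebra.algebraMap_eq_smul_one (A := FractionRing R), TensorProduct.tmul_smul,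
    TensorProduct.smul_tmul']
  congr 1
  rw [smul_eq_mul, mul_one, Algebra.algebraMap_eq_smul_one]

open TensorProduct in
/-- Noether normalization of the generic fibre, with the parameters chosen in `S`. -/
theorem exists_normalization {R S : Type u} [CommRing R] [IsDomain R] [CommRing S] [Algebra R S]
    [Algebra.FiniteType R S] (hinj : Function.Injective (algebraMap R S)) :
    ∃ (d : ℕ) (y : Fin d → S),
      Function.Injective (MvPolynomial.aeval (R := FractionRing R)
        (fun i => (1 : FractionRing R) ⊗ₜ[R] y i)) ∧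
      (MvPolynomial.aeval (R := FractionRing R)
        (fun i => (1 : FractionRing R) ⊗ₜ[R] y i)).IsIntegral := by
  classical
  let K := FractionRing R
  let T := K ⊗[R] S
  let _ : Algebra S T := Algebra.TensorProduct.rightAlgebra
  have hloc : IsLocalization (Algebra.algebraMapSubmonoid S (nonZeroDivisors R)) T :=
    IsLocalization.tensorRight _ _
  have hST : ∀ s : S, algebraMap S T s = (1 : K) ⊗ₜ[R] s := fun s => rfl
  have : Nontrivial T := by
    by_contra hT
    rw [not_nontrivial_iff_subsingleton] at hT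
    have h1 : algebraMap S T 1 = 0 := Subsingleton.elim _ _
    obtain ⟨⟨m, hm⟩, hm1⟩ :=
      (IsLocalization.map_eq_zero_iff (Algebra.algebraMapSubmonoid S (nonZeroDivisors R)) T 1).mp h1
    obtain ⟨a, ha, rfl⟩ := hm
    simp only [mul_one] at hm1
    have : a = 0 := hinj (by rw [hm1, map_zero])
    exact nonZeroDivisors.ne_zero ha this
  obtain ⟨d, g, hg_inj, hg_int⟩ := exists_integral_inj_algHom_of_fg K T
  have hsurj := fun i => IsLocalization.surj (Algebra.algebraMapSubmonoid S (nonZeroDivisors R))
    (g (MvPolynomial.X i))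
  choose p hp using hsurj
  have hp2 : ∀ i, ∃ a ∈ nonZeroDivisors R, algebraMap R S a = ((p i).2 : S) := fun i =>
    (p i).2.prop
  choose a ha hap using hp2
  let c : Fin d → K := fun i => algebraMap R K (a i)
  have hc0 : ∀ i, c i ≠ 0 := fun i =>
    IsFractionRing.to_map_ne_zero_of_mem_nonZeroDivisors (ha i)
  refine ⟨d, fun i => (p i).1, ?_⟩
  let σ : MvPolynomial (Fin d) K →ₐ[K] MvPolynomial (Fin d) K :=
    MvPolynomial.aeval (fun i => MvPolynomial.C (c i) * MvPolynomial.X i)
  let σ' : MvPolynomial (Fin d) K →ₐ[K] MvPolynomial (Fin d) K :=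
    MvPolynomial.aeval (fun i => MvPolynomial.C (c i)⁻¹ * MvPolynomial.X i)
  have hσσ' : σ.comp σ' = AlgHom.id K _ := by
    apply MvPolynomial.algHom_ext
    intro i
    simp only [σ, σ', AlgHom.comp_apply, MvPolynomial.aeval_X, map_mul, MvPolynomial.aeval_C,
      AlgHom.id_apply, MvPolynomial.algebraMap_eq]
    rw [← mul_assoc, ← map_mul, inv_mul_cancel₀ (hc0 i), map_one, one_mul]
  have hσ'σ : σ'.comp σ = AlgHom.id K _ := by
    apply MvPolynomial.algHom_ext
    intro i
    simp only [σ, σ', AlgHom.comp_apply, MvPolynomial.aeval_X, map_mul, MvPolynomial.aeval_C,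
      AlgHom.id_apply, MvPolynomial.algebraMap_eq]
    rw [← mul_assoc, ← map_mul, mul_inv_cancel₀ (hc0 i), map_one, one_mul]
  have hσ_inj : Function.Injective σ := by
    intro x x' h
    have := congrArg σ' h
    simpa only [← AlgHom.comp_apply, hσ'σ, AlgHom.id_apply] using this
  have hσ_surj : Function.Surjective σ := by
    intro x
    refine ⟨σ' x, ?_⟩
    rw [← AlgHom.comp_apply, hσσ', AlgHom.id_apply]
  have hgσ : g.comp σ = MvPolynomial.aeval (R := K) (fun i => (1 : K) ⊗ₜ[R] (p i).1) := by
    apply MvPolynomial.algHom_ext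
    intro i
    simp only [σ, AlgHom.comp_apply, MvPolynomial.aeval_X, map_mul, MvPolynomial.aeval_C,
      MvPolynomial.algebraMap_eq]
    have h := hp i
    rw [← hap i, hST, hST] at h
    rw [← h, algebraMap_tmul_eq, mul_comm, MvPolynomial.algHom_C]
  rw [← hgσ]
  refine ⟨hg_inj.comp hσ_inj, ?_⟩
  exact RingHom.IsIntegral.trans (f := σ.toRingHom) (g := g.toRingHom)
    (RingHom.isIntegral_of_surjective _ hσ_surj) hg_int

open TensorProduct in
/-- From a normalization of the generic fibre with parameters in `S`: algebraic independence over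
`R`, and generic integrality of every element. -/
theorem generic_integral {R S : Type u} [CommRing R] [IsDomain R] [CommRing S] [Algebra R S]
    {d : ℕ} (y : Fin d → S)
    (hinj' : Function.Injective (MvPolynomial.aeval (R := FractionRing R)
        (fun i => (1 : FractionRing R) ⊗ₜ[R] y i)))
    (hint' : (MvPolynomial.aeval (R := FractionRing R)
        (fun i => (1 : FractionRing R) ⊗ₜ[R] y i)).IsIntegral) :
    AlgebraicIndependent R y ∧
      ∀ x : S, ∃ r : R, r ≠ 0 ∧ IsIntegral (Algebra.adjoin R (Set.range y)) (r • x) := by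
  classical
  let K := FractionRing R
  let T := K ⊗[R] S
  let _ : Algebra S T := Algebra.TensorProduct.rightAlgebra
  have hloc : IsLocalization (Algebra.algebraMapSubmonoid S (nonZeroDivisors R)) T :=
    IsLocalization.tensorRight _ _
  have hST : ∀ s : S, algebraMap S T s = (1 : K) ⊗ₜ[R] s := fun s => rfl
  let g' : MvPolynomial (Fin d) K →ₐ[K] T := MvPolynomial.aeval (fun i => (1 : K) ⊗ₜ[R] y i)
  let φ : MvPolynomial (Fin d) R →ₐ[R] S := MvPolynomial.aeval y
  have hcommRH : g'.toRingHom.comp (MvPolynomial.map (algebraMap R K)) =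
      (algebraMap S T).comp φ.toRingHom := by
    apply MvPolynomial.ringHom_ext
    · intro r
      simp only [RingHom.comp_apply, MvPolynomial.map_C, AlgHom.toRingHom_eq_coe,
        RingHom.coe_coe, MvPolynomial.algHom_C, φ, g', MvPolynomial.aeval_C]
      rw [hST, algebraMap_tmul_eq]
    · intro i
      simp only [RingHom.comp_apply, MvPolynomial.map_X, AlgHom.toRingHom_eq_coe,
        RingHom.coe_coe, φ, g', MvPolynomial.aeval_X, hST]
  have hcomm : ∀ p, g' (MvPolynomial.map (algebraMap R K) p) = algebraMap S T (φ p) :=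
    fun p => RingHom.congr_fun hcommRH p
  refine ⟨?_, ?_⟩
  · rw [algebraicIndependent_iff_injective_aeval]
    intro p q hpq
    have h1 : g' (MvPolynomial.map (algebraMap R K) p) = g' (MvPolynomial.map (algebraMap R K) q) := by
      rw [hcomm, hcomm]
      exact congrArg (algebraMap S T) hpq
    exact MvPolynomial.map_injective _ (IsFractionRing.injective R K) (hinj' h1)
  · intro x
    let A := MvPolynomial (Fin d) R
    let KX := MvPolynomial (Fin d) K
    let M : Submonoid A := (nonZeroDivisors R).map (MvPolynomial.C : R →+* A)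
    let iAKX : Algebra A KX := MvPolynomial.algebraMvPolynomial
    have hlocKX : IsLocalization M KX := MvPolynomial.isLocalization (nonZeroDivisors R) K
    let iKXT : Algebra KX T := g'.toRingHom.toAlgebra
    let iAT : Algebra A T := ((algebraMap S T).comp φ.toRingHom).toAlgebra
    let iAS : Algebra A S := φ.toRingHom.toAlgebra
    have htow1 : IsScalarTower A KX T := IsScalarTower.of_algebraMap_eq fun p => (hcomm p).symm
    have htow2 : IsScalarTower A S T := IsScalarTower.of_algebraMap_eq fun p => rfl
    have hx : IsIntegral KX (algebraMap S T x) := hint' _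
    obtain ⟨⟨m, hm⟩, hmint⟩ :=
      IsIntegral.exists_multiple_integral_of_isLocalization M (algebraMap S T x) hx
    obtain ⟨r₁, hr₁, rfl⟩ := hm
    have e1 : (⟨MvPolynomial.C r₁, ⟨r₁, hr₁, rfl⟩⟩ : M) • algebraMap S T x =
        algebraMap S T (r₁ • x) := by
      rw [Submonoid.smul_def, Algebra.smul_def, Algebra.smul_def, map_mul]
      congr 1
      show algebraMap S T (φ (MvPolynomial.C r₁)) = _
      rw [MvPolynomial.aeval_C]
    rw [e1] at hmint
    have hMeq : Algebra.algebraMapSubmonoid S M = Algebra.algebraMapSubmonoid S (nonZeroDivisors R) := by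
      ext z
      simp only [Algebra.algebraMapSubmonoid, M, Submonoid.mem_map]
      constructor
      · rintro ⟨_, ⟨r, hr, rfl⟩, rfl⟩
        exact ⟨r, hr, (MvPolynomial.aeval_C y r).symm⟩
      · rintro ⟨r, hr, rfl⟩
        exact ⟨_, ⟨r, hr, rfl⟩, MvPolynomial.aeval_C y r⟩
    have hloc' : IsLocalization (Algebra.algebraMapSubmonoid S M) T := hMeq ▸ hloc
    obtain ⟨m', hm', hint2⟩ :=
      IsLocalization.exists_isIntegral_smul_of_isIntegral_map (Sₘ := T) M hmint
    obtain ⟨r₂, hr₂, rfl⟩ := hm'
    have e2 : (MvPolynomial.C r₂ : A) • (r₁ • x) = (r₂ * r₁) • x := by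
      rw [Algebra.smul_def, mul_smul]
      show φ (MvPolynomial.C r₂) * _ = _
      rw [MvPolynomial.aeval_C, ← Algebra.smul_def]
    rw [e2] at hint2
    refine ⟨r₂ * r₁, mul_ne_zero (nonZeroDivisors.ne_zero hr₂) (nonZeroDivisors.ne_zero hr₁), ?_⟩
    -- transfer integrality from `A` to `adjoin R (range y)`
    let P := Algebra.adjoin R (Set.range y)
    let φ' : A →ₐ[R] P := MvPolynomial.aeval (fun i => ⟨y i, Algebra.subset_adjoin ⟨i, rfl⟩⟩)
    let iAP : Algebra A P := φ'.toRingHom.toAlgebra
    have htow3 : IsScalarTower A P S := by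
      refine IsScalarTower.of_algebraMap_eq fun p => ?_
      show φ p = (φ' p : S)
      have : (P.val.comp φ') = φ := by
        apply MvPolynomial.algHom_ext
        intro i
        simp [φ, φ']
      rw [← this]
      rfl
    exact hint2.tower_top

/-- Let `R` be a domain and `R → S` an injective ring map of finite type. Then there are elements `y_1,
…, y_d` of `S` algebraically independent over `R`, a finitely generated `R`-subalgebra `S'` of `S`
containing them and integral over `R[y_1, …, y_d]`, and a nonzero `f ∈ R` such that every element of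
`S` lands in `S'` after multiplication by a power of `f`. -/
theorem result {R S : Type u} [CommRing R] [IsDomain R] [CommRing S] [Algebra R S]
    [Algebra.FiniteType R S] (hinj : Function.Injective (algebraMap R S)) :
    ∃ (d : ℕ) (y : Fin d → S) (S' : Subalgebra R S), AlgebraicIndependent R y ∧ (∀ i, y i ∈ S') ∧ S'.FG ∧
      (∀ s ∈ S', IsIntegral (Algebra.adjoin R (Set.range y)) s) ∧
      ∃ f : R, f ≠ 0 ∧ ∀ s : S, ∃ n : ℕ, (f ^ n) • s ∈ S' := by
  obtain ⟨d, y, hinj', hint'⟩ := exists_normalization hinj
  obtain ⟨hy, hint⟩ := generic_integral y hinj' hint'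
  exact assemble y hy hint

end Groth.Agent.S2073
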