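import Groth.Statements.S2120
import Mathlib.AlgebraicGeometry.Morphisms.Immersion
-- import your own Groth.Agent.* helpers here

set_option autoImplicit false
universe u
open CategoryTheory AlgebraicGeometry
open Mor

namespace Groth.Agent.S2120

/-- Let `f : X → Y` be surjective and universally closed. If `X` is quasi-separated then so is `Y`; if
`X` is separated then so is `Y`. -/
theorem result {X Y : Scheme.{u}} (f : X ⟶ Y) [Surjective f] [UniversallyClosed f] :
    (QuasiSeparatedSpace X → QuasiSeparatedSpace Y) ∧ (X.IsSeparated → Y.IsSeparated) := by
  constructor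
  · intro hX
    rw [quasiSeparatedSpace_iff]
    intro U V hU hUc hV hVc
    have h1 : IsCompact (f ⁻¹' U) := QuasiCompact.isCompact_preimage (f := f) U hU hUc
    have h2 : IsCompact (f ⁻¹' V) := QuasiCompact.isCompact_preimage (f := f) V hV hVc
    have h3 : IsCompact (f ⁻¹' U ∩ f ⁻¹' V) :=
      QuasiSeparatedSpace.inter_isCompact _ _ (hU.preimage f.continuous) h1
        (hV.preimage f.continuous) h2
    have : f '' (f ⁻¹' U ∩ f ⁻¹' V) = U ∩ V := by
      rw [← Set.preimage_inter, Set.image_preimage_eq _ f.surjective]
    rw [← this]
    exact h3.image f.continuous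
  · intro hX
    have e : Limits.terminal.from X = f ≫ Limits.terminal.from Y := Limits.terminal.hom_ext _ _
    let m := Limits.pullback.map (Limits.terminal.from X) (Limits.terminal.from X) (Limits.terminal.from Y) (Limits.terminal.from Y)
      f f (𝟙 _) ((Category.comp_id _).trans e) ((Category.comp_id _).trans e)
    have hm1 : UniversallyClosed m :=
      MorphismProperty.pullbackMap (P := @UniversallyClosed) ‹_› ‹_› e e
    have hcomm : Limits.pullback.diagonal (Limits.terminal.from X) ≫ m =
        f ≫ Limits.pullback.diagonal (Limits.terminal.from Y) := by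
      ext <;> simp only [m, Category.assoc, Limits.pullback.lift_fst, Limits.pullback.lift_snd,
        Limits.pullback.diagonal_fst_assoc, Limits.pullback.diagonal_snd_assoc, Category.comp_id,
        Limits.pullback.diagonal_fst, Limits.pullback.diagonal_snd]
    have hrange : Set.range (Limits.pullback.diagonal (Limits.terminal.from Y)) =
        m '' Set.range (Limits.pullback.diagonal (Limits.terminal.from X)) := by
      rw [← Set.range_comp]
      have h4 : (⇑m ∘ ⇑(Limits.pullback.diagonal (Limits.terminal.from X))) =
          ⇑(Limits.pullback.diagonal (Limits.terminal.from X) ≫ m) := by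
        ext x; rfl
      rw [h4, hcomm]
      have h5 : ⇑(f ≫ Limits.pullback.diagonal (Limits.terminal.from Y)) =
          ⇑(Limits.pullback.diagonal (Limits.terminal.from Y)) ∘ ⇑f := by
        ext x; rfl
      rw [h5, Set.range_comp, Set.range_eq_univ.mpr f.surjective, Set.image_univ]
    have hclosed : IsClosed (Set.range (Limits.pullback.diagonal (Limits.terminal.from Y))) := by
      rw [hrange]
      exact m.isClosedMap _ (Limits.pullback.diagonal (Limits.terminal.from X)).isClosedEmbedding.isClosed_range
    exact ⟨⟨IsClosedImmersion.of_isPreimmersion _ hclosed⟩⟩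

end Groth.Agent.S2120
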