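import Groth.Statements.S2123
import Groth.Agent.Lib.Helper4.IntSep
-- import your own Groth.Agent.* helpers here

set_option autoImplicit false
universe u
open CategoryTheory AlgebraicGeometry
open Mor

namespace Groth.Agent.S2123

/-- Let `X` be an integral separated scheme and `x, y` points such that the closure of `x` is not
contained in the closure of `y`. Then, inside the function field of `X`, the local ring at `x` is
not contained in the local ring at `y`. -/
theorem result (X : Scheme.{u}) [IsIntegral X] [X.IsSeparated] (x y : X)
    (h : ¬ closure ({x} : Set X) ⊆ closure {y}) :
    ¬ Set.range (X.presheaf.stalkSpecializes (genericPoint_specializes x)) ⊆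
        Set.range (X.presheaf.stalkSpecializes (genericPoint_specializes y)) := by
  intro hr
  apply h
  have hle : (algebraMap (X.presheaf.stalk x) X.functionField).range ≤
      (algebraMap (X.presheaf.stalk y) X.functionField).range := by
    intro a ha
    exact hr ha
  have hsp := Groth.Agent.Lib.Helper4.IntSepAux.specializes_of_range_le X x y hle
  exact specializes_iff_closure_subset.mp hsp

end Groth.Agent.S2123
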