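import Groth.Statements.S2160
import Mathlib.RingTheory.Ideal.KrullsHeightTheorem
import Mathlib.RingTheory.Ideal.MinimalPrime.Noetherian

set_option autoImplicit false
universe u
open CAlg

namespace Groth.Agent.S2160

/-- Let `R` be a Noetherian local domain of Krull dimension at least `2`. Then every nonempty open
subset of `Spec R` is infinite. -/
theorem result {R : Type u} [CommRing R] [IsDomain R] [IsLocalRing R] [IsNoetherianRing R]
    (hdim : 2 ≤ ringKrullDim R) (U : Set (PrimeSpectrum R)) (hU : IsOpen U) (hne : U.Nonempty) : U.Infinite := by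
  classical
  intro hfin
  obtain ⟨p, hpU⟩ := hne
  obtain ⟨v, ⟨f, rfl⟩, hpv, hvU⟩ :=
    PrimeSpectrum.isTopologicalBasis_basic_opens.exists_subset_of_mem_open hpU hU
  have hf0 : f ≠ 0 := by
    rintro rfl
    exact hpv (by simp)
  have hmh : (2 : ℕ∞) ≤ (IsLocalRing.maximalIdeal R).height := by
    have := IsLocalRing.maximalIdeal_height_eq_ringKrullDim (R := R)
    rw [← this] at hdim
    have h2 : ((2 : ℕ∞) : WithBot ℕ∞) = 2 := rfl
    rw [← h2] at hdim
    exact WithBot.coe_le_coe.mp hdim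
  set m := IsLocalRing.maximalIdeal R with hm
  -- the finite set of primes to avoid
  set F : Set (Ideal R) :=
    ((fun q : PrimeSpectrum R => q.asIdeal) '' U ∪ (Ideal.span {f}).minimalPrimes) \ {m} with hF
  have hFfin : F.Finite :=
    ((hfin.image _).union (Ideal.finite_minimalPrimes_of_isNoetherianRing _ _)).sdiff
  have hFprime : ∀ q ∈ F, q.IsPrime := by
    rintro q ⟨hq | hq, -⟩
    · obtain ⟨q', -, rfl⟩ := hq
      exact q'.isPrime
    · exact hq.1.1
  have hnot : ¬ ((m : Set R) ⊆ ⋃ i ∈ (↑hFfin.toFinset : Set (Ideal R)), ((id i : Ideal R) : Set R)) := by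
    intro hsub
    obtain ⟨i, hi, hmi⟩ := (Ideal.subset_union_prime (s := hFfin.toFinset) (f := id) m m
      (fun i hi _ _ => hFprime i (by simpa using hi))).mp hsub
    have hi' : i ∈ F := by simpa using hi
    have := (IsLocalRing.maximalIdeal.isMaximal R).eq_of_le (hFprime i hi').ne_top hmi
    exact hi'.2 this.symm
  obtain ⟨x, hxm, hxF⟩ := Set.not_subset.mp hnot
  have hxF' : ∀ q ∈ F, x ∉ q := by
    intro q hq hxq
    apply hxF
    simp only [Set.mem_iUnion]
    exact ⟨q, by simpa using hq, hxq⟩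
  -- the zero ideal is in F
  have hbotU : (⟨⊥, Ideal.isPrime_bot⟩ : PrimeSpectrum R) ∈ U := by
    apply hvU
    simpa using hf0
  have hbotm : (⊥ : Ideal R) ≠ m := by
    intro h
    have : m.height = 0 := by rw [← h]; exact Ideal.height_bot
    rw [this] at hmh
    exact absurd hmh (by norm_num)
  have hbotF : (⊥ : Ideal R) ∈ F := ⟨Or.inl ⟨_, hbotU, rfl⟩, hbotm⟩
  have hx0 : x ≠ 0 := by
    intro h
    exact hxF' ⊥ hbotF (by rw [h]; exact Ideal.zero_mem _)
  -- a minimal prime over (x)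
  obtain ⟨q, hq, hqm⟩ := Ideal.exists_minimalPrimes_le
    (show Ideal.span {x} ≤ m from (Ideal.span_singleton_le_iff_mem _).mpr hxm)
  have hqp : q.IsPrime := hq.1.1
  have hxq : x ∈ q := hq.1.2 (Ideal.mem_span_singleton_self x)
  have hqh : q.height ≤ 1 := Ideal.height_le_one_of_isPrincipal_of_mem_minimalPrimes _ q hq
  have hqne : q ≠ m := by
    intro h
    rw [h] at hqh
    exact absurd (hmh.trans hqh) (by norm_num)
  have hqU : (⟨q, hqp⟩ : PrimeSpectrum R) ∉ U := by
    intro h
    exact hxF' q ⟨Or.inl ⟨_, h, rfl⟩, hqne⟩ hxq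
  have hfq : f ∈ q := by
    by_contra hfq
    exact hqU (hvU (by simpa using hfq))
  have hqmin : q ∈ (Ideal.span {f}).minimalPrimes := by
    refine ⟨⟨hqp, (Ideal.span_singleton_le_iff_mem _).mpr hfq⟩, ?_⟩
    rintro y ⟨hyp, hfy⟩ hyq
    by_contra hqy
    have hlt : y < q := lt_of_le_of_ne hyq (fun h => hqy (h ▸ le_rfl))
    have hyne : y ≠ ⊥ := by
      rintro rfl
      exact hf0 ((Ideal.span_singleton_le_iff_mem _).mp hfy)
    have h1 : 1 ≤ y.height :=
      Order.one_le_iff_ne_zero.mpr (fun h => hyne (Ideal.height_eq_zero_iff_eq_bot.mp h))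
    have h2 := Ideal.height_add_one_le_of_lt_of_isPrime hlt
    have : (2 : ℕ∞) ≤ 1 := by
      calc (2 : ℕ∞) = 1 + 1 := by norm_num
        _ ≤ y.height + 1 := by gcongr
        _ ≤ q.height := h2
        _ ≤ 1 := hqh
    exact absurd this (by norm_num)
  exact hxF' q ⟨Or.inr hqmin, hqne⟩ hxq

end Groth.Agent.S2160
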