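import Groth.Statements.S2170
import Groth.Agent.Lib.Helper4.QuadForm
-- import your own Groth.Agent.* helpers here

set_option autoImplicit false
open Finset
open Models

namespace Groth.Agent.S2170

/-- Let A be a symmetric real n × n matrix with non-negative off-diagonal entries and m a vector with
positive entries such that for every i, ∑_{j ≠ i} A_{ij} m_j ≤ −A_{ii} m_i. Then the kernel of A is
the span of the vectors equal to m on an index set I and zero off I, for those I such that A_{ij} =
0 whenever i ∈ I and j ∉ I and such that equality holds in the above inequality for every i ∈ I. The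
published statement omits the symmetry of A (without which it fails) and applies it only to
symmetric matrices; stated here with A symmetric. -/
theorem result {n : ℕ} (A : Matrix (Fin n) (Fin n) ℝ) (m : Fin n → ℝ)
    (hsymm : A.IsSymm) (hA : ∀ i j, i ≠ j → 0 ≤ A i j) (hm : ∀ i, 0 < m i)
    (hle : ∀ i, ∑ j ∈ univ.erase i, A i j * m j ≤ -(A i i * m i)) :
    LinearMap.ker (Matrix.mulVecLin A) = Submodule.span ℝ
      {x : Fin n → ℝ | ∃ I : Finset (Fin n), (∀ i ∈ I, ∀ j ∉ I, A i j = 0) ∧
        (∀ i ∈ I, ∑ j ∈ univ.erase i, A i j * m j = -(A i i * m i)) ∧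
        x = fun i => if i ∈ I then m i else 0} := by
  have hs := Groth.Agent.Lib.Helper4.symm_apply_of_isSymm hsymm
  have hr : ∀ i, ∑ j, A i j * m j ≤ 0 := by
    intro i
    have := hle i
    rw [← Finset.add_sum_erase Finset.univ (fun j => A i j * m j) (Finset.mem_univ i)]
    linarith
  have hr_eq : ∀ i, (∑ j ∈ univ.erase i, A i j * m j = -(A i i * m i)) ↔
      ∑ j, A i j * m j = 0 := by
    intro i
    rw [← Finset.add_sum_erase Finset.univ (fun j => A i j * m j) (Finset.mem_univ i)]
    constructor <;> intro h <;> linarith
  apply le_antisymm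
  · intro x hx
    rw [LinearMap.mem_ker, Matrix.mulVecLin_apply] at hx
    set y : Fin n → ℝ := fun i => x i / m i with hy
    have hxy : ∀ i, x i = m i * y i := fun i => by
      simp only [hy]
      field_simp [(hm i).ne']
    have hQ : ∑ i, ∑ j, A i j * (m i * y i) * (m j * y j) = 0 := by
      have h0 : ∑ i, x i * (A.mulVec x) i = 0 := by simp [hx]
      rw [← h0]
      apply Finset.sum_congr rfl
      intro i _
      rw [Matrix.mulVec, dotProduct, Finset.mul_sum]
      apply Finset.sum_congr rfl
      intro j _
      rw [hxy i, hxy j]
      ring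
    have hid := Groth.Agent.Lib.Helper4.quad_identity A hsymm m y
    rw [hQ, mul_zero, sub_zero] at hid
    have hnonneg : ∀ i j, 0 ≤ A i j * m i * m j * (y i - y j) ^ 2 := by
      intro i j
      by_cases hij : i = j
      · subst hij
        simp
      · have h1 := hA i j hij
        have h2 := (hm i).le
        have h3 := (hm j).le
        positivity
    have hnonpos : ∀ i, y i ^ 2 * m i * ∑ j, A i j * m j ≤ 0 := by
      intro i
      have h1 : 0 ≤ y i ^ 2 * m i := by
        have := (hm i).le
        positivity
      exact mul_nonpos_of_nonneg_of_nonpos h1 (hr i)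
    have hS1 : 0 ≤ ∑ i, ∑ j, A i j * m i * m j * (y i - y j) ^ 2 :=
      Finset.sum_nonneg fun i _ => Finset.sum_nonneg fun j _ => hnonneg i j
    have hS2 : ∑ i, y i ^ 2 * m i * ∑ j, A i j * m j ≤ 0 :=
      Finset.sum_nonpos fun i _ => hnonpos i
    have hS1' : ∑ i, ∑ j, A i j * m i * m j * (y i - y j) ^ 2 = 0 := by linarith
    have hS2' : ∑ i, y i ^ 2 * m i * ∑ j, A i j * m j = 0 := by linarith
    have hterm1 : ∀ i j, A i j * m i * m j * (y i - y j) ^ 2 = 0 := by
      intro i j
      have h := (Finset.sum_eq_zero_iff_of_nonneg
        (fun i _ => Finset.sum_nonneg fun j _ => hnonneg i j)).mp hS1' i (Finset.mem_univ _)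
      exact (Finset.sum_eq_zero_iff_of_nonneg (fun j _ => hnonneg i j)).mp h j (Finset.mem_univ _)
    have hterm2 : ∀ i, y i ^ 2 * m i * ∑ j, A i j * m j = 0 := by
      intro i
      exact (Finset.sum_eq_zero_iff_of_nonpos (fun i _ => hnonpos i)).mp hS2' i (Finset.mem_univ _)
    have hconst : ∀ i j, A i j ≠ 0 → y i = y j := by
      intro i j hij
      have h := hterm1 i j
      have hmi := (hm i).ne'
      have hmj := (hm j).ne'
      have h' : (y i - y j) ^ 2 = 0 := by
        rcases mul_eq_zero.mp h with h' | h'
        · exfalso
          simp [hij, hmi, hmj] at h'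
        · exact h'
      have := pow_eq_zero_iff (n := 2) (by norm_num) |>.mp h'
      linarith
    have hrow : ∀ i, y i ≠ 0 → ∑ j, A i j * m j = 0 := by
      intro i hyi
      have h := hterm2 i
      have h1 : y i ^ 2 * m i ≠ 0 := by
        have := (hm i).ne'
        positivity
      exact (mul_eq_zero.mp h).resolve_left h1
    classical
    let T : Finset ℝ := (Finset.univ.image y).filter (· ≠ 0)
    let v : ℝ → (Fin n → ℝ) := fun t i => if i ∈ Finset.univ.filter (fun k => y k = t) then m i else 0
    have hxsum : x = ∑ t ∈ T, t • v t := by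
      funext i
      rw [Finset.sum_apply]
      simp only [Pi.smul_apply, smul_eq_mul, v, Finset.mem_filter, Finset.mem_univ, true_and]
      by_cases hyi : y i = 0
      · have hxi : x i = 0 := by rw [hxy i, hyi, mul_zero]
        rw [hxi]
        symm
        apply Finset.sum_eq_zero
        intro t ht
        have ht0 : t ≠ 0 := (Finset.mem_filter.mp ht).2
        have : y i ≠ t := by rw [hyi]; exact ht0.symm
        rw [if_neg this, mul_zero]
      · rw [Finset.sum_eq_single (y i)]
        · simp [hxy i]
          ring
        · intro t _ hti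
          have : y i ≠ t := fun h => hti h.symm
          rw [if_neg this, mul_zero]
        · intro hnot
          exfalso
          apply hnot
          simp [T, hyi]
    rw [hxsum]
    apply Submodule.sum_mem
    intro t ht
    apply Submodule.smul_mem
    apply Submodule.subset_span
    have ht0 : t ≠ 0 := (Finset.mem_filter.mp ht).2
    refine ⟨Finset.univ.filter (fun k => y k = t), ?_, ?_, rfl⟩
    · intro i hi j hj
      simp only [Finset.mem_filter, Finset.mem_univ, true_and] at hi hj
      by_contra hne
      exact hj (by rw [← hconst i j hne]; exact hi)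
    · intro i hi
      simp only [Finset.mem_filter, Finset.mem_univ, true_and] at hi
      rw [hr_eq]
      apply hrow
      rw [hi]
      exact ht0
  · rw [Submodule.span_le]
    rintro x ⟨I, hI1, hI2, rfl⟩
    rw [SetLike.mem_coe, LinearMap.mem_ker, Matrix.mulVecLin_apply]
    funext i
    simp only [Matrix.mulVec, dotProduct, Pi.zero_apply, mul_ite, mul_zero]
    rw [← Finset.sum_filter]
    by_cases hi : i ∈ I
    · have h0 := (hr_eq i).mp (hI2 i hi)
      rw [← Finset.sum_filter_add_sum_filter_not Finset.univ (· ∈ I)] at h0
      have h1 : ∑ j ∈ Finset.univ.filter (fun j => j ∉ I), A i j * m j = 0 := by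
        apply Finset.sum_eq_zero
        intro j hj
        simp only [Finset.mem_filter, Finset.mem_univ, true_and] at hj
        rw [hI1 i hi j hj, zero_mul]
      rw [h1, add_zero] at h0
      exact h0
    · apply Finset.sum_eq_zero
      intro j hj
      simp only [Finset.mem_filter, Finset.mem_univ, true_and] at hj
      rw [← hs i j, hI1 j hj i hi, zero_mul]

end Groth.Agent.S2170
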