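import Groth.Statements.S2171
import Groth.Agent.Lib.Helper4.QuadForm
-- import your own Groth.Agent.* helpers here

set_option autoImplicit false
open Finset
open Models

namespace Groth.Agent.S2171

/-- Let A be a symmetric real n by n matrix with non-negative off-diagonal entries, m a vector with
positive entries such that A m = 0, and assume no proper non-empty index set I has A i j = 0 for all
i in I and j outside I. Then x^t A x is at most 0 for every real vector x, with equality exactly
when x is a real multiple of m. -/
theorem result {n : ℕ} (A : Matrix (Fin n) (Fin n) ℝ)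
    (m : Fin n → ℝ) (hsymm : A.IsSymm) (hA : ∀ i j, i ≠ j → 0 ≤ A i j) (hm : ∀ i, 0 < m i)
    (hAm : A.mulVec m = 0)
    (hconn : ∀ I : Finset (Fin n), I.Nonempty → I ≠ univ → ∃ i ∈ I, ∃ j ∉ I, A i j ≠ 0)
    (x : Fin n → ℝ) :
    dotProduct x (A.mulVec x) ≤ 0 ∧ (dotProduct x (A.mulVec x) = 0 ↔ ∃ q : ℝ, x = q • m) := by
  have hs := Groth.Agent.Lib.Helper4.symm_apply_of_isSymm hsymm
  have hr : ∀ i, ∑ j, A i j * m j = 0 := by
    intro i
    have := congrFun hAm i
    simpa [Matrix.mulVec, dotProduct] using this
  set y : Fin n → ℝ := fun i => x i / m i with hy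
  have hxy : ∀ i, x i = m i * y i := fun i => by
    simp only [hy]
    field_simp [(hm i).ne']
  have hQ : dotProduct x (A.mulVec x) = ∑ i, ∑ j, A i j * (m i * y i) * (m j * y j) := by
    rw [dotProduct]
    apply Finset.sum_congr rfl
    intro i _
    rw [Matrix.mulVec, dotProduct, Finset.mul_sum]
    apply Finset.sum_congr rfl
    intro j _
    rw [hxy i, hxy j]
    ring
  have hid := Groth.Agent.Lib.Helper4.quad_identity A hsymm m y
  have hzero : ∑ i, y i ^ 2 * m i * ∑ j, A i j * m j = 0 := by
    apply Finset.sum_eq_zero
    intro i _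
    rw [hr i, mul_zero]
  rw [hzero, mul_zero, zero_sub] at hid
  have hnonneg : ∀ i j, 0 ≤ A i j * m i * m j * (y i - y j) ^ 2 := by
    intro i j
    by_cases hij : i = j
    · subst hij
      simp
    · have h1 := hA i j hij
      have h2 := (hm i).le
      have h3 := (hm j).le
      positivity
  have hS1 : 0 ≤ ∑ i, ∑ j, A i j * m i * m j * (y i - y j) ^ 2 :=
    Finset.sum_nonneg fun i _ => Finset.sum_nonneg fun j _ => hnonneg i j
  refine ⟨by rw [hQ]; linarith, ?_⟩
  constructor
  · intro h0
    rw [hQ] at h0
    rw [h0, mul_zero, neg_zero] at hid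
    have hterm1 : ∀ i j, A i j * m i * m j * (y i - y j) ^ 2 = 0 := by
      intro i j
      have h := (Finset.sum_eq_zero_iff_of_nonneg
        (fun i _ => Finset.sum_nonneg fun j _ => hnonneg i j)).mp hid i (Finset.mem_univ _)
      exact (Finset.sum_eq_zero_iff_of_nonneg (fun j _ => hnonneg i j)).mp h j (Finset.mem_univ _)
    have hconst : ∀ i j, A i j ≠ 0 → y i = y j := by
      intro i j hij
      have h := hterm1 i j
      have hmi := (hm i).ne'
      have hmj := (hm j).ne'
      have h' : (y i - y j) ^ 2 = 0 := by
        rcases mul_eq_zero.mp h with h' | h'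
        · exfalso
          simp [hij, hmi, hmj] at h'
        · exact h'
      have := pow_eq_zero_iff (n := 2) (by norm_num) |>.mp h'
      linarith
    rcases Nat.eq_zero_or_pos n with hn | hn
    · subst hn
      exact ⟨0, funext fun i => i.elim0⟩
    · classical
      let i0 : Fin n := ⟨0, hn⟩
      refine ⟨y i0, ?_⟩
      have hall : ∀ k, y k = y i0 := by
        by_contra hcon
        push_neg at hcon
        let I : Finset (Fin n) := Finset.univ.filter (fun k => y k = y i0)
        have hne : I.Nonempty := ⟨i0, by simp [I]⟩
        have hnu : I ≠ univ := by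
          obtain ⟨k, hk⟩ := hcon
          intro hI
          have : k ∈ I := by rw [hI]; exact Finset.mem_univ k
          simp [I] at this
          exact hk this
        obtain ⟨i, hi, j, hj, hij⟩ := hconn I hne hnu
        simp only [I, Finset.mem_filter, Finset.mem_univ, true_and] at hi hj
        exact hj (by rw [← hconst i j hij]; exact hi)
      funext k
      rw [Pi.smul_apply, smul_eq_mul, hxy k, hall k]
      ring
  · rintro ⟨q, rfl⟩
    have : A.mulVec (q • m) = 0 := by
      rw [Matrix.mulVec_smul, hAm, smul_zero]
    rw [this, dotProduct_zero]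

end Groth.Agent.S2171
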