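import Groth.Statements.S2173
import Groth.Agent.Lib.Helper11.NumTypeGenus

set_option autoImplicit false
open Finset
open Models Models.NumericalType

namespace Groth.Agent.S2173

/-- For a numerical type the sum over i of m i * a i i is even; equivalently the rational number 1 + sum
m_i (w_i (g_i - 1) - a_ii / 2) defining the genus is an integer. -/
theorem result {n : ℕ} (T : Models.NumericalType n) : (2 : ℤ) ∣ ∑ i, T.m i * T.a i i := by
  exact Groth.Agent.Lib.Helper11.NumType.two_dvd_sum_m_mul_diag T

end Groth.Agent.S2173
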