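import Groth.Statements.S2174
import Groth.Agent.Lib.Helper11.NumType

set_option autoImplicit false
open Finset
open Models Models.NumericalType

namespace Groth.Agent.S2174

/-- If a numerical type has n > 1 indices then every diagonal entry a i i of its matrix is negative. -/
theorem result {n : ℕ} (T : Models.NumericalType n) (hn : 1 < n) (i : Fin n) : T.a i i < 0 := by
  exact Groth.Agent.Lib.Helper11.NumType.diag_neg T hn i

end Groth.Agent.S2174
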