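import Groth.Statements.S2176
import Groth.Agent.Lib.Helper11.NumTypeGenus

set_option autoImplicit false
open Finset
open Models Models.NumericalType

namespace Groth.Agent.S2176

/-- A minimal numerical type (no (-1)-index) with n > 1 indices has genus at least 1. -/
theorem result {n : ℕ} (T : Models.NumericalType n) (hmin : T.IsMinimal) (hn : 1 < n) : 1 ≤ T.genus := by
  exact Groth.Agent.Lib.Helper11.NumType.one_le_genus_of_isMinimal T hmin hn

end Groth.Agent.S2176
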