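import Groth.Statements.S2182
import Groth.Agent.Lib.Helper11.NumTypeGenus

set_option autoImplicit false
open Finset
open Models Models.NumericalType

namespace Groth.Agent.S2182

/-- In a numerical type, whenever a i j > 0 one has m i * a i j at most m j * |a j j| and m i * w i at
most m j * |a j j|. -/
theorem result {n : ℕ} (T : Models.NumericalType n) (i j : Fin n) (hij : 0 < T.a i j) :
    T.m i * T.a i j ≤ T.m j * |T.a j j| ∧ T.m i * T.w i ≤ T.m j * |T.a j j| := by
  exact Groth.Agent.Lib.Helper11.NumType.mul_le_of_pos_offDiag T i j hij

end Groth.Agent.S2182
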