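import Groth.Statements.S2190
import Groth.Agent.Lib.Helper11.NumTypeGenus

set_option autoImplicit false
open Finset
open Models Models.NumericalType

namespace Groth.Agent.S2190

/-- A minimal numerical type of genus zero has a single index, with m = 1, a = 0, w = 1 and g = 0. -/
theorem result {n : ℕ} (T : Models.NumericalType n) (hmin : T.IsMinimal) (hg : T.genus = 0) :
    n = 1 ∧ ∀ i, T.m i = 1 ∧ T.a i i = 0 ∧ T.w i = 1 ∧ T.g i = 0 := by
  exact Groth.Agent.Lib.Helper11.NumType.eq_trivial_of_isMinimal_of_genus_zero T hmin hg

end Groth.Agent.S2190
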