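import Groth.Statements.S2338
import Groth.Agent.Lib.Helper4.QAff
-- import your own Groth.Agent.* helpers here

set_option autoImplicit false
universe u
open CategoryTheory CategoryTheory.Limits AlgebraicGeometry
open EGA2

namespace Groth.Agent.S2338

/-- The composite of two quasi-affine morphisms is quasi-affine. -/
theorem result {X Y Z : Scheme.{u}} (f : X ⟶ Y) (g : Y ⟶ Z) (hf : Mor2.IsQuasiAffine f) (hg : Mor2.IsQuasiAffine g) :
    Mor2.IsQuasiAffine (f ≫ g) := by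
  obtain ⟨hfqc, hfqa⟩ := hf
  obtain ⟨hgqc, hgqa⟩ := hg
  refine ⟨inferInstance, fun W hW => ?_⟩
  change (f ⁻¹ᵁ (g ⁻¹ᵁ W)).toScheme.IsQuasiAffine
  set Y' := g ⁻¹ᵁ W
  have hY' : Y'.toScheme.IsQuasiAffine := hgqa W hW
  have : CompactSpace (f ⁻¹ᵁ Y').toScheme :=
    isCompact_iff_compactSpace.mp (QuasiCompact.isCompact_preimage (f := f ≫ g) _ W.isOpen
      hW.isCompact)
  refine Groth.Agent.Lib.Helper4.QAffAux.isQuasiAffine_of_cover fun x'' => ?_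
  obtain ⟨_, ⟨_, ⟨b, hb, rfl⟩, rfl⟩, hxb, -⟩ :=
    (Scheme.IsQuasiAffine.isBasis_basicOpen Y'.toScheme).exists_subset_of_mem_open
      (Set.mem_univ ((f ∣_ Y') x'')) isOpen_univ
  have hmem : ∀ z : (f ⁻¹ᵁ Y').toScheme,
      z ∈ (f ⁻¹ᵁ Y').toScheme.basicOpen ((f ∣_ Y').appTop b) ↔
        (f ∣_ Y') z ∈ Y'.toScheme.basicOpen b := by
    intro z
    rw [← Scheme.preimage_basicOpen_top]
    rfl
  refine ⟨(f ∣_ Y').appTop b, (hmem x'').mpr hxb, ?_⟩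
  have : CompactSpace ((f ⁻¹ᵁ Y').toScheme.basicOpen ((f ∣_ Y').appTop b)).toScheme := by
    rw [← Scheme.preimage_basicOpen_top]
    exact isCompact_iff_compactSpace.mp (QuasiCompact.isCompact_preimage (f := f ∣_ Y') _
      (Y'.toScheme.basicOpen b).isOpen hb.isCompact)
  set T := Y'.ι ''ᵁ (Y'.toScheme.basicOpen b)
  have hT : IsAffineOpen T := hb.image_of_isOpenImmersion Y'.ι
  have : (f ⁻¹ᵁ T).toScheme.IsQuasiAffine := hfqa T hT
  refine Groth.Agent.Lib.Helper4.QAffAux.isQuasiAffine_of_range_subset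
    (((f ⁻¹ᵁ Y').toScheme.basicOpen ((f ∣_ Y').appTop b)).ι ≫ (f ⁻¹ᵁ Y').ι) (f ⁻¹ᵁ T) ?_
  rintro _ ⟨s, rfl⟩
  have hs := (hmem _).mp s.2
  show f ((f ⁻¹ᵁ Y').ι (((f ⁻¹ᵁ Y').toScheme.basicOpen ((f ∣_ Y').appTop b)).ι s)) ∈ T
  rw [← Scheme.Hom.comp_apply, ← morphismRestrict_ι, Scheme.Hom.comp_apply]
  exact ⟨_, hs, rfl⟩

end Groth.Agent.S2338
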