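import Groth.Statements.S2341
import Mathlib.AlgebraicGeometry.QuasiAffine
import Mathlib.AlgebraicGeometry.Morphisms.QuasiSeparated
-- import your own Groth.Agent.* helpers here

set_option autoImplicit false
universe u
open CategoryTheory CategoryTheory.Limits AlgebraicGeometry
open EGA2

namespace Groth.Agent.S2341

open AlgebraicGeometry CategoryTheory Topology

theorem isQuasiAffine_of_isEmbedding {X Y : Scheme.{u}} (g : X ⟶ Y) [IsAffine Y] [QuasiCompact g]
    (hg : IsEmbedding g) : X.IsQuasiAffine := by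
  have : CompactSpace X := QuasiCompact.compactSpace_of_compactSpace g
  refine Scheme.IsQuasiAffine.of_forall_exists_mem_basicOpen X fun x => ?_
  obtain ⟨W, hW, hxW, -⟩ := exists_isAffineOpen_mem_and_subset (x := x) (U := ⊤) trivial
  obtain ⟨U, hU, hUW⟩ := hg.isInducing.isOpen_iff.mp W.isOpen
  have hgx : g x ∈ U := by
    have : x ∈ g ⁻¹' U := by rw [hUW]; exact hxW
    exact this
  obtain ⟨a, haU, hxa⟩ := (isAffineOpen_top Y).exists_basicOpen_le
    (V := ⟨U, hU⟩) ⟨g x, hgx⟩ trivial
  have hr : X.basicOpen (g.appTop a) ≤ W := by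
    rw [← Scheme.preimage_basicOpen_top]
    intro z hz
    have : z ∈ g ⁻¹' U := haU hz
    rw [hUW] at this
    exact this
  have hxr : x ∈ X.basicOpen (g.appTop a) := by
    rw [← Scheme.preimage_basicOpen_top]; exact hxa
  refine ⟨g.appTop a, ?_, hxr⟩
  have : X.basicOpen (X.presheaf.map (homOfLE le_top : W ⟶ ⊤).op (g.appTop a)) =
      X.basicOpen (g.appTop a) := by
    rw [Scheme.basicOpen_res]; exact inf_eq_right.mpr hr
  rw [← this]
  exact hW.basicOpen _


/-- A quasi-compact morphism X → Y whose underlying map is a homeomorphism onto its image (for instance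
a closed immersion) is quasi-affine. -/
theorem result {X Y : Scheme.{u}} (f : X ⟶ Y) [QuasiCompact f]
    (hf : Topology.IsEmbedding f.base) : Mor2.IsQuasiAffine f := by
  refine ⟨inferInstance, fun V hV => ?_⟩
  have : IsAffine V.toScheme := hV
  have hemb : IsEmbedding (f ∣_ V) := by
    have h1 : IsEmbedding ((f ∣_ V) ≫ V.ι) := by
      rw [morphismRestrict_ι]
      exact hf.comp (f ⁻¹ᵁ V).ι.isOpenEmbedding.isEmbedding
    exact (V.ι.isOpenEmbedding.isEmbedding.of_comp_iff).mp h1
  exact isQuasiAffine_of_isEmbedding (f ∣_ V) hemb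

end Groth.Agent.S2341
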