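import Groth.Statements.S2349
-- import your own Groth.Agent.* helpers here

set_option autoImplicit false
universe u
open CategoryTheory CategoryTheory.Limits AlgebraicGeometry
open EGA2

namespace Groth.Agent.S2349

/-- Let f : X → Y be separated and of finite type, and let j_i : X_i → X and h_i : Y_i → Y (i in a
finite index type) be closed immersions with morphisms f_i : X_i → Y_i satisfying j_i ≫ f = f_i ≫
h_i, such that the images of the j_i cover X. Then f is proper if and only if every f_i is proper. -/
theorem result {X Y : Scheme.{u}} (f : X ⟶ Y) [IsSeparated f] [LocallyOfFiniteType f] [QuasiCompact f]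
    (ι : Type u) [Finite ι] (Xi Yi : ι → Scheme.{u}) (j : ∀ i, Xi i ⟶ X) (h : ∀ i, Yi i ⟶ Y) (fi : ∀ i, Xi i ⟶ Yi i)
    [∀ i, IsClosedImmersion (j i)] [∀ i, IsClosedImmersion (h i)] (hcomm : ∀ i, j i ≫ f = fi i ≫ h i)
    (hcov : ∀ x : X, ∃ i, x ∈ Set.range (j i).base) : IsProper f ↔ ∀ i, IsProper (fi i) := by
  constructor
  · intro hf i
    have : IsProper (fi i ≫ h i) := by rw [← hcomm i]; infer_instance
    exact IsProper.of_comp (fi i) (h i)
  · intro H
    have hUC : ∀ i, UniversallyClosed (j i ≫ f) := fun i => by
      rw [hcomm i]; infer_instance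
    have huc : UniversallyClosed f := by
      rw [universallyClosed_iff]
      intro X' Y' i₁ i₂ f' hP Z hZ
      have hbc : ∀ i, IsClosedMap (pullback.snd (j i) i₁ ≫ f') := by
        intro i
        have hP' : IsPullback (pullback.snd (j i) i₁ ≫ f') (pullback.fst (j i) i₁) i₂ (j i ≫ f) :=
          (IsPullback.of_hasPullback (j i) i₁).flip.paste_horiz hP
        exact (hUC i).universally_isClosedMap _ _ _ hP'
      have hEq : f' '' Z = ⋃ i, (pullback.snd (j i) i₁ ≫ f') '' ((pullback.snd (j i) i₁) ⁻¹' Z) := by
        apply subset_antisymm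
        · rintro _ ⟨x', hx', rfl⟩
          obtain ⟨i, hi⟩ := hcov (i₁ x')
          have : x' ∈ Set.range (pullback.snd (j i) i₁) := by
            rw [Scheme.Pullback.range_snd]; exact hi
          obtain ⟨p, rfl⟩ := this
          exact Set.mem_iUnion.mpr ⟨i, p, hx', rfl⟩
        · refine Set.iUnion_subset fun i => ?_
          rintro _ ⟨p, hp, rfl⟩
          exact ⟨_, hp, rfl⟩
      rw [hEq]
      exact isClosed_iUnion_of_finite fun i =>
        hbc i _ (hZ.preimage (pullback.snd (j i) i₁).continuous)
    exact { toUniversallyClosed := huc }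

end Groth.Agent.S2349
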