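import Groth.Statements.S3350
import Groth.Agent.Lib.Helper11.NumType
-- import your own Groth.Agent.* helpers here

set_option autoImplicit false
open Finset
open Models Models.NumericalType

namespace Groth.Agent.S3350

/-- Classification of proper subgraphs with two vertices: Let T be a numerical type on n > 2 indices and
i ≠ j two (-2)-indices (g = 0 and a_ii = -2 w_i, a_jj = -2 w_j) with a_ij > 0. Then, after possibly
exchanging i and j, one of the following holds with w = w_i: (A2) w_j = w, a_ij = w, 2 m_i ≥ m_j and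
2 m_j ≥ m_i; (B2) w_j = 2w, a_ij = 2w, m_i ≥ m_j and 2 m_j ≥ m_i; (G2) w_j = 3w, a_ij = 3w, 2 m_i ≥
3 m_j and 2 m_j ≥ m_i. -/
theorem result {n : ℕ} (T : Models.NumericalType n) (hn : 2 < n) (i j : Fin n)
    (hij : i ≠ j) (hi : T.IsMinusTwo i) (hj : T.IsMinusTwo j) (hpos : 0 < T.a i j) :
    ∃ i' j' : Fin n, ((i' = i ∧ j' = j) ∨ (i' = j ∧ j' = i)) ∧
      ((T.w j' = T.w i' ∧ T.a i' j' = T.w i' ∧ T.m j' ≤ 2 * T.m i' ∧ T.m i' ≤ 2 * T.m j') ∨
        (T.w j' = 2 * T.w i' ∧ T.a i' j' = 2 * T.w i' ∧ T.m j' ≤ T.m i' ∧ T.m i' ≤ 2 * T.m j') ∨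
        (T.w j' = 3 * T.w i' ∧ T.a i' j' = 3 * T.w i' ∧ 3 * T.m j' ≤ 2 * T.m i' ∧ T.m i' ≤ 2 * T.m j')) := by
  have hwi := T.w_pos i
  have hwj := T.w_pos j
  have hmi := T.m_pos i
  have hmj := T.m_pos j
  have hsym : T.a j i = T.a i j := (Groth.Agent.Lib.Helper11.NumType.a_symm T i j).symm
  have hii : T.a i i = -2 * T.w i := hi.2
  have hjj : T.a j j = -2 * T.w j := hj.2
  have hdisc : T.a i j ^ 2 < 4 * T.w i * T.w j := by
    have hv : Function.Injective (![i, j] : Fin 2 → Fin n) := by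
      intro p q hpq
      fin_cases p <;> fin_cases q <;> simp_all [eq_comm]
    have key := Groth.Agent.Lib.Helper11.NumType.subQ_neg T ![i, j] hv hn
      ![(T.a i j : ℚ), 2 * (T.w i : ℚ)] ⟨0, by simp; exact_mod_cast hpos.ne'⟩
    simp only [Fin.sum_univ_two, Matrix.cons_val_zero, Matrix.cons_val_one] at key
    rw [hii, hjj, hsym] at key
    push_cast at key
    have hwq : (0 : ℚ) < T.w i := by exact_mod_cast hwi
    have : ((T.a i j : ℚ)) ^ 2 < 4 * T.w i * T.w j := by nlinarith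
    exact_mod_cast this
  have hrow_i : T.a i j * T.m j ≤ 2 * T.w i * T.m i := by
    have := Groth.Agent.Lib.Helper11.NumType.row_partial_le T i {i, j} (by simp)
    rw [Finset.sum_pair hij, hii] at this
    linarith
  have hrow_j : T.a i j * T.m i ≤ 2 * T.w j * T.m j := by
    have := Groth.Agent.Lib.Helper11.NumType.row_partial_le T j {j, i} (by simp)
    rw [Finset.sum_pair hij.symm, hjj, hsym] at this
    linarith
  obtain ⟨α, hα⟩ := T.w_dvd i j
  obtain ⟨β, hβ⟩ : T.w j ∣ T.a i j := by rw [← hsym]; exact T.w_dvd j i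
  have hα1 : 1 ≤ α := by
    by_contra h
    have : α ≤ 0 := by omega
    nlinarith
  have hβ1 : 1 ≤ β := by
    by_contra h
    have : β ≤ 0 := by omega
    nlinarith
  have hαβ : α * β < 4 := by
    have e : T.a i j ^ 2 = α * β * (T.w i * T.w j) := by
      rw [sq]
      nth_rewrite 1 [hα]
      rw [hβ]
      ring
    have hww : 0 < T.w i * T.w j := mul_pos hwi hwj
    by_contra h
    have : 4 ≤ α * β := by omega
    nlinarith
  have hα3 : α ≤ 3 := by nlinarith
  have hβ3 : β ≤ 3 := by nlinarith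
  interval_cases α <;> interval_cases β <;> (try omega)
  · -- α = 1, β = 1
    refine ⟨i, j, Or.inl ⟨rfl, rfl⟩, Or.inl ⟨by linarith, by linarith, ?_, ?_⟩⟩
    · nlinarith
    · nlinarith
  · -- α = 1, β = 2
    refine ⟨j, i, Or.inr ⟨rfl, rfl⟩, Or.inr (Or.inl ⟨by linarith, by rw [hsym]; linarith, ?_, ?_⟩)⟩
    · nlinarith
    · nlinarith
  · -- α = 1, β = 3
    refine ⟨j, i, Or.inr ⟨rfl, rfl⟩, Or.inr (Or.inr ⟨by linarith, by rw [hsym]; linarith, ?_, ?_⟩)⟩
    · nlinarith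
    · nlinarith
  · -- α = 2, β = 1
    refine ⟨i, j, Or.inl ⟨rfl, rfl⟩, Or.inr (Or.inl ⟨by linarith, by linarith, ?_, ?_⟩)⟩
    · nlinarith
    · nlinarith
  · -- α = 3, β = 1
    refine ⟨i, j, Or.inl ⟨rfl, rfl⟩, Or.inr (Or.inr ⟨by linarith, by linarith, ?_, ?_⟩)⟩
    · nlinarith
    · nlinarith

end Groth.Agent.S3350
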