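import Groth.Statements.S3351
import Mathlib.LinearAlgebra.FreeModule.PID
import Mathlib.Algebra.Module.Projective
import Mathlib.LinearAlgebra.Matrix.ToLinearEquiv
import Mathlib.LinearAlgebra.Matrix.Adjugate
-- import your own Groth.Agent.* helpers here

set_option autoImplicit false
open Models

namespace Groth.Agent.S3351

/-- Let L be a finite free Z-module with a positive definite symmetric integral bilinear form, A ⊆ L a
submodule with L/A torsion free and B the orthogonal complement of A. Write M^# for the dual lattice
of a sublattice M, identified here with the Z-dual Hom(M, Z) through the form. Then the natural maps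
L/(A ⊕ B) → B^#/B and L/(A ⊕ B) → A^#/A are injective: an element x of L whose functional ⟨x, -⟩ on
B (resp. on A) is represented by an element of B (resp. of A) lies in A ⊕ B. Moreover the
restriction maps L^# → B^# and L^# → A^# are surjective, so that the cokernels of the two injections
are quotients of L^#/L. -/
theorem result {L : Type} [AddCommGroup L] [Module.Finite ℤ L] [Module.Free ℤ L]
    (B : LinearMap.BilinForm ℤ L) (hsymm : B.IsSymm) (hpos : ∀ x, x ≠ 0 → 0 < B x x)
    (A : Submodule ℤ L) (htf : ∀ (c : ℤ) (x : L), c ≠ 0 → c • x ∈ A → x ∈ A) :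
    (∀ x : L, (∃ b ∈ B.orthogonal A, ∀ b' ∈ B.orthogonal A, B x b' = B b b') → x ∈ A ⊔ B.orthogonal A) ∧
      (∀ x : L, (∃ a ∈ A, ∀ a' ∈ A, B x a' = B a a') → x ∈ A ⊔ B.orthogonal A) ∧
      (∀ ψ : Module.Dual ℤ ↥(B.orthogonal A), ∃ φ : Module.Dual ℤ L, φ ∘ₗ (B.orthogonal A).subtype = ψ) ∧
      (∀ ψ : Module.Dual ℤ ↥A, ∃ φ : Module.Dual ℤ L, φ ∘ₗ A.subtype = ψ) := by
  classical
  have hsy : ∀ x y, B x y = B y x := fun x y => hsymm.eq x y
  have hdef : ∀ x, B x x = 0 → x = 0 := by
    intro x hx
    by_contra h
    have := hpos x h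
    omega
  -- saturated submodules are direct summands: functionals extend
  have hext : ∀ N : Submodule ℤ L, (∀ (c : ℤ) (x : L), c ≠ 0 → c • x ∈ N → x ∈ N) →
      ∀ ψ : Module.Dual ℤ N, ∃ φ : Module.Dual ℤ L, φ ∘ₗ N.subtype = ψ := by
    intro N hN ψ
    have : Module.IsTorsionFree ℤ (L ⧸ N) := by
      rw [Module.isTorsionFree_iff_smul_eq_zero]
      intro c m hcm
      induction m using Submodule.Quotient.induction_on with
      | H x =>
        by_cases hc : c = 0
        · exact Or.inl hc
        · right
          rw [← Submodule.Quotient.mk_smul, Submodule.Quotient.mk_eq_zero] at hcm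
          rw [Submodule.Quotient.mk_eq_zero]
          exact hN c x hc hcm
    have : Module.Free ℤ (L ⧸ N) := Module.free_of_finite_type_torsion_free'
    obtain ⟨s, hs⟩ := Module.projective_lifting_property N.mkQ (LinearMap.id : (L ⧸ N) →ₗ[ℤ] (L ⧸ N))
      N.mkQ_surjective
    have hs' : ∀ q : L ⧸ N, N.mkQ (s q) = q := fun q => congrArg (fun f => f q) hs
    have hmem : ∀ x : L, x - s (N.mkQ x) ∈ N := by
      intro x
      rw [← Submodule.Quotient.mk_eq_zero, Submodule.Quotient.mk_sub]
      have := hs' (N.mkQ x)
      rw [Submodule.mkQ_apply] at this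
      rw [this, Submodule.mkQ_apply, sub_self]
    let p : L →ₗ[ℤ] N := LinearMap.codRestrict N (LinearMap.id - s ∘ₗ N.mkQ) (fun x => by
      simpa using hmem x)
    refine ⟨ψ ∘ₗ p, ?_⟩
    apply LinearMap.ext
    intro x
    have hx0 : N.mkQ (x : L) = 0 := by
      simp
    have : p x = x := by
      apply Subtype.ext
      simp [p, hx0]
    simp [this]
  -- the key lemma: a nonzero multiple of any functional B(·, y) on A is represented in A
  have key : ∃ c : ℤ, c ≠ 0 ∧ ∀ y : L, ∃ z ∈ A, c • y - z ∈ B.orthogonal A := by
    obtain ⟨n, b⟩ := Module.basisOfFiniteTypeTorsionFree' (R := ℤ) (M := A)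
    set a : Fin n → L := fun i => (b i : L) with ha
    set G : Matrix (Fin n) (Fin n) ℤ := fun i j => B (a i) (a j) with hG
    refine ⟨G.det, ?_, ?_⟩
    · intro hdet
      obtain ⟨v, hv0, hv⟩ := Matrix.exists_mulVec_eq_zero_iff.mpr hdet
      apply hv0
      set u : L := ∑ j, v j • a j with hu
      have hBu : B u u = 0 := by
        have : B u u = ∑ i, v i * (G.mulVec v) i := by
          simp only [hu, map_sum, map_smul, LinearMap.sum_apply, LinearMap.smul_apply, smul_eq_mul,
            Matrix.mulVec, dotProduct, hG, Finset.mul_sum]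
          rw [Finset.sum_comm]
          apply Finset.sum_congr rfl
          intro i _
          apply Finset.sum_congr rfl
          intro j _
          ring
        rw [this, hv]
        simp
      have hu0 : u = 0 := hdef u hBu
      have hsum : ∑ j, v j • b j = 0 := by
        apply Subtype.ext
        simpa [hu, ha] using hu0
      have := (Fintype.linearIndependent_iff.mp b.linearIndependent) v hsum
      funext i
      exact this i
    · intro y
      set v : Fin n → ℤ := fun i => B (a i) y with hv
      set w : Fin n → ℤ := G.adjugate.mulVec v with hw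
      refine ⟨∑ j, w j • a j, ?_, ?_⟩
      · exact Submodule.sum_mem _ (fun j _ => Submodule.smul_mem _ _ (b j).2)
      · rw [LinearMap.BilinForm.mem_orthogonal_iff]
        have hgen : ∀ i, B (a i) (G.det • y - ∑ j, w j • a j) = 0 := by
          intro i
          have h1 : B (a i) (∑ j, w j • a j) = (G.mulVec w) i := by
            simp [map_sum, Matrix.mulVec, dotProduct, hG, mul_comm]
          have h2 : G.mulVec w = G.det • v := by
            rw [hw, Matrix.mulVec_mulVec, Matrix.mul_adjugate, Matrix.smul_mulVec,
              Matrix.one_mulVec]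
          rw [map_sub, h1, h2, map_smul]
          simp [hv]
        intro x hx
        have hzero : (B.flip (G.det • y - ∑ j, w j • a j)) ∘ₗ A.subtype = 0 := by
          apply b.ext
          intro i
          simpa [ha] using hgen i
        have := congrArg (fun f => f ⟨x, hx⟩) hzero
        simpa using this
  obtain ⟨c, hc0, hc⟩ := key
  refine ⟨?_, ?_, ?_, ?_⟩
  · rintro x ⟨b, hb, hbx⟩
    obtain ⟨y, hy⟩ : ∃ y, y = x - b := ⟨_, rfl⟩
    obtain ⟨z, hz, hw⟩ := hc y
    obtain ⟨w, hwdef⟩ : ∃ w, w = c • y - z := ⟨_, rfl⟩
    rw [← hwdef] at hw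
    have hByw : B y w = 0 := by
      have : B y w = B x w - B b w := by
        rw [hy, map_sub, LinearMap.sub_apply]
      rw [this, hbx w hw, sub_self]
    have hBzw : B z w = 0 := (LinearMap.BilinForm.mem_orthogonal_iff.mp hw) z hz
    have hBww : B w w = 0 := by
      have : B w w = c * B y w - B z w := by
        have e1 : B w = c • B y - B z := by
          rw [hwdef, map_sub, map_smul]
        rw [e1, LinearMap.sub_apply, LinearMap.smul_apply, smul_eq_mul]
      rw [this, hByw, hBzw]
      simp
    have hw0 : w = 0 := hdef w hBww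
    have hcy : c • y ∈ A := by
      have : c • y = z := by
        rw [hwdef] at hw0
        exact sub_eq_zero.mp hw0
      rw [this]
      exact hz
    have hyA : y ∈ A := htf c y hc0 hcy
    have : x = y + b := by rw [hy]; abel
    rw [this]
    exact Submodule.add_mem_sup hyA hb
  · rintro x ⟨a, ha, hax⟩
    have hxa : x - a ∈ B.orthogonal A := by
      rw [LinearMap.BilinForm.mem_orthogonal_iff]
      intro n hn
      rw [map_sub, hsy n x, hsy n a, hax n hn, sub_self]
    have : x = a + (x - a) := by abel
    rw [this]
    exact Submodule.add_mem_sup ha hxa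
  · apply hext
    intro c x hc hcx
    rw [LinearMap.BilinForm.mem_orthogonal_iff] at hcx ⊢
    intro n hn
    have := hcx n hn
    rw [map_smul, smul_eq_mul] at this
    rcases mul_eq_zero.mp this with h | h
    · exact absurd h hc
    · exact h
  · exact hext A htf

end Groth.Agent.S3351
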