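import Groth.Statements.S3352
import Groth.Agent.Lib.Helper5.Lattice
import Mathlib.Algebra.Module.Torsion.Basic
-- import your own Groth.Agent.* helpers here

set_option autoImplicit false
open Models

namespace Groth.Agent.S3352

/-- Let L₀, L₁ be finite free ℤ-modules with positive definite symmetric integral bilinear forms, the
form on L₀ unimodular (x ↦ ⟨x, −⟩ is a bijection L₀ → Hom(L₀, ℤ)), and let d : L₀ → L₁ and d* : L₁ →
L₀ be adjoint. Identify Im(d)^# (the dual lattice of Im(d)) with Hom(Im(d), ℤ) through the form on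
L₁. Then there is an isomorphism Φ from the torsion subgroup of Coker(d* d) onto Im(d)^#/Im(d),
determined by: for x ∈ L₀ whose class is torsion, Φ[x] is the class of the functional d(y') ↦ ⟨x,
y'⟩ (equivalently the class of (1/a)·d(y) when a·x = d* d(y)). -/
theorem result {L₀ L₁ : Type} [AddCommGroup L₀] [AddCommGroup L₁]
    [Module.Finite ℤ L₀] [Module.Free ℤ L₀] [Module.Finite ℤ L₁] [Module.Free ℤ L₁]
    (B₀ : LinearMap.BilinForm ℤ L₀) (B₁ : LinearMap.BilinForm ℤ L₁) (h₀s : B₀.IsSymm) (h₁s : B₁.IsSymm)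
    (h₀p : ∀ x, x ≠ 0 → 0 < B₀ x x) (h₁p : ∀ x, x ≠ 0 → 0 < B₁ x x) (huni : Function.Bijective B₀)
    (d : L₀ →ₗ[ℤ] L₁) (ds : L₁ →ₗ[ℤ] L₀) (hadj : ∀ x y, B₁ (d x) y = B₀ x (ds y)) :
    ∃ Φ : ↥(Submodule.torsion ℤ (L₀ ⧸ LinearMap.range (ds ∘ₗ d))) ≃ₗ[ℤ]
        (Module.Dual ℤ ↥(LinearMap.range d) ⧸
          LinearMap.range ((B₁.compl₂ (LinearMap.range d).subtype) ∘ₗ (LinearMap.range d).subtype)),
      ∀ (x : L₀) (hx : Submodule.Quotient.mk x ∈ Submodule.torsion ℤ (L₀ ⧸ LinearMap.range (ds ∘ₗ d)))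
        (ψ : Module.Dual ℤ ↥(LinearMap.range d)),
        (∀ y' : L₀, ψ ⟨d y', LinearMap.mem_range_self d y'⟩ = B₀ x y') →
          Φ ⟨Submodule.Quotient.mk x, hx⟩ = Submodule.Quotient.mk ψ := by
  classical
  have hdef₁ : ∀ x, B₁ x x = 0 → x = 0 := by
    intro x hx
    by_contra h
    have := h₁p x h
    omega
  obtain ⟨c, hc0, hc⟩ := Groth.Agent.Lib.Helper5.exists_smul_repr B₁ hdef₁ (LinearMap.range d)
  set e₀ : L₀ ≃ₗ[ℤ] Module.Dual ℤ L₀ := LinearEquiv.ofBijective B₀ huni with he₀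
  have he₀apply : ∀ x, e₀ x = B₀ x := fun x => rfl
  have hdd : ∀ y y', B₀ (ds (d y)) y' = B₁ (d y') (d y) := by
    intro y y'
    rw [h₀s.eq, ← hadj]
  set N := LinearMap.range (ds ∘ₗ d) with hN
  set ι := (B₁.compl₂ (LinearMap.range d).subtype) ∘ₗ (LinearMap.range d).subtype with hι
  set T := Submodule.torsion ℤ (L₀ ⧸ N) with hT
  let F : Module.Dual ℤ (LinearMap.range d) →ₗ[ℤ] (L₀ ⧸ N) :=
    N.mkQ ∘ₗ (e₀.symm : Module.Dual ℤ L₀ →ₗ[ℤ] L₀) ∘ₗ d.rangeRestrict.dualMap
  have hFapply : ∀ ψ, F ψ = Submodule.Quotient.mk (e₀.symm (d.rangeRestrict.dualMap ψ)) := fun ψ => rfl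
  have hdual : ∀ (ψ : Module.Dual ℤ (LinearMap.range d)) (y' : L₀),
      d.rangeRestrict.dualMap ψ y' = ψ ⟨d y', LinearMap.mem_range_self d y'⟩ := by
    intro ψ y'
    rfl
  have hFx : ∀ (x : L₀) (ψ : Module.Dual ℤ (LinearMap.range d)),
      (∀ y' : L₀, ψ ⟨d y', LinearMap.mem_range_self d y'⟩ = B₀ x y') →
        F ψ = Submodule.Quotient.mk x := by
    intro x ψ hψ
    rw [hFapply]
    congr 1
    rw [LinearEquiv.symm_apply_eq]
    apply LinearMap.ext
    intro y'
    rw [hdual, hψ, he₀apply]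
  have hFmem : ∀ ψ, F ψ ∈ T := by
    intro ψ
    obtain ⟨z, hz⟩ := hc ψ
    obtain ⟨y, hy⟩ := z.2
    rw [hT, Submodule.mem_torsion_iff]
    refine ⟨⟨c, mem_nonZeroDivisors_of_ne_zero hc0⟩, ?_⟩
    have key : c • e₀.symm (d.rangeRestrict.dualMap ψ) = ds (d y) := by
      apply e₀.injective
      rw [map_smul, LinearEquiv.apply_symm_apply]
      apply LinearMap.ext
      intro y'
      rw [he₀apply, hdd, LinearMap.smul_apply, hdual, smul_eq_mul]
      have := hz ⟨d y', LinearMap.mem_range_self d y'⟩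
      rw [← this, hy]
    show (c : ℤ) • F ψ = 0
    rw [hFapply, ← Submodule.Quotient.mk_smul, key, Submodule.Quotient.mk_eq_zero]
    exact ⟨y, rfl⟩
  let Ψ₀ : Module.Dual ℤ (LinearMap.range d) →ₗ[ℤ] T := LinearMap.codRestrict T F hFmem
  have hker : LinearMap.range ι ≤ LinearMap.ker Ψ₀ := by
    rintro ψ ⟨u, rfl⟩
    obtain ⟨y, hy⟩ := u.2
    rw [LinearMap.mem_ker]
    apply Subtype.ext
    show F (ι u) = 0
    have : F (ι u) = Submodule.Quotient.mk (ds (d y)) := by
      apply hFx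
      intro y'
      rw [hdd, hι]
      simp only [LinearMap.comp_apply, LinearMap.compl₂_apply, Submodule.subtype_apply]
      rw [← hy, h₁s.eq]
    rw [this, Submodule.Quotient.mk_eq_zero]
    exact ⟨y, rfl⟩
  let Ψ := (LinearMap.range ι).liftQ Ψ₀ hker
  have hΨmk : ∀ ψ, Ψ (Submodule.Quotient.mk ψ) = Ψ₀ ψ := fun ψ => rfl
  have hΨinj : Function.Injective Ψ := by
    rw [injective_iff_map_eq_zero]
    intro q hq
    induction q using Submodule.Quotient.induction_on with
    | H ψ =>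
      rw [hΨmk] at hq
      have h1 : F ψ = 0 := congrArg Subtype.val hq
      rw [hFapply, Submodule.Quotient.mk_eq_zero] at h1
      obtain ⟨y, hy⟩ := h1
      rw [Submodule.Quotient.mk_eq_zero]
      refine ⟨⟨d y, y, rfl⟩, ?_⟩
      apply LinearMap.ext
      rintro ⟨u, y', rfl⟩
      have h2 := congrArg (fun f => f y') (congrArg e₀ hy)
      simp only [LinearEquiv.apply_symm_apply] at h2
      rw [hdual, he₀apply] at h2
      simp only [LinearMap.comp_apply] at h2
      rw [hdd] at h2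
      rw [hι]
      simp only [LinearMap.comp_apply, LinearMap.compl₂_apply, Submodule.subtype_apply]
      rw [h₁s.eq, h2]
  have hΨsurj : Function.Surjective Ψ := by
    rintro ⟨t, ht⟩
    obtain ⟨x, rfl⟩ := Submodule.Quotient.mk_surjective N t
    rw [hT, Submodule.mem_torsion_iff] at ht
    obtain ⟨⟨a, ha⟩, hax⟩ := ht
    have ha0 : a ≠ 0 := nonZeroDivisors.ne_zero ha
    have hax' : a • x ∈ N := by
      rw [← Submodule.Quotient.mk_eq_zero, Submodule.Quotient.mk_smul]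
      exact hax
    obtain ⟨y, hy⟩ := hax'
    have hker' : LinearMap.ker d ≤ LinearMap.ker (B₀ x) := by
      intro y' hy'
      rw [LinearMap.mem_ker] at hy' ⊢
      have h1 : a * B₀ x y' = B₁ (d y') (d y) := by
        rw [← hdd, ← smul_eq_mul, ← LinearMap.smul_apply, ← map_smul]
        simp only [LinearMap.comp_apply] at hy
        rw [hy]
      rw [hy', map_zero, LinearMap.zero_apply] at h1
      rcases mul_eq_zero.mp h1 with h | h
      · exact absurd h ha0
      · exact h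
    let ψx : Module.Dual ℤ (LinearMap.range d) :=
      ((LinearMap.ker d).liftQ (B₀ x) hker') ∘ₗ (d.quotKerEquivRange.symm : _ →ₗ[ℤ] _)
    have hψx : ∀ y' : L₀, ψx ⟨d y', LinearMap.mem_range_self d y'⟩ = B₀ x y' := by
      intro y'
      have : d.quotKerEquivRange.symm ⟨d y', LinearMap.mem_range_self d y'⟩ =
          Submodule.Quotient.mk y' := by
        rw [LinearEquiv.symm_apply_eq]
        rfl
      simp only [ψx, LinearMap.comp_apply, LinearEquiv.coe_coe, this, Submodule.liftQ_apply]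
    refine ⟨Submodule.Quotient.mk ψx, ?_⟩
    rw [hΨmk]
    apply Subtype.ext
    exact hFx x ψx hψx
  refine ⟨(LinearEquiv.ofBijective Ψ ⟨hΨinj, hΨsurj⟩).symm, ?_⟩
  intro x hx ψ hψ
  rw [LinearEquiv.symm_apply_eq]
  apply Subtype.ext
  show Submodule.Quotient.mk x = F ψ
  rw [hFx x ψ hψ]

end Groth.Agent.S3352
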