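import Groth.Statements.S3547
import Groth.Agent.Lib.Helper6.GrTilde

set_option autoImplicit false
universe u
open CategoryTheory CategoryTheory.Limits AlgebraicGeometry
open EGA2

namespace Groth.Agent.S3547

open Groth.Agent.Lib.Helper6.GrModLib Groth.Agent.Lib.Helper6.GrTildeLib

/-- Let S be a graded ring, M a graded S-module, X = Proj S and p a point of X. The stalk of M(n)~ at p
is the module of fractions m/f in M_p with m, f homogeneous, f not in p and deg m = deg f + n: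
precisely, evaluation at p is a bijection from the stalk at p of the sheaf of local sections of
M(n)~ onto that module of fractions. -/
theorem result {R A : Type u} [CommRing R] [CommRing A] [Algebra R A] (𝒜 : ℕ → Submodule R A) [GradedAlgebra 𝒜]
    {M : Type u} [AddCommGroup M] [Module R M] [Module A M] [IsScalarTower R A M] (ℳ : ℕ → Submodule R M) [DirectSum.Decomposition ℳ] [SetLike.GradedSMul 𝒜 ℳ] (n : ℤ)
    (p : ProjectiveSpectrum 𝒜) :
    Function.Bijective (TopCat.stalkToFiber (GrTilde.isLocFrac 𝒜 ℳ n) p) := by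
  classical
  obtain ⟨q, hq⟩ : ∃ q : ProjectiveSpectrum.top 𝒜, q = p := ⟨p, rfl⟩
  subst hq
  constructor
  · apply TopCat.stalkToFiber_injective
    intro U V fU hU fV hV hUV
    obtain ⟨U', hpU', iU', i, j, m, s, snin, ca, wa⟩ := hU ⟨q, U.2⟩
    obtain ⟨V', hpV', iV', i', j', m', s', snin', cb, wb⟩ := hV ⟨q, V.2⟩
    replace ca : (i : ℤ) = j + n ∨ m.1 = 0 := ca
    replace cb : (i' : ℤ) = j' + n ∨ m'.1 = 0 := cb
    have e1 := wa ⟨q, hpU'⟩
    have e2 := wb ⟨q, hpV'⟩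
    have heq : (LocalizedModule.mk m.1 ⟨s.1, snin ⟨q, hpU'⟩⟩ : GrTilde.LocMod 𝒜 (M := M) q) =
        LocalizedModule.mk m'.1 ⟨s'.1, snin' ⟨q, hpV'⟩⟩ := by
      rw [← e1, ← e2]
      exact congrArg Subtype.val hUV
    rw [LocalizedModule.mk_eq] at heq
    obtain ⟨⟨u, hu⟩, hum⟩ := heq
    obtain ⟨e, hx⟩ : ∃ e, s'.1 • m.1 - s.1 • m'.1 ∈ ℳ e := by
      have h1 : s'.1 • m.1 ∈ ℳ (j' + i) := smul_mem_graded s'.2 m.2
      have h2 : s.1 • m'.1 ∈ ℳ (j + i') := smul_mem_graded s.2 m'.2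
      rcases ca with ha | ha
      · rcases cb with hb | hb
        · have e : j + i' = j' + i := by omega
          exact ⟨j' + i, sub_mem h1 (e ▸ h2)⟩
        · exact ⟨j' + i, by rw [hb, smul_zero, sub_zero]; exact h1⟩
      · exact ⟨j + i', by rw [ha, smul_zero, zero_sub]; exact neg_mem h2⟩
    have hux : u • (s'.1 • m.1 - s.1 • m'.1) = 0 := by
      rw [smul_sub, sub_eq_zero]
      simpa [Submonoid.smul_def] using hum
    obtain ⟨k, hk, hkx⟩ := exists_homog_ann (𝒜 := 𝒜) hx hu hux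
    let W : TopologicalSpace.OpenNhds q :=
      ⟨U' ⊓ V' ⊓ ProjectiveSpectrum.basicOpen 𝒜 (DirectSum.decompose 𝒜 u k : A),
        ⟨⟨hpU', hpV'⟩, hk⟩⟩
    refine ⟨W, ⟨⟨?_⟩⟩, ⟨⟨?_⟩⟩, fun w => ?_⟩
    · show W.1 ≤ U.1
      exact le_trans (le_trans inf_le_left inf_le_left) iU'.le
    · show W.1 ≤ V.1
      exact le_trans (le_trans inf_le_left inf_le_right) iV'.le
    · apply Subtype.ext
      have f1 := wa ⟨w.1, w.2.1.1⟩
      have f2 := wb ⟨w.1, w.2.1.2⟩
      refine f1.trans (Eq.trans ?_ f2.symm)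
      rw [LocalizedModule.mk_eq]
      refine ⟨⟨DirectSum.decompose 𝒜 u k, w.2.2⟩, ?_⟩
      have := hkx
      rw [smul_sub, sub_eq_zero] at this
      simpa [Submonoid.smul_def] using this
  · apply TopCat.stalkToFiber_surjective
    intro t
    obtain ⟨i, j, m, s, hs, ca, ht⟩ := single_frac ℳ n q t.1 t.2
    let U : TopologicalSpace.OpenNhds q := ⟨ProjectiveSpectrum.basicOpen 𝒜 s.1, hs⟩
    have nin : ∀ y : U.1, s.1 ∉ y.1.asHomogeneousIdeal := fun y => y.2
    refine ⟨U, fun y => ⟨LocalizedModule.mk m.1 ⟨s.1, nin y⟩, mem_tildeAt ℳ n y.1 m s (nin y) ca⟩,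
      ?_, ?_⟩
    · intro y
      exact ⟨U.1, y.2, 𝟙 _, i, j, m, s, nin, ca, fun _ => rfl⟩
    · apply Subtype.ext
      exact ht.symm

end Groth.Agent.S3547
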