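import Groth.Statements.S3548
-- import your own Groth.Agent.* helpers here

set_option autoImplicit false
universe u
open CategoryTheory CategoryTheory.Limits AlgebraicGeometry
open EGA2

namespace Groth.Agent.S3548

/-- Let S be a graded ring, M a graded S-module and X = Proj S. If for every z in M and every
homogeneous f of positive degree some power of f annihilates z, then the O_X-module M~ is zero. -/
theorem result {R A : Type u} [CommRing R] [CommRing A] [Algebra R A] (𝒜 : ℕ → Submodule R A) [GradedAlgebra 𝒜]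
    {M : Type u} [AddCommGroup M] [Module R M] [Module A M] [IsScalarTower R A M] (ℳ : ℕ → Submodule R M) [DirectSum.Decomposition ℳ] [SetLike.GradedSMul 𝒜 ℳ]
    (h : ∀ (z : M) (d : ℕ) (f : A), 0 < d → f ∈ 𝒜 d → ∃ k : ℕ, f ^ k • z = 0) :
    IsZero (GrTilde.tilde 𝒜 ℳ 0) := by
  classical
  have hloc : ∀ x : ProjectiveSpectrum 𝒜, Subsingleton (GrTilde.LocMod 𝒜 (M := M) x) := by
    intro x
    obtain ⟨⟨⟨d, hd⟩, ⟨f, hf⟩⟩, hx⟩ : ∃ i : Σ i : PNat, 𝒜 i,
        (x : Proj 𝒜) ∈ Proj.basicOpen 𝒜 i.2.1 := by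
      refine ⟨(Proj.affineOpenCover 𝒜).idx x, ?_⟩
      have := (Proj.affineOpenCover 𝒜).covers x
      rw [← Proj.opensRange_awayι 𝒜 _ ((Proj.affineOpenCover 𝒜).idx x).2.2
        ((Proj.affineOpenCover 𝒜).idx x).1.2]
      exact this
    have hfx : f ∉ x.asHomogeneousIdeal := hx
    suffices H : ∀ a : GrTilde.LocMod 𝒜 (M := M) x, a = 0 from
      ⟨fun a b => by rw [H a, H b]⟩
    intro a
    induction a using LocalizedModule.induction_on with
    | h m s =>
      obtain ⟨k, hk⟩ := h m d f hd hf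
      rw [← LocalizedModule.zero_mk (1 : x.asHomogeneousIdeal.toIdeal.primeCompl),
        LocalizedModule.mk_eq]
      refine ⟨⟨f ^ k, fun hmem => hfx (x.isPrime.mem_of_pow_mem k hmem)⟩, ?_⟩
      simp [Submonoid.smul_def, hk]
  rw [IsZero.iff_id_eq_zero]
  ext U s
  have h1 : ∀ x : ProjectiveSpectrum 𝒜, Subsingleton (GrTilde.tildeAt 𝒜 ℳ 0 x) :=
    fun x => ⟨fun a b => Subtype.ext ((hloc x).elim _ _)⟩
  have h2 : Subsingleton (∀ x : (Opposite.op U).unop, GrTilde.tildeAt 𝒜 ℳ 0 x.1) :=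
    ⟨fun a b => funext fun x => (h1 x.1).elim _ _⟩
  have hsect : Subsingleton (GrTilde.sect 𝒜 ℳ 0 (Opposite.op U)) :=
    ⟨fun a b => Subtype.ext (h2.elim _ _)⟩
  exact @Subsingleton.elim _ hsect _ _

end Groth.Agent.S3548
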