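import Groth.Statements.S3587
import Groth.Agent.Lib.Helper6.GrMod

set_option autoImplicit false
universe u
open CategoryTheory AlgebraicGeometry Opposite TopologicalSpace
open EGA2

namespace Groth.Agent.S3587

open Groth.Agent.Lib.Helper6.GrModLib

/-- Let S be a graded ring, M a graded S-module, f a homogeneous element of degree d > 0 and m a
homogeneous element of M. If the fraction m/f^k vanishes in the localized module M_x for every point
x of D_+(f), then f^N m = 0 for some N (so m/f^k = 0 in M_(f)); this is the injectivity half of the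
identification of the sections of M~ over D_+(f) with M_(f). -/
theorem result {R A : Type u} [CommRing R] [CommRing A] [Algebra R A] (𝒜 : ℕ → Submodule R A) [GradedAlgebra 𝒜]
    {M : Type u} [AddCommGroup M] [Module R M] [Module A M] [IsScalarTower R A M] (ℳ : ℕ → Submodule R M) [DirectSum.Decomposition ℳ] [SetLike.GradedSMul 𝒜 ℳ] {d : ℕ} (hd : 0 < d) {f : A} (hf : f ∈ 𝒜 d) (k i : ℕ) (m : ℳ i)
    (h : ∀ x : ProjectiveSpectrum.basicOpen 𝒜 f,
      (LocalizedModule.mk m.1 ⟨f ^ k, fun h => (ProjectiveSpectrum.mem_basicOpen 𝒜 f x.1).mp x.2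
        (x.1.isPrime.mem_of_pow_mem k h)⟩ : GrTilde.LocMod 𝒜 (M := M) x.1) = 0) :
    ∃ N : ℕ, f ^ N • m.1 = 0 := by
  classical
  let I : Ideal A := LinearMap.ker (LinearMap.toSpanSingleton A M m.1)
  have hI : ∀ a : A, a ∈ I ↔ a • m.1 = 0 := fun a => by
    simp [I, LinearMap.toSpanSingleton_apply]
  let J := I.homogeneousCore 𝒜
  have hfJ : f ∈ J.toIdeal.radical := by
    rw [Ideal.IsHomogeneous.radical_eq J.isHomogeneous]
    by_contra hcon
    rw [Submodule.mem_sInf] at hcon
    push Not at hcon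
    obtain ⟨P, ⟨hPh, hJP, hPp⟩, hfP⟩ := hcon
    let x : ProjectiveSpectrum 𝒜 :=
      { asHomogeneousIdeal := ⟨P, hPh⟩
        isPrime := hPp
        not_irrelevant_le := fun hle =>
          hfP (hle (HomogeneousIdeal.mem_irrelevant_of_mem 𝒜 hd hf)) }
    have hx : x ∈ ProjectiveSpectrum.basicOpen 𝒜 f := hfP
    have h0 := h ⟨x, hx⟩
    rw [← LocalizedModule.zero_mk (1 : x.asHomogeneousIdeal.toIdeal.primeCompl),
      LocalizedModule.mk_eq] at h0
    obtain ⟨⟨u, hu⟩, hum⟩ := h0
    simp only [one_smul, smul_zero, Submonoid.smul_def] at hum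
    obtain ⟨j, hj, hjm⟩ := exists_homog_ann (𝒜 := 𝒜) m.2 hu hum
    apply hj
    apply hJP
    apply Ideal.mem_homogeneousCore_of_homogeneous_of_mem ⟨j, SetLike.coe_mem _⟩
    exact (hI _).mpr hjm
  obtain ⟨N, hN⟩ := hfJ
  exact ⟨N, (hI _).mp (Ideal.toIdeal_homogeneousCore_le _ _ hN)⟩

end Groth.Agent.S3587
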