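import Groth.Statements.S3549
import Groth.Agent.S3587

set_option autoImplicit false
universe u
open CategoryTheory CategoryTheory.Limits AlgebraicGeometry
open EGA2

namespace Groth.Agent.S3549

theorem mem_tildeAt {R A : Type u} [CommRing R] [CommRing A] [Algebra R A] {𝒜 : ℕ → Submodule R A}
    [GradedAlgebra 𝒜] {M : Type u} [AddCommGroup M] [Module R M] [Module A M]
    (ℳ : ℕ → Submodule R M) (n : ℤ) (x : ProjectiveSpectrum 𝒜) {i j : ℕ} (m : ℳ i) (s : 𝒜 j)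
    (hs : s.1 ∉ x.asHomogeneousIdeal) (h : (i : ℤ) = j + n) :
    LocalizedModule.mk m.1 ⟨s.1, hs⟩ ∈ GrTilde.tildeAt 𝒜 ℳ n x :=
  Submodule.subset_span ⟨i, j, m, s, hs, h, rfl⟩


/-- Let S be a graded ring whose irrelevant ideal S_+ is generated by the degree-one elements, M a
graded S-module and X = Proj S. If the O_X-module M~ is zero, then for every z in M and every
homogeneous f of positive degree some power of f annihilates z. -/
theorem result {R A : Type u} [CommRing R] [CommRing A] [Algebra R A] (𝒜 : ℕ → Submodule R A) [GradedAlgebra 𝒜]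
    (hgen : (HomogeneousIdeal.irrelevant 𝒜).toIdeal = Ideal.span (𝒜 1 : Set A))
    {M : Type u} [AddCommGroup M] [Module R M] [Module A M] [IsScalarTower R A M] (ℳ : ℕ → Submodule R M) [DirectSum.Decomposition ℳ] [SetLike.GradedSMul 𝒜 ℳ]
    (h : IsZero (GrTilde.tilde 𝒜 ℳ 0)) (z : M) (d : ℕ) (f : A) (hd : 0 < d) (hf : f ∈ 𝒜 d) :
    ∃ k : ℕ, f ^ k • z = 0 := by
  classical
  have hvan : ∀ (U : TopologicalSpace.Opens (ProjectiveSpectrum.top 𝒜))
      (s : GrTilde.sect 𝒜 ℳ 0 (Opposite.op U)), s = 0 := by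
    intro U s
    let s' : Γ(GrTilde.tilde 𝒜 ℳ 0, (U : (Proj 𝒜).Opens)) := s
    have := congrArg (fun φ : GrTilde.tilde 𝒜 ℳ 0 ⟶ GrTilde.tilde 𝒜 ℳ 0 =>
      (Scheme.Modules.Hom.app φ (U : (Proj 𝒜).Opens)).hom s') (h.eq_of_src (𝟙 _) 0)
    exact this
  have step2 : ∀ (g : A) (_ : g ∈ 𝒜 1) (i : ℕ) (m : ℳ i), ∃ N : ℕ, g ^ N • m.1 = 0 := by
    intro g hg i m
    have hgi : g ^ i ∈ 𝒜 i := by simpa using SetLike.pow_mem_graded i hg
    let U : TopologicalSpace.Opens (ProjectiveSpectrum.top 𝒜) := ProjectiveSpectrum.basicOpen 𝒜 g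
    have nin : ∀ x : U, g ^ i ∉ x.1.asHomogeneousIdeal := fun x hx =>
      x.2 (x.1.isPrime.mem_of_pow_mem i hx)
    let s : GrTilde.sect 𝒜 ℳ 0 (Opposite.op U) :=
      ⟨fun x => ⟨LocalizedModule.mk m.1 ⟨g ^ i, nin x⟩,
        mem_tildeAt ℳ 0 x.1 m ⟨g ^ i, hgi⟩ (nin x) (by simp)⟩,
       fun x => ⟨U, x.2, 𝟙 _, i, i, m, ⟨g ^ i, hgi⟩, nin, Or.inl (by simp), fun _ => rfl⟩⟩
    have hs := hvan U s
    apply Groth.Agent.S3587.result 𝒜 ℳ (d := 1) one_pos hg i i m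
    intro x
    exact congrArg (fun t : GrTilde.sect 𝒜 ℳ 0 (Opposite.op U) => (t.1 ⟨x.1, x.2⟩).1) hs
  have step3 : ∀ (z : M) (g : A), g ∈ 𝒜 1 → ∃ N : ℕ, g ^ N • z = 0 := by
    intro z g hg
    choose Nf hNf using fun i => step2 g hg i (DirectSum.decompose ℳ z i)
    set S := (DirectSum.decompose ℳ z).support with hS
    refine ⟨∑ i ∈ S, Nf i, ?_⟩
    have hz : z = ∑ i ∈ S, (DirectSum.decompose ℳ z i : M) :=
      (DirectSum.sum_support_decompose ℳ z).symm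
    calc (g ^ ∑ i ∈ S, Nf i) • z
        = (g ^ ∑ i ∈ S, Nf i) • ∑ i ∈ S, (DirectSum.decompose ℳ z i : M) := by rw [← hz]
      _ = 0 := by
        rw [Finset.smul_sum]
        refine Finset.sum_eq_zero fun i hi => ?_
        obtain ⟨c, hc⟩ : ∃ c, ∑ j ∈ S, Nf j = c + Nf i :=
          ⟨_, (Nat.sub_add_cancel (Finset.single_le_sum (fun _ _ => Nat.zero_le _) hi)).symm⟩
        rw [hc, pow_add, mul_smul, hNf i, smul_zero]
  let I : Ideal A := LinearMap.ker (LinearMap.toSpanSingleton A M z)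
  have hI : ∀ a : A, a ∈ I ↔ a • z = 0 := fun a => by
    simp [I, LinearMap.toSpanSingleton_apply]
  have hle : (HomogeneousIdeal.irrelevant 𝒜).toIdeal ≤ I.radical := by
    rw [hgen, Ideal.span_le]
    intro g hg
    obtain ⟨N, hN⟩ := step3 z g hg
    exact ⟨N, (hI _).mpr hN⟩
  obtain ⟨k, hk⟩ := hle (HomogeneousIdeal.mem_irrelevant_of_mem 𝒜 hd hf)
  exact ⟨k, (hI _).mp hk⟩

end Groth.Agent.S3549
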