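import Groth.Statements.S3553
import Mathlib.RingTheory.GradedAlgebra.Radical

set_option autoImplicit false
universe u
open CategoryTheory CategoryTheory.Limits AlgebraicGeometry
open EGA2

namespace Groth.Agent.S3553

/-- In the case where the induced morphism is defined on all of Proj S: let φ : S' → S be a homomorphism
of graded rings such that S_+ is contained in the ideal generated by φ(S'_+), and suppose every
element of the kernel of φ is nilpotent. Then the induced morphism from Proj S to Proj S' has dense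
image. -/
theorem result {R A : Type u} [CommRing R] [CommRing A] [Algebra R A] (𝒜 : ℕ → Submodule R A) [GradedAlgebra 𝒜]
    {B : Type u} [CommRing B] [Algebra R B] (ℬ : ℕ → Submodule R B) [GradedAlgebra ℬ]
    (φ : 𝒜 →+*ᵍ ℬ) (hφ : HomogeneousIdeal.irrelevant ℬ ≤ (HomogeneousIdeal.irrelevant 𝒜).map φ)
    (hker : ∀ a : A, φ a = 0 → IsNilpotent a) :
    DenseRange (Proj.map φ hφ).base := by
  -- an element of the irrelevant ideal of `ℬ` lying in every relevant homogeneous prime is nilpotent
  have key : ∀ b ∈ (HomogeneousIdeal.irrelevant ℬ).toIdeal,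
      (∀ q : ProjectiveSpectrum ℬ, b ∈ q.asHomogeneousIdeal) → IsNilpotent b := by
    intro b hb hq
    have h0 : (⊥ : Ideal B).IsHomogeneous ℬ := Ideal.IsHomogeneous.bot ℬ
    have hbr : b ∈ (⊥ : Ideal B).radical := by
      rw [h0.radical_eq, Ideal.mem_sInf]
      rintro J ⟨hJh, -, hJp⟩
      by_cases hrel : (HomogeneousIdeal.irrelevant ℬ).toIdeal ≤ J
      · exact hrel hb
      · exact hq (⟨⟨J, hJh⟩, hJp, hrel⟩ : ProjectiveSpectrum ℬ)
    obtain ⟨n, hn⟩ := hbr
    exact ⟨n, by simpa using hn⟩
  rw [denseRange_iff_closure_range]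
  show closure (Set.range (ProjectiveSpectrum.comap φ hφ)) = Set.univ
  rw [← ProjectiveSpectrum.zeroLocus_vanishingIdeal_eq_closure, Set.eq_univ_iff_forall]
  intro p
  rw [ProjectiveSpectrum.mem_zeroLocus]
  intro a ha
  rw [SetLike.mem_coe, ProjectiveSpectrum.mem_vanishingIdeal] at ha
  have hφa : ∀ q : ProjectiveSpectrum ℬ, φ a ∈ q.asHomogeneousIdeal := by
    intro q
    exact ha _ ⟨q, rfl⟩
  have hrel := p.not_irrelevant_le
  rw [HomogeneousIdeal.irrelevant_le] at hrel
  push Not at hrel
  obtain ⟨i, hi, hle⟩ := hrel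
  rw [SetLike.not_le_iff_exists] at hle
  obtain ⟨f, hf, hfp⟩ := hle
  have hfi : f ∈ 𝒜 i := hf
  have hφf : φ f ∈ (HomogeneousIdeal.irrelevant ℬ).toIdeal :=
    HomogeneousIdeal.mem_irrelevant_of_mem ℬ hi (φ.map_mem hfi)
  have hnil : IsNilpotent (φ (a * f)) := by
    apply key
    · rw [map_mul]; exact Ideal.mul_mem_left _ _ hφf
    · intro q
      rw [map_mul]
      exact Ideal.mul_mem_right _ _ (hφa q)
  obtain ⟨n, hn⟩ := hnil
  obtain ⟨m, hm⟩ := hker ((a * f) ^ n) (by rw [map_pow, hn])
  have hmem : a * f ∈ p.asHomogeneousIdeal := by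
    apply p.isPrime.mem_of_pow_mem (n * m)
    rw [pow_mul, hm]
    exact Submodule.zero_mem _
  rcases p.isPrime.mem_or_mem hmem with h | h
  · exact h
  · exact absurd h hfp

end Groth.Agent.S3553
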