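import Groth.Statements.S3555
-- import your own Groth.Agent.* helpers here

set_option autoImplicit false
universe u
open CategoryTheory CategoryTheory.Limits AlgebraicGeometry
open EGA2

namespace Groth.Agent.S3555

/-- Let S be a graded ring whose irrelevant ideal S_+ is generated by the degree-one elements, X = Proj
S, and f homogeneous of degree d > 0. Then D_+(f) is the set of points p of X at which the global
section f/1 of O_X(d) does not vanish, i.e. at which its value generates the module of degree-d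
fractions at p. -/
theorem result {R A : Type u} [CommRing R] [CommRing A] [Algebra R A] (𝒜 : ℕ → Submodule R A) [GradedAlgebra 𝒜]
    (hgen : (HomogeneousIdeal.irrelevant 𝒜).toIdeal = Ideal.span (𝒜 1 : Set A))
    {d : ℕ} (hd : 0 < d) (f : 𝒜 d) (p : ProjectiveSpectrum 𝒜) :
    p ∈ ProjectiveSpectrum.basicOpen 𝒜 (f : A) ↔
      Submodule.span (Twist.A0 𝒜 p) {(Twist.globalOf 𝒜 f).1 ⟨p, trivial⟩} = ⊤ := by
  classical
  have hone : ∀ x : ProjectiveSpectrum 𝒜, (1 : A) ∉ x.asHomogeneousIdeal := fun x h =>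
    x.isPrime.ne_top ((Ideal.eq_top_iff_one _).mpr h)
  set v := (Twist.globalOf 𝒜 f).1 ⟨p, trivial⟩ with hv
  have hv1 : (v : Twist.Loc 𝒜 p) = Localization.mk f.1 ⟨1, hone p⟩ := rfl
  constructor
  · intro hfp
    rw [eq_top_iff]
    rintro ⟨q, hq⟩ -
    induction hq using Submodule.span_induction with
    | mem q hq =>
      obtain ⟨i, j, a, s, hs, hij, rfl⟩ := hq
      have hsf : s.1 * f.1 ∉ p.asHomogeneousIdeal := fun h =>
        (p.isPrime.mem_or_mem h).elim hs hfp
      have hdeg : a.1 ∈ 𝒜 (j + d) := by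
        have : i = j + d := by omega
        exact this ▸ a.2
      let c : Twist.A0 𝒜 p := HomogeneousLocalization.mk
        ⟨j + d, ⟨a.1, hdeg⟩, ⟨s.1 * f.1, SetLike.mul_mem_graded s.2 f.2⟩, hsf⟩
      have hc : (⟨Localization.mk a.1 ⟨s.1, hs⟩, Submodule.subset_span ⟨i, j, a, s, hs, hij, rfl⟩⟩ :
          Twist.twistAt 𝒜 d p) = c • v := by
        apply Subtype.ext
        rw [Twist.coe_smul_val, HomogeneousLocalization.val_mk, hv1, Localization.mk_mul]
        rw [Localization.mk_eq_mk_iff, Localization.r_iff_exists]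
        exact ⟨1, by simp only [Submonoid.coe_mul, OneMemClass.coe_one, one_mul]; ring⟩
      rw [hc]
      exact Submodule.smul_mem _ _ (Submodule.subset_span rfl)
    | zero => exact zero_mem _
    | add x y hx hy ihx ihy => exact add_mem ihx ihy
    | smul c x hx ih => exact Submodule.smul_mem _ c ih
  · intro htop
    by_contra hfp
    have hfp' : f.1 ∈ p.asHomogeneousIdeal := by
      by_contra h
      exact hfp h
    obtain ⟨g, hg1, hgp⟩ : ∃ g ∈ 𝒜 1, g ∉ p.asHomogeneousIdeal := by
      by_contra hcon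
      push Not at hcon
      apply p.not_irrelevant_le
      intro x hx
      have hx' : x ∈ (HomogeneousIdeal.irrelevant 𝒜).toIdeal := hx
      rw [hgen] at hx'
      exact (Ideal.span_le.mpr hcon) hx'
    have hgd : g ^ d ∈ 𝒜 d := by simpa using SetLike.pow_mem_graded d hg1
    have hgdp : g ^ d ∉ p.asHomogeneousIdeal := fun h => hgp (p.isPrime.mem_of_pow_mem d h)
    let w : Twist.twistAt 𝒜 d p := ⟨Localization.mk (g ^ d) ⟨1, hone p⟩,
      Submodule.subset_span ⟨d, 0, ⟨g ^ d, hgd⟩, ⟨1, SetLike.GradedOne.one_mem⟩, hone p,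
        by simp, rfl⟩⟩
    have hw : w ∈ Submodule.span (Twist.A0 𝒜 p) {v} := by rw [htop]; trivial
    obtain ⟨c, hc⟩ := Submodule.mem_span_singleton.mp hw
    have h2 := congrArg Subtype.val hc
    rw [Twist.coe_smul_val] at h2
    obtain ⟨⟨k, ⟨a, ha⟩, ⟨s, hs⟩, hsp⟩, rfl⟩ := HomogeneousLocalization.mk_surjective c
    rw [HomogeneousLocalization.val_mk, hv1, Localization.mk_mul] at h2
    change Localization.mk (a * f.1) (⟨s, hsp⟩ * ⟨1, hone p⟩) =
      Localization.mk (g ^ d) ⟨1, hone p⟩ at h2
    rw [Localization.mk_eq_mk_iff, Localization.r_iff_exists] at h2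
    obtain ⟨⟨u, hu⟩, hu'⟩ := h2
    have h1 : u * ((1 : A) * (a * f.1)) ∈ p.asHomogeneousIdeal :=
      Ideal.mul_mem_left _ _ (Ideal.mul_mem_left _ _ (Ideal.mul_mem_left _ _ hfp'))
    simp only [Submonoid.coe_mul, OneMemClass.coe_one] at hu'
    rw [hu'] at h1
    have hs' : s ∉ p.asHomogeneousIdeal := hsp
    have hu2 : u ∉ p.asHomogeneousIdeal := hu
    rcases p.isPrime.mem_or_mem h1 with h | h
    · exact hu2 h
    · rcases p.isPrime.mem_or_mem h with h' | h'
      · rcases p.isPrime.mem_or_mem h' with h'' | h''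
        · exact hs' h''
        · exact hone p h''
      · exact hgdp h'

end Groth.Agent.S3555
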