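import Groth.Statements.S3556
-- import your own Groth.Agent.* helpers here

set_option autoImplicit false
universe u
open CategoryTheory CategoryTheory.Limits AlgebraicGeometry
open EGA2

namespace Groth.Agent.S3556

/-- Let S be a graded ring which is essentially reduced, i.e. its irrelevant ideal S_+ contains no
nonzero nilpotent element. Then Proj S is a reduced scheme. -/
theorem result {R A : Type u} [CommRing R] [CommRing A] [Algebra R A] (𝒜 : ℕ → Submodule R A) [GradedAlgebra 𝒜]
    (hred : ∀ f ∈ (HomogeneousIdeal.irrelevant 𝒜).toIdeal, IsNilpotent f → f = 0) :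
    AlgebraicGeometry.IsReduced (Proj 𝒜) := by
  have hAway : ∀ (f : A) (d : ℕ), 0 < d → f ∈ 𝒜 d →
      _root_.IsReduced (HomogeneousLocalization.Away 𝒜 f) := by
    intro f d hd hf
    constructor
    intro x hx
    obtain ⟨n, a, ha, rfl⟩ := HomogeneousLocalization.Away.mk_surjective 𝒜 hf x
    obtain ⟨k, hk⟩ := hx
    have hk' := congrArg HomogeneousLocalization.val hk
    rw [HomogeneousLocalization.val_pow, HomogeneousLocalization.Away.val_mk,
      HomogeneousLocalization.val_zero, Localization.mk_pow, Localization.mk_eq_mk',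
      IsLocalization.mk'_eq_zero_iff] at hk'
    obtain ⟨⟨_, m, rfl⟩, hm⟩ := hk'
    have hfa : f * a = 0 := by
      apply hred
      · exact HomogeneousIdeal.mem_irrelevant_of_mem 𝒜 (i := d + n • d) (Nat.add_pos_left hd _)
          (SetLike.mul_mem_graded hf ha)
      · refine ⟨m + k, ?_⟩
        calc (f * a) ^ (m + k) = (f ^ m * a ^ k) * (f ^ k * a ^ m) := by ring
        _ = 0 := by simp only at hm; rw [hm, zero_mul]
    apply HomogeneousLocalization.val_injective
    rw [HomogeneousLocalization.Away.val_mk, HomogeneousLocalization.val_zero,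
      Localization.mk_eq_mk', IsLocalization.mk'_eq_zero_iff]
    exact ⟨⟨f, 1, pow_one f⟩, hfa⟩
  have hX : ∀ i, AlgebraicGeometry.IsReduced ((Proj.affineOpenCover 𝒜).openCover.X i) := by
    intro i
    have := hAway i.2 i.1 i.1.2 i.2.2
    change AlgebraicGeometry.IsReduced (Spec (CommRingCat.of (HomogeneousLocalization.Away 𝒜 (i.2 : A))))
    infer_instance
  exact AlgebraicGeometry.IsReduced.of_openCover (X := Proj 𝒜) (Proj.affineOpenCover 𝒜).openCover

end Groth.Agent.S3556
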