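import Groth.Statements.S3578
-- import your own Groth.Agent.* helpers here

set_option autoImplicit false
universe u
open EGA2

namespace Groth.Agent.S3578

open ProjectiveSpectrum in
theorem isIrreducible_iff_isPrime {R A : Type u} [CommRing R] [CommRing A] [Algebra R A]
    (𝒜 : ℕ → Submodule R A) [GradedAlgebra 𝒜] (Z : Set (ProjectiveSpectrum 𝒜)) :
    IsIrreducible Z ↔ (vanishingIdeal Z).toIdeal.IsPrime := by
  constructor
  · rintro ⟨⟨x, hx⟩, hpre⟩
    refine ⟨?_, ?_⟩
    · intro htop
      have h1 : (1 : A) ∈ (vanishingIdeal Z).toIdeal := by rw [htop]; trivial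
      have := (mem_vanishingIdeal Z 1).mp h1 x hx
      exact x.isPrime.ne_top ((Ideal.eq_top_iff_one _).mpr this)
    · intro a b hab
      by_contra hcon
      push Not at hcon
      obtain ⟨ha, hb⟩ := hcon
      have ha' : ∃ y ∈ Z, a ∉ y.asHomogeneousIdeal := by
        by_contra h
        push Not at h
        exact ha ((mem_vanishingIdeal Z a).mpr h)
      have hb' : ∃ y ∈ Z, b ∉ y.asHomogeneousIdeal := by
        by_contra h
        push Not at h
        exact hb ((mem_vanishingIdeal Z b).mpr h)
      obtain ⟨y1, hy1, hay1⟩ := ha'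
      obtain ⟨y2, hy2, hby2⟩ := hb'
      obtain ⟨z, hzZ, hzu, hzv⟩ := hpre (basicOpen 𝒜 a) (basicOpen 𝒜 b)
        (basicOpen 𝒜 a).isOpen (basicOpen 𝒜 b).isOpen ⟨y1, hy1, hay1⟩ ⟨y2, hy2, hby2⟩
      have habz := (mem_vanishingIdeal Z (a * b)).mp hab z hzZ
      rcases z.isPrime.mem_or_mem habz with h | h
      · exact hzu h
      · exact hzv h
  · intro hp
    refine ⟨?_, ?_⟩
    · by_contra hne
      rw [Set.not_nonempty_iff_eq_empty] at hne
      apply hp.ne_top
      rw [Ideal.eq_top_iff_one]
      refine (mem_vanishingIdeal Z _).mpr ?_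
      intro x hx
      rw [hne] at hx
      exact absurd hx (Set.notMem_empty x)
    · intro u v hu hv ⟨x, hxZ, hxu⟩ ⟨y, hyZ, hyv⟩
      obtain ⟨s1, hs1⟩ := (isOpen_iff 𝒜 u).mp hu
      obtain ⟨s2, hs2⟩ := (isOpen_iff 𝒜 v).mp hv
      have hx1 : x ∉ zeroLocus 𝒜 s1 := by rw [← hs1]; exact fun h => h hxu
      have hy2 : y ∉ zeroLocus 𝒜 s2 := by rw [← hs2]; exact fun h => h hyv
      rw [mem_zeroLocus, Set.not_subset] at hx1 hy2
      obtain ⟨a, has, hax⟩ := hx1
      obtain ⟨b, hbs, hby⟩ := hy2
      have ha : a ∉ (vanishingIdeal Z).toIdeal := fun h => hax ((mem_vanishingIdeal Z a).mp h x hxZ)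
      have hb : b ∉ (vanishingIdeal Z).toIdeal := fun h => hby ((mem_vanishingIdeal Z b).mp h y hyZ)
      have hab : a * b ∉ (vanishingIdeal Z).toIdeal := by
        intro h
        rcases hp.mem_or_mem h with h' | h'
        · exact ha h'
        · exact hb h'
      have : ∃ z ∈ Z, a * b ∉ z.asHomogeneousIdeal := by
        by_contra h
        push Not at h
        exact hab ((mem_vanishingIdeal Z (a * b)).mpr h)
      obtain ⟨z, hzZ, hz⟩ := this
      have hza : a ∉ z.asHomogeneousIdeal := fun h => hz (Ideal.mul_mem_right b _ h)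
      have hzb : b ∉ z.asHomogeneousIdeal := fun h => hz (Ideal.mul_mem_left _ a h)
      refine ⟨z, hzZ, ?_, ?_⟩
      · by_contra hzu
        have : z ∈ uᶜ := hzu
        rw [hs1, mem_zeroLocus] at this
        exact hza (this has)
      · by_contra hzv
        have : z ∈ vᶜ := hzv
        rw [hs2, mem_zeroLocus] at this
        exact hzb (this hbs)

open ProjectiveSpectrum in
theorem isPrime_iff_relevant {R A : Type u} [CommRing R] [CommRing A] [Algebra R A]
    (𝒜 : ℕ → Submodule R A) [GradedAlgebra 𝒜] (Z : Set (ProjectiveSpectrum 𝒜)) :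
    (vanishingIdeal Z).toIdeal.IsPrime ↔
      (¬ (HomogeneousIdeal.irrelevant 𝒜).toIdeal ≤ (vanishingIdeal Z).toIdeal ∧
        ∀ f ∈ (HomogeneousIdeal.irrelevant 𝒜).toIdeal, ∀ g ∈ (HomogeneousIdeal.irrelevant 𝒜).toIdeal,
          f * g ∈ (vanishingIdeal Z).toIdeal →
            f ∈ (vanishingIdeal Z).toIdeal ∨ g ∈ (vanishingIdeal Z).toIdeal) := by
  constructor
  · intro hp
    refine ⟨?_, fun f _ g _ h => hp.mem_or_mem h⟩
    intro hle
    have hne : Z.Nonempty := by
      by_contra hne
      rw [Set.not_nonempty_iff_eq_empty] at hne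
      apply hp.ne_top
      rw [Ideal.eq_top_iff_one]
      refine (mem_vanishingIdeal Z _).mpr ?_
      intro x hx
      rw [hne] at hx
      exact absurd hx (Set.notMem_empty x)
    obtain ⟨x, hx⟩ := hne
    apply x.not_irrelevant_le
    intro a ha
    exact (mem_vanishingIdeal Z a).mp (hle ha) x hx
  · rintro ⟨hrel, hpr⟩
    rw [SetLike.not_le_iff_exists] at hrel
    obtain ⟨h, hhS, hhZ⟩ := hrel
    -- key cancellation lemma
    have cancel : ∀ b : A, h * b ∈ (vanishingIdeal Z).toIdeal → b ∈ (vanishingIdeal Z).toIdeal := by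
      intro b hb
      refine (mem_vanishingIdeal Z _).mpr ?_
      intro x hx
      have : ¬ HomogeneousIdeal.irrelevant 𝒜 ≤ x.asHomogeneousIdeal := x.not_irrelevant_le
      rw [SetLike.not_le_iff_exists] at this
      obtain ⟨h', hh'S, hh'x⟩ := this
      have h1 : h * (h' * b) ∈ (vanishingIdeal Z).toIdeal := by
        have : h * (h' * b) = h' * (h * b) := by ring
        rw [this]
        exact Ideal.mul_mem_left _ _ hb
      rcases hpr h hhS (h' * b) (Ideal.mul_mem_right _ _ hh'S) h1 with h2 | h2
      · exact absurd h2 hhZ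
      · have := (mem_vanishingIdeal Z (h' * b)).mp h2 x hx
        rcases x.isPrime.mem_or_mem this with h3 | h3
        · exact absurd h3 hh'x
        · exact h3
    refine ⟨?_, ?_⟩
    · intro htop
      apply hhZ
      rw [htop]
      trivial
    · intro a b hab
      have h1 : (h * a) * (h * b) ∈ (vanishingIdeal Z).toIdeal := by
        have : (h * a) * (h * b) = (h * h) * (a * b) := by ring
        rw [this]
        exact Ideal.mul_mem_left _ _ hab
      rcases hpr (h * a) (Ideal.mul_mem_right _ _ hhS) (h * b) (Ideal.mul_mem_right _ _ hhS) h1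
        with h2 | h2
      · exact Or.inl (cancel a h2)
      · exact Or.inr (cancel b h2)

/-- Via the correspondence between closed subsets of Proj S and radical graded ideals of S_+: let S be a
graded ring and Z a closed subset of Proj S, with J = S_+ ∩ (vanishing ideal of Z). Then Z is
irreducible if and only if J is a prime ideal of the ring-without-unit S_+: J ≠ S_+ and a product of
two elements of S_+ lies in J only if one factor does. -/
theorem result {R A : Type u} [CommRing R] [CommRing A] [Algebra R A] (𝒜 : ℕ → Submodule R A) [GradedAlgebra 𝒜]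
    (Z : Set (ProjectiveSpectrum 𝒜)) (hZ : IsClosed Z) :
    IsIrreducible Z ↔
      (¬ (HomogeneousIdeal.irrelevant 𝒜).toIdeal ≤ (ProjectiveSpectrum.vanishingIdeal Z).toIdeal ∧
        ∀ f ∈ (HomogeneousIdeal.irrelevant 𝒜).toIdeal, ∀ g ∈ (HomogeneousIdeal.irrelevant 𝒜).toIdeal,
          f * g ∈ (ProjectiveSpectrum.vanishingIdeal Z).toIdeal →
            f ∈ (ProjectiveSpectrum.vanishingIdeal Z).toIdeal ∨ g ∈ (ProjectiveSpectrum.vanishingIdeal Z).toIdeal) := by
  rw [isIrreducible_iff_isPrime, isPrime_iff_relevant]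

end Groth.Agent.S3578
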