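import Groth.Statements.S3557
import Groth.Agent.S3556
import Groth.Agent.S3578
import Mathlib.RingTheory.GradedAlgebra.Radical

set_option autoImplicit false
universe u
open CategoryTheory CategoryTheory.Limits AlgebraicGeometry
open EGA2

namespace Groth.Agent.S3557

/-- Let S be a graded ring which is essentially reduced (S_+ contains no nonzero nilpotent). Then Proj S
is an integral scheme if and only if S is essentially integral, i.e. S_+ is nonzero and the product
of two nonzero elements of S_+ is nonzero. -/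
theorem result {R A : Type u} [CommRing R] [CommRing A] [Algebra R A] (𝒜 : ℕ → Submodule R A) [GradedAlgebra 𝒜]
    (hred : ∀ f ∈ (HomogeneousIdeal.irrelevant 𝒜).toIdeal, IsNilpotent f → f = 0) :
    AlgebraicGeometry.IsIntegral (Proj 𝒜) ↔
      ((∃ f ∈ (HomogeneousIdeal.irrelevant 𝒜).toIdeal, f ≠ 0) ∧
        ∀ f ∈ (HomogeneousIdeal.irrelevant 𝒜).toIdeal, ∀ g ∈ (HomogeneousIdeal.irrelevant 𝒜).toIdeal,
          f * g = 0 → f = 0 ∨ g = 0) := by
  have hIZ : ∀ f ∈ (HomogeneousIdeal.irrelevant 𝒜).toIdeal,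
      f ∈ (ProjectiveSpectrum.vanishingIdeal (Set.univ : Set (ProjectiveSpectrum 𝒜))).toIdeal ↔ f = 0 := by
    intro f hf
    constructor
    · intro hfI
      apply hred f hf
      have h0 : (⊥ : Ideal A).IsHomogeneous 𝒜 := Ideal.IsHomogeneous.bot 𝒜
      have hr := h0.radical_eq
      have hfr : f ∈ (⊥ : Ideal A).radical := by
        rw [hr, Ideal.mem_sInf]
        rintro J ⟨hJh, -, hJp⟩
        by_cases hrel : (HomogeneousIdeal.irrelevant 𝒜).toIdeal ≤ J
        · exact hrel hf
        · exact (ProjectiveSpectrum.mem_vanishingIdeal _ f).mp hfI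
            (⟨⟨J, hJh⟩, hJp, hrel⟩ : ProjectiveSpectrum 𝒜) (Set.mem_univ _)
      obtain ⟨n, hn⟩ := hfr
      exact ⟨n, by simpa using hn⟩
    · rintro rfl
      exact Submodule.zero_mem _
  rw [isIntegral_iff_irreducibleSpace_and_isReduced]
  have hR : AlgebraicGeometry.IsReduced (Proj 𝒜) := Groth.Agent.S3556.result 𝒜 hred
  have hirr : IrreducibleSpace (Proj 𝒜) ↔
      IsIrreducible (Set.univ : Set (ProjectiveSpectrum 𝒜)) := irreducibleSpace_def _
  rw [hirr, Groth.Agent.S3578.isIrreducible_iff_isPrime, Groth.Agent.S3578.isPrime_iff_relevant]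
  constructor
  · rintro ⟨⟨hrel, hpr⟩, -⟩
    refine ⟨?_, ?_⟩
    · rw [SetLike.not_le_iff_exists] at hrel
      obtain ⟨f, hfS, hfI⟩ := hrel
      refine ⟨f, hfS, fun h => hfI ?_⟩
      rw [h]
      exact Submodule.zero_mem _
    · intro f hf g hg hfg
      have h1 : f * g ∈ (ProjectiveSpectrum.vanishingIdeal (Set.univ : Set (ProjectiveSpectrum 𝒜))).toIdeal := by
        rw [hfg]; exact Submodule.zero_mem _
      rcases hpr f hf g hg h1 with h | h
      · exact Or.inl ((hIZ f hf).mp h)
      · exact Or.inr ((hIZ g hg).mp h)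
  · rintro ⟨⟨f, hfS, hf0⟩, hdom⟩
    refine ⟨⟨?_, ?_⟩, hR⟩
    · intro hle
      exact hf0 ((hIZ f hfS).mp (hle hfS))
    · intro a ha b hb hab
      have hab0 := (hIZ (a * b) (Ideal.mul_mem_right _ _ ha)).mp hab
      rcases hdom a ha b hb hab0 with h | h
      · left; rw [h]; exact Submodule.zero_mem _
      · right; rw [h]; exact Submodule.zero_mem _

end Groth.Agent.S3557
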