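import Groth.Statements.S3558
import Mathlib.RingTheory.GradedAlgebra.Radical

set_option autoImplicit false
universe u
open CategoryTheory CategoryTheory.Limits AlgebraicGeometry
open EGA2

namespace Groth.Agent.S3558

/-- For a graded ring S, Proj S is empty if and only if every element of the irrelevant ideal S_+ is
nilpotent. -/
theorem result {R A : Type u} [CommRing R] [CommRing A] [Algebra R A] (𝒜 : ℕ → Submodule R A) [GradedAlgebra 𝒜] :
    IsEmpty (Proj 𝒜) ↔ ∀ f ∈ (HomogeneousIdeal.irrelevant 𝒜).toIdeal, IsNilpotent f := by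
  constructor
  · intro hE
    have key : ∀ i : ℕ, 0 < i → ∀ a ∈ 𝒜 i, IsNilpotent a := by
      intro i hi a ha
      by_contra hna
      have h0 : (⊥ : Ideal A).IsHomogeneous 𝒜 := Ideal.IsHomogeneous.bot 𝒜
      have hr := h0.radical_eq
      have hnot : a ∉ (⊥ : Ideal A).radical := by
        intro h
        obtain ⟨n, hn⟩ := h
        exact hna ⟨n, by simpa using hn⟩
      rw [hr] at hnot
      simp only [Ideal.mem_sInf, Set.mem_ofPred_eq, not_forall] at hnot
      obtain ⟨J, ⟨hJh, -, hJp⟩, haJ⟩ := hnot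
      exact hE.false (⟨⟨J, hJh⟩, hJp, fun hle =>
        haJ (hle (HomogeneousIdeal.mem_irrelevant_of_mem 𝒜 hi ha))⟩ : ProjectiveSpectrum 𝒜)
    have hle : (HomogeneousIdeal.irrelevant 𝒜).toIdeal ≤ nilradical A := by
      rw [HomogeneousIdeal.toIdeal_irrelevant_le]
      intro i hi x hx
      exact key i hi x hx
    intro f hf
    exact hle hf
  · intro h
    constructor
    intro x
    apply (x : ProjectiveSpectrum 𝒜).not_irrelevant_le
    intro f hf
    obtain ⟨n, hn⟩ := h f hf
    exact (x : ProjectiveSpectrum 𝒜).isPrime.mem_of_pow_mem n (hn ▸ Submodule.zero_mem _)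

end Groth.Agent.S3558
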