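import Groth.Statements.S3559
import Mathlib.RingTheory.GradedAlgebra.Radical

set_option autoImplicit false
universe u
open CategoryTheory CategoryTheory.Limits AlgebraicGeometry
open EGA2

namespace Groth.Agent.S3559

/-- Let S be a graded ring and (f_i) a family of homogeneous elements of positive degree. The opens
D_+(f_i) cover Proj S if and only if every element of S_+ has a power in the ideal generated by the
f_i. -/
theorem result {R A : Type u} [CommRing R] [CommRing A] [Algebra R A] (𝒜 : ℕ → Submodule R A) [GradedAlgebra 𝒜]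
    {ι : Type u} (f : ι → A) (hf : ∀ i, ∃ d : ℕ, 0 < d ∧ f i ∈ 𝒜 d) :
    (⨆ i, Proj.basicOpen 𝒜 (f i)) = ⊤ ↔
      (HomogeneousIdeal.irrelevant 𝒜).toIdeal ≤ (Ideal.span (Set.range f)).radical := by
  constructor
  · intro hcov
    have hhom : (Ideal.span (Set.range f)).IsHomogeneous 𝒜 := by
      apply Ideal.homogeneous_span
      rintro _ ⟨i, rfl⟩
      obtain ⟨d, -, hd⟩ := hf i
      exact ⟨d, hd⟩
    rw [hhom.radical_eq]
    intro a ha
    rw [Ideal.mem_sInf]
    rintro J ⟨hJh, hIJ, hJp⟩
    by_contra haJ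
    let x : Proj 𝒜 := (⟨⟨J, hJh⟩, hJp, fun hle => haJ (hle ha)⟩ : ProjectiveSpectrum 𝒜)
    have hx : x ∈ (⨆ i, Proj.basicOpen 𝒜 (f i)) := by rw [hcov]; trivial
    rw [TopologicalSpace.Opens.mem_iSup] at hx
    obtain ⟨i, hi⟩ := hx
    exact hi (hIJ (Ideal.subset_span ⟨i, rfl⟩))
  · intro hle
    rw [eq_top_iff]
    intro x _
    rw [TopologicalSpace.Opens.mem_iSup]
    by_contra hx
    push Not at hx
    apply (x : ProjectiveSpectrum 𝒜).not_irrelevant_le
    have hspan : Ideal.span (Set.range f) ≤ (x : ProjectiveSpectrum 𝒜).asHomogeneousIdeal.toIdeal := by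
      rw [Ideal.span_le]
      rintro _ ⟨i, rfl⟩
      have := hx i
      simpa [Proj.mem_basicOpen] using this
    intro a ha
    have h2 := hle ha
    obtain ⟨n, hn⟩ := h2
    exact (x : ProjectiveSpectrum 𝒜).isPrime.mem_of_pow_mem n (hspan hn)

end Groth.Agent.S3559
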