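import Groth.Statements.S3560
import Groth.Agent.S3558
import Mathlib.RingTheory.Noetherian.Nilpotent

set_option autoImplicit false
universe u
open CategoryTheory CategoryTheory.Limits AlgebraicGeometry
open EGA2

namespace Groth.Agent.S3560

theorem graded_le_pow {R A : Type u} [CommRing R] [CommRing A] [Algebra R A]
    (𝒜 : ℕ → Submodule R A) [GradedAlgebra 𝒜] {ι : Type u} [Fintype ι]
    (h : ι → A) (deg : ι → ℕ) (D : ℕ) (hh : ∀ i, h i ∈ 𝒜 (deg i)) (hpos : ∀ i, 0 < deg i)
    (hD : ∀ i, deg i ≤ D) (hD1 : 1 ≤ D)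
    (hspan : (HomogeneousIdeal.irrelevant 𝒜).toIdeal ≤ Ideal.span (Set.range h)) :
    ∀ m k : ℕ, m * D ≤ k → ∀ x ∈ 𝒜 k, x ∈ (HomogeneousIdeal.irrelevant 𝒜).toIdeal ^ m := by
  intro m
  induction m with
  | zero => intro k _ x _; simp
  | succ m ih =>
    intro k hk x hx
    have hkpos : 0 < k := by nlinarith
    have hxS : x ∈ (HomogeneousIdeal.irrelevant 𝒜).toIdeal :=
      HomogeneousIdeal.mem_irrelevant_of_mem 𝒜 hkpos hx
    obtain ⟨c, hc⟩ := (Ideal.mem_span_range_iff_exists_fun).mp (hspan hxS)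
    have hx' : x = (DirectSum.decompose 𝒜 x k : A) := by
      rw [DirectSum.decompose_of_mem_same 𝒜 hx]
    rw [hx', ← hc, DirectSum.decompose_sum, DFinsupp.finsetSum_apply,
      AddSubmonoidClass.coe_finsetSum]
    refine Ideal.sum_mem _ (fun i _ => ?_)
    rw [DirectSum.coe_decompose_mul_of_right_mem_of_le 𝒜 (hh i) (by nlinarith [hD i])]
    rw [pow_succ]
    refine Ideal.mul_mem_mul ?_ (HomogeneousIdeal.mem_irrelevant_of_mem 𝒜 (hpos i) (hh i))
    exact ih (k - deg i) (by have h1 := hD i; have h2 : (m + 1) * D = m * D + D := Nat.succ_mul m D; omega) _ (SetLike.coe_mem _)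

/-- Let S be a graded ring whose irrelevant ideal S_+ is finitely generated. Then Proj S is empty if and
only if there is n such that S_k = 0 for all k ≥ n. -/
theorem result {R A : Type u} [CommRing R] [CommRing A] [Algebra R A] (𝒜 : ℕ → Submodule R A) [GradedAlgebra 𝒜]
    (hfg : (HomogeneousIdeal.irrelevant 𝒜).toIdeal.FG) :
    IsEmpty (Proj 𝒜) ↔ ∃ n : ℕ, ∀ k : ℕ, n ≤ k → 𝒜 k = ⊥ := by
  classical
  rw [Groth.Agent.S3558.result]
  constructor
  · intro hnil
    obtain ⟨s, hs⟩ := hfg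
    -- homogeneous generators
    let T : Finset (Σ _ : A, ℕ) := s.sigma (fun g => (DirectSum.decompose 𝒜 g).support)
    let h : T → A := fun p => (DirectSum.decompose 𝒜 p.1.1 p.1.2 : A)
    let deg : T → ℕ := fun p => p.1.2
    have hh : ∀ p, h p ∈ 𝒜 (deg p) := fun p => SetLike.coe_mem _
    have hmemT : ∀ p : T, p.1.1 ∈ s ∧ p.1.2 ∈ (DirectSum.decompose 𝒜 p.1.1).support := by
      intro p
      have := p.2
      simp only [T, Finset.mem_sigma] at this
      exact this
    have hpos : ∀ p, 0 < deg p := by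
      intro p
      obtain ⟨hs1, hs2⟩ := hmemT p
      rw [Nat.pos_iff_ne_zero]
      intro h0
      have hgS : p.1.1 ∈ (HomogeneousIdeal.irrelevant 𝒜).toIdeal := by
        rw [← hs]; exact Ideal.subset_span hs1
      rw [HomogeneousIdeal.toIdeal_irrelevant, RingHom.mem_ker,
        GradedRing.projZeroRingHom_apply] at hgS
      rw [DFinsupp.mem_support_iff] at hs2
      apply hs2
      simp only [deg] at h0
      rw [h0]
      exact Subtype.ext hgS
    let D : ℕ := T.sup (fun p => p.2) ⊔ 1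
    have hD : ∀ p, deg p ≤ D := fun p =>
      le_sup_of_le_left (Finset.le_sup (f := fun p : (Σ _ : A, ℕ) => p.2) p.2)
    have hD1 : 1 ≤ D := le_sup_right
    have hspan : (HomogeneousIdeal.irrelevant 𝒜).toIdeal ≤ Ideal.span (Set.range h) := by
      rw [← hs, Ideal.span_le]
      intro g hg
      rw [← DirectSum.sum_support_decompose 𝒜 g]
      refine Ideal.sum_mem _ (fun i hi => Ideal.subset_span ⟨⟨⟨g, i⟩, ?_⟩, rfl⟩)
      simp only [T, Finset.mem_sigma]
      exact ⟨hg, hi⟩
    have hnilI : IsNilpotent (HomogeneousIdeal.irrelevant 𝒜).toIdeal := by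
      rw [Ideal.FG.isNilpotent_iff_le_nilradical ⟨s, hs⟩]
      intro f hf
      exact hnil f hf
    obtain ⟨N, hN⟩ := hnilI
    refine ⟨N * D, fun k hk => ?_⟩
    rw [eq_bot_iff]
    intro x hx
    have := graded_le_pow 𝒜 h deg D hh hpos hD hD1 hspan N k hk x hx
    rw [hN] at this
    exact this
  · rintro ⟨n, hn⟩
    have hle : (HomogeneousIdeal.irrelevant 𝒜).toIdeal ≤ nilradical A := by
      rw [HomogeneousIdeal.toIdeal_irrelevant_le]
      intro i hi x hx
      refine ⟨n, ?_⟩
      have hxn : x ^ n ∈ 𝒜 (n • i) := SetLike.pow_mem_graded n hx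
      have hle : n ≤ n • i := by
        rw [smul_eq_mul]; exact Nat.le_mul_of_pos_right n hi
      rw [hn _ hle] at hxn
      exact (Submodule.mem_bot R).mp hxn
    intro f hf
    exact hle hf

end Groth.Agent.S3560
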