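import Groth.Statements.S3562
import Groth.Agent.S3548
import Groth.Agent.S3549
import Groth.Agent.Lib.Helper6.GrMod

set_option autoImplicit false
universe u
open CategoryTheory CategoryTheory.Limits AlgebraicGeometry
open EGA2

namespace Groth.Agent.S3562

/-- Let S be a graded ring whose irrelevant ideal S_+ is finitely generated and generated by the
degree-one elements, and M a graded S-module satisfying (TF) (some tail of M generates a finitely
generated submodule). Then M~ = 0 on Proj S if and only if M satisfies (TN): M_k = 0 for all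
sufficiently large k. (The published statement assumes only that S_+ is finitely generated; the
statement then fails when S_+ has no system of degree-one generators, e.g. S = k[t] with t of degree
2 and M = S shifted into odd degrees, whose M~ vanishes although no M_k does. Stated here with S_+
generated by degree-one elements, where the published proof applies.) -/
theorem result {R A : Type u} [CommRing R] [CommRing A] [Algebra R A] (𝒜 : ℕ → Submodule R A) [GradedAlgebra 𝒜]
    (hfg : (HomogeneousIdeal.irrelevant 𝒜).toIdeal.FG)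
    (hgen : (HomogeneousIdeal.irrelevant 𝒜).toIdeal = Ideal.span (𝒜 1 : Set A))
    {M : Type u} [AddCommGroup M] [Module R M] [Module A M] [IsScalarTower R A M] (ℳ : ℕ → Submodule R M) [DirectSum.Decomposition ℳ] [SetLike.GradedSMul 𝒜 ℳ]
    (hTF : ∃ n : ℕ, (Submodule.span A (⋃ k ∈ Set.Ici n, (ℳ k : Set M))).FG) :
    IsZero (GrTilde.tilde 𝒜 ℳ 0) ↔ ∃ n : ℕ, ∀ k : ℕ, n ≤ k → ℳ k = ⊥ := by
  classical
  constructor
  · intro h
    have stepA : ∀ z : M, ∃ K : ℕ, ∀ a ∈ (HomogeneousIdeal.irrelevant 𝒜).toIdeal ^ K, a • z = 0 := by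
      intro z
      let I : Ideal A := LinearMap.ker (LinearMap.toSpanSingleton A M z)
      have hI : ∀ a : A, a ∈ I ↔ a • z = 0 := fun a => by
        simp [I, LinearMap.toSpanSingleton_apply]
      have hle : (HomogeneousIdeal.irrelevant 𝒜).toIdeal ≤ I.radical := by
        rw [hgen, Ideal.span_le]
        intro g hg
        obtain ⟨N, hN⟩ := Groth.Agent.S3549.result 𝒜 hgen ℳ h z 1 g one_pos hg
        exact ⟨N, (hI _).mpr hN⟩
      obtain ⟨K, hK⟩ := Ideal.exists_pow_le_of_le_radical_of_fg hle hfg
      exact ⟨K, fun a ha => (hI a).mp (hK ha)⟩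
    have stepB : ∀ K : ℕ, ∀ a ∈ 𝒜 K, a ∈ (HomogeneousIdeal.irrelevant 𝒜).toIdeal ^ K := by
      intro K
      induction K with
      | zero => intro a _; simp
      | succ K ih =>
        intro a ha
        have ha' : a ∈ (HomogeneousIdeal.irrelevant 𝒜).toIdeal := HomogeneousIdeal.mem_irrelevant_of_mem 𝒜 (Nat.succ_pos K) ha
        rw [hgen] at ha'
        obtain ⟨N, c, g, hsum⟩ := Submodule.mem_span_set'.mp ha'
        have key : a = ∑ i, (DirectSum.decompose 𝒜 (c i) K : A) * (g i : A) := by
          have e1 : (DirectSum.decompose 𝒜 a (K+1) : A) = a := DirectSum.decompose_of_mem_same 𝒜 ha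
          rw [← e1, ← hsum, DirectSum.decompose_sum, DFinsupp.finsetSum_apply,
            AddSubmonoidClass.coe_finsetSum]
          refine Finset.sum_congr rfl fun i _ => ?_
          rw [smul_eq_mul, DirectSum.coe_decompose_mul_of_right_mem_of_le 𝒜 (g i).2 (by omega)]
          rfl
        rw [key]
        refine Ideal.sum_mem _ fun i _ => ?_
        rw [pow_succ]
        refine Ideal.mul_mem_mul (ih _ (SetLike.coe_mem _)) ?_
        rw [hgen]
        exact Ideal.subset_span (g i).2
    obtain ⟨n, S, hS⟩ := hTF
    let F : Finset (M × ℕ) :=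
      S.biUnion (fun s => (DirectSum.decompose ℳ s).support.image (fun i => (s, i)))
    choose Kf hKf using fun p : M × ℕ => stepA (DirectSum.decompose ℳ p.1 p.2 : M)
    let K0 := F.sup Kf
    let E := F.sup Prod.snd
    refine ⟨n + E + K0, fun k hk => ?_⟩
    rw [eq_bot_iff]
    intro x hx
    rw [Submodule.mem_bot]
    have hxN : x ∈ Submodule.span A (S : Set M) := by
      rw [hS]
      refine Submodule.subset_span ?_
      simp only [Set.mem_iUnion, Set.mem_Ici]
      exact ⟨k, by omega, hx⟩
    obtain ⟨N, c, g, hsum⟩ := Submodule.mem_span_set'.mp hxN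
    have e1 : (DirectSum.decompose ℳ x k : M) = x := DirectSum.decompose_of_mem_same ℳ hx
    rw [← e1, ← hsum, DirectSum.decompose_sum, DFinsupp.finsetSum_apply,
      AddSubmonoidClass.coe_finsetSum]
    refine Finset.sum_eq_zero fun j _ => ?_
    have hgS : (g j : M) ∈ S := (g j).2
    conv_lhs => rw [← DirectSum.sum_support_decompose ℳ (g j : M)]
    rw [Finset.smul_sum, DirectSum.decompose_sum, DFinsupp.finsetSum_apply,
      AddSubmonoidClass.coe_finsetSum]
    refine Finset.sum_eq_zero fun i hi => ?_
    have hpF : ((g j : M), i) ∈ F := by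
      simp only [F, Finset.mem_biUnion, Finset.mem_image]
      exact ⟨g j, hgS, i, hi, rfl⟩
    have hiE : i ≤ E := Finset.le_sup (f := Prod.snd) hpF
    have hK : Kf ((g j : M), i) ≤ K0 := Finset.le_sup (f := Kf) hpF
    have hki : k = (k - i) + i := by omega
    rw [hki, Groth.Agent.Lib.Helper6.GrModLib.decompose_smul_of_mem (𝒜 := 𝒜) (SetLike.coe_mem _)]
    apply hKf ((g j : M), i)
    refine Ideal.pow_le_pow_right ?_ (stepB _ _ (SetLike.coe_mem _))
    omega
  · rintro ⟨n, hn⟩
    refine Groth.Agent.S3548.result 𝒜 ℳ ?_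
    intro z d f hd hf
    refine ⟨n, ?_⟩
    have hfn : f ^ n ∈ 𝒜 (n * d) := SetLike.pow_mem_graded n hf
    rw [← DirectSum.sum_support_decompose ℳ z, Finset.smul_sum]
    refine Finset.sum_eq_zero fun i _ => ?_
    have hmem := Groth.Agent.Lib.Helper6.GrModLib.smul_mem_graded hfn
      (SetLike.coe_mem (DirectSum.decompose ℳ z i))
    rw [hn (n * d + i) (by nlinarith)] at hmem
    exact (Submodule.mem_bot _).mp hmem

end Groth.Agent.S3562
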