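import Groth.Statements.S3563
-- import your own Groth.Agent.* helpers here

set_option autoImplicit false
universe u
open CategoryTheory CategoryTheory.Limits AlgebraicGeometry
open EGA2

namespace Groth.Agent.S3563

/-- Let φ : S → S' be a surjective homomorphism of graded rings (graded algebras over a base ring R).
Then the induced morphism Proj S' → Proj S is defined everywhere and is a closed immersion. The
hypothesis that the irrelevant ideal of S' is contained in the extension of the irrelevant ideal of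
S, needed to define the morphism on all of Proj S', is carried explicitly; it follows from
surjectivity. This is the case of a surjective φ; the published statement is more general. -/
theorem result {R A : Type u} [CommRing R] [CommRing A] [Algebra R A] (𝒜 : ℕ → Submodule R A) [GradedAlgebra 𝒜]
    {B : Type u} [CommRing B] [Algebra R B] (ℬ : ℕ → Submodule R B) [GradedAlgebra ℬ]
    (φ : 𝒜 →+*ᵍ ℬ) (hsurj : Function.Surjective φ)
    (hφ : HomogeneousIdeal.irrelevant ℬ ≤ (HomogeneousIdeal.irrelevant 𝒜).map φ) :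
    IsClosedImmersion (Proj.map φ hφ) := by
  have hAway : ∀ (s : A) (d : ℕ) (hs : s ∈ 𝒜 d),
      Function.Surjective (HomogeneousLocalization.Away.map φ s) := by
    intro s d hs y
    obtain ⟨n, b, hb, rfl⟩ := HomogeneousLocalization.Away.mk_surjective ℬ (φ.map_mem hs) y
    obtain ⟨a, rfl⟩ := hsurj b
    refine ⟨HomogeneousLocalization.Away.mk 𝒜 hs n (DirectSum.decompose 𝒜 a (n • d))
      (SetLike.coe_mem _), ?_⟩
    rw [HomogeneousLocalization.Away.map_mk]
    congr 1
    rw [GradedRingHom.map_directSumDecompose, DirectSum.decompose_of_mem_same ℬ hb]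
  have hcov : ∀ x : Proj 𝒜, x ∈ Proj.basicOpen 𝒜 (((Proj.affineOpenCover 𝒜).idx x).2 : A) := by
    intro x
    have h := (Proj.affineOpenCover 𝒜).covers x
    rw [← Proj.opensRange_awayι 𝒜 _ ((Proj.affineOpenCover 𝒜).idx x).2.2
      ((Proj.affineOpenCover 𝒜).idx x).1.2]
    exact h
  have hU : ⨆ i : (Σ i : PNat, 𝒜 i), Proj.basicOpen 𝒜 (i.2 : A) = ⊤ :=
    top_le_iff.mp (fun x _ => TopologicalSpace.Opens.mem_iSup.mpr
      ⟨(Proj.affineOpenCover 𝒜).idx x, hcov x⟩)
  rw [IsZariskiLocalAtTarget.iff_of_iSup_eq_top (P := @IsClosedImmersion) _ hU]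
  rintro ⟨⟨d, hd⟩, ⟨s, hs⟩⟩
  dsimp only
  have h1 : IsAffine (Proj.basicOpen 𝒜 s).toScheme :=
    Proj.isAffineOpen_basicOpen 𝒜 _ hs hd
  have h2 : IsAffine ((Proj.map φ hφ) ⁻¹ᵁ (Proj.basicOpen 𝒜 s)).toScheme := by
    rw [Proj.map_preimage_basicOpen]
    exact Proj.isAffineOpen_basicOpen ℬ _ (φ.map_mem hs) hd
  apply IsClosedImmersion.of_surjective_of_isAffine
  rw [Scheme.Hom.appTop, morphismRestrict_app']
  refine (Scheme.Hom.appLE_congr _ _ (Scheme.Opens.ι_image_top _)
    (by rw [Scheme.Hom.preimage_top, Scheme.Opens.ι_image_top])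
    (fun g => Function.Surjective g)).mpr ?_
  have key := Proj.awayToSection_comp_appLE φ hφ hs
  have hiso1 : IsIso (Proj.awayToSection 𝒜 s) :=
    (Proj.basicOpenIsoAway 𝒜 s hs hd).isIso_hom
  have hiso2 : IsIso (Proj.awayToSection ℬ (φ s)) :=
    (Proj.basicOpenIsoAway ℬ (φ s) (φ.map_mem hs) hd).isIso_hom
  have hsur : Function.Surjective (Proj.awayToSection 𝒜 s ≫
      Scheme.Hom.appLE (Proj.map φ hφ) (Proj.basicOpen 𝒜 s)
        (Proj.basicOpen ℬ (φ s)) le_rfl) := by
    rw [key]
    exact ((ConcreteCategory.bijective_of_isIso (Proj.awayToSection ℬ (φ s))).2).comp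
      (hAway _ _ hs)
  exact Function.Surjective.of_comp hsur

end Groth.Agent.S3563
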