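import Groth.Statements.S3570
import Mathlib.AlgebraicGeometry.Morphisms.IsIso

set_option autoImplicit false
universe u
open CategoryTheory CategoryTheory.Limits AlgebraicGeometry
open EGA2

namespace Groth.Agent.S3570

/-- Let f : X → S and g : Y → S be affine morphisms and h : Y → X an S-morphism. Then h is an
isomorphism if and only if A(h) : f_*O_X → g_*O_Y is an isomorphism (of presheaves of rings on S). -/
theorem result {X Y S : Scheme.{u}} (f : X ⟶ S) [IsAffineHom f] (g : Y ⟶ S)
    [IsAffineHom g] (h : Y ⟶ X) (w : h ≫ f = g) :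
    IsIso h ↔ IsIso (AffAlg.algHom f g h w) := by
  subst w
  have happ : ∀ U : S.Opens, (AffAlg.algHom f (h ≫ f) h rfl).app (Opposite.op U) =
      h.app (f ⁻¹ᵁ U) := fun U => rfl
  constructor
  · intro hh
    have : ∀ U, IsIso ((AffAlg.algHom f (h ≫ f) h rfl).app U) := by
      intro U
      obtain ⟨U⟩ := U
      rw [happ]
      exact Scheme.Hom.instIsIsoCommRingCatApp h _
    apply NatIso.isIso_of_isIso_app
  · intro hiso
    have hs : ∀ U : S.affineOpens, IsIso (h.app (f ⁻¹ᵁ U.1)) := by
      intro U
      rw [← happ]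
      have := hiso
      exact NatIso.isIso_app_of_isIso _ _
    have hV : ⨆ U : S.affineOpens, f ⁻¹ᵁ (U : S.Opens) = ⊤ := by
      rw [← Scheme.Hom.preimage_iSup, AlgebraicGeometry.iSup_affineOpens_eq_top,
        Scheme.Hom.preimage_top]
    rw [← MorphismProperty.isomorphisms.iff,
      IsZariskiLocalAtTarget.iff_of_iSup_eq_top (P := MorphismProperty.isomorphisms Scheme.{u}) _ hV]
    intro U
    have h1 : IsAffine (f ⁻¹ᵁ (U : S.Opens)).toScheme := U.2.preimage f
    have h2 : IsAffine (h ⁻¹ᵁ f ⁻¹ᵁ (U : S.Opens)).toScheme := U.2.preimage (h ≫ f)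
    set_option backward.isDefEq.respectTransparency false in
    rw [HasAffineProperty.iff_of_isAffine (P := MorphismProperty.isomorphisms Scheme.{u})]
    refine ⟨h2, ?_⟩
    rw [Scheme.Hom.appTop, morphismRestrict_app']
    refine (Scheme.Hom.appLE_congr _ _ (Scheme.Opens.ι_image_top _)
      (by rw [Scheme.Hom.preimage_top, Scheme.Opens.ι_image_top])
      (fun g => IsIso g)).mpr ?_
    rw [← Scheme.Hom.app_eq_appLE]
    exact hs U

end Groth.Agent.S3570
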