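import Groth.Statements.S3574
import Groth.Agent.Lib.Helper6.Cone

set_option autoImplicit false
universe u
open CategoryTheory CategoryTheory.Limits AlgebraicGeometry
open EGA2

namespace Groth.Agent.S3574

open Groth.Agent.Lib.Helper6.ConeLib

/-- The localization map `A_f → A_{fg}`. -/
noncomputable abbrev locMap {A : Type u} [CommRing A] (f g : A) :
    Localization.Away f →+* Localization.Away (f * g) :=
  Localization.awayLift (algebraMap A (Localization.Away (f * g))) f
    (isUnit_of_dvd_unit (map_dvd _ ⟨g, rfl⟩) (IsLocalization.Away.algebraMap_isUnit (f * g)))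

/-- The localization map `A_g → A_{fg}`. -/
noncomputable abbrev locMap' {A : Type u} [CommRing A] (f g : A) :
    Localization.Away g →+* Localization.Away (f * g) :=
  Localization.awayLift (algebraMap A (Localization.Away (f * g))) g
    (isUnit_of_dvd_unit (map_dvd _ ⟨f, mul_comm f g⟩) (IsLocalization.Away.algebraMap_isUnit (f * g)))

theorem locMap_comp {A : Type u} [CommRing A] (f g : A) :
    (locMap f g).comp (algebraMap A (Localization.Away f)) = algebraMap A (Localization.Away (f * g)) := by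
  ext a
  simp [locMap, Localization.awayLift, IsLocalization.Away.lift, IsLocalization.lift_eq]

theorem locMap'_comp {A : Type u} [CommRing A] (f g : A) :
    (locMap' f g).comp (algebraMap A (Localization.Away g)) = algebraMap A (Localization.Away (f * g)) := by
  ext a
  simp [locMap', Localization.awayLift, IsLocalization.Away.lift, IsLocalization.lift_eq]

section
variable {R A : Type u} [CommRing R] [CommRing A] [Algebra R A] {𝒜 : ℕ → Submodule R A}
  [GradedAlgebra 𝒜]

theorem val_compat {d e : ℕ} {f g : A} (hf : f ∈ 𝒜 d) (hg : g ∈ 𝒜 e) :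
    (locMap f g).comp (algebraMap (HomogeneousLocalization.Away 𝒜 f) (Localization.Away f)) =
      (algebraMap (HomogeneousLocalization.Away 𝒜 (f * g)) (Localization.Away (f * g))).comp
        (HomogeneousLocalization.awayMap 𝒜 hg rfl) := by
  ext a
  simp only [RingHom.comp_apply, HomogeneousLocalization.algebraMap_apply,
    HomogeneousLocalization.val_awayMap]

theorem val_compat' {d e : ℕ} {f g : A} (hf : f ∈ 𝒜 d) (hg : g ∈ 𝒜 e) :
    (locMap' f g).comp (algebraMap (HomogeneousLocalization.Away 𝒜 g) (Localization.Away g)) =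
      (algebraMap (HomogeneousLocalization.Away 𝒜 (f * g)) (Localization.Away (f * g))).comp
        (HomogeneousLocalization.awayMap 𝒜 hf (mul_comm f g)) := by
  ext a
  simp only [RingHom.comp_apply, HomogeneousLocalization.algebraMap_apply,
    HomogeneousLocalization.val_awayMap]

/-- The chart map `Spec A_f → Proj`. -/
noncomputable abbrev F {d : ℕ} {f : A} (hf : f ∈ 𝒜 d) (hd : 0 < d) :
    Spec (CommRingCat.of (Localization.Away f)) ⟶ Proj 𝒜 :=
  Spec.map (CommRingCat.ofHom (algebraMap (HomogeneousLocalization.Away 𝒜 f) (Localization.Away f))) ≫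
    Proj.awayι 𝒜 f hf hd

theorem F_compat {d e : ℕ} {f g : A} (hf : f ∈ 𝒜 d) (hd : 0 < d) (hg : g ∈ 𝒜 e) (he : 0 < e) :
    Spec.map (CommRingCat.ofHom (locMap f g)) ≫ F hf hd =
      F (SetLike.mul_mem_graded hf hg) (hd.trans_le (Nat.le_add_right d e)) := by
  rw [F, F, ← Spec.map_comp_assoc, ← CommRingCat.ofHom_comp, val_compat hf hg,
    CommRingCat.ofHom_comp, Spec.map_comp_assoc, Proj.SpecMap_awayMap_awayι]

theorem F_compat' {d e : ℕ} {f g : A} (hf : f ∈ 𝒜 d) (hd : 0 < d) (hg : g ∈ 𝒜 e) (he : 0 < e) :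
    Spec.map (CommRingCat.ofHom (locMap' f g)) ≫ F hg he =
      F (SetLike.mul_mem_graded hf hg) (hd.trans_le (Nat.le_add_right d e)) := by
  rw [F, F, ← Spec.map_comp_assoc, ← CommRingCat.ofHom_comp, val_compat' hf hg,
    CommRingCat.ofHom_comp, Spec.map_comp_assoc, Proj.SpecMap_awayMap_awayι]
  have key : ∀ {m m' : ℕ} (_ : m = m') (h1 : f * g ∈ 𝒜 m) (h2 : 0 < m) (h3 : f * g ∈ 𝒜 m')
      (h4 : 0 < m'), Proj.awayι 𝒜 (f * g) h1 h2 = Proj.awayι 𝒜 (f * g) h3 h4 := by
    intro m m' h _ _ _ _; subst h; rfl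
  rw [key (add_comm e d)]

theorem chart_compat {d e : ℕ} {f g : A} (hf : f ∈ 𝒜 d) (hd : 0 < d) (hg : g ∈ 𝒜 e) :
    Spec.map (CommRingCat.ofHom (locMap f g)) ≫ Cone.chart hf hd =
      Cone.chart (SetLike.mul_mem_graded hf hg) (hd.trans_le (Nat.le_add_right d e)) := by
  rw [← cancel_mono (Cone.pointed 𝒜).ι, Category.assoc, chart_ι, chart_ι, ← Spec.map_comp,
    ← CommRingCat.ofHom_comp, locMap_comp]

theorem chart_compat' {d e : ℕ} {f g : A} (hf : f ∈ 𝒜 d) (hd : 0 < d) (hg : g ∈ 𝒜 e)
    (he : 0 < e) :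
    Spec.map (CommRingCat.ofHom (locMap' f g)) ≫ Cone.chart hg he =
      Cone.chart (SetLike.mul_mem_graded hf hg) (hd.trans_le (Nat.le_add_right d e)) := by
  rw [← cancel_mono (Cone.pointed 𝒜).ι, Category.assoc, chart_ι, chart_ι, ← Spec.map_comp,
    ← CommRingCat.ofHom_comp, locMap'_comp]

theorem compat {d e : ℕ} {f g : A} (hf : f ∈ 𝒜 d) (hd : 0 < d) (hg : g ∈ 𝒜 e) (he : 0 < e) :
    pullback.fst (Cone.chart hf hd) (Cone.chart hg he) ≫ F hf hd =
      pullback.snd (Cone.chart hf hd) (Cone.chart hg he) ≫ F hg he := by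
  have hfg := SetLike.mul_mem_graded hf hg
  have hdd : 0 < d + e := hd.trans_le (Nat.le_add_right d e)
  have hrange : Set.range (pullback.fst (Cone.chart hf hd) (Cone.chart hg he) ≫ Cone.chart hf hd).base =
      Set.range (Cone.chart hfg hdd).base := by
    rw [IsOpenImmersion.range_pullback_to_base_of_left, range_chart, range_chart, range_chart,
      PrimeSpectrum.basicOpen_mul]
    rfl
  let iso := IsOpenImmersion.isoOfRangeEq _ _ hrange
  have hiso : iso.hom ≫ Cone.chart hfg hdd =
      pullback.fst (Cone.chart hf hd) (Cone.chart hg he) ≫ Cone.chart hf hd :=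
    IsOpenImmersion.isoOfRangeEq_hom_fac _ _ _
  have h1 : pullback.fst (Cone.chart hf hd) (Cone.chart hg he) =
      iso.hom ≫ Spec.map (CommRingCat.ofHom (locMap f g)) := by
    rw [← cancel_mono (Cone.chart hf hd), Category.assoc, chart_compat hf hd hg, hiso]
  have h2 : pullback.snd (Cone.chart hf hd) (Cone.chart hg he) =
      iso.hom ≫ Spec.map (CommRingCat.ofHom (locMap' f g)) := by
    rw [← cancel_mono (Cone.chart hg he), Category.assoc, chart_compat' hf hd hg he, hiso,
      pullback.condition]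
  rw [h1, h2, Category.assoc, Category.assoc, F_compat hf hd hg he, F_compat' hf hd hg he]

end


/-- Let S be an ℕ-graded algebra over a ring, C = Spec S its affine cone, E = C − V(S_+) the pointed
affine cone and X = Proj S. Then there is exactly one morphism π : E → X (the canonical retraction)
whose restriction to each chart Spec S_f of E, for f homogeneous of positive degree, is the
composite Spec S_f → Spec S_(f) ≅ D_+(f) ⊆ X induced by the inclusion S_(f) → S_f. The published
statement is not limited to an affine base. -/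
theorem result {R A : Type u} [CommRing R] [CommRing A] [Algebra R A] (𝒜 : ℕ → Submodule R A) [GradedAlgebra 𝒜] :
    ∃! π : (Cone.pointed 𝒜 : Scheme.{u}) ⟶ Proj 𝒜,
      ∀ (d : ℕ) (f : A) (hd : 0 < d) (hf : f ∈ 𝒜 d),
        Cone.chart hf hd ≫ π =
          Spec.map (CommRingCat.ofHom (algebraMap (HomogeneousLocalization.Away 𝒜 f) (Localization.Away f))) ≫
            Proj.awayι 𝒜 f hf hd := by
  classical
  let 𝒰 := chartCover 𝒜
  let G : ∀ i : 𝒰.I₀, 𝒰.X i ⟶ Proj 𝒜 := fun i => F i.2.2.2 i.2.2.1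
  have hG : ∀ i j, pullback.fst (𝒰.f i) (𝒰.f j) ≫ G i = pullback.snd (𝒰.f i) (𝒰.f j) ≫ G j :=
    fun i j => compat i.2.2.2 i.2.2.1 j.2.2.2 j.2.2.1
  refine ⟨𝒰.glueMorphisms G hG, ?_, ?_⟩
  · intro d f hd hf
    exact 𝒰.ι_glueMorphisms G hG ⟨d, f, hd, hf⟩
  · intro p' hp'
    refine 𝒰.hom_ext _ _ (fun i => ?_)
    exact (hp' i.1 i.2.1 i.2.2.1 i.2.2.2).trans (𝒰.ι_glueMorphisms G hG i).symm

end Groth.Agent.S3574
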