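import Groth.Statements.S3575
import Groth.Agent.Lib.Helper6.Cone

set_option autoImplicit false
universe u
open CategoryTheory CategoryTheory.Limits AlgebraicGeometry
open EGA2

namespace Groth.Agent.S3575

open Groth.Agent.Lib.Helper6.ConeLib

theorem homogeneousIdeal_eq_of_homogeneous {R A : Type u} [CommRing R] [CommRing A] [Algebra R A]
    {𝒜 : ℕ → Submodule R A} [GradedAlgebra 𝒜] (I J : HomogeneousIdeal 𝒜)
    (h : ∀ (n : ℕ) (a : A), a ∈ 𝒜 n → (a ∈ I ↔ a ∈ J)) : I = J := by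
  classical
  have key : ∀ (I J : HomogeneousIdeal 𝒜), (∀ (n : ℕ) (a : A), a ∈ 𝒜 n → (a ∈ I ↔ a ∈ J)) →
      I ≤ J := by
    intro I J h x hx
    rw [← DirectSum.sum_support_decompose 𝒜 x]
    refine Ideal.sum_mem _ fun i _ => ?_
    exact (h i _ (SetLike.coe_mem _)).mp (I.isHomogeneous i hx)
  exact le_antisymm (key I J h) (key J I fun n a ha => (h n a ha).symm)

theorem opensRange_chart {R A : Type u} [CommRing R] [CommRing A] [Algebra R A]
    {𝒜 : ℕ → Submodule R A} [GradedAlgebra 𝒜] {d : ℕ} {f : A} (hf : f ∈ 𝒜 d) (hd : 0 < d) :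
    (Cone.chart hf hd).opensRange = (Cone.pointed 𝒜).ι ⁻¹ᵁ Cone.coneOpen f := by
  ext x
  exact Set.ext_iff.mp (range_chart hf hd) x


/-- Let S be a commutative ℕ-graded R-algebra, E the pointed affine cone (the open complement of the
vertex V(S_+) in Spec S) and X = Proj S, and let π : E → X be the canonical retraction,
characterised (hypothesis hπ) by its agreement on each chart Spec S_f → E, f homogeneous of positive
degree, with Spec of S_(f) → S_f followed by the standard open immersion Spec S_(f) → X. Then π is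
an affine and surjective morphism; the inverse image under π of D_+(f) is the open D(f) ∩ E = D(f)
of E for every homogeneous f of positive degree; and π sends a point of E, a prime p of S not
containing S_+, to the homogeneous prime whose homogeneous elements are those of p. -/
theorem result {R A : Type u} [CommRing R] [CommRing A] [Algebra R A] (𝒜 : ℕ → Submodule R A) [GradedAlgebra 𝒜]
    (π : (Cone.pointed 𝒜 : Scheme.{u}) ⟶ Proj 𝒜)
    (hπ : ∀ (d : ℕ) (f : A) (hd : 0 < d) (hf : f ∈ 𝒜 d),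
        Cone.chart hf hd ≫ π =
          Spec.map (CommRingCat.ofHom (algebraMap (HomogeneousLocalization.Away 𝒜 f) (Localization.Away f))) ≫
            Proj.awayι 𝒜 f hf hd) :
    IsAffineHom π ∧ Surjective π ∧
      (∀ (d : ℕ) (f : A), 0 < d → f ∈ 𝒜 d →
        π ⁻¹ᵁ Proj.basicOpen 𝒜 f = (Cone.pointed 𝒜).ι ⁻¹ᵁ Cone.coneOpen f) ∧
      ∀ p : (Cone.pointed 𝒜 : Scheme.{u}),
        (π.base p).asHomogeneousIdeal = (((Cone.pointed 𝒜).ι.base p).asIdeal).homogeneousCore 𝒜 := by
  classical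
  have key : ∀ (d : ℕ) (f : A) (hd : 0 < d) (hf : f ∈ 𝒜 d),
      π ⁻¹ᵁ Proj.basicOpen 𝒜 f = (Cone.pointed 𝒜).ι ⁻¹ᵁ Cone.coneOpen f := by
    intro d f hd hf
    ext x
    obtain ⟨e, g, he, hg, ⟨y, rfl⟩⟩ := exists_chart x
    show π.base ((Cone.chart hg he).base y) ∈ Proj.basicOpen 𝒜 f ↔
      (Cone.pointed 𝒜).ι.base ((Cone.chart hg he).base y) ∈ Cone.coneOpen f
    rw [← Scheme.Hom.comp_apply, hπ e g he hg, ← Scheme.Hom.comp_apply, chart_ι,
      Scheme.Hom.comp_apply]
    have h1 : (Proj.awayι 𝒜 g hg he).base ((Spec.map (CommRingCat.ofHom (algebraMap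
        (HomogeneousLocalization.Away 𝒜 g) (Localization.Away g)))).base y) ∈
          Proj.basicOpen 𝒜 f ↔ (Spec.map (CommRingCat.ofHom (algebraMap
        (HomogeneousLocalization.Away 𝒜 g) (Localization.Away g)))).base y ∈
          Proj.awayι 𝒜 g hg he ⁻¹ᵁ Proj.basicOpen 𝒜 f := Iff.rfl
    rw [h1, Proj.awayι_preimage_basicOpen 𝒜 hg he hf hd]
    change HomogeneousLocalization.Away.isLocalizationElem hg hf ∉
        Ideal.comap (algebraMap (HomogeneousLocalization.Away 𝒜 g) (Localization.Away g))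
          y.asIdeal ↔ f ∉ Ideal.comap (algebraMap A (Localization.Away g)) y.asIdeal
    rw [Ideal.mem_comap, Ideal.mem_comap, HomogeneousLocalization.algebraMap_apply,
      HomogeneousLocalization.Away.val_mk, Localization.mk_eq_mk', IsLocalization.mk'_mem_iff,
      map_pow, y.isPrime.pow_mem_iff_mem e he]
  have hpt : ∀ p : (Cone.pointed 𝒜 : Scheme.{u}),
      (π.base p).asHomogeneousIdeal =
        (((Cone.pointed 𝒜).ι.base p).asIdeal).homogeneousCore 𝒜 := by
    intro p
    obtain ⟨e, g, he, hg, hgp⟩ : ∃ (e : ℕ) (g : A) (he : 0 < e) (hg : g ∈ 𝒜 e),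
        g ∉ ((Cone.pointed 𝒜).ι.base p).asIdeal := by
      obtain ⟨e, g, he, hg, hp⟩ := exists_chart p
      rw [range_chart] at hp
      exact ⟨e, g, he, hg, hp⟩
    have hgπ : g ∉ (π.base p).asHomogeneousIdeal := by
      have : p ∈ π ⁻¹ᵁ Proj.basicOpen 𝒜 g := by rw [key e g he hg]; exact hgp
      exact this
    apply homogeneousIdeal_eq_of_homogeneous
    intro n a ha
    have hag : a * g ∈ 𝒜 (n + e) := SetLike.mul_mem_graded ha hg
    have h1 : a ∈ (π.base p).asHomogeneousIdeal ↔ a * g ∈ (π.base p).asHomogeneousIdeal :=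
      ⟨fun h => Ideal.mul_mem_right _ _ h,
        fun h => ((π.base p).isPrime.mem_or_mem h).resolve_right hgπ⟩
    have h2 : a * g ∈ (π.base p).asHomogeneousIdeal ↔
        a * g ∈ ((Cone.pointed 𝒜).ι.base p).asIdeal := by
      have := congrArg (p ∈ ·) (key (n + e) (a * g) (by omega) hag)
      simp only [eq_iff_iff] at this
      exact not_iff_not.mp this
    have h3 : a * g ∈ ((Cone.pointed 𝒜).ι.base p).asIdeal ↔
        a ∈ ((Cone.pointed 𝒜).ι.base p).asIdeal :=
      ⟨fun h => (((Cone.pointed 𝒜).ι.base p).isPrime.mem_or_mem h).resolve_right hgp,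
        fun h => Ideal.mul_mem_right _ _ h⟩
    have h4 : a ∈ ((Cone.pointed 𝒜).ι.base p).asIdeal ↔
        a ∈ (((Cone.pointed 𝒜).ι.base p).asIdeal).homogeneousCore 𝒜 :=
      ⟨fun h => Ideal.mem_homogeneousCore_of_homogeneous_of_mem ⟨n, ha⟩ h,
        fun h => Ideal.toIdeal_homogeneousCore_le _ _ h⟩
    exact h1.trans (h2.trans (h3.trans h4))
  refine ⟨?_, ?_, key, hpt⟩
  · apply isAffineHom_of_forall_exists_isAffineOpen
    intro x
    obtain ⟨⟨⟨d, hd⟩, ⟨f, hf⟩⟩, hx⟩ : ∃ i : Σ i : PNat, 𝒜 i, x ∈ Proj.basicOpen 𝒜 i.2.1 := by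
      refine ⟨(Proj.affineOpenCover 𝒜).idx x, ?_⟩
      have := (Proj.affineOpenCover 𝒜).covers x
      rw [← Proj.opensRange_awayι 𝒜 _ ((Proj.affineOpenCover 𝒜).idx x).2.2
        ((Proj.affineOpenCover 𝒜).idx x).1.2]
      exact this
    replace hf : f ∈ 𝒜 d := hf
    refine ⟨Proj.basicOpen 𝒜 f, hx, Proj.isAffineOpen_basicOpen 𝒜 f hf hd, ?_⟩
    rw [key d f hd hf, ← opensRange_chart hf hd]
    exact isAffineOpen_opensRange _
  · constructor
    intro x
    let q : ↥(Spec (CommRingCat.of A)) :=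
      (⟨x.asHomogeneousIdeal.toIdeal, x.isPrime⟩ : PrimeSpectrum A)
    have hq : q ∈ Cone.pointed 𝒜 := fun h =>
      x.not_irrelevant_le ((PrimeSpectrum.mem_zeroLocus _ _).mp h)
    let p : (Cone.pointed 𝒜 : Scheme.{u}) := ⟨q, hq⟩
    refine ⟨p, ?_⟩
    apply ProjectiveSpectrum.ext
    refine (hpt p).trans ?_
    apply HomogeneousIdeal.toIdeal_injective
    exact Ideal.IsHomogeneous.toIdeal_homogeneousCore_eq_self x.asHomogeneousIdeal.isHomogeneous

end Groth.Agent.S3575
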