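import Groth.Statements.S3581
import Groth.Agent.Lib.Helper6.ProjSpace

set_option autoImplicit false
universe u
open CategoryTheory CategoryTheory.Limits AlgebraicGeometry
open EGA2

namespace Groth.Agent.S3581

/-- Over an affine base Spec A, Proj of the graded polynomial algebra A[T] (T of degree one) is
identified with Spec A by its structure morphism: the structure morphism from projective 0-space
over A to Spec A is an isomorphism. -/
theorem result (A : Type u) [CommRing A] :
    IsIso (CohB1.ProjSpace.toSpec 0 A) := by
  exact Groth.Agent.Lib.Helper6.toSpec_zero_isIso A

end Groth.Agent.S3581
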