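import Groth.Statements.S3582
import Groth.Agent.Lib.Helper6.ProjSpace

set_option autoImplicit false
universe u
open CategoryTheory CategoryTheory.Limits AlgebraicGeometry
open EGA2

namespace Groth.Agent.S3582

/-- For every scheme Y and every r ≥ 0 the structure morphism from projective r-space over Y to Y is
surjective. -/
theorem result (r : ℕ) (Y : Scheme.{u}) :
    Surjective (CohB1.ProjSpaceOver.toBase r Y) := by
  have h := Groth.Agent.Lib.Helper6.toSpec_surjective r (ULift.{u} ℤ)
  exact MorphismProperty.of_isPullback (P := @Surjective) (IsPullback.of_hasPullback _ _) h

end Groth.Agent.S3582
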