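import Groth.Statements.S3583
-- import your own Groth.Agent.* helpers here

set_option autoImplicit false
universe u
open CategoryTheory AlgebraicGeometry Opposite
open EGA2

namespace Groth.Agent.S3583

/-- In the form stated after its proof: let f : X → S and f' : X' → S be affine morphisms and h : X' → X
an S-morphism such that the O_S-algebra homomorphism A(h) : f_*O_X → f'_*O_{X'} is surjective (as a
map of quasi-coherent O_S-modules, i.e. on sections over every affine open of S). Then h is a closed
immersion. -/
theorem result {X X' S : Scheme.{u}} (f : X ⟶ S) [IsAffineHom f]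
    (f' : X' ⟶ S) [IsAffineHom f'] (h : X' ⟶ X) (w : h ≫ f = f')
    (hsurj : ∀ U : S.affineOpens, Function.Surjective ((AffAlg.algHom f f' h w).app (op U.1)).hom) :
    IsClosedImmersion h := by
  subst w
  have hs : ∀ U : S.affineOpens, Function.Surjective (h.app (f ⁻¹ᵁ U.1)) := by
    intro U
    have := hsurj U
    unfold AffAlg.algHom at this
    erw [NatTrans.comp_app, CommRingCat.hom_comp, RingHom.coe_comp] at this
    exact (Function.Surjective.of_comp_iff'
      (ConcreteCategory.bijective_of_isIso _) _).mp this
  have hV : ⨆ U : S.affineOpens, f ⁻¹ᵁ (U : S.Opens) = ⊤ := by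
    rw [← Scheme.Hom.preimage_iSup, AlgebraicGeometry.iSup_affineOpens_eq_top,
      Scheme.Hom.preimage_top]
  rw [IsZariskiLocalAtTarget.iff_of_iSup_eq_top (P := @IsClosedImmersion) _ hV]
  intro U
  have h1 : IsAffine (f ⁻¹ᵁ (U : S.Opens)).toScheme := U.2.preimage f
  have h2 : IsAffine (h ⁻¹ᵁ f ⁻¹ᵁ (U : S.Opens)).toScheme := U.2.preimage (h ≫ f)
  apply IsClosedImmersion.of_surjective_of_isAffine
  rw [Scheme.Hom.appTop, morphismRestrict_app']
  refine (Scheme.Hom.appLE_congr _ _ (Scheme.Opens.ι_image_top _)
    (by rw [Scheme.Hom.preimage_top, Scheme.Opens.ι_image_top])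
    (fun g => Function.Surjective g)).mpr ?_
  rw [← Scheme.Hom.app_eq_appLE]
  exact hs U

end Groth.Agent.S3583
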