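import Groth.Statements.S3586
import Groth.Agent.S3587
import Groth.Agent.Lib.Helper6.GrMod
import Groth.Agent.Lib.Helper6.GrTilde

set_option autoImplicit false
universe u
open CategoryTheory AlgebraicGeometry Opposite TopologicalSpace
open EGA2

namespace Groth.Agent.S3586

open Groth.Agent.Lib.Helper6.GrModLib Groth.Agent.Lib.Helper6.GrTildeLib

section helpers

variable {R A : Type u} [CommRing R] [CommRing A] [Algebra R A] {𝒜 : ℕ → Submodule R A}
  [GradedAlgebra 𝒜]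

theorem exists_basic_nbhd (V : Opens (ProjectiveSpectrum.top 𝒜)) (x : ProjectiveSpectrum 𝒜)
    (hx : x ∈ V) :
    ∃ (e : ℕ) (h : A), 0 < e ∧ h ∈ 𝒜 e ∧ h ∉ x.asHomogeneousIdeal ∧
      ∀ y : ProjectiveSpectrum 𝒜, h ∉ y.asHomogeneousIdeal → y ∈ V := by
  classical
  obtain ⟨_, ⟨r, rfl⟩, hxr, hsub⟩ :=
    (ProjectiveSpectrum.isTopologicalBasis_basic_opens 𝒜).exists_subset_of_mem_open hx V.isOpen
  have hrx : r ∉ x.asHomogeneousIdeal := hxr
  obtain ⟨i, hi⟩ : ∃ i, (DirectSum.decompose 𝒜 r i : A) ∉ x.asHomogeneousIdeal := by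
    by_contra hcon
    push Not at hcon
    apply hrx
    rw [← DirectSum.sum_support_decompose 𝒜 r]
    exact Ideal.sum_mem _ fun i _ => hcon i
  obtain ⟨⟨⟨k, hk⟩, ⟨c, hc⟩⟩, hcx⟩ : ∃ i : Σ i : PNat, 𝒜 i,
      (x : Proj 𝒜) ∈ Proj.basicOpen 𝒜 i.2.1 := by
    refine ⟨(Proj.affineOpenCover 𝒜).idx x, ?_⟩
    have := (Proj.affineOpenCover 𝒜).covers x
    rw [← Proj.opensRange_awayι 𝒜 _ ((Proj.affineOpenCover 𝒜).idx x).2.2
      ((Proj.affineOpenCover 𝒜).idx x).1.2]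
    exact this
  have hcx' : c ∉ x.asHomogeneousIdeal := hcx
  refine ⟨i + k, (DirectSum.decompose 𝒜 r i : A) * c, by omega,
    SetLike.mul_mem_graded (SetLike.coe_mem _) hc, ?_, ?_⟩
  · intro hmem
    rcases x.isPrime.mem_or_mem hmem with h | h
    · exact hi h
    · exact hcx' h
  · intro y hy
    apply hsub
    show r ∉ y.asHomogeneousIdeal
    intro hry
    apply hy
    exact Ideal.mul_mem_right _ _ (y.asHomogeneousIdeal.isHomogeneous i hry)

theorem mem_radical_of_cover {d : ℕ} (hd : 0 < d) {f : A} (hf : f ∈ 𝒜 d) (T : Set A)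
    (hT : ∀ t ∈ T, SetLike.IsHomogeneousElem 𝒜 t)
    (hcov : ∀ y : ProjectiveSpectrum 𝒜, f ∉ y.asHomogeneousIdeal →
      ∃ t ∈ T, t ∉ y.asHomogeneousIdeal) :
    f ∈ (Ideal.span T).radical := by
  have hJ : (Ideal.span T).IsHomogeneous 𝒜 := Ideal.homogeneous_span 𝒜 T hT
  rw [hJ.radical_eq]
  by_contra hcon
  rw [Submodule.mem_sInf] at hcon
  push Not at hcon
  obtain ⟨P, ⟨hPh, hJP, hPp⟩, hfP⟩ := hcon
  let x : ProjectiveSpectrum 𝒜 :=
    { asHomogeneousIdeal := ⟨P, hPh⟩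
      isPrime := hPp
      not_irrelevant_le := fun hle =>
        hfP (hle (HomogeneousIdeal.mem_irrelevant_of_mem 𝒜 hd hf)) }
  obtain ⟨t, ht, htx⟩ := hcov x hfP
  exact htx (hJP (Ideal.subset_span ht))

variable {M : Type u} [AddCommGroup M] [Module R M] [Module A M] (ℳ : ℕ → Submodule R M)
  [DirectSum.Decomposition ℳ] [SetLike.GradedSMul 𝒜 ℳ]

omit [Module R M] [DirectSum.Decomposition ℳ] [SetLike.GradedSMul 𝒜 ℳ] in
theorem mk_eq_of_cross (x : ProjectiveSpectrum 𝒜) {a b : M} {g g' : A}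
    (hg : g ∉ x.asHomogeneousIdeal) (hg' : g' ∉ x.asHomogeneousIdeal) (h : g' • a = g • b) :
    (LocalizedModule.mk a ⟨g, hg⟩ : GrTilde.LocMod 𝒜 (M := M) x) = LocalizedModule.mk b ⟨g', hg'⟩ := by
  rw [LocalizedModule.mk_eq]
  exact ⟨1, by simp only [one_smul, Submonoid.smul_def]; exact h⟩

theorem local_rep (n : ℤ) {f : A}
    (s : GrTilde.sect 𝒜 ℳ n (op (ProjectiveSpectrum.basicOpen 𝒜 f)))
    (x : ProjectiveSpectrum.basicOpen 𝒜 f) :
    ∃ (e j : ℕ) (h : A) (a : M), 0 < e ∧ h ∈ 𝒜 e ∧ a ∈ ℳ j ∧ (j : ℤ) = e + n ∧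
      h ∉ x.1.asHomogeneousIdeal ∧
      (∀ y : ProjectiveSpectrum 𝒜, h ∉ y.asHomogeneousIdeal → f ∉ y.asHomogeneousIdeal) ∧
      ∀ (y : ProjectiveSpectrum.basicOpen 𝒜 f) (hy : h ∉ y.1.asHomogeneousIdeal),
        ((s.1 y : GrTilde.tildeAt 𝒜 ℳ n y.1) : GrTilde.LocMod 𝒜 (M := M) y.1) =
          LocalizedModule.mk a ⟨h, hy⟩ := by
  classical
  obtain ⟨V, hxV, iVU, hfrac⟩ := s.2 x
  obtain ⟨i0, j0, m0, g0, g0_nin, hdeg, hval⟩ := hfrac
  obtain ⟨e0, h0, he0, hh0, hh0x, hh0V⟩ := exists_basic_nbhd V x.1 hxV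
  set K := n.natAbs + 1 with hK
  have hKpos : 0 < K := Nat.succ_pos _
  have hKe : 0 < K * e0 := Nat.mul_pos hKpos he0
  have hnn : (0 : ℤ) ≤ ((K * e0 + j0 : ℕ) : ℤ) + n := by
    have : (n.natAbs : ℤ) + 1 ≤ ((K * e0 : ℕ) : ℤ) := by
      have : K ≤ K * e0 := Nat.le_mul_of_pos_right K he0
      omega
    omega
  have hpow : h0 ^ K ∈ 𝒜 (K * e0) := by
    have := SetLike.pow_mem_graded K hh0
    simpa [smul_eq_mul] using this
  have hhx : h0 ^ K * g0.1 ∉ x.1.asHomogeneousIdeal := by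
    intro hmem
    rcases x.1.isPrime.mem_or_mem hmem with h | h
    · exact hh0x (x.1.isPrime.mem_of_pow_mem K h)
    · exact g0_nin ⟨x.1, hxV⟩ h
  have hyV : ∀ y : ProjectiveSpectrum 𝒜, h0 ^ K * g0.1 ∉ y.asHomogeneousIdeal → y ∈ V := by
    intro y hy
    apply hh0V y
    intro h
    exact hy (Ideal.mul_mem_right _ _ (Ideal.pow_mem_of_mem _ h _ hKpos))
  refine ⟨K * e0 + j0, (((K * e0 + j0 : ℕ) : ℤ) + n).toNat, h0 ^ K * g0.1, h0 ^ K • m0.1,
    by omega, SetLike.mul_mem_graded hpow g0.2, ?_, ?_, hhx, ?_, ?_⟩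
  · rcases hdeg with hdeg | hdeg
    · have : (((K * e0 + j0 : ℕ) : ℤ) + n).toNat = K * e0 + i0 := by omega
      rw [this]
      exact smul_mem_graded hpow m0.2
    · rw [hdeg, smul_zero]
      exact zero_mem _
  · exact Int.toNat_of_nonneg hnn
  · intro y hy
    exact (iVU.le (hyV y hy) : y ∈ ProjectiveSpectrum.basicOpen 𝒜 f)
  · intro y hy
    have hyV' := hyV y.1 hy
    have h1 := hval ⟨y.1, hyV'⟩
    refine h1.trans (mk_eq_of_cross y.1 _ _ ?_)
    rw [smul_smul, mul_comm g0.1]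

end helpers

/-- Let S be a graded ring, M a graded S-module, f homogeneous of degree d > 0 and n an integer. Then
every section of the sheaf M(n)~ over D_+(f) is given on all of D_+(f) by one fraction m/f^k with m
homogeneous of degree kd + n. (This is the surjectivity half of the identification of the sections
of M(n)~ over D_+(f) with M(n)_(f).) -/
theorem result {R A : Type u} [CommRing R] [CommRing A] [Algebra R A] (𝒜 : ℕ → Submodule R A) [GradedAlgebra 𝒜]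
    {M : Type u} [AddCommGroup M] [Module R M] [Module A M] [IsScalarTower R A M] (ℳ : ℕ → Submodule R M) [DirectSum.Decomposition ℳ] [SetLike.GradedSMul 𝒜 ℳ] (n : ℤ) {d : ℕ} (hd : 0 < d) {f : A} (hf : f ∈ 𝒜 d)
    (s : GrTilde.sect 𝒜 ℳ n (op (ProjectiveSpectrum.basicOpen 𝒜 f))) :
    ∃ (k i : ℕ) (m : ℳ i), (i : ℤ) = k * d + n ∧
      ∀ x : ProjectiveSpectrum.basicOpen 𝒜 f,
        ((s.1 x : GrTilde.tildeAt 𝒜 ℳ n x.1) : GrTilde.LocMod 𝒜 (M := M) x.1) =
          (LocalizedModule.mk m.1 ⟨f ^ k, fun h => (ProjectiveSpectrum.mem_basicOpen 𝒜 f x.1).mp x.2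
            (x.1.isPrime.mem_of_pow_mem k h)⟩ : GrTilde.LocMod 𝒜 (M := M) x.1) := by
  classical
  choose e j h a he hh ha hj hhx hhU hval using
    fun x : ProjectiveSpectrum.basicOpen 𝒜 f => local_rep ℳ n s x
  -- (1) the `D₊(h x)` cover `D₊(f)`; extract a finite subcover
  have hrad : f ∈ (Ideal.span (Set.range h)).radical := by
    refine mem_radical_of_cover hd hf (Set.range h) ?_ ?_
    · rintro _ ⟨x, rfl⟩; exact ⟨e x, hh x⟩
    · intro y hy
      exact ⟨h ⟨y, hy⟩, ⟨_, rfl⟩, hhx ⟨y, hy⟩⟩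
  obtain ⟨N0, hN0⟩ := hrad
  obtain ⟨c, hc⟩ := Finsupp.mem_span_range_iff_exists_finsupp.mp hN0
  set F := c.support with hF
  have hcov : ∀ y : ProjectiveSpectrum.basicOpen 𝒜 f, ∃ x ∈ F, h x ∉ y.1.asHomogeneousIdeal := by
    intro y
    by_contra hcon
    push Not at hcon
    apply (ProjectiveSpectrum.mem_basicOpen 𝒜 f y.1).mp y.2
    apply y.1.isPrime.mem_of_pow_mem N0
    rw [← hc, Finsupp.sum]
    exact Ideal.sum_mem _ fun x hx => by
      rw [smul_eq_mul]; exact Ideal.mul_mem_left _ _ (hcon x hx)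
  -- (2) compatibility on overlaps
  have hover : ∀ x x' : ProjectiveSpectrum.basicOpen 𝒜 f, ∃ N : ℕ,
      (h x * h x') ^ N • (h x' • a x - h x • a x') = 0 := by
    intro x x'
    have hmem : h x' • a x - h x • a x' ∈ ℳ (e x' + j x) := by
      refine sub_mem (smul_mem_graded (hh x') (ha x)) ?_
      have : e x + j x' = e x' + j x := by have := hj x; have := hj x'; omega
      rw [← this]; exact smul_mem_graded (hh x) (ha x')
    have hpos : 0 < e x + e x' := by have := he x; omega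
    refine Groth.Agent.S3587.result 𝒜 ℳ hpos (SetLike.mul_mem_graded (hh x) (hh x'))
      1 (e x' + j x) ⟨_, hmem⟩ ?_
    · intro y
      have hyx : h x ∉ y.1.asHomogeneousIdeal := fun hm =>
        ((ProjectiveSpectrum.mem_basicOpen 𝒜 _ y.1).mp y.2) (Ideal.mul_mem_right _ _ hm)
      have hyx' : h x' ∉ y.1.asHomogeneousIdeal := fun hm =>
        ((ProjectiveSpectrum.mem_basicOpen 𝒜 _ y.1).mp y.2) (Ideal.mul_mem_left _ _ hm)
      let yU : ProjectiveSpectrum.basicOpen 𝒜 f := ⟨y.1, hhU x y.1 hyx⟩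
      have e1 := (hval x yU hyx).symm.trans (hval x' yU hyx')
      rw [LocalizedModule.mk_eq] at e1
      obtain ⟨u, hu⟩ := e1
      rw [← LocalizedModule.zero_mk (1 : y.1.asHomogeneousIdeal.toIdeal.primeCompl),
        LocalizedModule.mk_eq]
      refine ⟨u, ?_⟩
      simp only [Submonoid.smul_def, one_smul, smul_zero] at hu ⊢
      rw [smul_sub, hu, sub_self]
  choose Nf hNf using hover
  set N := F.sup (fun x => F.sup (fun x' => Nf x x')) with hNdef
  have hNle : ∀ x ∈ F, ∀ x' ∈ F, Nf x x' ≤ N := fun x hx x' hx' =>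
    (Finset.le_sup (f := fun x' => Nf x x') hx').trans
      (Finset.le_sup (f := fun x => F.sup (fun x' => Nf x x')) hx)
  have hcross : ∀ x ∈ F, ∀ x' ∈ F,
      h x' ^ (N + 1) • (h x ^ N • a x) = h x ^ (N + 1) • (h x' ^ N • a x') := by
    intro x hx x' hx'
    have h1 := hNf x x'
    obtain ⟨t, ht⟩ : ∃ t, N = Nf x x' + t := ⟨N - Nf x x', by have := hNle x hx x' hx'; omega⟩
    have h2 : (h x * h x') ^ N • (h x' • a x - h x • a x') = 0 := by
      rw [ht, pow_add, mul_comm ((h x * h x') ^ Nf x x'), mul_smul, h1, smul_zero]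
    rw [smul_sub, sub_eq_zero, smul_smul, smul_smul] at h2
    rw [smul_smul, smul_smul]
    calc (h x' ^ (N + 1) * h x ^ N) • a x = ((h x * h x') ^ N * h x') • a x := by
          congr 1; ring
      _ = ((h x * h x') ^ N * h x) • a x' := h2
      _ = (h x ^ (N + 1) * h x' ^ N) • a x' := by congr 1; ring
  -- (3) a power of `f` in the ideal of the normalized denominators
  let h' : F → A := fun x => h x.1 ^ (N + 1)
  have hh' : ∀ x : F, h' x ∈ 𝒜 ((N + 1) * e x.1) := fun x => by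
    simpa [smul_eq_mul] using SetLike.pow_mem_graded (N + 1) (hh x.1)
  have hrad2 : f ∈ (Ideal.span (Set.range h')).radical := by
    refine mem_radical_of_cover hd hf (Set.range h') ?_ ?_
    · rintro _ ⟨x, rfl⟩; exact ⟨_, hh' x⟩
    · intro y hy
      obtain ⟨x, hxF, hx⟩ := hcov ⟨y, hy⟩
      exact ⟨h' ⟨x, hxF⟩, ⟨_, rfl⟩, fun hm => hx (y.isPrime.mem_of_pow_mem _ hm)⟩
  obtain ⟨N1, hN1⟩ := hrad2
  obtain ⟨b, hb⟩ := (Ideal.mem_span_range_iff_exists_fun).mp hN1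
  set L := (∑ x ∈ F, (N + 1) * e x) + n.natAbs with hL
  set k := N1 + L with hk
  have hkd : k ≤ k * d := Nat.le_mul_of_pos_right k hd
  have hEle : ∀ x ∈ F, (N + 1) * e x ≤ k * d := by
    intro x hx
    have h1 : (N + 1) * e x ≤ ∑ x ∈ F, (N + 1) * e x :=
      Finset.single_le_sum (f := fun x => (N + 1) * e x) (fun _ _ => Nat.zero_le _) hx
    omega
  have hfk : f ^ k = ∑ x : F, (f ^ L * b x) * h' x := by
    rw [hk, pow_add, ← hb, Finset.sum_mul]
    refine Finset.sum_congr rfl fun x _ => by ring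
  let b'' : F → A := fun x =>
    (DirectSum.decompose 𝒜 (f ^ L * b x) (k * d - (N + 1) * e x.1) : A)
  have hb'' : ∀ x : F, b'' x ∈ 𝒜 (k * d - (N + 1) * e x.1) := fun x => SetLike.coe_mem _
  have hfk2 : f ^ k = ∑ x : F, b'' x * h' x := by
    have hmemk : f ^ k ∈ 𝒜 (k * d) := by simpa [smul_eq_mul] using SetLike.pow_mem_graded k hf
    rw [← DirectSum.decompose_of_mem_same 𝒜 hmemk]
    conv_lhs => rw [hfk]
    rw [DirectSum.decompose_sum, DFinsupp.finsetSum_apply, AddSubmonoidClass.coe_finsetSum]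
    refine Finset.sum_congr rfl fun x _ => ?_
    exact DirectSum.coe_decompose_mul_of_right_mem_of_le 𝒜 (hh' x) (hEle x.1 x.2)
  -- (4) the numerator
  have hnn : (0 : ℤ) ≤ ((k * d : ℕ) : ℤ) + n := by
    have : n.natAbs ≤ k * d := by omega
    omega
  set i := (((k * d : ℕ) : ℤ) + n).toNat with hi
  have hi' : (i : ℤ) = ((k * d : ℕ) : ℤ) + n := Int.toNat_of_nonneg hnn
  let m : M := ∑ x : F, b'' x • (h x.1 ^ N • a x.1)
  have hm : m ∈ ℳ i := by
    refine Submodule.sum_mem _ fun x _ => ?_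
    have hdeg : (k * d - (N + 1) * e x.1) + (N * e x.1 + j x.1) = i := by
      have h1 := hEle x.1 x.2
      have h2 := hj x.1
      have h3 : (N + 1) * e x.1 = N * e x.1 + e x.1 := by rw [add_mul, one_mul]
      omega
    rw [← hdeg]
    have hpN : h x.1 ^ N ∈ 𝒜 (N * e x.1) := by
      simpa [smul_eq_mul] using SetLike.pow_mem_graded N (hh x.1)
    exact smul_mem_graded (𝒜 := 𝒜) (hb'' x) (smul_mem_graded (𝒜 := 𝒜) hpN (ha x.1))
  refine ⟨k, i, ⟨m, hm⟩, by rw [hi']; push_cast; ring, fun y => ?_⟩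
  obtain ⟨x, hxF, hx⟩ := hcov y
  rw [hval x y hx]
  have hy' : h x ^ (N + 1) ∉ y.1.asHomogeneousIdeal := fun hm =>
    hx (y.1.isPrime.mem_of_pow_mem _ hm)
  rw [mk_eq_of_cross y.1 hx hy'
    (show h x ^ (N + 1) • a x = h x • (h x ^ N • a x) by rw [smul_smul, ← pow_succ'])]
  apply mk_eq_of_cross
  show f ^ k • (h x ^ N • a x) = h x ^ (N + 1) • ∑ x' : F, b'' x' • (h x'.1 ^ N • a x'.1)
  rw [hfk2, Finset.sum_smul, Finset.smul_sum]
  refine Finset.sum_congr rfl fun x' _ => ?_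
  rw [smul_comm (h x ^ (N + 1)) (b'' x'), ← hcross x hxF x'.1 x'.2, mul_smul]

end Groth.Agent.S3586
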