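import Groth.Statements.S3588
import Groth.Agent.S3556
import Groth.Agent.S3563

set_option autoImplicit false
universe u
open CategoryTheory CategoryTheory.Limits AlgebraicGeometry
open EGA2

namespace Groth.Agent.S3588

/-- Let S be a graded ring, N_+ the set of nilpotent elements of S_+ (an ideal of S), and S → S/N_+ the
quotient (here: any surjective homomorphism of graded rings φ : S → S' whose kernel is N_+). Then
the induced morphism Proj S' → Proj S is a closed immersion which is a homeomorphism of the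
underlying spaces, and Proj S' is reduced; thus Proj S' is the reduced closed subscheme (Proj
S)_red. -/
theorem result {R A : Type u} [CommRing R] [CommRing A] [Algebra R A] (𝒜 : ℕ → Submodule R A) [GradedAlgebra 𝒜]
    {B : Type u} [CommRing B] [Algebra R B] (ℬ : ℕ → Submodule R B) [GradedAlgebra ℬ]
    (φ : 𝒜 →+*ᵍ ℬ) (hsurj : Function.Surjective φ)
    (hker : ∀ a : A, φ a = 0 ↔ a ∈ (HomogeneousIdeal.irrelevant 𝒜).toIdeal ∧ IsNilpotent a)
    (hφ : HomogeneousIdeal.irrelevant ℬ ≤ (HomogeneousIdeal.irrelevant 𝒜).map φ) :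
    IsClosedImmersion (Proj.map φ hφ) ∧ IsHomeomorph (Proj.map φ hφ).base ∧
      AlgebraicGeometry.IsReduced (Proj ℬ) := by
  have hci : IsClosedImmersion (Proj.map φ hφ) := Groth.Agent.S3563.result 𝒜 ℬ φ hsurj hφ
  have hnil : ∀ a, φ a = 0 → IsNilpotent a := fun a ha => ((hker a).1 ha).2
  have hirr : ∀ {C : Type u} [CommRing C] [Algebra R C] (𝒞 : ℕ → Submodule R C) [GradedAlgebra 𝒞]
      (c : C), c ∈ (HomogeneousIdeal.irrelevant 𝒞).toIdeal ↔ (DirectSum.decompose 𝒞 c 0 : C) = 0 := by
    intro C _ _ 𝒞 _ c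
    rw [HomogeneousIdeal.toIdeal_irrelevant, RingHom.mem_ker, GradedRing.projZeroRingHom_apply]
  have hφ0 : ∀ a : A, φ (DirectSum.decompose 𝒜 a 0 : A) = (DirectSum.decompose ℬ (φ a) 0 : B) :=
    fun a => GradedRingHom.map_directSumDecompose 𝒜 ℬ φ
  refine ⟨hci, ?_, ?_⟩
  · rw [isHomeomorph_iff_isEmbedding_surjective]
    refine ⟨(Proj.map φ hφ).isClosedEmbedding.isEmbedding, ?_⟩
    show ∀ p : ProjectiveSpectrum 𝒜, ∃ q : ProjectiveSpectrum ℬ, (Proj.map φ hφ).base q = p
    intro p
    have hkp : RingHom.ker φ.toRingHom ≤ p.asHomogeneousIdeal.toIdeal := by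
      intro a ha
      obtain ⟨n, hn⟩ := hnil a ha
      exact p.isPrime.mem_of_pow_mem n (hn ▸ Submodule.zero_mem _)
    have hprime : (p.asHomogeneousIdeal.map φ).toIdeal.IsPrime :=
      Ideal.map_isPrime_of_surjective (f := φ.toRingHom) hsurj hkp
    have hcomap : (p.asHomogeneousIdeal.toIdeal.map φ.toRingHom).comap
        φ.toRingHom = p.asHomogeneousIdeal.toIdeal := by
      rw [Ideal.comap_map_of_surjective' φ.toRingHom hsurj, sup_eq_left.mpr hkp]
    have hrel : ¬ HomogeneousIdeal.irrelevant ℬ ≤ p.asHomogeneousIdeal.map φ := by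
      intro hle
      apply p.not_irrelevant_le
      intro a ha
      have h1 : φ.toRingHom a ∈ (p.asHomogeneousIdeal.toIdeal.map φ.toRingHom) := by
        apply hle
        change φ a ∈ (HomogeneousIdeal.irrelevant ℬ).toIdeal
        have ha' : a ∈ (HomogeneousIdeal.irrelevant 𝒜).toIdeal := ha
        rw [hirr] at ha' ⊢
        rw [← hφ0, ha', map_zero]
      change a ∈ p.asHomogeneousIdeal.toIdeal
      rw [← hcomap]
      exact h1
    refine ⟨(⟨p.asHomogeneousIdeal.map φ, hprime, hrel⟩ : ProjectiveSpectrum ℬ), ?_⟩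
    apply ProjectiveSpectrum.ext
    apply HomogeneousIdeal.ext
    exact hcomap
  · apply Groth.Agent.S3556.result ℬ
    intro y hy hny
    obtain ⟨a, rfl⟩ := hsurj y
    let a' := a - (DirectSum.decompose 𝒜 a 0 : A)
    have ha' : φ a' = φ a := by
      have h0 : φ (DirectSum.decompose 𝒜 a 0 : A) = 0 := by
        rw [hφ0]
        exact (hirr ℬ _).1 hy
      simp only [a', map_sub, h0, sub_zero]
    have ha'irr : a' ∈ (HomogeneousIdeal.irrelevant 𝒜).toIdeal := by
      rw [hirr]
      simp only [a', DirectSum.decompose_sub, DirectSum.sub_apply, DirectSum.decompose_coe,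
        DirectSum.of_eq_same, sub_self, ZeroMemClass.coe_zero]
    have ha'nil : IsNilpotent a' := by
      obtain ⟨n, hn⟩ := hny
      obtain ⟨m, hm⟩ := hnil (a' ^ n) (by rw [map_pow, ha', hn])
      exact ⟨n * m, by rw [pow_mul, hm]⟩
    rw [← ha']
    exact (hker a').2 ⟨ha'irr, ha'nil⟩

end Groth.Agent.S3588
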