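import Groth.Statements.S3593
-- import your own Groth.Agent.* helpers here

set_option autoImplicit false
universe u
open CategoryTheory CategoryTheory.Limits AlgebraicGeometry
open EGA2

namespace Groth.Agent.S3593

/-- Let S be a graded R-algebra, Ŝ a graded R-algebra with a graded homomorphism φ : S → Ŝ making Ŝ an
S-algebra, and z an element of Ŝ of degree one such that the S-algebra map S[X] → Ŝ, X ↦ z, is
bijective (so Ŝ = S[z] with z in degree one, the graded ring of the projective cone of S). Then
there is a ring isomorphism S ≅ Ŝ_(z) onto the degree-zero localization at z, sending a homogeneous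
a of degree n to φ(a)/z^n. (This is the isomorphism that identifies the affine cone Spec S with the
open D_+(z) of the projective cone Proj Ŝ; that identification itself is not asserted here.) -/
theorem result {R A : Type u} [CommRing R] [CommRing A] [Algebra R A] (𝒜 : ℕ → Submodule R A) [GradedAlgebra 𝒜]
    {B : Type u} [CommRing B] [Algebra R B] (ℬ : ℕ → Submodule R B) [GradedAlgebra ℬ]
    [Algebra A B] [IsScalarTower R A B] (φ : 𝒜 →+*ᵍ ℬ) (hφ : ∀ a : A, φ a = algebraMap A B a)
    (z : B) (hz : z ∈ ℬ 1) (hhat : Function.Bijective (Polynomial.aeval (R := A) z)) :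
    ∃ θ : A ≃+* HomogeneousLocalization.Away ℬ z,
      ∀ (n : ℕ) (a : A), a ∈ 𝒜 n → (θ a).val = Localization.mk (φ a) ⟨z ^ n, pow_mem (Submonoid.mem_powers z) n⟩ := by
  classical
  have hmem : ∀ (n : ℕ) (a : A), a ∈ 𝒜 n → φ a ∈ ℬ (n • 1) := fun n a ha => by
    simpa using φ.2 ha
  let f : ∀ n, 𝒜 n →+ HomogeneousLocalization.Away ℬ z := fun n =>
    { toFun := fun a => HomogeneousLocalization.Away.mk ℬ hz n (φ a) (hmem n a a.2)
      map_zero' := by
        apply HomogeneousLocalization.val_injective
        simp [Localization.mk_zero]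
      map_add' := fun a b => by
        apply HomogeneousLocalization.val_injective
        simp [Localization.add_mk_self] }
  have hfv : ∀ n (a : 𝒜 n), (f n a).val =
      Localization.mk (φ a) ⟨z ^ n, pow_mem (Submonoid.mem_powers z) n⟩ := fun n a => rfl
  let Θ : (DirectSum ℕ fun n => 𝒜 n) →+* HomogeneousLocalization.Away ℬ z :=
    DirectSum.toSemiring f (by
        apply HomogeneousLocalization.val_injective
        rw [hfv]
        simp) (by
        intro i j ai aj
        apply HomogeneousLocalization.val_injective
        rw [HomogeneousLocalization.val_mul, hfv, hfv, hfv, Localization.mk_mul]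
        congr 1
        · show φ (ai.1 * aj.1) = _
          exact map_mul φ _ _
        · ext; simp [pow_add])
  let θ₀ : A →+* HomogeneousLocalization.Away ℬ z :=
    Θ.comp (DirectSum.decomposeRingEquiv 𝒜).toRingHom
  have hθ₀ : ∀ n (a : A) (ha : a ∈ 𝒜 n), θ₀ a = f n ⟨a, ha⟩ := by
    intro n a ha
    show Θ (DirectSum.decompose 𝒜 a) = _
    rw [DirectSum.decompose_of_mem 𝒜 ha, DirectSum.toSemiring_of]
  -- the dehomogenization `z ↦ 1`
  let E : Polynomial A ≃ₐ[A] B := AlgEquiv.ofBijective (Polynomial.aeval z) hhat
  let e : B →+* A := (Polynomial.aeval (1 : A)).toRingHom.comp E.symm.toRingEquiv.toRingHom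
  have he_alg : ∀ a : A, e (algebraMap A B a) = a := by
    intro a
    show Polynomial.aeval (1 : A) (E.symm (algebraMap A B a)) = a
    rw [AlgEquiv.commutes]; simp
  have he_z : e z = 1 := by
    show Polynomial.aeval (1 : A) (E.symm z) = 1
    have : E.symm z = Polynomial.X := by
      apply E.injective
      rw [AlgEquiv.apply_symm_apply]
      show z = Polynomial.aeval z Polynomial.X
      simp
    rw [this]; simp
  have he_φ : ∀ a, e (φ a) = a := fun a => by rw [hφ, he_alg]
  have hv : e z * 1 = 1 := by rw [he_z, one_mul]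
  let ψ' : HomogeneousLocalization.Away ℬ z →+* A :=
    (Localization.awayLift e z (isUnit_iff_exists_inv.mpr ⟨1, hv⟩)).comp
      (algebraMap (HomogeneousLocalization.Away ℬ z) (Localization.Away z))
  have hψθ : ∀ a, ψ' (θ₀ a) = a := by
    intro a
    induction a using DirectSum.Decomposition.inductionOn 𝒜 with
    | zero => simp
    | homogeneous x =>
      rw [hθ₀ _ x.1 x.2]
      show Localization.awayLift e z (isUnit_iff_exists_inv.mpr ⟨1, hv⟩) ((f _ ⟨x.1, x.2⟩).val) = (x : A)
      rw [hfv, Localization.awayLift_mk e z _ 1 hv]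
      simp [he_φ]
    | add a b ha hb => rw [map_add, map_add, ha, hb]
  have hsurj : Function.Surjective θ₀ := by
    intro x
    obtain ⟨m, b, hb, rfl⟩ := HomogeneousLocalization.Away.mk_surjective ℬ hz x
    have hb' : b ∈ ℬ m := by simpa using hb
    have hzj : ∀ j : ℕ, z ^ j ∈ ℬ j := fun j => by simpa using SetLike.pow_mem_graded j hz
    set P := E.symm b with hP
    have hbP : b = ∑ j ∈ Finset.range (P.natDegree + 1), φ (P.coeff j) * z ^ j := by
      have : b = Polynomial.aeval z P := by rw [hP]; exact (E.apply_symm_apply b).symm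
      rw [this, Polynomial.aeval_eq_sum_range]
      simp [Algebra.smul_def, hφ]
    have hproj : b = ∑ j ∈ Finset.range (P.natDegree + 1),
        if j ≤ m then φ (DirectSum.decompose 𝒜 (P.coeff j) (m - j) : A) * z ^ j else 0 := by
      conv_lhs => rw [← DirectSum.decompose_of_mem_same ℬ hb', hbP]
      rw [← GradedRing.proj_apply, map_sum]
      refine Finset.sum_congr rfl fun j _ => ?_
      rw [GradedRing.proj_apply]
      split_ifs with hj
      · rw [DirectSum.coe_decompose_mul_of_right_mem_of_le ℬ (hzj j) hj,
          GradedRingHom.map_directSumDecompose]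
      · exact DirectSum.coe_decompose_mul_of_right_mem_of_not_le ℬ (hzj j) hj
    refine ⟨∑ j ∈ Finset.range (P.natDegree + 1),
        if j ≤ m then (DirectSum.decompose 𝒜 (P.coeff j) (m - j) : A) else 0, ?_⟩
    apply HomogeneousLocalization.val_injective
    rw [← HomogeneousLocalization.algebraMap_apply, map_sum, map_sum,
      HomogeneousLocalization.Away.val_mk]
    conv_rhs => rw [hproj]
    rw [Localization.mk_sum]
    refine Finset.sum_congr rfl fun j _ => ?_
    split_ifs with hj
    · rw [hθ₀ (m - j) _ (SetLike.coe_mem _), HomogeneousLocalization.algebraMap_apply, hfv]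
      obtain ⟨k, rfl⟩ := Nat.exists_eq_add_of_le hj
      rw [Localization.mk_eq_mk_iff, Localization.r_iff_exists]
      refine ⟨1, ?_⟩
      simp only [Nat.add_sub_cancel_left, pow_add]
      ring
    · rw [map_zero, map_zero, Localization.mk_zero]
  let θ : A ≃+* HomogeneousLocalization.Away ℬ z :=
    RingEquiv.ofBijective θ₀ ⟨Function.LeftInverse.injective hψθ, hsurj⟩
  refine ⟨θ, fun n a ha => ?_⟩
  show (θ₀ a).val = _
  rw [hθ₀ n a ha, hfv]

end Groth.Agent.S3593
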