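import Groth.Statements.S3594
-- import your own Groth.Agent.* helpers here

set_option autoImplicit false
universe u
open CategoryTheory CategoryTheory.Limits AlgebraicGeometry
open EGA2

namespace Groth.Agent.S3594

/-- The closed immersion at infinity of a projective cone: let S be a graded R-algebra and Ŝ a graded
R-algebra over S such that the structure map φ : S → Ŝ is a graded homomorphism and Ŝ = S[z] is the
polynomial algebra on an element z of degree one (evaluation at z is a bijection S[T] → Ŝ); let ψ :
Ŝ → S be a graded homomorphism retracting φ and killing z, with S₊ contained in the ideal generated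
by ψ(Ŝ₊) so that j = Proj(ψ) : X = Proj S → Ĉ = Proj Ŝ is defined (it is the canonical closed
immersion). Then the image of j is exactly the complement of the open subset D₊(z) of Proj Ŝ (which
is the affine cone C = Spec S). -/
theorem result {R A : Type u} [CommRing R] [CommRing A] [Algebra R A] (𝒜 : ℕ → Submodule R A) [GradedAlgebra 𝒜]
    {B : Type u} [CommRing B] [Algebra R B] (ℬ : ℕ → Submodule R B) [GradedAlgebra ℬ]
    [Algebra A B] [IsScalarTower R A B] (φ : 𝒜 →+*ᵍ ℬ) (hφ : ∀ a : A, φ a = algebraMap A B a)
    (z : B) (hz : z ∈ ℬ 1) (hhat : Function.Bijective (Polynomial.aeval (R := A) z))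
    (ψ : ℬ →+*ᵍ 𝒜) (hψφ : ∀ a : A, ψ (φ a) = a) (hψz : ψ z = 0)
    (hψ : HomogeneousIdeal.irrelevant 𝒜 ≤ (HomogeneousIdeal.irrelevant ℬ).map ψ) :
    Set.range (Proj.map ψ hψ).base = ((Proj.basicOpen ℬ z : Set (Proj ℬ)))ᶜ := by
  classical
  -- every `b` is congruent to `φ (ψ b)` modulo `z`
  have hdiff : ∀ b : B, ∃ c : B, b = φ (ψ b) + c * z := by
    intro b
    obtain ⟨P, rfl⟩ := hhat.2 b
    refine ⟨Polynomial.aeval z P.divX, ?_⟩
    have hP : Polynomial.aeval z P =
        algebraMap A B (P.coeff 0) + Polynomial.aeval z P.divX * z := by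
      have := congrArg (Polynomial.aeval z) (Polynomial.X_mul_divX_add P)
      rw [map_add, map_mul, Polynomial.aeval_X, Polynomial.aeval_C] at this
      rw [← this]
      ring
    have hψP : ψ (Polynomial.aeval z P) = P.coeff 0 := by
      rw [hP, map_add, map_mul, hψz, mul_zero, add_zero, ← hφ, hψφ]
    rw [hψP, hφ]
    exact hP
  ext q
  simp only [Set.mem_range, Set.mem_compl_iff, SetLike.mem_coe]
  constructor
  · rintro ⟨x, rfl⟩ hx
    have : x ∈ (Proj.map ψ hψ) ⁻¹ᵁ Proj.basicOpen ℬ z := hx
    rw [Proj.map_preimage_basicOpen, hψz] at this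
    exact ((Proj.mem_basicOpen 𝒜 _ x).mp this) (zero_mem _)
  · intro hq
    have hzq : z ∈ q.asHomogeneousIdeal := by
      by_contra h
      exact hq ((Proj.mem_basicOpen ℬ z q).mpr h)
    have key : ∀ b : B, φ (ψ b) ∈ q.asHomogeneousIdeal ↔ b ∈ q.asHomogeneousIdeal := by
      intro b
      obtain ⟨c, hc⟩ := hdiff b
      have hcz : c * z ∈ q.asHomogeneousIdeal := Ideal.mul_mem_left _ c hzq
      constructor
      · intro h
        rw [hc]
        exact Ideal.add_mem _ h hcz
      · intro h
        have : φ (ψ b) = b - c * z := eq_sub_of_add_eq hc.symm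
        rw [this]
        exact Ideal.sub_mem _ h hcz
    let x : ProjectiveSpectrum 𝒜 :=
      { asHomogeneousIdeal := q.asHomogeneousIdeal.comap φ
        isPrime := q.isPrime.comap φ
        not_irrelevant_le := by
          intro hle
          apply q.not_irrelevant_le
          intro b hb
          rw [← key b]
          apply hle
          rw [HomogeneousIdeal.mem_irrelevant_iff] at hb ⊢
          rw [GradedRing.proj_apply] at hb ⊢
          rw [← GradedRingHom.map_directSumDecompose, hb, map_zero] }
    refine ⟨x, ?_⟩
    apply ProjectiveSpectrum.ext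
    apply HomogeneousIdeal.toIdeal_injective
    ext b
    exact key b

end Groth.Agent.S3594
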