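import Groth.Statements.S3595
import Groth.Agent.Lib.Helper6.PCone

set_option autoImplicit false
universe u
open CategoryTheory CategoryTheory.Limits AlgebraicGeometry
open EGA2

namespace Groth.Agent.S3595

open Groth.Agent.Lib.Helper6.PConeLib

theorem ringHom_compat {R A : Type u} [CommRing R] [CommRing A] [Algebra R A]
    {𝒜 : ℕ → Submodule R A} [GradedAlgebra 𝒜] {B : Type u} [CommRing B] [Algebra R B]
    {ℬ : ℕ → Submodule R B} [GradedAlgebra ℬ] (φ : 𝒜 →+*ᵍ ℬ) {d e : ℕ} {f g : A}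
    (hf : f ∈ 𝒜 d) (hg : g ∈ 𝒜 e) {x : A} (hx : x = f * g) (hx' : φ x = φ f * φ g) :
    (HomogeneousLocalization.awayMap ℬ (φ.2 hg) hx').comp (HomogeneousLocalization.Away.map φ f) =
      (HomogeneousLocalization.Away.map φ x).comp (HomogeneousLocalization.awayMap 𝒜 hg hx) := by
  ext y
  obtain ⟨n, a, ha, rfl⟩ := HomogeneousLocalization.Away.mk_surjective 𝒜 hf y
  simp [HomogeneousLocalization.Away.map_mk, HomogeneousLocalization.awayMap_mk, map_pow]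

theorem compat {R A : Type u} [CommRing R] [CommRing A] [Algebra R A]
    {𝒜 : ℕ → Submodule R A} [GradedAlgebra 𝒜] {B : Type u} [CommRing B] [Algebra R B]
    {ℬ : ℕ → Submodule R B} [GradedAlgebra ℬ] (φ : 𝒜 →+*ᵍ ℬ) {d e : ℕ} {f g : A}
    (hf : f ∈ 𝒜 d) (hd : 0 < d) (hg : g ∈ 𝒜 e) (he : 0 < e) :
    pullback.fst (PCone.chart φ hf hd) (PCone.chart φ hg he) ≫
        Spec.map (CommRingCat.ofHom (HomogeneousLocalization.Away.map φ f)) ≫ Proj.awayι 𝒜 f hf hd =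
      pullback.snd (PCone.chart φ hf hd) (PCone.chart φ hg he) ≫
        Spec.map (CommRingCat.ofHom (HomogeneousLocalization.Away.map φ g)) ≫
          Proj.awayι 𝒜 g hg he := by
  have hcond : pullback.fst (PCone.chart φ hf hd) (PCone.chart φ hg he) ≫
      Proj.awayι ℬ (φ f) (φ.2 hf) hd =
      pullback.snd (PCone.chart φ hf hd) (PCone.chart φ hg he) ≫
        Proj.awayι ℬ (φ g) (φ.2 hg) he := by
    rw [← chart_ι φ hf hd, ← chart_ι φ hg he, pullback.condition_assoc]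
  obtain ⟨w, hw1, hw2⟩ : ∃ w, pullback.fst (PCone.chart φ hf hd) (PCone.chart φ hg he) =
      w ≫ pullback.fst (Proj.awayι ℬ (φ f) (φ.2 hf) hd) (Proj.awayι ℬ (φ g) (φ.2 hg) he) ∧
      pullback.snd (PCone.chart φ hf hd) (PCone.chart φ hg he) =
      w ≫ pullback.snd (Proj.awayι ℬ (φ f) (φ.2 hf) hd) (Proj.awayι ℬ (φ g) (φ.2 hg) he) :=
    ⟨_, (pullback.lift_fst _ _ hcond).symm, (pullback.lift_snd _ _ hcond).symm⟩
  have hx' : φ (f * g) = φ f * φ g := map_mul φ f g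
  rw [hw1, hw2,
    ← Proj.pullbackAwayιIso_hom_SpecMap_awayMap_left ℬ (f := φ f) (g := φ g) (x := φ (f * g))
      (φ.2 hf) hd (φ.2 hg) he hx',
    ← Proj.pullbackAwayιIso_hom_SpecMap_awayMap_right ℬ (f := φ f) (g := φ g) (x := φ (f * g))
      (φ.2 hf) hd (φ.2 hg) he hx']
  simp only [Category.assoc]
  congr 2
  rw [← Spec.map_comp_assoc, ← Spec.map_comp_assoc, ← CommRingCat.ofHom_comp,
    ← CommRingCat.ofHom_comp, ringHom_compat φ hf hg rfl hx',
    ringHom_compat φ hg hf (mul_comm f g) (hx'.trans (mul_comm _ _)),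
    CommRingCat.ofHom_comp, CommRingCat.ofHom_comp, Spec.map_comp_assoc, Spec.map_comp_assoc,
    Proj.SpecMap_awayMap_awayι, Proj.SpecMap_awayMap_awayι]
  congr 1


/-- Let φ : S′ → S be a homomorphism of graded rings and G(φ) ⊆ Proj S the open union of the basic opens
D_+(φ(f′)) for f′ ∈ S′ homogeneous of positive degree. There is exactly one morphism p : G(φ) → Proj
S′ whose restriction to each chart Spec S_(φ(f′)) of G(φ) is Spec of the induced map S′_(f′) →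
S_(φ(f′)) followed by Spec S′_(f′) ≅ D_+(f′) ⊆ Proj S′. -/
theorem result {R A : Type u} [CommRing R] [CommRing A] [Algebra R A] (𝒜 : ℕ → Submodule R A) [GradedAlgebra 𝒜]
    {B : Type u} [CommRing B] [Algebra R B] (ℬ : ℕ → Submodule R B) [GradedAlgebra ℬ] (φ : 𝒜 →+*ᵍ ℬ) :
    ∃! p : (PCone.dom φ : Scheme.{u}) ⟶ Proj 𝒜,
      ∀ (d : ℕ) (f : A) (hd : 0 < d) (hf : f ∈ 𝒜 d),
        PCone.chart φ hf hd ≫ p =
          Spec.map (CommRingCat.ofHom (HomogeneousLocalization.Away.map φ f)) ≫ Proj.awayι 𝒜 f hf hd := by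
  classical
  let 𝒰 := chartCover φ
  let F : ∀ i : 𝒰.I₀, 𝒰.X i ⟶ Proj 𝒜 := fun i =>
    Spec.map (CommRingCat.ofHom (HomogeneousLocalization.Away.map φ i.2.1)) ≫
      Proj.awayι 𝒜 i.2.1 i.2.2.2 i.2.2.1
  have hF : ∀ i j, pullback.fst (𝒰.f i) (𝒰.f j) ≫ F i = pullback.snd (𝒰.f i) (𝒰.f j) ≫ F j :=
    fun i j => compat φ i.2.2.2 i.2.2.1 j.2.2.2 j.2.2.1
  refine ⟨𝒰.glueMorphisms F hF, ?_, ?_⟩
  · intro d f hd hf
    exact 𝒰.ι_glueMorphisms F hF ⟨d, f, hd, hf⟩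
  · intro p' hp'
    refine 𝒰.hom_ext _ _ (fun i => ?_)
    exact (hp' i.1 i.2.1 i.2.2.1 i.2.2.2).trans (𝒰.ι_glueMorphisms F hF i).symm

end Groth.Agent.S3595
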