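import Groth.Statements.S3596
-- import your own Groth.Agent.* helpers here

set_option autoImplicit false
universe u
open CategoryTheory CategoryTheory.Limits AlgebraicGeometry
open EGA2

namespace Groth.Agent.S3596

theorem chart_ι {R A : Type u} [CommRing R] [CommRing A] [Algebra R A] {𝒜 : ℕ → Submodule R A}
    [GradedAlgebra 𝒜] {B : Type u} [CommRing B] [Algebra R B] {ℬ : ℕ → Submodule R B}
    [GradedAlgebra ℬ] (φ : 𝒜 →+*ᵍ ℬ) {d : ℕ} {f : A} (hf : f ∈ 𝒜 d) (hd : 0 < d) :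
    PCone.chart φ hf hd ≫ (PCone.dom φ).ι = Proj.awayι ℬ (φ f) (φ.2 hf) hd :=
  IsOpenImmersion.lift_fac _ _ _

instance chart_isOpenImmersion {R A : Type u} [CommRing R] [CommRing A] [Algebra R A]
    {𝒜 : ℕ → Submodule R A} [GradedAlgebra 𝒜] {B : Type u} [CommRing B] [Algebra R B]
    {ℬ : ℕ → Submodule R B} [GradedAlgebra ℬ] (φ : 𝒜 →+*ᵍ ℬ) {d : ℕ} {f : A} (hf : f ∈ 𝒜 d)
    (hd : 0 < d) : IsOpenImmersion (PCone.chart φ hf hd) := by
  have : IsOpenImmersion (PCone.chart φ hf hd ≫ (PCone.dom φ).ι) := by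
    rw [chart_ι]; infer_instance
  exact IsOpenImmersion.of_comp _ (PCone.dom φ).ι

/-- For a homomorphism of graded rings φ : S' → S, the induced morphism p : G(φ) → Proj S'
(characterised on the charts as in the previous result) is affine. -/
theorem result {R A : Type u} [CommRing R] [CommRing A] [Algebra R A] (𝒜 : ℕ → Submodule R A) [GradedAlgebra 𝒜]
    {B : Type u} [CommRing B] [Algebra R B] (ℬ : ℕ → Submodule R B) [GradedAlgebra ℬ] (φ : 𝒜 →+*ᵍ ℬ)
    (p : (PCone.dom φ : Scheme.{u}) ⟶ Proj 𝒜) (hp : ∀ (d : ℕ) (f : A) (hd : 0 < d) (hf : f ∈ 𝒜 d),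
        PCone.chart φ hf hd ≫ p =
          Spec.map (CommRingCat.ofHom (HomogeneousLocalization.Away.map φ f)) ≫ Proj.awayι 𝒜 f hf hd) :
    IsAffineHom p := by
  classical
  -- range of a chart inside `Proj ℬ`
  have hrange : ∀ {d : ℕ} {f : A} (hf : f ∈ 𝒜 d) (hd : 0 < d) (z : Spec (CommRingCat.of
      (HomogeneousLocalization.Away ℬ (φ f)))),
      ((PCone.dom φ).ι.base ((PCone.chart φ hf hd).base z)) =
        (Proj.awayι ℬ (φ f) (φ.2 hf) hd).base z := by
    intro d f hf hd z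
    rw [← Scheme.Hom.comp_apply, chart_ι]
  have key : ∀ (d : ℕ) (f : A) (hd : 0 < d) (hf : f ∈ 𝒜 d),
      p ⁻¹ᵁ Proj.basicOpen 𝒜 f = (PCone.chart φ hf hd).opensRange := by
    intro d f hd hf
    ext x
    constructor
    · intro hx
      obtain ⟨⟨g, e, he, hg⟩, hxg⟩ := TopologicalSpace.Opens.mem_iSup.mp x.2
      rw [← Proj.opensRange_awayι ℬ (φ g) (φ.2 hg) he] at hxg
      obtain ⟨y, hy⟩ := hxg
      have hxy : (PCone.chart φ hg he).base y = x := by
        apply Subtype.ext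
        exact (hrange hg he y).trans hy
      have h1 : p.base x ∈ Proj.basicOpen 𝒜 f := hx
      rw [← hxy, ← Scheme.Hom.comp_apply, hp e g he hg, Scheme.Hom.comp_apply] at h1
      have h2 : (Spec.map (CommRingCat.ofHom (HomogeneousLocalization.Away.map φ g))).base y ∈
          Proj.awayι 𝒜 g hg he ⁻¹ᵁ Proj.basicOpen 𝒜 f := h1
      rw [Proj.awayι_preimage_basicOpen 𝒜 hg he hf hd] at h2
      have h3 : y ∈ Proj.awayι ℬ (φ g) (φ.2 hg) he ⁻¹ᵁ Proj.basicOpen ℬ (φ f) := by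
        rw [Proj.awayι_preimage_basicOpen ℬ (f := φ g) (φ.2 hg) he (g := φ f) (φ.2 hf) hd]
        have h2' := (PrimeSpectrum.mem_basicOpen _ _).mp h2
        refine (PrimeSpectrum.mem_basicOpen _ _).mpr (fun hmem => ?_)
        apply h2'
        show HomogeneousLocalization.Away.map φ g _ ∈ y.asIdeal
        convert hmem using 1
        rw [HomogeneousLocalization.Away.map_mk]
        ext
        simp [map_pow]
      have h4 : x.1 ∈ Proj.basicOpen ℬ (φ f) := by
        rw [← hy]; exact h3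
      rw [← Proj.opensRange_awayι ℬ (φ f) (φ.2 hf) hd] at h4
      obtain ⟨z, hz⟩ := h4
      refine ⟨z, ?_⟩
      apply Subtype.ext
      exact (hrange hf hd z).trans hz
    · rintro ⟨y, rfl⟩
      show p.base ((PCone.chart φ hf hd).base y) ∈ Proj.basicOpen 𝒜 f
      rw [← Scheme.Hom.comp_apply, hp d f hd hf, Scheme.Hom.comp_apply,
        ← Proj.opensRange_awayι 𝒜 f hf hd]
      exact ⟨_, rfl⟩
  apply isAffineHom_of_forall_exists_isAffineOpen
  intro x
  obtain ⟨⟨⟨d, hd⟩, ⟨f, hf⟩⟩, hx⟩ : ∃ i : Σ i : PNat, 𝒜 i, x ∈ Proj.basicOpen 𝒜 i.2.1 := by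
    refine ⟨(Proj.affineOpenCover 𝒜).idx x, ?_⟩
    have := (Proj.affineOpenCover 𝒜).covers x
    rw [← Proj.opensRange_awayι 𝒜 _ ((Proj.affineOpenCover 𝒜).idx x).2.2
      ((Proj.affineOpenCover 𝒜).idx x).1.2]
    exact this
  refine ⟨Proj.basicOpen 𝒜 f, hx, Proj.isAffineOpen_basicOpen 𝒜 f hf hd, ?_⟩
  rw [key d f hd hf]
  exact isAffineOpen_opensRange (H := chart_isOpenImmersion φ hf hd) _

end Groth.Agent.S3596
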