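import Groth.Statements.S3597
import Groth.Agent.Lib.Helper6.PCone

set_option autoImplicit false
universe u
open CategoryTheory CategoryTheory.Limits AlgebraicGeometry
open EGA2

namespace Groth.Agent.S3597

open Groth.Agent.Lib.Helper6.PConeLib

/-- Let S be a graded algebra over a ring and Ŝ = S[z] the graded S-algebra obtained by adjoining a
variable z in degree 1 (an S-algebra with an element z of degree 1 such that S[T] → Ŝ, T ↦ z, is
bijective), with φ : S → Ŝ the graded structure map and ψ : Ŝ → S the graded retraction with ψ ∘ φ =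
id and ψ(z) = 0 (the irrelevant-ideal containment needed to define Proj(ψ) on all of X = Proj S
carried as a hypothesis). Let Ê ⊆ Ĉ = Proj Ŝ be the pointed projective cone, the open union of the
D_+(φ f) for f ∈ S homogeneous of positive degree, and p : Ê → X a morphism which on each chart
D_+(φ f) = Spec Ŝ_{(φ f)} is induced by S_{(f)} → Ŝ_{(φ f)} (the canonical retraction). Then p is
surjective, and the closed immersion j = Proj(ψ) : X → Ĉ factors through Ê with p ∘ j = id_X. -/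
theorem result {R A : Type u} [CommRing R] [CommRing A] [Algebra R A] (𝒜 : ℕ → Submodule R A) [GradedAlgebra 𝒜]
    {B : Type u} [CommRing B] [Algebra R B] (ℬ : ℕ → Submodule R B) [GradedAlgebra ℬ]
    [Algebra A B] [IsScalarTower R A B] (φ : 𝒜 →+*ᵍ ℬ) (hφ : ∀ a : A, φ a = algebraMap A B a)
    (z : B) (hz : z ∈ ℬ 1) (hhat : Function.Bijective (Polynomial.aeval (R := A) z))
    (ψ : ℬ →+*ᵍ 𝒜) (hψφ : ∀ a : A, ψ (φ a) = a) (hψz : ψ z = 0)
    (hψ : HomogeneousIdeal.irrelevant 𝒜 ≤ (HomogeneousIdeal.irrelevant ℬ).map ψ)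
    (p : (PCone.dom φ : Scheme.{u}) ⟶ Proj 𝒜) (hp : ∀ (d : ℕ) (f : A) (hd : 0 < d) (hf : f ∈ 𝒜 d),
        PCone.chart φ hf hd ≫ p =
          Spec.map (CommRingCat.ofHom (HomogeneousLocalization.Away.map φ f)) ≫ Proj.awayι 𝒜 f hf hd) :
    Surjective p ∧ ∃ j : Proj 𝒜 ⟶ (PCone.dom φ : Scheme.{u}), j ≫ (PCone.dom φ).ι = Proj.map ψ hψ ∧ j ≫ p = 𝟙 (Proj 𝒜) := by
  classical
  have hrange : Set.range (Proj.map ψ hψ).base ⊆ Set.range (PCone.dom φ).ι.base := by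
    rw [Scheme.Opens.range_ι]
    rintro _ ⟨x, rfl⟩
    obtain ⟨⟨⟨d, hd⟩, ⟨f, hf⟩⟩, hx⟩ : ∃ i : Σ i : PNat, 𝒜 i, x ∈ Proj.basicOpen 𝒜 i.2.1 := by
      refine ⟨(Proj.affineOpenCover 𝒜).idx x, ?_⟩
      have := (Proj.affineOpenCover 𝒜).covers x
      rw [← Proj.opensRange_awayι 𝒜 _ ((Proj.affineOpenCover 𝒜).idx x).2.2
        ((Proj.affineOpenCover 𝒜).idx x).1.2]
      exact this
    refine TopologicalSpace.Opens.mem_iSup.mpr ⟨⟨f, d, hd, hf⟩, ?_⟩
    have : x ∈ Proj.map ψ hψ ⁻¹ᵁ Proj.basicOpen ℬ (φ f) := by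
      rw [Proj.map_preimage_basicOpen, hψφ]; exact hx
    exact this
  let j : Proj 𝒜 ⟶ (PCone.dom φ : Scheme.{u}) :=
    IsOpenImmersion.lift (PCone.dom φ).ι (Proj.map ψ hψ) hrange
  have hj : j ≫ (PCone.dom φ).ι = Proj.map ψ hψ := IsOpenImmersion.lift_fac _ _ _
  have hχ : ψ.comp φ = GradedRingHom.id 𝒜 := by
    ext a; exact hψφ a
  have key : j ≫ p = 𝟙 (Proj 𝒜) := by
    refine (Proj.affineOpenCover 𝒜).openCover.hom_ext _ _ (fun i => ?_)
    obtain ⟨⟨d, hd⟩, ⟨f, hf⟩⟩ := i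
    replace hf : f ∈ 𝒜 d := hf
    show Proj.awayι 𝒜 f hf hd ≫ j ≫ p = Proj.awayι 𝒜 f hf hd ≫ 𝟙 _
    rw [Category.comp_id]
    have gen : ∀ (f' : A) (hf' : f' ∈ 𝒜 d), f' = f →
        Proj.awayι 𝒜 f' hf' hd ≫ j ≫ p = Proj.awayι 𝒜 f' hf' hd →
        Proj.awayι 𝒜 f hf hd ≫ j ≫ p = Proj.awayι 𝒜 f hf hd := by
      rintro f' hf' rfl h; exact h
    refine gen (ψ (φ f)) (ψ.2 (φ.2 hf)) (hψφ f) ?_
    have hA : Proj.awayι 𝒜 (ψ (φ f)) (ψ.2 (φ.2 hf)) hd ≫ j =
        Spec.map (CommRingCat.ofHom (HomogeneousLocalization.Away.map ψ (φ f))) ≫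
          PCone.chart φ hf hd := by
      rw [← cancel_mono (PCone.dom φ).ι, Category.assoc, hj, Category.assoc, chart_ι]
      exact Proj.awayι_comp_map ψ hψ hd (φ f) (φ.2 hf)
    rw [reassoc_of% hA, hp d f hd hf, ← Spec.map_comp_assoc, ← CommRingCat.ofHom_comp,
      ← HomogeneousLocalization.Away.map_comp]
    have gen2 : ∀ χ : 𝒜 →+*ᵍ 𝒜, χ = GradedRingHom.id 𝒜 →
        Spec.map (CommRingCat.ofHom (HomogeneousLocalization.Away.map χ f)) ≫
          Proj.awayι 𝒜 f hf hd = Proj.awayι 𝒜 (χ f) (χ.2 hf) hd := by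
      rintro χ rfl
      have := Proj.awayι_comp_map (GradedRingHom.id 𝒜) (by simp) hd f hf
      rw [Proj.map_id, Category.comp_id] at this
      exact this.symm
    exact gen2 _ hχ
  refine ⟨?_, j, hj, key⟩
  constructor
  intro x
  refine ⟨j.base x, ?_⟩
  rw [← Scheme.Hom.comp_apply, key]
  rfl

end Groth.Agent.S3597
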