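import Groth.Statements.S3654
import Groth.Agent.Lib.Helper6.BCMates

set_option autoImplicit false
universe u
open CategoryTheory CategoryTheory.Limits AlgebraicGeometry
attribute [local instance] HasDerivedCategory.standard
open Dual3

namespace Groth.Agent.S3654

/-- Let X, Y, X', Y' be quasi-compact quasi-separated schemes and f : X → Y, g : Y' → Y, f' : X' → Y',
g' : X' → X morphisms forming a cartesian square (X' = Y' ×_Y X), with f flat or g flat. Assume the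
derived pushforwards Rf_*, Rf'_*, Rg_*, Rg'_* exist and preserve D_QCoh, that Lg^* and Lg'^*
preserve D_QCoh and are left adjoint to Rg_* and Rg'_* on D_QCoh, let a : D_QCoh(O_Y) → D_QCoh(O_X)
and a' : D_QCoh(O_{Y'}) → D_QCoh(O_{X'}) be right adjoints of Rf_* and Rf'_*, fix an isomorphism
Rf_* ∘ Rg'_* ≅ Rg_* ∘ Rf'_*, and assume the comparison maps ξ_N built from these data are
isomorphisms for all N in D_QCoh(O_{Y'}), so that the base change map α : Lg'^* ∘ a → a' ∘ Lg^* is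
defined; let β_M : Lg^* Rf_* M → Rf'_* Lg'^* M denote the base change map for pushforward. Let η_f :
id → a Rf_* and η_{f'} : id → a' Rf'_* be the units. Then for every M in D_QCoh(O_X): η_{f'} at
Lg'^*M equals Lg'^*(η_{f,M}) followed by the base change map α at Rf_*M followed by a'(β_M). -/
theorem result (X Y X' Y' : Scheme.{u}) [CompactSpace X] [QuasiSeparatedSpace X] [CompactSpace Y] [QuasiSeparatedSpace Y] [CompactSpace X'] [QuasiSeparatedSpace X'] [CompactSpace Y'] [QuasiSeparatedSpace Y'] (f : X ⟶ Y) (g : Y' ⟶ Y) (f' : X' ⟶ Y') (g' : X' ⟶ X) (hsq : IsPullback g' f' f g) (hflat : Flat f ∨ Flat g) [DCoh.HasRpush f] [DCoh.HasRpush f'] [DCoh.HasRpush g] [DCoh.HasRpush g'] (hf : DCoh.RpushPreservesQCoh f) (hf' : DCoh.RpushPreservesQCoh f') (hg : DCoh.RpushPreservesQCoh g) (hg' : DCoh.RpushPreservesQCoh g') (a : DCoh.DQCoh Y ⥤ DCoh.DQCoh X) (a' : DCoh.DQCoh Y' ⥤ DCoh.DQCoh X') (adj : DCoh.RpushQ f hf ⊣ a) (adj' : DCoh.RpushQ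 f' hf' ⊣ a') [DCoh.HasLpull g] [DCoh.HasLpull g'] (hLg : Dual3.LpullPreservesQCoh g) (hLg' : Dual3.LpullPreservesQCoh g') (adjg : Dual3.LpullQ g hLg ⊣ DCoh.RpushQ g hg) (adjg' : Dual3.LpullQ g' hLg' ⊣ DCoh.RpushQ g' hg') (e : (DCoh.RpushQ g' hg' ⋙ DCoh.RpushQ f hf ≅ DCoh.RpushQ f' hf' ⋙ DCoh.RpushQ g hg)) (hξ : ∀ M : DCoh.DQCoh Y', IsIso (Dual3.xi adj adj' e M)) (M : DCoh.DQCoh X) : adj'.unit.app ((Dual3.LpullQ g' hLg').obj M) = (Dual3.LpullQ g' hLg').map (adj.unit.app M) ≫ Dual3.bcMap adj adj' e adjg adjg' ((DCoh.RpushQ f hf).obj M) (hξ _) ≫ a'.map (Dual3.bcPush e adjg adjg' M) := by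
  exact Groth.Agent.Lib.Helper6.BCMates.unit_compatA adj adj' e adjg adjg' hξ M

end Groth.Agent.S3654
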