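import Groth.Statements.S3707
import Mathlib.AlgebraicGeometry.Morphisms.IsIso
import Mathlib.AlgebraicGeometry.PullbackCarrier

set_option autoImplicit false
universe u
open SGA1

namespace Groth.Agent.S3707

open AlgebraicGeometry CategoryTheory CategoryTheory.Limits in
/-- Let g : S' -> S be a surjective morphism of schemes, X and Y schemes over S with Y unramified over S
(formally unramified and locally of finite type), and X', Y' their base changes to S'. Then the map
sending an S-morphism X -> Y to the induced S'-morphism X' -> Y' is injective. -/
theorem result {S S' X Y : Scheme.{u}} (g : S' ⟶ S) [Surjective g]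
    (p : X ⟶ S) (q : Y ⟶ S) [FormallyUnramified q] [LocallyOfFiniteType q]
    (u v : X ⟶ Y) (hu : p ≫ 𝟙 S = u ≫ q) (hv : p ≫ 𝟙 S = v ≫ q)
    (h : pullback.map p g q g u (𝟙 S') (𝟙 S) hu ((Category.comp_id _).trans (Category.id_comp _).symm) =
      pullback.map p g q g v (𝟙 S') (𝟙 S) hv ((Category.comp_id _).trans (Category.id_comp _).symm)) :
    u = v := by
  have hu' : u ≫ q = p := by simpa using hu.symm
  have hv' : v ≫ q = p := by simpa using hv.symm
  let d := pullback.diagonal q
  let l : X ⟶ pullback q q := pullback.lift u v (hu'.trans hv'.symm)
  let e := pullback.snd d l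
  have hfst : Surjective (pullback.fst p g) :=
    MorphismProperty.of_isPullback (P := @Surjective) (IsPullback.of_hasPullback p g).flip
      (inferInstance : Surjective g)
  -- the two base changes agree
  let m := pullback.map p g q g u (𝟙 S') (𝟙 S) hu
    ((Category.comp_id _).trans (Category.id_comp _).symm)
  have hmu : pullback.fst p g ≫ u = m ≫ pullback.fst q g :=
    (pullback.lift_fst _ _ _).symm
  have hmv : pullback.fst p g ≫ v = m ≫ pullback.fst q g := by
    rw [show m = pullback.map p g q g v (𝟙 S') (𝟙 S) hv
      ((Category.comp_id _).trans (Category.id_comp _).symm) from h]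
    exact (pullback.lift_fst _ _ _).symm
  have hl : pullback.fst p g ≫ l = m ≫ pullback.fst q g ≫ d := by
    apply pullback.hom_ext
    · rw [Category.assoc, pullback.lift_fst, hmu, Category.assoc, Category.assoc,
        pullback.diagonal_fst, Category.comp_id]
    · rw [Category.assoc, pullback.lift_snd, hmv, Category.assoc, Category.assoc,
        pullback.diagonal_snd, Category.comp_id]
  have he_surj : Surjective e := by
    constructor
    intro x
    obtain ⟨x', rfl⟩ := hfst.surj x
    have hmem : l (pullback.fst p g x') ∈ Set.range d := by
      refine ⟨pullback.fst q g (m x'), ?_⟩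
      rw [← Scheme.Hom.comp_apply, ← Scheme.Hom.comp_apply, ← Scheme.Hom.comp_apply, hl]
    have : pullback.fst p g x' ∈ Set.range e := by
      rw [Scheme.Pullback.range_snd]; exact hmem
    exact this
  have he_iso : IsIso e := by
    rw [isIso_iff_isOpenImmersion_and_surjective]
    exact ⟨inferInstance, he_surj⟩
  have hcond : pullback.fst d l ≫ d = e ≫ l := pullback.condition
  have h1 : e ≫ u = e ≫ v := by
    have a1 : e ≫ u = e ≫ l ≫ pullback.fst q q := by rw [pullback.lift_fst]
    have a2 : e ≫ v = e ≫ l ≫ pullback.snd q q := by rw [pullback.lift_snd]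
    rw [a1, a2, ← Category.assoc, ← Category.assoc, ← hcond, Category.assoc, Category.assoc,
      pullback.diagonal_fst, pullback.diagonal_snd]
  exact (cancel_epi e).mp h1

end Groth.Agent.S3707
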