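import Groth.Statements.S3805

set_option autoImplicit false
universe u
open scoped TensorProduct
open PP16

namespace Groth.Agent.S3805

/-- For an A-algebra B, the image of the principal-part map d^n : B → P^n_{B/A} generates P^n_{B/A} as a
B-module (for the B-module structure through the first factor). -/
theorem result (n : ℕ) (A B : Type u) [CommRing A] [CommRing B] [Algebra A B] :
    Submodule.span B (Set.range (PP16.dn n A B)) = ⊤ := by
  rw [Submodule.eq_top_iff']
  intro x
  obtain ⟨y, rfl⟩ := Ideal.Quotient.mk_surjective x
  induction y using TensorProduct.induction_on with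
  | zero => simp
  | tmul b c =>
    have h : (Ideal.Quotient.mk ((KaehlerDifferential.ideal A B) ^ (n + 1)) (b ⊗ₜ[A] c) : P n A B)
        = b • PP16.dn n A B c := by
      rw [Algebra.smul_def]
      show _ = Ideal.Quotient.mk ((KaehlerDifferential.ideal A B) ^ (n + 1)) (b ⊗ₜ[A] (1 : B)) *
        Ideal.Quotient.mk ((KaehlerDifferential.ideal A B) ^ (n + 1)) ((1 : B) ⊗ₜ[A] c)
      rw [← map_mul, Algebra.TensorProduct.tmul_mul_tmul, mul_one, one_mul]
    rw [h]
    exact Submodule.smul_mem _ _ (Submodule.subset_span ⟨c, rfl⟩)
  | add y z hy hz =>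
    rw [map_add]
    exact Submodule.add_mem _ hy hz

end Groth.Agent.S3805
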