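import Groth.Statements.S3808
-- import your own Groth.Agent.* helpers here

set_option autoImplicit false
universe u
open scoped TensorProduct
open PP16

namespace Groth.Agent.S3808

/-- Let A → B be a ring map, R a multiplicative subset of A, S one of B containing the image of R, and
A' = R⁻¹A, B' = S⁻¹B with the induced map A' → B'. Then the canonical map P^n_{B'/A} → P^n_{B'/A'}
is bijective. -/
theorem result (n : ℕ) (A B A' B' : Type u) [CommRing A] [CommRing B] [Algebra A B]
    [CommRing A'] [CommRing B'] [Algebra A A'] [Algebra B B'] [Algebra A' B'] [Algebra A B']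
    [IsScalarTower A A' B'] [IsScalarTower A B B'] (R : Submonoid A) (S : Submonoid B) [IsLocalization R A']
    [IsLocalization S B'] (hRS : ∀ r ∈ R, algebraMap A B r ∈ S) :
    Function.Bijective (PP16.map n A B' A' B') := by
  classical
  let e : B' ⊗[A'] B' ≃ₐ[A'] B' ⊗[A] B' := IsLocalization.algebraTensorEquiv R A' B' B'
  have he : ∀ x y : B', e (x ⊗ₜ[A'] y) = x ⊗ₜ[A] y := fun x y => rfl
  have h1 : ∀ z : B' ⊗[A] B', e (PP16.tensorMap A B' A' B' z) = z := by
    intro z
    induction z using TensorProduct.induction_on with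
    | zero => simp
    | tmul x y => rw [PP16.tensorMap_tmul, he]; rfl
    | add x y hx hy => rw [map_add, map_add, hx, hy]
  have h2 : ∀ z : B' ⊗[A'] B', PP16.tensorMap A B' A' B' (e z) = z := by
    intro z
    induction z using TensorProduct.induction_on with
    | zero => simp
    | tmul x y => rw [he, PP16.tensorMap_tmul]; rfl
    | add x y hx hy => rw [map_add, map_add, hx, hy]
  have hmul : ∀ z : B' ⊗[A'] B', Algebra.TensorProduct.lmul' A (e z) =
      Algebra.TensorProduct.lmul' A' z := by
    intro z
    induction z using TensorProduct.induction_on with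
    | zero => simp
    | tmul x y => rw [he, Algebra.TensorProduct.lmul'_apply_tmul, Algebra.TensorProduct.lmul'_apply_tmul]
    | add x y hx hy => rw [map_add, map_add, hx, hy, map_add]
  have hI : (KaehlerDifferential.ideal A' B').map e ≤ KaehlerDifferential.ideal A B' := by
    rw [Ideal.map_le_iff_le_comap]
    intro z hz
    simp only [Ideal.mem_comap, KaehlerDifferential.ideal, RingHom.mem_ker] at hz ⊢
    rw [hmul]
    exact hz
  constructor
  · rw [injective_iff_map_eq_zero]
    intro x hx
    obtain ⟨z, rfl⟩ := Ideal.Quotient.mk_surjective x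
    rw [PP16.map_mk, Ideal.Quotient.eq_zero_iff_mem] at hx
    rw [Ideal.Quotient.eq_zero_iff_mem]
    have := Ideal.mem_map_of_mem (e : B' ⊗[A'] B' →+* B' ⊗[A] B') hx
    rw [Ideal.map_pow] at this
    rw [show ((e : B' ⊗[A'] B' →+* B' ⊗[A] B') (PP16.tensorMap A B' A' B' z)) = z from h1 z] at this
    exact Ideal.pow_right_mono hI (n + 1) this
  · intro y
    obtain ⟨z, rfl⟩ := Ideal.Quotient.mk_surjective y
    refine ⟨Ideal.Quotient.mk _ (e z), ?_⟩
    rw [PP16.map_mk, h2]

end Groth.Agent.S3808
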