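import Groth.Statements.S3814
import Mathlib.RingTheory.FiniteStability
import Mathlib.RingTheory.Finiteness.ModuleFinitePresentation
import Mathlib.RingTheory.IntegralClosure.IsIntegralClosure.Basic

set_option autoImplicit false
universe u
open scoped TensorProduct
open PP16

namespace Groth.Agent.S3814

/-- If B is an A-algebra of finite presentation, then for every n the B-module P^n_{B/A} of principal
parts of order n is of finite presentation. -/
theorem result (n : ℕ) (A B : Type u) [CommRing A] [CommRing B]
    [Algebra A B] [Algebra.FinitePresentation A B] :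
    Module.FinitePresentation B (PP16.P n A B) := by
  classical
  have hfg : ((KaehlerDifferential.ideal A B) ^ (n + 1)).FG :=
    Submodule.FG.pow (KaehlerDifferential.ideal_fg A B) _
  have : Algebra.FinitePresentation B (PP16.P n A B) := Algebra.FinitePresentation.quotient hfg
  have : Algebra.IsIntegral B (PP16.P n A B) := by
    constructor
    intro x
    obtain ⟨t, rfl⟩ := Ideal.Quotient.mk_surjective x
    induction t using TensorProduct.induction_on with
    | zero => rw [map_zero]; exact isIntegral_zero
    | tmul b c =>
      have hb : ∀ b' : B, algebraMap B (PP16.P n A B) b' =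
          Ideal.Quotient.mk _ (b' ⊗ₜ[A] (1 : B)) := fun _ => rfl
      have e : (Ideal.Quotient.mk _ (b ⊗ₜ[A] c) : PP16.P n A B) =
          algebraMap B (PP16.P n A B) b * (algebraMap B (PP16.P n A B) c +
            Ideal.Quotient.mk _ ((1 : B) ⊗ₜ[A] c - c ⊗ₜ[A] (1 : B))) := by
        rw [hb, hb, ← map_add, add_sub_cancel, ← map_mul, Algebra.TensorProduct.tmul_mul_tmul,
          mul_one, one_mul]
      rw [e]
      refine IsIntegral.mul isIntegral_algebraMap (IsIntegral.add isIntegral_algebraMap ?_)
      have hpow : (Ideal.Quotient.mk ((KaehlerDifferential.ideal A B) ^ (n + 1))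
          ((1 : B) ⊗ₜ[A] c - c ⊗ₜ[A] (1 : B))) ^ (n + 1) = 0 := by
        rw [← map_pow, Ideal.Quotient.eq_zero_iff_mem]
        exact Ideal.pow_mem_pow (KaehlerDifferential.one_smul_sub_smul_one_mem_ideal A c) _
      exact ⟨Polynomial.X ^ (n + 1), Polynomial.monic_X_pow _, by
        rw [Polynomial.eval₂_X_pow, hpow]⟩
    | add x y hx hy => rw [map_add]; exact hx.add hy
  have : Module.Finite B (PP16.P n A B) := Algebra.IsIntegral.finite
  exact Module.FinitePresentation.of_finite_of_finitePresentation B (PP16.P n A B)

end Groth.Agent.S3814
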