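import Groth.Statements.S3852
-- import your own Groth.Agent.* helpers here

set_option autoImplicit false
universe u
open FCompl

namespace Groth.Agent.S3852

open AlgebraicGeometry in
/-- Second assertion; stated for quasi-coherent ideal sheaves, with the condition on supports as an
inclusion, which is what the proof uses: Let X be a Noetherian scheme and I, J ideal sheaves such
that the zero locus of J is contained in the zero locus of I. Then I^n ≤ J for some n ≥ 1. -/
theorem result
    (X : Scheme.{u}) [IsNoetherian X] (I J : X.IdealSheafData)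
    (h : (J.support : Set X) ⊆ I.support) :
    ∃ n : ℕ, I ^ (n + 1) ≤ J := by
  classical
  have hrad : I ≤ J.radical := by
    calc I ≤ I.radical := Scheme.IdealSheafData.le_radical I
      _ = Scheme.IdealSheafData.vanishingIdeal I.support :=
          Scheme.IdealSheafData.vanishingIdeal_support.symm
      _ ≤ Scheme.IdealSheafData.vanishingIdeal J.support :=
          Scheme.IdealSheafData.vanishingIdeal_antimono h
      _ = J.radical := Scheme.IdealSheafData.vanishingIdeal_support
  have hpow : ∀ U : X.affineOpens, ∃ n : ℕ, I.ideal U ^ n ≤ J.ideal U := by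
    intro U
    have : IsNoetherianRing Γ(X, U) := IsLocallyNoetherian.component_noetherian U
    exact Ideal.exists_pow_le_of_le_radical_of_fg (hrad U) (IsNoetherian.noetherian _)
  choose n hn using hpow
  obtain ⟨s, hs, hsU⟩ :=
    (isCompact_iff_finite_and_eq_biUnion_affineOpens (X := X) (U := ⊤)).mp isCompact_univ
  obtain ⟨N, hN⟩ : ∃ N, ∀ U ∈ s, n U ≤ N :=
    ⟨∑ U ∈ hs.toFinset, n U, fun U hU =>
      Finset.single_le_sum (fun _ _ => Nat.zero_le _) (hs.mem_toFinset.mpr hU)⟩
  refine ⟨N, Scheme.IdealSheafData.le_of_iSup_eq_top (fun U : s => U.1) ?_ (fun U => ?_)⟩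
  · apply le_antisymm le_top
    rw [hsU]
    exact iSup₂_le fun i hi => le_iSup (fun U : s => (U.1 : X.Opens)) ⟨i, hi⟩
  · rw [Scheme.IdealSheafData.ideal_pow, Pi.pow_apply]
    exact (Ideal.pow_le_pow_right (by have := hN U.1 U.2; omega)).trans (hn U.1)

end Groth.Agent.S3852
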