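import Groth.Statements.S3873
-- import your own Groth.Agent.* helpers here

set_option autoImplicit false
universe u
open FCompl

namespace Groth.Agent.S3873

open AlgebraicGeometry

theorem ofIdealTop_ideal_top {X : Scheme.{u}} [IsAffine X] (K : Ideal Γ(X, ⊤)) :
    (Scheme.IdealSheafData.ofIdealTop K).ideal ⟨⊤, isAffineOpen_top X⟩ = K := by
  simp

theorem comap_eq_ofIdealTop {X Y : Scheme.{u}} [IsAffine X] [IsAffine Y] (f : X ⟶ Y)
    (J : Y.IdealSheafData) :
    J.comap f = Scheme.IdealSheafData.ofIdealTop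
      ((J.ideal ⟨⊤, isAffineOpen_top Y⟩).map f.appTop.hom) := by
  refine eq_of_forall_ge_iff fun I => ?_
  rw [← Scheme.IdealSheafData.le_map_iff_comap_le]
  have e1 : J ≤ I.map f ↔ J.ideal ⟨⊤, isAffineOpen_top Y⟩ ≤
      (I.map f).ideal ⟨⊤, isAffineOpen_top Y⟩ :=
    ⟨fun h => h _, Scheme.IdealSheafData.le_of_isAffine⟩
  rw [e1, Scheme.IdealSheafData.ideal_map_of_isAffineHom, ← Ideal.map_le_iff_le_comap]
  have e2 : ∀ K : Ideal Γ(X, ⊤), Scheme.IdealSheafData.ofIdealTop K ≤ I ↔
      K ≤ I.ideal ⟨⊤, isAffineOpen_top X⟩ := fun K =>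
    ⟨fun h => (ofIdealTop_ideal_top K).symm.le.trans (h _),
      fun h => Scheme.IdealSheafData.le_of_isAffine ((ofIdealTop_ideal_top K).le.trans h)⟩
  rw [e2]
  rfl

theorem ker_appTop_SpecMap {R S : Type u} [CommRing R] [CommRing S] (g : R →+* S) :
    RingHom.ker (Spec.map (CommRingCat.ofHom g)).appTop.hom =
      (RingHom.ker g).comap (Scheme.ΓSpecIso (CommRingCat.of R)).hom.hom := by
  ext x
  have h := congrArg (fun h => h.hom x) (Scheme.ΓSpecIso_naturality (CommRingCat.ofHom g))
  simp only [CommRingCat.hom_comp, RingHom.comp_apply, CommRingCat.hom_ofHom] at h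
  rw [RingHom.mem_ker, Ideal.mem_comap, RingHom.mem_ker, ← h]
  constructor
  · intro hx; rw [hx, map_zero]
  · intro hx
    have hinj := (Scheme.ΓSpecIso (CommRingCat.of S)).commRingCatIsoToRingEquiv.injective
    exact hinj (by rw [map_zero]; exact hx)

theorem map_comap_appTop {A B : Type u} [CommRing A] [CommRing B] (φ : B →+* A) (I : Ideal B) :
    (I.comap (Scheme.ΓSpecIso (CommRingCat.of B)).hom.hom).map
        (Spec.map (CommRingCat.ofHom φ)).appTop.hom =
      (I.map φ).comap (Scheme.ΓSpecIso (CommRingCat.of A)).hom.hom := by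
  let eA := (Scheme.ΓSpecIso (CommRingCat.of A)).commRingCatIsoToRingEquiv
  let eB := (Scheme.ΓSpecIso (CommRingCat.of B)).commRingCatIsoToRingEquiv
  have hA : (Scheme.ΓSpecIso (CommRingCat.of A)).hom.hom =
      (eA : Γ(Spec (CommRingCat.of A), ⊤) →+* A) := rfl
  have hB : (Scheme.ΓSpecIso (CommRingCat.of B)).hom.hom =
      (eB : Γ(Spec (CommRingCat.of B), ⊤) →+* B) := rfl
  have hnat : (Spec.map (CommRingCat.ofHom φ)).appTop.hom =
      (eA.symm : A →+* _).comp (φ.comp (eB : _ →+* B)) := by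
    ext x
    have h := congrArg (fun h => h.hom x) (Scheme.ΓSpecIso_naturality (CommRingCat.ofHom φ))
    simp only [CommRingCat.hom_comp, RingHom.comp_apply, CommRingCat.hom_ofHom] at h
    apply eA.injective
    simp only [RingHom.comp_apply, RingHom.coe_coe, RingEquiv.apply_symm_apply]
    exact h
  rw [hA, hB, hnat, ← Ideal.map_map, ← Ideal.map_map,
    Ideal.map_comap_of_surjective (eB : Γ(Spec (CommRingCat.of B), ⊤) →+* B) eB.surjective,
    Ideal.map_comap_of_equiv, RingEquiv.symm_symm, Ideal.comap_coe]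

end Groth.Agent.S3873

namespace Groth.Agent.S3873

open AlgebraicGeometry in
/-- Its content on the affine schemes underlying the formal spectra: the inverse image ideal of b^Δ is
(bA)^Δ, read on Spec: For a ring homomorphism φ : B -> A and an ideal b of B, the inverse image
along Spec(φ) of the ideal sheaf of b on Spec B is the ideal sheaf on Spec A of the ideal generated
by φ(b). -/
theorem result (A B : Type u) [CommRing A] [CommRing B] (φ : B →+* A) (𝔟 : Ideal B) :
    (FSch.idealSpec B 𝔟).comap (Spec.map (CommRingCat.ofHom φ)) = FSch.idealSpec A (𝔟.map φ) := by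
  rw [FSch.idealSpec, FSch.idealSpec, comap_eq_ofIdealTop, Scheme.ker_of_isAffine,
    Scheme.ker_of_isAffine, ofIdealTop_ideal_top, ker_appTop_SpecMap, ker_appTop_SpecMap,
    Ideal.mk_ker, Ideal.mk_ker, map_comap_appTop]

end Groth.Agent.S3873
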