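import Groth.Statements.S3861
import Groth.Agent.S3873

set_option autoImplicit false
universe u
open FCompl

namespace Groth.Agent.S3861

open CategoryTheory CategoryTheory.Limits AlgebraicGeometry

theorem comap_mul_equiv {R S : Type*} [CommRing R] [CommRing S] (E : R ≃+* S) (I J : Ideal S) :
    (I * J).comap (E : R →+* S) = I.comap (E : R →+* S) * J.comap (E : R →+* S) := by
  simp only [Ideal.comap_coe]
  rw [← Ideal.map_symm, ← Ideal.map_symm, ← Ideal.map_symm, Ideal.map_mul]

theorem comap_mul_of_isOpenImmersion {U X : Scheme.{u}} (h : U ⟶ X) [IsOpenImmersion h]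
    (I J : X.IdealSheafData) : (I * J).comap h = I.comap h * J.comap h := by
  ext W : 2
  rw [Scheme.IdealSheafData.ideal_mul, Pi.mul_apply,
    Scheme.IdealSheafData.ideal_comap_of_isOpenImmersion,
    Scheme.IdealSheafData.ideal_comap_of_isOpenImmersion,
    Scheme.IdealSheafData.ideal_comap_of_isOpenImmersion, Scheme.IdealSheafData.ideal_mul,
    Pi.mul_apply]
  exact comap_mul_equiv (h.appIso W).symm.commRingCatIsoToRingEquiv _ _

theorem comap_mul_of_isAffine {U V : Scheme.{u}} [IsAffine U] [IsAffine V] (g : U ⟶ V)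
    (I J : V.IdealSheafData) : (I * J).comap g = I.comap g * J.comap g := by
  rw [Groth.Agent.S3873.comap_eq_ofIdealTop, Groth.Agent.S3873.comap_eq_ofIdealTop,
    Groth.Agent.S3873.comap_eq_ofIdealTop, Scheme.IdealSheafData.ideal_mul, Pi.mul_apply,
    Ideal.map_mul]
  exact map_mul (Scheme.IdealSheafData.equivOfIsAffine (X := U)).symm _ _


open AlgebraicGeometry in
/-- For a morphism of schemes f : X -> Y and quasi-coherent ideal sheaves K₁, K₂ on Y, the inverse image
ideal sheaf of K₁K₂ is the product of the inverse image ideal sheaves of K₁ and K₂. -/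
theorem result {X Y : Scheme.{u}} (f : X ⟶ Y) (K₁ K₂ : Y.IdealSheafData) :
    (K₁ * K₂).comap f = K₁.comap f * K₂.comap f := by
  classical
  have hx : ∀ x : X, ∃ (U : X.affineOpens) (V : Y.affineOpens), x ∈ U.1 ∧ U.1 ≤ f ⁻¹ᵁ V.1 := by
    intro x
    obtain ⟨_, ⟨V, hV, rfl⟩, hfxV, -⟩ :=
      Y.isBasis_affineOpens.exists_subset_of_mem_open (Set.mem_univ (f.base x)) isOpen_univ
    obtain ⟨_, ⟨U, hU, rfl⟩, hxU, hUV⟩ :=
      X.isBasis_affineOpens.exists_subset_of_mem_open (show x ∈ f ⁻¹ᵁ V from hfxV) (f ⁻¹ᵁ V).2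
    exact ⟨⟨U, hU⟩, ⟨V, hV⟩, hxU, hUV⟩
  choose U V hxU hUV using hx
  refine Scheme.IdealSheafData.ext_of_iSup_eq_top U
    (eq_top_iff.mpr fun y _ => TopologicalSpace.Opens.mem_iSup.mpr ⟨y, hxU y⟩) (fun x => ?_)
  have hdet : ∀ A B : X.IdealSheafData, A.comap (U x).1.ι = B.comap (U x).1.ι →
      A.ideal (U x) = B.ideal (U x) := by
    intro A B h
    have h1 := congrArg (fun I => I.ideal ⟨⊤, isAffineOpen_top _⟩) h
    simp only [Scheme.IdealSheafData.ideal_comap_of_isOpenImmersion] at h1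
    have h2 := Ideal.comap_injective_of_surjective _
      ((U x).1.ι.appIso ⊤).symm.commRingCatIsoToRingEquiv.surjective h1
    have hUU : (⟨(U x).1.ι ''ᵁ ⊤, (isAffineOpen_top _).image_of_isOpenImmersion (U x).1.ι⟩ :
        X.affineOpens) = U x := Subtype.ext (Scheme.Opens.ι_image_top _)
    have key : ∀ W W' : X.affineOpens, W = W' → A.ideal W = B.ideal W →
        A.ideal W' = B.ideal W' := by
      rintro W _ rfl hW; exact hW
    exact key _ _ hUU h2
  apply hdet
  have hg : f.resLE (V x).1 (U x).1 (hUV x) ≫ (V x).1.ι = (U x).1.ι ≫ f :=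
    Scheme.Hom.resLE_comp_ι _ _
  rw [comap_mul_of_isOpenImmersion (U x).1.ι (K₁.comap f) (K₂.comap f),
    ← Scheme.IdealSheafData.comap_comp,
    ← Scheme.IdealSheafData.comap_comp, ← Scheme.IdealSheafData.comap_comp, ← hg,
    Scheme.IdealSheafData.comap_comp, Scheme.IdealSheafData.comap_comp,
    Scheme.IdealSheafData.comap_comp, comap_mul_of_isOpenImmersion (V x).1.ι K₁ K₂,
    comap_mul_of_isAffine]

end Groth.Agent.S3861
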