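import Groth.Statements.S3862
import Groth.Agent.S3861

set_option autoImplicit false
universe u
open FCompl

namespace Groth.Agent.S3862

open AlgebraicGeometry CategoryTheory

theorem comap_pow {X Y : Scheme.{u}} (f : X ⟶ Y) (K : Y.IdealSheafData) (n : ℕ) :
    (K ^ n).comap f = (K.comap f) ^ n := by
  induction n with
  | zero => rw [pow_zero, pow_zero]; exact Scheme.IdealSheafData.comap_top f
  | succ n ih => rw [pow_succ, pow_succ, Groth.Agent.S3861.result, ih]

end Groth.Agent.S3862

namespace Groth.Agent.S3862

open AlgebraicGeometry in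
open CategoryTheory in
/-- Completions are presented by the closed subschemes cut out by the powers of an ideal sheaf 𝓚 on Y
and by the powers of its inverse image ideal on X. For a morphism of schemes f : X → Y, the
completion X̂ of X along the inverse image ideal is X ×_Y Ŷ: at every level n the square formed by
the inclusion X'_n → X, the completed morphism X'_n → Y'_n, f and the inclusion Y'_n → Y is
cartesian, and the completed morphism X̂ → Ŷ is adic (each square X'_n → X'_(n+1), Y'_n → Y'_(n+1)
is cartesian). The compatibility of f with the powers of the two ideals (the inverse image of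
𝓚^(n+1) is contained in the (n+1)-st power of the inverse image ideal of 𝓚), needed to define the
completed morphism, holds for inverse image ideals and is carried as the hypothesis h. -/
theorem result {X Y : Scheme.{u}} (f : X ⟶ Y) (𝓚 : Y.IdealSheafData)
    (h : FSch.PowCompat f (𝓚.comap f) 𝓚) :
    (∀ n : ℕ, IsPullback (FSch.completionToX X (𝓚.comap f) n)
        ((FSch.completionMap f (𝓚.comap f) 𝓚 h : FSch.Hom _ _).app n) f (FSch.completionToX Y 𝓚 n)) ∧
      FSch.IsAdicHom (FSch.completionMap f (𝓚.comap f) 𝓚 h) := by
  have hsq : ∀ n : ℕ, CategoryTheory.IsPullback (FSch.completionToX X (𝓚.comap f) n)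
      ((FSch.completionMap f (𝓚.comap f) 𝓚 h : FSch.Hom _ _).app n) f (FSch.completionToX Y 𝓚 n) := by
    intro n
    have : IsClosedImmersion (FSch.completionToX X (𝓚.comap f) n) :=
      inferInstanceAs (IsClosedImmersion ((𝓚.comap f) ^ (n + 1)).subschemeι)
    have : IsClosedImmersion (FSch.completionToX Y 𝓚 n) :=
      inferInstanceAs (IsClosedImmersion (𝓚 ^ (n + 1)).subschemeι)
    refine isPullback_of_isClosedImmersion _ _ _ _ ?_ ?_
    · exact (Scheme.IdealSheafData.subschemeMap_subschemeι _ _ _
        (Scheme.IdealSheafData.le_map_iff_comap_le.mpr (h n))).symm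
    · show ((𝓚 ^ (n + 1)).subschemeι).ker.comap f = (((𝓚.comap f) ^ (n + 1)).subschemeι).ker
      rw [Scheme.IdealSheafData.ker_subschemeι, Scheme.IdealSheafData.ker_subschemeι]
      exact Groth.Agent.S3862.comap_pow f 𝓚 (n + 1)
  refine ⟨hsq, fun n => ?_⟩
  refine CategoryTheory.IsPullback.of_right ?_ ((FSch.completionMap f (𝓚.comap f) 𝓚 h : FSch.Hom _ _).comm n).symm
    (hsq (n + 1))
  have e1 : (FSch.completionAlong X (𝓚.comap f)).ι n ≫ FSch.completionToX X (𝓚.comap f) (n + 1) =
      FSch.completionToX X (𝓚.comap f) n :=
    Scheme.IdealSheafData.inclusion_subschemeι _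
  have e2 : (FSch.completionAlong Y 𝓚).ι n ≫ FSch.completionToX Y 𝓚 (n + 1) =
      FSch.completionToX Y 𝓚 n :=
    Scheme.IdealSheafData.inclusion_subschemeι _
  rw [e1, e2]
  exact hsq n

end Groth.Agent.S3862
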