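import Groth.Statements.S3867
import Groth.Agent.S3873
import Mathlib.RingTheory.Ideal.Quotient.PowTransition
import Mathlib.RingTheory.Nakayama
import Mathlib.RingTheory.AdicCompletion.Basic

set_option autoImplicit false
universe u
open FCompl

namespace Groth.Agent.S3867

open AlgebraicGeometry CategoryTheory

theorem ker_SpecMap {R S : Type u} [CommRing R] [CommRing S] (g : R →+* S) :
    (Spec.map (CommRingCat.ofHom g)).ker = Scheme.IdealSheafData.ofIdealTop
      ((RingHom.ker g).comap (Scheme.ΓSpecIso (CommRingCat.of R)).hom.hom) := by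
  rw [Scheme.ker_of_isAffine, Groth.Agent.S3873.ker_appTop_SpecMap]

theorem comap_ofIdealTop_SpecMap {R S : Type u} [CommRing R] [CommRing S] (g : R →+* S)
    (J : Ideal R) :
    (Scheme.IdealSheafData.ofIdealTop (J.comap (Scheme.ΓSpecIso (CommRingCat.of R)).hom.hom)).comap
        (Spec.map (CommRingCat.ofHom g)) =
      Scheme.IdealSheafData.ofIdealTop ((J.map g).comap (Scheme.ΓSpecIso (CommRingCat.of S)).hom.hom) := by
  rw [Groth.Agent.S3873.comap_eq_ofIdealTop, Groth.Agent.S3873.ofIdealTop_ideal_top,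
    Groth.Agent.S3873.map_comap_appTop]

theorem ofIdealTop_comap_inj {R : Type u} [CommRing R] {J J' : Ideal R} :
    Scheme.IdealSheafData.ofIdealTop (J.comap (Scheme.ΓSpecIso (CommRingCat.of R)).hom.hom) =
      Scheme.IdealSheafData.ofIdealTop (J'.comap (Scheme.ΓSpecIso (CommRingCat.of R)).hom.hom) ↔
      J = J' := by
  constructor
  · intro h
    have h1 := congrArg (fun I => I.ideal ⟨⊤, isAffineOpen_top _⟩) h
    simp only [Groth.Agent.S3873.ofIdealTop_ideal_top] at h1
    exact Ideal.comap_injective_of_surjective _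
      (Scheme.ΓSpecIso (CommRingCat.of R)).commRingCatIsoToRingEquiv.surjective h1
  · intro h; rw [h]

theorem isPullback_iff_ker {ZX ZY X Y : Scheme.{u}} (iX : ZX ⟶ X) (iY : ZY ⟶ Y) (Zf : ZX ⟶ ZY)
    (f : X ⟶ Y) [IsClosedImmersion iX] [IsClosedImmersion iY] (hc : iX ≫ f = Zf ≫ iY) :
    IsPullback iX Zf f iY ↔ iY.ker.comap f = iX.ker := by
  constructor
  · intro hP
    rw [← Scheme.IdealSheafData.ker_fst_of_isClosedImmersion, ← hP.isoPullback_hom_fst,
      Scheme.Hom.ker_comp_of_isIso]
  · intro h
    exact isPullback_of_isClosedImmersion iX iY Zf f hc h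

end Groth.Agent.S3867

namespace Groth.Agent.S3867

open AlgebraicGeometry in
/-- Formal spectra are presented as the systems Spec(A/I^(n+1)) and Spec(B/K^(n+1)), a morphism of
systems being adic when all its squares are cartesian. Let A be a Noetherian ring, complete and
separated for the I-adic topology of an ideal I, K an ideal of a ring B and φ : B → A a ring
homomorphism with φ(K) ⊆ I. Then the induced morphism Spf(A) → Spf(B) is adic if and only if the
ideal of A generated by φ(K) is I. -/
theorem result (A B : Type u) [CommRing A] [CommRing B] [IsNoetherianRing A]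
    (I : Ideal A) (K : Ideal B) [IsAdicComplete I A] (φ : B →+* A) (h : K ≤ I.comap φ) :
    FSch.IsAdicHom (FSch.spfMap I K φ h) ↔ K.map φ = I := by
  classical
  have key : ∀ n : ℕ, CategoryTheory.IsPullback ((FSch.spf A I).ι n) ((FSch.spfMap I K φ h : FSch.Hom _ _).app n)
      ((FSch.spfMap I K φ h : FSch.Hom _ _).app (n + 1)) ((FSch.spf B K).ι n) ↔
      ((K.map φ) ^ (n + 1)).map (Ideal.Quotient.mk (I ^ (n + 2))) =
        (I ^ (n + 1)).map (Ideal.Quotient.mk (I ^ (n + 2))) := by
    intro n
    have hsA : Function.Surjective (Ideal.Quotient.factor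
        (Ideal.pow_le_pow_right (Nat.le_succ (n + 1))) : A ⧸ I ^ (n + 2) →+* A ⧸ I ^ (n + 1)) :=
      Ideal.Quotient.factor_surjective _
    have hsB : Function.Surjective (Ideal.Quotient.factor
        (Ideal.pow_le_pow_right (Nat.le_succ (n + 1))) : B ⧸ K ^ (n + 2) →+* B ⧸ K ^ (n + 1)) :=
      Ideal.Quotient.factor_surjective _
    have : IsClosedImmersion ((FSch.spf A I).ι n) :=
      IsClosedImmersion.spec_of_surjective _ hsA
    have : IsClosedImmersion ((FSch.spf B K).ι n) :=
      IsClosedImmersion.spec_of_surjective _ hsB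
    rw [Groth.Agent.S3867.isPullback_iff_ker _ _ _ _ ((FSch.spfMap I K φ h : FSch.Hom _ _).comm n).symm]
    change (Spec.map (CommRingCat.ofHom _)).ker.comap (Spec.map (CommRingCat.ofHom _)) =
      (Spec.map (CommRingCat.ofHom _)).ker ↔ _
    rw [Groth.Agent.S3867.ker_SpecMap, Groth.Agent.S3867.ker_SpecMap,
      Groth.Agent.S3867.comap_ofIdealTop_SpecMap, Groth.Agent.S3867.ofIdealTop_comap_inj,
      Ideal.Quotient.factor_ker, Ideal.Quotient.factor_ker, Ideal.map_map,
      show (FSch.quotPowMap I K φ h (n + 1)).comp (Ideal.Quotient.mk (K ^ (n + 1 + 1))) =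
        (Ideal.Quotient.mk (I ^ (n + 1 + 1))).comp φ from Ideal.quotientMap_comp_mk _,
      ← Ideal.map_map, Ideal.map_pow]
  constructor
  · intro hA
    have h0 := (key 0).mp (hA 0)
    simp only [zero_add, pow_one] at h0
    have h1 := congrArg (Ideal.comap (Ideal.Quotient.mk (I ^ 2))) h0
    rw [Ideal.comap_map_of_surjective _ Ideal.Quotient.mk_surjective,
      Ideal.comap_map_of_surjective _ Ideal.Quotient.mk_surjective, ← RingHom.ker_eq_comap_bot,
      Ideal.mk_ker] at h1
    have hKI : K.map φ ≤ I := Ideal.map_le_iff_le_comap.mpr h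
    have hI2 : I ^ 2 ≤ I := Ideal.pow_le_self two_ne_zero
    rw [sup_eq_left.mpr hI2] at h1
    refine le_antisymm hKI ?_
    refine Submodule.le_of_le_smul_of_le_jacobson_bot (IsNoetherian.noetherian I)
      (IsAdicComplete.le_jacobson_bot I) ?_
    rw [Ideal.smul_eq_mul, ← pow_two]
    exact h1.ge
  · intro hKI n
    exact (key n).mpr (by rw [hKI])

end Groth.Agent.S3867
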