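import Groth.Statements.S3854
import Groth.Agent.S3862
import Groth.Agent.S3867

set_option autoImplicit false
universe u
open FCompl

namespace Groth.Agent.S3854

open AlgebraicGeometry CategoryTheory

theorem toX_comp (X : Scheme.{u}) (𝓘 : X.IdealSheafData) (k : ℕ) :
    (FSch.completionAlong X 𝓘).toX k ≫ FSch.completionToX X 𝓘 k = FSch.completionToX X 𝓘 0 := by
  induction k with
  | zero => exact Category.id_comp _
  | succ k ih =>
    show ((FSch.completionAlong X 𝓘).toX k ≫ (FSch.completionAlong X 𝓘).ι k) ≫
      FSch.completionToX X 𝓘 (k + 1) = _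
    rw [Category.assoc]
    have : (FSch.completionAlong X 𝓘).ι k ≫ FSch.completionToX X 𝓘 (k + 1) =
        FSch.completionToX X 𝓘 k := Scheme.IdealSheafData.inclusion_subschemeι _
    rw [this, ih]

theorem isPullback_mono {C : Type*} [Category C] {A B D : C} (f : A ⟶ B) (m : B ⟶ D) [Mono m] :
    CategoryTheory.IsPullback f (𝟙 A) m (f ≫ m) := by
  have h1 : CategoryTheory.IsPullback f (𝟙 A) (𝟙 B) f := CategoryTheory.IsPullback.of_vert_isIso ⟨by simp⟩
  have h2 : CategoryTheory.IsPullback (𝟙 B) (𝟙 B) m m := CategoryTheory.IsKernelPair.id_of_mono m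
  have := h1.paste_horiz h2
  simpa using this

theorem main (X : Scheme.{u}) [IsLocallyNoetherian X]
    (𝓘 : X.IdealSheafData) : (FSch.completionAlong X 𝓘).IsLocNoethFormal := by
  classical
  let c := FSch.completionToX X 𝓘
  have hc : ∀ n, IsClosedImmersion (c n) := fun n =>
    inferInstanceAs (IsClosedImmersion (𝓘 ^ (n + 1)).subschemeι)
  have hιc : ∀ n, (FSch.completionAlong X 𝓘).ι n ≫ c (n + 1) = c n := fun n =>
    Scheme.IdealSheafData.inclusion_subschemeι _
  have hci : ∀ n, IsClosedImmersion ((FSch.completionAlong X 𝓘).ι n) := by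
    intro n
    have := hc n
    have := hc (n + 1)
    have : IsClosedImmersion ((FSch.completionAlong X 𝓘).ι n ≫ c (n + 1)) := by
      rw [hιc n]; exact hc n
    exact IsClosedImmersion.of_comp_isClosedImmersion _ (c (n + 1))
  have hciX : ∀ k, IsClosedImmersion ((FSch.completionAlong X 𝓘).toX k) := by
    intro k
    induction k with
    | zero => exact (inferInstance : IsClosedImmersion (𝟙 ((FSch.completionAlong X 𝓘).X 0)))
    | succ k ih =>
      have := hci k
      exact (inferInstance : IsClosedImmersion
        ((FSch.completionAlong X 𝓘).toX k ≫ (FSch.completionAlong X 𝓘).ι k))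
  refine ⟨fun n => ⟨hci n, ?_⟩, fun n => ?_, fun n => ?_⟩
  · -- surjectivity
    intro y
    have hy : (c (n + 1)).base y ∈ Set.range (c n).base := by
      have h1 : Set.range (c (n + 1)).base = Set.range (c n).base := by
        show Set.range (𝓘 ^ (n + 1 + 1)).subschemeι.base = Set.range (𝓘 ^ (n + 1)).subschemeι.base
        rw [Scheme.IdealSheafData.range_subschemeι, Scheme.IdealSheafData.range_subschemeι,
          Scheme.IdealSheafData.support_pow_succ, Scheme.IdealSheafData.support_pow_succ]
      rw [← h1]; exact ⟨y, rfl⟩
    obtain ⟨x, hx⟩ := hy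
    refine ⟨x, ?_⟩
    have := hc (n + 1)
    apply (c (n + 1)).isClosedEmbedding.injective
    rw [← hx, ← Scheme.Hom.comp_apply, hιc n]
  · -- adic
    have := hc 0
    have := hc n
    have := hc (n + 1)
    have := hci n
    have := hciX (n + 1)
    have e1 := (Groth.Agent.S3867.isPullback_iff_ker ((FSch.completionAlong X 𝓘).ι n) (c n)
      (𝟙 _) (c (n + 1)) (by rw [hιc n, Category.id_comp])).mp
      (by have := isPullback_mono ((FSch.completionAlong X 𝓘).ι n) (c (n + 1))
          rw [hιc n] at this; exact this)
    have e2 := (Groth.Agent.S3867.isPullback_iff_ker ((FSch.completionAlong X 𝓘).toX (n + 1)) (c 0)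
      (𝟙 _) (c (n + 1)) (by rw [toX_comp, Category.id_comp])).mp
      (by have := isPullback_mono ((FSch.completionAlong X 𝓘).toX (n + 1)) (c (n + 1))
          rw [toX_comp] at this; exact this)
    rw [← e1, ← e2]
    show ((𝓘 ^ (n + 1)).subschemeι).ker.comap (c (n + 1)) =
      (((𝓘 ^ (0 + 1)).subschemeι).ker.comap (c (n + 1))) ^ (n + 1)
    rw [Scheme.IdealSheafData.ker_subschemeι, Scheme.IdealSheafData.ker_subschemeι, zero_add,
      pow_one]
    exact Groth.Agent.S3862.comap_pow (c (n + 1)) 𝓘 (n + 1)
  · show IsLocallyNoetherian (𝓘 ^ (n + 1)).subscheme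
    exact LocallyOfFiniteType.isLocallyNoetherian (𝓘 ^ (n + 1)).subschemeι

end Groth.Agent.S3854

namespace Groth.Agent.S3854

open AlgebraicGeometry in
/-- The completion along a closed subset, presented as the system of closed subschemes cut out by the
powers of an ideal sheaf: Let X be a locally Noetherian scheme and I an ideal sheaf on X. The closed
subschemes defined by I, I^2, I^3, ... with their inclusions form a locally Noetherian adic formal
system: each inclusion is a surjective closed immersion, the kernel ideal of the n-th inclusion is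
the (n+1)-st power of the kernel ideal of the composite inclusion from level 0, and every level is
locally Noetherian. -/
theorem result (X : Scheme.{u}) [IsLocallyNoetherian X]
    (𝓘 : X.IdealSheafData) : (FSch.completionAlong X 𝓘).IsLocNoethFormal := by
  exact Groth.Agent.S3854.main X 𝓘

end Groth.Agent.S3854
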