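import Groth.Statements.S3855
import Groth.Agent.S3867

set_option autoImplicit false
universe u
open FCompl

namespace Groth.Agent.S3855

open AlgebraicGeometry CategoryTheory

theorem ofIdealTop_pow {X : Scheme.{u}} [IsAffine X] (K : Ideal Γ(X, ⊤)) (m : ℕ) :
    Scheme.IdealSheafData.ofIdealTop K ^ m = Scheme.IdealSheafData.ofIdealTop (K ^ m) := by
  rw [← Scheme.IdealSheafData.equivOfIsAffine_symm_apply,
    ← Scheme.IdealSheafData.equivOfIsAffine_symm_apply, map_pow]

theorem comap_pow_equiv {R S : Type u} [CommRing R] [CommRing S] (e : R ≃+* S) (K : Ideal S)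
    (m : ℕ) : (K ^ m).comap e = (K.comap e) ^ m := by
  rw [← Ideal.map_symm, ← Ideal.map_symm, Ideal.map_pow]

theorem toX_spf (A : Type u) [CommRing A] (J : Ideal A) (k : ℕ) :
    (FSch.spf A J).toX k = Spec.map (CommRingCat.ofHom (Ideal.Quotient.factor
      (Ideal.pow_le_pow_right (Nat.succ_le_succ (Nat.zero_le k))) :
        A ⧸ J ^ (k + 1) →+* A ⧸ J ^ (0 + 1))) := by
  induction k with
  | zero =>
    have : (Ideal.Quotient.factor (Ideal.pow_le_pow_right (Nat.succ_le_succ (Nat.zero_le 0))) :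
        A ⧸ J ^ (0 + 1) →+* A ⧸ J ^ (0 + 1)) = RingHom.id _ := by
      apply Ideal.Quotient.ringHom_ext; ext x; rfl
    rw [this]
    exact (Spec.map_id _).symm
  | succ k ih =>
    change (FSch.spf A J).toX k ≫ (FSch.spf A J).ι k = _
    rw [ih]
    change Spec.map _ ≫ Spec.map _ = _
    rw [← Spec.map_comp, ← CommRingCat.ofHom_comp]
    congr 2
    apply Ideal.Quotient.ringHom_ext; ext x; rfl

end Groth.Agent.S3855

namespace Groth.Agent.S3855

open AlgebraicGeometry in
/-- Sufficiency (the formal spectrum presented as the system Spec(A/J) -> Spec(A/J^2) -> ...). For a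
Noetherian ring A and an ideal J this system is a locally Noetherian adic formal system: the
transition maps are surjective closed immersions, the kernel ideal of Spec(A/J^(n+1)) ->
Spec(A/J^(n+2)) is the (n+1)-st power of that of Spec(A/J) -> Spec(A/J^(n+2)), and every level is
locally Noetherian. -/
theorem result (A : Type u) [CommRing A] [IsNoetherianRing A] (J : Ideal A) :
    (FSch.spf A J).IsLocNoethFormal := by
  classical
  refine ⟨fun n => ⟨?_, ?_⟩, fun n => ?_, fun n => ?_⟩
  · exact IsClosedImmersion.spec_of_surjective (CommRingCat.ofHom (Ideal.Quotient.factor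
      (Ideal.pow_le_pow_right (Nat.le_succ (n + 1))) : A ⧸ J ^ (n + 2) →+* A ⧸ J ^ (n + 1)))
      (Ideal.Quotient.factor_surjective (Ideal.pow_le_pow_right (Nat.le_succ (n + 1))))
  · intro P
    let g : A ⧸ J ^ (n + 2) →+* A ⧸ J ^ (n + 1) :=
      Ideal.Quotient.factor (Ideal.pow_le_pow_right (Nat.le_succ (n + 1)))
    have hg : Function.Surjective g := Ideal.Quotient.factor_surjective _
    have hker : RingHom.ker g ≤ P.asIdeal := by
      intro x hx
      apply P.isPrime.mem_of_pow_mem 2
      have hx' : x ∈ (J ^ (n + 1)).map (Ideal.Quotient.mk (J ^ (n + 2))) := by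
        rwa [Ideal.Quotient.factor_ker] at hx
      have h2 : x ^ 2 ∈ ((J ^ (n + 1)).map (Ideal.Quotient.mk (J ^ (n + 2)))) ^ 2 :=
        Ideal.pow_mem_pow hx' 2
      rw [← Ideal.map_pow, ← pow_mul] at h2
      have h3 : ((J ^ ((n + 1) * 2)).map (Ideal.Quotient.mk (J ^ (n + 2)))) = ⊥ := by
        rw [Ideal.map_eq_bot_iff_le_ker, Ideal.mk_ker]
        exact Ideal.pow_le_pow_right (by nlinarith)
      rw [h3] at h2
      rw [Ideal.mem_bot] at h2
      rw [h2]; exact P.asIdeal.zero_mem
    have := P.isPrime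
    have : (P.asIdeal.map g).IsPrime := Ideal.map_isPrime_of_surjective hg hker
    refine ⟨⟨P.asIdeal.map g, inferInstance⟩, ?_⟩
    apply PrimeSpectrum.ext
    change (P.asIdeal.map g).comap g = P.asIdeal
    rw [Ideal.comap_map_of_surjective _ hg, ← RingHom.ker_eq_comap_bot, sup_eq_left.mpr hker]
  · have h1 : ((FSch.spf A J).ι n).ker = Scheme.IdealSheafData.ofIdealTop
        (((J ^ (n + 1)).map (Ideal.Quotient.mk (J ^ (n + 2)))).comap
          (Scheme.ΓSpecIso (CommRingCat.of (A ⧸ J ^ (n + 2)))).hom.hom) := by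
      have := Groth.Agent.S3867.ker_SpecMap (Ideal.Quotient.factor
        (Ideal.pow_le_pow_right (Nat.le_succ (n + 1))) : A ⧸ J ^ (n + 2) →+* A ⧸ J ^ (n + 1))
      rw [Ideal.Quotient.factor_ker] at this
      exact this
    have h2 : ((FSch.spf A J).toX (n + 1)).ker = Scheme.IdealSheafData.ofIdealTop
        (((J ^ (0 + 1)).map (Ideal.Quotient.mk (J ^ (n + 2)))).comap
          (Scheme.ΓSpecIso (CommRingCat.of (A ⧸ J ^ (n + 2)))).hom.hom) := by
      have := Groth.Agent.S3867.ker_SpecMap (Ideal.Quotient.factor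
        (Ideal.pow_le_pow_right (Nat.succ_le_succ (Nat.zero_le (n + 1)))) :
          A ⧸ J ^ (n + 1 + 1) →+* A ⧸ J ^ (0 + 1))
      rw [Ideal.Quotient.factor_ker] at this
      exact (congrArg Scheme.Hom.ker (Groth.Agent.S3855.toX_spf A J (n + 1))).trans this
    rw [h1, h2]
    refine Eq.trans ?_ (Groth.Agent.S3855.ofIdealTop_pow
      (X := Spec (CommRingCat.of (A ⧸ J ^ (n + 2)))) _ _).symm
    congr 1
    rw [show (Scheme.ΓSpecIso (CommRingCat.of (A ⧸ J ^ (n + 2)))).hom.hom =
      ((Scheme.ΓSpecIso (CommRingCat.of (A ⧸ J ^ (n + 2)))).commRingCatIsoToRingEquiv :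
        _ →+* _) from rfl, Ideal.comap_coe, Ideal.comap_coe,
      ← Groth.Agent.S3855.comap_pow_equiv, ← Ideal.map_pow, ← pow_mul, zero_add, one_mul]
  · show IsLocallyNoetherian (Spec (CommRingCat.of (A ⧸ J ^ (n + 1))))
    infer_instance

end Groth.Agent.S3855
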