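import Groth.Statements.S3859
-- import your own Groth.Agent.* helpers here

set_option autoImplicit false
universe u
open FCompl

namespace Groth.Agent.S3859

open AlgebraicGeometry in
open CategoryTheory in
/-- In the presentation by systems of thickenings: For morphisms of systems X -> S and Y -> S, the
levelwise fibre product with its two projections is a fibre product in the category of systems; it
presents the fibre product of formal schemes when one factor is adic over the base, and otherwise
only up to cofinality of the levels. -/
theorem result {𝔛 𝔜 𝔖 : FSch.Sys.{u}} (f : 𝔛 ⟶ 𝔖) (g : 𝔜 ⟶ 𝔖) :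
    IsPullback (FSch.pullbackFst f g) (FSch.pullbackSnd f g) f g := by
  have hw : FSch.pullbackFst f g ≫ f = FSch.pullbackSnd f g ≫ g := by
    apply FSch.Hom.ext
    funext n
    simp only [FSch.comp_app, FSch.pullbackFst_app, FSch.pullbackSnd_app]
    exact CategoryTheory.Limits.pullback.condition
  have hcond : ∀ (s : CategoryTheory.Limits.PullbackCone f g) (n : ℕ),
      (s.fst : FSch.Hom _ _).app n ≫ (f : FSch.Hom _ _).app n =
        (s.snd : FSch.Hom _ _).app n ≫ (g : FSch.Hom _ _).app n := fun s n => by
    have := congrArg (fun h => (h : FSch.Hom _ _).app n) s.condition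
    simpa only [FSch.comp_app] using this
  let lift : ∀ s : CategoryTheory.Limits.PullbackCone f g, s.pt ⟶ FSch.pullbackSys f g := fun s =>
    ⟨fun n => CategoryTheory.Limits.pullback.lift ((s.fst : FSch.Hom _ _).app n) ((s.snd : FSch.Hom _ _).app n)
      (hcond s n), fun n => by
        dsimp only [FSch.pullbackSys, CategoryTheory.Limits.pullback.map]
        apply CategoryTheory.Limits.pullback.hom_ext
        · simp only [Category.assoc]
          rw [CategoryTheory.Limits.pullback.lift_fst,
            CategoryTheory.Limits.pullback.lift_fst_assoc, CategoryTheory.Limits.pullback.lift_fst,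
            (s.fst : FSch.Hom _ _).comm n]
        · simp only [Category.assoc]
          rw [CategoryTheory.Limits.pullback.lift_snd,
            CategoryTheory.Limits.pullback.lift_snd_assoc, CategoryTheory.Limits.pullback.lift_snd,
            (s.snd : FSch.Hom _ _).comm n]⟩
  refine IsPullback.of_isLimit' ⟨hw⟩ (CategoryTheory.Limits.PullbackCone.IsLimit.mk hw lift ?_ ?_ ?_)
  · intro s
    apply FSch.Hom.ext; funext n
    exact CategoryTheory.Limits.pullback.lift_fst _ _ _
  · intro s
    apply FSch.Hom.ext; funext n
    exact CategoryTheory.Limits.pullback.lift_snd _ _ _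
  · intro s m h1 h2
    apply FSch.Hom.ext; funext n
    apply CategoryTheory.Limits.pullback.hom_ext
    · have := congrArg (fun h => (h : FSch.Hom _ _).app n) h1
      simp only [FSch.comp_app, FSch.pullbackFst_app] at this
      exact this.trans (CategoryTheory.Limits.pullback.lift_fst _ _ _).symm
    · have := congrArg (fun h => (h : FSch.Hom _ _).app n) h2
      simp only [FSch.comp_app, FSch.pullbackSnd_app] at this
      exact this.trans (CategoryTheory.Limits.pullback.lift_snd _ _ _).symm

end Groth.Agent.S3859
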