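import Groth.Statements.S3860
import Mathlib.RingTheory.AdicCompletion.RingHom

set_option autoImplicit false
universe u
open FCompl

namespace Groth.Agent.S3860

open AlgebraicGeometry in
/-- (Affine adic case; the formal spectra presented as the systems Spec(A/I^(n+1)) and Spec(B/K^(n+1)).)
Let I be an ideal of a ring A which is complete and separated for the I-adic topology, and K an
ideal of a ring B. Then φ ↦ (Spec of the induced maps B/K^(n+1) -> A/I^(n+1)) is a bijection from
the ring homomorphisms φ : B -> A with φ(K) ⊆ I onto the morphisms of systems from Spf(A) to Spf(B),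
i.e. the compatible families of morphisms Spec(A/I^(n+1)) -> Spec(B/K^(n+1)). -/
theorem result (A B : Type u) [CommRing A] [CommRing B] (I : Ideal A) (K : Ideal B)
    [IsAdicComplete I A] :
    Function.Bijective (fun φ : {φ : B →+* A // K ≤ I.comap φ} ↦ FSch.spfMap I K φ.1 φ.2) := by
  classical
  have ha : StrictMono (fun n : ℕ => n + 1) := fun _ _ h => Nat.succ_lt_succ h
  constructor
  · rintro ⟨φ, hφ⟩ ⟨ψ, hψ⟩ hEq
    apply Subtype.ext
    have happ : ∀ n, FSch.quotPowMap I K φ hφ n = FSch.quotPowMap I K ψ hψ n := by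
      intro n
      have h1 := congrArg (fun F : FSch.spf A I ⟶ FSch.spf B K => (F : FSch.Hom _ _).app n) hEq
      simp only [FSch.spfMap_app] at h1
      have h2 := Spec.map_injective h1
      exact congrArg CommRingCat.Hom.hom h2
    apply DFunLike.coe_injective
    refine IsHausdorff.StrictMono.funext' I ha (fun n r => ?_)
    have := congrArg (fun g => g (Ideal.Quotient.mk _ r)) (happ n)
    simpa [FSch.quotPowMap, Ideal.quotientMap_mk] using this
  · intro F
    let g : ∀ n, CommRingCat.of (B ⧸ K ^ (n + 1)) ⟶ CommRingCat.of (A ⧸ I ^ (n + 1)) :=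
      fun n => Spec.preimage ((F : FSch.Hom _ _).app n)
    have hg : ∀ n, Spec.map (g n) = (F : FSch.Hom _ _).app n := fun n => Spec.map_preimage _
    have hcomm : ∀ n, (Ideal.Quotient.factor (Ideal.pow_le_pow_right (Nat.le_succ (n + 1))) :
        A ⧸ I ^ (n + 2) →+* A ⧸ I ^ (n + 1)).comp (g (n + 1)).hom =
        (g n).hom.comp (Ideal.Quotient.factor (Ideal.pow_le_pow_right (Nat.le_succ (n + 1))) :
        B ⧸ K ^ (n + 2) →+* B ⧸ K ^ (n + 1)) := by
      intro n
      have h1 := (F : FSch.Hom _ _).comm n
      rw [← hg n, ← hg (n + 1)] at h1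
      dsimp only [FSch.spf, CohB1.specQuotTrans] at h1
      rw [← Spec.map_comp, ← Spec.map_comp] at h1
      have h2 := congrArg CommRingCat.Hom.hom (Spec.map_injective h1)
      simp only [CommRingCat.hom_comp, CommRingCat.hom_ofHom] at h2
      exact h2.symm
    let f : ∀ n, B →+* A ⧸ I ^ (n + 1) := fun n => (g n).hom.comp (Ideal.Quotient.mk (K ^ (n + 1)))
    have hf : ∀ {m : ℕ}, (Ideal.Quotient.factorPow I (ha.monotone m.le_succ)).comp (f (m + 1)) = f m := by
      intro m
      simp only [f, ← RingHom.comp_assoc]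
      rw [show (Ideal.Quotient.factorPow I (ha.monotone m.le_succ)) =
        (Ideal.Quotient.factor (Ideal.pow_le_pow_right (Nat.le_succ (m + 1))) :
          A ⧸ I ^ (m + 2) →+* A ⧸ I ^ (m + 1)) from rfl, hcomm m, RingHom.comp_assoc]
      rfl
    let φ : B →+* A := IsAdicComplete.StrictMono.liftRingHom I ha f hf
    have hφ : ∀ n b, Ideal.Quotient.mk (I ^ (n + 1)) (φ b) = f n b := fun n b =>
      IsAdicComplete.StrictMono.mk_liftRingHom I ha f hf b
    have hK : K ≤ I.comap φ := by
      intro b hb
      rw [Ideal.mem_comap]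
      have h0 := hφ 0 b
      have hb0 : Ideal.Quotient.mk (K ^ (0 + 1)) b = 0 := by
        rw [Ideal.Quotient.eq_zero_iff_mem, zero_add, pow_one]; exact hb
      simp only [f, RingHom.comp_apply, hb0, map_zero] at h0
      rw [Ideal.Quotient.eq_zero_iff_mem, zero_add, pow_one] at h0
      exact h0
    refine ⟨⟨φ, hK⟩, ?_⟩
    apply FSch.Hom.ext
    funext n
    show Spec.map (CommRingCat.ofHom (FSch.quotPowMap I K φ hK n)) = (F : FSch.Hom _ _).app n
    rw [← hg n]
    congr 1
    apply CommRingCat.hom_ext
    apply Ideal.Quotient.ringHom_ext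
    ext b
    simp only [CommRingCat.hom_ofHom, RingHom.comp_apply, FSch.quotPowMap, Ideal.quotientMap_mk]
    exact hφ n b

end Groth.Agent.S3860
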