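import Groth.Statements.S3865
import Groth.Agent.S3862
import Groth.Agent.S3867

set_option autoImplicit false
universe u
open FCompl

namespace Groth.Agent.S3865

open AlgebraicGeometry CategoryTheory

theorem main (𝔛 : FSch.Sys.{u}) (h𝔛 : 𝔛.IsLocNoethFormal)
    (𝒜 : ∀ n, (𝔛.X n).IdealSheafData) (h : ∀ n, (𝒜 (n + 1)).comap (𝔛.ι n) = 𝒜 n) :
    (FSch.subSys 𝔛 𝒜 (fun n ↦ (h n).le)).IsLocNoethFormal ∧
      FSch.IsAdicHom (FSch.subSysι 𝔛 𝒜 (fun n ↦ (h n).le)) := by
  classical
  obtain ⟨hF, hA, hN⟩ := h𝔛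
  let Z := FSch.subSys 𝔛 𝒜 (fun n ↦ (h n).le)
  have hZX : ∀ n, Z.X n = (𝒜 n).subscheme := fun n => rfl
  have hcomm : ∀ n, Z.ι n ≫ (𝒜 (n + 1)).subschemeι = (𝒜 n).subschemeι ≫ 𝔛.ι n := fun n =>
    Scheme.IdealSheafData.subschemeMap_subschemeι _ _ _
      (Scheme.IdealSheafData.le_map_iff_comap_le.mpr (h n).le)
  have hsq : ∀ n, CategoryTheory.IsPullback (Z.ι n) (𝒜 n).subschemeι
      (𝒜 (n + 1)).subschemeι (𝔛.ι n) := by
    intro n
    have := (hF n).1
    refine (isPullback_of_isClosedImmersion (𝒜 n).subschemeι (𝒜 (n + 1)).subschemeι (Z.ι n)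
      (𝔛.ι n) (hcomm n).symm ?_).flip
    rw [Scheme.IdealSheafData.ker_subschemeι, Scheme.IdealSheafData.ker_subschemeι]
    exact h n
  have hci : ∀ n, IsClosedImmersion (Z.ι n) := fun n => by
    have := (hF n).1
    exact CategoryTheory.MorphismProperty.of_isPullback (P := @IsClosedImmersion) (hsq n).flip
      inferInstance
  have hsurj : ∀ n, Surjective (Z.ι n) := fun n => by
    have : Surjective (𝔛.ι n) := ⟨(hF n).2⟩
    exact CategoryTheory.MorphismProperty.of_isPullback (P := @Surjective) (hsq n).flip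
      inferInstance
  have htoX : ∀ k, CategoryTheory.IsPullback (Z.toX k) (𝒜 0).subschemeι (𝒜 k).subschemeι
      (𝔛.toX k) := by
    intro k
    induction k with
    | zero => exact CategoryTheory.IsPullback.of_id_fst
    | succ k ih => exact ih.paste_horiz (hsq k)
  have hciX : ∀ k, IsClosedImmersion (𝔛.toX k) := by
    intro k
    induction k with
    | zero => exact (inferInstance : IsClosedImmersion (𝟙 (𝔛.X 0)))
    | succ k ih =>
      have := (hF k).1
      exact (inferInstance : IsClosedImmersion (𝔛.toX k ≫ 𝔛.ι k))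
  have hciZ : ∀ k, IsClosedImmersion (Z.toX k) := by
    intro k
    induction k with
    | zero => exact (inferInstance : IsClosedImmersion (𝟙 (Z.X 0)))
    | succ k ih =>
      have := hci k
      exact (inferInstance : IsClosedImmersion (Z.toX k ≫ Z.ι k))
  refine ⟨⟨fun n => ⟨hci n, (hsurj n).surj⟩, fun n => ?_, fun n => ?_⟩, fun n => hsq n⟩
  · have := (hF n).1
    have e1 := (Groth.Agent.S3867.isPullback_iff_ker (Z.ι n) (𝔛.ι n) (𝒜 n).subschemeι
      (𝒜 (n + 1)).subschemeι (hcomm n)).mp (hsq n)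
    have := hciX (n + 1)
    have := hciZ (n + 1)
    have e2 := (Groth.Agent.S3867.isPullback_iff_ker (Z.toX (n + 1)) (𝔛.toX (n + 1))
      (𝒜 0).subschemeι (𝒜 (n + 1)).subschemeι (htoX (n + 1)).w).mp (htoX (n + 1))
    rw [← e1, ← e2, hA n]
    exact Groth.Agent.S3862.comap_pow _ _ _
  · have := hN n
    show IsLocallyNoetherian (𝒜 n).subscheme
    exact LocallyOfFiniteType.isLocallyNoetherian (𝒜 n).subschemeι

end Groth.Agent.S3865


namespace Groth.Agent.S3865

open AlgebraicGeometry in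
/-- A formal scheme is presented as a system of thickenings (X_n)_n, and a coherent ideal of it as a
family of ideal sheaves A_n on the levels X_n, each A_n equal to the inverse image ideal of A_(n+1)
under X_n → X_(n+1). Let (X_n) be a locally Noetherian adic formal system and (A_n) such a family.
Then the closed subschemes Y_n cut out by the A_n, with the induced transition maps, form a locally
Noetherian adic formal system, and its inclusion into (X_n) is adic: every square Y_n → Y_(n+1), X_n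
→ X_(n+1) is cartesian. -/
theorem result (𝔛 : FSch.Sys.{u}) (h𝔛 : 𝔛.IsLocNoethFormal)
    (𝒜 : ∀ n, (𝔛.X n).IdealSheafData) (h : ∀ n, (𝒜 (n + 1)).comap (𝔛.ι n) = 𝒜 n) :
    (FSch.subSys 𝔛 𝒜 (fun n ↦ (h n).le)).IsLocNoethFormal ∧
      FSch.IsAdicHom (FSch.subSysι 𝔛 𝒜 (fun n ↦ (h n).le)) := by
  exact Groth.Agent.S3865.main 𝔛 h𝔛 𝒜 h

end Groth.Agent.S3865
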