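import Groth.Statements.S3866
import Mathlib.RingTheory.AdicCompletion.AsTensorProduct

set_option autoImplicit false
universe u
open AdicRing

open scoped TensorProduct

namespace Groth.Agent.S3866

/-- Let A be a Noetherian ring that is complete and separated for the J-adic topology, where J is an
ideal of A. Then every finite A-module M is itself complete and separated for the J-adic topology.
(This is the algebraic fact behind the statement that the global sections of the sheaf M^Δ on the
formal spectrum of A recover M.) -/
theorem result (A : Type u) [CommRing A] [IsNoetherianRing A]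
    (J : Ideal A) [IsAdicComplete J A] (M : Type u) [AddCommGroup M] [Module A M] [Module.Finite A M] :
    IsAdicComplete J M := by
  rw [← AdicCompletion.of_bijective_iff]
  have hA := AdicCompletion.of_bijective J A
  have hT := AdicCompletion.ofTensorProduct_bijective_of_finite_of_isNoetherian J M
  let eA : A ≃ₗ[A] AdicCompletion J A := AdicCompletion.ofLinearEquiv J A
  let e1 : M ≃ₗ[A] A ⊗[A] M := (TensorProduct.lid A M).symm
  let e2 : A ⊗[A] M ≃ₗ[A] AdicCompletion J A ⊗[A] M := LinearEquiv.rTensor M eA
  have key : ∀ m : M, AdicCompletion.of J M m =
      AdicCompletion.ofTensorProduct J M (e2 (e1 m)) := by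
    intro m
    have h1 : AdicCompletion.of J A 1 = 1 := by
      have := AdicCompletion.algebraMap_apply (I := J) (R := A) (S := A) 1
      rw [map_one, Algebra.algebraMap_self, RingHom.id_apply] at this
      exact this.symm
    simp [e1, e2, eA, h1]
  have hcomp : (AdicCompletion.of J M : M → AdicCompletion J M) =
      (AdicCompletion.ofTensorProduct J M) ∘ (e2 ∘ e1) := by
    funext m
    exact key m
  rw [hcomp]
  exact hT.comp (e2.bijective.comp e1.bijective)

end Groth.Agent.S3866
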