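import Groth.Statements.S4364
import Mathlib.AlgebraicGeometry.SpreadingOut

set_option autoImplicit false
universe u
open FinCond
open CategoryTheory AlgebraicGeometry Opposite

namespace Groth.Agent.S4364

set_option backward.isDefEq.respectTransparency.types false in
theorem result
    {X Y S : Scheme.{u}} (sX : X ⟶ S) (sY : Y ⟶ S) [LocallyOfFiniteType sY]
    (f g : X ⟶ Y) (hf : f ≫ sY = sX) (hg : g ≫ sY = sX) {x : X} (e : f x = g x)
    (H : f.stalkMap x =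
      Y.presheaf.stalkSpecializes (Inseparable.of_eq e.symm).specializes ≫ g.stalkMap x) :
    ∃ U : X.Opens, x ∈ U ∧ U.ι ≫ f = U.ι ≫ g := by
  obtain ⟨_, ⟨W, hW, rfl⟩, hxW, -⟩ :=
    S.isBasis_affineOpens.exists_subset_of_mem_open (Set.mem_univ (sY (f x))) isOpen_univ
  obtain ⟨_, ⟨V, hV, rfl⟩, hxV, hVW⟩ :=
    Y.isBasis_affineOpens.exists_subset_of_mem_open (show f x ∈ sY ⁻¹ᵁ W from hxW)
      (sY ⁻¹ᵁ W).isOpen
  have hxV' : g x ∈ V := e ▸ hxV
  let U₀ : X.Opens := f ⁻¹ᵁ V ⊓ g ⁻¹ᵁ V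
  have hxU₀ : x ∈ U₀ := ⟨hxV, hxV'⟩
  have hgerm : f.appLE V U₀ inf_le_left ≫ X.presheaf.germ U₀ x hxU₀ =
      g.appLE V U₀ inf_le_right ≫ X.presheaf.germ U₀ x hxU₀ := by
    simp only [Scheme.Hom.appLE, Category.assoc, X.presheaf.germ_res', ← Scheme.Hom.germ_stalkMap, H]
    simp only [TopCat.Presheaf.germ_stalkSpecializes_assoc, Scheme.Hom.germ_stalkMap]
  have hft := sY.finiteType_appLE hW hV hVW
  let := (sY.appLE W V hVW).hom.toAlgebra
  obtain ⟨s, hs⟩ := hft.out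
  have key : ∀ t : s, ∃ O : X.Opens, x ∈ O ∧ ∃ hO : O ≤ U₀,
      X.presheaf.map (homOfLE hO).op (f.appLE V U₀ inf_le_left t.1) =
        X.presheaf.map (homOfLE hO).op (g.appLE V U₀ inf_le_right t.1) := by
    intro t
    have h1 := congrArg (fun φ => φ t.1) hgerm
    simp only [CommRingCat.comp_apply] at h1
    obtain ⟨O, hxO, hOU, hOU', hO⟩ := X.presheaf.germ_eq x hxU₀ hxU₀ _ _ h1
    exact ⟨O, hxO, hOU.le, hO⟩
  choose O hxO hOU hO using key
  let O' : X.Opens := U₀ ⊓ ⨅ t : s, O t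
  have hxO' : x ∈ O' := by
    refine ⟨hxU₀, ?_⟩
    rw [TopologicalSpace.Opens.coe_iInf, Set.mem_iInter]
    exact fun t => hxO t
  obtain ⟨_, ⟨U, hU, rfl⟩, hxU, hUO'⟩ :=
    X.isBasis_affineOpens.exists_subset_of_mem_open hxO' O'.isOpen
  have hUO'' : U ≤ O' := hUO'
  have hUU₀ : U ≤ U₀ := hUO''.trans inf_le_left
  have hUO : ∀ t : s, U ≤ O t := fun t => hUO''.trans (inf_le_right.trans (iInf_le _ t))
  have hUf : U ≤ f ⁻¹ᵁ V := hUU₀.trans inf_le_left
  have hUg : U ≤ g ⁻¹ᵁ V := hUU₀.trans inf_le_right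
  have hgen : ∀ t : s, f.appLE V U hUf t.1 = g.appLE V U hUg t.1 := by
    intro t
    have ef : f.appLE V U hUf = f.appLE V U₀ inf_le_left ≫ X.presheaf.map (homOfLE (hOU t)).op ≫
        X.presheaf.map (homOfLE (hUO t)).op := by
      rw [Scheme.Hom.appLE_map_assoc, Scheme.Hom.appLE_map]
    have eg : g.appLE V U hUg = g.appLE V U₀ inf_le_right ≫ X.presheaf.map (homOfLE (hOU t)).op ≫
        X.presheaf.map (homOfLE (hUO t)).op := by
      rw [Scheme.Hom.appLE_map_assoc, Scheme.Hom.appLE_map]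
    rw [ef, eg, CommRingCat.comp_apply, CommRingCat.comp_apply, CommRingCat.comp_apply,
      CommRingCat.comp_apply, hO t]
  have hUW : U ≤ sX ⁻¹ᵁ W := by
    intro y hy
    have : f y ∈ sY ⁻¹ᵁ W := hVW (hUf hy)
    rw [← hf]
    exact this
  have hf' : ∀ p, (f ≫ sY).appLE W U p = sX.appLE W U hUW := by intro p; subst hf; rfl
  have hg' : ∀ p, (g ≫ sY).appLE W U p = sX.appLE W U hUW := by intro p; subst hg; rfl
  have halg : ∀ r : Γ(S, W), f.appLE V U hUf (sY.appLE W V hVW r) =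
      g.appLE V U hUg (sY.appLE W V hVW r) := by
    intro r
    rw [← CommRingCat.comp_apply, ← CommRingCat.comp_apply, Scheme.Hom.appLE_comp_appLE,
      Scheme.Hom.appLE_comp_appLE, hf', hg']
  have hψ : f.appLE V U hUf = g.appLE V U hUg := by
    ext v
    have hv : v ∈ (⊤ : Subalgebra Γ(S, W) Γ(Y, V)) := trivial
    rw [← hs] at hv
    induction hv using Algebra.adjoin_induction with
    | mem t ht => exact hgen ⟨t, ht⟩
    | algebraMap r => exact halg r
    | add a b _ _ ha hb => rw [map_add, map_add, ha, hb]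
    | mul a b _ _ ha hb => rw [map_mul, map_mul, ha, hb]
  refine ⟨U, hxU, ?_⟩
  rw [← Scheme.Hom.resLE_comp_ι _ hUf, ← Scheme.Hom.resLE_comp_ι _ hUg]
  congr 1
  have : IsAffine V := hV
  suffices ∀ (U₀ V₀) (eU : U = U₀) (eV : V = V₀),
      f.appLE V₀ U₀ (eU ▸ eV ▸ hUf) = g.appLE V₀ U₀ (eU ▸ eV ▸ hUg) by
    rw [← cancel_mono (Scheme.Opens.toScheme V).isoSpec.hom]
    simp only [Scheme.isoSpec, asIso_hom, Scheme.toSpecΓ_naturality,
      Scheme.Hom.app_eq_appLE, Scheme.Hom.resLE_appLE]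
    congr 2
    apply this <;> simp
  rintro U V rfl rfl
  exact hψ

end Groth.Agent.S4364
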