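import Groth.Statements.S4343
import Groth.Agent.S4364

set_option autoImplicit false
universe u
open RatMapD
open CategoryTheory AlgebraicGeometry

namespace Groth.Agent.S4343

set_option backward.isDefEq.respectTransparency.types false in
lemma spread_out_unique' {X Y S : Scheme.{u}} (sX : X ⟶ S) (sY : Y ⟶ S) [LocallyOfFiniteType sY]
    (f g : X ⟶ Y) (hf : f ≫ sY = sX) (hg : g ≫ sY = sX) {x : X}
    (e : X.fromSpecStalk x ≫ f = X.fromSpecStalk x ≫ g) :
    ∃ U : X.Opens, x ∈ U ∧ U.ι ≫ f = U.ι ≫ g := by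
  fapply Groth.Agent.S4364.result sX sY f g hf hg
  · simpa using congr($e (IsLocalRing.closedPoint _))
  · apply Spec.map_injective
    rw [← cancel_mono (Y.fromSpecStalk _)]
    simpa [Scheme.SpecMap_stalkSpecializes_fromSpecStalk]

set_option backward.defeqAttrib.useBackward true in
set_option backward.isDefEq.respectTransparency false in
lemma equiv_of_fromSpecStalkOfMem_eq_LFT (S X Y : Scheme.{u}) [X.Over S] [Y.Over S]
    [IrreducibleSpace X] [LocallyOfFiniteType (Y ↘ S)]
    {x : X} (f g : X.PartialMap Y) [f.IsOver S] [g.IsOver S]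
    (hxf : x ∈ f.domain) (hxg : x ∈ g.domain)
    (H : f.fromSpecStalkOfMem hxf = g.fromSpecStalkOfMem hxg) : f.equiv g := by
  have hdense : Dense ((f.domain ⊓ g.domain) : Set X) :=
    f.dense_domain.inter_of_isOpen_left g.dense_domain f.domain.2
  have hf' : (X.homOfLE inf_le_left ≫ f.hom) ≫ Y ↘ S = (f.domain ⊓ g.domain).ι ≫ X ↘ S := by
    rw [Category.assoc, comp_over f.hom S]
    show X.homOfLE inf_le_left ≫ f.domain.ι ≫ X ↘ S = _
    rw [← Category.assoc, Scheme.homOfLE_ι]
  have hg' : (X.homOfLE inf_le_right ≫ g.hom) ≫ Y ↘ S = (f.domain ⊓ g.domain).ι ≫ X ↘ S := by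
    rw [Category.assoc, comp_over g.hom S]
    show X.homOfLE inf_le_right ≫ g.domain.ι ≫ X ↘ S = _
    rw [← Category.assoc, Scheme.homOfLE_ι]
  have := spread_out_unique' (X := (f.domain ⊓ g.domain).toScheme)
    ((f.domain ⊓ g.domain).ι ≫ X ↘ S) (Y ↘ S)
    (X.homOfLE inf_le_left ≫ f.hom) (X.homOfLE inf_le_right ≫ g.hom) hf' hg'
    (x := ⟨x, hxf, hxg⟩) ?_
  · obtain ⟨U, hxU, e⟩ := this
    refine ⟨(f.domain ⊓ g.domain).ι ''ᵁ U, ((f.domain ⊓ g.domain).ι ''ᵁ U).2.dense
      ⟨_, ⟨_, hxU, rfl⟩⟩,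
      ((Set.image_subset_range _ _).trans_eq (Subtype.range_val)).trans inf_le_left,
      ((Set.image_subset_range _ _).trans_eq (Subtype.range_val)).trans inf_le_right, ?_⟩
    rw [← cancel_epi (Scheme.Hom.isoImage _ _).hom]
    simp only [Scheme.PartialMap.restrict_hom, ← Category.assoc] at e ⊢
    convert! e using 2 <;> rw [← cancel_mono (Scheme.Opens.ι _)] <;> simp
  · rw [← f.fromSpecStalkOfMem_restrict hdense inf_le_left ⟨hxf, hxg⟩,
      ← g.fromSpecStalkOfMem_restrict hdense inf_le_right ⟨hxf, hxg⟩] at H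
    simpa only [Scheme.PartialMap.fromSpecStalkOfMem, Scheme.PartialMap.restrict_domain,
      Scheme.Opens.fromSpecStalkOfMem, Spec.map_inv,
      Scheme.PartialMap.restrict_hom, Category.assoc, IsIso.eq_inv_comp,
      IsIso.hom_inv_id_assoc] using H

theorem result
    (S X Y : Scheme.{u}) [X.Over S] [Y.Over S] [IrreducibleSpace X]
    [LocallyOfFiniteType (Y ↘ S)] (f g : X ⤏ Y) [f.IsOver S] [g.IsOver S]
    (h : f.fromFunctionField = g.fromFunctionField) : f = g := by
  obtain ⟨f, hfS, rfl⟩ := f.exists_partialMap_over (S := S)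
  obtain ⟨g, hgS, rfl⟩ := g.exists_partialMap_over (S := S)
  refine Scheme.PartialMap.toRationalMap_eq_iff.mpr ?_
  exact equiv_of_fromSpecStalkOfMem_eq_LFT S X Y f g _ _ h

end Groth.Agent.S4343
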