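import Groth.Statements.S4344

set_option autoImplicit false
universe u
open RatMapD
open CategoryTheory CategoryTheory.Limits AlgebraicGeometry

namespace Groth.Agent.S4344

open Scheme

variable (S : Scheme.{u}) {X Y : Scheme.{u}} [X.Over S] [Y.Over S]

/-- The family of domains of `S`-partial maps representing `f`. -/
def domSet (f : X ⤏ Y) : Set X.Opens :=
  { U | ∃ g : X.PartialMap Y, g.IsOver S ∧ g.toRationalMap = f ∧ g.domain = U }

/-- The union of the domains of `S`-partial maps representing `f`. -/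
def domS (f : X ⤏ Y) : X.Opens := sSup (domSet S f)

set_option backward.isDefEq.respectTransparency false in
/-- The open cover of `domS`. -/
noncomputable
def coverS (f : X ⤏ Y) : (domS S f).toScheme.OpenCover where
  I₀ := domSet S f
  X U := U.1.toScheme
  f U := X.homOfLE (le_sSup U.2)
  mem₀ := by
    rw [presieve₀_mem_precoverage_iff]
    refine ⟨fun x ↦ ?_, inferInstance⟩
    use ⟨_, (TopologicalSpace.Opens.mem_sSup.mp x.2).choose_spec.1⟩
    exact ⟨⟨x.1, (TopologicalSpace.Opens.mem_sSup.mp x.2).choose_spec.2⟩, Subtype.ext (by simp)⟩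

noncomputable def gS (f : X ⤏ Y) (U : domSet S f) : X.PartialMap Y := U.2.choose

lemma gS_over (f : X ⤏ Y) (U : domSet S f) : (gS S f U).IsOver S := U.2.choose_spec.1
lemma gS_rat (f : X ⤏ Y) (U : domSet S f) : (gS S f U).toRationalMap = f := U.2.choose_spec.2.1
lemma gS_dom (f : X ⤏ Y) (U : domSet S f) : (gS S f U).domain = U.1 := U.2.choose_spec.2.2

lemma dense_domS (f : X ⤏ Y) [f.IsOver S] : Dense ((domS S f : X.Opens) : Set X) := by
  obtain ⟨g, hg, hgf⟩ := f.exists_partialMap_over S
  have hle : g.domain ≤ domS S f := le_sSup ⟨g, hg, hgf, rfl⟩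
  exact g.dense_domain.mono hle

set_option backward.isDefEq.respectTransparency false in
noncomputable def glued [IsReduced X] [IsSeparated (Y ↘ S)] (f : X ⤏ Y) [f.IsOver S] :
    X.PartialMap Y := by
  refine ⟨domS S f, dense_domS S f, (coverS S f).glueMorphisms
    (fun U ↦ (X.isoOfEq (gS_dom S f U)).inv ≫ (gS S f U).hom) ?_⟩
  intro x y
  have := gS_over S f x
  have := gS_over S f y
  refine (cancel_epi (isPullback_opens_inf_le (le_sSup x.2) (le_sSup y.2)).isoPullback.hom).mp ?_
  simp only [coverS, IsPullback.isoPullback_hom_fst_assoc,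
    IsPullback.isoPullback_hom_snd_assoc]
  simp_rw [← cancel_epi (X.isoOfEq congr($(gS_dom S f x) ⊓ $(gS_dom S f y))).hom,
    ← Category.assoc]
  convert! (PartialMap.equiv_iff_of_isSeparated (S := S) (f := gS S f x)
    (g := gS S f y)).mp ?_ using 1
  · rw [PartialMap.restrict_hom]; congr 1; simp [← cancel_mono (Opens.ι _)]
  · rw [PartialMap.restrict_hom]; congr 1; simp [← cancel_mono (Opens.ι _)]
  · rw [← PartialMap.toRationalMap_eq_iff, gS_rat, gS_rat]


lemma le_domS (f : X ⤏ Y) (h : X.PartialMap Y) [h.IsOver S] (hh : h.toRationalMap = f) :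
    h.domain ≤ domS S f := le_sSup ⟨h, inferInstance, hh, rfl⟩

set_option backward.defeqAttrib.useBackward true in
lemma glued_restrict [IsReduced X] [IsSeparated (Y ↘ S)] (f : X ⤏ Y) [f.IsOver S]
    (h : X.PartialMap Y) [h.IsOver S] (hh : h.toRationalMap = f) :
    ((glued S f).restrict h.domain h.dense_domain (le_domS S f h hh)).hom = h.hom := by
  dsimp [glued]
  refine ((coverS S f).ι_glueMorphisms _ _ ⟨_, h, inferInstance, hh, rfl⟩).trans ?_
  generalize_proofs hU hd
  have := gS_over S f ⟨h.domain, hU⟩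
  have : gS S f ⟨h.domain, hU⟩ = h := (PartialMap.equiv_iff_of_domain_eq_of_isSeparated (S := S)
    hd).mp (PartialMap.toRationalMap_eq_iff.mp ((gS_rat S f _).trans hh.symm))
  exact ((PartialMap.ext_iff _ _).mp this.symm).choose_spec.symm


set_option backward.isDefEq.respectTransparency.types false in
set_option backward.defeqAttrib.useBackward true in
lemma glued_isOver [IsReduced X] [IsSeparated (Y ↘ S)] (f : X ⤏ Y) [f.IsOver S] :
    (glued S f).IsOver S := by
  rw [PartialMap.isOver_iff]
  refine (coverS S f).hom_ext _ _ fun U ↦ ?_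
  rcases U with ⟨V, hV⟩
  have hV' := hV
  obtain ⟨g, hg, hgf, hdom⟩ := hV'
  subst hdom
  have H := glued_restrict S f g hgf
  rw [PartialMap.restrict_hom] at H
  simp only [PartialMap.compHom_hom]
  have H' : (coverS S f).f ⟨g.domain, hV⟩ ≫ (glued S f).hom = g.hom := H
  have H2 : (coverS S f).f ⟨g.domain, hV⟩ ≫ (glued S f).domain.ι = g.domain.ι :=
    Scheme.homOfLE_ι _ (le_domS S f g hgf)
  refine (Category.assoc _ _ _).symm.trans ?_
  refine (congrArg (· ≫ Y ↘ S) H').trans ?_
  refine hg.comp_over.trans ?_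
  refine Eq.trans ?_ (Category.assoc _ _ _)
  exact (congrArg (· ≫ X ↘ S) H2).symm


set_option backward.isDefEq.respectTransparency.types false in
set_option backward.defeqAttrib.useBackward true in
lemma restrict_glued_eq [IsReduced X] [IsSeparated (Y ↘ S)] (f : X ⤏ Y) [f.IsOver S]
    (h : X.PartialMap Y) [h.IsOver S] (hh : h.toRationalMap = f) :
    h = (glued S f).restrict h.domain h.dense_domain (le_domS S f h hh) := by
  refine PartialMap.ext _ _ rfl ?_
  rw [glued_restrict S f h hh]
  simp

theorem result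
    (S X Y : Scheme.{u}) [X.Over S] [Y.Over S] [IsReduced X] [IsSeparated (Y ↘ S)]
    (f : X ⤏ Y) [f.IsOver S] :
    ∃ g : X.PartialMap Y, g.IsOver S ∧ g.toRationalMap = f ∧
      ∀ h : X.PartialMap Y, h.IsOver S → h.toRationalMap = f →
        ∃ hle : h.domain ≤ g.domain, h = g.restrict h.domain h.dense_domain hle := by
  refine ⟨glued S f, glued_isOver S f, ?_, fun h hh hhf ↦
    ⟨le_domS S f h hhf, restrict_glued_eq S f h hhf⟩⟩
  obtain ⟨g, hg, hgf⟩ := f.exists_partialMap_over S
  rw [← PartialMap.restrict_toRationalMap (glued S f) g.domain g.dense_domain (le_domS S f g hgf),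
    ← restrict_glued_eq S f g hgf, hgf]

end Groth.Agent.S4344
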