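import Groth.Statements.S4345
import Mathlib.RingTheory.Localization.AtPrime.Basic
import Mathlib.RingTheory.LocalRing.RingHom.Basic

set_option autoImplicit false
universe u
open SchLoc

namespace Groth.Agent.S4345

section lemmas

variable {R : Type u} [Field R]

/-- In a local subring, the inverse of an element outside the maximal ideal lies in it. -/
lemma inv_mem_of_not_mem_max (Q : LocalSubring R) (x : Q.toSubring)
    (hx : x ∉ IsLocalRing.maximalIdeal Q.toSubring) : (x : R)⁻¹ ∈ Q.toSubring := by
  have hu : IsUnit x := by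
    by_contra h
    exact hx ((IsLocalRing.mem_maximalIdeal x).mpr h)
  obtain ⟨y, hy⟩ := isUnit_iff_exists_inv.mp hu
  have h1 : (x : R) * (y : R) = 1 := by
    have := congrArg (fun z : Q.toSubring => (z : R)) hy
    simpa using this
  have : (y : R) = (x : R)⁻¹ := eq_inv_of_mul_eq_one_right h1
  rw [← this]; exact y.2

lemma inv_mem_ofPrime (A : Subring R) (P : Ideal A) [P.IsPrime] (s : A) (hs : s ∉ P) :
    (s : R)⁻¹ ∈ (LocalSubring.ofPrime A P).toSubring := by
  have := (IsLocalization.AtPrime.to_map_mem_maximal_iff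
    (LocalSubring.ofPrime A P).toSubring P s).not.mpr hs
  exact inv_mem_of_not_mem_max _ (algebraMap A _ s) this

lemma ofPrime_le_of (A : Subring R) (P : Ideal A) [P.IsPrime] (S : Subring R) (hAS : A ≤ S)
    (hunit : ∀ s : A, s ∉ P → (s : R)⁻¹ ∈ S) : (LocalSubring.ofPrime A P).toSubring ≤ S := by
  intro x hx
  let T := (LocalSubring.ofPrime A P).toSubring
  obtain ⟨a, s, hsx⟩ := IsLocalization.exists_mk'_eq P.primeCompl (⟨x, hx⟩ : T)
  have hspec := IsLocalization.mk'_spec T a s
  rw [hsx] at hspec
  have h1 : x * ((s : A) : R) = ((a : A) : R) := by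
    have := congrArg (fun z : T => (z : R)) hspec
    simp only [MulMemClass.coe_mul] at this
    exact this
  have hs0 : ((s : A) : R) ≠ 0 := by
    intro h0
    apply s.2
    have : (s : A) = 0 := Subtype.ext h0
    rw [this]; exact P.zero_mem
  have : x = ((a : A) : R) * ((s : A) : R)⁻¹ := by
    rw [← h1, mul_assoc, mul_inv_cancel₀ hs0, mul_one]
  rw [this]
  exact S.mul_mem (hAS a.2) (hunit s s.2)

lemma comap_ofPrime (A : Subring R) (P : Ideal A) [P.IsPrime] :
    (IsLocalRing.maximalIdeal (LocalSubring.ofPrime A P).toSubring).comap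
      (Subring.inclusion (LocalSubring.le_ofPrime A P)) = P :=
  IsLocalization.AtPrime.under_maximalIdeal (LocalSubring.ofPrime A P).toSubring P

lemma ofPrime_congr (A : Subring R) {P P' : Ideal A} [P.IsPrime] [P'.IsPrime] (h : P = P') :
    LocalSubring.ofPrime A P = LocalSubring.ofPrime A P' := by
  subst h; rfl

lemma comap_inclusion_comp (A : Subring R) (S T : Subring R) (h1 : A ≤ S) (h2 : S ≤ T)
    (I : Ideal T) : I.comap (Subring.inclusion (h1.trans h2)) =
      (I.comap (Subring.inclusion h2)).comap (Subring.inclusion h1) := by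
  rw [Ideal.comap_comap]; rfl

/-- The localization of `A` at `m_Q ∩ A` is dominated by `Q`. -/
lemma ofPrime_comap_le (A : Subring R) (Q : LocalSubring R) (hA : A ≤ Q.toSubring) :
    LocalSubring.ofPrime A ((IsLocalRing.maximalIdeal Q.toSubring).comap (Subring.inclusion hA))
      ≤ Q := by
  set P := (IsLocalRing.maximalIdeal Q.toSubring).comap (Subring.inclusion hA) with hP
  have hle : (LocalSubring.ofPrime A P).toSubring ≤ Q.toSubring := by
    apply ofPrime_le_of A P Q.toSubring hA
    intro s hs
    exact inv_mem_of_not_mem_max Q (Subring.inclusion hA s) hs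
  refine ⟨hle, ⟨?_⟩⟩
  intro t ht
  let T := (LocalSubring.ofPrime A P).toSubring
  obtain ⟨a, s, rfl⟩ := IsLocalization.exists_mk'_eq P.primeCompl t
  rw [IsLocalization.AtPrime.isUnit_mk'_iff T P]
  intro haP
  -- `a ∈ P` means `a ∈ m_Q`; but `mk' a s * s = a` and `mk' a s` is a unit in `Q`
  have hspec := IsLocalization.mk'_spec T a s
  have hsQ : IsUnit (Subring.inclusion hA (s : A)) := by
    by_contra h
    exact s.2 ((IsLocalRing.mem_maximalIdeal _).mpr h)
  have haQ : IsUnit (Subring.inclusion hA a) := by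
    have e : Subring.inclusion hle (IsLocalization.mk' T a s) * Subring.inclusion hA (s : A) =
        Subring.inclusion hA a := by
      apply Subtype.ext
      have := congrArg (fun z : T => (z : R)) hspec
      simp only [MulMemClass.coe_mul] at this
      exact this
    rw [← e]
    exact ht.mul hsQ
  exact ((IsLocalRing.mem_maximalIdeal _).mp haP) haQ

lemma comap_eq_of_ofPrime_le (A : Subring R) (P : Ideal A) [P.IsPrime] (Q : LocalSubring R)
    (h : LocalSubring.ofPrime A P ≤ Q) (hA : A ≤ Q.toSubring) :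
    (IsLocalRing.maximalIdeal Q.toSubring).comap (Subring.inclusion hA) = P := by
  obtain ⟨h1, h2⟩ := h
  have e : (IsLocalRing.maximalIdeal Q.toSubring).comap (Subring.inclusion h1) =
      IsLocalRing.maximalIdeal (LocalSubring.ofPrime A P).toSubring :=
    IsLocalRing.maximalIdeal_comap _
  rw [show hA = (LocalSubring.le_ofPrime A P).trans h1 from rfl,
    comap_inclusion_comp A _ _ (LocalSubring.le_ofPrime A P) h1, e, comap_ofPrime]

lemma ofPrime_le_ofPrime_of_le (A C : Subring R) (hAC : A ≤ C) (r : Ideal C) [r.IsPrime] :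
    LocalSubring.ofPrime A (r.comap (Subring.inclusion hAC)) ≤ LocalSubring.ofPrime C r := by
  have hA : A ≤ (LocalSubring.ofPrime C r).toSubring := hAC.trans (LocalSubring.le_ofPrime C r)
  have e : (IsLocalRing.maximalIdeal (LocalSubring.ofPrime C r).toSubring).comap
      (Subring.inclusion hA) = r.comap (Subring.inclusion hAC) := by
    rw [show hA = hAC.trans (LocalSubring.le_ofPrime C r) from rfl,
      comap_inclusion_comp A C _ hAC (LocalSubring.le_ofPrime C r), comap_ofPrime]
  have := ofPrime_comap_le A (LocalSubring.ofPrime C r) hA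
  rwa [ofPrime_congr A e] at this

end lemmas

theorem result
    (R : Type u) [Field R] (A B : Subring R) :
    [ ∀ (Q : LocalSubring R) (hA : A ≤ Q.toSubring) (hB : B ≤ Q.toSubring),
        LocalSubring.ofPrime A ((IsLocalRing.maximalIdeal Q.toSubring).comap (Subring.inclusion hA)) =
          LocalSubring.ofPrime B ((IsLocalRing.maximalIdeal Q.toSubring).comap (Subring.inclusion hB)),
      ∀ r : PrimeSpectrum ↥(A ⊔ B),
        LocalSubring.ofPrime A (r.asIdeal.comap (Subring.inclusion (le_sup_left : A ≤ A ⊔ B))) =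
          LocalSubring.ofPrime B (r.asIdeal.comap (Subring.inclusion (le_sup_right : B ≤ A ⊔ B))),
      ∀ (p : PrimeSpectrum A) (q : PrimeSpectrum B),
        (∃ Q : LocalSubring R, LocalSubring.ofPrime A p.asIdeal ≤ Q ∧ LocalSubring.ofPrime B q.asIdeal ≤ Q) →
          LocalSubring.ofPrime A p.asIdeal = LocalSubring.ofPrime B q.asIdeal,
      Set.range (fun p : PrimeSpectrum A ↦ LocalSubring.ofPrime A p.asIdeal) ∩
          Set.range (fun q : PrimeSpectrum B ↦ LocalSubring.ofPrime B q.asIdeal) =
        Set.range (fun r : PrimeSpectrum ↥(A ⊔ B) ↦ LocalSubring.ofPrime (A ⊔ B) r.asIdeal) ].TFAE := by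
  tfae_have 1 → 3 := by
    rintro h1 p q ⟨Q, hpQ, hqQ⟩
    have hA : A ≤ Q.toSubring := (LocalSubring.le_ofPrime A p.asIdeal).trans hpQ.1
    have hB : B ≤ Q.toSubring := (LocalSubring.le_ofPrime B q.asIdeal).trans hqQ.1
    have e1 := comap_eq_of_ofPrime_le A p.asIdeal Q hpQ hA
    have e2 := comap_eq_of_ofPrime_le B q.asIdeal Q hqQ hB
    have := h1 Q hA hB
    rw [ofPrime_congr A e1, ofPrime_congr B e2] at this
    exact this
  tfae_have 3 → 2 := by
    intro h3 r
    exact h3 ⟨r.asIdeal.comap (Subring.inclusion (le_sup_left : A ≤ A ⊔ B)), inferInstance⟩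
      ⟨r.asIdeal.comap (Subring.inclusion (le_sup_right : B ≤ A ⊔ B)), inferInstance⟩ ⟨_,
      ofPrime_le_ofPrime_of_le A (A ⊔ B) le_sup_left r.asIdeal,
      ofPrime_le_ofPrime_of_le B (A ⊔ B) le_sup_right r.asIdeal⟩
  tfae_have 2 → 4 := by
    intro h2
    ext L
    simp only [Set.mem_inter_iff, Set.mem_range]
    constructor
    · rintro ⟨⟨p, rfl⟩, ⟨q, hq⟩⟩
      have hA : A ≤ (LocalSubring.ofPrime A p.asIdeal).toSubring := LocalSubring.le_ofPrime A _
      have hB : B ≤ (LocalSubring.ofPrime A p.asIdeal).toSubring :=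
        hq ▸ LocalSubring.le_ofPrime B q.asIdeal
      have hC : A ⊔ B ≤ (LocalSubring.ofPrime A p.asIdeal).toSubring := sup_le hA hB
      set r := (IsLocalRing.maximalIdeal (LocalSubring.ofPrime A p.asIdeal).toSubring).comap
        (Subring.inclusion hC) with hr
      refine ⟨⟨r, inferInstance⟩, ?_⟩
      apply LocalSubring.toSubring_injective
      apply le_antisymm
      · apply ofPrime_le_of _ _ _ hC
        intro s hs
        exact inv_mem_of_not_mem_max _ _ hs
      · apply ofPrime_le_of A p.asIdeal _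
          ((le_sup_left : A ≤ A ⊔ B).trans (LocalSubring.le_ofPrime _ _))
        intro s hs
        apply inv_mem_ofPrime (A ⊔ B) r ⟨s, (le_sup_left : A ≤ A ⊔ B) s.2⟩
        intro hsr
        apply hs
        have e := comap_ofPrime A p.asIdeal
        rw [← e]
        exact hsr
    · rintro ⟨r, rfl⟩
      have h2r := h2 r
      set p := r.asIdeal.comap (Subring.inclusion (le_sup_left : A ≤ A ⊔ B)) with hp
      set q := r.asIdeal.comap (Subring.inclusion (le_sup_right : B ≤ A ⊔ B)) with hq
      have hdom : LocalSubring.ofPrime A p ≤ LocalSubring.ofPrime (A ⊔ B) r.asIdeal :=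
        ofPrime_le_ofPrime_of_le A (A ⊔ B) le_sup_left r.asIdeal
      have hLp : LocalSubring.ofPrime (A ⊔ B) r.asIdeal = LocalSubring.ofPrime A p := by
        apply LocalSubring.toSubring_injective
        apply le_antisymm
        · have hBle : B ≤ (LocalSubring.ofPrime A p).toSubring :=
            h2r ▸ LocalSubring.le_ofPrime B q
          apply ofPrime_le_of _ _ _ (sup_le (LocalSubring.le_ofPrime A p) hBle)
          intro s hs
          apply inv_mem_of_not_mem_max (LocalSubring.ofPrime A p)
            ⟨s, sup_le (LocalSubring.le_ofPrime A p) hBle s.2⟩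
          intro hsm
          apply hs
          obtain ⟨h1, h2⟩ := hdom
          have := map_nonunit (Subring.inclusion h1) _ hsm
          exact (IsLocalization.AtPrime.to_map_mem_maximal_iff
            (LocalSubring.ofPrime (A ⊔ B) r.asIdeal).toSubring r.asIdeal s).mp this
        · apply ofPrime_le_of A p _ ((le_sup_left : A ≤ A ⊔ B).trans (LocalSubring.le_ofPrime _ _))
          intro s hs
          exact inv_mem_ofPrime (A ⊔ B) r.asIdeal ⟨s, (le_sup_left : A ≤ A ⊔ B) s.2⟩ hs
      refine ⟨⟨⟨p, inferInstance⟩, hLp.symm⟩, ⟨⟨q, inferInstance⟩, ?_⟩⟩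
      rw [hLp]
      exact h2r.symm
  tfae_have 4 → 1 := by
    intro h4 Q hA hB
    have hC : A ⊔ B ≤ Q.toSubring := sup_le hA hB
    set r := (IsLocalRing.maximalIdeal Q.toSubring).comap (Subring.inclusion hC) with hr
    have hmem : LocalSubring.ofPrime (A ⊔ B) r ∈
        Set.range (fun r : PrimeSpectrum ↥(A ⊔ B) ↦ LocalSubring.ofPrime (A ⊔ B) r.asIdeal) :=
      ⟨⟨r, inferInstance⟩, rfl⟩
    rw [← h4] at hmem
    obtain ⟨⟨p, hp⟩, ⟨q, hq⟩⟩ := hmem
    have hle : LocalSubring.ofPrime (A ⊔ B) r ≤ Q := ofPrime_comap_le (A ⊔ B) Q hC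
    have e1 := comap_eq_of_ofPrime_le A p.asIdeal Q (hp.le.trans hle) hA
    have e2 := comap_eq_of_ofPrime_le B q.asIdeal Q (hq.le.trans hle) hB
    rw [ofPrime_congr A e1, ofPrime_congr B e2]
    exact hp.trans hq.symm
  tfae_finish

end Groth.Agent.S4345
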