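import Groth.Statements.S4346
import Mathlib.AlgebraicGeometry.Morphisms.Separated
import Mathlib.AlgebraicGeometry.FunctionField
import Mathlib.AlgebraicGeometry.Stalk

set_option autoImplicit false
universe u
open SchLoc

namespace Groth.Agent.S4346

open CategoryTheory AlgebraicGeometry IsLocalRing in
theorem result (X : Scheme.{u}) [IsIntegral X] [X.IsSeparated] :
    Function.Injective (fun x : X ↦ (algebraMap (X.presheaf.stalk x) X.functionField).range) := by
  intro x y hxy
  simp only at hxy
  set K := X.functionField
  set αx := algebraMap (X.presheaf.stalk x) K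
  set αy := algebraMap (X.presheaf.stalk y) K
  have injx : Function.Injective αx := IsFractionRing.injective _ _
  have injy : Function.Injective αy := IsFractionRing.injective _ _
  let ex : X.presheaf.stalk x ≃+* αx.range :=
    RingEquiv.ofBijective αx.rangeRestrict ⟨fun a b h => injx (congrArg Subtype.val h),
      αx.rangeRestrict_surjective⟩
  let ey : X.presheaf.stalk y ≃+* αy.range :=
    RingEquiv.ofBijective αy.rangeRestrict ⟨fun a b h => injy (congrArg Subtype.val h),
      αy.rangeRestrict_surjective⟩
  let e : X.presheaf.stalk y ≃+* X.presheaf.stalk x :=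
    (ey.trans (RingEquiv.subringCongr hxy.symm)).trans ex.symm
  have he : ∀ z, αx (e z) = αy z := by
    intro z
    have h1 : ex (e z) = (RingEquiv.subringCongr hxy.symm) (ey z) := by
      simp only [e, RingEquiv.trans_apply, RingEquiv.apply_symm_apply]
    have h2 := congrArg Subtype.val h1
    exact h2
  let φ : X.presheaf.stalk y ⟶ X.presheaf.stalk x := CommRingCat.ofHom e.toRingHom
  let f₁ := X.fromSpecStalk x
  let f₂ := Spec.map φ ≫ X.fromSpecStalk y
  let ι := Spec.map (CommRingCat.ofHom αx)
  have hdom : IsDominant ι := by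
    refine ⟨?_⟩
    have : DenseRange (PrimeSpectrum.comap αx) :=
      (PrimeSpectrum.denseRange_comap_iff_ker_le_nilRadical αx).mpr (by
        rw [(RingHom.injective_iff_ker_eq_bot _).mp injx]; exact bot_le)
    exact this
  have hgen : ∀ z : X, Spec.map (CommRingCat.ofHom (algebraMap (X.presheaf.stalk z) K)) ≫
      X.fromSpecStalk z = X.fromSpecStalk (genericPoint X) := by
    intro z
    exact Scheme.SpecMap_stalkSpecializes_fromSpecStalk ((genericPoint_spec X).specializes trivial)
  have hcomp : Spec.map (CommRingCat.ofHom αx) ≫ Spec.map φ =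
      Spec.map (CommRingCat.ofHom αy) := by
    rw [← Spec.map_comp]
    congr 1
    ext z
    exact he z
  have hU : ι ≫ f₁ = ι ≫ f₂ := by
    simp only [ι, f₁, f₂]
    rw [hgen x, ← Category.assoc, hcomp, hgen y]
  have heq : f₁ = f₂ := ext_of_isDominant ι hU
  have hloc : IsLocalHom φ.hom := ⟨fun a ha => by
    have h := ha.map e.symm.toRingHom
    have : e.symm.toRingHom (φ.hom a) = a := e.symm_apply_apply a
    rwa [this] at h⟩
  have h1 : f₁ (closedPoint (X.presheaf.stalk x)) = x := Scheme.fromSpecStalk_closedPoint
  have h2 : f₂ (closedPoint (X.presheaf.stalk x)) = y := by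
    have e1 : (Spec.map φ) (closedPoint (X.presheaf.stalk x)) =
        closedPoint (X.presheaf.stalk y) := Spec_closedPoint
    have e2 : f₂ (closedPoint (X.presheaf.stalk x)) =
        X.fromSpecStalk y ((Spec.map φ) (closedPoint (X.presheaf.stalk x))) := rfl
    rw [e2, e1]
    exact Scheme.fromSpecStalk_closedPoint
  rw [← h1, ← h2, heq]

end Groth.Agent.S4346
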