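import Groth.Statements.S4361
import Groth.Agent.Lib.Helper7.Noeth

set_option autoImplicit false
universe u
open FinCond
open CategoryTheory AlgebraicGeometry

namespace Groth.Agent.S4361

theorem result
    {X Y Z : Scheme.{u}} (f : X ⟶ Y) (g : Y ⟶ Z) [QuasiCompact (f ≫ g)]
    (hX : ∀ x : X, ∃ U : X.Opens, x ∈ U ∧ TopologicalSpace.NoetherianSpace U) :
    QuasiCompact f := by
  refine ⟨fun U hU hc => ?_⟩
  obtain ⟨W, hW, hsub⟩ := Groth.Agent.Lib.Helper7.exists_compact_open_superset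
    (hc.image g.continuous)
  have hK : IsCompact ((f ≫ g) ⁻¹ᵁ W : Set X) := (f ≫ g).isCompact_preimage hW
  refine Groth.Agent.Lib.Helper7.isCompact_of_subset_of_locNoeth hX hK ?_
  intro x hx
  show (f ≫ g) x ∈ W
  rw [Scheme.Hom.comp_apply]
  exact hsub ⟨f x, hx, rfl⟩

end Groth.Agent.S4361
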