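import Groth.Statements.S4359
import Groth.Agent.S4361
import Mathlib.AlgebraicGeometry.Morphisms.FiniteType

set_option autoImplicit false
universe u
open FinCond
open CategoryTheory AlgebraicGeometry

namespace Groth.Agent.S4359

theorem result
    {X Y S : Scheme.{u}} [IsLocallyNoetherian S] (p : X ⟶ S) (q : Y ⟶ S)
    [LocallyOfFiniteType p] [QuasiCompact p] (f : X ⟶ Y) (hf : f ≫ q = p) :
    LocallyOfFiniteType f ∧ QuasiCompact f := by
  subst hf
  have : IsLocallyNoetherian X := LocallyOfFiniteType.isLocallyNoetherian (f ≫ q)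
  exact ⟨locallyOfFiniteType_of_comp f q,
    Groth.Agent.S4361.result f q (Groth.Agent.Lib.Helper7.locNoeth_of_isLocallyNoetherian X)⟩

end Groth.Agent.S4359
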