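import Groth.Statements.S4360
import Groth.Agent.Lib.Helper7.Noeth
import Mathlib.AlgebraicGeometry.Morphisms.Immersion

set_option autoImplicit false
universe u
open FinCond
open CategoryTheory AlgebraicGeometry

namespace Groth.Agent.S4360

theorem result
    {X Y : Scheme.{u}} (f : X ⟶ Y) [IsImmersion f]
    (hY : ∀ y : Y, ∃ U : Y.Opens, y ∈ U ∧ TopologicalSpace.NoetherianSpace U) :
    QuasiCompact f := by
  refine ⟨fun U hU hc => ?_⟩
  rw [f.isEmbedding.isInducing.isCompact_iff]
  exact Groth.Agent.Lib.Helper7.isCompact_of_subset_of_locNoeth hY hc (Set.image_preimage_subset _ _)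

end Groth.Agent.S4360
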