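import Groth.Statements.S4362
import Mathlib.AlgebraicGeometry.IdealSheaf.Basic
import Mathlib.AlgebraicGeometry.Noetherian
import Mathlib.Data.DFinsupp.WellFounded

set_option autoImplicit false
universe u
open FinCond
open CategoryTheory AlgebraicGeometry

namespace Groth.Agent.S4362

theorem result
    (X : Scheme.{u}) [IsNoetherian X] : WellFoundedGT X.IdealSheafData := by
  have hcov : ∀ x : X, ∃ V : X.affineOpens, x ∈ (V : Set X) := by
    intro x
    obtain ⟨_, ⟨V, hV, rfl⟩, hxV, -⟩ :=
      X.isBasis_affineOpens.exists_subset_of_mem_open (Set.mem_univ x) isOpen_univ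
    exact ⟨⟨V, hV⟩, hxV⟩
  obtain ⟨t, ht⟩ := isCompact_univ.elim_finite_subcover
    (fun U : X.affineOpens => ((U : X.Opens) : Set X)) (fun U => U.1.isOpen)
    (fun x _ => Set.mem_iUnion.mpr (hcov x))
  let U : t → X.affineOpens := fun i => i.1
  have hU : ⨆ i, (U i).1 = ⊤ := by
    rw [eq_top_iff]
    intro x _
    have := ht (Set.mem_univ x)
    simp only [Set.mem_iUnion] at this
    obtain ⟨i, hi, hxi⟩ := this
    exact TopologicalSpace.Opens.mem_iSup.mpr ⟨⟨i, hi⟩, hxi⟩
  have : ∀ i, IsNoetherianRing Γ(X, (U i).1) := fun i =>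
    IsLocallyNoetherian.component_noetherian (U i)
  let f : X.IdealSheafData → (∀ i : t, (Ideal Γ(X, (U i).1))ᵒᵈ) :=
    fun I i => OrderDual.toDual (I.ideal (U i))
  have hf : StrictAnti f := by
    intro I J hIJ
    refine lt_of_le_not_ge ?_ ?_
    · intro i
      exact hIJ.le (U i)
    · intro h
      apply hIJ.not_ge
      exact Scheme.IdealSheafData.le_of_iSup_eq_top U hU (fun i => h i)
  exact hf.wellFoundedGT

end Groth.Agent.S4362
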