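import Groth.Statements.S4367
import Mathlib.AlgebraicGeometry.Morphisms.ClosedImmersion
import Mathlib.AlgebraicGeometry.IdealSheaf.Subscheme

set_option autoImplicit false
universe u
open RedSep
open CategoryTheory AlgebraicGeometry

namespace Groth.Agent.S4367

theorem result
    {X Y Z : Scheme.{u}} [IsReduced X] (f : X ⟶ Y) (j : Z ⟶ Y) [IsClosedImmersion j]
    (h : Set.range f ⊆ Set.range j) :
    ∃ g : X ⟶ Z, g ≫ j = f := by
  have hker : j.ker ≤ f.ker := by
    refine Scheme.IdealSheafData.le_ofIdeals_iff.mpr ?_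
    intro U g hg
    rw [RingHom.mem_ker]
    apply eq_zero_of_basicOpen_eq_bot
    rw [← Scheme.preimage_basicOpen, eq_bot_iff]
    intro x hx
    exfalso
    have hfx : f x ∈ (j.ker.support : Set Y) := by
      rw [Scheme.Hom.support_ker, j.isClosedEmbedding.isClosed_range.closure_eq]
      exact h ⟨x, rfl⟩
    have hU : f x ∈ (U : Y.Opens) := Y.basicOpen_le g hx
    rw [SetLike.mem_coe, Scheme.IdealSheafData.mem_support_iff_of_mem hU] at hfx
    exact (Scheme.mem_zeroLocus_iff _ _ _).mp hfx g hg hx
  exact ⟨IsClosedImmersion.lift j f hker, IsClosedImmersion.lift_fac j f hker⟩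

end Groth.Agent.S4367
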