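import Groth.Statements.S4368
import Mathlib.AlgebraicGeometry.IdealSheaf.Subscheme
import Mathlib.AlgebraicGeometry.Properties
import Mathlib.RingTheory.Ideal.Quotient.Nilpotent

set_option autoImplicit false
universe u
open RedSep
open CategoryTheory AlgebraicGeometry

namespace Groth.Agent.S4368

theorem result
    (X : Scheme.{u}) (I : X.IdealSheafData) (hI : I.support = ⊤) :
    IsReduced I.subscheme ↔ I = X.nilradical := by
  constructor
  · intro hred
    have hrad : ∀ U : X.affineOpens, (I.ideal U).IsRadical := by
      intro U
      have hoi : IsOpenImmersion (I.subschemeCover.f U) := I.subschemeCover.map_prop U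
      have h2 : IsReduced (Spec (CommRingCat.of (Γ(X, U) ⧸ I.ideal U))) :=
        @isReduced_of_isOpenImmersion _ _ (I.subschemeCover.f U) hoi hred
      rw [affine_isReduced_iff] at h2
      exact (Ideal.isRadical_iff_quotient_reduced _).mpr h2
    have h1 : I = I.radical := by
      ext U : 2
      rw [Scheme.IdealSheafData.radical_ideal, (hrad U).radical]
    rw [h1, ← Scheme.IdealSheafData.vanishingIdeal_support, hI,
      Scheme.IdealSheafData.vanishingIdeal_top]
  · intro hI'
    subst hI'
    have : ∀ U : X.affineOpens, IsReduced (X.nilradical.subschemeCover.openCover.X U) := by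
      intro U
      show IsReduced (Spec (CommRingCat.of (Γ(X, U) ⧸ X.nilradical.ideal U)))
      rw [affine_isReduced_iff]
      refine (Ideal.isRadical_iff_quotient_reduced _).mp ?_
      show ((⊥ : X.IdealSheafData).radical.ideal U).IsRadical
      rw [Scheme.IdealSheafData.radical_ideal]
      exact Ideal.radical_isRadical _
    exact @IsReduced.of_openCover _ X.nilradical.subschemeCover.openCover this

end Groth.Agent.S4368
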