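import Groth.Statements.S4369
import Mathlib.RingTheory.Spectrum.Prime.Topology

set_option autoImplicit false
universe u
open AffSch

namespace Groth.Agent.S4369

theorem result
    {A' A : Type u} [CommRing A'] [CommRing A] (φ : A' →+* A)
    (h : ∀ f : A, ∃ (u : Aˣ) (f' : A'), f = (u : A) * φ f') :
    Topology.IsEmbedding (PrimeSpectrum.comap φ) := by
  choose v g hvg using h
  have key : ∀ (p : PrimeSpectrum A) (a : A), a ∈ p.asIdeal ↔ φ (g a) ∈ p.asIdeal := by
    intro p a
    constructor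
    · intro ha
      have : φ (g a) = ((v a)⁻¹ : Aˣ) * a := by
        calc φ (g a) = ((v a)⁻¹ : Aˣ) * (v a * φ (g a)) := by
              rw [← mul_assoc, Units.inv_mul, one_mul]
          _ = ((v a)⁻¹ : Aˣ) * a := by rw [← hvg a]
      rw [this]; exact p.asIdeal.mul_mem_left _ ha
    · intro ha
      rw [hvg a]; exact p.asIdeal.mul_mem_left _ ha
  refine ⟨⟨?_⟩, ?_⟩
  · simp only [TopologicalSpace.ext_iff, ← isClosed_compl_iff,
      PrimeSpectrum.isClosed_iff_zeroLocus, isClosed_induced_iff]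
    intro Z
    constructor
    · rintro ⟨s, hs⟩
      refine ⟨PrimeSpectrum.zeroLocus (g '' s), ⟨g '' s, rfl⟩, ?_⟩
      rw [PrimeSpectrum.preimage_comap_zeroLocus, hs]
      ext p
      rw [PrimeSpectrum.mem_zeroLocus, PrimeSpectrum.mem_zeroLocus]
      constructor
      · intro H a ha
        exact (key p a).mpr (H ⟨g a, ⟨a, ha, rfl⟩, rfl⟩)
      · rintro H _ ⟨_, ⟨a, ha, rfl⟩, rfl⟩
        exact (key p a).mp (H ha)
    · rintro ⟨-, ⟨F, rfl⟩, hF⟩
      exact ⟨φ '' F, hF.symm.trans (PrimeSpectrum.preimage_comap_zeroLocus φ F)⟩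
  · intro p q hpq
    ext a
    rw [key p a, key q a]
    have := congrArg (fun r : PrimeSpectrum A' => g a ∈ r.asIdeal) hpq
    simpa using this

end Groth.Agent.S4369
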