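import Groth.Statements.S4370
import Groth.Agent.S4367
import Groth.Agent.S4368

set_option autoImplicit false
universe u
open RedSep
open CategoryTheory CategoryTheory.Limits AlgebraicGeometry

namespace Groth.Agent.S4370

theorem result
    {X Y : Scheme.{u}} (f : X ⟶ Y) [IsOpenImmersion f]
    (g : X.nilradical.subscheme ⟶ Y.nilradical.subscheme)
    (hg : g ≫ Y.nilradical.subschemeι = X.nilradical.subschemeι ≫ f) :
    IsOpenImmersion g := by
  have hYred : IsReduced Y.nilradical.subscheme :=
    (Groth.Agent.S4368.result Y Y.nilradical (Scheme.support_nilradical Y)).mpr rfl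
  have hXred : IsReduced X.nilradical.subscheme :=
    (Groth.Agent.S4368.result X X.nilradical (Scheme.support_nilradical X)).mpr rfl
  let P := pullback Y.nilradical.subschemeι f
  have hPred : IsReduced P := isReduced_of_isOpenImmersion (pullback.fst Y.nilradical.subschemeι f)
  let φ : X.nilradical.subscheme ⟶ P := pullback.lift g X.nilradical.subschemeι hg
  have hrange : Set.range (pullback.snd Y.nilradical.subschemeι f) ⊆
      Set.range X.nilradical.subschemeι := by
    rw [Scheme.IdealSheafData.range_subschemeι, Scheme.support_nilradical]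
    intro x _
    trivial
  obtain ⟨ψ, hψ⟩ := Groth.Agent.S4367.result (pullback.snd Y.nilradical.subschemeι f)
    X.nilradical.subschemeι hrange
  have h1 : φ ≫ ψ = 𝟙 _ := by
    rw [← cancel_mono X.nilradical.subschemeι, Category.assoc, hψ, Category.id_comp]
    exact pullback.lift_snd _ _ _
  have h2 : ψ ≫ φ = 𝟙 _ := by
    rw [← cancel_mono (pullback.snd Y.nilradical.subschemeι f), Category.assoc, Category.id_comp]
    rw [pullback.lift_snd, hψ]
  have : IsIso φ := ⟨⟨ψ, h1, h2⟩⟩
  have hg' : g = φ ≫ pullback.fst Y.nilradical.subschemeι f := (pullback.lift_fst _ _ _).symm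
  rw [hg']
  infer_instance

end Groth.Agent.S4370
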