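import Groth.Statements.S4378

set_option autoImplicit false
universe u
open CategoryTheory CategoryTheory.Limits AlgebraicGeometry
open EGA2

namespace Groth.Agent.S4378

set_option backward.isDefEq.respectTransparency false in
theorem result {X Y S : Scheme.{u}} (q : Y ⟶ S) (f : X ⟶ Y)
    [IsSeparated q] [LocallyOfFiniteType q] [QuasiCompact q]
    [IsSeparated (f ≫ q)] [LocallyOfFiniteType (f ≫ q)] [QuasiCompact (f ≫ q)] :
    IsProper f ↔ ∀ (S' : Scheme.{u}) (g : S' ⟶ S),
      IsClosedMap (pullback.map (f ≫ q) g q g f (𝟙 S') (𝟙 S) (Category.comp_id (f ≫ q))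
        ((Category.comp_id g).trans (Category.id_comp g).symm)).base := by
  constructor
  · intro hf S' g
    let e := pullbackRightPullbackFstIso q g f
    have key : pullback.map (f ≫ q) g q g f (𝟙 S') (𝟙 S) (Category.comp_id (f ≫ q))
        ((Category.comp_id g).trans (Category.id_comp g).symm) =
        e.inv ≫ pullback.snd f (pullback.fst q g) := by
      rw [Iso.eq_inv_comp]
      apply pullback.hom_ext
      · simp [e, pullback.condition]
      · simp [e]
    rw [key]
    exact Scheme.Hom.isClosedMap _
  · intro H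
    have hsep : IsSeparated f := IsSeparated.of_comp f q
    have hlft : LocallyOfFiniteType f := locallyOfFiniteType_of_comp f q
    have huc : UniversallyClosed f := by
      rw [universallyClosed_eq]
      apply MorphismProperty.universally_mk'
      intro T i₂ _
      show IsClosedMap (pullback.fst i₂ f).base
      rw [← pullbackSymmetry_hom_comp_snd, Scheme.Hom.comp_base]
      change IsClosedMap ((pullback.snd f i₂).base ∘ (pullbackSymmetry i₂ f).hom.base)
      refine IsClosedMap.comp ?_ (Scheme.Hom.isClosedMap _)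
      have hF := H T (i₂ ≫ q)
      let Γ : T ⟶ pullback q (i₂ ≫ q) := pullback.lift i₂ (𝟙 T) (by simp)
      have hΓ1 : Γ ≫ pullback.snd q (i₂ ≫ q) = 𝟙 T := pullback.lift_snd _ _ _
      let ι := pullback.mapDesc f i₂ q
      have hcomm : ι ≫ pullback.map (f ≫ q) (i₂ ≫ q) q (i₂ ≫ q) f (𝟙 T) (𝟙 S)
          (Category.comp_id (f ≫ q)) ((Category.comp_id _).trans (Category.id_comp _).symm) =
          pullback.snd f i₂ ≫ Γ := by
        apply pullback.hom_ext <;> simp [ι, Γ, pullback.condition]
      intro Z hZ
      have h1 : IsClosed (ι.base '' Z) := ι.isClosedEmbedding.isClosedMap Z hZ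
      have h2 := hF _ h1
      have h3 := h2.preimage Γ.continuous
      convert h3 using 1
      ext x
      constructor
      · rintro ⟨z, hz, rfl⟩
        refine ⟨ι.base z, ⟨z, hz, rfl⟩, ?_⟩
        rw [← Scheme.Hom.comp_apply, hcomm, Scheme.Hom.comp_apply]
      · rintro ⟨_, ⟨z, hz, rfl⟩, hx⟩
        refine ⟨z, hz, ?_⟩
        have h4 : Γ x = Γ ((pullback.snd f i₂) z) := by
          rw [← Scheme.Hom.comp_apply _ Γ, ← hcomm, Scheme.Hom.comp_apply]
          exact hx.symm
        have h5 := congrArg (pullback.snd q (i₂ ≫ q)) h4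
        rw [← Scheme.Hom.comp_apply, ← Scheme.Hom.comp_apply, hΓ1] at h5
        simpa using h5.symm
    exact ⟨⟩

end Groth.Agent.S4378
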