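import Groth.Statements.S4390
import Groth.Agent.Lib.Helper7.Graded

set_option autoImplicit false
universe u
open EGA2

namespace Groth.Agent.S4390

/-- Let S be a ring graded in nonnegative degrees. Then the irrelevant ideal S_+ is a finitely generated
ideal if and only if S is an S_0-algebra of finite type. -/
theorem result {R A : Type u} [CommRing R] [CommRing A] [Algebra R A] (𝒜 : ℕ → Submodule R A) [GradedAlgebra 𝒜] :
    (HomogeneousIdeal.irrelevant 𝒜).toIdeal.FG ↔ Algebra.FiniteType (𝒜 0) A :=
  ⟨Groth.Agent.Lib.Helper7.finiteType_of_irrelevant_fg 𝒜,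
    fun _ ↦ Groth.Agent.Lib.Helper7.irrelevant_fg_of_finiteType 𝒜⟩

end Groth.Agent.S4390
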