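import Groth.Statements.S4392
import Groth.Agent.Lib.Helper7.GradedPow

set_option autoImplicit false
universe u
open EGA2

namespace Groth.Agent.S4392

open DirectSum Groth.Agent.Lib.Helper7

section

variable {R A : Type u} [CommRing R] [CommRing A] [Algebra R A] (𝒜 : ℕ → Submodule R A)
  [GradedAlgebra 𝒜]

lemma ring_step [Algebra.FiniteType (𝒜 0) A] :
    ∃ h q₀ : ℕ, 0 < h ∧ ∀ q, q₀ ≤ q → (𝒜 (q + h) : Submodule R A) ≤ 𝒜 h * 𝒜 q := by
  classical
  obtain ⟨s, dv, e, ee, he, hv, hee, hee0, hdec⟩ := exists_monomial_decomp 𝒜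
  set Rr := s.card + 1 with hRr
  refine ⟨Rr * e, Rr * e, by positivity, fun q hq a ha ↦ ?_⟩
  have hmem := hdec _ a ha
  clear ha
  induction hmem using AddSubmonoid.closure_induction with
  | mem y hy =>
    obtain ⟨c, hc, γ, hγ, k, z, hz, hdeg, rfl⟩ := hy
    set D := ∑ i : s, γ i * dv (i : A) with hDdef
    have hD : D < Rr * e := by
      have h1 : D ≤ ∑ i : s, ee i * dv (i : A) :=
        Finset.sum_le_sum fun i _ ↦ Nat.mul_le_mul_right _ (hγ i).le
      have h2 : ∑ i : s, ee i * dv (i : A) = s.card * e := by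
        rw [Finset.sum_congr rfl (fun i _ ↦ hee i.1 i.2)]; simp
      rw [hRr, add_mul, one_mul]
      omega
    have hk : Rr ≤ k := by
      by_contra hcon
      push Not at hcon
      have : k * e ≤ Rr * e := Nat.mul_le_mul_right _ hcon.le
      omega
    obtain ⟨k', rfl⟩ : ∃ k', k = Rr + k' := ⟨k - Rr, by omega⟩
    have hq' : D + k' * e = q := by
      have : D + (Rr + k') * e = q + Rr * e := hdeg
      rw [add_mul] at this; omega
    have hcx : c * (∏ i : s, (i : A) ^ γ i) ∈ 𝒜 D := by
      have := SetLike.mul_mem_graded hc (SetLike.prod_pow_mem_graded 𝒜 (fun i : s ↦ dv (i : A))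
        (fun i : s ↦ (i : A)) γ (F := Finset.univ) (fun i _ ↦ hv i.1 i.2))
      simpa only [smul_eq_mul, zero_add] using this
    have hz' : z ∈ (𝒜 e : Submodule R A) ^ Rr * (𝒜 e : Submodule R A) ^ k' := by
      rw [← pow_add]; exact hz
    have hy := Submodule.mul_mem_mul hcx hz'
    have hle : (𝒜 D : Submodule R A) * ((𝒜 e : Submodule R A) ^ Rr * (𝒜 e : Submodule R A) ^ k')
        ≤ 𝒜 (Rr * e) * 𝒜 q := calc
      (𝒜 D : Submodule R A) * ((𝒜 e : Submodule R A) ^ Rr * (𝒜 e : Submodule R A) ^ k')
        ≤ 𝒜 D * (𝒜 (Rr * e) * 𝒜 (k' * e)) :=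
          Submodule.smul_mono le_rfl (Submodule.smul_mono (pow_le_graded 𝒜 e _)
            (pow_le_graded 𝒜 e _))
      _ = 𝒜 (Rr * e) * (𝒜 D * 𝒜 (k' * e)) := by rw [mul_left_comm]
      _ ≤ 𝒜 (Rr * e) * 𝒜 (D + k' * e) := Submodule.smul_mono le_rfl (mul_le_graded 𝒜 _ _)
      _ = 𝒜 (Rr * e) * 𝒜 q := by rw [hq']
    exact hle hy
  | zero => exact Submodule.zero_mem _
  | add x y _ _ hx hy => exact Submodule.add_mem _ hx hy

variable {M : Type u} [AddCommGroup M] [Module R M] [Module A M] [IsScalarTower R A M]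
  (ℳ : ℕ → Submodule R M) [DirectSum.Decomposition ℳ] [SetLike.GradedSMul 𝒜 ℳ]

lemma decompose_smul_of_mem {k : ℕ} {m : M} (hm : m ∈ ℳ k) (r : A) (N : ℕ) :
    (decompose ℳ (r • m) N : M) = if k ≤ N then (decompose 𝒜 r (N - k) : A) • m else 0 := by
  classical
  induction r using DirectSum.Decomposition.inductionOn 𝒜 with
  | zero => simp
  | homogeneous a =>
    obtain ⟨a, ha⟩ := a
    rename_i i
    have hsm : (a : A) • m ∈ ℳ (i + k) := SetLike.GradedSMul.smul_mem ha hm
    by_cases hik : i + k = N
    · subst hik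
      rw [decompose_of_mem_same ℳ hsm, if_pos (by omega), show i + k - k = i by omega,
        decompose_of_mem_same 𝒜 ha]
    · rw [decompose_of_mem_ne ℳ hsm hik]
      split_ifs with hkN
      · rw [decompose_of_mem_ne 𝒜 ha (by omega), zero_smul]
      · rfl
  | add a b ha hb =>
    rw [add_smul, decompose_add, add_apply, Submodule.coe_add, ha, hb, decompose_add, add_apply,
      Submodule.coe_add]
    split_ifs <;> simp [add_smul]

end

/-- Let S be a ring graded in nonnegative degrees which is an S_0-algebra of finite type, and M a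
finitely generated graded S-module, graded in nonnegative degrees. Then there exist an integer n₁
and an integer h > 0 such that M_{n+h} = S_h M_n for every n ≥ n₁. (The published statement allows M
graded in all integer degrees; this row takes M graded in nonnegative degrees.) -/
theorem result {R A : Type u} [CommRing R] [CommRing A] [Algebra R A] (𝒜 : ℕ → Submodule R A) [GradedAlgebra 𝒜] [Algebra.FiniteType (𝒜 0) A]
    {M : Type u} [AddCommGroup M] [Module R M] [Module A M] [IsScalarTower R A M] (ℳ : ℕ → Submodule R M) [DirectSum.Decomposition ℳ] [SetLike.GradedSMul 𝒜 ℳ] [Module.Finite A M] :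
    ∃ (n₁ h : ℕ), 0 < h ∧ ∀ n : ℕ, n₁ ≤ n → ℳ (n + h) = (𝒜 h : Submodule R A) • (ℳ n : Submodule R M) := by
  classical
  obtain ⟨h, q₀, hh, hstep⟩ := ring_step 𝒜
  obtain ⟨G, hG⟩ := Module.Finite.fg_top (R := A) (M := M)
  let G' : Finset M := G.biUnion fun g ↦ (decompose ℳ g).support.image fun n ↦ (decompose ℳ g n : M)
  have hG'hom : ∀ m ∈ G', ∃ n, m ∈ ℳ n := by
    intro m hm
    simp only [G', Finset.mem_biUnion, Finset.mem_image] at hm
    obtain ⟨g, -, n, -, rfl⟩ := hm
    exact ⟨n, SetLike.coe_mem _⟩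
  choose! kd hkd using hG'hom
  have hspan : Submodule.span A (G' : Set M) = ⊤ := by
    rw [eq_top_iff, ← hG, Submodule.span_le]
    intro g hg
    rw [← DirectSum.sum_support_decompose ℳ g]
    refine Submodule.sum_mem _ fun n hn ↦ Submodule.subset_span ?_
    simp only [G', Finset.coe_biUnion, Finset.coe_image, Set.mem_iUnion, Set.mem_image,
      Finset.mem_coe]
    exact ⟨g, hg, n, hn, rfl⟩
  let T : ℕ → AddSubmonoid M := fun N ↦ AddSubmonoid.closure
    {x | ∃ m ∈ G', kd m ≤ N ∧ ∃ a ∈ 𝒜 (N - kd m), x = a • m}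
  have key : ∀ N, ∀ x ∈ ℳ N, x ∈ T N := by
    intro N x hx
    have Q : ∀ y ∈ Submodule.span A (G' : Set M), ∀ r : A, (decompose ℳ (r • y) N : M) ∈ T N := by
      intro y hy
      induction hy using Submodule.span_induction with
      | mem m hm =>
        intro r
        rw [decompose_smul_of_mem 𝒜 ℳ (hkd m hm) r N]
        split_ifs with hle
        · exact AddSubmonoid.subset_closure ⟨m, hm, hle, _, SetLike.coe_mem _, rfl⟩
        · exact AddSubmonoid.zero_mem _
      | zero => intro r; simp
      | add y z _ _ hy hz =>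
        intro r
        rw [smul_add, decompose_add, add_apply, Submodule.coe_add]
        exact AddSubmonoid.add_mem _ (hy r) (hz r)
      | smul t y _ hy =>
        intro r
        rw [smul_smul]
        exact hy (r * t)
    have := Q x (hspan ▸ Submodule.mem_top) 1
    rwa [one_smul, decompose_of_mem_same ℳ hx] at this
  set K := G'.sup kd
  refine ⟨q₀ + K, h, hh, fun n hn ↦ le_antisymm ?_ ?_⟩
  · intro x hx
    have hxT := key _ x hx
    clear hx
    induction hxT using AddSubmonoid.closure_induction with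
    | mem y hy =>
      obtain ⟨m, hm, -, a, ha, rfl⟩ := hy
      have hmK : kd m ≤ K := Finset.le_sup hm
      have ha' : a ∈ (𝒜 h : Submodule R A) * 𝒜 (n - kd m) := by
        apply hstep (n - kd m) (by omega)
        rwa [show n - kd m + h = n + h - kd m by omega]
      refine Submodule.mul_induction_on (C := fun a ↦ a • m ∈ (𝒜 h : Submodule R A) • ℳ n)
        ha' ?_ ?_
      · intro b hb c hc
        show (b * c) • m ∈ _
        rw [mul_smul]
        refine Submodule.smul_mem_smul hb ?_
        have := SetLike.GradedSMul.smul_mem (A := 𝒜) (B := ℳ) hc (hkd m hm)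
        rwa [vadd_eq_add, show n - kd m + kd m = n by omega] at this
      · intro b c hb hc
        show (b + c) • m ∈ _
        rw [add_smul]; exact Submodule.add_mem _ hb hc
    | zero => exact Submodule.zero_mem _
    | add x y _ _ hx hy => exact Submodule.add_mem _ hx hy
  · rw [Submodule.smul_le]
    intro a ha y hy
    have := SetLike.GradedSMul.smul_mem (A := 𝒜) (B := ℳ) ha hy
    rwa [vadd_eq_add, add_comm] at this

end Groth.Agent.S4392
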