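import Groth.Statements.S4393
import Groth.Agent.Lib.Helper7.GradedPow

set_option autoImplicit false
universe u
open EGA2

namespace Groth.Agent.S4393

open Groth.Agent.Lib.Helper7

/-- Let S be a ring graded in nonnegative degrees which is an S_0-algebra of finite type. Then there is
an integer h > 0 such that S_{mh} = (S_h)^m (the S_0-submodule spanned by m-fold products of
elements of S_h) for every m > 0. -/
theorem result {R A : Type u} [CommRing R] [CommRing A] [Algebra R A] (𝒜 : ℕ → Submodule R A) [GradedAlgebra 𝒜] [Algebra.FiniteType (𝒜 0) A] :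
    ∃ h : ℕ, 0 < h ∧ ∀ m : ℕ, 0 < m → 𝒜 (m * h) = (𝒜 h : Submodule R A) ^ m := by
  classical
  obtain ⟨s, dv, e, ee, he, hv, hee, hee0, hdec⟩ := exists_monomial_decomp 𝒜
  set Rr := s.card + 1 with hRr
  refine ⟨Rr * e, by positivity, fun m hm ↦ le_antisymm ?_ (pow_le_graded 𝒜 _ m)⟩
  intro a ha
  have hmem := hdec _ a ha
  clear ha
  induction hmem using AddSubmonoid.closure_induction with
  | mem y hy =>
    obtain ⟨c, hc, γ, hγ, k, z, hz, hdeg, rfl⟩ := hy
    set D := ∑ i : s, γ i * dv (i : A) with hDdef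
    have hD : D < Rr * e := by
      have h1 : D ≤ ∑ i : s, ee i * dv (i : A) :=
        Finset.sum_le_sum fun i _ ↦ Nat.mul_le_mul_right _ (hγ i).le
      have h2 : ∑ i : s, ee i * dv (i : A) = s.card * e := by
        rw [Finset.sum_congr rfl (fun i _ ↦ hee i.1 i.2)]; simp
      rw [hRr, add_mul, one_mul]
      omega
    have hk : k ≤ m * Rr := by
      by_contra hcon
      push Not at hcon
      have : (m * Rr + 1) * e ≤ k * e := Nat.mul_le_mul_right _ hcon
      have h3 : D + k * e = m * Rr * e := by rw [hdeg]; ring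
      nlinarith
    set t := m * Rr - k with ht
    have hte : D = t * e := by
      have h3 : D + k * e = m * Rr * e := by rw [hdeg]; ring
      have h4 : t * e + k * e = m * Rr * e := by rw [← add_mul]; congr 1; omega
      omega
    have htR : t < Rr := by
      by_contra hcon
      push Not at hcon
      have : Rr * e ≤ t * e := Nat.mul_le_mul_right _ hcon
      omega
    have hkdec : k = (Rr - t) + Rr * (m - 1) := by
      have : m * Rr = Rr + Rr * (m - 1) := by
        cases m with
        | zero => omega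
        | succ m => simp; ring
      omega
    have hcx : c * (∏ i : s, (i : A) ^ γ i) ∈ 𝒜 (t * e) := by
      have := SetLike.mul_mem_graded hc (SetLike.prod_pow_mem_graded 𝒜 (fun i : s ↦ dv (i : A))
        (fun i : s ↦ (i : A)) γ (F := Finset.univ) (fun i _ ↦ hv i.1 i.2))
      simp only [smul_eq_mul, zero_add] at this
      rwa [← hte]
    have hz' : z ∈ (𝒜 e : Submodule R A) ^ (Rr - t) * ((𝒜 e : Submodule R A) ^ Rr) ^ (m - 1) := by
      rw [← pow_mul, ← pow_add, ← hkdec]; exact hz
    have hy := Submodule.mul_mem_mul hcx hz'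
    have hle : (𝒜 (t * e) : Submodule R A) * ((𝒜 e : Submodule R A) ^ (Rr - t) *
          ((𝒜 e : Submodule R A) ^ Rr) ^ (m - 1)) ≤ (𝒜 (Rr * e) : Submodule R A) ^ m := calc
      (𝒜 (t * e) : Submodule R A) * ((𝒜 e : Submodule R A) ^ (Rr - t) *
          ((𝒜 e : Submodule R A) ^ Rr) ^ (m - 1))
        ≤ 𝒜 (t * e) * (𝒜 ((Rr - t) * e) * (𝒜 (Rr * e)) ^ (m - 1)) :=
          Submodule.smul_mono le_rfl (Submodule.smul_mono (pow_le_graded 𝒜 e _)
            (submodule_pow_mono (pow_le_graded 𝒜 e Rr) _))
      _ = (𝒜 (t * e) * 𝒜 ((Rr - t) * e)) * (𝒜 (Rr * e)) ^ (m - 1) := by rw [mul_assoc]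
      _ ≤ 𝒜 (t * e + (Rr - t) * e) * (𝒜 (Rr * e)) ^ (m - 1) :=
          Submodule.smul_mono (mul_le_graded 𝒜 _ _) le_rfl
      _ = (𝒜 (Rr * e) : Submodule R A) ^ m := by
          rw [show t * e + (Rr - t) * e = Rr * e by rw [← add_mul]; congr 1; omega]
          rw [← pow_succ']
          congr 1; omega
    exact hle hy
  | zero => exact Submodule.zero_mem _
  | add x y _ _ hx hy => exact Submodule.add_mem _ hx hy

end Groth.Agent.S4393
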