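import Groth.Statements.S4394
import Groth.Agent.Lib.Helper7.Graded

set_option autoImplicit false
universe u
open EGA2

namespace Groth.Agent.S4394

open DirectSum

/-- Let S be a ring graded in nonnegative degrees which is an S_0-algebra of finite type. Then for every
integer n > 0 there is m₀ such that S_m ⊆ (S_+)^n for all m ≥ m₀. -/
theorem result {R A : Type u} [CommRing R] [CommRing A] [Algebra R A] (𝒜 : ℕ → Submodule R A) [GradedAlgebra 𝒜] [Algebra.FiniteType (𝒜 0) A]
    (n : ℕ) (hn : 0 < n) :
    ∃ m₀ : ℕ, ∀ m : ℕ, m₀ ≤ m → (𝒜 m : Set A) ⊆ ((HomogeneousIdeal.irrelevant 𝒜).toIdeal ^ n : Ideal A) := by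
  classical
  obtain ⟨s, hs, hs'⟩ := GradedAlgebra.exists_finset_adjoin_eq_top_and_homogeneous_ne_zero 𝒜
  choose! deg hdeg0 hdeg using hs'
  set I := (HomogeneousIdeal.irrelevant 𝒜).toIdeal with hI
  have hspan : I = Ideal.span (s : Set A) :=
    Groth.Agent.Lib.Helper7.irrelevant_eq_span_of_adjoin_eq_top 𝒜 (s : Set A)
      (fun e he ↦ ⟨deg e, Nat.pos_of_ne_zero (hdeg0 e he), hdeg e he⟩) hs
  set D := max 1 (s.sup deg) with hD
  have hD1 : 1 ≤ D := le_max_left _ _
  have hdegD : ∀ e ∈ s, deg e ≤ D := fun e he ↦ (Finset.le_sup he).trans (le_max_right _ _)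
  have key : ∀ k m, k * D ≤ m → ∀ a ∈ 𝒜 m, a ∈ I ^ k := by
    intro k
    induction k with
    | zero => intro m _ a _; simp
    | succ k ih =>
      intro m hm a ha
      have hmpos : 0 < m := lt_of_lt_of_le (by nlinarith) hm
      have ha' : a ∈ Ideal.span (s : Set A) := hspan ▸ HomogeneousIdeal.mem_irrelevant_of_mem 𝒜 hmpos ha
      have Q : ∀ x ∈ Ideal.span (s : Set A), ∀ r : A, (decompose 𝒜 (r * x) m : A) ∈ I ^ (k + 1) := by
        intro x hx
        induction hx using Submodule.span_induction with
        | mem e he =>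
          intro r
          rw [DirectSum.coe_decompose_mul_of_right_mem 𝒜 m (hdeg e he)]
          split_ifs with hdm
          · rw [pow_succ]
            refine Ideal.mul_mem_mul (ih _ ?_ _ (SetLike.coe_mem _)) ?_
            · have := hdegD e he
              have : (k + 1) * D = k * D + D := by ring
              omega
            · exact hspan ▸ Ideal.subset_span he
          · exact Submodule.zero_mem _
        | zero => intro r; simp
        | add x y _ _ hx hy =>
          intro r
          rw [mul_add, decompose_add, add_apply, Submodule.coe_add]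
          exact Submodule.add_mem _ (hx r) (hy r)
        | smul t x _ hx =>
          intro r
          rw [smul_eq_mul, ← mul_assoc]
          exact hx (r * t)
      have := Q a ha' 1
      rwa [one_mul, decompose_of_mem_same 𝒜 ha] at this
  exact ⟨n * D, fun m hm a ha ↦ key n m hm a ha⟩

end Groth.Agent.S4394
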