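import Groth.Statements.S4395
import Mathlib.RingTheory.GradedAlgebra.Radical

set_option autoImplicit false
universe u
open EGA2

namespace Groth.Agent.S4395

open DirectSum

variable {R A : Type u} [CommRing R] [CommRing A] [Algebra R A] (𝒜 : ℕ → Submodule R A)
  [GradedAlgebra 𝒜]

lemma exists_homog_not_mem (𝔮 : HomogeneousIdeal 𝒜)
    (h : ¬ HomogeneousIdeal.irrelevant 𝒜 ≤ 𝔮) :
    ∃ k, 0 < k ∧ ∃ f ∈ 𝒜 k, f ∉ 𝔮.toIdeal := by
  by_contra hcon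
  push Not at hcon
  apply h
  rw [HomogeneousIdeal.irrelevant_le]
  intro i hi x hx
  exact hcon i hi x hx

lemma mem_of_tail (n₀ : ℕ) (𝔭 𝔮 : HomogeneousIdeal 𝒜) (h𝔮 : 𝔮.toIdeal.IsPrime)
    (h𝔮' : ¬ HomogeneousIdeal.irrelevant 𝒜 ≤ 𝔮)
    (H : ∀ n, n₀ ≤ n → ∀ x ∈ 𝒜 n, x ∈ 𝔭.toIdeal → x ∈ 𝔮.toIdeal) :
    ∀ i, ∀ x ∈ 𝒜 i, x ∈ 𝔭.toIdeal → x ∈ 𝔮.toIdeal := by
  intro i x hx hxp
  obtain ⟨k, hk, f, hf, hfq⟩ := exists_homog_not_mem 𝒜 𝔮 h𝔮'
  have hmem : x * f ^ n₀ ∈ 𝒜 (i + n₀ • k) :=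
    SetLike.mul_mem_graded hx (SetLike.pow_mem_graded n₀ hf)
  have hle : n₀ ≤ i + n₀ • k := by
    rw [smul_eq_mul]; nlinarith
  have := H _ hle _ hmem (Ideal.mul_mem_right _ _ hxp)
  rcases h𝔮.mem_or_mem this with h | h
  · exact h
  · exact absurd (h𝔮.mem_of_pow_mem _ h) hfq

theorem result {R A : Type u} [CommRing R] [CommRing A] [Algebra R A] (𝒜 : ℕ → Submodule R A) [GradedAlgebra 𝒜]
    (n₀ : ℕ) (hn₀ : 0 < n₀) (p : ℕ → AddSubgroup A) (hp : ∀ n : ℕ, n₀ ≤ n → (p n : Set A) ⊆ 𝒜 n) :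
    ((∃ 𝔭 : HomogeneousIdeal 𝒜, 𝔭.toIdeal.IsPrime ∧ ¬ HomogeneousIdeal.irrelevant 𝒜 ≤ 𝔭 ∧
        ∀ n : ℕ, n₀ ≤ n → (𝔭.toIdeal : Set A) ∩ 𝒜 n = p n) ↔
      ((∀ m n : ℕ, n₀ ≤ n → ∀ a ∈ 𝒜 m, ∀ b ∈ p n, a * b ∈ p (m + n)) ∧
        (∀ m n : ℕ, n₀ ≤ m → n₀ ≤ n → ∀ f ∈ 𝒜 m, ∀ g ∈ 𝒜 n, f * g ∈ p (m + n) → f ∈ p m ∨ g ∈ p n) ∧
        ∃ n : ℕ, n₀ ≤ n ∧ (p n : Set A) ≠ 𝒜 n)) ∧
    ∀ 𝔭 𝔮 : HomogeneousIdeal 𝒜, 𝔭.toIdeal.IsPrime → 𝔮.toIdeal.IsPrime →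
      ¬ HomogeneousIdeal.irrelevant 𝒜 ≤ 𝔭 → ¬ HomogeneousIdeal.irrelevant 𝒜 ≤ 𝔮 →
      (∀ n : ℕ, n₀ ≤ n → (𝔭.toIdeal : Set A) ∩ 𝒜 n = p n) → (∀ n : ℕ, n₀ ≤ n → (𝔮.toIdeal : Set A) ∩ 𝒜 n = p n) →
      𝔭 = 𝔮 := by
  classical
  refine ⟨⟨?_, ?_⟩, ?_⟩
  · -- forward direction
    rintro ⟨𝔭, h𝔭, h𝔭', htail⟩
    have memp : ∀ n, n₀ ≤ n → ∀ x, x ∈ p n ↔ x ∈ 𝔭.toIdeal ∧ x ∈ 𝒜 n := by
      intro n hn x
      have := congrArg (x ∈ ·) (htail n hn)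
      simp only [Set.mem_inter_iff, SetLike.mem_coe, eq_iff_iff] at this
      exact this.symm
    refine ⟨?_, ?_, ?_⟩
    · intro m n hn a ha b hb
      have hb' := (memp n hn b).mp hb
      exact (memp (m + n) (by omega) _).mpr
        ⟨Ideal.mul_mem_left _ _ hb'.1, SetLike.mul_mem_graded ha hb'.2⟩
    · intro m n hm hn f hf g hg hfg
      have := ((memp (m + n) (by omega) _).mp hfg).1
      rcases h𝔭.mem_or_mem this with h | h
      · exact Or.inl ((memp m hm f).mpr ⟨h, hf⟩)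
      · exact Or.inr ((memp n hn g).mpr ⟨h, hg⟩)
    · obtain ⟨k, hk, f, hf, hf𝔭⟩ := exists_homog_not_mem 𝒜 𝔭 h𝔭'
      have hle : n₀ ≤ n₀ • k := by rw [smul_eq_mul]; nlinarith
      refine ⟨n₀ • k, hle, fun heq ↦ ?_⟩
      have hmem : f ^ n₀ ∈ 𝒜 (n₀ • k) := SetLike.pow_mem_graded n₀ hf
      have : f ^ n₀ ∈ (p (n₀ • k) : Set A) := heq ▸ hmem
      exact hf𝔭 (h𝔭.mem_of_pow_mem _ ((memp _ hle _).mp this).1)
  · -- backward direction
    rintro ⟨hA, hB, n₁, hn₁, hne⟩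
    obtain ⟨b₁, hb₁, hb₁p⟩ : ∃ b₁ ∈ 𝒜 n₁, b₁ ∉ p n₁ := by
      by_contra hcon
      push Not at hcon
      exact hne (Set.Subset.antisymm (hp n₁ hn₁) hcon)
    let q : ℕ → Set A := fun m ↦
      {a | a ∈ 𝒜 m ∧ ∀ n, n₀ ≤ n → ∀ b ∈ 𝒜 n, a * b ∈ p (m + n)}
    have q_zero : ∀ m, (0 : A) ∈ q m := fun m ↦
      ⟨Submodule.zero_mem _, fun n _ b _ ↦ by simp⟩
    have q_add : ∀ m, ∀ x y, x ∈ q m → y ∈ q m → x + y ∈ q m := by
      intro m x y hx hy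
      refine ⟨Submodule.add_mem _ hx.1 hy.1, fun n hn b hb ↦ ?_⟩
      rw [add_mul]
      exact AddSubgroup.add_mem _ (hx.2 n hn b hb) (hy.2 n hn b hb)
    -- elements of `q m` in degrees `≥ n₀` are exactly `p m`
    have q_tail : ∀ m, n₀ ≤ m → ∀ x, x ∈ q m ↔ x ∈ p m := by
      intro m hm x
      constructor
      · intro hx
        rcases hB m n₁ hm hn₁ x hx.1 b₁ hb₁ (hx.2 n₁ hn₁ b₁ hb₁) with h | h
        · exact h
        · exact absurd h hb₁p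
      · intro hx
        refine ⟨hp m hm hx, fun n hn b hb ↦ ?_⟩
        have := hA n m hm b hb x hx
        rwa [mul_comm, add_comm] at this
    let J : AddSubmonoid A :=
      { carrier := {x | ∀ m, (decompose 𝒜 x m : A) ∈ q m}
        add_mem' := by
          intro x y hx hy m
          simp only [Set.mem_setOf_eq, decompose_add, add_apply, Submodule.coe_add] at hx hy ⊢
          exact q_add m _ _ (hx m) (hy m)
        zero_mem' := by
          intro m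
          simp only [decompose_zero, zero_apply, ZeroMemClass.coe_zero]
          exact q_zero m }
    have mem_J_homog : ∀ i, ∀ x ∈ 𝒜 i, x ∈ J ↔ x ∈ q i := by
      intro i x hx
      constructor
      · intro h
        have := h i
        rwa [decompose_of_mem_same 𝒜 hx] at this
      · intro h m
        by_cases hm : i = m
        · subst hm; rwa [decompose_of_mem_same 𝒜 hx]
        · rw [decompose_of_mem_ne 𝒜 hx hm]; exact q_zero m
    have smul_homog : ∀ k, ∀ c ∈ 𝒜 k, ∀ x ∈ J, c * x ∈ J := by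
      intro k c hc x hx m
      rw [DirectSum.coe_decompose_mul_of_left_mem 𝒜 m hc]
      split_ifs with hkm
      · have hx' := hx (m - k)
        refine ⟨?_, fun n hn b hb ↦ ?_⟩
        · have := SetLike.mul_mem_graded hc (SetLike.coe_mem (decompose 𝒜 x (m - k)))
          rwa [show k + (m - k) = m by omega] at this
        · have h1 := hx'.2 (k + n) (by omega) (c * b) (SetLike.mul_mem_graded hc hb)
          rw [show m - k + (k + n) = m + n by omega] at h1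
          rwa [show c * (decompose 𝒜 x (m - k) : A) * b = (decompose 𝒜 x (m - k) : A) * (c * b)
            by ring]
      · exact q_zero m
    let I : Ideal A :=
      { toAddSubmonoid := J
        smul_mem' := by
          intro c x hx
          rw [smul_eq_mul, ← DirectSum.sum_support_decompose 𝒜 c, Finset.sum_mul]
          exact J.sum_mem fun k _ ↦ smul_homog k _ (SetLike.coe_mem _) x hx }
    have mem_I_homog : ∀ i, ∀ x ∈ 𝒜 i, x ∈ I ↔ x ∈ q i := mem_J_homog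
    have hIhom : I.IsHomogeneous 𝒜 := by
      intro i x hx
      exact (mem_I_homog i _ (SetLike.coe_mem _)).mpr (hx i)
    let 𝔭 : HomogeneousIdeal 𝒜 := ⟨I, hIhom⟩
    have hb₁I : b₁ ∉ I := fun h ↦ hb₁p ((q_tail n₁ hn₁ b₁).mp ((mem_I_homog n₁ b₁ hb₁).mp h))
    refine ⟨𝔭, ?_, ?_, ?_⟩
    · apply Ideal.IsHomogeneous.isPrime_of_homogeneous_mem_or_mem hIhom
      · intro htop
        have h1 : (1 : A) ∈ I := htop ▸ Submodule.mem_top
        have := ((mem_I_homog 0 1 SetLike.GradedOne.one_mem).mp h1).2 n₁ hn₁ b₁ hb₁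
        rw [one_mul, zero_add] at this
        exact hb₁p this
      · rintro x y ⟨i, hx⟩ ⟨j, hy⟩ hxy
        by_contra hcon
        push Not at hcon
        obtain ⟨hxI, hyI⟩ := hcon
        have hxq : x ∉ q i := fun h ↦ hxI ((mem_I_homog i x hx).mpr h)
        have hxy' := (mem_I_homog (i + j) _ (SetLike.mul_mem_graded hx hy)).mp hxy
        apply hyI
        rw [mem_I_homog j y hy]
        refine ⟨hy, fun n' hn' d hd ↦ ?_⟩
        have : ¬ ∀ n, n₀ ≤ n → ∀ c ∈ 𝒜 n, x * c ∈ p (i + n) := fun h ↦ hxq ⟨hx, h⟩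
        push Not at this
        obtain ⟨n, hn, c, hc, hxc⟩ := this
        have h1 := hxy'.2 (n + n') (by omega) (c * d) (SetLike.mul_mem_graded hc hd)
        rw [show x * y * (c * d) = (x * c) * (y * d) by ring,
          show i + j + (n + n') = (i + n) + (j + n') by ring] at h1
        rcases hB (i + n) (j + n') (by omega) (by omega) _ (SetLike.mul_mem_graded hx hc) _
          (SetLike.mul_mem_graded hy hd) h1 with h | h
        · exact absurd h hxc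
        · exact h
    · intro hle
      apply hb₁I
      have : b₁ ∈ HomogeneousIdeal.irrelevant 𝒜 :=
        HomogeneousIdeal.mem_irrelevant_of_mem 𝒜 (by omega) hb₁
      exact hle this
    · intro n hn
      ext x
      simp only [Set.mem_inter_iff, SetLike.mem_coe]
      constructor
      · rintro ⟨hxI, hxn⟩
        exact (q_tail n hn x).mp ((mem_I_homog n x hxn).mp hxI)
      · intro hx
        have hxn := hp n hn hx
        exact ⟨(mem_I_homog n x hxn).mpr ((q_tail n hn x).mpr hx), hxn⟩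
  · -- uniqueness
    intro 𝔭 𝔮 h𝔭 h𝔮 h𝔭' h𝔮' ht𝔭 ht𝔮
    have memp : ∀ (𝔯 : HomogeneousIdeal 𝒜), (∀ n : ℕ, n₀ ≤ n → (𝔯.toIdeal : Set A) ∩ 𝒜 n = p n) →
        ∀ n, n₀ ≤ n → ∀ x, x ∈ p n ↔ x ∈ 𝔯.toIdeal ∧ x ∈ 𝒜 n := by
      intro 𝔯 ht n hn x
      have := congrArg (x ∈ ·) (ht n hn)
      simp only [Set.mem_inter_iff, SetLike.mem_coe, eq_iff_iff] at this
      exact this.symm
    apply HomogeneousIdeal.ext'
    intro i x hx
    constructor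
    · intro h
      refine mem_of_tail 𝒜 n₀ 𝔭 𝔮 h𝔮 h𝔮' (fun n hn y hy hy𝔭 ↦ ?_) i x hx h
      exact ((memp 𝔮 ht𝔮 n hn y).mp ((memp 𝔭 ht𝔭 n hn y).mpr ⟨hy𝔭, hy⟩)).1
    · intro h
      refine mem_of_tail 𝒜 n₀ 𝔮 𝔭 h𝔭 h𝔭' (fun n hn y hy hy𝔮 ↦ ?_) i x hx h
      exact ((memp 𝔭 ht𝔭 n hn y).mp ((memp 𝔮 ht𝔮 n hn y).mpr ⟨hy𝔮, hy⟩)).1

end Groth.Agent.S4395
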