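import Groth.Statements.S4396

set_option autoImplicit false
universe u
open AlgebraicGeometry
open EGA2

namespace Groth.Agent.S4396

open DirectSum HomogeneousLocalization

theorem result {R A : Type u} [CommRing R] [CommRing A] [Algebra R A] (𝒜 : ℕ → Submodule R A) [GradedAlgebra 𝒜]
    {B : Type u} [CommRing B] [Algebra R B] (ℬ : ℕ → Submodule R B) [GradedAlgebra ℬ]
    (d : ℕ) (hd : 0 < d) (φ : B →ₐ[R] A) (hφ : Function.Injective φ)
    (hdeg : ∀ n : ℕ, Submodule.map φ.toLinearMap (ℬ n) = 𝒜 (n * d)) (f' : B) (hf' : f' ∈ ℬ 1) :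
    ∃ e : HomogeneousLocalization.Away 𝒜 (φ f') ≃+* B ⧸ Ideal.span {f' - 1},
      ∀ (n : ℕ) (x : B), x ∈ ℬ n →
        (e.symm (Ideal.Quotient.mk (Ideal.span {f' - 1}) x)).val =
          Localization.mk (φ x) ⟨φ f' ^ n, pow_mem (Submonoid.mem_powers (φ f')) n⟩ := by
  classical
  have mem : ∀ n, ∀ x ∈ ℬ n, φ x ∈ 𝒜 (n • d) := by
    intro n x hx
    rw [smul_eq_mul, ← hdeg n]
    exact ⟨x, hx, rfl⟩
  have hf : φ f' ∈ 𝒜 d := by simpa using mem 1 f' hf'
  let F : ∀ n, ℬ n →+ Away 𝒜 (φ f') := fun n ↦
    { toFun := fun x ↦ Away.mk 𝒜 hf n (φ x) (mem n x x.2)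
      map_zero' := by
        apply val_injective
        simp [Localization.mk_zero]
      map_add' := by
        intro x y
        apply val_injective
        simp only [Away.val_mk, Submodule.coe_add, map_add, val_add]
        rw [Localization.add_mk_self] }
  have hF : ∀ n (x : ℬ n), (F n x).val = Localization.mk (φ x) ⟨φ f' ^ n, by use n⟩ :=
    fun n x ↦ rfl
  have hone : F 0 (GradedMonoid.GOne.one (A := fun i ↦ ℬ i)) = 1 := by
    apply val_injective
    rw [hF, val_one]
    change Localization.mk (φ 1) _ = 1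
    simp only [map_one, pow_zero]
    exact Localization.mk_one
  have hmul : ∀ {i j} (ai : ℬ i) (aj : ℬ j),
      F (i + j) (GradedMonoid.GMul.mul (A := fun i ↦ ℬ i) ai aj) = F i ai * F j aj := by
    intro i j ai aj
    apply val_injective
    rw [val_mul, hF, hF, hF, Localization.mk_mul]
    change Localization.mk (φ (ai * aj)) _ = _
    congr 1
    · exact map_mul φ _ _
    · ext; simp [pow_add]
  let ψ : B →+* Away 𝒜 (φ f') :=
    (DirectSum.toSemiring F hone hmul).comp (DirectSum.decomposeRingEquiv ℬ).toRingHom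
  have hψ : ∀ n, ∀ x (hx : x ∈ ℬ n), ψ x = F n ⟨x, hx⟩ := by
    intro n x hx
    show DirectSum.toSemiring F hone hmul (decompose ℬ x) = _
    rw [decompose_of_mem ℬ hx, toSemiring_of]
  have hψsurj : Function.Surjective ψ := by
    intro z
    obtain ⟨n, a, ha, rfl⟩ := Away.mk_surjective 𝒜 hf z
    have : a ∈ Submodule.map φ.toLinearMap (ℬ n) := by
      rw [hdeg n, ← smul_eq_mul]; exact ha
    obtain ⟨b, hb, rfl⟩ := this
    exact ⟨b, hψ n b hb⟩
  have hker : RingHom.ker ψ = Ideal.span {f' - 1} := by
    apply le_antisymm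
    · intro x hx
      rw [RingHom.mem_ker] at hx
      rw [← Ideal.Quotient.eq_zero_iff_mem]
      set s := (decompose ℬ x).support
      set N := s.sup id
      have hxs : x = ∑ n ∈ s, (decompose ℬ x n : B) := (DirectSum.sum_support_decompose ℬ x).symm
      have hψx : ∑ n ∈ s, F n (decompose ℬ x n) = 0 := by
        rw [← hx]
        conv_rhs => rw [hxs]
        rw [map_sum]
        refine Finset.sum_congr rfl fun n _ ↦ ?_
        rw [hψ n _ (SetLike.coe_mem _)]
      -- clear denominators
      have hval := congrArg (fun z : Away 𝒜 (φ f') ↦ z.val * algebraMap A _ (φ f' ^ N)) hψx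
      simp only [val_zero, zero_mul] at hval
      have hterm : ∀ n ∈ s, (F n (decompose ℬ x n)).val * algebraMap A (Localization.Away (φ f'))
          (φ f' ^ N) = algebraMap A _ (φ ((decompose ℬ x n : B) * f' ^ (N - n))) := by
        intro n hn
        have hnN : n ≤ N := Finset.le_sup (f := id) hn
        have e1 : φ f' ^ N = φ f' ^ n * φ f' ^ (N - n) := by
          rw [← pow_add]; congr 1; omega
        rw [hF, map_mul φ, map_pow φ, map_mul (algebraMap A _), e1, map_mul (algebraMap A _),
          ← mul_assoc]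
        congr 1
        rw [Localization.mk_eq_mk']
        exact IsLocalization.mk'_spec _ _ _
      have hsum : algebraMap A (Localization.Away (φ f'))
          (φ (∑ n ∈ s, (decompose ℬ x n : B) * f' ^ (N - n))) = 0 := by
        rw [← hval]
        have : (∑ n ∈ s, F n (decompose ℬ x n)).val =
            ∑ n ∈ s, (F n (decompose ℬ x n)).val := by
          rw [← HomogeneousLocalization.algebraMap_apply, map_sum]; rfl
        rw [this, Finset.sum_mul, map_sum, map_sum]
        exact (Finset.sum_congr rfl hterm).symm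
      obtain ⟨⟨m, hm⟩, hm0⟩ := (IsLocalization.map_eq_zero_iff (Submonoid.powers (φ f')) _ _).mp hsum
      obtain ⟨M, rfl⟩ := hm
      have h0 : f' ^ M * ∑ n ∈ s, (decompose ℬ x n : B) * f' ^ (N - n) = 0 := by
        apply hφ
        rw [map_mul, map_pow, map_zero]
        exact hm0
      have hf1 : Ideal.Quotient.mk (Ideal.span {f' - 1}) f' = 1 := by
        rw [← map_one (Ideal.Quotient.mk (Ideal.span {f' - 1})), Ideal.Quotient.eq]
        exact Ideal.subset_span rfl
      have := congrArg (Ideal.Quotient.mk (Ideal.span {f' - 1})) h0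
      rw [map_mul, map_pow, hf1, one_pow, one_mul, map_sum, map_zero] at this
      simp only [map_mul, map_pow, hf1, one_pow, mul_one] at this
      rw [hxs, map_sum]
      exact this
    · rw [Ideal.span_le, Set.singleton_subset_iff, SetLike.mem_coe, RingHom.mem_ker, map_sub,
        map_one, hψ 1 f' hf', sub_eq_zero]
      apply val_injective
      rw [hF, val_one]
      simp only [pow_one]
      exact Localization.mk_self ⟨φ f', _⟩
  refine ⟨(RingHom.quotientKerEquivOfSurjective hψsurj).symm.trans (Ideal.quotEquivOfEq hker), ?_⟩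
  intro n x hx
  simp only [RingEquiv.symm_trans_apply, RingEquiv.symm_symm, Ideal.quotEquivOfEq_symm,
    Ideal.quotEquivOfEq_mk, RingHom.quotientKerEquivOfSurjective_apply_mk]
  rw [hψ n x hx, hF]

end Groth.Agent.S4396
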