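import Groth.Statements.S4398
import Mathlib.AlgebraicGeometry.Morphisms.IsIso

set_option autoImplicit false
universe u
open AlgebraicGeometry
open EGA2

namespace Groth.Agent.S4398

open CategoryTheory HomogeneousLocalization

variable {R A : Type u} [CommRing R] [CommRing A] [Algebra R A] {𝒜 : ℕ → Submodule R A}
  [GradedAlgebra 𝒜] {B : Type u} [CommRing B] [Algebra R B] {ℬ : ℕ → Submodule R B}
  [GradedAlgebra ℬ]

lemma away_map_bijective (φ : ℬ →+*ᵍ 𝒜) (hbij : ∀ n : ℕ, 0 < n → Set.BijOn φ (ℬ n) (𝒜 n))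
    {i : ℕ} (hi : 0 < i) (b : B) (hb : b ∈ ℬ i) : Function.Bijective (Away.map φ b) := by
  constructor
  · rw [injective_iff_map_eq_zero]
    intro z hz
    obtain ⟨n, a, ha, rfl⟩ := Away.mk_surjective ℬ hb z
    rw [Away.map_mk] at hz
    have hz' := congrArg HomogeneousLocalization.val hz
    rw [Away.val_mk, val_zero, Localization.mk_eq_mk', IsLocalization.mk'_eq_zero_iff] at hz'
    obtain ⟨⟨c, m, rfl⟩, hc⟩ := hz'
    have hmem : b ^ (m + 1) * a ∈ ℬ ((m + 1) • i + n • i) :=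
      SetLike.mul_mem_graded (SetLike.pow_mem_graded _ hb) ha
    have hpos : 0 < (m + 1) • i + n • i := by
      simp only [smul_eq_mul]; positivity
    have h0 : b ^ (m + 1) * a = 0 := by
      apply (hbij _ hpos).injOn hmem (Submodule.zero_mem _)
      simp only [map_mul, map_pow, map_zero]
      calc φ b ^ (m + 1) * φ a = φ b * (φ b ^ m * φ a) := by ring
        _ = 0 := by simp only at hc; rw [hc, mul_zero]
    apply val_injective
    rw [Away.val_mk, val_zero, Localization.mk_eq_mk', IsLocalization.mk'_eq_zero_iff]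
    exact ⟨⟨b ^ (m + 1), m + 1, rfl⟩, h0⟩
  · intro w
    obtain ⟨n, a, ha, rfl⟩ := Away.mk_surjective 𝒜 (φ.2 hb) w
    have hmem : a * φ b ∈ 𝒜 ((n + 1) • i) := by
      have := SetLike.mul_mem_graded ha (φ.2 hb)
      rwa [succ_nsmul]
    have hpos : 0 < (n + 1) • i := by
      simp only [smul_eq_mul]; positivity
    obtain ⟨c, hc, hcφ⟩ := (hbij _ hpos).surjOn hmem
    refine ⟨Away.mk ℬ hb (n + 1) c hc, ?_⟩
    rw [Away.map_mk]
    apply val_injective
    rw [Away.val_mk, Away.val_mk, Localization.mk_eq_mk_iff, Localization.r_iff_exists]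
    refine ⟨1, ?_⟩
    simp only [OneMemClass.coe_one, one_mul]
    rw [hcφ]
    exact (by ring : φ b ^ n * (a * φ b) = φ b ^ (n + 1) * a)

theorem result {R A : Type u} [CommRing R] [CommRing A] [Algebra R A] (𝒜 : ℕ → Submodule R A) [GradedAlgebra 𝒜]
    {B : Type u} [CommRing B] [Algebra R B] (ℬ : ℕ → Submodule R B) [GradedAlgebra ℬ]
    (φ : ℬ →+*ᵍ 𝒜) (hbij : ∀ n : ℕ, 0 < n → Set.BijOn φ (ℬ n) (𝒜 n))
    (hφ : HomogeneousIdeal.irrelevant 𝒜 ≤ (HomogeneousIdeal.irrelevant ℬ).map φ) :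
    CategoryTheory.IsIso (Proj.map φ hφ) := by
  classical
  have hU : ⨆ s : (Σ i : PNat, ℬ i), Proj.basicOpen ℬ (s.2 : B) = ⊤ := by
    apply Proj.iSup_basicOpen_eq_top ℬ (fun s : (Σ i : PNat, ℬ i) ↦ (s.2 : B))
    intro z hz
    rw [← DirectSum.sum_support_decompose ℬ z]
    refine Ideal.sum_mem _ fun c hc ↦ if hc0 : c = 0 then ?_ else
      Ideal.subset_span ⟨⟨⟨c, Nat.pos_iff_ne_zero.mpr hc0⟩, _⟩, rfl⟩
    convert! Ideal.zero_mem _
    subst hc0
    exact hz
  refine IsZariskiLocalAtTarget.of_iSup_eq_top (P := MorphismProperty.isomorphisms Scheme) _ hU ?_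
  rintro ⟨i, b, hb⟩
  have hi : 0 < (i : ℕ) := i.pos
  have hbi : Function.Bijective (Away.map φ b) := away_map_bijective φ hbij hi b hb
  have hiso : IsIso (CommRingCat.ofHom (Away.map φ b)) := by
    change IsIso (RingEquiv.ofBijective _ hbi).toCommRingCatIso.hom
    infer_instance
  have key : (Proj.map φ hφ ∣_ Proj.basicOpen ℬ b) =
      ((Proj 𝒜).isoOfEq (Proj.map_preimage_basicOpen φ hφ b)).hom ≫
      (Proj.basicOpenIsoSpec 𝒜 (φ b) (φ.2 hb) hi).hom ≫
        Spec.map (CommRingCat.ofHom (Away.map φ b)) ≫ (Proj.basicOpenIsoSpec ℬ b hb hi).inv := by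
    rw [← cancel_mono (Proj.basicOpen ℬ b).ι, morphismRestrict_ι, Category.assoc, Category.assoc,
      Category.assoc, Proj.basicOpenIsoSpec_inv_ι, ← Proj.awayι_comp_map φ hφ hi b hb,
      ← Proj.basicOpenIsoSpec_inv_ι, Category.assoc, Iso.hom_inv_id_assoc,
      Scheme.isoOfEq_hom_ι_assoc]
  change IsIso _
  rw [key]
  infer_instance

end Groth.Agent.S4398
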