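import Groth.Statements.S4404
import Mathlib.RingTheory.GradedAlgebra.Radical
import Mathlib.AlgebraicGeometry.ProjectiveSpectrum.Topology
import Mathlib.RingTheory.Nilpotent.Lemmas

set_option autoImplicit false
universe u
open EGA2

namespace Groth.Agent.S4404

theorem result {R A : Type u} [CommRing R] [CommRing A] [Algebra R A] (𝒜 : ℕ → Submodule R A) [GradedAlgebra 𝒜]
    (E : Set A) (hE : E ⊆ (HomogeneousIdeal.irrelevant 𝒜).toIdeal) :
    ProjectiveSpectrum.zeroLocus 𝒜 E = Set.univ ↔ ∀ e ∈ E, IsNilpotent e := by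
  constructor
  · intro h e he
    rw [← mem_nilradical, nilradical, Ideal.zero_eq_bot, (Ideal.IsHomogeneous.bot 𝒜).radical_eq]
    rw [Submodule.mem_sInf]
    rintro J ⟨hJh, -, hJp⟩
    by_cases hirr : (HomogeneousIdeal.irrelevant 𝒜).toIdeal ≤ J
    · exact hirr (hE he)
    · let x : ProjectiveSpectrum 𝒜 := ⟨⟨J, hJh⟩, hJp, hirr⟩
      have hx : x ∈ ProjectiveSpectrum.zeroLocus 𝒜 E := by rw [h]; trivial
      exact (ProjectiveSpectrum.mem_zeroLocus 𝒜 x E).mp hx he
  · intro h
    ext x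
    simp only [Set.mem_univ, iff_true]
    rw [ProjectiveSpectrum.mem_zeroLocus]
    intro e he
    obtain ⟨n, hn⟩ := h e he
    exact x.isPrime.mem_of_pow_mem n (hn ▸ zero_mem _)

end Groth.Agent.S4404
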