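import Groth.Statements.S4405
import Mathlib.RingTheory.GradedAlgebra.Radical

set_option autoImplicit false
universe u
open EGA2

namespace Groth.Agent.S4405

theorem result {R A : Type u} [CommRing R] [CommRing A] [Algebra R A] (𝒜 : ℕ → Submodule R A) [GradedAlgebra 𝒜]
    (E : Set A) (hE : E ⊆ (HomogeneousIdeal.irrelevant 𝒜).toIdeal) :
    (HomogeneousIdeal.irrelevant 𝒜).toIdeal ⊓
        (ProjectiveSpectrum.vanishingIdeal (ProjectiveSpectrum.zeroLocus 𝒜 E)).toIdeal =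
      (HomogeneousIdeal.irrelevant 𝒜).toIdeal ⊓ (Ideal.homogeneousHull 𝒜 (Ideal.span E)).toIdeal.radical := by
  set I := Ideal.homogeneousHull 𝒜 (Ideal.span E) with hI
  have hEI : E ⊆ I.toIdeal := fun e he ↦
    Ideal.le_toIdeal_homogeneousHull 𝒜 _ (Ideal.subset_span he)
  apply le_antisymm
  · rintro x ⟨hx₁, hx₂⟩
    refine ⟨hx₁, ?_⟩
    rw [SetLike.mem_coe, I.isHomogeneous.radical_eq, Submodule.mem_sInf]
    rintro K ⟨hK, hIK, hKp⟩
    by_cases hirr : (HomogeneousIdeal.irrelevant 𝒜).toIdeal ≤ K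
    · exact hirr hx₁
    · let 𝔭 : ProjectiveSpectrum 𝒜 := ⟨⟨K, hK⟩, hKp, fun h ↦ hirr h⟩
      have h𝔭 : 𝔭 ∈ ProjectiveSpectrum.zeroLocus 𝒜 E := fun e he ↦ hIK (hEI he)
      rw [SetLike.mem_coe, HomogeneousIdeal.mem_iff, ProjectiveSpectrum.mem_vanishingIdeal] at hx₂
      exact hx₂ 𝔭 h𝔭
  · rintro x ⟨hx₁, hx₂⟩
    refine ⟨hx₁, ?_⟩
    rw [SetLike.mem_coe, HomogeneousIdeal.mem_iff, ProjectiveSpectrum.mem_vanishingIdeal]
    intro 𝔭 h𝔭
    have hle : I.toIdeal ≤ 𝔭.asHomogeneousIdeal.toIdeal := by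
      have : Ideal.span E ≤ 𝔭.asHomogeneousIdeal.toIdeal := Ideal.span_le.mpr h𝔭
      exact (Ideal.homogeneousHull.gc 𝒜 _ _).mpr this
    exact (𝔭.isPrime.radical_le_iff.mpr hle) hx₂

end Groth.Agent.S4405
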