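import Groth.Statements.S4411
import Groth.Agent.Lib.Helper7.Veronese

set_option autoImplicit false
universe u
open EGA2

namespace Groth.Agent.S4411

open DirectSum

/-- Let S be a ring graded in nonnegative degrees which is an S_0-algebra of finite type, d > 0, and
S^{(d)} the graded ring whose degree-n part is S_{nd} (given here as any graded ring S' with an
injective algebra homomorphism φ : S' → S carrying S'_n onto S_{nd} for every n). Then S^{(d)} is an
algebra of finite type over its degree-zero part S'_0 (which φ identifies with S_0). -/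
theorem result {R A : Type u} [CommRing R] [CommRing A] [Algebra R A] (𝒜 : ℕ → Submodule R A) [GradedAlgebra 𝒜] [Algebra.FiniteType (𝒜 0) A]
    {B : Type u} [CommRing B] [Algebra R B] (ℬ : ℕ → Submodule R B) [GradedAlgebra ℬ]
    (d : ℕ) (hd : 0 < d) (φ : B →ₐ[R] A) (hφ : Function.Injective φ)
    (hdeg : ∀ n : ℕ, Submodule.map φ.toLinearMap (ℬ n) = 𝒜 (n * d)) :
    Algebra.FiniteType (ℬ 0) B := by
  classical
  obtain ⟨T, hTfin, hTdeg, hT⟩ := Groth.Agent.Lib.Helper7.veronese_subset_adjoin 𝒜 d hd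
  let T' : Set B := φ ⁻¹' T
  have hT'fin : T'.Finite := hTfin.preimage hφ.injOn
  have himg : ∀ t ∈ T, ∃ b, φ b = t := by
    intro t ht
    obtain ⟨k, hk⟩ := hTdeg t ht
    rw [← hdeg k] at hk
    obtain ⟨b, _, hb⟩ := hk
    exact ⟨b, hb⟩
  have hlift : ∀ a ∈ Algebra.adjoin (𝒜 0) T, ∃ y ∈ Algebra.adjoin (ℬ 0) T', φ y = a := by
    intro a ha
    induction ha using Algebra.adjoin_induction with
    | mem t ht =>
      obtain ⟨b, hb⟩ := himg t ht
      refine ⟨b, Algebra.subset_adjoin ?_, hb⟩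
      show φ b ∈ T
      rw [hb]; exact ht
    | algebraMap c =>
      have hc : (c : A) ∈ Submodule.map φ.toLinearMap (ℬ 0) := by
        rw [hdeg 0, zero_mul]; exact c.2
      obtain ⟨b, hb0, hb⟩ := hc
      exact ⟨b, Subalgebra.algebraMap_mem _ (⟨b, hb0⟩ : ℬ 0), hb⟩
    | add x y _ _ hx hy =>
      obtain ⟨x', hx', rfl⟩ := hx
      obtain ⟨y', hy', rfl⟩ := hy
      exact ⟨x' + y', Subalgebra.add_mem _ hx' hy', map_add φ _ _⟩
    | mul x y _ _ hx hy =>
      obtain ⟨x', hx', rfl⟩ := hx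
      obtain ⟨y', hy', rfl⟩ := hy
      exact ⟨x' * y', Subalgebra.mul_mem _ hx' hy', map_mul φ _ _⟩
  refine ⟨⟨hT'fin.toFinset, ?_⟩⟩
  rw [Set.Finite.coe_toFinset, eq_top_iff]
  intro b _
  rw [← DirectSum.sum_support_decompose ℬ b]
  refine Subalgebra.sum_mem _ fun n _ ↦ ?_
  have h1 : φ (decompose ℬ b n : B) ∈ 𝒜 (n * d) := by
    rw [← hdeg n]; exact ⟨_, SetLike.coe_mem _, rfl⟩
  obtain ⟨y, hy, hyeq⟩ := hlift _ (hT n _ h1)
  rwa [← hφ hyeq]

end Groth.Agent.S4411
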