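import Groth.Statements.S4412
import Groth.Agent.S4411

set_option autoImplicit false
universe u
open EGA2

namespace Groth.Agent.S4412

open DirectSum

/-- Let S be a Noetherian ring graded in nonnegative degrees, d > 0, and S^{(d)} the graded ring whose
degree-n part is S_{nd} (given as any graded ring S' with an injective algebra homomorphism φ : S' →
S carrying S'_n onto S_{nd} for every n). Then S^{(d)} is Noetherian. -/
theorem result {R A : Type u} [CommRing R] [CommRing A] [Algebra R A] (𝒜 : ℕ → Submodule R A) [GradedAlgebra 𝒜] [IsNoetherianRing A]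
    {B : Type u} [CommRing B] [Algebra R B] (ℬ : ℕ → Submodule R B) [GradedAlgebra ℬ]
    (d : ℕ) (hd : 0 < d) (φ : B →ₐ[R] A) (hφ : Function.Injective φ)
    (hdeg : ∀ n : ℕ, Submodule.map φ.toLinearMap (ℬ n) = 𝒜 (n * d)) :
    IsNoetherianRing B := by
  classical
  have : Algebra.FiniteType (𝒜 0) A :=
    Groth.Agent.Lib.Helper7.finiteType_of_irrelevant_fg 𝒜 (IsNoetherian.noetherian _)
  have hft : Algebra.FiniteType (ℬ 0) B := Groth.Agent.S4411.result 𝒜 ℬ d hd φ hφ hdeg
  let ψ : ℬ 0 →+* 𝒜 0 :=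
    (GradedRing.projZeroRingHom' 𝒜).comp ((φ : B →+* A).comp (algebraMap (ℬ 0) B))
  have hmem : ∀ x : ℬ 0, φ (x : B) ∈ 𝒜 0 := by
    intro x
    have : φ (x : B) ∈ Submodule.map φ.toLinearMap (ℬ 0) := ⟨x, x.2, rfl⟩
    rwa [hdeg 0, zero_mul] at this
  have hψ : ∀ x : ℬ 0, (ψ x : A) = φ (x : B) := by
    intro x
    simp only [ψ, RingHom.comp_apply, GradedRing.coe_projZeroRingHom'_apply,
      GradedRing.projZeroRingHom_apply]
    exact decompose_of_mem_same 𝒜 (hmem x)
  have hbij : Function.Bijective ψ := by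
    constructor
    · intro x y hxy
      have := congrArg Subtype.val hxy
      rw [hψ, hψ] at this
      exact Subtype.ext (hφ this)
    · intro z
      have : (z : A) ∈ Submodule.map φ.toLinearMap (ℬ 0) := by
        rw [hdeg 0, zero_mul]; exact z.2
      obtain ⟨b, hb0, hb⟩ := this
      refine ⟨⟨b, hb0⟩, Subtype.ext ?_⟩
      rw [hψ]; exact hb
  have : IsNoetherianRing (ℬ 0) :=
    isNoetherianRing_of_ringEquiv (𝒜 0) (RingEquiv.ofBijective ψ hbij).symm
  exact Algebra.FiniteType.isNoetherianRing (ℬ 0) B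

end Groth.Agent.S4412
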