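import Groth.Statements.S4429
import Mathlib.LinearAlgebra.Charpoly.BaseChange
import Mathlib.LinearAlgebra.Eigenspace.Charpoly
import Mathlib.LinearAlgebra.Eigenspace.Minpoly
import Mathlib.RingTheory.Polynomial.IsIntegral
import Mathlib.FieldTheory.IsAlgClosed.AlgebraicClosure

set_option autoImplicit false
universe u
open EGA2

namespace Groth.Agent.S4429

open Polynomial TensorProduct

theorem result (A : Type u) [CommRing A] [IsDomain A] (K : Type u) [Field K]
    [Algebra A K] [IsFractionRing A K] (E : Type u) [AddCommGroup E] [Module A E] [Module.Finite A E]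
    (u : E →ₗ[A] E) (i : ℕ) :
    IsIntegral A (((u.baseChange K).charpoly).coeff i) := by
  obtain ⟨p, hpmon, hpu⟩ := LinearMap.exists_monic_and_aeval_eq_zero A u
  set g : Module.End K (K ⊗[A] E) := u.baseChange K with hg
  let L := AlgebraicClosure K
  set χ := g.charpoly with hχ
  have hχL : (g.baseChange L).charpoly = χ.map (algebraMap K L) := LinearMap.charpoly_baseChange g L
  have hg0 : aeval g (p.map (algebraMap A K)) = 0 := by
    rw [aeval_map_algebraMap]
    have : g = Module.End.baseChangeHom A K E u := rfl
    rw [this, aeval_algHom_apply, hpu, map_zero]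
  have hf0 : aeval (g.baseChange L) ((p.map (algebraMap A K)).map (algebraMap K L)) = 0 := by
    rw [aeval_map_algebraMap]
    have : g.baseChange L = Module.End.baseChangeHom K L (K ⊗[A] E) g := rfl
    rw [this, aeval_algHom_apply, hg0, map_zero]
  have hroots : ∀ μ : L, (χ.map (algebraMap K L)).IsRoot μ → IsIntegral A μ := by
    intro μ hμ
    rw [← hχL, ← Module.End.hasEigenvalue_iff_isRoot_charpoly] at hμ
    obtain ⟨v, hv⟩ := hμ.exists_hasEigenvector
    have h1 := Module.End.aeval_apply_of_hasEigenvector
      (p := (p.map (algebraMap A K)).map (algebraMap K L)) hv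
    rw [hf0, LinearMap.zero_apply] at h1
    have h2 : ((p.map (algebraMap A K)).map (algebraMap K L)).eval μ = 0 := by
      by_contra h
      exact hv.2 ((smul_eq_zero.mp h1.symm).resolve_left h)
    refine ⟨p, hpmon, ?_⟩
    rw [Polynomial.map_map, ← IsScalarTower.algebraMap_eq, eval_map_algebraMap] at h2
    exact h2
  have hmon : (χ.map (algebraMap K L)).Monic := (LinearMap.charpoly_monic g).map _
  have := Polynomial.isIntegral_coeff_of_factors (χ.map (algebraMap K L))
    (by rw [hmon.leadingCoeff]; exact isIntegral_one) (IsAlgClosed.splits _) hroots i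
  rw [Polynomial.coeff_map] at this
  exact (isIntegral_algHom_iff (IsScalarTower.toAlgHom A K L) (algebraMap K L).injective).mp this

end Groth.Agent.S4429
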