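import Groth.Statements.S4430
import Groth.Agent.S4429

set_option autoImplicit false
universe u
open EGA2

namespace Groth.Agent.S4430

open Polynomial TensorProduct

lemma mem_range_of_isIntegral_of_mul_eq_one {A K : Type*} [CommRing A] [Field K] [Algebra A K]
    {a : A} {b : K} (hb : IsIntegral A b) (hab : algebraMap A K a * b = 1) :
    ∃ a' : A, algebraMap A K a' = b := by
  obtain ⟨p, hpmon, hp⟩ := hb
  set n := p.natDegree with hn
  set α := algebraMap A K a with hα
  have hn0 : n ≠ 0 := by
    intro h0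
    have : p = 1 := Polynomial.eq_one_of_monic_natDegree_zero hpmon h0
    rw [this, eval₂_one] at hp
    exact one_ne_zero hp
  rw [hpmon.as_sum] at hp
  simp only [eval₂_add, eval₂_X_pow, eval₂_finsetSum, eval₂_mul, eval₂_C, eval₂_X_pow] at hp
  refine ⟨-∑ i ∈ Finset.range n, p.coeff i * a ^ (n - 1 - i), ?_⟩
  have hpow : ∀ i, i ≤ n - 1 → b ^ i * α ^ (n - 1) = α ^ (n - 1 - i) := by
    intro i hi
    have : α ^ (n - 1) = α ^ (n - 1 - i) * α ^ i := by rw [← pow_add]; congr 1; omega
    rw [this, mul_comm (α ^ (n - 1 - i)), ← mul_assoc, ← mul_pow, mul_comm b, hab, one_pow, one_mul]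
  have key : b = b ^ n * α ^ (n - 1) := by
    have e : b ^ n = b * b ^ (n - 1) := by rw [← pow_succ']; congr 1; omega
    rw [e, mul_assoc, hpow (n - 1) le_rfl, Nat.sub_self, pow_zero, mul_one]
  have hbn : b ^ n = -∑ i ∈ Finset.range n, algebraMap A K (p.coeff i) * b ^ i :=
    eq_neg_of_add_eq_zero_left hp
  rw [key, hbn, neg_mul, Finset.sum_mul, map_neg, map_sum]
  congr 1
  refine Finset.sum_congr rfl fun i hi ↦ ?_
  rw [Finset.mem_range] at hi
  rw [mul_assoc, hpow i (by omega), map_mul, map_pow]

theorem result (A : Type u) [CommRing A] [IsDomain A] (K : Type u) [Field K]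
    [Algebra A K] [IsFractionRing A K] (E : Type u) [AddCommGroup E] [Module A E] [Module.Finite A E]
    (u : E →ₗ[A] E) (hcoeff : ∀ i : ℕ, ((u.baseChange K).charpoly).coeff i ∈ (algebraMap A K).range)
    (a : A) (ha : algebraMap A K a = LinearMap.det (u.baseChange K)) (hu : Function.Bijective u) :
    IsUnit a := by
  let e := LinearEquiv.ofBijective u hu
  let v : E →ₗ[A] E := e.symm.toLinearMap
  have huv : u ∘ₗ v = LinearMap.id := by
    ext x; simp [v, e]
  have hdet : LinearMap.det (u.baseChange K) * LinearMap.det (v.baseChange K) = 1 := by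
    rw [← LinearMap.det_comp, ← LinearMap.baseChange_comp, huv, LinearMap.baseChange_id,
      LinearMap.det_id]
  have hint : IsIntegral A (LinearMap.det (v.baseChange K)) := by
    rw [LinearMap.det_eq_sign_charpoly_coeff]
    refine IsIntegral.mul (IsIntegral.pow ?_ _) (Groth.Agent.S4429.result A K E v 0)
    exact IsIntegral.neg isIntegral_one
  rw [← ha] at hdet
  obtain ⟨a', ha'⟩ := mem_range_of_isIntegral_of_mul_eq_one hint hdet
  rw [← ha', ← map_mul] at hdet
  have : a * a' = 1 := IsFractionRing.injective A K (by rw [hdet, map_one])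
  exact IsUnit.of_mul_eq_one a' this

end Groth.Agent.S4430
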