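import Groth.Statements.S4431
import Mathlib.LinearAlgebra.Charpoly.BaseChange
import Mathlib.RingTheory.Localization.BaseChange
import Mathlib.LinearAlgebra.Matrix.Charpoly.LinearMap

set_option autoImplicit false
universe u
open EGA2

namespace Groth.Agent.S4431

open Polynomial TensorProduct

theorem result (A : Type u) [CommRing A] [IsDomain A] (K : Type u) [Field K]
    [Algebra A K] [IsFractionRing A K] (E : Type u) [AddCommGroup E] [Module A E] [Module.Finite A E]
    [Module.IsTorsionFree A E]
    (u : E →ₗ[A] E) (hcoeff : ∀ i : ℕ, ((u.baseChange K).charpoly).coeff i ∈ (algebraMap A K).range)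
    (a : A) (ha : algebraMap A K a = LinearMap.det (u.baseChange K)) (hunit : IsUnit a) :
    Function.Bijective u := by
  set χ := (u.baseChange K).charpoly with hχ
  have hlift : χ ∈ Polynomial.lifts (algebraMap A K) :=
    (Polynomial.lifts_iff_coeff_lifts χ).mpr fun n ↦ hcoeff n
  obtain ⟨q, hq⟩ := Polynomial.mem_lifts χ |>.mp hlift
  -- Cayley-Hamilton
  have hCH : aeval (u.baseChange K) χ = 0 := LinearMap.aeval_self_charpoly _
  have hq0K : (aeval u q).baseChange K = 0 := by
    have : (aeval u q).baseChange K = Module.End.baseChangeHom A K E (aeval u q) := rfl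
    rw [this, ← aeval_algHom_apply]
    have h2 : Module.End.baseChangeHom A K E u = u.baseChange K := rfl
    rw [h2, ← aeval_map_algebraMap K, hq, hCH]
  -- injectivity of `E → K ⊗ E`
  have hinj : Function.Injective (TensorProduct.mk A K E 1) := by
    rw [IsLocalizedModule.injective_iff_isRegular (nonZeroDivisors A)]
    intro c
    have hc : IsRegular (c : A) := by
      have := c.2
      rw [mem_nonZeroDivisors_iff_ne_zero] at this
      exact IsRegular.of_ne_zero this
    intro x y hxy
    exact hc.isSMulRegular hxy
  have hq0 : aeval u q = 0 := by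
    ext x
    apply hinj
    have := congrArg (fun f ↦ f (1 ⊗ₜ[A] x)) hq0K
    simpa using this
  -- constant coefficient
  have hc0 : IsUnit (q.coeff 0) := by
    have h1 : algebraMap A K (q.coeff 0) = χ.coeff 0 := by rw [← hq, coeff_map]
    have h2 := LinearMap.det_eq_sign_charpoly_coeff (u.baseChange K)
    rw [← ha, ← hχ, ← h1] at h2
    have h3 : a = (-1) ^ Module.finrank K (K ⊗[A] E) * q.coeff 0 := by
      apply IsFractionRing.injective A K
      rw [h2, map_mul, map_pow, map_neg, map_one]
    have h4 : q.coeff 0 = (-1) ^ Module.finrank K (K ⊗[A] E) * a := by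
      rw [h3, ← mul_assoc, ← pow_add, ← two_mul, pow_mul, neg_one_sq, one_pow, one_mul]
    rw [h4]
    exact (isUnit_neg_one.pow _).mul hunit
  -- `u * w = - c₀` where `w = aeval u q.divX`
  set w := aeval u q.divX with hw
  set c := q.coeff 0 with hc
  have hdecomp := Polynomial.X_mul_divX_add q
  have huw : u * w = -(algebraMap A (Module.End A E) c) := by
    have := congrArg (aeval u) hdecomp
    rw [hq0, map_add, map_mul, aeval_X, aeval_C] at this
    exact eq_neg_of_add_eq_zero_left this
  have hwu : w * u = u * w := by
    have h1 : aeval u (q.divX * X) = aeval u (X * q.divX) := by rw [mul_comm]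
    rw [map_mul, map_mul, aeval_X] at h1
    exact h1
  obtain ⟨cu, hcu⟩ := hc0
  constructor
  · intro x y hxy
    have := congrArg w hxy
    have e1 : ∀ z, w (u z) = -(c • z) := by
      intro z
      have := congrArg (fun f : Module.End A E ↦ f z) (hwu.trans huw)
      simpa [Module.algebraMap_end_apply] using this
    rw [e1, e1, neg_inj] at this
    have := congrArg (fun z ↦ (cu⁻¹ : Aˣ) • z) this
    simpa [← hcu, smul_smul] using this
  · intro y
    refine ⟨w (-((cu⁻¹ : Aˣ) • y)), ?_⟩
    have := congrArg (fun f : Module.End A E ↦ f (-((cu⁻¹ : Aˣ) • y))) huw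
    simp only [Module.End.mul_apply, LinearMap.neg_apply, Module.algebraMap_end_apply] at this
    rw [this, smul_neg, neg_neg, ← hcu, Units.smul_def, smul_smul]
    simp

end Groth.Agent.S4431
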