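import Groth.Statements.S4459
import Mathlib.RingTheory.AdicCompletion.Basic
import Mathlib.AlgebraicGeometry.Spec

set_option autoImplicit false
universe u
open Coherent
open AlgebraicGeometry

namespace Groth.Agent.S4459

lemma closed_meets {A : Type u} [CommRing A] (J : Ideal A) (hJ : J ≤ (⊥ : Ideal A).jacobson)
    (Z : Set (PrimeSpectrum A)) (hZ : IsClosed Z) (q : PrimeSpectrum A) (hq : q ∈ Z) :
    ∃ M ∈ Z, M ∈ PrimeSpectrum.zeroLocus (J : Set A) := by
  obtain ⟨m, hm, hle⟩ := Ideal.exists_le_maximal q.asIdeal q.isPrime.ne_top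
  let M : PrimeSpectrum A := ⟨m, hm.isPrime⟩
  have hM : M ∈ closure {q} := (PrimeSpectrum.le_iff_mem_closure q M).mp hle
  refine ⟨M, closure_minimal (Set.singleton_subset_iff.mpr hq) hZ hM, ?_⟩
  rw [PrimeSpectrum.mem_zeroLocus]
  intro a ha
  exact Ideal.mem_sInf.mp (hJ ha) ⟨bot_le, hm⟩

theorem result (A : Type u) [CommRing A] [IsNoetherianRing A]
    (J : Ideal A) [IsAdicComplete J A] {X : Scheme.{u}} (f : X ⟶ Spec (CommRingCat.of A))
    (hf : IsClosedMap f.base) (U : X.Opens)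
    (hU : f.base ⁻¹' (PrimeSpectrum.zeroLocus (J : Set A)) ⊆ (U : Set X)) : U = ⊤ := by
  by_contra hne
  obtain ⟨x, hx⟩ : ∃ x : X, x ∉ U := by
    by_contra h
    push Not at h
    exact hne (eq_top_iff.mpr fun x _ => h x)
  have hZ : IsClosed (f.base '' (U : Set X)ᶜ) := hf _ U.isOpen.isClosed_compl
  obtain ⟨M, ⟨z, hz, hzM⟩, hMJ⟩ := closed_meets (A := A) J (IsAdicComplete.le_jacobson_bot J)
    (f.base '' (U : Set X)ᶜ) hZ (f.base x) ⟨x, hx, rfl⟩
  apply hz
  apply hU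
  show f.base z ∈ PrimeSpectrum.zeroLocus (J : Set A)
  rw [hzM]
  exact hMJ

end Groth.Agent.S4459
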