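import Groth.Statements.S4469
import Mathlib.RingTheory.ZariskisMainTheorem
import Mathlib.RingTheory.Ideal.MinimalPrime.Noetherian

set_option autoImplicit false
universe u
open CAlg

namespace Groth.Agent.S4469

theorem result (A B K : Type u) [CommRing A]
    [IsDomain A] [IsNoetherianRing A] [IsLocalRing A] [IsIntegrallyClosed A] [CommRing B] [IsDomain B]
    [Field K] [Algebra A B] [Algebra B K] [Algebra A K] [IsScalarTower A B K] [IsFractionRing A K]
    [IsFractionRing B K] [Algebra.FiniteType A B] (n : Ideal B) [n.IsMaximal]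
    (hn : n.comap (algebraMap A B) = IsLocalRing.maximalIdeal A)
    (hmin : ∀ q : Ideal B, q.IsPrime → q.comap (algebraMap A B) = IsLocalRing.maximalIdeal A → q ≤ n → q = n) :
    Function.Bijective (algebraMap A B) := by
  classical
  have : IsNoetherianRing B := Algebra.FiniteType.isNoetherianRing A B
  set m := IsLocalRing.maximalIdeal A with hm
  set I : Ideal B := m.map (algebraMap A B) with hI
  let q : PrimeSpectrum B := ⟨n, inferInstance⟩
  -- primes in the fiber contain `I`, and have contraction `m`
  have hfib : ∀ P : PrimeSpectrum B, PrimeSpectrum.comap (algebraMap A B) P =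
      PrimeSpectrum.comap (algebraMap A B) q → P.asIdeal.comap (algebraMap A B) = m := by
    intro P hP
    have := congrArg PrimeSpectrum.asIdeal hP
    simpa [q, hn] using this
  have hQF : Algebra.QuasiFiniteAt A n := by
    apply (Algebra.quasiFiniteAt_iff_isOpen_singleton_fiber (R := A) q).mpr
    rw [← isClosed_compl_iff, isClosed_induced_iff]
    let S : Set (Ideal B) := I.minimalPrimes \ {n}
    have hSfin : S.Finite := (Ideal.finite_minimalPrimes_of_isNoetherianRing B I).subset
      Set.sdiff_subset
    refine ⟨⋃ P ∈ S, PrimeSpectrum.zeroLocus (P : Set B),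
      hSfin.isClosed_biUnion (fun P _ => PrimeSpectrum.isClosed_zeroLocus _), ?_⟩
    ext ⟨P', hP'⟩
    have hP'm := hfib P' hP'
    simp only [Set.mem_preimage, Set.mem_iUnion, PrimeSpectrum.mem_zeroLocus, SetLike.coe_subset_coe,
      exists_prop, Set.mem_compl_iff, Set.mem_singleton_iff]
    constructor
    · rintro ⟨P, ⟨hPmin, hPn⟩, hPP'⟩ heq
      have hP'n : P'.asIdeal = n := by
        have := congrArg (fun z => z.1.asIdeal) heq
        simpa [q] using this
      have hPprime : P.IsPrime := hPmin.1.1
      have hPI : I ≤ P := hPmin.1.2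
      have hPc : P.comap (algebraMap A B) = m := by
        have h1 : m ≤ P.comap (algebraMap A B) := Ideal.map_le_iff_le_comap.mp hPI
        exact ((IsLocalRing.maximalIdeal.isMaximal A).eq_of_le
          (Ideal.IsPrime.comap (algebraMap A B) (hK := hPprime)).ne_top h1).symm
      exact hPn (hmin P hPprime hPc (hP'n ▸ hPP'))
    · intro hne
      have hIP' : I ≤ P'.asIdeal := Ideal.map_le_iff_le_comap.mpr hP'm.ge
      obtain ⟨P, hPmin, hPP'⟩ := Ideal.exists_minimalPrimes_le hIP'
      refine ⟨P, ⟨hPmin, ?_⟩, hPP'⟩
      rintro (rfl : P = n)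
      apply hne
      have : P'.asIdeal = P := ((inferInstance : P.IsMaximal).eq_of_le P'.2.ne_top hPP').symm
      apply Subtype.ext
      exact PrimeSpectrum.ext this
  have hZ := Algebra.ZariskisMainProperty.of_finiteType (R := A) n
  rw [Algebra.zariskisMainProperty_iff] at hZ
  obtain ⟨r, hrn, hri, hr⟩ := hZ
  -- integral elements of `B` come from `A`
  have hBK : Function.Injective (algebraMap B K) := IsFractionRing.injective B K
  have hint : ∀ y : B, IsIntegral A y → ∃ a : A, algebraMap A B a = y := by
    intro y hy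
    have hy' : IsIntegral A (algebraMap B K y) := by
      have := hy.map (IsScalarTower.toAlgHom A B K)
      simpa using this
    obtain ⟨a, ha⟩ := (IsIntegrallyClosed.isIntegral_iff (R := A) (K := K)).mp hy'
    refine ⟨a, hBK ?_⟩
    rw [← IsScalarTower.algebraMap_apply, ha]
  obtain ⟨a, rfl⟩ := hint r hri
  have ha : IsUnit a := by
    by_contra h
    apply hrn
    have hm' : a ∈ m := (IsLocalRing.mem_maximalIdeal a).mpr h
    rw [← hn] at hm'
    exact hm'
  refine ⟨?_, ?_⟩
  · intro x y hxy
    apply IsFractionRing.injective A K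
    rw [IsScalarTower.algebraMap_apply A B K x, IsScalarTower.algebraMap_apply A B K y, hxy]
  · intro x
    obtain ⟨k, hk⟩ := hr x
    obtain ⟨b, hb⟩ := hint _ hk
    refine ⟨(↑(ha.unit⁻¹) : A) ^ k * b, ?_⟩
    rw [map_mul, map_pow, hb, ← mul_assoc, ← mul_pow, ← map_mul]
    have : (↑(ha.unit⁻¹) : A) * a = 1 := by
      have := ha.unit.inv_mul
      simpa using this
    rw [this, map_one, one_pow, one_mul]

end Groth.Agent.S4469
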