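import Groth.Statements.S4624
import Mathlib.AlgebraicGeometry.Geometrically.Connected
import Mathlib.AlgebraicGeometry.PullbackCarrier

set_option autoImplicit false
universe u
open CategoryTheory CategoryTheory.Limits AlgebraicGeometry

namespace Groth.Agent.S4624

theorem result {k : Type u} [Field k] {X Y : Scheme.{u}}
    (f : X ⟶ Spec (CommRingCat.of k)) (g : Y ⟶ Spec (CommRingCat.of k)) (h : X ⟶ Y) (w : h ≫ g = f)
    [Surjective h] [GeometricallyConnected f] : GeometricallyConnected g := by
  subst w
  refine ⟨geometrically_iff_of_isClosedUnderIsomorphisms.mpr fun K _ x ↦ ?_⟩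
  have h1 : ConnectedSpace ↥(pullback (h ≫ g) x : Scheme.{u}) :=
    GeometricallyConnected.geometrically_connectedSpace _ _ _ (.of_hasPullback _ _)
  rw [← (pullbackRightPullbackFstIso g x h).hom.homeomorph.connectedSpace_iff] at h1
  exact (pullback.snd h (pullback.fst g x)).surjective.connectedSpace
    (pullback.snd h (pullback.fst g x)).continuous

end Groth.Agent.S4624
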