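import Groth.Statements.S4650
import Mathlib.AlgebraicGeometry.Properties

set_option autoImplicit false
open CategoryTheory AlgebraicGeometry
universe u
open FDesc

namespace Groth.Agent.S4650

/-- Let f : X → Y be a morphism of schemes along which generizations lift (this holds for flat,
quasi-flat or open morphisms). Then every irreducible component of X dominates an irreducible
component of Y: the closure of its image is an irreducible component of Y. -/
theorem result {X Y : Scheme.{u}} (f : X ⟶ Y)
    (hf : GeneralizingMap ⇑f) (T : Set ↥X) (hT : T ∈ irreducibleComponents ↥X) :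
    closure (⇑f '' T) ∈ irreducibleComponents ↥Y := by
  have hTc : IsClosed T := isClosed_of_mem_irreducibleComponents T hT
  set η := hT.1.genericPoint
  have hη : IsGenericPoint η T := hT.1.isGenericPoint_genericPoint hTc
  have key : closure (f '' T) = closure {f η} := by
    apply le_antisymm
    · rw [← hη.def]
      calc closure (f '' closure {η}) ⊆ closure (closure (f '' {η})) :=
            closure_mono (image_closure_subset_closure_image f.continuous)
        _ = closure {f η} := by simp
    · exact closure_mono (Set.singleton_subset_iff.mpr ⟨η, hη.mem, rfl⟩)
  rw [key]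
  refine ⟨isIrreducible_singleton.closure, fun Z hZ hle => ?_⟩
  have hZc := hZ.closure
  set ξ := hZc.genericPoint
  have hξ : IsGenericPoint ξ (closure Z) := hZc.isGenericPoint_genericPoint isClosed_closure
  have h1 : ξ ⤳ f η := hξ.specializes (subset_closure (hle (subset_closure rfl)))
  obtain ⟨η', h2, h3⟩ := hf h1
  have h4 : T ⊆ closure {η'} := by
    rw [← hη.def]; exact specializes_iff_closure_subset.mp h2
  have h5 : closure {η'} ⊆ T := hT.2 isIrreducible_singleton.closure h4
  have h6 : η ⤳ η' := specializes_iff_mem_closure.mpr (hη.def ▸ h5 (subset_closure rfl))
  have h7 : f η ⤳ ξ := h3 ▸ h6.map f.continuous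
  calc Z ⊆ closure Z := subset_closure
    _ = closure {ξ} := hξ.def.symm
    _ ⊆ closure {f η} := specializes_iff_closure_subset.mp h7

end Groth.Agent.S4650
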