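import Groth.Statements.S4656
import Groth.Agent.Lib.Helper7.Flat

set_option autoImplicit false
open CategoryTheory AlgebraicGeometry
universe u
open FDesc

namespace Groth.Agent.S4656

theorem result {X Y Z : Scheme.{u}} (f : X ⟶ Y) (g : Y ⟶ Z) (x : X)
    (hf : (f.stalkMap x).hom.Flat) :
    ((f ≫ g).stalkMap x).hom.Flat ↔ (g.stalkMap (f x)).hom.Flat := by
  have e : ((f ≫ g).stalkMap x).hom = (f.stalkMap x).hom.comp (g.stalkMap (f x)).hom := by
    rw [Scheme.Hom.stalkMap_comp]; rfl
  rw [e]
  constructor
  · intro h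
    have hff : (f.stalkMap x).hom.FaithfullyFlat := by
      algebraize [(f.stalkMap x).hom]
      have : IsLocalHom (algebraMap (Y.presheaf.stalk (f x)) (X.presheaf.stalk x)) :=
        inferInstanceAs (IsLocalHom (f.stalkMap x).hom)
      have : Module.FaithfullyFlat (Y.presheaf.stalk (f x)) (X.presheaf.stalk x) :=
        Module.FaithfullyFlat.of_flat_of_isLocalHom
      exact (RingHom.faithfullyFlat_algebraMap_iff).mp this
    exact Groth.Agent.Lib.Helper7.RingHom.flat_of_comp_of_faithfullyFlat _ _ h hff
  · intro h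
    exact RingHom.Flat.comp h hf

end Groth.Agent.S4656
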