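import Groth.Statements.S4664
import Groth.Agent.Lib.Helper7.Geom
import Mathlib.AlgebraicGeometry.Geometrically.Irreducible

set_option autoImplicit false
universe u
open CategoryTheory AlgebraicGeometry

namespace Groth.Agent.S4664

open CategoryTheory.Limits in
/-- Let f : X → Y and g : Y' → Y be morphisms of schemes with g surjective, and let f' : X ×_Y Y' → Y'
be the base change of f. If every fibre of f' is geometrically irreducible, then every fibre of f is
geometrically irreducible. -/
theorem result {X Y Y' : Scheme.{u}} (f : X ⟶ Y)
    (g : Y' ⟶ Y) [Surjective g] [GeometricallyIrreducible (pullback.snd f g)] : GeometricallyIrreducible f := by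
  refine ⟨Groth.Agent.Lib.Helper7.geometrically_of_pullback_snd_of_surjective _ ?_ f g
    GeometricallyIrreducible.geometrically_irreducibleSpace⟩
  intro Z W φ hφ hZ
  exact hφ.irreducibleSpace φ.continuous

end Groth.Agent.S4664
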