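import Groth.Statements.S4665
import Groth.Agent.Lib.Helper7.Geom

set_option autoImplicit false
open CategoryTheory AlgebraicGeometry
universe u
open FBase

namespace Groth.Agent.S4665

open CategoryTheory.Limits in
/-- Let f : X → Y and g : Y' → Y be morphisms of schemes with g surjective, and let f' : X ×_Y Y' → Y'
be the base change of f. Say that a morphism has geometrically connected fibres when, for every
field K and every morphism from Spec K to its target, the base change to Spec K is empty or
connected (so an empty fibre counts as geometrically connected). If f' has geometrically connected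
fibres in this sense, then so has f. -/
theorem result {X Y Y' : Scheme.{u}} (f : X ⟶ Y)
    (g : Y' ⟶ Y) [Surjective g]
    (h : geometrically (fun Z : Scheme.{u} => IsEmpty ↥Z ∨ ConnectedSpace ↥Z) (pullback.snd f g)) :
    geometrically (fun Z : Scheme.{u} => IsEmpty ↥Z ∨ ConnectedSpace ↥Z) f := by
  refine Groth.Agent.Lib.Helper7.geometrically_of_pullback_snd_of_surjective _ ?_ f g h
  intro Z W φ hφ hZ
  rcases hZ with hZ | hZ
  · left
    exact ⟨fun w => by obtain ⟨z, -⟩ := hφ w; exact hZ.false z⟩
  · right
    exact hφ.connectedSpace φ.continuous

end Groth.Agent.S4665
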