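import Groth.Statements.S4675
import Mathlib.Algebra.Module.Submodule.Equiv

set_option autoImplicit false
universe u v
open FDesc

namespace Groth.Agent.S4675

theorem result {B : Type u} [Ring B] {V W : Type v} [AddCommGroup V] [AddCommGroup W]
    [Module B V] [Module B W] (e : V ≃ₗ[B] W) (u : V →ₗ[B] W) :
    (∀ v : V →ₗ[B] W, ∃! c : V →ₗ[B] V, v = u ∘ₗ c) ↔ Function.Bijective u := by
  constructor
  · intro h
    obtain ⟨c0, hc0, -⟩ := h e.toLinearMap
    set s : W →ₗ[B] V := c0 ∘ₗ e.symm.toLinearMap with hs
    have hus : u ∘ₗ s = LinearMap.id := by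
      ext w
      have := congrArg (fun f : V →ₗ[B] W => f (e.symm w)) hc0
      simp only [LinearEquiv.coe_coe, LinearEquiv.apply_symm_apply, LinearMap.coe_comp,
        Function.comp_apply] at this
      simp [hs, ← this]
    have hsurj : Function.Surjective u := by
      intro w
      refine ⟨s w, ?_⟩
      have := congrArg (fun f : W →ₗ[B] W => f w) hus
      simpa using this
    refine ⟨?_, hsurj⟩
    obtain ⟨c1, hc1, huniq⟩ := h 0
    have hp : LinearMap.id - s ∘ₗ u = c1 := by
      apply huniq
      ext x
      simp only [LinearMap.zero_apply, LinearMap.coe_comp, Function.comp_apply,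
        LinearMap.sub_apply, LinearMap.id_coe, id_eq, map_sub]
      have := congrArg (fun f : W →ₗ[B] W => f (u x)) hus
      simp only [LinearMap.coe_comp, Function.comp_apply, LinearMap.id_coe, id_eq] at this
      rw [this, sub_self]
    have h0 : (0 : V →ₗ[B] V) = c1 := by
      apply huniq
      simp
    have hid : LinearMap.id = s ∘ₗ u := by
      have := hp.trans h0.symm
      exact sub_eq_zero.mp this
    intro x y hxy
    have hx := congrArg (fun f : V →ₗ[B] V => f x) hid
    have hy := congrArg (fun f : V →ₗ[B] V => f y) hid
    simp only [LinearMap.id_coe, id_eq, LinearMap.coe_comp, Function.comp_apply] at hx hy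
    rw [hx, hy, hxy]
  · intro hb v
    let ue := LinearEquiv.ofBijective u hb
    refine ⟨ue.symm.toLinearMap ∘ₗ v, ?_, ?_⟩
    · ext x
      simp only [LinearMap.coe_comp, Function.comp_apply, LinearEquiv.coe_coe]
      exact (ue.apply_symm_apply (v x)).symm
    · intro c hc
      ext x
      simp only [LinearMap.coe_comp, Function.comp_apply, LinearEquiv.coe_coe, hc]
      exact (ue.symm_apply_apply (c x)).symm

end Groth.Agent.S4675
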