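import Groth.Statements.S4676
import Mathlib.Algebra.Module.Submodule.Equiv
import Mathlib.RingTheory.Noetherian.Orzech

set_option autoImplicit false
universe u v
open FDesc

namespace Groth.Agent.S4676

theorem result {B : Type u} [Ring B] {V W : Type v} [AddCommGroup V]
    [AddCommGroup W] [Module B V] [Module B W] [IsNoetherian B V] [IsNoetherian B W] (e : V ≃ₗ[B] W) (u : V →ₗ[B] W) :
    (∀ v : V →ₗ[B] W, ∃ c : V →ₗ[B] V, v = u ∘ₗ c) ↔ Function.Bijective u := by
  constructor
  · intro h
    obtain ⟨c0, hc0⟩ := h e.toLinearMap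
    have hsurj : Function.Surjective u := by
      intro w
      refine ⟨c0 (e.symm w), ?_⟩
      have := congrArg (fun f : V →ₗ[B] W => f (e.symm w)) hc0
      simp only [LinearEquiv.coe_coe, LinearEquiv.apply_symm_apply, LinearMap.coe_comp,
        Function.comp_apply] at this
      exact this.symm
    have hs2 : Function.Surjective (e.symm.toLinearMap ∘ₗ u) := by
      intro x
      obtain ⟨y, hy⟩ := hsurj (e x)
      exact ⟨y, by simp [hy]⟩
    have hinj := IsNoetherian.injective_of_surjective_endomorphism _ hs2
    refine ⟨?_, hsurj⟩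
    intro x y hxy
    apply hinj
    simp [hxy]
  · intro hb v
    let ue := LinearEquiv.ofBijective u hb
    refine ⟨ue.symm.toLinearMap ∘ₗ v, ?_⟩
    ext x
    simp only [LinearMap.coe_comp, Function.comp_apply, LinearEquiv.coe_coe]
    exact (ue.apply_symm_apply (v x)).symm

end Groth.Agent.S4676
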