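import Groth.Statements.S4688
import Mathlib.RingTheory.Ideal.GoingDown
import Mathlib.RingTheory.KrullDimension.Field

set_option autoImplicit false
universe u
open EGA4

namespace Groth.Agent.S4688

open Polynomial in
theorem result (A : Type u) [CommRing A] [IsNoetherianRing A]
    (p : Ideal A) [p.IsPrime] (q : Ideal A[X]) [q.IsPrime] [q.LiesOver p] :
    (p.map (Polynomial.C : A →+* A[X])).height = p.height ∧
      (q ≠ p.map (Polynomial.C : A →+* A[X]) → q.height = p.height + 1) := by
  have hC : (Polynomial.C : A →+* A[X]) = algebraMap A A[X] := rfl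
  have hpC : (p.map (C : A →+* A[X])).IsPrime := Ideal.isPrime_map_C_of_isPrime
  have : (p.map (C : A →+* A[X])).LiesOver p := by
    constructor
    ext a
    rw [Ideal.under, Ideal.mem_comap, ← hC, Ideal.mem_map_C_iff]
    constructor
    · intro ha n
      rw [coeff_C]
      split_ifs
      · exact ha
      · exact p.zero_mem
    · intro h
      simpa using h 0
  constructor
  · rw [Ideal.height_eq_height_add_of_liesOver_of_hasGoingDown p (p.map C)]
    have : (p.map C).map (Ideal.Quotient.mk (p.map (algebraMap A A[X]))) = ⊥ := by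
      rw [← hC]; exact Ideal.map_quotient_self _
    rw [this]
    have : IsDomain (A[X] ⧸ p.map (algebraMap A A[X])) := by
      rw [← hC]; exact (Ideal.Quotient.isDomain_iff_prime _).mpr hpC
    rw [Ideal.height_bot, add_zero]
  · intro hq
    rw [Ideal.height_eq_height_add_of_liesOver_of_hasGoingDown p q]
    congr 1
    set I := p.map (algebraMap A A[X]) with hI
    set q' := q.map (Ideal.Quotient.mk I) with hq'
    have hIq : I ≤ q := by
      rw [hI, Ideal.map_le_iff_le_comap]
      exact le_of_eq (Ideal.LiesOver.over (P := q) (p := p))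
    have : q'.IsPrime := Ideal.map_isPrime_of_surjective Ideal.Quotient.mk_surjective
      (by rwa [Ideal.mk_ker])
    have hq'ne : q' ≠ ⊥ := by
      intro h
      apply hq
      apply le_antisymm _ hIq
      intro f hf
      have : Ideal.Quotient.mk I f ∈ q' := Ideal.mem_map_of_mem _ hf
      rw [h, Ideal.mem_bot, Ideal.Quotient.eq_zero_iff_mem] at this
      exact this
    let e : (A[X] ⧸ I) ≃+* (A ⧸ p)[X] := (Ideal.polynomialQuotientEquivQuotientPolynomial p).symm
    rw [← e.height_map q']
    set Q := q'.map e with hQ
    have : Q.IsPrime := Ideal.map_isPrime_of_equiv e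
    have hQne : Q ≠ ⊥ := by
      intro h
      apply hq'ne
      rw [hQ, Ideal.map_eq_bot_iff_of_injective e.injective] at h
      exact h
    have hQC : ∀ b : A ⧸ p, C b ∈ Q → b = 0 := by
      intro b hb
      obtain ⟨a, rfl⟩ := Ideal.Quotient.mk_surjective b
      have he : C (Ideal.Quotient.mk p a) = e (Ideal.Quotient.mk I (C a)) := by
        show _ = (Ideal.polynomialQuotientEquivQuotientPolynomial p).symm
          (Ideal.Quotient.mk (p.map C) (C a))
        rw [Ideal.polynomialQuotientEquivQuotientPolynomial_symm_mk, Polynomial.map_C]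
      rw [he, hQ, Ideal.mem_map_of_equiv] at hb
      obtain ⟨x, hx, hxe⟩ := hb
      rw [e.injective hxe] at hx
      rw [hq', Ideal.mem_quotient_iff_mem hIq] at hx
      rw [Ideal.Quotient.eq_zero_iff_mem, Ideal.LiesOver.over (P := q) (p := p), Ideal.under,
        Ideal.mem_comap]
      exact hx
    apply le_antisymm
    · let K := FractionRing (A ⧸ p)
      let _ := (Polynomial.mapRingHom (algebraMap (A ⧸ p) K)).toAlgebra
      have hloc := Polynomial.isLocalization (nonZeroDivisors (A ⧸ p)) K
      have disj : Disjoint ((nonZeroDivisors (A ⧸ p)).map C : Set (A ⧸ p)[X]) Q := by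
        rw [Set.disjoint_left]
        rintro _ ⟨b, hb, rfl⟩ hbQ
        have := hQC b hbQ
        exact nonZeroDivisors.ne_zero hb this
      rw [← IsLocalization.height_map_of_disjoint (S := K[X]) ((nonZeroDivisors (A ⧸ p)).map C) Q disj]
      have : (Q.map (algebraMap (A ⧸ p)[X] K[X])).IsPrime :=
        IsLocalization.isPrime_of_isPrime_disjoint ((nonZeroDivisors (A ⧸ p)).map C) K[X] Q ‹_› disj
      have h1 := Ideal.height_le_ringKrullDim_of_ne_top
        (Ideal.IsPrime.ne_top (I := Q.map (algebraMap (A ⧸ p)[X] K[X])) ‹_›)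
      rw [Polynomial.ringKrullDim_of_isNoetherianRing, ringKrullDim_eq_zero_of_field, zero_add]
        at h1
      exact_mod_cast h1
    · rw [Order.one_le_iff_ne_zero, Ne, Ideal.height_eq_zero_iff_eq_bot]
      exact hQne

end Groth.Agent.S4688
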