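import Groth.Statements.S4725
-- import your own Groth.Agent.* helpers here

set_option autoImplicit false
universe u
open EGA4

namespace Groth.Agent.S4725

/-- The direct limit of a nonempty directed system of commutative integral domains is an integral domain
(no injectivity of the transition maps is assumed). -/
theorem result (ι : Type u) [Preorder ι] [Nonempty ι] [IsDirectedOrder ι] (G : ι → Type u)
    [∀ i, CommRing (G i)] (f : ∀ i j, i ≤ j → G i →+* G j) [DirectedSystem G (fun i j h ↦ f i j h)]
    [∀ i, IsDomain (G i)] : IsDomain (Ring.DirectLimit G (fun i j h ↦ f i j h)) := by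
  have hnt : Nontrivial (Ring.DirectLimit G (fun i j h ↦ f i j h)) := by
    obtain ⟨i⟩ := ‹Nonempty ι›
    refine ⟨⟨0, 1, ?_⟩⟩
    intro H
    have H' : Ring.DirectLimit.of G (fun i j h ↦ f i j h) i 1 = 0 := by rw [map_one]; exact H.symm
    obtain ⟨j, hij, hf⟩ := Ring.DirectLimit.of.zero_exact H'
    rw [(f i j hij).map_one] at hf
    exact one_ne_zero hf
  have hnzd : NoZeroDivisors (Ring.DirectLimit G (fun i j h ↦ f i j h)) := by
    constructor
    intro x y hxy
    induction x using Ring.DirectLimit.induction_on with
    | ih i a =>
      induction y using Ring.DirectLimit.induction_on with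
      | ih j b =>
        obtain ⟨k, hik, hjk⟩ := directed_of (· ≤ ·) i j
        rw [← Ring.DirectLimit.of_f hik, ← Ring.DirectLimit.of_f hjk, ← map_mul] at hxy
        obtain ⟨l, hkl, hl⟩ := Ring.DirectLimit.of.zero_exact hxy
        rw [map_mul] at hl
        rcases mul_eq_zero.mp hl with h | h
        · left
          rw [← Ring.DirectLimit.of_f hik, ← Ring.DirectLimit.of_f hkl, h, map_zero]
        · right
          rw [← Ring.DirectLimit.of_f hjk, ← Ring.DirectLimit.of_f hkl, h, map_zero]
  exact NoZeroDivisors.to_isDomain _

end Groth.Agent.S4725
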