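import Groth.Statements.S4727

set_option autoImplicit false
universe u
open EGA4

namespace Groth.Agent.S4727

theorem result (A B : Type u) [CommRing A] [CommRing B] [Algebra A B]
    (N : Ideal B) (hN : ∀ x ∈ N, IsNilpotent x) :
    (integralClosure A B).toSubring =
      (integralClosure A (B ⧸ N)).toSubring.comap (Ideal.Quotient.mk N) := by
  ext x
  simp only [Subring.mem_comap, Subalgebra.mem_toSubring, mem_integralClosure_iff]
  constructor
  · intro hx
    exact hx.map (Ideal.Quotient.mkₐ A N)
  · rintro ⟨p, hp, hpx⟩
    have h1 : Polynomial.aeval x p ∈ N := by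
      rw [← Ideal.Quotient.eq_zero_iff_mem]
      have : Ideal.Quotient.mkₐ A N (Polynomial.aeval x p) = 0 := by
        rw [← Polynomial.aeval_algHom_apply]
        exact hpx
      exact this
    obtain ⟨n, hn⟩ := hN _ h1
    refine ⟨p ^ n, hp.pow n, ?_⟩
    rw [← Polynomial.aeval_def, map_pow, hn]

end Groth.Agent.S4727
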