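import Groth.Statements.S4730
import Groth.Agent.S4688
import Mathlib.RingTheory.AlgebraicIndependent.TranscendenceBasis
import Mathlib.RingTheory.AlgebraicIndependent.Transcendental
import Mathlib.RingTheory.Algebraic.Integral

set_option autoImplicit false
universe u
open EGA4

namespace Groth.Agent.S4730

open Polynomial in
theorem result (A : Type u) [CommRing A] [IsNoetherianRing A]
    (p : Ideal A) [p.IsPrime] (q : Ideal A[X]) [q.IsPrime] [q.LiesOver p] :
    (p.height : Cardinal.{u}) + 1 = (q.height : Cardinal.{u}) + Algebra.trdeg (A ⧸ p) (A[X] ⧸ q) := by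
  obtain ⟨h1, h2⟩ := Groth.Agent.S4688.result A p q
  have hC : (Polynomial.C : A →+* A[X]) = algebraMap A A[X] := rfl
  have hpq : p.map (C : A →+* A[X]) ≤ q := by
    rw [Ideal.map_le_iff_le_comap]
    exact le_of_eq (Ideal.LiesOver.over (P := q) (p := p))
  by_cases hq : q = p.map (C : A →+* A[X])
  · -- q = p[X]: trdeg = 1
    have e0 := Ideal.polynomialQuotientEquivQuotientPolynomial p
    have htr : Algebra.trdeg (A ⧸ p) (A[X] ⧸ q) = 1 := by
      let f : (A ⧸ p)[X] ≃+* A[X] ⧸ q :=
        (Ideal.polynomialQuotientEquivQuotientPolynomial p).trans (Ideal.quotEquivOfEq hq.symm)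
      let e : (A ⧸ p)[X] ≃ₐ[A ⧸ p] A[X] ⧸ q := AlgEquiv.ofRingEquiv (f := f) (by
        intro b
        obtain ⟨a, rfl⟩ := Ideal.Quotient.mk_surjective b
        show f (C (Ideal.Quotient.mk p a)) = Ideal.Quotient.mk q (C a)
        simp only [f, RingEquiv.trans_apply]
        rw [← Polynomial.map_C, Ideal.polynomialQuotientEquivQuotientPolynomial_map_mk]
        rfl)
      rw [← e.trdeg_eq, Polynomial.trdeg_of_isDomain]
    rw [htr, hq, h1]
  · -- q ≠ p[X]: trdeg = 0
    have hh := h2 hq
    obtain ⟨f, hfq, hfp⟩ : ∃ f ∈ q, f ∉ p.map (C : A →+* A[X]) := by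
      by_contra! H
      exact hq (le_antisymm H hpq)
    have hX : IsAlgebraic (A ⧸ p) (Ideal.Quotient.mk q X) := by
      refine ⟨f.map (Ideal.Quotient.mk p), ?_, ?_⟩
      · intro h0
        apply hfp
        rw [Ideal.mem_map_C_iff]
        intro n
        have := congrArg (fun g => Polynomial.coeff g n) h0
        simp only [Polynomial.coeff_map, Polynomial.coeff_zero] at this
        exact Ideal.Quotient.eq_zero_iff_mem.mp this
      · rw [show Ideal.Quotient.mk p = algebraMap A (A ⧸ p) from rfl,
          Polynomial.aeval_map_algebraMap]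
        rw [show (Ideal.Quotient.mk q X) = Ideal.Quotient.mkₐ A q X from rfl,
          Polynomial.aeval_algHom_apply, Polynomial.aeval_X_left_apply]
        exact Ideal.Quotient.eq_zero_iff_mem.mpr hfq
    have htop : Algebra.adjoin (A ⧸ p) {Ideal.Quotient.mk q X} = ⊤ := by
      rw [eq_top_iff]
      rintro y -
      obtain ⟨g, rfl⟩ := Ideal.Quotient.mk_surjective y
      have : Ideal.Quotient.mk q g = Polynomial.aeval (Ideal.Quotient.mk q X)
          (g.map (Ideal.Quotient.mk p)) := by
        rw [show Ideal.Quotient.mk p = algebraMap A (A ⧸ p) from rfl,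
          Polynomial.aeval_map_algebraMap]
        rw [show (Ideal.Quotient.mk q X) = Ideal.Quotient.mkₐ A q X from rfl,
          Polynomial.aeval_algHom_apply, Polynomial.aeval_X_left_apply]
        rfl
      rw [this]
      exact Polynomial.aeval_mem_adjoin_singleton _ _
    have halg : Algebra.IsAlgebraic (A ⧸ p) (A[X] ⧸ q) := by
      constructor
      intro y
      have hy : y ∈ Algebra.adjoin (A ⧸ p) {Ideal.Quotient.mk q X} := htop ▸ Algebra.mem_top
      have hle := (Algebra.adjoin_le_iff
        (S := Subalgebra.algebraicClosure (A ⧸ p) (A[X] ⧸ q))).mpr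
          (by simpa [Subalgebra.mem_algebraicClosure] using hX) hy
      exact (Subalgebra.mem_algebraicClosure _ _).mp hle
    rw [trdeg_eq_zero, hh, add_zero, Cardinal.ofENat_add]
    simp

end Groth.Agent.S4730
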