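import Groth.Statements.S4758

set_option autoImplicit false
universe u
open CategoryTheory AlgebraicGeometry
open Lim8

namespace Groth.Agent.S4758

open Limits in
set_option backward.isDefEq.respectTransparency false in
theorem result {I : Type u} [SmallCategory I] [IsCofiltered I]
    (D : I ⥤ Scheme.{u}) (c : Limits.Cone D) (hc : Limits.IsLimit c)
    [∀ (i j : I) (f : i ⟶ j), IsAffineHom (D.map f)] (i : I) :
    Surjective (c.π.app i) ↔ ∀ (j : I) (φ : j ⟶ i), Surjective (D.map φ) := by
  have hA : ∀ {i j : I} (f : i ⟶ j), IsAffineHom (D.map f) := fun f => inferInstance
  constructor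
  · intro h j φ
    have e : c.π.app j ≫ D.map φ = c.π.app i := c.w φ
    rw [← e] at h
    exact Surjective.of_comp (c.π.app j) (D.map φ)
  · intro h
    refine ⟨fun x => ?_⟩
    let p := (D.obj i).fromSpecResidueField x
    let F : Over i ⥤ Scheme.{u} := Over.post D ⋙ Over.pullback p ⋙ Over.forget _
    let α : F ⟶ Over.forget i ⋙ D := Functor.whiskerRight
      (Functor.whiskerLeft (Over.post D) (Over.mapPullbackAdj p).counit) (Over.forget _)
    let cF : Cone F :=
      { pt := pullback (c.π.app i) p
        π :=
          { app := fun j => pullback.lift (pullback.fst _ _ ≫ c.π.app j.left) (pullback.snd _ _)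
              (by
                have e1 : c.π.app j.left ≫ D.map j.hom = c.π.app i := c.w j.hom
                show pullback.fst _ _ ≫ c.π.app j.left ≫ D.map j.hom = _
                rw [e1]; exact pullback.condition)
            naturality := by
              intro j k f
              apply pullback.hom_ext
              · simp only [F, Functor.comp_map, Over.pullback, Over.forget_map, Over.homMk_left,
                  Functor.const_obj_map, Category.id_comp, Category.assoc, pullback.lift_fst,
                  Over.post_map]
                rw [← c.w f.left]
                simp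
              · simp only [F, Functor.comp_map, Over.pullback, Over.forget_map, Over.homMk_left,
                  Functor.const_obj_map, Category.id_comp, Category.assoc, pullback.lift_snd]
                exact Category.id_comp _ } }
    let cG : Cone (Over.forget i ⋙ D) := c.whisker (Over.forget i)
    have hcG : IsLimit cG := (Functor.Initial.isLimitWhiskerEquiv (Over.forget i) c).symm hc
    let fh : (Cone.postcompose α).obj cF ⟶ cG :=
      { hom := pullback.fst _ _
        w := by
          intro j
          simp [α, cF, cG, F] }
    have hf : ∀ j, IsPullback (cF.π.app j) fh.hom (α.app j) (cG.π.app j) := by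
      intro j
      have e1 : c.π.app j.left ≫ D.map j.hom = c.π.app i := c.w j.hom
      have hα : α.app j = pullback.fst (D.map j.hom) p := by simp [α]; rfl
      have t := (IsPullback.of_hasPullback (D.map j.hom) p).flip
      have h1 : cF.π.app j ≫ pullback.snd (D.map j.hom) p = pullback.snd (c.π.app i) p :=
        pullback.lift_snd _ _ _
      have s0 : IsPullback (cF.π.app j ≫ pullback.snd (D.map j.hom) p)
          (pullback.fst (c.π.app i) p) p (c.π.app j.left ≫ D.map j.hom) := by
        rw [h1]
        convert (IsPullback.of_hasPullback (c.π.app i) p).flip using 1
        all_goals first | rfl | exact e1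
      rw [hα]
      exact IsPullback.of_right s0 (pullback.lift_fst _ _ _) t
    have : IsConnected (Over i) := IsCofiltered.isConnected _
    have hcF : IsLimit cF := isLimitOfIsPullbackOfIsConnected α cF cG fh hf hcG
    have hAff : ∀ j : Over i, IsAffine (F.obj j) := by
      intro j
      have : IsAffineHom (pullback.snd (D.map j.hom) p) :=
        MorphismProperty.pullback_snd _ _ inferInstance
      exact isAffine_of_isAffineHom (pullback.snd (D.map j.hom) p)
    have hne : ∀ j : Over i, Nonempty (F.obj j) := by
      intro j
      have : Surjective (D.map j.hom) := h j.left j.hom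
      have : Surjective (pullback.snd (D.map j.hom) p) :=
        MorphismProperty.pullback_snd _ _ inferInstance
      obtain ⟨z⟩ : Nonempty (Spec ((D.obj i).residueField x)) := inferInstance
      obtain ⟨w, -⟩ := (pullback.snd (D.map j.hom) p).surjective z
      exact ⟨w⟩
    have hcpt : ∀ j : Over i, CompactSpace (F.obj j) := fun j => inferInstance
    have hAff' : ∀ {j k : Over i} (f : j ⟶ k), IsAffineHom (F.map f) := fun f => inferInstance
    obtain ⟨y⟩ := Scheme.nonempty_of_isLimit F cF hcF
    refine ⟨pullback.fst (c.π.app i) p y, ?_⟩
    rw [← Scheme.Hom.comp_apply, pullback.condition, Scheme.Hom.comp_apply,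
      Scheme.fromSpecResidueField_apply]

end Groth.Agent.S4758
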