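import Groth.Statements.S4763

set_option autoImplicit false
universe u
open CategoryTheory AlgebraicGeometry
open Lim8

namespace Groth.Agent.S4763

set_option backward.isDefEq.respectTransparency false in
theorem result {I : Type u} [SmallCategory I] [IsCofiltered I]
    (D : I ⥤ Scheme.{u}) (c : Limits.Cone D) (hc : Limits.IsLimit c)
    [∀ (i j : I) (f : i ⟶ j), IsAffineHom (D.map f)] (i : I) :
    IsDominant (c.π.app i) ↔ ∀ (j : I) (φ : j ⟶ i), IsDominant (D.map φ) := by
  have hA : ∀ {i j : I} (f : i ⟶ j), IsAffineHom (D.map f) := fun f => inferInstance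
  constructor
  · intro h j φ
    have e : c.π.app j ≫ D.map φ = c.π.app i := c.w φ
    rw [← e] at h
    exact IsDominant.of_comp (c.π.app j) (D.map φ)
  · intro h
    refine ⟨?_⟩
    rw [DenseRange, dense_iff_inter_open]
    intro U hU hne
    obtain ⟨x, hx⟩ := hne
    obtain ⟨_, ⟨V, hV, rfl⟩, hxV, hVU⟩ :=
      (D.obj i).isBasis_affineOpens.exists_subset_of_mem_open hx hU
    have hne : ∀ j : Over i, Nonempty ((opensDiagram D i V).obj j) := by
      intro j
      have hd := (h j.left j.hom).denseRange
      obtain ⟨_, hz, ⟨z, rfl⟩⟩ := hd.inter_open_nonempty (V : Set (D.obj i)) V.2 ⟨x, hxV⟩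
      exact ⟨⟨z, hz⟩⟩
    have hcpt : ∀ j : Over i, CompactSpace ((opensDiagram D i V).obj j) := by
      intro j
      have : IsAffine ((opensDiagram D i V).obj j) := hV.preimage _
      infer_instance
    obtain ⟨y⟩ := Scheme.nonempty_of_isLimit (opensDiagram D i V) (opensCone D c i V)
      (isLimitOpensCone D c hc i V)
    exact ⟨c.π.app i y.1, hVU y.2, ⟨y.1, rfl⟩⟩

end Groth.Agent.S4763
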