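import Groth.Statements.S4765

set_option autoImplicit false
universe u
open CategoryTheory AlgebraicGeometry
open Lim8

namespace Groth.Agent.S4765

set_option backward.isDefEq.respectTransparency false in
theorem result {I : Type u} [SmallCategory I] [IsCofiltered I]
    (D : I ⥤ Scheme.{u}) (c : Limits.Cone D) (hc : Limits.IsLimit c)
    [∀ (i j : I) (f : i ⟶ j), IsAffineHom (D.map f)] (i : I)
    (hs : ∀ (j : I) (φ : j ⟶ i), Surjective (c.π.app j)) :
    IsOpenMap ⇑(c.π.app i) ↔ ∀ (j : I) (φ : j ⟶ i), IsOpenMap ⇑(D.map φ) := by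
  have hA : ∀ {i j : I} (f : i ⟶ j), IsAffineHom (D.map f) := fun f => inferInstance
  constructor
  · intro h j φ U hU
    have e : c.π.app j ≫ D.map φ = c.π.app i := c.w φ
    have hsj := (hs j φ).surj
    have : (D.map φ) '' U = (c.π.app i) '' ((c.π.app j) ⁻¹' U) := by
      rw [← e]
      ext y
      constructor
      · rintro ⟨x, hx, rfl⟩
        obtain ⟨z, rfl⟩ := hsj x
        exact ⟨z, hx, by rw [Scheme.Hom.comp_apply]; rfl⟩
      · rintro ⟨z, hz, rfl⟩
        exact ⟨_, hz, by rw [Scheme.Hom.comp_apply]; rfl⟩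
    rw [this]
    exact h _ (hU.preimage (c.π.app j).continuous)
  · intro h
    have hB := isBasis_preimage_isAffineOpen D c hc
    rw [TopologicalSpace.Opens.IsBasis] at hB
    rw [hB.isOpenMap_iff]
    rintro _ ⟨_, ⟨j, V, hV, rfl⟩, rfl⟩
    let k := IsCofiltered.min i j
    let a : k ⟶ i := IsCofiltered.minToLeft i j
    let b : k ⟶ j := IsCofiltered.minToRight i j
    have eb : c.π.app k ≫ D.map b = c.π.app j := c.w b
    have ea : c.π.app k ≫ D.map a = c.π.app i := c.w a
    have hsk := (hs k a).surj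
    have : (c.π.app i) '' ((c.π.app j ⁻¹ᵁ V : c.pt.Opens) : Set c.pt) =
        (D.map a) '' ((D.map b) ⁻¹' V) := by
      ext y
      constructor
      · rintro ⟨x, hx, rfl⟩
        refine ⟨c.π.app k x, ?_, ?_⟩
        · show (D.map b) (c.π.app k x) ∈ V
          rw [← Scheme.Hom.comp_apply, eb]; exact hx
        · rw [← Scheme.Hom.comp_apply, ea]; rfl
      · rintro ⟨x, hx, rfl⟩
        obtain ⟨z, rfl⟩ := hsk x
        refine ⟨z, ?_, ?_⟩
        · show (c.π.app j) z ∈ V
          rw [← eb, Scheme.Hom.comp_apply]; exact hx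
        · rw [← ea, Scheme.Hom.comp_apply]; rfl
    rw [this]
    exact h k a _ (V.2.preimage (D.map b).continuous)

end Groth.Agent.S4765
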