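import Groth.Statements.S4784
import Groth.Agent.Lib.Helper7.Lim

set_option autoImplicit false
universe u
open CategoryTheory AlgebraicGeometry
open Lim8

namespace Groth.Agent.S4784

theorem result {I : Type u} [SmallCategory I] [IsCofiltered I]
    (D : I ⥤ Scheme.{u}) (c : Limits.Cone D) (hc : Limits.IsLimit c)
    [∀ (i j : I) (f : i ⟶ j), IsAffineHom (D.map f)] (i : I) :
    Set.range ⇑(c.π.app i) = ⋂ (j : I) (φ : j ⟶ i), Set.range ⇑(D.map φ) := by
  have hA : ∀ {i j : I} (f : i ⟶ j), IsAffineHom (D.map f) := fun f => inferInstance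
  ext x
  simp only [Set.mem_iInter]
  constructor
  · rintro ⟨s, rfl⟩ j φ
    refine ⟨c.π.app j s, ?_⟩
    rw [← Scheme.Hom.comp_apply, c.w φ]
  · intro h
    exact Groth.Agent.Lib.Helper7.lim_exists_preimage D c hc i x h

end Groth.Agent.S4784
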