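import Groth.Statements.S4834
import Mathlib.Algebra.Category.ModuleCat.FilteredColimits
import Mathlib.CategoryTheory.Limits.Types.Filtered

set_option autoImplicit false
open CategoryTheory CategoryTheory.Limits
universe u
open Lim8

namespace Groth.Agent.S4834

theorem result {A : Type u} [CommRing A] (M : ModuleCat.{u} A)
    [Module.Finite A M] {J : Type u} [Preorder J] [IsDirected J (· ≤ ·)] [Nonempty J]
    (N : J ⥤ ModuleCat.{u} A) :
    Function.Injective (colimit.post N (coyoneda.obj (Opposite.op M))) := by
  classical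
  intro a b hab
  obtain ⟨j, f, rfl⟩ := Types.jointly_surjective' a
  obtain ⟨k, g, rfl⟩ := Types.jointly_surjective' b
  change M ⟶ N.obj j at f
  change M ⟶ N.obj k at g
  have e1 : ∀ (i : J) (h : M ⟶ N.obj i), colimit.post N (coyoneda.obj (Opposite.op M))
      (colimit.ι (N ⋙ coyoneda.obj (Opposite.op M)) i h) = h ≫ colimit.ι N i := by
    intro i h
    exact ConcreteCategory.congr_hom (colimit.ι_post N (coyoneda.obj (Opposite.op M)) i) h
  rw [e1, e1] at hab
  have hc := isColimitOfPreserves (forget (ModuleCat A)) (colimit.isColimit N)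
  have key : ∀ m : M, ∃ (l : J) (a : j ⟶ l) (b : k ⟶ l), N.map a (f m) = N.map b (g m) := by
    intro m
    have h2 : (colimit.ι N j) (f m) = (colimit.ι N k) (g m) := by
      have := ConcreteCategory.congr_hom hab m
      simpa using this
    exact (Types.FilteredColimit.isColimit_eq_iff (N ⋙ forget _) hc).mp h2
  obtain ⟨s, hs⟩ := Module.Finite.fg_top (R := A) (M := M)
  choose l a b hlab using key
  obtain ⟨L, hL⟩ := Finset.exists_le ((s.image l) ∪ {j, k})
  apply (Types.FilteredColimit.colimit_eq_iff _).mpr
  refine ⟨L, homOfLE (hL j (by simp)), homOfLE (hL k (by simp)), ?_⟩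
  change f ≫ N.map _ = g ≫ N.map _
  ext1
  apply LinearMap.ext_on hs
  intro m hm
  have hlm : l m ≤ L := hL _ (Finset.mem_union_left _ (Finset.mem_image_of_mem _ hm))
  have ea : homOfLE (hL j (by simp)) = a m ≫ homOfLE hlm := Subsingleton.elim _ _
  have eb : homOfLE (hL k (by simp)) = b m ≫ homOfLE hlm := Subsingleton.elim _ _
  simp only [ModuleCat.hom_comp, LinearMap.coe_comp, Function.comp_apply]
  rw [ea, eb, N.map_comp, N.map_comp]
  simp only [ModuleCat.hom_comp, LinearMap.coe_comp, Function.comp_apply]
  rw [hlab m]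

end Groth.Agent.S4834
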