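import Groth.Statements.S4835
import Groth.Agent.S4834
import Mathlib.Algebra.Category.ModuleCat.FilteredColimits
import Mathlib.CategoryTheory.Limits.Types.Filtered

set_option autoImplicit false
open CategoryTheory CategoryTheory.Limits
universe u
open Lim8

namespace Groth.Agent.S4835

theorem result {A : Type u} [CommRing A] (M : ModuleCat.{u} A)
    [Module.FinitePresentation A M] {J : Type u} [Preorder J] [IsDirected J (· ≤ ·)] [Nonempty J]
    (N : J ⥤ ModuleCat.{u} A) :
    Function.Bijective (colimit.post N (coyoneda.obj (Opposite.op M))) := by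
  classical
  refine ⟨Groth.Agent.S4834.result M N, ?_⟩
  intro φ
  change M ⟶ colimit N at φ
  have e1 : ∀ (i : J) (h : M ⟶ N.obj i), colimit.post N (coyoneda.obj (Opposite.op M))
      (colimit.ι (N ⋙ coyoneda.obj (Opposite.op M)) i h) = h ≫ colimit.ι N i := by
    intro i h
    exact ConcreteCategory.congr_hom (colimit.ι_post N (coyoneda.obj (Opposite.op M)) i) h
  have hc := isColimitOfPreserves (forget (ModuleCat A)) (colimit.isColimit N)
  obtain ⟨s, hs, hker⟩ := (inferInstance : Module.FinitePresentation A M).out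
  let π : (s →₀ A) →ₗ[A] M := Finsupp.linearCombination A ((↑) : s → M)
  have hπ : Function.Surjective π := by
    rw [← LinearMap.range_eq_top, Finsupp.range_linearCombination]
    simpa using hs
  -- lift the images of the generators
  have hlift : ∀ m : s, ∃ (i : J) (y : N.obj i), colimit.ι N i y = φ m := by
    intro m
    exact Types.jointly_surjective _ hc (φ m)
  choose i y hy using hlift
  obtain ⟨j₀, hj₀⟩ := Finset.exists_le (Finset.univ.image i)
  have hij : ∀ m : s, i m ≤ j₀ := fun m => hj₀ _ (Finset.mem_image_of_mem _ (Finset.mem_univ m))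
  let y' : s → N.obj j₀ := fun m => N.map (homOfLE (hij m)) (y m)
  let ψ₀ : (s →₀ A) →ₗ[A] N.obj j₀ := Finsupp.linearCombination A y'
  have hψ₀ : (colimit.ι N j₀).hom ∘ₗ ψ₀ = φ.hom ∘ₗ π := by
    apply Finsupp.lhom_ext'
    intro m
    apply LinearMap.ext_ring
    simp only [LinearMap.comp_apply, Finsupp.lsingle_apply, ψ₀, π,
      Finsupp.linearCombination_single, one_smul, y']
    rw [← ModuleCat.comp_apply, colimit.w, hy]
  obtain ⟨t, ht⟩ := hker
  have hkill : ∀ v : t, ∃ (l : J) (a : j₀ ⟶ l), N.map a (ψ₀ v) = 0 := by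
    intro v
    have h0 : (colimit.ι N j₀) (ψ₀ v) = (colimit.ι N j₀) 0 := by
      have := LinearMap.congr_fun hψ₀ v
      simp only [LinearMap.comp_apply] at this
      have hv : π v = 0 := by
        have : (v : s →₀ A) ∈ LinearMap.ker π := by rw [← ht]; exact Submodule.subset_span v.2
        exact this
      rw [map_zero]
      change (colimit.ι N j₀).hom (ψ₀ v) = 0
      rw [this, hv, map_zero]
    obtain ⟨l, a, ha⟩ := (Types.FilteredColimit.isColimit_eq_iff' hc _ _).mp h0
    refine ⟨l, a, ?_⟩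
    have ha' : N.map a (ψ₀ v) = N.map a 0 := ha
    rw [ha', map_zero]
  choose l a ha using hkill
  obtain ⟨L, hL⟩ := Finset.exists_le ((Finset.univ.image l) ∪ {j₀})
  have hj₀L : j₀ ≤ L := hL _ (by simp)
  let ψ₁ : (s →₀ A) →ₗ[A] N.obj L := (N.map (homOfLE hj₀L)).hom ∘ₗ ψ₀
  have hle : LinearMap.ker π ≤ LinearMap.ker ψ₁ := by
    rw [← ht, Submodule.span_le]
    intro v hv
    have hlv : l ⟨v, hv⟩ ≤ L := hL _ (Finset.mem_union_left _
      (Finset.mem_image_of_mem _ (Finset.mem_univ _)))
    have e : homOfLE hj₀L = a ⟨v, hv⟩ ≫ homOfLE hlv := Subsingleton.elim _ _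
    show ψ₁ v = 0
    simp only [ψ₁, LinearMap.comp_apply]
    rw [e, N.map_comp, ModuleCat.comp_apply]
    have := ha ⟨v, hv⟩
    simp only at this
    rw [this, map_zero]
  let ψ : M →ₗ[A] N.obj L :=
    (LinearMap.ker π).liftQ ψ₁ hle ∘ₗ (π.quotKerEquivOfSurjective hπ).symm.toLinearMap
  have hψ : ∀ v, ψ (π v) = ψ₁ v := by
    intro v
    simp [ψ]
  refine ⟨colimit.ι (N ⋙ coyoneda.obj (Opposite.op M)) L (ModuleCat.ofHom ψ), ?_⟩
  rw [e1]
  change ModuleCat.ofHom ψ ≫ colimit.ι N L = φ
  ext m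
  obtain ⟨v, rfl⟩ := hπ m
  simp only [ModuleCat.hom_comp, ModuleCat.hom_ofHom, LinearMap.coe_comp, Function.comp_apply]
  rw [hψ]
  simp only [ψ₁, LinearMap.comp_apply]
  rw [← ModuleCat.comp_apply, colimit.w]
  exact LinearMap.congr_fun hψ₀ v

end Groth.Agent.S4835
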