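import Groth.Statements.S4836
import Mathlib.FieldTheory.IntermediateField.Adjoin.Algebra
import Mathlib.RingTheory.Jacobson.Ring
import Mathlib.RingTheory.Localization.Away.AdjoinRoot

set_option autoImplicit false
universe u
open Cons9

namespace Groth.Agent.S4836

open IntermediateField in
/-- Statement docstring omitted. -/
theorem result {k : Type u} [Field k]
    (C : ∀ (K : Type u) [Field K] [Algebra k K], Prop)
    (h₁ : ∀ (K K' : Type u) [Field K] [Algebra k K] [Field K'] [Algebra k K'],
      Nonempty (K →ₐ[k] K') → C K → C K')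
    (h₂ : ∀ (K : Type u) [Field K] [Algebra k K], C K →
      ∃ K' : IntermediateField k K, K'.FG ∧ C K')
    (h₃ : ∀ (A K : Type u) [CommRing A] [IsDomain A] [Algebra k A] [Algebra.FiniteType k A]
      [Field K] [Algebra k K] [Algebra A K] [IsScalarTower k A K] [IsFractionRing A K], C K →
      ∃ f : A, f ≠ 0 ∧ ∀ (K' : Type u) [Field K'] [Algebra k K'] (φ : Localization.Away f →ₐ[k] K'),
        Function.Surjective φ → C K')
    (hC : ∃ (K : Type u) (_ : Field K) (_ : Algebra k K), C K) :
    ∃ (K' : Type u) (_ : Field K') (_ : Algebra k K'), Module.Finite k K' ∧ C K' := by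
  obtain ⟨K, _, _, hK⟩ := hC
  obtain ⟨K', ⟨S, hS⟩, hK'⟩ := h₂ K hK
  have hL : C (IntermediateField.adjoin k (S : Set K)) := by
    refine h₁ K' _ ⟨(IntermediateField.equivOfEq hS.symm).toAlgHom⟩ hK'
  have hfin : Algebra.FiniteType k (Algebra.adjoin k (S : Set K)) :=
    (Subalgebra.fg_iff_finiteType _).mp ⟨S, rfl⟩
  open IntermediateField.algebraAdjoinAdjoin in
  obtain ⟨f, hf0, hf⟩ := h₃ (Algebra.adjoin k (S : Set K)) (IntermediateField.adjoin k (S : Set K)) hL
  have : IsDomain (Localization.Away f) :=
    IsLocalization.isDomain_localization (powers_le_nonZeroDivisors_of_noZeroDivisors hf0)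
  obtain ⟨m, hm⟩ := Ideal.exists_maximal (Localization.Away f)
  let := Ideal.Quotient.field m
  have : Algebra.FinitePresentation (Algebra.adjoin k (S : Set K)) (Localization.Away f) :=
    IsLocalization.Away.finitePresentation f
  have : Algebra.FiniteType (Algebra.adjoin k (S : Set K)) (Localization.Away f) := inferInstance
  have : Algebra.FiniteType k (Localization.Away f) := Algebra.FiniteType.trans hfin this
  have : Algebra.FiniteType k (Localization.Away f ⧸ m) :=
    Algebra.FiniteType.trans this inferInstance
  refine ⟨Localization.Away f ⧸ m, inferInstance, inferInstance,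
    finite_of_finite_type_of_isJacobsonRing k _, ?_⟩
  exact hf _ (Ideal.Quotient.mkₐ k m) (Ideal.Quotient.mkₐ_surjective k m)

end Groth.Agent.S4836
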