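import Groth.Statements.S4861
import Mathlib.RingTheory.Ideal.KrullsHeightTheorem
import Mathlib.RingTheory.Ideal.MinimalPrime.Noetherian
import Mathlib.RingTheory.Ideal.Height
import Mathlib.RingTheory.Localization.Ideal
-- import your own Groth.Agent.* helpers here

set_option autoImplicit false
universe u
open EGA43

namespace Groth.Agent.S4861


lemma mem_of_isField {B : Type u} [CommRing B] [IsDomain B] (f : B) (hf : f ≠ 0)
    (hF : IsField (Localization.Away f)) (p : Ideal B) [hp : p.IsPrime] (hp0 : p ≠ ⊥) : f ∈ p := by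
  by_contra hfp
  have hdisj : Disjoint (Submonoid.powers f : Set B) (p : Set B) := by
    rw [Set.disjoint_left]
    rintro x ⟨n, rfl⟩ hx
    exact hfp (hp.mem_of_pow_mem n hx)
  have hprime := IsLocalization.isPrime_of_isPrime_disjoint (Submonoid.powers f)
    (Localization.Away f) p hp hdisj
  have hcm := IsLocalization.under_map_of_isPrime_disjoint (Submonoid.powers f)
    (Localization.Away f) hp hdisj
  change Ideal.comap _ (Ideal.map _ p) = p at hcm
  letI := hF.toField
  have hbot : Ideal.map (algebraMap B (Localization.Away f)) p = ⊥ := by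
    rcases (Ideal.map (algebraMap B (Localization.Away f)) p).eq_bot_or_top with h | h
    · exact h
    · exact absurd h hprime.ne_top
  rw [hbot] at hcm
  apply hp0
  rw [← hcm]
  have hinj : Function.Injective (algebraMap B (Localization.Away f)) :=
    IsLocalization.injective (Localization.Away f) (powers_le_nonZeroDivisors_of_noZeroDivisors hf)
  ext x
  simp only [Ideal.mem_comap, Ideal.mem_bot]
  constructor
  · intro h
    apply hinj
    rw [h, map_zero]
  · intro h
    rw [h, map_zero]

lemma isField_of_mem {B : Type u} [CommRing B] [IsDomain B] (f : B) (hf : f ≠ 0)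
    (H : ∀ p : Ideal B, p.IsPrime → p ≠ ⊥ → f ∈ p) : IsField (Localization.Away f) := by
  have hinj : Function.Injective (algebraMap B (Localization.Away f)) :=
    IsLocalization.injective (Localization.Away f) (powers_le_nonZeroDivisors_of_noZeroDivisors hf)
  have : Nontrivial (Localization.Away f) := hinj.nontrivial
  by_contra hnot
  obtain ⟨M, hM⟩ := Ideal.exists_maximal (Localization.Away f)
  have hM0 : M ≠ ⊥ := Ring.ne_bot_of_isMaximal_of_not_isField hM hnot
  have hPp : (M.comap (algebraMap B (Localization.Away f))).IsPrime := Ideal.comap_isPrime _ M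
  have hP0 : M.comap (algebraMap B (Localization.Away f)) ≠ ⊥ := by
    intro h
    apply hM0
    have hmc := IsLocalization.map_under (Submonoid.powers f) (Localization.Away f) M
    change Ideal.map _ (Ideal.comap _ M) = M at hmc
    rw [← hmc, h, Ideal.map_bot]
  have hfP := H _ hPp hP0
  rw [Ideal.mem_comap] at hfP
  have hu : IsUnit (algebraMap B (Localization.Away f) f) :=
    IsLocalization.map_units (Localization.Away f) ⟨f, Submonoid.mem_powers f⟩
  exact hM.ne_top (Ideal.eq_top_of_isUnit_mem _ hfP hu)

lemma key {B : Type u} [CommRing B] [IsDomain B] [IsNoetherianRing B] (f : B) (hf : f ≠ 0)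
    (H : ∀ p : Ideal B, p.IsPrime → p ≠ ⊥ → f ∈ p) (p : Ideal B) [hp : p.IsPrime] (hp0 : p ≠ ⊥) :
    p ∈ (Ideal.span {f}).minimalPrimes := by
  by_contra hmin
  have hfin : (Ideal.span {f}).minimalPrimes.Finite :=
    Ideal.finite_minimalPrimes_of_isNoetherianRing B _
  have hfp : Ideal.span {f} ≤ p := (Ideal.span_singleton_le_iff_mem p).mpr (H p hp hp0)
  have hnot : ∀ q ∈ hfin.toFinset, ¬ p ≤ id q := by
    intro q hq hpq
    rw [Set.Finite.mem_toFinset] at hq
    obtain ⟨q', hq', hq'p⟩ := Ideal.exists_minimalPrimes_le hfp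
    have h1 : q ≤ q' := hq.2 ⟨hq'.1.1, hq'.1.2⟩ (hq'p.trans hpq)
    have h2 : p = q := le_antisymm hpq (h1.trans hq'p)
    exact hmin (h2 ▸ hq)
  have hsub : ¬ ((p : Set B) ⊆ ⋃ i ∈ (↑hfin.toFinset : Set (Ideal B)), ((id i : Ideal B) : Set B)) := by
    rw [Ideal.subset_union_prime (f := id) ⊥ ⊥]
    · rintro ⟨i, hi, hpi⟩
      exact hnot i hi hpi
    · intro i hi _ _
      rw [Set.Finite.mem_toFinset] at hi
      exact hi.1.1
  obtain ⟨x, hxp, hx⟩ := Set.not_subset.mp hsub
  simp only [Set.mem_iUnion, Set.Finite.mem_toFinset, id, SetLike.mem_coe,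
    exists_prop, not_exists, not_and] at hx
  obtain ⟨q, hq, hqp⟩ := Ideal.exists_minimalPrimes_le ((Ideal.span_singleton_le_iff_mem p).mpr hxp)
  have hqprime : q.IsPrime := hq.1.1
  have hxq : x ∈ q := hq.1.2 (Ideal.mem_span_singleton_self x)
  obtain ⟨⟨q0, hq0⟩⟩ := Ideal.nonempty_minimalPrimes (I := Ideal.span {f}) (by
      intro htop
      rw [Ideal.span_singleton_eq_top] at htop
      exact hp.ne_top (Ideal.eq_top_of_isUnit_mem _ (H p hp hp0) htop))
  have hx0 : x ≠ 0 := by
    intro h0
    exact hx q0 hq0 (h0 ▸ Submodule.zero_mem _)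
  have hqne : q ≠ ⊥ := by
    intro h
    rw [h, Ideal.mem_bot] at hxq
    exact hx0 hxq
  have hfq := H q hqprime hqne
  obtain ⟨q', hq', hq'q⟩ :=
    Ideal.exists_minimalPrimes_le ((Ideal.span_singleton_le_iff_mem q).mpr hfq)
  have hq'prime : q'.IsPrime := hq'.1.1
  have hht : q.height ≤ 1 :=
    Ideal.height_le_one_of_isPrincipal_of_mem_minimalPrimes (Ideal.span {x}) q hq
  have hq'ne : q' ≠ ⊥ := by
    intro h
    have : f ∈ q' := hq'.1.2 (Ideal.mem_span_singleton_self f)
    rw [h, Ideal.mem_bot] at this
    exact hf this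
  have heq : q' = q := by
    by_contra hne
    have hlt : q' < q := lt_of_le_of_ne hq'q hne
    have hbotlt : (⊥ : Ideal B) < q' := bot_lt_iff_ne_bot.mpr hq'ne
    have : (⊥ : Ideal B).IsPrime := Ideal.isPrime_bot
    have h1 := Ideal.height_add_one_le_of_lt_of_isPrime hbotlt
    have h2 := Ideal.height_add_one_le_of_lt_of_isPrime hlt
    have h3 : (2 : ℕ∞) ≤ q.height := by
      calc (2 : ℕ∞) = 0 + 1 + 1 := by norm_num
        _ ≤ (⊥ : Ideal B).height + 1 + 1 := by gcongr; exact zero_le
        _ ≤ q'.height + 1 := by gcongr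
        _ ≤ q.height := h2
    have : (2 : ℕ∞) ≤ 1 := h3.trans hht
    norm_num at this
  exact hx q' hq' (heq ▸ hxq)

/-- For a Noetherian integral domain B the following are equivalent (and hence equivalent to: the
fraction field of B is a finitely generated B-algebra; the generic point of Spec B is open): a) the
localization B_f is a field for some nonzero f; e) Spec B is finite; f) B is semi-local (finitely
many maximal ideals) of Krull dimension at most 1. -/
theorem result (B : Type u) [CommRing B] [IsDomain B]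
    [IsNoetherianRing B] :
    [∃ f : B, f ≠ 0 ∧ IsField (Localization.Away f),
      Finite (PrimeSpectrum B),
      Finite (MaximalSpectrum B) ∧ ringKrullDim B ≤ 1].TFAE := by
  have hAE : ∀ f : B, f ≠ 0 → IsField (Localization.Away f) →
      ∀ p : Ideal B, p.IsPrime → p ≠ ⊥ → p ∈ (Ideal.span {f}).minimalPrimes := by
    intro f hf hF p hp hp0
    exact key f hf (fun q hq hq0 => mem_of_isField f hf hF q hq0) p hp0
  tfae_have 1 → 2 := by
    rintro ⟨f, hf, hF⟩
    have hfin : (Ideal.span {f}).minimalPrimes.Finite :=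
      Ideal.finite_minimalPrimes_of_isNoetherianRing B _
    let S : Set (Ideal B) := insert (⊥ : Ideal B) (Ideal.span {f}).minimalPrimes
    have hfin' : S.Finite := hfin.insert _
    have : Finite S := hfin'.to_subtype
    refine Finite.of_injective (β := S)
      (fun P => ⟨P.asIdeal, ?_⟩) ?_
    · by_cases h : P.asIdeal = ⊥
      · exact Or.inl h
      · exact Or.inr (hAE f hf hF P.asIdeal P.isPrime h)
    · intro P Q h
      simp only [Subtype.mk.injEq] at h
      exact PrimeSpectrum.ext h
  tfae_have 2 → 1 := by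
    intro hfin
    classical
    have : Fintype (PrimeSpectrum B) := Fintype.ofFinite _
    have hx : ∀ P : PrimeSpectrum B, ∃ x : B, (P.asIdeal ≠ ⊥ → x ∈ P.asIdeal ∧ x ≠ 0) := by
      intro P
      by_cases h : P.asIdeal = ⊥
      · exact ⟨1, fun h' => absurd h h'⟩
      · obtain ⟨x, hxP, hx0⟩ := Submodule.exists_mem_ne_zero_of_ne_bot h
        exact ⟨x, fun _ => ⟨hxP, hx0⟩⟩
    choose g hg using hx
    let f : B := ∏ P ∈ Finset.univ.filter (fun P : PrimeSpectrum B => P.asIdeal ≠ ⊥), g P
    have hf : f ≠ 0 := by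
      rw [Finset.prod_ne_zero_iff]
      intro P hP
      rw [Finset.mem_filter] at hP
      exact (hg P hP.2).2
    refine ⟨f, hf, isField_of_mem f hf ?_⟩
    intro p hp hp0
    let P : PrimeSpectrum B := ⟨p, hp⟩
    have hPmem : P ∈ Finset.univ.filter (fun P : PrimeSpectrum B => P.asIdeal ≠ ⊥) := by
      rw [Finset.mem_filter]
      exact ⟨Finset.mem_univ _, hp0⟩
    exact Ideal.mem_of_dvd _ (Finset.dvd_prod_of_mem g hPmem) (hg P hp0).1
  tfae_have 3 → 2 := by
    rintro ⟨hmax, hdim⟩
    have hK : Ring.KrullDimLE 1 B := by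
      rw [Ring.krullDimLE_iff]
      exact_mod_cast hdim
    rw [Ring.krullDimLE_one_iff_of_noZeroDivisors] at hK
    classical
    refine Finite.of_injective (β := Option (MaximalSpectrum B))
      (fun P => if h : P.asIdeal = ⊥ then none else some ⟨P.asIdeal, hK _ h P.isPrime⟩) ?_
    intro P Q hPQ
    by_cases hP : P.asIdeal = ⊥
    · by_cases hQ : Q.asIdeal = ⊥
      · exact PrimeSpectrum.ext (hP.trans hQ.symm)
      · simp only [hP, hQ, dite_true, dite_false] at hPQ
        exact absurd hPQ (by simp)
    · by_cases hQ : Q.asIdeal = ⊥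
      · simp only [hP, hQ, dite_true, dite_false] at hPQ
        exact absurd hPQ (by simp)
      · simp only [hP, hQ, dite_false, Option.some.injEq, MaximalSpectrum.mk.injEq] at hPQ
        exact PrimeSpectrum.ext hPQ
  tfae_have 1 → 3 := by
    intro h1
    have h2 := tfae_1_to_2 h1
    obtain ⟨f, hf, hF⟩ := h1
    refine ⟨?_, ?_⟩
    · exact Finite.of_injective (fun m : MaximalSpectrum B => m.toPrimeSpectrum)
        MaximalSpectrum.toPrimeSpectrum_injective
    · rw [ringKrullDim_le_iff_height_le]
      intro p hp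
      by_cases hp0 : p = ⊥
      · subst hp0
        rw [Ideal.height_bot]
        exact_mod_cast zero_le_one
      · have := Ideal.height_le_one_of_isPrincipal_of_mem_minimalPrimes (Ideal.span {f}) p
          (hAE f hf hF p hp hp0)
        exact_mod_cast this
  tfae_finish

end Groth.Agent.S4861
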