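import Groth.Statements.S4916
-- import your own Groth.Agent.* helpers here

set_option autoImplicit false
open CategoryTheory AlgebraicGeometry
universe u v w
open EGA43

namespace Groth.Agent.S4916

/-- Let ψ : X → Y be a continuous map of topological spaces and y a point of Y. The set of points x of
the fibre ψ⁻¹(y) at which ψ is open is a closed subset of ψ⁻¹(y). -/
theorem result {α : Type u} {β : Type v} [TopologicalSpace α] [TopologicalSpace β]
    (ψ : α → β) (hψ : Continuous ψ) (y : β) :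
    IsClosed {x : ↥(ψ ⁻¹' {y}) | EGA43.IsOpenAt ψ x.1} := by
  rw [← closure_subset_iff_isClosed]
  intro x hx U hU
  obtain ⟨V, hVU, hVo, hxV⟩ := mem_nhds_iff.mp hU
  have hV' : (Subtype.val ⁻¹' V : Set ↥(ψ ⁻¹' {y})) ∈ nhds x :=
    (hVo.preimage continuous_subtype_val).mem_nhds hxV
  obtain ⟨x', hx'V, hx'S⟩ := mem_closure_iff_nhds.mp hx _ hV'
  have h1 : ψ '' V ∈ nhds (ψ x'.1) := hx'S V (hVo.mem_nhds hx'V)
  have hx'y : ψ x'.1 = ψ x.1 := by
    rw [show ψ x'.1 = y from x'.2, show ψ x.1 = y from x.2]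
  rw [hx'y] at h1
  exact Filter.mem_of_superset h1 (Set.image_mono hVU)

end Groth.Agent.S4916
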