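import Groth.Statements.S5050
import Mathlib.RingTheory.Filtration
-- import your own Groth.Agent.* helpers here

set_option autoImplicit false
universe u v
open CInt

namespace Groth.Agent.S5050

/-- Let A be a Noetherian ring, N a finitely generated A-module, E and F submodules of N and Q an ideal
of A. For every natural number k there is h > 0 with E ⊓ (F ⊔ Q^h N) ≤ (E ⊓ F) ⊔ Q^k N. -/
theorem result {A : Type u} [CommRing A] [IsNoetherianRing A] {N : Type v} [AddCommGroup N]
    [Module A N] [Module.Finite A N] (E F : Submodule A N) (Q : Ideal A) (k : ℕ) :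
    ∃ h : ℕ, 0 < h ∧ E ⊓ (F ⊔ Q ^ h • (⊤ : Submodule A N)) ≤ (E ⊓ F) ⊔ Q ^ k • (⊤ : Submodule A N) := by
  obtain ⟨c, hc⟩ := Ideal.exists_pow_inf_eq_pow_smul Q (E.map F.mkQ)
  refine ⟨k + c + 1, by omega, ?_⟩
  intro x hx
  obtain ⟨hxE, hxF⟩ := Submodule.mem_inf.mp hx
  have h1 : F.mkQ x ∈ (Q ^ (k + c + 1) • (⊤ : Submodule A (N ⧸ F))) ⊓ E.map F.mkQ := by
    refine Submodule.mem_inf.mpr ⟨?_, Submodule.mem_map_of_mem hxE⟩
    have := Submodule.mem_map_of_mem (f := F.mkQ) hxF
    rw [Submodule.map_sup, Submodule.mkQ_map_self, bot_sup_eq, Submodule.map_smul'',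
      Submodule.map_top, Submodule.range_mkQ] at this
    exact this
  rw [hc (k + c + 1) (by omega)] at h1
  have h2 : F.mkQ x ∈ (Q ^ k • E).map F.mkQ := by
    rw [Submodule.map_smul'']
    refine Submodule.smul_mono ?_ inf_le_right h1
    exact Ideal.pow_le_pow_right (by omega)
  obtain ⟨y, hy, hyx⟩ := Submodule.mem_map.mp h2
  have hyE : y ∈ E := Submodule.smul_le_right hy
  have hyT : y ∈ Q ^ k • (⊤ : Submodule A N) := Submodule.smul_mono le_rfl le_top hy
  have hxy : x - y ∈ F := by
    rw [Submodule.mkQ_apply, Submodule.mkQ_apply, Submodule.Quotient.eq] at hyx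
    have := F.neg_mem hyx
    simpa using this
  have : x = (x - y) + y := by abel
  rw [this]
  exact Submodule.add_mem_sup (Submodule.mem_inf.mpr ⟨E.sub_mem hxE hyE, hxy⟩) hyT

end Groth.Agent.S5050
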