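import Groth.Statements.S5069
import Mathlib.RingTheory.HopkinsLevitzki
-- import your own Groth.Agent.* helpers here

set_option autoImplicit false
universe u v
open Hensel

namespace Groth.Agent.S5069

/-- First assertion, phrased for the images of the inductive system: let B be a Noetherian commutative
ring and (C_i) a family of Artinian subrings of B, directed under inclusion, whose union is B. Then
B is an Artinian ring. -/
theorem result (B : Type u) [CommRing B] [IsNoetherianRing B]
    {ι : Type v} [Nonempty ι] (C : ι → Subring B) (hdir : Directed (fun a b => a ≤ b) C)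
    (hart : ∀ i, IsArtinianRing ↥(C i)) (hcov : ∀ b : B, ∃ i, b ∈ C i) : IsArtinianRing B := by
  rw [isArtinianRing_iff_krullDimLE_zero]
  refine Ring.KrullDimLE.mk₀ (fun p hp => ?_)
  rw [Ideal.isMaximal_iff]
  refine ⟨fun h1 => hp.ne_top ((Ideal.eq_top_iff_one p).mpr h1), ?_⟩
  intro J b hpJ hbp hbJ
  obtain ⟨i, hbi⟩ := hcov b
  let P : Ideal (C i) := p.comap (C i).subtype
  have hP : P.IsPrime := Ideal.comap_isPrime _ p
  have hPm : P.IsMaximal := IsArtinianRing.isMaximal_of_isPrime P
  have hbP : (⟨b, hbi⟩ : C i) ∉ P := by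
    intro h
    exact hbp h
  obtain ⟨y, z, hz, hyz⟩ := hPm.exists_inv hbP
  have hz' : ((z : C i) : B) ∈ p := hz
  have hyz' : ((y : C i) : B) * b + (z : B) = 1 := by
    have := congrArg (fun t : C i => (t : B)) hyz
    simpa using this
  rw [← hyz']
  exact J.add_mem (J.mul_mem_left _ hbJ) (hpJ hz')

end Groth.Agent.S5069
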