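import Groth.Statements.S5073
import Mathlib.RingTheory.Ideal.MinimalPrime.Noetherian
-- import your own Groth.Agent.* helpers here

set_option autoImplicit false
universe u
open EGA418

namespace Groth.Agent.S5073


lemma exists_ann {A : Type u} [CommRing A] (q : Ideal A) (hq : q ∈ minimalPrimes A)
    (s : A) (hs : s ∈ q) : ∃ t : A, t ∉ q ∧ ∃ n : ℕ, t * s ^ n = 0 := by
  have hqp : q.IsPrime := hq.1.1
  let S : Submonoid A := q.primeCompl ⊔ Submonoid.powers s
  by_cases h0 : (0 : A) ∈ S
  · obtain ⟨y, hy, z, hz, hyz⟩ := Submonoid.mem_sup.mp h0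
    obtain ⟨n, rfl⟩ := hz
    exact ⟨y, hy, n, hyz⟩
  · exfalso
    have hdisj : Disjoint ((⊥ : Ideal A) : Set A) S := by
      rw [Set.disjoint_left]
      intro a ha haS
      have : a = 0 := by simpa using ha
      subst this
      exact h0 haS
    obtain ⟨P, hP, -, hPS⟩ := Ideal.exists_le_prime_disjoint ⊥ S hdisj
    have hPq : P ≤ q := by
      intro a haP
      by_contra haq
      have : a ∈ S := Submonoid.mem_sup_left haq
      exact Set.disjoint_left.mp hPS haP this
    have hqP : q ≤ P := hq.2 ⟨hP, bot_le⟩ hPq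
    have hsS : s ∈ S := Submonoid.mem_sup_right (Submonoid.mem_powers s)
    exact Set.disjoint_left.mp hPS (hqP hs) hsS

/-- Let A be a Noetherian local ring, p a prime ideal and x an element of A. Then there is an element x'
of A whose image in A_p equals that of x and which belongs to no minimal prime ideal of A not
contained in p. -/
theorem result (A : Type u) [CommRing A] [IsNoetherianRing A] [IsLocalRing A]
    (p : Ideal A) [p.IsPrime] (x : A) :
    ∃ x' : A, algebraMap A (Localization.AtPrime p) x' = algebraMap A (Localization.AtPrime p) x ∧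
      ∀ q ∈ minimalPrimes A, ¬ q ≤ p → x' ∉ q := by
  classical
  have hfin : (minimalPrimes A).Finite := minimalPrimes.finite_of_isNoetherianRing A
  let T : Finset (Ideal A) := hfin.toFinset.filter (fun q => ¬ q ≤ p)
  have hTmem : ∀ q, q ∈ T ↔ q ∈ minimalPrimes A ∧ ¬ q ≤ p := by
    intro q
    simp [T]
  let K : Ideal A := RingHom.ker (algebraMap A (Localization.AtPrime p))
  have hK : ∀ q ∈ T, ¬ K ≤ q := by
    intro q hq hKq
    obtain ⟨hqmin, hqp⟩ := (hTmem q).mp hq
    obtain ⟨s, hsq, hsp⟩ := Set.not_subset.mp hqp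
    obtain ⟨t, htq, n, htn⟩ := exists_ann q hqmin s hsq
    apply htq
    apply hKq
    change algebraMap A (Localization.AtPrime p) t = 0
    rw [IsLocalization.map_eq_zero_iff p.primeCompl]
    refine ⟨⟨s ^ n, ?_⟩, ?_⟩
    · exact fun h => hsp (Ideal.IsPrime.mem_of_pow_mem inferInstance n h)
    · simpa [mul_comm] using htn
  let J := T.filter (fun q => x ∈ q)
  let J' := T.filter (fun q => x ∉ q)
  have hJprime : ∀ q ∈ J, q.IsPrime := by
    intro q hq
    exact ((hTmem q).mp (Finset.mem_filter.mp hq).1).1.1.1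
  -- a ∈ K avoiding all q ∈ J
  have ha : ∃ a ∈ K, ∀ q ∈ J, a ∉ q := by
    have : ¬ ((K : Set A) ⊆ ⋃ i ∈ (↑J : Set (Ideal A)), ((id i : Ideal A) : Set A)) := by
      rw [Ideal.subset_union_prime (f := id) ⊥ ⊥ (fun i hi _ _ => hJprime i hi)]
      rintro ⟨i, hi, hKi⟩
      exact hK i (Finset.mem_filter.mp hi).1 hKi
    obtain ⟨a, haK, haU⟩ := Set.not_subset.mp this
    refine ⟨a, haK, fun q hq haq => haU ?_⟩
    simp only [Set.mem_iUnion]
    exact ⟨q, hq, haq⟩
  obtain ⟨a, haK, haJ⟩ := ha
  -- b_j ∈ j avoiding all q ∈ J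
  have hb : ∀ j ∈ J', ∃ b ∈ j, ∀ q ∈ J, b ∉ q := by
    intro j hj
    have hjT := (Finset.mem_filter.mp hj).1
    have hxj := (Finset.mem_filter.mp hj).2
    have hjmin := ((hTmem j).mp hjT).1
    have : ¬ ((j : Set A) ⊆ ⋃ i ∈ (↑J : Set (Ideal A)), ((id i : Ideal A) : Set A)) := by
      rw [Ideal.subset_union_prime (f := id) ⊥ ⊥ (fun i hi _ _ => hJprime i hi)]
      rintro ⟨i, hi, hji⟩
      have hiT := (Finset.mem_filter.mp hi).1
      have hxi := (Finset.mem_filter.mp hi).2
      have himin := ((hTmem i).mp hiT).1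
      have hij : i ≤ j := himin.2 ⟨hjmin.1.1, bot_le⟩ hji
      exact hxj (hji.antisymm hij ▸ hxi)
    obtain ⟨b, hbj, hbU⟩ := Set.not_subset.mp this
    refine ⟨b, hbj, fun q hq hbq => hbU ?_⟩
    simp only [Set.mem_iUnion]
    exact ⟨q, hq, hbq⟩
  choose! b hbj hbJ using hb
  let y : A := a * ∏ j ∈ J', b j
  refine ⟨x + y, ?_, ?_⟩
  · have : algebraMap A (Localization.AtPrime p) y = 0 := by
      change algebraMap A (Localization.AtPrime p) (a * _) = 0
      rw [map_mul]
      have : algebraMap A (Localization.AtPrime p) a = 0 := haK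
      rw [this, zero_mul]
    rw [map_add, this, add_zero]
  · intro q hqmin hqp hxy
    have hqT : q ∈ T := (hTmem q).mpr ⟨hqmin, hqp⟩
    have hqprime : q.IsPrime := hqmin.1.1
    by_cases hxq : x ∈ q
    · have hqJ : q ∈ J := Finset.mem_filter.mpr ⟨hqT, hxq⟩
      have hyq : y ∈ q := by
        have := q.sub_mem hxy hxq
        simpa using this
      rcases hqprime.mem_or_mem hyq with h | h
      · exact haJ q hqJ h
      · rw [Ideal.IsPrime.prod_mem_iff] at h
        obtain ⟨j, hj, hjq⟩ := h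
        exact hbJ j hj q hqJ hjq
    · have hqJ' : q ∈ J' := Finset.mem_filter.mpr ⟨hqT, hxq⟩
      have hyq : y ∈ q := by
        apply Ideal.mul_mem_left
        exact Ideal.mem_of_dvd _ (Finset.dvd_prod_of_mem b hqJ') (hbj q hqJ')
      apply hxq
      have := q.sub_mem hxy hyq
      simpa using this

end Groth.Agent.S5073
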