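import Groth.Statements.S5078
import Mathlib.RingTheory.Finiteness.Cardinality
import Mathlib.RingTheory.Ideal.Operations
-- import your own Groth.Agent.* helpers here

set_option autoImplicit false
universe u v
open Hensel

namespace Groth.Agent.S5078


lemma map_mem_smul_top {A : Type u} [CommRing A] {M N : Type*} [AddCommGroup M] [Module A M]
    [AddCommGroup N] [Module A N] (g : M →ₗ[A] N) {J : Ideal A} {x : M}
    (hx : x ∈ J • (⊤ : Submodule A M)) : g x ∈ J • (⊤ : Submodule A N) := by
  have : g x ∈ (J • (⊤ : Submodule A M)).map g := Submodule.mem_map_of_mem hx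
  rw [Submodule.map_smul''] at this
  exact Submodule.smul_mono le_rfl le_top this

lemma isAdicComplete_of_retract {A : Type u} [CommRing A] (I : Ideal A)
    {M N : Type*} [AddCommGroup M] [Module A M] [AddCommGroup N] [Module A N]
    (s : M →ₗ[A] N) (r : N →ₗ[A] M) (h : ∀ x, r (s x) = x) [IsAdicComplete I N] :
    IsAdicComplete I M := by
  refine { haus' := ?_, prec' := ?_ }
  · intro x hx
    have hsx : s x = 0 := by
      apply IsHausdorff.haus' (I := I) (s x)
      intro n
      have := hx n
      rw [SModEq.sub_mem] at this ⊢
      simpa using map_mem_smul_top s this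
    rw [← h x, hsx, map_zero]
  · intro f hf
    obtain ⟨L, hL⟩ := IsPrecomplete.prec' (I := I) (fun n => s (f n)) (by
      intro m n hmn
      have := hf hmn
      rw [SModEq.sub_mem] at this ⊢
      simpa using map_mem_smul_top s this)
    refine ⟨r L, fun n => ?_⟩
    have := hL n
    rw [SModEq.sub_mem] at this ⊢
    have h2 := map_mem_smul_top r this
    simpa [h] using h2

lemma isAdicComplete_pi {A : Type u} [CommRing A] (I : Ideal A) [IsAdicComplete I A] (n : ℕ) :
    IsAdicComplete I (Fin n → A) := by
  refine { haus' := ?_, prec' := ?_ }
  · intro x hx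
    funext i
    apply IsHausdorff.haus' (I := I) (x i)
    intro k
    have := hx k
    rw [SModEq.sub_mem] at this ⊢
    simpa using map_mem_smul_top (LinearMap.proj i) this
  · intro f hf
    have hL : ∀ i : Fin n, ∃ L : A, ∀ k, f k i ≡ L [SMOD (I ^ k • ⊤ : Submodule A A)] := by
      intro i
      refine IsPrecomplete.prec' (I := I) (fun k => f k i) ?_
      intro m k hmk
      have := hf hmk
      rw [SModEq.sub_mem] at this ⊢
      simpa using map_mem_smul_top (LinearMap.proj i) this
    choose L hL using hL
    refine ⟨L, fun k => ?_⟩
    rw [SModEq.sub_mem]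
    have hv : f k - L = ∑ i : Fin n, (f k i - L i) • (Pi.single i (1 : A) : Fin n → A) := by
      funext j
      simp [Finset.sum_apply, Pi.single_apply]
    rw [hv]
    refine Submodule.sum_mem _ (fun i _ => ?_)
    have hi := hL i k
    rw [SModEq.sub_mem] at hi
    have hi' : f k i - L i ∈ I ^ k := by
      simpa [smul_eq_mul, Ideal.mul_top] using hi
    exact Submodule.smul_mem_smul hi' Submodule.mem_top

/-- Let A be a ring, I an ideal such that A is I-adically separated and complete, and M a finitely
generated projective A-module. Then M is I-adically separated and complete. -/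
theorem result {A : Type u} [CommRing A] (I : Ideal A) [IsAdicComplete I A]
    (M : Type v) [AddCommGroup M] [Module A M] [Module.Finite A M] [Module.Projective A M] :
    IsAdicComplete I M := by
  obtain ⟨n, π, hπ⟩ := Module.Finite.exists_fin' A M
  obtain ⟨s, hs⟩ := Module.projective_lifting_property π LinearMap.id hπ
  have := isAdicComplete_pi I n
  exact isAdicComplete_of_retract I s π (fun x => by
    have := congrArg (fun g => g x) hs
    simpa using this)

end Groth.Agent.S5078
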