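import Groth.Statements.S5132
-- import your own Groth.Agent.* helpers here

set_option autoImplicit false
open CategoryTheory AlgebraicGeometry
universe u
open SGA1

namespace Groth.Agent.S5132

/-- Quasi-compactness of a morphism descends along a surjective and quasi-compact base change; flatness
of the base change is not needed for this property. -/
theorem result :
    MorphismProperty.DescendsAlong @QuasiCompact (@Surjective ⊓ @QuasiCompact : MorphismProperty Scheme.{u}) := by
  constructor
  intro A X Y Z fst snd f g h hf hfst
  obtain ⟨hs, hq⟩ := hf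
  have hsnd : Surjective snd := MorphismProperty.of_isPullback (P := @Surjective) h hs
  constructor
  intro U hU hc
  have h1 : IsCompact (f ⁻¹' U) := hq.isCompact_preimage U hU hc
  have h2 : IsCompact (fst ⁻¹' (f ⁻¹' U)) :=
    hfst.isCompact_preimage _ (hU.preimage f.continuous) h1
  have h3 : snd '' (fst ⁻¹' (f ⁻¹' U)) = g ⁻¹' U := by
    ext y
    constructor
    · rintro ⟨a, ha, rfl⟩
      simp only [Set.mem_preimage] at ha ⊢
      rw [← Scheme.Hom.comp_apply, ← h.w, Scheme.Hom.comp_apply]
      exact ha
    · intro hy
      obtain ⟨a, rfl⟩ := hsnd.surj y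
      refine ⟨a, ?_, rfl⟩
      simp only [Set.mem_preimage] at hy ⊢
      rw [← Scheme.Hom.comp_apply, h.w, Scheme.Hom.comp_apply]
      exact hy
  rw [← h3]
  exact h2.image snd.continuous

end Groth.Agent.S5132
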