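import Groth.Statements.S5665
import Mathlib.Tactic.Ring
import Mathlib.Algebra.Homology.ShortComplex.ModuleCat
import Mathlib.Algebra.Homology.DerivedCategory.Ext.ExactSequences
import Mathlib.Algebra.Homology.DerivedCategory.Ext.EnoughProjectives
import Mathlib.Algebra.Category.ModuleCat.Projective
import Mathlib.LinearAlgebra.Isomorphisms
import Mathlib.RingTheory.Ideal.Operations
-- import your own Groth.Agent.* helpers here

set_option autoImplicit false
universe u
open CategoryTheory
open Dual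

namespace Groth.Agent.S5665

open Abelian

section
variable {A : Type u} [CommRing A]

lemma nil_case (M : Type u) [AddCommGroup M] [Module A M] :
    (∀ i, 0 < i → Subsingleton (Ext (ModuleCat.of A (A ⧸ (⊥ : Ideal A))) (ModuleCat.of A M) i)) ∧
    Nonempty (Ext (ModuleCat.of A (A ⧸ (⊥ : Ideal A))) (ModuleCat.of A M) 0 ≃ₗ[A]
      (M ⧸ ((⊥ : Ideal A) • (⊤ : Submodule A M)))) := by
  let e : A ≃ₗ[A] (A ⧸ (⊥ : Ideal A)) := (Submodule.quotEquivOfEqBot ⊥ rfl).symm
  have : Module.Projective A (A ⧸ (⊥ : Ideal A)) := Module.Projective.of_equiv e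
  refine ⟨fun i hi => ?_, ⟨?_⟩⟩
  · obtain ⟨n, rfl⟩ : ∃ n, i = n + 1 := ⟨i - 1, by omega⟩
    exact Ext.subsingleton_of_projective _ _ n
  · exact (Ext.linearEquiv₀ (R := A)).trans ((ModuleCat.homLinearEquiv (S := A)).trans
      ((e.arrowCongr (LinearEquiv.refl A M)).symm.trans ((LinearMap.ringLmapEquivSelf A A M).trans
        (Submodule.quotEquivOfEqBot _ (Submodule.bot_smul _)).symm)))

set_option backward.isDefEq.respectTransparency false in
lemma step_case (M : Type u) [AddCommGroup M] [Module A M] (J' : Ideal A) (y : A) (p : ℕ)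
    (hy : IsSMulRegular (A ⧸ J') y)
    (ihv : ∀ i, p < i → Subsingleton (Ext (ModuleCat.of A (A ⧸ J')) (ModuleCat.of A M) i))
    (ihe : Ext (ModuleCat.of A (A ⧸ J')) (ModuleCat.of A M) p ≃ₗ[A] (M ⧸ (J' • (⊤ : Submodule A M)))) :
    (∀ i, p + 1 < i →
      Subsingleton (Ext (ModuleCat.of A (A ⧸ (J' ⊔ Ideal.span {y}))) (ModuleCat.of A M) i)) ∧
    Nonempty (Ext (ModuleCat.of A (A ⧸ (J' ⊔ Ideal.span {y}))) (ModuleCat.of A M) (p + 1) ≃ₗ[A]
      (M ⧸ ((J' ⊔ Ideal.span {y}) • (⊤ : Submodule A M)))) := by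
  have hle : J' ≤ J' ⊔ Ideal.span {y} := le_sup_left
  have hyJ : y ∈ J' ⊔ Ideal.span {y} := Ideal.mem_sup_right (Ideal.subset_span rfl)
  let S : ShortComplex (ModuleCat.{u} A) :=
    ShortComplex.moduleCatMk (y • LinearMap.id : (A ⧸ J') →ₗ[A] (A ⧸ J'))
      (Submodule.factor hle) (by
        ext
        simp only [LinearMap.coe_comp, Function.comp_apply, LinearMap.smul_apply, LinearMap.id_coe,
          id_eq, map_smul, Submodule.factor_mk, LinearMap.zero_apply]
        rw [← map_smul, smul_eq_mul]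
        exact (Submodule.Quotient.mk_eq_zero _).2 (Ideal.mul_mem_right _ _ hyJ))
  have hS : S.ShortExact := by
    refine ShortComplex.ShortExact.mk' ?_ ?_ ?_
    · rw [ShortComplex.moduleCat_exact_iff]
      intro x₂ hx₂
      obtain ⟨a, rfl⟩ := Submodule.Quotient.mk_surjective _ x₂
      have ha : a ∈ J' ⊔ Ideal.span {y} := by
        have : (Submodule.Quotient.mk a : A ⧸ (J' ⊔ Ideal.span {y})) = 0 := hx₂
        rwa [Submodule.Quotient.mk_eq_zero] at this
      obtain ⟨b, hb, c, hc, rfl⟩ := Submodule.mem_sup.1 ha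
      obtain ⟨d, rfl⟩ := Ideal.mem_span_singleton'.1 hc
      refine ⟨Submodule.Quotient.mk d, ?_⟩
      change y • (Submodule.Quotient.mk d : A ⧸ J') = (Submodule.Quotient.mk (b + d * y) : A ⧸ J')
      rw [← Submodule.Quotient.mk_smul, Submodule.Quotient.eq, smul_eq_mul]
      have : y * d - (b + d * y) = -b := by ring
      rw [this]; exact J'.neg_mem hb
    · rw [ModuleCat.mono_iff_injective]
      exact hy
    · rw [ModuleCat.epi_iff_surjective]
      exact Submodule.factor_surjective hle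
  let Y := ModuleCat.of A M
  have hsub : ∀ i, p < i → Subsingleton (Ext S.X₁ Y i) := ihv
  have hsub2 : ∀ i, p < i → Subsingleton (Ext S.X₂ Y i) := ihv
  constructor
  · intro i hi
    obtain ⟨n₀, rfl⟩ : ∃ n₀, i = 1 + n₀ := ⟨i - 1, by omega⟩
    refine subsingleton_of_forall_eq 0 (fun x₃ => ?_)
    have := hsub2 (1 + n₀) (by omega)
    obtain ⟨x₁, hx₁⟩ := Ext.contravariant_sequence_exact₃ hS Y x₃ (Subsingleton.elim _ _) rfl
    have := hsub n₀ (by omega)
    rw [← hx₁, Subsingleton.elim x₁ 0, Ext.comp_zero]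
  · let δ : Ext S.X₁ Y p →ₗ[A] Ext S.X₃ Y (p + 1) :=
      Ext.bilinearCompOfLinear A S.X₃ S.X₁ Y 1 p (p + 1) (by omega) hS.extClass
    have hδ : ∀ x, δ x = hS.extClass.comp x (by omega) := fun x => rfl
    have hsurj : Function.Surjective δ := by
      intro x₃
      have := hsub2 (p + 1) (by omega)
      obtain ⟨x₁, hx₁⟩ :=
        Ext.contravariant_sequence_exact₃ hS Y x₃ (Subsingleton.elim _ _) (add_comm 1 p)
      exact ⟨x₁, hx₁⟩
    have hf : Ext.mk₀ S.f = y • Ext.mk₀ (𝟙 S.X₁) := by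
      rw [← Ext.mk₀_smul]
      congr 1
    have hfcomp : ∀ x₂ : Ext S.X₂ Y p, (Ext.mk₀ S.f).comp x₂ (zero_add p) = y • x₂ := by
      intro x₂
      rw [hf, Ext.smul_comp, Ext.mk₀_id_comp]
    have hker : LinearMap.ker δ = (Ideal.span {y} : Ideal A) • (⊤ : Submodule A (Ext S.X₁ Y p)) := by
      rw [Submodule.ideal_span_singleton_smul]
      ext x
      rw [LinearMap.mem_ker, Submodule.mem_smul_pointwise_iff_exists]
      constructor
      · intro hx
        obtain ⟨x₂, hx₂⟩ := Ext.contravariant_sequence_exact₁ hS Y x (add_comm 1 p) hx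
        exact ⟨x₂, Submodule.mem_top, by rw [← hx₂, hfcomp]⟩
      · rintro ⟨x₂, -, rfl⟩
        rw [← hfcomp, hδ]
        exact hS.extClass_comp_assoc x₂
    have hmap1 : ((Ideal.span {y} : Ideal A) • (⊤ : Submodule A (Ext S.X₁ Y p))).map
        (ihe.toLinearMap : Ext S.X₁ Y p →ₗ[A] (M ⧸ (J' • (⊤ : Submodule A M)))) =
        (Ideal.span {y} : Ideal A) • ⊤ := by
      rw [Submodule.map_smul'', Submodule.map_top, LinearEquiv.range]
    have hmap2 : ((Ideal.span {y} : Ideal A) • (⊤ : Submodule A M)).map (J' • (⊤ : Submodule A M)).mkQ =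
        (Ideal.span {y} : Ideal A) • ⊤ := by
      rw [Submodule.map_smul'', Submodule.map_top, Submodule.range_mkQ]
    refine ⟨(δ.quotKerEquivOfSurjective hsurj).symm.trans
      ((Submodule.quotEquivOfEq _ _ hker).trans
      ((Submodule.Quotient.equiv _ _ ihe hmap1).trans
      ((Submodule.quotEquivOfEq _ _ hmap2.symm).trans
      ((Submodule.quotientQuotientEquivQuotientSup _ _).trans
      (Submodule.quotEquivOfEq _ _ (Submodule.sup_smul _ _ _).symm)))))⟩

end

lemma main_ind (A : Type u) [CommRing A] (M : Type u) [AddCommGroup M] [Module A M] (xs : List A)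
    (hreg : RingTheory.Sequence.IsWeaklyRegular A xs) :
    (∀ i, xs.length < i →
      Subsingleton (Ext (ModuleCat.of A (A ⧸ Ideal.ofList xs)) (ModuleCat.of A M) i)) ∧
    Nonempty (Ext (ModuleCat.of A (A ⧸ Ideal.ofList xs)) (ModuleCat.of A M) xs.length ≃ₗ[A]
      (M ⧸ (Ideal.ofList xs • (⊤ : Submodule A M)))) := by
  induction xs using List.reverseRecOn with
  | nil =>
    rw [Ideal.ofList_nil]
    exact nil_case M
  | append_singleton xs' y ih =>
    rw [RingTheory.Sequence.isWeaklyRegular_append_iff,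
      RingTheory.Sequence.isWeaklyRegular_singleton_iff] at hreg
    obtain ⟨hreg', hy⟩ := hreg
    obtain ⟨ihv, ⟨ihe⟩⟩ := ih hreg'
    have hJ : Ideal.ofList (xs' ++ [y]) = Ideal.ofList xs' ⊔ Ideal.span {y} := by
      rw [Ideal.ofList_append, Ideal.ofList_singleton]
    have hlen : (xs' ++ [y]).length = xs'.length + 1 := by simp
    rw [hJ, hlen]
    have hsm : (Ideal.ofList xs' • (⊤ : Submodule A A)) = Ideal.ofList xs' := by
      rw [Ideal.smul_eq_mul, Ideal.mul_top]
    rw [hsm] at hy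
    exact step_case M _ y _ hy ihv ihe

/-- Let `A` be a commutative ring, `xs = (x_1, …, x_p)` a sequence in `A` such that each `x_i` is a
non-zero-divisor on `A/(x_1, …, x_{i-1})`, `J` the ideal generated by the `x_i` and `M` any
`A`-module. Then `Ext^p_A(A/J, M)` is isomorphic, as an `A`-module, to `M/JM`. (Existence of an
`A`-linear isomorphism only; the published isomorphism is the one induced by the Koszul complex of
`xs`.) -/
theorem result (A : Type u) [CommRing A] (xs : List A) (hreg : RingTheory.Sequence.IsWeaklyRegular A xs) (M : Type u) [AddCommGroup M] [Module A M] : Nonempty (Abelian.Ext (ModuleCat.of A (A ⧸ Ideal.ofList xs)) (ModuleCat.of A M) xs.length ≃ₗ[A] (M ⧸ (Ideal.ofList xs • (⊤ : Submodule A M)))) := by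
  exact (main_ind A M xs hreg).2

end Groth.Agent.S5665
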