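import Groth.Statements.S5851
-- import your own Groth.Agent.* helpers here

set_option autoImplicit false
universe u
open ZClos

namespace Groth.Agent.S5851

open CategoryTheory CategoryTheory.Limits AlgebraicGeometry in
set_option backward.isDefEq.respectTransparency false in
theorem uniq_aux (X : Scheme.{u}) (Z : Set X) (F F' : X.Modules) (hF' : ZClos.IsZClosed Z F')
    (v₁ v₂ : (ZClos.H0 Z).obj F ⟶ F')
    (h : ZClos.rhoApp Z F ≫ v₁ = ZClos.rhoApp Z F ≫ v₂) : v₁ = v₂ := by
  have hρ : IsIso (ZClos.rhoApp Z F') := hF'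
  apply colimit.hom_ext
  intro T
  have h' : ZClos.toDiagram Z F T ≫ (colimit.ι ((ZClos.diagram Z).obj F) T ≫ v₁) =
      ZClos.toDiagram Z F T ≫ (colimit.ι ((ZClos.diagram Z).obj F) T ≫ v₂) := by
    rw [← Category.assoc, ← Category.assoc, ← ZClos.rhoApp_eq]; exact h
  have hmono : Mono (ZClos.toDiagram Z F' T) := by
    have : Mono (ZClos.toDiagram Z F' T ≫ colimit.ι ((ZClos.diagram Z).obj F') T) := by
      rw [← ZClos.rhoApp_eq]; exact @IsIso.mono_of_iso _ _ _ _ _ hρ
    exact mono_of_mono _ (colimit.ι ((ZClos.diagram Z).obj F') T)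
  have hiso : IsIso ((ZClos.resPush T.U).map ((ZClos.resPushUnit T.U).app F)) := by
    rw [Scheme.Modules.Hom.isIso_iff_isIso_app]
    intro V
    rw [ZClos.resPush_map_app, ZClos.resPushUnit_app_app]
    have e := ZClos.resPush_image_eq (le_refl T.U) V
    rw [show homOfLE (T.U.ι.image_preimage_le (T.U.ι ''ᵁ T.U.ι ⁻¹ᵁ V)) = eqToHom e from
      Subsingleton.elim _ _, eqToHom_op, eqToHom_map]
    infer_instance
  rw [← cancel_mono (ZClos.toDiagram Z F' T)]
  have nat₁ := (ZClos.resPushUnit T.U).naturality (colimit.ι ((ZClos.diagram Z).obj F) T ≫ v₁)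
  have nat₂ := (ZClos.resPushUnit T.U).naturality (colimit.ι ((ZClos.diagram Z).obj F) T ≫ v₂)
  simp only [Functor.id_map] at nat₁ nat₂
  unfold ZClos.toDiagram
  rw [nat₁, nat₂]
  congr 1
  rw [← cancel_epi ((ZClos.resPush T.U).map ((ZClos.resPushUnit T.U).app F)),
    ← Functor.map_comp, ← Functor.map_comp]
  exact congrArg _ h'

open CategoryTheory CategoryTheory.Limits AlgebraicGeometry in
/-- For a locally Noetherian scheme X, a subset Z of X stable under specialization, O_X-modules F and F'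
with F' Z-closed, and a homomorphism u : F → F', there is exactly one homomorphism v : H⁰_{X/Z}(F) →
F' with u = v ∘ ρ_{X/Z}. -/
theorem result (X : Scheme.{u}) [IsLocallyNoetherian X] (Z : Set X)
    (hZ : StableUnderSpecialization Z) (F F' : X.Modules) (hF' : ZClos.IsZClosed Z F') (u : F ⟶ F') :
    ∃! v : (ZClos.H0 Z).obj F ⟶ F', ZClos.rhoApp Z F ≫ v = u := by
  have hρ : IsIso (ZClos.rhoApp Z F') := hF'
  have hn := (ZClos.rho Z).naturality u
  simp only [Functor.id_map] at hn
  have hex : ZClos.rhoApp Z F ≫ (ZClos.H0 Z).map u ≫ inv (ZClos.rhoApp Z F') = u := by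
    rw [← Category.assoc, ← hn, Category.assoc, IsIso.hom_inv_id, Category.comp_id]
  refine ⟨(ZClos.H0 Z).map u ≫ inv (ZClos.rhoApp Z F'), hex, ?_⟩
  intro v hv
  exact uniq_aux X Z F F' hF' _ _ (hv.trans hex.symm)

end Groth.Agent.S5851
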