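import Groth.Statements.S6012
import Groth.Agent.Lib.Helper9.FibClv
-- import your own Groth.Agent.* helpers here

set_option autoImplicit false
open CategoryTheory
universe v₁ v₂ u₁ u₂
open FibCat FibCat.Cleavage

namespace Groth.Agent.S6012

/-- Let `K` be a cleavage of an arbitrary functor `p : 𝒳 ⥤ 𝒮` (one chosen cartesian lift of every base
morphism at every object over its target; `p` is not assumed fibred). Then `p` is a fibred category
(composites of cartesian morphisms are cartesian) if and only if, for all composable base morphisms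
`g : R ⟶ T` and `f : T ⟶ S`, the comparison natural transformation `c_{f,g}` from `g^* f^*` to
`(fg)^*` determined by `K` is an isomorphism. -/
theorem result (𝒮 : Type u₁) (𝒳 : Type u₂) [Category.{v₁} 𝒮] [Category.{v₂} 𝒳] (p : 𝒳 ⥤ 𝒮) (K : FibCat.Cleavage p) :
    p.IsFibered ↔ ∀ (R S T : 𝒮) (f : T ⟶ S) (g : R ⟶ T), IsIso (K.comp f g) := by
  constructor
  · intro hF R S T f g
    exact Groth.Agent.Lib.Helper9.FibClv.isIso_comp_of_isFibered K f g
  · intro H
    have := K.isPreFibered
    refine { comp := ?_ }
    intro R S T f g a b c φ ψ hφ hψ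
    set_option backward.isDefEq.respectTransparency false in
    have hb : p.obj b = S := IsHomLift.codomain_eq p f φ
    set_option backward.isDefEq.respectTransparency false in
    have hc : p.obj c = T := IsHomLift.codomain_eq p g ψ
    let e₁ := Functor.IsCartesian.domainUniqueUpToIso p g (K.lift hc g) ψ
    let e₂ := Functor.IsCartesian.domainUniqueUpToIso p f (K.lift hb f) φ
    have h₁ : e₁.hom ≫ K.lift hc g = ψ := by
      simp only [e₁, Functor.IsCartesian.domainUniqueUpToIso_hom, Functor.IsCartesian.fac]
    have h₂ : e₂.hom ≫ K.lift hb f = φ := by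
      simp only [e₂, Functor.IsCartesian.domainUniqueUpToIso_hom, Functor.IsCartesian.fac]
    let b' : p.Fiber S := ⟨b, hb⟩
    let b'' : p.Fiber S := ⟨K.obj hc g, K.obj_proj hc g⟩
    let c' : p.Fiber T := ⟨c, hc⟩
    let φ₁ : b' ⟶ b'' := Functor.Fiber.homMk p S e₁.hom
    have : IsIso φ₁ := Groth.Agent.Lib.Helper9.FibClv.fiber_isIso _
      (by simp only [φ₁, Functor.Fiber.fiberInclusion_homMk]; infer_instance)
    let m := (K.inverseImage f).map φ₁
    have hm : Functor.Fiber.fiberInclusion.map m ≫ K.lift b''.2 f = K.lift hb f ≫ e₁.hom := by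
      simp only [m, inverseImage_map, Functor.IsCartesian.fac]
      rfl
    let c₀ := (K.comp g f).app c'
    have hc₀ : Functor.Fiber.fiberInclusion.map c₀ ≫ K.lift hc (f ≫ g) =
        K.lift (K.obj_proj hc g) f ≫ K.lift hc g := by
      simp only [c₀, comp_app, Functor.IsCartesian.fac]
    have := H R T S g f
    let E := e₂.hom ≫ Functor.Fiber.fiberInclusion.map m ≫ Functor.Fiber.fiberInclusion.map c₀
    have hE : E ≫ K.lift hc (f ≫ g) = φ ≫ ψ := by
      simp only [E, Category.assoc, hc₀]
      rw [reassoc_of% hm, reassoc_of% h₂, h₁]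
    have : IsIso E := by simp only [E]; infer_instance
    have hEl : p.IsHomLift (𝟙 R) E := by simp only [E]; infer_instance
    have : p.IsHomLift (𝟙 R) (asIso E).hom := hEl
    rw [← hE]
    exact Functor.IsCartesian.of_iso_comp p (f ≫ g) (K.lift hc (f ≫ g)) (asIso E)

end Groth.Agent.S6012
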