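import Groth.Statements.S6015
-- import your own Groth.Agent.* helpers here

set_option autoImplicit false
open CategoryTheory
universe v₁ v₂ u₁ u₂
open FibCat FibCat.Cleavage

namespace Groth.Agent.S6015

theorem congr_lift {𝒮 : Type u₁} {𝒳 : Type u₂} [Category.{v₁} 𝒮] [Category.{v₂} 𝒳] {p : 𝒳 ⥤ 𝒮}
    (K : FibCat.Cleavage p) {R S : 𝒮} {f₁ f₂ : R ⟶ S} (h : f₁ = f₂) (a : p.Fiber S) :
    Functor.Fiber.fiberInclusion.map ((K.inverseImageCongr h).hom.app a) ≫ K.lift a.2 f₂ =
      K.lift a.2 f₁ := by
  subst h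
  simp [inverseImageCongr]

/-- Let `K` be a cleavage of an arbitrary functor `p : 𝒳 ⥤ 𝒮` (not assumed normalised, `p` not assumed
fibred), `f : T ⟶ S` a base morphism and `a` an object over `S`. Then the component at `a` of the
comparison morphism `c_{𝟙_S, f}` (from `f^* (𝟙_S)^*` to `(f ≫ 𝟙_S)^*`), followed by the
identification of the inverse images along `f ≫ 𝟙_S` and along `f`, is the image under `f^*` of the
chosen transport morphism of `𝟙_S` at `a`, the latter viewed as a morphism of the fibre over `S`. -/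
theorem result (𝒮 : Type u₁) (𝒳 : Type u₂) [Category.{v₁} 𝒮] [Category.{v₂} 𝒳] (p : 𝒳 ⥤ 𝒮) (K : FibCat.Cleavage p) (S T : 𝒮) (f : T ⟶ S) (a : p.Fiber S) :
    (K.comp (𝟙 S) f).app a ≫ (K.inverseImageCongr (Category.comp_id f)).hom.app a =
      (K.inverseImage f).map (Functor.Fiber.homMk p S (K.lift a.2 (𝟙 S))) := by
  set_option backward.isDefEq.respectTransparency false in
  apply Functor.Fiber.hom_ext
  set_option backward.isDefEq.respectTransparency false in
  apply Functor.IsCartesian.ext p f (K.lift a.2 f)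
  rw [Functor.map_comp, Category.assoc, congr_lift, comp_app, Functor.IsCartesian.fac,
    inverseImage_map, Functor.IsCartesian.fac, Functor.Fiber.fiberInclusion_homMk]

end Groth.Agent.S6015
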