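import Groth.Statements.S6018
-- import your own Groth.Agent.* helpers here

set_option autoImplicit false
open CategoryTheory
universe v₁ v₂ v₃ u₁ u₂ u₃
open FibCat FibCat.Cleavage

namespace Groth.Agent.S6018

/-- Let `K` be a cleavage of a functor `p : 𝒳 ⥤ 𝒮` (neither fibredness nor normalisation is assumed),
let `F, G : 𝒳 ⥤ C` be functors, and for every object `S` of the base let `u_S` be a natural
transformation between the restrictions of `F` and `G` to the fibre over `S`. If the family is
compatible with the transport morphisms `α_f(a) : f^* a ⟶ a` of `K`, i.e. `G(α_f(a)) ∘ u_T(f^* a) =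
u_S(a) ∘ F(α_f(a))` for every base morphism `f : T ⟶ S` and every `a` over `S`, then there is
exactly one natural transformation `F ⟶ G` whose component at every object is the prescribed one.
(The published statement is an isomorphism between the category of all functors `𝒳 ⥤ C` and the
category of compatible families of functors on the fibres of a normalised cloven category; this row
is its assertion on morphisms, whose published proof does not use the normalisation, so none is
assumed here.) -/
theorem result (𝒮 : Type u₁) (𝒳 : Type u₂) [Category.{v₁} 𝒮]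
    [Category.{v₂} 𝒳] (p : 𝒳 ⥤ 𝒮) (K : FibCat.Cleavage p) (C : Type u₃) [Category.{v₃} C] (F G : 𝒳 ⥤ C)
    (u : ∀ S : 𝒮, (Functor.Fiber.fiberInclusion ⋙ F : p.Fiber S ⥤ C) ⟶ Functor.Fiber.fiberInclusion ⋙ G)
    (hu : ∀ ⦃T S : 𝒮⦄ (f : T ⟶ S) (a : p.Fiber S),
      F.map ((K.transport f).app a) ≫ (u S).app a = (u T).app ((K.inverseImage f).obj a) ≫ G.map ((K.transport f).app a)) :
    ∃! v : F ⟶ G, ∀ (S : 𝒮) (a : p.Fiber S), v.app a.1 = (u S).app a := by
  have hv : ∀ (T : 𝒮) (z : 𝒳) (hz : p.obj z = T),
      (u (p.obj z)).app ⟨z, rfl⟩ = (u T).app ⟨z, hz⟩ := by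
    intro T z hz; subst hz; rfl
  let v : F ⟶ G :=
    { app := fun x => (u (p.obj x)).app ⟨x, rfl⟩
      naturality := by
        intro x y φ
        let f := p.map φ
        let a : p.Fiber (p.obj y) := ⟨y, rfl⟩
        let ψ := Functor.IsCartesian.map p f (K.lift a.2 f) φ
        have hψ : ψ ≫ K.lift a.2 f = φ := Functor.IsCartesian.fac p f (K.lift a.2 f) φ
        have nat := (u (p.obj x)).naturality (Functor.Fiber.homMk p (p.obj x) ψ)
        have h2 := hu f a
        simp only [Functor.comp_map, Functor.Fiber.fiberInclusion_homMk, transport_app] at nat h2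
        show F.map φ ≫ (u (p.obj y)).app a = (u (p.obj x)).app ⟨x, rfl⟩ ≫ G.map φ
        set_option backward.isDefEq.respectTransparency false in
        rw [← hψ, F.map_comp, G.map_comp, Category.assoc, h2, ← Category.assoc, ← Category.assoc]
        congr 1 }
  refine ⟨v, fun S a => hv S a.1 a.2, ?_⟩
  intro v' hv'
  ext x
  rw [hv' (p.obj x) ⟨x, rfl⟩]

end Groth.Agent.S6018
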