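import Groth.Statements.S6019
-- import your own Groth.Agent.* helpers here

set_option autoImplicit false
open CategoryTheory
universe v₁ v₂ u₁ u₂
open FibCat FibCat.Cleavage

namespace Groth.Agent.S6019

/-- A pre-fibred category admits a normalised cleavage: if every base morphism `R ⟶ p(a)` has a
cartesian morphism over it with target `a`, then one cartesian lift can be chosen for every base
morphism at every object over its target in such a way that the chosen lift of each identity `𝟙 S`
at each object `a` over `S` is the identity of `a` (identities are transport morphisms). -/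
theorem result (𝒮 : Type u₁) (𝒳 : Type u₂) [Category.{v₁} 𝒮] [Category.{v₂} 𝒳]
    (p : 𝒳 ⥤ 𝒮) [p.IsPreFibered] : ∃ K : FibCat.Cleavage p, K.IsNormalised := by
  classical
  let O : ∀ {R S : 𝒮} {a : 𝒳}, p.obj a = S → (R ⟶ S) → 𝒳 := fun {R S a} ha f =>
    if ∃ e : R = S, f = eqToHom e then a else Functor.IsPreFibered.pullbackObj ha f
  have ex : ∀ {R S : 𝒮} {a : 𝒳} (ha : p.obj a = S) (f : R ⟶ S), ∃ φ : O ha f ⟶ a,
      p.IsCartesian f φ ∧ ∀ (h : O ha f = a), (∃ e : R = S, f = eqToHom e) → φ = eqToHom h := by
    intro R S a ha f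
    by_cases c : ∃ e : R = S, f = eqToHom e
    · have ho : O ha f = a := if_pos c
      refine ⟨eqToHom ho, ?_, fun h _ => rfl⟩
      obtain ⟨e, hf⟩ := c
      subst e
      subst hf
      show p.IsCartesian (𝟙 R) (eqToHom ho)
      haveI : p.IsHomLift (𝟙 R) (eqToHom ho) :=
        IsHomLift.eqToHom_codomain_lift_id ho ha
      infer_instance
    · have ho : O ha f = Functor.IsPreFibered.pullbackObj ha f := if_neg c
      refine ⟨(eqToIso ho).hom ≫ Functor.IsPreFibered.pullbackMap ha f, ?_,
        fun h hc => absurd hc c⟩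
      haveI : p.IsHomLift (𝟙 R) (eqToIso ho).hom :=
        IsHomLift.eqToHom_codomain_lift_id ho (Functor.IsPreFibered.pullbackObj_proj ha f)
      infer_instance
  refine ⟨{ obj := fun ha f => O ha f
            lift := fun ha f => Classical.choose (ex ha f)
            isCartesian := fun ha f => (Classical.choose_spec (ex ha f)).1 }, ?_⟩
  intro S a ha
  have h : O ha (𝟙 S) = a := if_pos ⟨rfl, (eqToHom_refl _ _).symm⟩
  exact ⟨h, (Classical.choose_spec (ex ha (𝟙 S))).2 h ⟨rfl, (eqToHom_refl _ _).symm⟩⟩

end Groth.Agent.S6019
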