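import Groth.Statements.S6268
import Mathlib.LinearAlgebra.TensorProduct.Basic

set_option autoImplicit false
universe u
open CAlg

namespace Groth.Agent.S6268

/-- Suppose the structure map R → S of an R-algebra S is universally injective as an R-linear map. Then
tensoring with S detects injectivity and surjectivity of R-linear maps (and hence reflects
isomorphisms): for an R-linear g : M → N, if S ⊗ g is injective then so is g, and if S ⊗ g is
surjective then so is g. -/
theorem result {R S : Type u} [CommRing R] [CommRing S] [Algebra R S] (hS : CAlgX.UniversallyInjective R (Algebra.linearMap R S)) {M N : Type u} [AddCommGroup M] [Module R M] [AddCommGroup N] [Module R N] (g : M →ₗ[R] N) : (Function.Injective (g.lTensor S) → Function.Injective g) ∧ (Function.Surjective (g.lTensor S) → Function.Surjective g) := by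
  have inj : ∀ (Q : Type u) [AddCommGroup Q] [Module R Q],
      Function.Injective (fun q : Q => (1 : S) ⊗ₜ[R] q) := by
    intro Q _ _ a b h
    have h' : (Algebra.linearMap R S).rTensor Q ((1 : R) ⊗ₜ[R] a) =
        (Algebra.linearMap R S).rTensor Q ((1 : R) ⊗ₜ[R] b) := by
      simpa using h
    have := congrArg (TensorProduct.lid R Q) (hS Q h')
    simpa using this
  refine ⟨fun hinj m1 m2 h => inj M (hinj (by simp [h])), fun hsurj n => ?_⟩
  obtain ⟨x, hx⟩ := hsurj ((1 : S) ⊗ₜ[R] n)
  have h0 : (LinearMap.range g).mkQ.comp g = 0 := by
    ext m; simp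
  have key : (1 : S) ⊗ₜ[R] ((LinearMap.range g).mkQ n) =
      (1 : S) ⊗ₜ[R] (0 : N ⧸ LinearMap.range g) := by
    rw [TensorProduct.tmul_zero, ← LinearMap.lTensor_tmul, ← hx, ← LinearMap.comp_apply,
      ← LinearMap.lTensor_comp, h0, LinearMap.lTensor_zero, LinearMap.zero_apply]
  have := inj _ key
  simpa [Submodule.Quotient.mk_eq_zero] using this

end Groth.Agent.S6268
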