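import Groth.Statements.S6269
import Mathlib.RingTheory.Flat.Tensor

set_option autoImplicit false
universe u
open CAlg

namespace Groth.Agent.S6269

/-- Let 0 → M₁ → M₂ → M₃ → 0 be a universally exact sequence of R-modules (a short exact sequence whose
first map is universally injective) with M₂ flat. Then M₁ and M₃ are flat. -/
theorem result {R : Type u} [CommRing R] {M₁ M₂ M₃ : Type u} [AddCommGroup M₁] [Module R M₁] [AddCommGroup M₂] [Module R M₂] [AddCommGroup M₃] [Module R M₃] (f : M₁ →ₗ[R] M₂) (g : M₂ →ₗ[R] M₃) (hexact : Function.Exact f g) (hg : Function.Surjective g) (hf : CAlgX.UniversallyInjective R f) [Module.Flat R M₂] : Module.Flat R M₁ ∧ Module.Flat R M₃ := by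
  have comm : ∀ {P P' A B : Type u} [AddCommGroup P] [Module R P] [AddCommGroup P'] [Module R P']
      [AddCommGroup A] [Module R A] [AddCommGroup B] [Module R B] (u : P →ₗ[R] P')
      (v : A →ₗ[R] B) (x : TensorProduct R P A),
      u.rTensor B (v.lTensor P x) = v.lTensor P' (u.rTensor A x) := by
    intro P P' A B _ _ _ _ _ _ _ _ u v x
    rw [← LinearMap.comp_apply, ← LinearMap.comp_apply, LinearMap.rTensor_comp_lTensor,
      LinearMap.lTensor_comp_rTensor]
  constructor
  · rw [Module.Flat.iff_lTensor_injective']
    intro I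
    have h2 : Function.Injective (I.subtype.lTensor M₂) :=
      Module.Flat.lTensor_preserves_injective_linearMap _ I.injective_subtype
    intro x y hxy
    apply hf I
    apply h2
    rw [← comm, ← comm, hxy]
  · rw [Module.Flat.iff_lTensor_injective']
    intro I
    refine (injective_iff_map_eq_zero _).mpr fun z hz => ?_
    have hgI : Function.Surjective (g.rTensor I) := LinearMap.rTensor_surjective _ hg
    obtain ⟨y, rfl⟩ := hgI z
    have hexR : Function.Exact (f.rTensor R) (g.rTensor R) := rTensor_exact R hexact hg
    have hexI : Function.Exact (f.rTensor I) (g.rTensor I) := rTensor_exact I hexact hg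
    have hb : Function.Injective (I.subtype.lTensor M₂) :=
      Module.Flat.lTensor_preserves_injective_linearMap _ I.injective_subtype
    have h1 : g.rTensor R (I.subtype.lTensor M₂ y) = 0 := by rw [comm, hz]
    obtain ⟨x, hx⟩ := (hexR _).mp h1
    have hexQ1 : Function.Exact (I.subtype.lTensor M₁) (I.mkQ.lTensor M₁) :=
      lTensor_exact M₁ (LinearMap.exact_subtype_mkQ I) (Submodule.mkQ_surjective I)
    have hexQ2 : Function.Exact (I.subtype.lTensor M₂) (I.mkQ.lTensor M₂) :=
      lTensor_exact M₂ (LinearMap.exact_subtype_mkQ I) (Submodule.mkQ_surjective I)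
    have h3 : I.mkQ.lTensor M₁ x = 0 := by
      apply hf (R ⧸ I)
      rw [map_zero, comm, hx]
      exact hexQ2.apply_apply_eq_zero y
    obtain ⟨x', rfl⟩ := (hexQ1 x).mp h3
    have h4 : y = f.rTensor I x' := by
      apply hb
      rw [← comm, hx]
    rw [h4]
    exact hexI.apply_apply_eq_zero x'

end Groth.Agent.S6269
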