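import Groth.Statements.S6273
import Mathlib.RingTheory.Spectrum.Prime.Topology
import Mathlib.RingTheory.Localization.Ideal

set_option autoImplicit false
universe u
open CAlg

namespace Groth.Agent.S6273

/-- Let R be a ring, S ⊆ R a multiplicative subset and A = S⁻¹R. If the image of Spec(A) → Spec(R) is
closed, then the localization map R → A is surjective; in particular A is isomorphic to R/I for the
ideal I = ker(R → A). -/
theorem result {R : Type u} [CommRing R] (S : Submonoid R) (A : Type u) [CommRing A] [Algebra R A] [IsLocalization S A] (hcl : IsClosed (Set.range (PrimeSpectrum.comap (algebraMap R A)))) : Function.Surjective (algebraMap R A) := by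
  have hrange : Set.range (PrimeSpectrum.comap (algebraMap R A)) =
      PrimeSpectrum.zeroLocus (RingHom.ker (algebraMap R A)) := by
    rw [← PrimeSpectrum.closure_range_comap, hcl.closure_eq]
  have key : ∀ s ∈ S, ∃ r : R, algebraMap R A (r * s) = 1 := by
    intro s hs
    by_contra hne
    have hne' : Ideal.span {s} ⊔ RingHom.ker (algebraMap R A) ≠ ⊤ := by
      intro htop
      rw [Ideal.eq_top_iff_one, Submodule.mem_sup] at htop
      obtain ⟨a, ha, k, hk, hak⟩ := htop
      obtain ⟨r, rfl⟩ := Ideal.mem_span_singleton'.mp ha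
      apply hne ⟨r, ?_⟩
      have : algebraMap R A (r * s + k) = 1 := by rw [hak, map_one]
      rwa [map_add, RingHom.mem_ker.mp hk, add_zero] at this
    obtain ⟨m, hm, hle⟩ := Ideal.exists_le_maximal _ hne'
    have hmem : (⟨m, hm.isPrime⟩ : PrimeSpectrum R) ∈
        PrimeSpectrum.zeroLocus (RingHom.ker (algebraMap R A)) := by
      show (RingHom.ker (algebraMap R A) : Set R) ⊆ m
      exact fun x hx => hle (Ideal.mem_sup_right hx)
    rw [← hrange] at hmem
    obtain ⟨P, hP⟩ := hmem
    have hsm : s ∈ m := hle (Ideal.mem_sup_left (Ideal.mem_span_singleton_self s))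
    have hs' : s ∈ (PrimeSpectrum.comap (algebraMap R A) P).asIdeal := by rw [hP]; exact hsm
    have hu : IsUnit (algebraMap R A s) := IsLocalization.map_units A ⟨s, hs⟩
    exact P.isPrime.ne_top (Ideal.eq_top_of_isUnit_mem _ hs' hu)
  intro a
  obtain ⟨⟨x, s⟩, rfl⟩ := IsLocalization.mk'_surjective S a
  obtain ⟨r, hr⟩ := key s s.2
  refine ⟨x * r, IsLocalization.eq_mk'_iff_mul_eq.mpr ?_⟩
  rw [← map_mul, mul_assoc, map_mul, hr, mul_one]

end Groth.Agent.S6273
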