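import Groth.Statements.S6275
import Mathlib.RingTheory.Localization.AtPrime.Basic
import Mathlib.RingTheory.Localization.Away.Basic
import Mathlib.RingTheory.Noetherian.Basic

set_option autoImplicit false
universe u
open CAlg

namespace Groth.Agent.S6275

/-- Let R be a Noetherian ring and p ⊆ R a prime. Then there is f ∈ R, f ∉ p, such that R_f → R_p is
injective; equivalently every x ∈ R mapping to zero in R_p maps to zero in R_f. (The cases of a
domain and of a reduced ring with finitely many minimal primes are not included here.) -/
theorem result {R : Type u} [CommRing R] [IsNoetherianRing R] (p : Ideal R) [p.IsPrime] : ∃ f : R, f ∉ p ∧ ∀ x : R, algebraMap R (Localization.AtPrime p) x = 0 → algebraMap R (Localization.Away f) x = 0 := by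
  classical
  obtain ⟨s, hs⟩ := (IsNoetherian.noetherian (RingHom.ker (algebraMap R (Localization.AtPrime p))))
  have hx : ∀ x ∈ s, ∃ m : p.primeCompl, (m : R) * x = 0 := by
    intro x hxs
    have : x ∈ RingHom.ker (algebraMap R (Localization.AtPrime p)) := hs ▸ Submodule.subset_span hxs
    rw [RingHom.mem_ker, IsLocalization.map_eq_zero_iff p.primeCompl] at this
    exact this
  choose! m hm using hx
  let f : R := ∏ x ∈ s, (m x : R)
  have hf : f ∈ p.primeCompl := Submonoid.prod_mem _ (fun x _ => (m x).2)
  refine ⟨f, hf, fun x hx0 => ?_⟩
  have hxk : x ∈ RingHom.ker (algebraMap R (Localization.AtPrime p)) := hx0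
  clear hx0
  rw [← hs] at hxk
  have hfx : f * x = 0 := by
    induction hxk using Submodule.span_induction with
    | mem y hy =>
      simp only [f]
      rw [← Finset.prod_erase_mul s (fun x => (m x : R)) hy, mul_assoc, hm y hy, mul_zero]
    | zero => simp
    | add y z _ _ hy hz => rw [mul_add, hy, hz, add_zero]
    | smul a y _ hy => rw [smul_eq_mul, mul_left_comm, hy, mul_zero]
  rw [IsLocalization.map_eq_zero_iff (Submonoid.powers f)]
  exact ⟨⟨f, Submonoid.mem_powers f⟩, hfx⟩

end Groth.Agent.S6275
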