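import Groth.Statements.S6277
import Mathlib.RingTheory.Noetherian.Basic
import Mathlib.Order.OrderIsoNat

set_option autoImplicit false
universe u
open CAlg

namespace Groth.Agent.S6277

/-- Any surjective ring endomorphism of a Noetherian ring is an isomorphism (bijective). -/
theorem result {R : Type u} [CommRing R] [IsNoetherianRing R] (f : R →+* R) (hf : Function.Surjective f) : Function.Bijective f := by
  refine ⟨?_, hf⟩
  have hmono : Monotone (fun n : ℕ => RingHom.ker (f ^ n)) := by
    apply monotone_nat_of_le_succ
    intro n x hx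
    rw [RingHom.mem_ker] at hx ⊢
    rw [pow_succ', RingHom.mul_def, RingHom.comp_apply, hx, map_zero]
  have hsurj : ∀ m : ℕ, Function.Surjective (f ^ m) := by
    intro m
    induction m with
    | zero => exact fun x => ⟨x, rfl⟩
    | succ k ih =>
      rw [pow_succ', RingHom.mul_def, RingHom.coe_comp]
      exact hf.comp ih
  obtain ⟨n, hn⟩ := (monotone_stabilizes_iff_noetherian (R := R) (M := R)).mpr inferInstance
    ⟨fun n => RingHom.ker (f ^ n), hmono⟩
  rw [injective_iff_map_eq_zero]
  intro x hx
  obtain ⟨y, rfl⟩ := hsurj n x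
  have hy : y ∈ RingHom.ker (f ^ (n + 1)) := by
    rw [RingHom.mem_ker, pow_succ', RingHom.mul_def, RingHom.comp_apply, hx]
  have := hn (n + 1) (Nat.le_succ n)
  simp only [OrderHom.coe_mk] at this
  rw [← this] at hy
  exact hy
end Groth.Agent.S6277
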