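import Groth.Statements.S6281
-- import your own Groth.Agent.* helpers here

set_option autoImplicit false
universe u
open CAlg

namespace Groth.Agent.S6281

/-- For an R-algebra S and an S-module M, flatness of S over R follows once M is both flat over R and
faithfully flat over S. -/
theorem result {R S : Type u} [CommRing R] [CommRing S] [Algebra R S] (M : Type u) [AddCommGroup M] [Module S M] [Module R M] [IsScalarTower R S M] [Module.Flat R M] [Module.FaithfullyFlat S M] : Module.Flat R S := by
  rw [Module.Flat.iff_lTensor_preserves_injective_linearMap]
  intro N N' _ _ _ _ f hf
  have h1 : Function.Injective (f.lTensor M) :=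
    Module.Flat.lTensor_preserves_injective_linearMap f hf
  let g : TensorProduct R S N →ₗ[S] TensorProduct R S N' :=
    TensorProduct.AlgebraTensorModule.lTensor S S f
  have h2 : Function.Injective (g.lTensor M) := by
    have key := TensorProduct.AlgebraTensorModule.lTensor_comp_cancelBaseChange R S S
      (M := M) (N := N) (Q := N') f
    have h3 : Function.Injective
        ((TensorProduct.AlgebraTensorModule.cancelBaseChange R S S M N').toLinearMap ∘ₗ
          TensorProduct.AlgebraTensorModule.lTensor S M g) := by
      rw [← key, LinearMap.coe_comp]
      exact h1.comp (TensorProduct.AlgebraTensorModule.cancelBaseChange R S S M N).injective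
    rw [LinearMap.coe_comp] at h3
    exact Function.Injective.of_comp h3
  have h4 : Function.Injective g :=
    (Module.FaithfullyFlat.lTensor_injective_iff_injective S M g).mp h2
  exact h4

end Groth.Agent.S6281
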