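import Groth.Statements.S6287
import Mathlib.Algebra.Colimit.Ring
import Mathlib.RingTheory.Valuation.ValuationRing

set_option autoImplicit false
universe u
open CAlg

namespace Groth.Agent.S6287

/-- Let (A_i) be a directed system of valuation rings. Then the colimit A = colim A_i is a valuation
ring (in particular a domain). -/
theorem result {ι : Type u} [Preorder ι] [Nonempty ι] [IsDirected ι (· ≤ ·)] (G : ι → Type u) [∀ i, CommRing (G i)] [∀ i, IsDomain (G i)] [∀ i, ValuationRing (G i)] (f : ∀ i j, i ≤ j → G i →+* G j) [DirectedSystem G fun i j h => f i j h] : ∃ _ : IsDomain (Ring.DirectLimit G fun i j h => f i j h), ValuationRing (Ring.DirectLimit G fun i j h => f i j h) := by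
  have two : ∀ x y : Ring.DirectLimit G (fun i j h => f i j h), ∃ k a b,
      x = Ring.DirectLimit.of G (fun i j h => f i j h) k a ∧
      y = Ring.DirectLimit.of G (fun i j h => f i j h) k b := by
    intro x y
    obtain ⟨i, a, rfl⟩ := Ring.DirectLimit.exists_of x
    obtain ⟨j, b, rfl⟩ := Ring.DirectLimit.exists_of y
    obtain ⟨k, hik, hjk⟩ := directed_of (· ≤ ·) i j
    exact ⟨k, f i k hik a, f j k hjk b, (Ring.DirectLimit.of_f hik a).symm,
      (Ring.DirectLimit.of_f hjk b).symm⟩
  have hnt : Nontrivial (Ring.DirectLimit G (fun i j h => f i j h)) := by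
    obtain ⟨i⟩ := (inferInstance : Nonempty ι)
    refine ⟨⟨0, 1, ?_⟩⟩
    rw [← (Ring.DirectLimit.of G (fun i j h => f i j h) i).map_one]
    intro H
    obtain ⟨j, hij, hf⟩ := Ring.DirectLimit.of.zero_exact H.symm
    rw [(f i j hij).map_one] at hf
    exact one_ne_zero hf
  have hnzd : NoZeroDivisors (Ring.DirectLimit G (fun i j h => f i j h)) := by
    refine ⟨fun {x y} hxy => ?_⟩
    obtain ⟨k, a, b, rfl, rfl⟩ := two x y
    rw [← map_mul] at hxy
    obtain ⟨j, hkj, hj⟩ := Ring.DirectLimit.of.zero_exact hxy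
    rw [map_mul] at hj
    rcases mul_eq_zero.mp hj with h | h
    · left
      rw [← Ring.DirectLimit.of_f hkj a, h, map_zero]
    · right
      rw [← Ring.DirectLimit.of_f hkj b, h, map_zero]
  have hdom : IsDomain (Ring.DirectLimit G (fun i j h => f i j h)) :=
    NoZeroDivisors.to_isDomain _
  refine ⟨hdom, ?_⟩
  rw [ValuationRing.iff_dvd_total]
  constructor
  intro x y
  obtain ⟨k, a, b, rfl, rfl⟩ := two x y
  rcases (ValuationRing.iff_dvd_total.mp (inferInstance : ValuationRing (G k))).total a b with h | h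
  · exact Or.inl (map_dvd _ h)
  · exact Or.inr (map_dvd _ h)

end Groth.Agent.S6287
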