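import Groth.Statements.S6288
import Mathlib.RingTheory.Valuation.LocalSubring
import Mathlib.RingTheory.Algebraic.Integral

set_option autoImplicit false
universe u
open CAlg

namespace Groth.Agent.S6288

/-- Let L/K be an algebraic extension of fields and B ⊆ L a valuation ring with fraction field L which
is not a field. Then A = K ∩ B is a valuation ring of K (automatic) which is again not a field, i.e.
A ≠ K. -/
theorem result (K L : Type u) [Field K] [Field L] [Algebra K L] [Algebra.IsAlgebraic K L] (B : ValuationSubring L) (hB : B ≠ ⊤) : B.comap (algebraMap K L) ≠ ⊤ := by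
  intro htop
  apply hB
  rw [eq_top_iff]
  intro x _
  have hK : ∀ k : K, algebraMap K L k ∈ B := fun k => by
    have : k ∈ B.comap (algebraMap K L) := by rw [htop]; exact ValuationSubring.mem_top _
    exact this
  have hxK : IsIntegral K x := Algebra.IsIntegral.isIntegral x
  obtain ⟨p, hpm, hpx⟩ := hxK
  let φ : K →+* B := (algebraMap K L).codRestrict B.toSubring hK
  have hφ : (algebraMap B L).comp φ = algebraMap K L := by
    ext k; rfl
  have hxB : IsIntegral B x := by
    refine ⟨p.map φ, hpm.map φ, ?_⟩
    rw [Polynomial.eval₂_map, hφ]
    exact hpx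
  obtain ⟨y, hy⟩ := IsIntegrallyClosed.isIntegral_iff.mp hxB
  rw [← hy]
  exact y.2

end Groth.Agent.S6288
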