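import Groth.Statements.S6289
-- import your own Groth.Agent.* helpers here

set_option autoImplicit false
universe u
open CAlg

namespace Groth.Agent.S6289

/-- Let A' be a valuation ring with residue field K and A ⊆ K a valuation ring with fraction field K.
Then the subring C of A' consisting of the elements whose residue class lies in A is a valuation
ring. -/
theorem result (A' : Type u) [CommRing A'] [IsDomain A'] [ValuationRing A'] (A : ValuationSubring (IsLocalRing.ResidueField A')) : ValuationRing (A.toSubring.comap (IsLocalRing.residue A')) := by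
  have key : ∀ a b : A.toSubring.comap (IsLocalRing.residue A'), (a : A') ∣ (b : A') →
      a ∣ b ∨ b ∣ a := by
    rintro a b ⟨c, hc⟩
    by_cases hcu : IsUnit c
    · rcases A.mem_or_inv_mem (IsLocalRing.residue A' c) with h | h
      · left; exact ⟨⟨c, h⟩, Subtype.ext hc⟩
      · right
        obtain ⟨u, rfl⟩ := hcu
        refine ⟨⟨((u⁻¹ : A'ˣ) : A'), ?_⟩, Subtype.ext ?_⟩
        · show IsLocalRing.residue A' ((u⁻¹ : A'ˣ) : A') ∈ A
          rw [map_units_inv]
          exact h
        · simp [hc, mul_assoc]
    · left
      refine ⟨⟨c, ?_⟩, Subtype.ext hc⟩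
      show IsLocalRing.residue A' c ∈ A
      rw [(IsLocalRing.residue_eq_zero_iff c).mpr ((IsLocalRing.mem_maximalIdeal c).mpr hcu)]
      exact A.zero_mem
  rw [ValuationRing.iff_dvd_total]
  constructor
  intro a b
  rcases (ValuationRing.iff_dvd_total.mp (inferInstance : ValuationRing A')).total (a : A') (b : A')
    with h | h
  · exact key a b h
  · exact (key b a h).symm

end Groth.Agent.S6289
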