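import Groth.Statements.S6290
import Mathlib.RingTheory.Filtration

set_option autoImplicit false
universe u
open CAlg

namespace Groth.Agent.S6290

/-- Let R be a Noetherian ring, I ⊆ R an ideal, M a finite R-module and N = ⋂ₙ IⁿM. Then for every prime
p ⊇ I there is f ∈ R, f ∉ p, with N_f = 0, i.e. every element of N is annihilated by some power of
f. -/
theorem result {R : Type u} [CommRing R] [IsNoetherianRing R] (I : Ideal R) (M : Type u) [AddCommGroup M] [Module R M] [Module.Finite R M] (p : Ideal R) [p.IsPrime] (hIp : I ≤ p) : ∃ f : R, f ∉ p ∧ ∀ x ∈ (⨅ n : ℕ, I ^ n • (⊤ : Submodule R M)), ∃ k : ℕ, f ^ k • x = 0 := by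
  let N := (⨅ i : ℕ, I ^ i • ⊤ : Submodule R M)
  have hN : ∀ k, (I.stableFiltration ⊤ ⊓ I.trivialFiltration N).N k = N :=
    fun k => inf_eq_right.mpr ((iInf_le _ k).trans <| le_of_eq <| by simp)
  obtain ⟨r, hr₁, hr₂⟩ :=
    Submodule.exists_mem_and_smul_eq_self_of_fg_of_le_smul I N (IsNoetherian.noetherian N) (by
      obtain ⟨k, hk⟩ := (I.stableFiltration_stable ⊤).inter_right (I.trivialFiltration N)
      have := hk k (le_refl _)
      rw [hN, hN] at this
      exact le_of_eq this.symm)
  refine ⟨1 - r, ?_, fun x hx => ⟨1, ?_⟩⟩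
  · intro h
    have h1 : (1 : R) ∈ p := by
      have := p.add_mem h (hIp hr₁)
      simpa using this
    exact (Ideal.IsPrime.ne_top ‹_›) ((Ideal.eq_top_iff_one _).mpr h1)
  · rw [pow_one, sub_smul, one_smul, hr₂ x hx, sub_self]

end Groth.Agent.S6290
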