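import Groth.Statements.S6291
import Mathlib.RingTheory.FiniteLength
import Mathlib.RingTheory.Nakayama
import Mathlib.RingTheory.LocalRing.MaximalIdeal.Basic

set_option autoImplicit false
universe u
open CAlg

namespace Groth.Agent.S6291

/-- Let R be a local ring with maximal ideal m and M an R-module of finite length. Then mⁿM = 0 for some
n. -/
theorem result {R : Type u} [CommRing R] [IsLocalRing R] (M : Type u) [AddCommGroup M] [Module R M] (hM : IsFiniteLength R M) : ∃ n : ℕ, (IsLocalRing.maximalIdeal R) ^ n • (⊤ : Submodule R M) = ⊥ := by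
  obtain ⟨hNoeth, hArt⟩ := isFiniteLength_iff_isNoetherian_isArtinian.mp hM
  let m := IsLocalRing.maximalIdeal R
  let F : ℕ →o (Submodule R M)ᵒᵈ := ⟨fun n => OrderDual.toDual (m ^ n • (⊤ : Submodule R M)),
    fun a b hab => Submodule.smul_mono_left (Ideal.pow_le_pow_right hab)⟩
  obtain ⟨n, hn⟩ := IsArtinian.monotone_stabilizes F
  refine ⟨n, ?_⟩
  have h1 : m ^ n • (⊤ : Submodule R M) = m ^ (n + 1) • (⊤ : Submodule R M) := hn (n + 1) (by omega)
  have hle : m ^ n • (⊤ : Submodule R M) ≤ m • (m ^ n • (⊤ : Submodule R M)) := by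
    rw [← Submodule.mul_smul, ← pow_succ', ← h1]
  apply Submodule.eq_bot_of_le_smul_of_le_jacobson_bot m _ (IsNoetherian.noetherian _) hle
  rw [IsLocalRing.jacobson_eq_maximalIdeal ⊥ bot_ne_top]

end Groth.Agent.S6291
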