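import Groth.Statements.S6292
import Mathlib.RingTheory.FiniteLength
import Mathlib.RingTheory.Ideal.Quotient.Operations
import Mathlib.Algebra.Module.Torsion.Basic
import Mathlib.RingTheory.Finiteness.Ideal
import Mathlib.RingTheory.Artinian.Module
import Mathlib.RingTheory.Noetherian.Basic
import Mathlib.LinearAlgebra.FiniteDimensional.Defs

set_option autoImplicit false
universe u
open CAlg

namespace Groth.Agent.S6292

/-- Let R be a ring and m ⊆ R a finitely generated maximal ideal (for instance R Noetherian). If M is a
finite R-module with mⁿM = 0 for some n, then M has finite length. -/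
theorem result {R : Type u} [CommRing R] (m : Ideal R) [m.IsMaximal] (hm : m.FG) (M : Type u) [AddCommGroup M] [Module R M] [Module.Finite R M] (n : ℕ) (hn : m ^ n • (⊤ : Submodule R M) = ⊥) : IsFiniteLength R M := by
  rw [isFiniteLength_iff_isNoetherian_isArtinian]
  let _ : Field (R ⧸ m) := Ideal.Quotient.field m
  -- a finite R-module killed by m is Noetherian and Artinian
  have killed : ∀ (Q : Type u) [AddCommGroup Q] [Module R Q] [Module.Finite R Q],
      IsNoetherian R (Q ⧸ m • (⊤ : Submodule R Q)) ∧ IsArtinian R (Q ⧸ m • (⊤ : Submodule R Q)) := by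
    intro Q _ _ _
    have hfin : Module.Finite (R ⧸ m) (Q ⧸ m • (⊤ : Submodule R Q)) :=
      Module.Finite.of_restrictScalars_finite R _ _
    let l : (Q ⧸ m • (⊤ : Submodule R Q)) →ₛₗ[Ideal.Quotient.mk m] (Q ⧸ m • (⊤ : Submodule R Q)) :=
      { toFun := id
        map_add' := fun _ _ => rfl
        map_smul' := fun r x => by
          simp only [id]
          exact (IsScalarTower.algebraMap_smul (R ⧸ m) r x).symm }
    have hl : Function.Bijective l := ⟨fun _ _ h => h, fun x => ⟨x, rfl⟩⟩
    exact ⟨(LinearMap.isNoetherian_iff_of_bijective l hl).mpr inferInstance,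
      (LinearMap.isArtinian_iff_of_bijective l hl).mpr inferInstance⟩
  induction n generalizing M with
  | zero =>
    rw [pow_zero, Ideal.one_eq_top, Submodule.top_smul] at hn
    have : Subsingleton M := by
      refine ⟨fun a b => ?_⟩
      have ha : a ∈ (⊤ : Submodule R M) := Submodule.mem_top
      have hb : b ∈ (⊤ : Submodule R M) := Submodule.mem_top
      rw [hn] at ha hb
      rw [(Submodule.mem_bot R).mp ha, (Submodule.mem_bot R).mp hb]
    exact ⟨inferInstance, inferInstance⟩
  | succ n ih =>
    let N : Submodule R M := m • ⊤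
    have hNfg : N.FG := Submodule.FG.smul hm (Module.Finite.fg_top)
    have : Module.Finite R N := Module.Finite.iff_fg.mpr hNfg
    have hN : m ^ n • (⊤ : Submodule R N) = ⊥ := by
      apply Submodule.map_injective_of_injective N.injective_subtype
      rw [Submodule.map_smul'', Submodule.map_subtype_top, Submodule.map_bot]
      show m ^ n • m • (⊤ : Submodule R M) = ⊥
      rw [← Submodule.mul_smul, ← pow_succ, hn]
    obtain ⟨h1, h2⟩ := ih N hN
    obtain ⟨h3, h4⟩ := killed M
    refine ⟨isNoetherian_of_range_eq_ker N.subtype N.mkQ ?_,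
      isArtinian_of_range_eq_ker N.subtype N.mkQ ?_⟩ <;>
    rw [Submodule.range_subtype, Submodule.ker_mkQ]

end Groth.Agent.S6292
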