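import Groth.Statements.S6293
import Mathlib.LinearAlgebra.Contraction

set_option autoImplicit false
universe u
open CAlg

namespace Groth.Agent.S6293

/-- Let R be a ring and L, M, N R-modules. If M is finite projective, then the natural map from Hom_R(M,
N) ⊗_R L to Hom_R(M, N ⊗_R L) is bijective. -/
theorem result (R : Type u) [CommRing R] (L M N : Type u) [AddCommGroup L] [Module R L] [AddCommGroup M] [Module R M] [AddCommGroup N] [Module R N] [Module.Finite R M] [Module.Projective R M] : Function.Bijective (TensorProduct.rTensorHomToHomRTensor (RingHom.id R) M N L) := by
  have h := (rTensorHomEquivHomRTensor R M N L).bijective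
  have e : ⇑(rTensorHomEquivHomRTensor R M N L) =
      ⇑(TensorProduct.rTensorHomToHomRTensor (RingHom.id R) M N L) := by
    funext x
    exact rTensorHomEquivHomRTensor_apply x
  rwa [e] at h

end Groth.Agent.S6293
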