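import Groth.Statements.S6295
import Mathlib.RingTheory.Ideal.MinimalPrime.Localization
import Mathlib.RingTheory.Nilpotent.Lemmas
import Mathlib.RingTheory.LocalProperties.Reduced
import Mathlib.RingTheory.LocalRing.MaximalIdeal.Basic

set_option autoImplicit false
universe u
open CAlg

namespace Groth.Agent.S6295

/-- Let R be a reduced ring. Then every localization R_p at a minimal prime p is a field and the map R →
∏_{p minimal} R_p is injective (so R is a subring of a product of fields); moreover the set of
zerodivisors of R is the union of the minimal primes. -/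
theorem result (R : Type u) [CommRing R] [IsReduced R] : (∀ p : PrimeSpectrum R, p.asIdeal ∈ minimalPrimes R → IsField (Localization.AtPrime p.asIdeal)) ∧ Function.Injective (algebraMap R (∀ p : {p : PrimeSpectrum R // p.asIdeal ∈ minimalPrimes R}, Localization.AtPrime p.1.asIdeal)) ∧ (∀ x : R, x ∉ nonZeroDivisors R ↔ ∃ p ∈ minimalPrimes R, x ∈ p) := by
  have hzero : sInf (minimalPrimes R) = (⊥ : Ideal R) := by
    rw [minimalPrimes, Ideal.sInf_minimalPrimes]
    exact nilradical_eq_zero R
  have hnot : ∀ y : R, y ≠ 0 → ∃ p ∈ minimalPrimes R, y ∉ p := by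
    intro y hy
    by_contra h
    simp only [not_exists, not_and, not_not] at h
    apply hy
    have : y ∈ sInf (minimalPrimes R) := Submodule.mem_sInf.mpr h
    rw [hzero] at this
    exact this
  refine ⟨?_, ?_, ?_⟩
  · intro p hp
    have hsub := IsLocalization.subsingleton_primeSpectrum_of_mem_minimalPrimes p.asIdeal hp
      (Localization.AtPrime p.asIdeal)
    rw [IsLocalRing.isField_iff_maximalIdeal_eq]
    apply le_antisymm _ bot_le
    have h0 : nilradical (Localization.AtPrime p.asIdeal) = ⊥ := nilradical_eq_zero _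
    rw [← h0, nilradical_eq_sInf]
    apply le_sInf
    intro J hJ
    have : (⟨J, hJ⟩ : PrimeSpectrum _) = ⟨IsLocalRing.maximalIdeal _, inferInstance⟩ :=
      Subsingleton.elim _ _
    rw [show J = IsLocalRing.maximalIdeal _ from congrArg PrimeSpectrum.asIdeal this]
  · rw [injective_iff_map_eq_zero]
    intro x hx
    by_contra hx0
    obtain ⟨p, hp, hxp⟩ := hnot x hx0
    have := congrFun hx ⟨⟨p, hp.1.1⟩, hp⟩
    simp only [Pi.algebraMap_apply, Pi.zero_apply] at this
    have hp' : p.IsPrime := hp.1.1
    rw [IsLocalization.map_eq_zero_iff p.primeCompl] at this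
    obtain ⟨⟨s, hs⟩, hsx⟩ := this
    exact hxp ((hp.1.1.mem_or_mem (by rw [hsx]; exact p.zero_mem)).resolve_left hs)
  · intro x
    constructor
    · intro hx
      rw [mem_nonZeroDivisors_iff_right] at hx
      simp only [not_forall] at hx
      obtain ⟨y, hyx, hy⟩ := hx
      obtain ⟨p, hp, hyp⟩ := hnot y hy
      exact ⟨p, hp, (hp.1.1.mem_or_mem (by rw [hyx]; exact p.zero_mem)).resolve_left hyp⟩
    · rintro ⟨p, hp, hxp⟩
      exact notMem_nonZeroDivisors_of_mem_mem_minimalPrimes hxp hp

end Groth.Agent.S6295
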