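import Groth.Statements.S6296
import Mathlib.RingTheory.Nakayama
import Mathlib.RingTheory.LocalRing.ResidueField.Basic
import Mathlib.RingTheory.LocalRing.MaximalIdeal.Basic
import Mathlib.RingTheory.Ideal.Maps

set_option autoImplicit false
universe u
open CAlg

namespace Groth.Agent.S6296

/-- Let A → B be a local homomorphism of local rings such that (1) B is a finite A-module, (2) the
maximal ideal m_B is finitely generated, (3) the induced map of residue fields is an isomorphism,
and (4) m_A/m_A² → m_B/m_B² is surjective, i.e. m_B ⊆ m_A B + m_B². Then A → B is surjective. -/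
theorem result {A B : Type u} [CommRing A] [CommRing B] [IsLocalRing A] [IsLocalRing B] [Algebra A B] [IsLocalHom (algebraMap A B)] [Module.Finite A B] (hfg : (IsLocalRing.maximalIdeal B).FG) (hres : Function.Surjective (IsLocalRing.ResidueField.map (algebraMap A B))) (hcot : IsLocalRing.maximalIdeal B ≤ (IsLocalRing.maximalIdeal A).map (algebraMap A B) ⊔ (IsLocalRing.maximalIdeal B) ^ 2) : Function.Surjective (algebraMap A B) := by
  have hmB : IsLocalRing.maximalIdeal B ≤ (IsLocalRing.maximalIdeal A).map (algebraMap A B) := by
    apply Submodule.le_of_le_smul_of_le_jacobson_bot (I := IsLocalRing.maximalIdeal B) hfg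
    · rw [IsLocalRing.jacobson_eq_maximalIdeal ⊥ bot_ne_top]
    · rw [Ideal.smul_eq_mul, ← pow_two]
      exact hcot
  have htop : (⊤ : Submodule A B) ≤ LinearMap.range (Algebra.linearMap A B) := by
    apply Submodule.le_of_le_smul_of_le_jacobson_bot (I := IsLocalRing.maximalIdeal A)
      Module.Finite.fg_top
    · rw [IsLocalRing.jacobson_eq_maximalIdeal ⊥ bot_ne_top]
    · intro b _
      obtain ⟨a', ha'⟩ := hres (IsLocalRing.residue B b)
      obtain ⟨a, rfl⟩ := IsLocalRing.residue_surjective a'
      rw [IsLocalRing.ResidueField.map_residue] at ha'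
      have hmem : b - algebraMap A B a ∈ IsLocalRing.maximalIdeal B := by
        rw [← IsLocalRing.residue_eq_zero_iff, map_sub, ha', sub_self]
      have hmem' : b - algebraMap A B a ∈ IsLocalRing.maximalIdeal A • (⊤ : Submodule A B) := by
        rw [Ideal.smul_top_eq_map]
        exact hmB hmem
      have : b = algebraMap A B a + (b - algebraMap A B a) := by abel
      rw [this]
      exact Submodule.add_mem_sup ⟨a, rfl⟩ hmem'
  intro b
  obtain ⟨a, ha⟩ := htop (Submodule.mem_top : b ∈ ⊤)
  exact ⟨a, ha⟩

end Groth.Agent.S6296
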