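import Groth.Statements.S6298
import Mathlib.RingTheory.Ideal.Operations
import Mathlib.Tactic.Ring
import Mathlib.Order.Preorder.Finite
import Mathlib.Algebra.BigOperators.Ring.Finset

set_option autoImplicit false
universe u
open CAlg

namespace Groth.Agent.S6298

/-- Let R be a ring, x ∈ R, I ⊆ R an ideal and p₁, …, p_r prime ideals such that for each i the coset x
+ I is not contained in p_i. Then there is y ∈ I with x + y ∉ p_i for all i. -/
theorem result {R : Type u} [CommRing R] (x : R) (I : Ideal R) {r : ℕ} (p : Fin r → Ideal R) [∀ i, (p i).IsPrime] (h : ∀ i, ∃ y ∈ I, x + y ∉ p i) : ∃ y ∈ I, ∀ i, x + y ∉ p i := by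
  classical
  suffices key : ∀ S : Finset (Ideal R), (∀ P ∈ S, P.IsPrime ∧ ∃ y ∈ I, x + y ∉ P) →
      ∃ y ∈ I, ∀ P ∈ S, x + y ∉ P by
    obtain ⟨y, hy, hyS⟩ := key (Finset.univ.image p) (by
      intro P hP
      obtain ⟨i, -, rfl⟩ := Finset.mem_image.mp hP
      exact ⟨inferInstance, h i⟩)
    exact ⟨y, hy, fun i => hyS (p i) (Finset.mem_image_of_mem p (Finset.mem_univ i))⟩
  intro S
  induction S using Finset.strongInduction with
  | H S ih =>
    intro hS
    rcases S.eq_empty_or_nonempty with rfl | hne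
    · exact ⟨0, I.zero_mem, by simp⟩
    obtain ⟨P, hPS, hPmin⟩ := S.exists_minimal hne
    obtain ⟨hPprime, -⟩ := hS P hPS
    obtain ⟨y, hyI, hy⟩ := ih (S.erase P) (Finset.erase_ssubset hPS)
      (fun Q hQ => hS Q (Finset.mem_of_mem_erase hQ))
    by_cases hxyP : x + y ∈ P
    · have hQ : ∀ Q ∈ S.erase P, ∃ g ∈ Q, g ∉ P := by
        intro Q hQ
        by_contra hcon
        simp only [not_exists, not_and, not_not] at hcon
        have hQP : Q ≤ P := fun g hg => hcon g hg
        have hPQ : P ≤ Q := hPmin (Finset.mem_of_mem_erase hQ) hQP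
        exact (Finset.ne_of_mem_erase hQ) (le_antisymm hQP hPQ)
      choose! g hgQ hgP using hQ
      have hGP : (∏ Q ∈ S.erase P, g Q) ∉ P := by
        intro hG
        obtain ⟨Q, hQ, hgQP⟩ := (Ideal.IsPrime.prod_mem_iff (hp := hPprime)).mp hG
        exact hgP Q hQ hgQP
      have hGQ : ∀ Q ∈ S.erase P, (∏ Q ∈ S.erase P, g Q) ∈ Q := by
        intro Q hQ
        rw [← Finset.prod_erase_mul _ _ hQ]
        exact Ideal.mul_mem_left _ _ (hgQ Q hQ)
      have hIP : ∃ f ∈ I, f ∉ P := by
        by_contra hcon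
        simp only [not_exists, not_and, not_not] at hcon
        obtain ⟨z, hzI, hzP⟩ := (hS P hPS).2
        apply hzP
        have : x + z = (x + y) + (z - y) := by ring
        rw [this]
        exact P.add_mem hxyP (hcon _ (I.sub_mem hzI hyI))
      obtain ⟨f, hfI, hfP⟩ := hIP
      refine ⟨y + f * ∏ Q ∈ S.erase P, g Q, I.add_mem hyI (I.mul_mem_right _ hfI),
        fun Q hQS => ?_⟩
      by_cases hQP : Q = P
      · rw [hQP]
        intro hmem
        have hfG : f * ∏ Q ∈ S.erase P, g Q ∈ P := by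
          have : f * ∏ Q ∈ S.erase P, g Q = (x + (y + f * ∏ Q ∈ S.erase P, g Q)) - (x + y) := by
            ring
          rw [this]; exact P.sub_mem hmem hxyP
        rcases hPprime.mem_or_mem hfG with h1 | h1
        · exact hfP h1
        · exact hGP h1
      · have hQ' : Q ∈ S.erase P := Finset.mem_erase.mpr ⟨hQP, hQS⟩
        intro hmem
        apply hy Q hQ'
        have : x + y = (x + (y + f * ∏ Q ∈ S.erase P, g Q)) - f * ∏ Q ∈ S.erase P, g Q := by ring
        rw [this]
        exact Q.sub_mem hmem (Q.mul_mem_left _ (hGQ Q hQ'))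
    · refine ⟨y, hyI, fun Q hQS => ?_⟩
      by_cases hQP : Q = P
      · rw [hQP]; exact hxyP
      · exact hy Q (Finset.mem_erase.mpr ⟨hQP, hQS⟩)

end Groth.Agent.S6298
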