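import Groth.Statements.S6301
import Mathlib.RingTheory.Flat.EquationalCriterion
import Mathlib.Algebra.Module.FinitePresentation
import Mathlib.Algebra.Module.Projective

set_option autoImplicit false
universe u
open CAlg

namespace Groth.Agent.S6301

/-- An R-module M is flat exactly when, for every finitely presented R-module P and every surjective
R-module map N → M, the induced map Hom_R(P, N) → Hom_R(P, M) is surjective (modules P, N taken in
the same universe). -/
theorem result {R : Type u} [CommRing R] (M : Type u) [AddCommGroup M] [Module R M] : Module.Flat R M ↔ ∀ (P : Type u) [AddCommGroup P] [Module R P], Module.FinitePresentation R P → ∀ (N : Type u) [AddCommGroup N] [Module R N] (g : N →ₗ[R] M), Function.Surjective g → ∀ h : P →ₗ[R] M, ∃ h' : P →ₗ[R] N, g.comp h' = h := by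
  constructor
  · intro hM P _ _ hP N _ _ g hg h
    obtain ⟨k, h₂, h₃, rfl⟩ := Module.Flat.exists_factorization_of_finitePresentation h
    obtain ⟨h₄, hh₄⟩ := Module.projective_lifting_property g h₃ hg
    exact ⟨h₄ ∘ₗ h₂, by rw [← LinearMap.comp_assoc, hh₄]⟩
  · intro H
    apply Module.Flat.of_forall_exists_factorization
    intro l f x hfx
    classical
    let g : (M →₀ R) →ₗ[R] M := Finsupp.linearCombination R id
    have hg : Function.Surjective g :=
      Finsupp.linearCombination_surjective R Function.surjective_id
    let K : Submodule R (Fin l →₀ R) := R ∙ f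
    have hP : Module.FinitePresentation R ((Fin l →₀ R) ⧸ K) :=
      Module.finitePresentation_of_surjective K.mkQ K.mkQ_surjective
        (by rw [Submodule.ker_mkQ]; exact Submodule.fg_span_singleton f)
    have hK : K ≤ LinearMap.ker x := by
      rw [Submodule.span_singleton_le_iff_mem]; exact hfx
    obtain ⟨h', hh'⟩ := H ((Fin l →₀ R) ⧸ K) hP (M →₀ R) g hg (K.liftQ x hK)
    let a : (Fin l →₀ R) →ₗ[R] (M →₀ R) := h' ∘ₗ K.mkQ
    have ha0 : a f = 0 := by
      simp only [a, LinearMap.comp_apply, Submodule.mkQ_apply]
      rw [(Submodule.Quotient.mk_eq_zero K).mpr (Submodule.mem_span_singleton_self f), map_zero]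
    have hga : g ∘ₗ a = x := by
      rw [← LinearMap.comp_assoc, hh']
      exact K.liftQ_mkQ x hK
    let S : Finset M := Finset.univ.biUnion (fun i : Fin l => (a (Finsupp.single i 1)).support)
    have hS : ∀ v, a v ∈ Finsupp.supported R R (S : Set M) := by
      intro v
      induction v using Finsupp.induction_linear with
      | zero => simp
      | add u w hu hw => rw [map_add]; exact add_mem hu hw
      | single i r =>
        rw [← mul_one r, ← smul_eq_mul, ← Finsupp.smul_single, map_smul]
        apply Submodule.smul_mem
        rw [Finsupp.mem_supported]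
        intro m hm
        exact Finset.mem_biUnion.mpr ⟨i, Finset.mem_univ _, hm⟩
    let a₁ : (Fin l →₀ R) →ₗ[R] Finsupp.supported R R (S : Set M) := a.codRestrict _ hS
    let E : Finsupp.supported R R (S : Set M) ≃ₗ[R] (Fin S.card →₀ R) :=
      (Finsupp.supportedEquivFinsupp (S : Set M)).trans (Finsupp.domLCongr S.equivFin)
    refine ⟨S.card, E.toLinearMap ∘ₗ a₁,
      g ∘ₗ (Finsupp.supported R R (S : Set M)).subtype ∘ₗ E.symm.toLinearMap, ?_, ?_⟩
    · apply LinearMap.ext
      intro v
      simp only [LinearMap.comp_apply, LinearEquiv.coe_coe, LinearEquiv.symm_apply_apply]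
      rw [← hga]
      rfl
    · simp only [LinearMap.comp_apply, LinearEquiv.coe_coe]
      have : a₁ f = 0 := Subtype.ext ha0
      rw [this, map_zero]

end Groth.Agent.S6301
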