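import Groth.Statements.S6303
import Mathlib.RingTheory.Flat.Basic

set_option autoImplicit false
universe u
open CAlg

namespace Groth.Agent.S6303

/-- Let R be a ring, I, J ⊆ R ideals and M a flat R-module. Then IM ∩ JM = (I ∩ J)M. -/
theorem result {R : Type u} [CommRing R] (I J : Ideal R) (M : Type u) [AddCommGroup M] [Module R M] [Module.Flat R M] : (I • (⊤ : Submodule R M)) ⊓ (J • ⊤) = (I ⊓ J) • (⊤ : Submodule R M) := by
  apply le_antisymm _ (le_inf (Submodule.smul_mono_left inf_le_left)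
    (Submodule.smul_mono_left inf_le_right))
  intro z hz
  obtain ⟨hzI, hzJ⟩ := Submodule.mem_inf.mp hz
  let φ : R →ₗ[R] (R ⧸ I) × (R ⧸ J) := LinearMap.prod I.mkQ J.mkQ
  have hker : Function.Exact (I ⊓ J).subtype φ := by
    intro r
    constructor
    · intro h
      have h1 : I.mkQ r = 0 := congrArg Prod.fst h
      have h2 : J.mkQ r = 0 := congrArg Prod.snd h
      rw [Submodule.mkQ_apply, Submodule.Quotient.mk_eq_zero] at h1 h2
      exact ⟨⟨r, Submodule.mem_inf.mpr ⟨h1, h2⟩⟩, rfl⟩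
    · rintro ⟨⟨s, hs⟩, rfl⟩
      obtain ⟨h1, h2⟩ := Submodule.mem_inf.mp hs
      refine Prod.ext ?_ ?_
      · exact (Submodule.Quotient.mk_eq_zero I).mpr h1
      · exact (Submodule.Quotient.mk_eq_zero J).mpr h2
  have hex := Module.Flat.lTensor_exact M hker
  have h0 : ∀ (K : Ideal R), z ∈ K • (⊤ : Submodule R M) →
      z ⊗ₜ[R] (Submodule.Quotient.mk (1 : R) : R ⧸ K) = 0 := by
    intro K hK
    refine Submodule.smul_induction_on (p := fun z => z ⊗ₜ[R] (Submodule.Quotient.mk (1 : R) : R ⧸ K) = 0) hK ?_ ?_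
    · intro a ha m _
      rw [TensorProduct.smul_tmul, ← Submodule.Quotient.mk_smul, smul_eq_mul, mul_one,
        (Submodule.Quotient.mk_eq_zero K).mpr ha, TensorProduct.tmul_zero]
    · intro x y hx hy
      rw [TensorProduct.add_tmul, hx, hy, add_zero]
  have h1 : (φ.lTensor M) (z ⊗ₜ[R] (1 : R)) = 0 := by
    rw [LinearMap.lTensor_tmul]
    have hsplit : φ 1 = ((Submodule.Quotient.mk (1 : R) : R ⧸ I), (0 : R ⧸ J)) +
        ((0 : R ⧸ I), (Submodule.Quotient.mk (1 : R) : R ⧸ J)) := by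
      simp [φ]
    rw [hsplit, TensorProduct.tmul_add]
    have e1 : z ⊗ₜ[R] (((Submodule.Quotient.mk (1 : R) : R ⧸ I), (0 : R ⧸ J)) : (R ⧸ I) × (R ⧸ J)) =
        ((LinearMap.inl R (R ⧸ I) (R ⧸ J)).lTensor M) (z ⊗ₜ[R] (Submodule.Quotient.mk (1 : R))) := by
      rw [LinearMap.lTensor_tmul]; rfl
    have e2 : z ⊗ₜ[R] (((0 : R ⧸ I), (Submodule.Quotient.mk (1 : R) : R ⧸ J)) : (R ⧸ I) × (R ⧸ J)) =
        ((LinearMap.inr R (R ⧸ I) (R ⧸ J)).lTensor M) (z ⊗ₜ[R] (Submodule.Quotient.mk (1 : R))) := by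
      rw [LinearMap.lTensor_tmul]; rfl
    rw [e1, e2, h0 I hzI, h0 J hzJ, map_zero, map_zero, add_zero]
  obtain ⟨y, hy⟩ := (hex _).mp h1
  have key : ∀ y : TensorProduct R M (I ⊓ J : Ideal R),
      TensorProduct.rid R M (((I ⊓ J).subtype.lTensor M) y) ∈ (I ⊓ J) • (⊤ : Submodule R M) := by
    intro y
    induction y using TensorProduct.induction_on with
    | zero => simp
    | tmul m a =>
      rw [LinearMap.lTensor_tmul, TensorProduct.rid_tmul]
      exact Submodule.smul_mem_smul a.2 Submodule.mem_top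
    | add x y hx hy =>
      rw [map_add, map_add]
      exact add_mem hx hy
  have := key y
  rw [hy, TensorProduct.rid_tmul, one_smul] at this
  exact this

end Groth.Agent.S6303
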