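import Groth.Statements.S6304
import Mathlib.RingTheory.Flat.Tensor
import Mathlib.RingTheory.Flat.Equalizer

set_option autoImplicit false
universe u
open CAlg

namespace Groth.Agent.S6304

/-- In a short exact sequence 0 → M' → M → M'' → 0 of R-modules whose right-hand term M'' is flat, the
middle term M is flat when M' is, and M' is flat when M is. -/
theorem result {R : Type u} [CommRing R] {M' M M'' : Type u} [AddCommGroup M'] [Module R M'] [AddCommGroup M] [Module R M] [AddCommGroup M''] [Module R M''] (f : M' →ₗ[R] M) (g : M →ₗ[R] M'') (hf : Function.Injective f) (hexact : Function.Exact f g) (hg : Function.Surjective g) [Module.Flat R M''] : (Module.Flat R M' → Module.Flat R M) ∧ (Module.Flat R M → Module.Flat R M') := by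
  have comm : ∀ {P P' A B : Type u} [AddCommGroup P] [Module R P] [AddCommGroup P'] [Module R P']
      [AddCommGroup A] [Module R A] [AddCommGroup B] [Module R B] (u : P →ₗ[R] P')
      (v : A →ₗ[R] B) (x : TensorProduct R P A),
      u.rTensor B (v.lTensor P x) = v.lTensor P' (u.rTensor A x) := by
    intro P P' A B _ _ _ _ _ _ _ _ u v x
    rw [← LinearMap.comp_apply, ← LinearMap.comp_apply, LinearMap.rTensor_comp_lTensor,
      LinearMap.lTensor_comp_rTensor]
  refine ⟨fun hM' => ?_, fun hM => ?_⟩
  · rw [Module.Flat.iff_rTensor_injective']
    intro I
    rw [injective_iff_map_eq_zero]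
    intro x hx
    have hg0 : g.lTensor I x = 0 := by
      apply Module.Flat.rTensor_preserves_injective_linearMap (M := M'') I.subtype
        I.injective_subtype
      rw [map_zero, comm, hx, map_zero]
    have hexI : Function.Exact (f.lTensor I) (g.lTensor I) := lTensor_exact I hexact hg
    obtain ⟨x', rfl⟩ := (hexI x).mp hg0
    have hinjR : Function.Injective (f.lTensor R) :=
      LinearMap.lTensor_injective_of_exact_of_flat g hg f hf hexact R
    have h0 : I.subtype.rTensor M' x' = 0 := by
      apply hinjR
      rw [← comm, hx, map_zero]
    have hx'0 : x' = 0 := (Module.Flat.rTensor_preserves_injective_linearMap I.subtype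
      I.injective_subtype) (by rw [h0, map_zero])
    rw [hx'0, map_zero]
  · rw [Module.Flat.iff_rTensor_injective']
    intro I
    have h2 : Function.Injective (f.lTensor I) :=
      LinearMap.lTensor_injective_of_exact_of_flat g hg f hf hexact I
    have h1 : Function.Injective (f.lTensor R) :=
      LinearMap.lTensor_injective_of_exact_of_flat g hg f hf hexact R
    have h3 : Function.Injective (I.subtype.rTensor M) :=
      Module.Flat.rTensor_preserves_injective_linearMap _ I.injective_subtype
    intro a b hab
    apply h2
    apply h3
    rw [comm, comm, hab]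

end Groth.Agent.S6304
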