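import Groth.Statements.S6305
import Groth.Agent.S6269
import Mathlib.RingTheory.Flat.Equalizer

set_option autoImplicit false
universe u
open CAlg

namespace Groth.Agent.S6305

/-- An R-module M is flat exactly when every short exact sequence 0 → M₁ → M₂ → M → 0 of R-modules is
universally exact, i.e. its first map M₁ → M₂ is universally injective. -/
theorem result {R : Type u} [CommRing R] (M : Type u) [AddCommGroup M] [Module R M] : Module.Flat R M ↔ ∀ (M₁ M₂ : Type u) [AddCommGroup M₁] [Module R M₁] [AddCommGroup M₂] [Module R M₂] (f : M₁ →ₗ[R] M₂) (g : M₂ →ₗ[R] M), Function.Injective f → Function.Exact f g → Function.Surjective g → CAlgX.UniversallyInjective R f := by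
  constructor
  · intro hM M₁ M₂ _ _ _ _ f g hf hexact hg Q _ _
    have := LinearMap.lTensor_injective_of_exact_of_flat g hg f hf hexact Q
    exact (LinearMap.lTensor_inj_iff_rTensor_inj Q f).mp this
  · intro h
    let g : (M →₀ R) →ₗ[R] M := Finsupp.linearCombination R id
    have hg : Function.Surjective g := Finsupp.linearCombination_surjective R Function.surjective_id
    have hf := h (LinearMap.ker g) (M →₀ R) (LinearMap.ker g).subtype g
      (LinearMap.ker g).injective_subtype (LinearMap.exact_subtype_ker_map g) hg
    exact (Groth.Agent.S6269.result (R := R) (M₁ := LinearMap.ker g) (M₂ := M →₀ R) (M₃ := M)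
      (LinearMap.ker g).subtype g (LinearMap.exact_subtype_ker_map g) hg hf).2

end Groth.Agent.S6305
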