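import Groth.Statements.S6306
import Mathlib.RingTheory.Ideal.MinimalPrime.Localization

set_option autoImplicit false
universe u
open CAlg

namespace Groth.Agent.S6306

/-- Let R be a nonzero ring such that every nonzero prime ideal of R contains a non-zerodivisor. Then R
is a domain. -/
theorem result (R : Type u) [CommRing R] [Nontrivial R] (h : ∀ p : Ideal R, p.IsPrime → p ≠ ⊥ → ∃ x ∈ p, x ∈ nonZeroDivisors R) : IsDomain R := by
  obtain ⟨p, hp⟩ := Ideal.nonempty_minimalPrimes (I := (⊥ : Ideal R)) bot_ne_top
  have hpp : p.IsPrime := hp.1.1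
  by_cases hb : p = ⊥
  · subst hb
    exact IsDomain.of_bot_isPrime R
  · obtain ⟨x, hx, hxn⟩ := h p hpp hb
    exact absurd hxn (Set.disjoint_left.mp (Ideal.disjoint_nonZeroDivisors_of_mem_minimalPrimes hp) hx)

end Groth.Agent.S6306
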