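import Groth.Statements.S6314
import Mathlib.RingTheory.Flat.CategoryTheory
import Mathlib.CategoryTheory.Monoidal.Tor
import Mathlib.Algebra.Category.ModuleCat.Projective

set_option autoImplicit false
universe u
open CategoryTheory
open CAlg

namespace Groth.Agent.S6314

/-- Let R be a ring and M a flat R-module. Then Torᵢᴿ(M, N) = 0 for all R-modules N and all i > 0. -/
theorem result (R : Type u) [CommRing R] (M : Type u) [AddCommGroup M] [Module R M] [Module.Flat R M] (N : ModuleCat.{u} R) (i : ℕ) (hi : 0 < i) : Limits.IsZero (((CategoryTheory.Tor (ModuleCat.{u} R) i).obj (ModuleCat.of R M)).obj N) := by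
  obtain ⟨k, rfl⟩ : ∃ k, i = k + 1 := ⟨i - 1, by omega⟩
  let P := projectiveResolution N
  have h1 : ((P.complex.sc (k + 1)).map
      (MonoidalCategory.tensorLeft (ModuleCat.of R M))).Exact :=
    Module.Flat.lTensor_shortComplex_exact (ModuleCat.of R M) _
      ((HomologicalComplex.exactAt_iff _ _).mp (P.complex_exactAt_succ k))
  refine Limits.IsZero.of_iso ?_ (P.isoLeftDerivedObj
    ((MonoidalCategory.tensoringLeft (ModuleCat.{u} R)).obj (ModuleCat.of R M)) (k + 1))
  apply (HomologicalComplex.exactAt_iff_isZero_homology _ _).mp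
  rw [HomologicalComplex.exactAt_iff]
  exact h1

end Groth.Agent.S6314
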