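import Groth.Statements.S6319
import Mathlib.Algebra.Homology.ShortComplex.ModuleCat
import Mathlib.RingTheory.Artinian.Module
import Mathlib.RingTheory.Length
import Mathlib.RingTheory.HopkinsLevitzki

set_option autoImplicit false
universe u
open CategoryTheory
open CAlg

namespace Groth.Agent.S6319

/-- Let R be an Artinian local ring. The length function defines a homomorphism of abelian groups
length_R : K'₀(R) → ℤ on the Grothendieck group of finite R-modules, sending the class of a finite
module M to its (finite) length. -/
theorem result (R : Type u) [CommRing R] [IsArtinianRing R] [IsLocalRing R] : ∃ φ : KZero.K0sub (fun M : ModuleCat.{u} R => Module.Finite R M) →+ ℤ, ∀ (M : ModuleCat.{u} R), Module.Finite R M → (φ (KZero.clSub (fun M : ModuleCat.{u} R => Module.Finite R M) M) : ℤ) = (Module.length R M).toNat := by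
  classical
  have hfin : ∀ M : ModuleCat.{u} R, Module.Finite R M → Module.length R M ≠ ⊤ := by
    intro M hM
    have : IsArtinian R M := inferInstance
    have : IsNoetherianRing R := inferInstance
    have : IsNoetherian R M := isNoetherian_of_isNoetherianRing_of_finite R M
    exact Module.length_ne_top
  let φ₀ : FreeAbelianGroup (Subtype (fun M : ModuleCat.{u} R => Module.Finite R M)) →+ ℤ :=
    FreeAbelianGroup.lift (fun M => ((Module.length R M.1).toNat : ℤ))
  have hle : KZero.relSub (fun M : ModuleCat.{u} R => Module.Finite R M) ≤ φ₀.ker := by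
    unfold KZero.relSub
    rw [AddSubgroup.closure_le]
    rintro x ⟨S, h₁, h₂, h₃, hS, rfl⟩
    simp only [SetLike.mem_coe, AddMonoidHom.mem_ker, map_sub]
    simp only [φ₀, FreeAbelianGroup.lift_apply_of]
    have hadd := Module.length_eq_add_of_exact S.f.hom S.g.hom hS.moduleCat_injective_f
      hS.moduleCat_surjective_g
      ((ShortComplex.ShortExact.moduleCat_exact_iff_function_exact S).mp hS.exact)
    rw [hadd, ENat.toNat_add (hfin _ h₁) (hfin _ h₃)]
    push_cast
    ring
  refine ⟨QuotientAddGroup.lift (KZero.relSub (fun M : ModuleCat.{u} R => Module.Finite R M)) φ₀ hle,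
    fun M hM => ?_⟩
  simp only [KZero.clSub, dif_pos hM]
  rw [QuotientAddGroup.lift_mk]
  simp [φ₀]

end Groth.Agent.S6319
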