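import Groth.Statements.S6337
import Groth.Agent.S6338
import Mathlib.LinearAlgebra.DirectSum.TensorProduct

set_option autoImplicit false
universe u
open CAlg

namespace Groth.Agent.S6337

/-- A direct sum of modules is Mittag-Leffler if and only if each summand is Mittag-Leffler. -/
theorem result (R : Type u) [CommRing R] {ι : Type u} (M : ι → Type u)
    [∀ i, AddCommGroup (M i)] [∀ i, Module R (M i)] :
    CAlg.IsMittagLeffler R (DirectSum ι M) ↔ ∀ i, CAlg.IsMittagLeffler R (M i) := by
  classical
  have hcomm : ∀ (ι' : Type u) (Q : ι' → Type u) [∀ j, AddCommGroup (Q j)] [∀ j, Module R (Q j)]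
      {A B : Type u} [AddCommGroup A] [Module R A] [AddCommGroup B] [Module R B]
      (u : A →ₗ[R] B) (x : TensorProduct R A (∀ j, Q j)),
      TensorProduct.piRightHom R R B Q (u.rTensor (∀ j, Q j) x) =
        fun j => u.rTensor (Q j) (TensorProduct.piRightHom R R A Q x j) := by
    intro ι' Q _ _ A B _ _ _ _ u x
    induction x using TensorProduct.induction_on with
    | zero => funext j; simp
    | tmul m g => funext j; simp
    | add x y hx hy => rw [map_add, map_add, hx, hy]; funext j; simp
  constructor
  · intro h i
    refine Groth.Agent.S6338.result R (DirectSum.lof R ι M i) ?_ h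
    intro Q _ _ a b hab
    have := congrArg ((DirectSum.component R ι M i).rTensor Q) hab
    rwa [← LinearMap.comp_apply, ← LinearMap.comp_apply, ← LinearMap.rTensor_comp,
      DirectSum.component_comp_lof_same, LinearMap.rTensor_id, LinearMap.id_apply,
      LinearMap.id_apply] at this
  · intro h ι' Q _ _
    rw [injective_iff_map_eq_zero]
    intro x hx
    have hcomp : ∀ i, (DirectSum.component R ι M i).rTensor (∀ j, Q j) x = 0 := by
      intro i
      apply h i ι' Q
      rw [hcomm, hx, map_zero]
      funext j
      simp
    have key : ∀ y : TensorProduct R (DirectSum ι M) (∀ j, Q j), ∀ i,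
        TensorProduct.directSumLeft R R M (∀ j, Q j) y i =
          (DirectSum.component R ι M i).rTensor (∀ j, Q j) y := by
      intro y i
      induction y using TensorProduct.induction_on with
      | zero => simp
      | tmul m q =>
        rw [TensorProduct.directSumLeft_tmul, LinearMap.rTensor_tmul, DirectSum.apply_eq_component R]
      | add a b ha hb => rw [map_add, DirectSum.add_apply, ha, hb, map_add]
    have h0 : TensorProduct.directSumLeft R R M (∀ j, Q j) x = 0 := by
      ext i
      rw [key]
      exact hcomp i
    exact (TensorProduct.directSumLeft R R M (∀ j, Q j)).injective (by rw [h0, map_zero])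

end Groth.Agent.S6337
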