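import Groth.Statements.S6339
import Mathlib.LinearAlgebra.TensorProduct.RightExactness
import Mathlib.LinearAlgebra.TensorProduct.Pi

set_option autoImplicit false
universe u
open CAlg

namespace Groth.Agent.S6339

/-- Let 0 → M₁ → M₂ → M₃ → 0 be a universally exact short exact sequence of modules over a commutative
ring (the first map is universally injective, the second is surjective with kernel the image of the
first). If M₁ and M₃ are Mittag-Leffler then so is M₂. -/
theorem result (R : Type u) [CommRing R] {M₁ M₂ M₃ : Type u}
    [AddCommGroup M₁] [Module R M₁] [AddCommGroup M₂] [Module R M₂] [AddCommGroup M₃] [Module R M₃]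
    (f : M₁ →ₗ[R] M₂) (g : M₂ →ₗ[R] M₃) (hf : CAlgX.UniversallyInjective R f)
    (hg : Function.Surjective g) (hfg : LinearMap.range f = LinearMap.ker g)
    (h₁ : CAlg.IsMittagLeffler R M₁) (h₃ : CAlg.IsMittagLeffler R M₃) :
    CAlg.IsMittagLeffler R M₂ := by
  intro ι Q _ _
  have hcomm : ∀ {A B : Type u} [AddCommGroup A] [Module R A] [AddCommGroup B] [Module R B]
      (u : A →ₗ[R] B) (x : TensorProduct R A (∀ i, Q i)),
      TensorProduct.piRightHom R R B Q (u.rTensor (∀ i, Q i) x) =
        fun i => u.rTensor (Q i) (TensorProduct.piRightHom R R A Q x i) := by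
    intro A B _ _ _ _ u x
    induction x using TensorProduct.induction_on with
    | zero => funext i; simp
    | tmul m g => funext i; simp
    | add x y hx hy => rw [map_add, map_add, hx, hy]; funext i; simp
  have hexact : Function.Exact f g := LinearMap.exact_iff.mpr hfg.symm
  rw [injective_iff_map_eq_zero]
  intro x hx
  have h3 : g.rTensor (∀ i, Q i) x = 0 := by
    apply h₃ ι Q
    rw [hcomm, hx, map_zero]
    funext i
    simp
  obtain ⟨x', rfl⟩ := (rTensor_exact (∀ i, Q i) hexact hg x).mp h3
  have h1 : TensorProduct.piRightHom R R M₁ Q x' = 0 := by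
    funext i
    apply hf (Q i)
    have := congrFun (hcomm f x') i
    rw [hx] at this
    rw [← this, Pi.zero_apply, Pi.zero_apply, map_zero]
  have : x' = 0 := h₁ ι Q (by rw [h1, map_zero])
  rw [this, map_zero]

end Groth.Agent.S6339
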