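import Groth.Statements.S6340
import Mathlib.LinearAlgebra.TensorProduct.RightExactness
import Mathlib.LinearAlgebra.TensorProduct.Pi

set_option autoImplicit false
universe u
open CAlg

namespace Groth.Agent.S6340

/-- Let M₁ → M₂ → M₃ → 0 be exact with M₁ finitely generated; if M₂ is Mittag-Leffler then so is M₃.
Equivalently, as stated here: the quotient of a Mittag-Leffler module by a finitely generated
submodule is Mittag-Leffler. -/
theorem result (R : Type u) [CommRing R] {M : Type u} [AddCommGroup M] [Module R M]
    (N : Submodule R M) (hN : N.FG) (hM : CAlg.IsMittagLeffler R M) :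
    CAlg.IsMittagLeffler R (M ⧸ N) := by
  intro ι Q _ _
  have : Module.Finite R N := Module.Finite.iff_fg.mpr hN
  obtain ⟨k, n, hn⟩ := Module.Finite.exists_fin (R := R) (M := N)
  have hsum : ∀ (P : Type u) [AddCommGroup P] [Module R P] (y : TensorProduct R N P),
      ∃ q : Fin k → P, y = ∑ i, n i ⊗ₜ[R] q i := by
    intro P _ _ y
    induction y using TensorProduct.induction_on with
    | zero => exact ⟨0, by simp⟩
    | tmul m p =>
      obtain ⟨c, hc⟩ := (Submodule.mem_span_range_iff_exists_fun R).mp
        (hn ▸ Submodule.mem_top : m ∈ Submodule.span R (Set.range n))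
      refine ⟨fun i => c i • p, ?_⟩
      rw [← hc, TensorProduct.sum_tmul]
      refine Finset.sum_congr rfl fun i _ => ?_
      rw [TensorProduct.smul_tmul]
    | add y z hy hz =>
      obtain ⟨q, rfl⟩ := hy
      obtain ⟨q', rfl⟩ := hz
      exact ⟨q + q', by simp [TensorProduct.tmul_add, Finset.sum_add_distrib]⟩
  have hsurj : Function.Surjective (TensorProduct.piRightHom R R N Q) := by
    intro y
    choose q hq using fun j => hsum (Q j) (y j)
    refine ⟨∑ i, n i ⊗ₜ[R] (fun j => q j i), ?_⟩
    funext j
    rw [map_sum, Finset.sum_apply, hq j]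
    simp [TensorProduct.piRightHom_tmul]
  have hcomm : ∀ {A B : Type u} [AddCommGroup A] [Module R A] [AddCommGroup B] [Module R B]
      (u : A →ₗ[R] B) (x : TensorProduct R A (∀ i, Q i)),
      TensorProduct.piRightHom R R B Q (u.rTensor (∀ i, Q i) x) =
        fun i => u.rTensor (Q i) (TensorProduct.piRightHom R R A Q x i) := by
    intro A B _ _ _ _ u x
    induction x using TensorProduct.induction_on with
    | zero => funext i; simp
    | tmul m g => funext i; simp
    | add x y hx hy => rw [map_add, map_add, hx, hy]; funext i; simp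
  have hex : Function.Exact N.subtype N.mkQ := LinearMap.exact_subtype_mkQ N
  rw [injective_iff_map_eq_zero]
  intro z hz
  obtain ⟨x, rfl⟩ := LinearMap.rTensor_surjective (∀ i, Q i) N.mkQ_surjective z
  have h1 : ∀ j, ∃ w : TensorProduct R N (Q j),
      N.subtype.rTensor (Q j) w = TensorProduct.piRightHom R R M Q x j := by
    intro j
    have := congrFun (hcomm N.mkQ x) j
    rw [hz] at this
    exact (rTensor_exact (Q j) hex N.mkQ_surjective _).mp this.symm
  choose w hw using h1
  obtain ⟨v, hv⟩ := hsurj w
  have h2 : x = N.subtype.rTensor (∀ i, Q i) v := by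
    apply hM ι Q
    rw [hcomm, hv]
    funext j
    exact (hw j).symm
  rw [h2, ← LinearMap.comp_apply, ← LinearMap.rTensor_comp, hex.linearMap_comp_eq_zero,
    LinearMap.rTensor_zero, LinearMap.zero_apply]

end Groth.Agent.S6340
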