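import Groth.Statements.S6341
import Mathlib.LinearAlgebra.TensorProduct.DirectLimit
import Mathlib.LinearAlgebra.TensorProduct.Pi

set_option autoImplicit false
universe u
open CAlg

namespace Groth.Agent.S6341

/-- The colimit of a directed system of Mittag-Leffler modules with universally injective transition
maps is Mittag-Leffler. -/
theorem result (R : Type u) [CommRing R] {ι : Type u}
    [Preorder ι] [IsDirected ι (· ≤ ·)] [DecidableEq ι] (G : ι → Type u) [∀ i, AddCommGroup (G i)]
    [∀ i, Module R (G i)] (f : ∀ i j, i ≤ j → G i →ₗ[R] G j) [DirectedSystem G fun i j h => f i j h]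
    (hf : ∀ i j (h : i ≤ j), CAlgX.UniversallyInjective R (f i j h))
    (hG : ∀ i, CAlg.IsMittagLeffler R (G i)) :
    CAlg.IsMittagLeffler R (Module.DirectLimit G f) := by
  intro κ Q _ _
  have hof : ∀ i, CAlgX.UniversallyInjective R (Module.DirectLimit.of R ι G f i) := by
    intro i P _ _
    rw [injective_iff_map_eq_zero]
    intro y hy
    have h1 : Module.DirectLimit.of R ι (fun k => TensorProduct R (G k) P)
        (fun a b h => (f a b h).rTensor P) i y = 0 := by
      rw [← TensorProduct.directLimitLeft_rTensor_of, hy, map_zero]
    obtain ⟨j, hij, hj⟩ := Module.DirectLimit.of.zero_exact h1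
    exact hf i j hij P (by rw [map_zero]; exact hj)
  rcases isEmpty_or_nonempty ι with hι | hι
  · have hsub : ∀ a : Module.DirectLimit G f, a = 0 := by
      have hid : (LinearMap.id : Module.DirectLimit G f →ₗ[R] Module.DirectLimit G f) = 0 :=
        Module.DirectLimit.hom_ext (fun i => isEmptyElim i)
      intro a
      have := congrArg (fun g => g a) hid
      simp only [LinearMap.id_apply, LinearMap.zero_apply] at this
      exact this
    have hsub2 : ∀ x : TensorProduct R (Module.DirectLimit G f) (∀ j, Q j), x = 0 := by
      intro x
      induction x using TensorProduct.induction_on with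
      | zero => rfl
      | tmul m q => rw [hsub m, TensorProduct.zero_tmul]
      | add a b ha hb => rw [ha, hb, add_zero]
    intro a b _
    rw [hsub2 a, hsub2 b]
  · rw [injective_iff_map_eq_zero]
    intro x hx
    obtain ⟨i, y, hy⟩ := Module.DirectLimit.exists_of (TensorProduct.directLimitLeft f (∀ j, Q j) x)
    have hxy : x = (Module.DirectLimit.of R ι G f i).rTensor (∀ j, Q j) y := by
      apply (TensorProduct.directLimitLeft f (∀ j, Q j)).injective
      rw [TensorProduct.directLimitLeft_rTensor_of, hy]
    subst hxy
    have hcomm : ∀ z : TensorProduct R (G i) (∀ j, Q j),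
        TensorProduct.piRightHom R R (Module.DirectLimit G f) Q
          ((Module.DirectLimit.of R ι G f i).rTensor (∀ j, Q j) z) =
        fun j => (Module.DirectLimit.of R ι G f i).rTensor (Q j)
          (TensorProduct.piRightHom R R (G i) Q z j) := by
      intro z
      induction z using TensorProduct.induction_on with
      | zero => funext j; simp
      | tmul m g => funext j; simp
      | add a b ha hb => rw [map_add, map_add, ha, hb]; funext j; simp
    rw [hcomm] at hx
    have h2 : TensorProduct.piRightHom R R (G i) Q y = 0 := by
      funext j
      apply hof i (Q j)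
      rw [Pi.zero_apply, map_zero]
      exact congrFun hx j
    have : y = 0 := hG i κ Q (by rw [h2, map_zero])
    rw [this, map_zero]

end Groth.Agent.S6341
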