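import Groth.Statements.S6342
import Mathlib.LinearAlgebra.TensorProduct.Tower
import Mathlib.LinearAlgebra.TensorProduct.Pi
import Mathlib.RingTheory.Flat.Basic

set_option autoImplicit false
universe u
open CAlg

namespace Groth.Agent.S6342

/-- Let R → S be a ring map such that S is Mittag-Leffler as an R-module, and let M be an S-module which
is flat and Mittag-Leffler over S. Then M is Mittag-Leffler as an R-module. -/
theorem result (R S : Type u) [CommRing R] [CommRing S] [Algebra R S]
    (M : Type u) [AddCommGroup M] [Module S M] [Module R M] [IsScalarTower R S M]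
    (hS : CAlg.IsMittagLeffler R S) [Module.Flat S M] (hM : CAlg.IsMittagLeffler S M) :
    CAlg.IsMittagLeffler R M := by
  intro ι Q _ _
  let G : ∀ (N : Type u) [AddCommGroup N] [Module R N],
      TensorProduct R M N ≃ₗ[S] TensorProduct S M (TensorProduct R S N) :=
    fun N _ _ => (TensorProduct.AlgebraTensorModule.cancelBaseChange R S S M N).symm
  let φ : TensorProduct R S (∀ i, Q i) →ₗ[S] ∀ i, TensorProduct R S (Q i) :=
    TensorProduct.piRightHom R S S Q
  have hφ : Function.Injective φ := hS ι Q
  have h2 : Function.Injective (φ.lTensor M) :=
    Module.Flat.lTensor_preserves_injective_linearMap φ hφ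
  have h3 : Function.Injective (TensorProduct.piRightHom S S M (fun i => TensorProduct R S (Q i))) :=
    hM ι (fun i => TensorProduct R S (Q i))
  have hnat : ∀ x : TensorProduct R M (∀ i, Q i),
      TensorProduct.piRightHom S S M (fun i => TensorProduct R S (Q i)) (φ.lTensor M (G _ x)) =
        fun i => G (Q i) (TensorProduct.piRightHom R R M Q x i) := by
    intro x
    induction x using TensorProduct.induction_on with
    | zero => funext i; simp
    | tmul m q =>
      funext i
      simp [G, φ, TensorProduct.AlgebraTensorModule.cancelBaseChange_symm_tmul]
    | add a b ha hb =>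
      funext i
      rw [map_add, map_add, map_add, Pi.add_apply, congrFun ha i, congrFun hb i, map_add,
        Pi.add_apply, map_add]
  rw [injective_iff_map_eq_zero]
  intro x hx
  have h4 : TensorProduct.piRightHom S S M (fun i => TensorProduct R S (Q i))
      (φ.lTensor M (G _ x)) = 0 := by
    rw [hnat, hx]
    funext i
    simp
  have h5 : G _ x = 0 := by
    apply h2
    apply h3
    rw [h4, map_zero, map_zero]
  exact (G _).injective (by rw [h5, map_zero])

end Groth.Agent.S6342
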