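import Groth.Statements.S6348
import Mathlib.LinearAlgebra.TensorProduct.Tower
import Mathlib.LinearAlgebra.TensorProduct.Pi

set_option autoImplicit false
universe u
open scoped TensorProduct
open CAlg

namespace Groth.Agent.S6348

/-- For a ring map R → S and a Mittag-Leffler R-module M, the S-module S ⊗_R M is Mittag-Leffler. (The
companion parts on flat modules, projective modules and direct sums of countably generated modules
are standard base-change facts.) -/
theorem result (R S : Type u) [CommRing R] [CommRing S] [Algebra R S] (M : Type u)
    [AddCommGroup M] [Module R M] (hM : CAlg.IsMittagLeffler R M) :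
    CAlg.IsMittagLeffler S (S ⊗[R] M) := by
  intro ι Q _ _
  letI : ∀ i, Module R (Q i) := fun i => Module.compHom (Q i) (algebraMap R S)
  haveI : ∀ i, IsScalarTower R S (Q i) := fun i => ⟨fun r s q => by
    show (r • s) • q = (algebraMap R S r) • (s • q)
    rw [Algebra.smul_def, mul_smul]⟩
  let F : ∀ (N : Type u) [AddCommGroup N] [Module S N] [Module R N] [IsScalarTower R S N],
      TensorProduct S (TensorProduct R S M) N → TensorProduct R M N :=
    fun N _ _ _ _ x => TensorProduct.comm R N M
      (TensorProduct.AlgebraTensorModule.cancelBaseChange R S S N M (TensorProduct.comm S _ N x))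
  have hFinj : ∀ (N : Type u) [AddCommGroup N] [Module S N] [Module R N] [IsScalarTower R S N],
      Function.Injective (F N) := by
    intro N _ _ _ _ a b h
    simp only [F] at h
    exact (TensorProduct.comm S _ N).injective
      ((TensorProduct.AlgebraTensorModule.cancelBaseChange R S S N M).injective
        ((TensorProduct.comm R N M).injective h))
  have hFadd : ∀ (N : Type u) [AddCommGroup N] [Module S N] [Module R N] [IsScalarTower R S N]
      (a b : TensorProduct S (TensorProduct R S M) N), F N (a + b) = F N a + F N b := by
    intro N _ _ _ _ a b
    simp only [F, map_add]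
  have hF0 : ∀ (N : Type u) [AddCommGroup N] [Module S N] [Module R N] [IsScalarTower R S N],
      F N 0 = 0 := by
    intro N _ _ _ _
    simp only [F, map_zero]
  have hFt : ∀ (N : Type u) [AddCommGroup N] [Module S N] [Module R N] [IsScalarTower R S N]
      (s : S) (m : M) (n : N), F N ((s ⊗ₜ[R] m) ⊗ₜ[S] n) = m ⊗ₜ[R] (s • n) := by
    intro N _ _ _ _ s m n
    simp [F]
  have hnat : ∀ x : TensorProduct S (TensorProduct R S M) (∀ i, Q i),
      TensorProduct.piRightHom R R M Q (F (∀ i, Q i) x) =
        fun i => F (Q i) (TensorProduct.piRightHom S S (TensorProduct R S M) Q x i) := by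
    intro x
    induction x using TensorProduct.induction_on with
    | zero => funext i; simp [hF0]
    | tmul y q =>
      induction y using TensorProduct.induction_on with
      | zero => funext i; simp [hF0]
      | tmul s m => funext i; simp [hFt]
      | add a b ha hb =>
        funext i
        have ha' := congrFun ha i
        have hb' := congrFun hb i
        rw [TensorProduct.add_tmul, hFadd, map_add, Pi.add_apply, ha', hb', map_add,
          Pi.add_apply, hFadd]
    | add a b ha hb =>
      funext i
      rw [hFadd, map_add, Pi.add_apply, congrFun ha i, congrFun hb i, map_add, Pi.add_apply,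
        hFadd]
  rw [injective_iff_map_eq_zero]
  intro x hx
  have h1 : TensorProduct.piRightHom R R M Q (F (∀ i, Q i) x) = 0 := by
    rw [hnat, hx]
    funext i
    simp [hF0]
  have h2 : F (∀ i, Q i) x = F (∀ i, Q i) 0 := by
    rw [hF0]
    exact hM ι Q (by rw [h1, map_zero])
  exact hFinj _ h2

end Groth.Agent.S6348
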