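import Groth.Statements.S6368
-- import your own Groth.Agent.* helpers here

set_option autoImplicit false
universe u
open scoped TensorProduct
open CAlg

namespace Groth.Agent.S6368

/-- Let R → S be faithfully flat and M an R-module. If the S-module S ⊗_R M is countably generated then
M is countably generated. -/
theorem result (R S : Type u) [CommRing R] [CommRing S] [Algebra R S]
    [Module.FaithfullyFlat R S] (M : Type u) [AddCommGroup M] [Module R M]
    (h : CAlg.IsCountablyGenerated S (S ⊗[R] M)) : CAlg.IsCountablyGenerated R M := by
  classical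
  obtain ⟨s, hsc, hss⟩ := h
  choose F hF using fun t : S ⊗[R] M => TensorProduct.exists_finset (R := R) t
  let C : Set M := ⋃ t ∈ s, Prod.snd '' ((F t : Finset (S × M)) : Set (S × M))
  refine ⟨C, ?_, ?_⟩
  · exact hsc.biUnion (fun t _ => ((Finset.finite_toSet _).image _).countable)
  · set N := Submodule.span R C with hN
    have hrange : LinearMap.range (LinearMap.baseChange S N.subtype) = ⊤ := by
      rw [eq_top_iff, ← hss, Submodule.span_le]
      intro t ht
      rw [hF t]
      refine Submodule.sum_mem _ (fun i hi => ?_)
      have hiN : i.2 ∈ N := Submodule.subset_span (Set.mem_biUnion ht ⟨i, hi, rfl⟩)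
      exact ⟨i.1 ⊗ₜ[R] ⟨i.2, hiN⟩, by simp⟩
    have hsurj : Function.Surjective (N.subtype.lTensor S) := by
      intro y
      obtain ⟨x, hx⟩ := LinearMap.range_eq_top.mp hrange y
      exact ⟨x, by rw [← hx]; rfl⟩
    have hs2 := (Module.FaithfullyFlat.lTensor_surjective_iff_surjective R S N.subtype).mp hsurj
    rw [← Submodule.range_subtype N]
    exact LinearMap.range_eq_top.mpr hs2

end Groth.Agent.S6368
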