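import Groth.Statements.S6371
import Mathlib.Algebra.Category.Ring.Epi
import Mathlib.Algebra.Category.Ring.Instances
import Mathlib.RingTheory.Localization.BaseChange
import Mathlib.RingTheory.Localization.AtPrime.Basic

set_option autoImplicit false
universe u
open CAlg

namespace Groth.Agent.S6371

section
open CategoryTheory

theorem isEpi_loc (R S : Type u) [CommRing R] [CommRing S] [Algebra R S] [Algebra.IsEpi R S]
    (p : Ideal R) [p.IsPrime] :
    Algebra.IsEpi (Localization.AtPrime p) (Localization (Algebra.algebraMapSubmonoid S p.primeCompl)) := by
  have hE : Epi (CommRingCat.ofHom (algebraMap R S)) := CommRingCat.epi_iff_epi.mpr inferInstance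
  rw [← CommRingCat.epi_iff_epi]
  have h1 : Epi (CommRingCat.ofHom (algebraMap S
      (Localization (Algebra.algebraMapSubmonoid S p.primeCompl)))) :=
    IsLocalization.epi (Algebra.algebraMapSubmonoid S p.primeCompl) _
  have h2 : CommRingCat.ofHom (algebraMap R (Localization.AtPrime p)) ≫
      CommRingCat.ofHom (algebraMap (Localization.AtPrime p)
        (Localization (Algebra.algebraMapSubmonoid S p.primeCompl))) =
      CommRingCat.ofHom (algebraMap R S) ≫ CommRingCat.ofHom (algebraMap S
        (Localization (Algebra.algebraMapSubmonoid S p.primeCompl))) := by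
    rw [← CommRingCat.ofHom_comp, ← CommRingCat.ofHom_comp, ← IsScalarTower.algebraMap_eq,
      ← IsScalarTower.algebraMap_eq]
  have : Epi (CommRingCat.ofHom (algebraMap R (Localization.AtPrime p)) ≫
      CommRingCat.ofHom (algebraMap (Localization.AtPrime p)
        (Localization (Algebra.algebraMapSubmonoid S p.primeCompl)))) := by
    rw [h2]; exact epi_comp _ _
  exact epi_of_epi (CommRingCat.ofHom (algebraMap R (Localization.AtPrime p))) _

end


/-- A ring map R → S is an epimorphism of rings if and only if for every prime p of R the localized map
R_p → S_p is an epimorphism, where S_p is S localized at the image of R ∖ p. -/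
theorem result (R S : Type u) [CommRing R] [CommRing S] [Algebra R S] :
    Algebra.IsEpi R S ↔ ∀ (p : Ideal R) [p.IsPrime],
      Algebra.IsEpi (Localization.AtPrime p) (Localization (Algebra.algebraMapSubmonoid S p.primeCompl)) := by
  constructor
  · intro hE p _
    exact isEpi_loc R S p
  · intro h
    rw [Algebra.isEpi_iff_forall_one_tmul_eq]
    intro s
    rw [← sub_eq_zero]
    set x : TensorProduct R S S := 1 ⊗ₜ[R] s - s ⊗ₜ[R] 1 with hx
    let I : Ideal R := LinearMap.ker (LinearMap.toSpanSingleton R _ x)
    suffices hI : I = ⊤ by
      have : (1 : R) ∈ I := hI ▸ Submodule.mem_top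
      simpa [I] using this
    by_contra hne
    obtain ⟨m, hm, hIm⟩ := Ideal.exists_le_maximal I hne
    have hp : m.IsPrime := hm.isPrime
    let f : S →ₗ[R] Localization (Algebra.algebraMapSubmonoid S m.primeCompl) :=
      (IsScalarTower.toAlgHom R S (Localization (Algebra.algebraMapSubmonoid S m.primeCompl))).toLinearMap
    have : IsLocalizedModule m.primeCompl f :=
      isLocalizedModule_iff_isLocalization.mpr inferInstance
    have hE := h m
    have key : TensorProduct.map f f x = TensorProduct.map f f 0 := by
      have e1 := (Algebra.isEpi_iff_forall_one_tmul_eq _ _).mp hE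
        (algebraMap S (Localization (Algebra.algebraMapSubmonoid S m.primeCompl)) s)
      have e2 := congrArg (IsLocalization.moduleTensorEquiv m.primeCompl (Localization.AtPrime m)
        (Localization (Algebra.algebraMapSubmonoid S m.primeCompl))
        (Localization (Algebra.algebraMapSubmonoid S m.primeCompl))) e1
      simp only [IsLocalization.moduleTensorEquiv] at e2
      simp [hx, f, sub_eq_zero]
      exact e2
    obtain ⟨c, hc⟩ := IsLocalizedModule.exists_of_eq (S := m.primeCompl) (f := TensorProduct.map f f) key
    exact c.2 (hIm (by simpa [I, Submonoid.smul_def] using hc))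

end Groth.Agent.S6371
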