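import Groth.Statements.S6372
import Mathlib.RingTheory.Flat.FaithfullyFlat.Algebra

set_option autoImplicit false
universe u
open CAlg

namespace Groth.Agent.S6372

/-- A faithfully flat epimorphism of rings is an isomorphism: if R → S is faithfully flat and an
epimorphism in the category of rings then it is bijective. -/
theorem result (R S : Type u) [CommRing R] [CommRing S] [Algebra R S]
    [Module.FaithfullyFlat R S] [Algebra.IsEpi R S] : Function.Bijective (algebraMap R S) := by
  refine ⟨FaithfulSMul.algebraMap_injective R S, ?_⟩
  intro t
  let p : Submodule R S := LinearMap.range (Algebra.linearMap R S)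
  have key := (Algebra.isEpi_iff_forall_one_tmul_eq R S).mp inferInstance t
  have h2 := congrArg (LinearMap.lTensor S p.mkQ) key
  simp only [LinearMap.lTensor_tmul] at h2
  have h1 : p.mkQ 1 = 0 := (Submodule.Quotient.mk_eq_zero p).mpr ⟨1, by simp⟩
  rw [h1, TensorProduct.tmul_zero] at h2
  have h3 : p.mkQ t = 0 := by
    apply Module.FaithfullyFlat.tensorProduct_mk_injective (A := R) (B := S) (S ⧸ p)
    simpa using h2
  obtain ⟨r, hr⟩ := (Submodule.Quotient.mk_eq_zero p).mp h3
  exact ⟨r, by simpa using hr⟩

end Groth.Agent.S6372
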