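import Groth.Statements.S6373
import Mathlib.LinearAlgebra.Dual.Lemmas
import Mathlib.RingTheory.TensorProduct.Basic

set_option autoImplicit false
universe u
open CAlg

namespace Groth.Agent.S6373

/-- If k is a field and k → S is an epimorphism of rings, then S is the zero ring or k → S is an
isomorphism. -/
theorem result (k S : Type u) [Field k] [CommRing S] [Algebra k S] [Algebra.IsEpi k S] :
    Subsingleton S ∨ Function.Bijective (algebraMap k S) := by
  rcases subsingleton_or_nontrivial S with h | h
  · exact Or.inl h
  right
  refine ⟨(algebraMap k S).injective, ?_⟩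
  intro s
  by_contra hs
  simp only [not_exists] at hs
  let p : Submodule k S := LinearMap.range (Algebra.linearMap k S)
  have hsp : s ∉ p := by
    rintro ⟨a, ha⟩
    exact hs a ha
  obtain ⟨g, hg, hpg⟩ := Submodule.exists_dual_map_eq_bot_of_notMem hsp inferInstance
  have hg1 : g 1 = 0 := by
    have h1 : (1 : S) ∈ p := ⟨1, by simp⟩
    have : g 1 ∈ p.map g := Submodule.mem_map_of_mem h1
    rw [hpg] at this
    simpa using this
  obtain ⟨f, hf⟩ := Module.Projective.exists_dual_eq_one k (one_ne_zero : (1 : S) ≠ 0)
  have key := (Algebra.isEpi_iff_forall_one_tmul_eq k S).mp inferInstance s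
  have := congrArg ((LinearMap.mul' k k).comp (TensorProduct.map f g)) key
  simp only [LinearMap.comp_apply, TensorProduct.map_tmul, LinearMap.mul'_apply, hf, hg1,
    one_mul, mul_zero] at this
  exact hg this

end Groth.Agent.S6373
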