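import Groth.Statements.S6374
import Groth.Agent.S6373
import Mathlib.Algebra.Algebra.Epi
import Mathlib.RingTheory.LocalRing.ResidueField.Fiber

set_option autoImplicit false
universe u
open CAlg

namespace Groth.Agent.S6374

theorem isEpi_baseChange (R S K : Type*) [CommRing R] [CommRing S] [Algebra R S] [CommRing K]
    [Algebra R K] [Algebra.IsEpi R S] : Algebra.IsEpi K (TensorProduct R K S) := by
  rw [Algebra.isEpi_iff_forall_one_tmul_eq]
  intro t
  induction t using TensorProduct.induction_on with
  | zero => simp
  | tmul k s =>
    have h1 : (k ⊗ₜ[R] s : TensorProduct R K S) = k • ((1 : K) ⊗ₜ[R] s) := by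
      rw [TensorProduct.smul_tmul', smul_eq_mul, mul_one]
    rw [h1, TensorProduct.tmul_smul, ← TensorProduct.smul_tmul']
    congr 1
    let φ : S →ₗ[R] S →ₗ[R] TensorProduct K (TensorProduct R K S) (TensorProduct R K S) :=
      (((TensorProduct.mk K (TensorProduct R K S) (TensorProduct R K S)).restrictScalars₁₂ R R).compl₁₂
        (TensorProduct.mk R K S 1) (TensorProduct.mk R K S 1))
    have := congrArg (TensorProduct.lift φ)
      ((Algebra.isEpi_iff_forall_one_tmul_eq R S).mp inferInstance s)
    simpa [φ, ← Algebra.TensorProduct.one_def] using this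
  | add x y hx hy => simp [TensorProduct.tmul_add, TensorProduct.add_tmul, hx, hy]


/-- For an epimorphism of rings R → S, the induced map Spec S → Spec R is injective and induces trivial
residue field extensions; stated in the form the proof gives: for every prime p of R the fibre ring
S ⊗_R κ(p) is either zero or κ(p) → S ⊗_R κ(p) is bijective, together with injectivity of Spec S →
Spec R. -/
theorem result (R S : Type u) [CommRing R] [CommRing S] [Algebra R S]
    [Algebra.IsEpi R S] :
    Function.Injective (PrimeSpectrum.comap (algebraMap R S)) ∧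
      ∀ (p : Ideal R) [p.IsPrime],
        Subsingleton (p.Fiber S) ∨ Function.Bijective (algebraMap p.ResidueField (p.Fiber S)) := by
  have part2 : ∀ (p : Ideal R) [p.IsPrime],
      Subsingleton (p.Fiber S) ∨ Function.Bijective (algebraMap p.ResidueField (p.Fiber S)) := by
    intro p _
    have := isEpi_baseChange R S p.ResidueField
    exact Groth.Agent.S6373.result p.ResidueField (p.Fiber S)
  refine ⟨?_, part2⟩
  intro q1 q2 h
  let P := PrimeSpectrum.comap (algebraMap R S) q1
  let e := PrimeSpectrum.preimageEquivFiber R S P
  have h1 : q1 ∈ PrimeSpectrum.comap (algebraMap R S) ⁻¹' {P} := rfl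
  have h2 : q2 ∈ PrimeSpectrum.comap (algebraMap R S) ⁻¹' {P} := by
    simp only [Set.mem_preimage, Set.mem_singleton_iff, P]
    exact h.symm
  have key : e ⟨q1, h1⟩ = e ⟨q2, h2⟩ := by
    rcases part2 P.asIdeal with hs | hb
    · exfalso
      exact (e ⟨q1, h1⟩).isPrime.ne_top ((Ideal.eq_top_iff_one _).mpr
        (by rw [Subsingleton.elim (1 : P.asIdeal.Fiber S) 0]; exact zero_mem _))
    · apply PrimeSpectrum.comap_injective_of_surjective
        (algebraMap P.asIdeal.ResidueField (P.asIdeal.Fiber S)) hb.2
      exact Subsingleton.elim _ _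
  exact congrArg Subtype.val (e.injective key)

end Groth.Agent.S6374
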