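import Groth.Statements.S6376
import Mathlib.Algebra.Algebra.Epi
import Mathlib.RingTheory.TensorProduct.Basic

set_option autoImplicit false
universe u
open CAlg

namespace Groth.Agent.S6376

/-- A ring map R → S is an epimorphism if and only if for all S-modules N₁, N₂ every R-linear map N₁ →
N₂ is S-linear, i.e. restriction of scalars from S-modules to R-modules is fully faithful. -/
theorem result (R S : Type u) [CommRing R] [CommRing S] [Algebra R S] :
    Algebra.IsEpi R S ↔
      ∀ (N₁ N₂ : Type u) [AddCommGroup N₁] [Module S N₁] [Module R N₁] [IsScalarTower R S N₁]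
        [AddCommGroup N₂] [Module S N₂] [Module R N₂] [IsScalarTower R S N₂] (φ : N₁ →ₗ[R] N₂),
        ∀ (s : S) (x : N₁), φ (s • x) = s • φ x := by
  constructor
  · intro hE N₁ N₂ _ _ _ _ _ _ _ _ φ s x
    let B : S →ₗ[R] S →ₗ[R] N₂ := LinearMap.mk₂ R (fun a b => a • φ (b • x))
      (fun a a' b => add_smul a a' _)
      (fun r a b => by rw [smul_assoc])
      (fun a b b' => by rw [add_smul, map_add, smul_add])
      (fun r a b => by
        rw [smul_assoc, LinearMap.map_smul, smul_comm])
    have key := congrArg (TensorProduct.lift B)
      ((Algebra.isEpi_iff_forall_one_tmul_eq R S).mp hE s)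
    simpa [B] using key
  · intro h
    rw [Algebra.isEpi_iff_forall_one_tmul_eq]
    intro s
    have := h S (TensorProduct R S S) (TensorProduct.mk R S S 1) s 1
    simpa [TensorProduct.smul_tmul'] using this

end Groth.Agent.S6376
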