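import Groth.Statements.S6393
-- import your own Groth.Agent.* helpers here

set_option autoImplicit false
open CategoryTheory
universe v₂ u₂ v u
open FibCat

namespace Groth.Agent.S6393

theorem sc_transport {𝒳 : Type u₂} [Category.{v₂} 𝒳] {𝒮 : Type u} [Category.{v} 𝒮] (p : 𝒳 ⥤ 𝒮)
    {R S : 𝒮} {a b : 𝒳} (f : R ⟶ S) (φ : a ⟶ b) [p.IsHomLift f φ]
    [p.IsStronglyCartesian (p.map φ) φ] : p.IsStronglyCartesian f φ := by
  subst_hom_lift p f φ
  infer_instance

/-- Given `p : S ⥤ C`, saying that p is fibred in groupoids is equivalent to saying that p is a fibred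
functor whose fibre category over every object of C is a groupoid. -/
theorem result {C : Type u} [Category.{v} C] {S : Type u₂} [Category.{v₂} S] (p : S ⥤ C) :
    FibCat.IsFibGrpd p ↔ (p.IsFibered ∧ ∀ U : C, IsGroupoid (p.Fiber U)) := by
  constructor
  · intro h
    refine ⟨?_, fun U => ⟨fun {X Y} g => ?_⟩⟩
    · refine Functor.IsFibered.of_exists_isStronglyCartesian (fun a R f => ?_)
      obtain ⟨y, φ, hφ⟩ := h.exists_lift f
      have := h.isStronglyCartesian φ
      exact ⟨y, φ, sc_transport p f φ⟩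
    · have h1 : p.IsHomLift (𝟙 U) g.1 := g.2
      have h2 := h.isStronglyCartesian g.1
      have h3 : p.IsStronglyCartesian (𝟙 U) g.1 := sc_transport p (𝟙 U) g.1
      have h4 : IsIso g.1 := Functor.IsStronglyCartesian.isIso_of_base_isIso p (𝟙 U) g.1
      have h5 : p.IsHomLift (𝟙 U) (inv g.1) := inferInstance
      refine ⟨⟨⟨inv g.1, h5⟩, ?_, ?_⟩⟩
      · ext; exact IsIso.hom_inv_id g.1
      · ext; exact IsIso.inv_hom_id g.1
  · rintro ⟨hfib, hgrp⟩
    refine ⟨fun {x V} f => ?_, fun {y x} φ => ?_⟩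
    · obtain ⟨b, φ, hφ⟩ := Functor.IsPreFibered.exists_isCartesian' (p := p) f
      exact ⟨b, φ, inferInstance⟩
    · obtain ⟨z, ψ, hψ⟩ := Functor.IsPreFibered.exists_isCartesian' (p := p) (p.map φ)
      let χ := Functor.IsCartesian.map p (p.map φ) ψ φ
      have hχ : p.IsHomLift (𝟙 (p.obj y)) χ := inferInstance
      have hfac : χ ≫ ψ = φ := Functor.IsCartesian.fac p (p.map φ) ψ φ
      have hz : p.obj z = p.obj y := IsHomLift.codomain_eq p (𝟙 (p.obj y)) χ
      let χf : (Functor.Fiber.mk (p := p) (rfl : p.obj y = p.obj y)) ⟶ Functor.Fiber.mk hz := ⟨χ, hχ⟩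
      have hiso : IsIso χf := (hgrp (p.obj y)).all_isIso χf
      have hiso' : IsIso χ := by
        have := Functor.map_isIso (Functor.Fiber.fiberInclusion) χf
        exact this
      have hsc1 : p.IsStronglyCartesian (𝟙 (p.obj y)) χ :=
        Functor.IsStronglyCartesian.of_isIso p (𝟙 (p.obj y)) χ
      have hsc2 : p.IsStronglyCartesian (p.map φ) ψ := inferInstance
      have hsc3 : p.IsStronglyCartesian (𝟙 (p.obj y) ≫ p.map φ) (χ ≫ ψ) := inferInstance
      rw [Category.id_comp, hfac] at hsc3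
      exact hsc3

end Groth.Agent.S6393
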