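import Groth.Statements.S6395
-- import your own Groth.Agent.* helpers here

set_option autoImplicit false
open CategoryTheory
universe v u
open FibCat

namespace Groth.Agent.S6395

/-- An equivalence `F : 𝒳 ⟶ 𝒴` in the 2-category of categories over `C` maps strongly cartesian
morphisms to strongly cartesian morphisms. -/
theorem result {C : Type u} [Category.{v} C] {𝒳 𝒴 : BasedCategory.{v, max u v} C} (F : 𝒳 ⥤ᵇ 𝒴) (hF : FibCat.IsEquivOver F)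
    {R S : C} (f : R ⟶ S) {a b : 𝒳.obj} (φ : a ⟶ b) [𝒳.p.IsStronglyCartesian f φ] :
    𝒴.p.IsStronglyCartesian f (F.map φ) := by
  obtain ⟨G, ⟨ε⟩, ⟨η⟩⟩ := hF
  let E : 𝒳.obj ≌ 𝒴.obj := CategoryTheory.Equivalence.mk F.toFunctor G.toFunctor
    ((BasedNatTrans.forgetful 𝒳 𝒳).mapIso ε).symm ((BasedNatTrans.forgetful 𝒴 𝒴).mapIso η)
  let hff : F.toFunctor.FullyFaithful := E.fullyFaithfulFunctor
  refine ⟨fun {a'} g φ' hφ' => ?_⟩
  let ei : F.obj (G.obj a') ⟶ a' := η.hom.toNatTrans.app a'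
  let eh : a' ⟶ F.obj (G.obj a') := η.inv.toNatTrans.app a'
  have hei : eh ≫ ei = 𝟙 a' := congrArg (fun α => α.toNatTrans.app a') η.inv_hom_id
  have lei : 𝒴.p.IsHomLift (𝟙 (𝒴.p.obj a')) ei := BasedNatTrans.app_isHomLift _ a'
  have leh : 𝒴.p.IsHomLift (𝟙 (𝒴.p.obj a')) eh := BasedNatTrans.app_isHomLift _ a'
  let ψ : G.obj a' ⟶ b := hff.preimage (ei ≫ φ')
  have hψ : F.map ψ = ei ≫ φ' := hff.map_preimage _
  have l1 : 𝒴.p.IsHomLift (g ≫ f) (F.map ψ) := by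
    rw [hψ]
    have : 𝒴.p.IsHomLift (𝟙 _ ≫ (g ≫ f)) (ei ≫ φ') := inferInstance
    simpa using this
  have l2 : 𝒳.p.IsHomLift (g ≫ f) ψ := BasedFunctor.isHomLift_map F (g ≫ f) ψ
  obtain ⟨χ₀, ⟨hχ₀l, hχ₀f⟩, hχ₀u⟩ :=
    Functor.IsStronglyCartesian.universal_property 𝒳.p f φ g (g ≫ f) rfl ψ
  refine ⟨eh ≫ F.map χ₀, ⟨?_, ?_⟩, ?_⟩
  · have : 𝒴.p.IsHomLift (𝟙 _ ≫ g) (eh ≫ F.map χ₀) := inferInstance
    simpa using this
  · rw [Category.assoc, ← F.map_comp, hχ₀f, hψ, ← Category.assoc, hei, Category.id_comp]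
  · rintro χ' ⟨hχ'l, hχ'f⟩
    let χ₁ : G.obj a' ⟶ a := hff.preimage (ei ≫ χ')
    have hχ₁ : F.map χ₁ = ei ≫ χ' := hff.map_preimage _
    have l3 : 𝒳.p.IsHomLift g χ₁ := by
      have : 𝒴.p.IsHomLift (𝟙 _ ≫ g) (ei ≫ χ') := inferInstance
      rw [Category.id_comp, ← hχ₁] at this
      exact BasedFunctor.isHomLift_map F g χ₁
    have l4 : χ₁ ≫ φ = ψ := by
      apply hff.map_injective
      rw [F.map_comp, hχ₁, hψ, Category.assoc, hχ'f]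
    have h5 := hχ₀u χ₁ ⟨l3, l4⟩
    calc χ' = eh ≫ ei ≫ χ' := by rw [← Category.assoc, hei, Category.id_comp]
      _ = eh ≫ F.map χ₁ := by rw [hχ₁]
      _ = eh ≫ F.map χ₀ := by rw [h5]

end Groth.Agent.S6395
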