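import Groth.Statements.S6394
import Groth.Agent.S6395

set_option autoImplicit false
open CategoryTheory
universe v u
open FibCat

namespace Groth.Agent.S6394

theorem dir {C : Type u} [Category.{v} C] {𝒳 𝒴 : BasedCategory.{v, max u v} C} (F : 𝒳 ⥤ᵇ 𝒴)
    (hF : FibCat.IsEquivOver F) [𝒳.p.IsFibered] : 𝒴.p.IsFibered := by
  obtain ⟨G, ⟨ε⟩, ⟨η⟩⟩ := id hF
  refine Functor.IsFibered.of_exists_isStronglyCartesian (fun a R f => ?_)
  have ha : 𝒳.p.obj (G.obj a) = 𝒴.p.obj a := BasedFunctor.w_obj G a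
  obtain ⟨b, φ, hφ⟩ := IsPreFibered.exists_isCartesian 𝒳.p ha f
  have h1 : 𝒳.p.IsStronglyCartesian f φ := inferInstance
  have h2 : 𝒴.p.IsStronglyCartesian f (F.map φ) := Groth.Agent.S6395.result F hF f φ
  let e : F.obj (G.obj a) ⟶ a := η.hom.toNatTrans.app a
  have h3 : 𝒴.p.IsHomLift (𝟙 (𝒴.p.obj a)) e := BasedNatTrans.app_isHomLift _ a
  have h4 : IsIso e := ⟨η.inv.toNatTrans.app a,
    congrArg (fun α => α.toNatTrans.app a) η.hom_inv_id,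
    congrArg (fun α => α.toNatTrans.app a) η.inv_hom_id⟩
  have h5 : 𝒴.p.IsStronglyCartesian (𝟙 (𝒴.p.obj a)) e :=
    Functor.IsStronglyCartesian.of_isIso 𝒴.p (𝟙 (𝒴.p.obj a)) e
  have h6 : 𝒴.p.IsStronglyCartesian (f ≫ 𝟙 _) (F.map φ ≫ e) := inferInstance
  rw [Category.comp_id] at h6
  exact ⟨_, _, h6⟩

/-- If `F : 𝒳 ⟶ 𝒴` is an equivalence in the 2-category of categories over `C`, then `𝒳` is fibred over
`C` if and only if `𝒴` is. -/
theorem result {C : Type u} [Category.{v} C] {𝒳 𝒴 : BasedCategory.{v, max u v} C} (F : 𝒳 ⥤ᵇ 𝒴) (hF : FibCat.IsEquivOver F) :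
    𝒳.p.IsFibered ↔ 𝒴.p.IsFibered := by
  obtain ⟨G, ⟨ε⟩, ⟨η⟩⟩ := id hF
  have hG : FibCat.IsEquivOver G := ⟨F, ⟨η⟩, ⟨ε⟩⟩
  constructor
  · intro h
    exact dir F hF
  · intro h
    exact dir G hG

end Groth.Agent.S6394
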