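import Groth.Statements.S6396
-- import your own Groth.Agent.* helpers here

set_option autoImplicit false
open CategoryTheory
universe v u
open FibCat

namespace Groth.Agent.S6396

theorem sc_transport {𝒳 : Type*} [Category 𝒳] {𝒮 : Type*} [Category 𝒮] (p : 𝒳 ⥤ 𝒮)
    {R S : 𝒮} {a b : 𝒳} (f : R ⟶ S) (φ : a ⟶ b) [p.IsHomLift f φ]
    [p.IsStronglyCartesian (p.map φ) φ] : p.IsStronglyCartesian f φ := by
  subst_hom_lift p f φ
  infer_instance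

theorem faithful_aux {C : Type u} [Category.{v} C] {𝒳 𝒴 : BasedCategory.{v, max u v} C}
    (G : 𝒳 ⥤ᵇ 𝒴) (h𝒳 : FibCat.IsFibGrpd 𝒳.p) (h𝒴 : FibCat.IsFibGrpd 𝒴.p)
    (hU : ∀ U : C, (FibCat.fiberFunctor G U).Faithful) {a b : 𝒳.obj} (φ ψ : a ⟶ b)
    (h : G.map φ = G.map ψ) : φ = ψ := by
  have hs := h𝒳.isStronglyCartesian φ
  have l1 : 𝒴.p.IsHomLift (𝒳.p.map ψ) (G.map φ) := by rw [h]; infer_instance
  have l2 : 𝒳.p.IsHomLift (𝒳.p.map ψ) φ := BasedFunctor.isHomLift_map G _ φ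
  have e1 : 𝒳.p.map ψ = 𝒳.p.map φ := IsHomLift.eq_of_isHomLift 𝒳.p _ φ
  have l3 : 𝒳.p.IsHomLift (𝒳.p.map φ) ψ := by rw [← e1]; infer_instance
  obtain ⟨χ, ⟨hχl, hχf⟩, -⟩ := Functor.IsStronglyCartesian.universal_property 𝒳.p
    (𝒳.p.map φ) φ (𝟙 (𝒳.p.obj a)) (𝒳.p.map φ) (Category.id_comp _).symm ψ
  have hsG := h𝒴.isStronglyCartesian (G.map φ)
  have l4 : 𝒴.p.IsHomLift (𝒳.p.map φ) (G.map φ) := inferInstance
  have hsG' : 𝒴.p.IsStronglyCartesian (𝒳.p.map φ) (G.map φ) := sc_transport 𝒴.p _ _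
  have l5 : 𝒴.p.IsHomLift (𝟙 (𝒳.p.obj a)) (G.map χ) := inferInstance
  have e2 : G.map χ = 𝟙 (G.obj a) := by
    apply Functor.IsStronglyCartesian.ext 𝒴.p (𝒳.p.map φ) (G.map φ) (𝟙 (𝒳.p.obj a))
    rw [← G.map_comp, hχf, ← h, Category.id_comp]
  let x : 𝒳.p.Fiber (𝒳.p.obj a) := Functor.Fiber.mk (p := 𝒳.p) (rfl : 𝒳.p.obj a = 𝒳.p.obj a)
  let χf : x ⟶ x := ⟨χ, hχl⟩
  have e3 : (FibCat.fiberFunctor G (𝒳.p.obj a)).map χf =
      (FibCat.fiberFunctor G (𝒳.p.obj a)).map (𝟙 x) := by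
    apply Functor.Fiber.hom_ext
    change G.map χ = G.map (𝟙 a)
    rw [e2, G.map_id]
  have e4 : χf = 𝟙 x := (FibCat.fiberFunctor G (𝒳.p.obj a)).map_injective e3
  have e5 : χ = 𝟙 a := congrArg Subtype.val e4
  rw [← hχf, e5, Category.id_comp]

/-- A functor `G` over `C` between categories fibred in groupoids is faithful if and only if each
induced functor of fibre categories `𝒳_U ⥤ 𝒴_U` is faithful. -/
theorem result {C : Type u} [Category.{v} C] {𝒳 𝒴 : BasedCategory.{v, max u v} C} (G : 𝒳 ⥤ᵇ 𝒴) (h𝒳 : FibCat.IsFibGrpd 𝒳.p) (h𝒴 : FibCat.IsFibGrpd 𝒴.p) :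
    G.toFunctor.Faithful ↔ ∀ U : C, (FibCat.fiberFunctor G U).Faithful := by
  constructor
  · intro hG U
    refine ⟨fun {x y} φ ψ h => ?_⟩
    apply Functor.Fiber.hom_ext
    have h1 : G.map φ.1 = G.map ψ.1 := congrArg Subtype.val h
    exact G.toFunctor.map_injective h1
  · intro hU
    exact ⟨fun {a b} φ ψ h => faithful_aux G h𝒳 h𝒴 hU φ ψ h⟩

end Groth.Agent.S6396
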