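import Groth.Statements.S6397
import Groth.Agent.S6396

set_option autoImplicit false
open CategoryTheory
universe v u
open FibCat

namespace Groth.Agent.S6397

/-- A functor `G` over `C` between categories fibred in groupoids is fully faithful if and only if each
induced functor of fibre categories `𝒳_U ⥤ 𝒴_U` is fully faithful. -/
theorem result {C : Type u} [Category.{v} C] {𝒳 𝒴 : BasedCategory.{v, max u v} C} (G : 𝒳 ⥤ᵇ 𝒴) (h𝒳 : FibCat.IsFibGrpd 𝒳.p) (h𝒴 : FibCat.IsFibGrpd 𝒴.p) :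
    (G.toFunctor.Full ∧ G.toFunctor.Faithful) ↔ ∀ U : C, (FibCat.fiberFunctor G U).Full ∧ (FibCat.fiberFunctor G U).Faithful := by
  constructor
  · rintro ⟨hFull, hFaith⟩ U
    refine ⟨⟨fun {x y} ψ => ?_⟩, ((Groth.Agent.S6396.result G h𝒳 h𝒴).mp hFaith) U⟩
    let φ : x.1 ⟶ y.1 := G.toFunctor.preimage ψ.1
    have hφ : G.map φ = ψ.1 := G.toFunctor.map_preimage ψ.1
    have l1 : 𝒴.p.IsHomLift (𝟙 U) (G.map φ) := by rw [hφ]; exact ψ.2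
    have l2 : 𝒳.p.IsHomLift (𝟙 U) φ := BasedFunctor.isHomLift_map G (𝟙 U) φ
    exact ⟨⟨φ, l2⟩, Functor.Fiber.hom_ext hφ⟩
  · intro hU
    refine ⟨⟨fun {a b} ψ => ?_⟩,
      (Groth.Agent.S6396.result G h𝒳 h𝒴).mpr (fun U => (hU U).2)⟩
    let f : 𝒳.p.obj a ⟶ 𝒳.p.obj b :=
      eqToHom (G.w_obj a).symm ≫ 𝒴.p.map ψ ≫ eqToHom (G.w_obj b)
    have hl : 𝒴.p.IsHomLift f ψ := IsHomLift.of_fac _ _ _ (G.w_obj a) (G.w_obj b) rfl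
    obtain ⟨a', φ₀, hφ₀⟩ := h𝒳.exists_lift (x := b) f
    have hs0 := h𝒴.isStronglyCartesian (G.map φ₀)
    have l0 : 𝒴.p.IsHomLift f (G.map φ₀) := inferInstance
    have hs1 : 𝒴.p.IsStronglyCartesian f (G.map φ₀) := Groth.Agent.S6396.sc_transport 𝒴.p _ _
    obtain ⟨χ, ⟨hχl, hχf⟩, -⟩ := Functor.IsStronglyCartesian.universal_property 𝒴.p
      f (G.map φ₀) (𝟙 (𝒳.p.obj a)) f (Category.id_comp _).symm ψ
    have ha' : 𝒳.p.obj a' = 𝒳.p.obj a := IsHomLift.domain_eq 𝒳.p f φ₀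
    let x : 𝒳.p.Fiber (𝒳.p.obj a) := Functor.Fiber.mk (p := 𝒳.p) (rfl : 𝒳.p.obj a = 𝒳.p.obj a)
    let x' : 𝒳.p.Fiber (𝒳.p.obj a) := Functor.Fiber.mk (p := 𝒳.p) ha'
    let χf : (FibCat.fiberFunctor G (𝒳.p.obj a)).obj x ⟶
        (FibCat.fiberFunctor G (𝒳.p.obj a)).obj x' := ⟨χ, hχl⟩
    obtain ⟨χ₀f, hχ₀⟩ := (hU (𝒳.p.obj a)).1.map_surjective χf
    let χ₀ : a ⟶ a' := χ₀f.1
    have e1 : G.map χ₀ = χ := congrArg Subtype.val hχ₀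
    refine ⟨χ₀ ≫ φ₀, ?_⟩
    have e2 : G.map (χ₀ ≫ φ₀) = G.map χ₀ ≫ G.map φ₀ := G.toFunctor.map_comp χ₀ φ₀
    rw [e2, e1, hχf]

end Groth.Agent.S6397
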