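import Groth.Statements.S6398
import Groth.Agent.S6397

set_option autoImplicit false
open CategoryTheory
universe v u
open FibCat

namespace Groth.Agent.S6398

/-- A functor `G` over `C` between categories fibred in groupoids is an equivalence of categories if and
only if each induced functor of fibre categories `𝒳_U ⥤ 𝒴_U` is an equivalence of categories. -/
theorem result {C : Type u} [Category.{v} C] {𝒳 𝒴 : BasedCategory.{v, max u v} C} (G : 𝒳 ⥤ᵇ 𝒴) (h𝒳 : FibCat.IsFibGrpd 𝒳.p) (h𝒴 : FibCat.IsFibGrpd 𝒴.p) :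
    G.toFunctor.IsEquivalence ↔ ∀ U : C, (FibCat.fiberFunctor G U).IsEquivalence := by
  constructor
  · intro hG
    have hff := (Groth.Agent.S6397.result G h𝒳 h𝒴).mp ⟨hG.full, hG.faithful⟩
    intro U
    have hFull := (hff U).1
    have hFaith := (hff U).2
    refine { faithful := hFaith, full := hFull, essSurj := ⟨fun y => ?_⟩ }
    obtain ⟨x, ⟨e⟩⟩ := hG.essSurj.mem_essImage y.1
    let f : 𝒳.p.obj x ⟶ U :=
      eqToHom (G.w_obj x).symm ≫ 𝒴.p.map e.hom ≫ eqToHom y.2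
    have hl : 𝒴.p.IsHomLift f e.hom := IsHomLift.of_fac _ _ _ (G.w_obj x) y.2 rfl
    have hfi : IsIso f := by
      have : IsIso (𝒴.p.map e.hom) := inferInstance
      infer_instance
    obtain ⟨x', φ, hφ⟩ := h𝒳.exists_lift (x := x) (inv f)
    have hx' : 𝒳.p.obj x' = U := IsHomLift.domain_eq 𝒳.p (inv f) φ
    have hs0 := h𝒳.isStronglyCartesian φ
    have hs1 : 𝒳.p.IsStronglyCartesian (inv f) φ := Groth.Agent.S6396.sc_transport 𝒳.p _ _
    have hφi : IsIso φ := Functor.IsStronglyCartesian.isIso_of_base_isIso 𝒳.p (inv f) φ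
    let c : G.obj x' ⟶ y.1 := G.map φ ≫ e.hom
    have hc1 : 𝒴.p.IsHomLift (inv f ≫ f) c := inferInstance
    have hc2 : 𝒴.p.IsHomLift (𝟙 U) c := by
      rw [IsIso.inv_hom_id] at hc1; exact hc1
    have hci : IsIso c := by
      have : IsIso (G.map φ) := Functor.map_isIso G.toFunctor φ
      exact IsIso.comp_isIso
    let ci : y.1 ⟶ G.obj x' := inv c
    have hc3 : 𝒴.p.IsHomLift (𝟙 U) ci := inferInstance
    have hc4 : c ≫ ci = 𝟙 _ := IsIso.hom_inv_id c
    have hc5 : ci ≫ c = 𝟙 _ := IsIso.inv_hom_id c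
    let xf : 𝒳.p.Fiber U := Functor.Fiber.mk (p := 𝒳.p) hx'
    refine ⟨xf, ⟨⟨⟨c, hc2⟩, ⟨ci, hc3⟩, ?_, ?_⟩⟩⟩
    · apply Functor.Fiber.hom_ext
      exact hc4
    · apply Functor.Fiber.hom_ext
      exact hc5
  · intro hU
    have hff := (Groth.Agent.S6397.result G h𝒳 h𝒴).mpr
      (fun U => ⟨(hU U).full, (hU U).faithful⟩)
    have hFull := hff.1
    have hFaith := hff.2
    refine { faithful := hFaith, full := hFull, essSurj := ⟨fun y => ?_⟩ }
    let yf : 𝒴.p.Fiber (𝒴.p.obj y) := Functor.Fiber.mk (p := 𝒴.p) (rfl : 𝒴.p.obj y = 𝒴.p.obj y)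
    obtain ⟨xf, ⟨e⟩⟩ := (hU (𝒴.p.obj y)).essSurj.mem_essImage yf
    exact ⟨xf.1, ⟨Functor.Fiber.fiberInclusion.mapIso e⟩⟩

end Groth.Agent.S6398
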