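import Groth.Statements.S6401
-- import your own Groth.Agent.* helpers here

set_option autoImplicit false
open CategoryTheory
universe v u
open FibCat

namespace Groth.Agent.S6401

theorem sc_transport {𝒳 : Type*} [Category 𝒳] {𝒮 : Type*} [Category 𝒮] (p : 𝒳 ⥤ 𝒮)
    {R S : 𝒮} {a b : 𝒳} (f : R ⟶ S) (φ : a ⟶ b) [p.IsHomLift f φ]
    [p.IsStronglyCartesian (p.map φ) φ] : p.IsStronglyCartesian f φ := by
  subst_hom_lift p f φ
  infer_instance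

theorem lift_comp_iff {A : Type*} [Category A] {B : Type*} [Category B] {D : Type*} [Category D]
    (G : A ⥤ B) (p : B ⥤ D) {R S : D} {a b : A} (f : R ⟶ S) (ψ : a ⟶ b) :
    (G ⋙ p).IsHomLift f ψ ↔ p.IsHomLift f (G.map ψ) := by
  constructor
  · intro h
    exact IsHomLift.of_fac p f (G.map ψ) (IsHomLift.domain_eq (G ⋙ p) f ψ)
      (IsHomLift.codomain_eq (G ⋙ p) f ψ) (IsHomLift.fac (G ⋙ p) f ψ)
  · intro h
    exact IsHomLift.of_fac (G ⋙ p) f ψ (IsHomLift.domain_eq p f (G.map ψ))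
      (IsHomLift.codomain_eq p f (G.map ψ)) (IsHomLift.fac p f (G.map ψ))

theorem fp_lift_iff {C : Type u} [Category.{v} C] {𝒳 𝒴 𝒮 : BasedCategory.{v, max u v} C}
    (F : 𝒳 ⥤ᵇ 𝒮) (G : 𝒴 ⥤ᵇ 𝒮) {X Y : (fp F G).obj} {R S : C} (f : R ⟶ S) (m : X ⟶ Y) :
    (fp F G).p.IsHomLift f m ↔ 𝒳.p.IsHomLift f m.hom.fst := by
  rw [lift_comp_iff, lift_comp_iff]
  rfl

/-- For categories `𝒳, 𝒴, 𝒮` fibred in groupoids over `C` and functors `F : 𝒳 ⟶ 𝒮`, `G : 𝒴 ⟶ 𝒮` over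
`C`, the 2-fibre product `𝒳 ×_𝒮 𝒴` over `C` is fibred in groupoids over `C`. -/
theorem result {C : Type u} [Category.{v} C] {𝒳 𝒴 𝒮 : BasedCategory.{v, max u v} C} (F : 𝒳 ⥤ᵇ 𝒮) (G : 𝒴 ⥤ᵇ 𝒮) (h𝒳 : FibCat.IsFibGrpd 𝒳.p) (h𝒴 : FibCat.IsFibGrpd 𝒴.p) (h𝒮 : FibCat.IsFibGrpd 𝒮.p) :
    FibCat.IsFibGrpd (FibCat.fp F G).p := by
  refine ⟨fun {X V} f => ?_, fun {X' X} m => ?_⟩
  · obtain ⟨x', φ, hφ⟩ := h𝒳.exists_lift (x := X.obj.fst) f
    have hφ' : 𝒳.p.IsHomLift (S := (fp F G).p.obj X) f φ := hφ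
    have hXp' : 𝒮.p.IsHomLift (𝟙 ((fp F G).p.obj X)) X.obj.iso.hom := X.property
    have hX : 𝒴.p.obj X.obj.snd = (fp F G).p.obj X :=
      (G.w_obj _).symm.trans (IsHomLift.codomain_eq 𝒮.p (𝟙 ((fp F G).p.obj X)) X.obj.iso.hom)
    obtain ⟨y', ψ, hψ⟩ := h𝒴.exists_lift (x := X.obj.snd) (f ≫ eqToHom hX.symm)
    have hψ' : 𝒴.p.IsHomLift f ψ := (IsHomLift.lift_comp_eqToHom_iff _ _ _ _).mp hψ
    have hs0 := h𝒮.isStronglyCartesian (G.map ψ)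
    have lGψ : 𝒮.p.IsHomLift f (G.map ψ) := inferInstance
    have hsG : 𝒮.p.IsStronglyCartesian f (G.map ψ) := sc_transport 𝒮.p f (G.map ψ)
    have l1 : 𝒮.p.IsHomLift f (F.map φ ≫ X.obj.iso.hom) := by
      have : 𝒮.p.IsHomLift (f ≫ 𝟙 _) (F.map φ ≫ X.obj.iso.hom) := inferInstance
      rw [Category.comp_id] at this; exact this
    let e₀ : F.obj x' ⟶ G.obj y' := Functor.IsStronglyCartesian.map 𝒮.p f (G.map ψ)
      (g := 𝟙 V) (f' := f) (Category.id_comp f).symm (F.map φ ≫ X.obj.iso.hom)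
    have he₀l : 𝒮.p.IsHomLift (𝟙 V) e₀ :=
      Functor.IsStronglyCartesian.map_isHomLift 𝒮.p f (G.map ψ) _ _
    have he₀f : e₀ ≫ G.map ψ = F.map φ ≫ X.obj.iso.hom :=
      Functor.IsStronglyCartesian.fac 𝒮.p f (G.map ψ) _ _
    have hs1 := h𝒮.isStronglyCartesian e₀
    have hs2 : 𝒮.p.IsStronglyCartesian (𝟙 V) e₀ := sc_transport 𝒮.p (𝟙 V) e₀
    have hiso : IsIso e₀ := Functor.IsStronglyCartesian.isIso_of_base_isIso 𝒮.p (𝟙 V) e₀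
    have hx' : 𝒳.p.obj x' = V := IsHomLift.domain_eq 𝒳.p f φ
    have hprop : 𝒮.p.IsHomLift (𝟙 (𝒳.p.obj x')) e₀ := by rw [hx']; exact he₀l
    let X'' : (fp F G).obj := ⟨⟨x', y', asIso e₀⟩, hprop⟩
    let m : X'' ⟶ X := ⟨⟨φ, ψ, he₀f.symm⟩⟩
    exact ⟨X'', m, (fp_lift_iff F G f m).mpr hφ'⟩
  · have hφ0 := h𝒳.isStronglyCartesian m.hom.fst
    have hφ : 𝒳.p.IsStronglyCartesian ((fp F G).p.map m) m.hom.fst := hφ0
    have hψ0 := h𝒴.isStronglyCartesian m.hom.snd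
    have lψ : 𝒴.p.IsHomLift ((fp F G).p.map m) m.hom.snd := inferInstance
    have hψ : 𝒴.p.IsStronglyCartesian ((fp F G).p.map m) m.hom.snd :=
      sc_transport 𝒴.p _ m.hom.snd
    have hGψ0 := h𝒮.isStronglyCartesian (G.map m.hom.snd)
    have lGψ : 𝒮.p.IsHomLift ((fp F G).p.map m) (G.map m.hom.snd) := inferInstance
    have hGψ : 𝒮.p.IsStronglyCartesian ((fp F G).p.map m) (G.map m.hom.snd) :=
      sc_transport 𝒮.p _ _
    have hl : (fp F G).p.IsHomLift ((fp F G).p.map m) m := IsHomLift.map _ m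
    refine ⟨fun {Z} g m' hm' => ?_⟩
    have h1 : 𝒳.p.IsHomLift (g ≫ (fp F G).p.map m) m'.hom.fst := (fp_lift_iff F G _ m').mp hm'
    have e1 : g ≫ (fp F G).p.map m = (fp F G).p.map m' := IsHomLift.eq_of_isHomLift _ _ m'
    have h2 : 𝒴.p.IsHomLift (g ≫ (fp F G).p.map m) m'.hom.snd := by
      rw [e1]; infer_instance
    obtain ⟨χ₁, ⟨hχ₁l, hχ₁f⟩, hχ₁u⟩ := Functor.IsStronglyCartesian.universal_property 𝒳.p
      ((fp F G).p.map m) m.hom.fst (R' := (fp F G).p.obj Z) g (g ≫ (fp F G).p.map m) rfl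
      m'.hom.fst
    obtain ⟨χ₂, ⟨hχ₂l, hχ₂f⟩, hχ₂u⟩ := Functor.IsStronglyCartesian.universal_property 𝒴.p
      ((fp F G).p.map m) m.hom.snd (R' := (fp F G).p.obj Z) g (g ≫ (fp F G).p.map m) rfl
      m'.hom.snd
    have hX'p : 𝒮.p.IsHomLift (𝟙 ((fp F G).p.obj X')) X'.obj.iso.hom := X'.property
    have hZp : 𝒮.p.IsHomLift (𝟙 ((fp F G).p.obj Z)) Z.obj.iso.hom := Z.property
    have l3 : 𝒮.p.IsHomLift g (F.map χ₁ ≫ X'.obj.iso.hom) := by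
      have : 𝒮.p.IsHomLift (g ≫ 𝟙 _) (F.map χ₁ ≫ X'.obj.iso.hom) := inferInstance
      rw [Category.comp_id] at this; exact this
    have l4 : 𝒮.p.IsHomLift g (Z.obj.iso.hom ≫ G.map χ₂) := by
      have : 𝒮.p.IsHomLift (𝟙 _ ≫ g) (Z.obj.iso.hom ≫ G.map χ₂) := inferInstance
      rw [Category.id_comp] at this; exact this
    have wχ : F.map χ₁ ≫ X'.obj.iso.hom = Z.obj.iso.hom ≫ G.map χ₂ := by
      apply Functor.IsStronglyCartesian.ext 𝒮.p ((fp F G).p.map m) (G.map m.hom.snd) g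
      rw [Category.assoc, ← m.hom.w, ← Category.assoc, ← F.map_comp, hχ₁f, m'.hom.w,
        Category.assoc, ← G.map_comp, hχ₂f]
    let χ : Z ⟶ X' := ⟨⟨χ₁, χ₂, wχ⟩⟩
    refine ⟨χ, ⟨(fp_lift_iff F G g χ).mpr hχ₁l, ?_⟩, ?_⟩
    · apply ObjectProperty.hom_ext
      apply Limits.CategoricalPullback.hom_ext
      · exact hχ₁f
      · exact hχ₂f
    · rintro χ' ⟨hχ'l, hχ'f⟩
      have hfst : χ'.hom.fst ≫ m.hom.fst = m'.hom.fst := by
        rw [← hχ'f]; rfl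
      have hsnd : χ'.hom.snd ≫ m.hom.snd = m'.hom.snd := by
        rw [← hχ'f]; rfl
      have e2 : g = (fp F G).p.map χ' := IsHomLift.eq_of_isHomLift _ _ χ'
      have l5 : 𝒴.p.IsHomLift g χ'.hom.snd := by rw [e2]; infer_instance
      apply ObjectProperty.hom_ext
      apply Limits.CategoricalPullback.hom_ext
      · exact hχ₁u χ'.hom.fst ⟨(fp_lift_iff F G g χ').mp hχ'l, hfst⟩
      · exact hχ₂u χ'.hom.snd ⟨l5, hsnd⟩

end Groth.Agent.S6401
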