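import Groth.Statements.S6400
import Groth.Agent.S6401

set_option autoImplicit false
open CategoryTheory
universe v u
open FibCat

namespace Groth.Agent.S6400

open Groth.Agent.S6401 in
theorem snd_lift {C : Type u} [Category.{v} C] {𝒳 𝒴 𝒮 : BasedCategory.{v, max u v} C}
    (F : 𝒳 ⥤ᵇ 𝒮) (G : 𝒴 ⥤ᵇ 𝒮) {X Y : (fp F G).obj} {R S : C} (f : R ⟶ S) (m : X ⟶ Y)
    [(fp F G).p.IsHomLift f m] : 𝒴.p.IsHomLift f m.hom.snd := by
  rw [IsHomLift.fac (fp F G).p f m]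
  infer_instance

open Groth.Agent.S6401 in
theorem sc_of_components {C : Type u} [Category.{v} C] {𝒳 𝒴 𝒮 : BasedCategory.{v, max u v} C}
    (F : 𝒳 ⥤ᵇ 𝒮) (G : 𝒴 ⥤ᵇ 𝒮) {X' X : (fp F G).obj} {R S : C} (f : R ⟶ S) (m : X' ⟶ X)
    [𝒳.p.IsStronglyCartesian f m.hom.fst] [𝒴.p.IsStronglyCartesian f m.hom.snd]
    [𝒮.p.IsStronglyCartesian f (G.map m.hom.snd)] : (fp F G).p.IsStronglyCartesian f m := by
  have hl : (fp F G).p.IsHomLift f m := (fp_lift_iff F G f m).mpr inferInstance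
  refine ⟨fun {Z} g m' hm' => ?_⟩
  have h1 : 𝒳.p.IsHomLift (g ≫ f) m'.hom.fst := (fp_lift_iff F G _ m').mp hm'
  have h2 : 𝒴.p.IsHomLift (g ≫ f) m'.hom.snd := snd_lift F G _ m'
  obtain ⟨χ₁, ⟨hχ₁l, hχ₁f⟩, hχ₁u⟩ := Functor.IsStronglyCartesian.universal_property 𝒳.p
    f m.hom.fst (R' := (fp F G).p.obj Z) g (g ≫ f) rfl m'.hom.fst
  obtain ⟨χ₂, ⟨hχ₂l, hχ₂f⟩, hχ₂u⟩ := Functor.IsStronglyCartesian.universal_property 𝒴.p
    f m.hom.snd (R' := (fp F G).p.obj Z) g (g ≫ f) rfl m'.hom.snd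
  have hX'R : 𝒳.p.obj X'.obj.fst = R := IsHomLift.domain_eq 𝒳.p f m.hom.fst
  have hX'p : 𝒮.p.IsHomLift (𝟙 R) X'.obj.iso.hom := by
    rw [← hX'R]; exact X'.property
  have hZp : 𝒮.p.IsHomLift (𝟙 ((fp F G).p.obj Z)) Z.obj.iso.hom := Z.property
  have l3 : 𝒮.p.IsHomLift g (F.map χ₁ ≫ X'.obj.iso.hom) := by
    have : 𝒮.p.IsHomLift (g ≫ 𝟙 _) (F.map χ₁ ≫ X'.obj.iso.hom) := inferInstance
    rw [Category.comp_id] at this; exact this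
  have l4 : 𝒮.p.IsHomLift g (Z.obj.iso.hom ≫ G.map χ₂) := by
    have : 𝒮.p.IsHomLift (𝟙 _ ≫ g) (Z.obj.iso.hom ≫ G.map χ₂) := inferInstance
    rw [Category.id_comp] at this; exact this
  have wχ : F.map χ₁ ≫ X'.obj.iso.hom = Z.obj.iso.hom ≫ G.map χ₂ := by
    apply Functor.IsStronglyCartesian.ext 𝒮.p f (G.map m.hom.snd) g
    rw [Category.assoc, ← m.hom.w, ← Category.assoc, ← F.map_comp, hχ₁f, m'.hom.w,
      Category.assoc, ← G.map_comp, hχ₂f]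
  let χ : Z ⟶ X' := ⟨⟨χ₁, χ₂, wχ⟩⟩
  refine ⟨χ, ⟨(fp_lift_iff F G g χ).mpr hχ₁l, ?_⟩, ?_⟩
  · apply ObjectProperty.hom_ext
    apply Limits.CategoricalPullback.hom_ext
    · exact hχ₁f
    · exact hχ₂f
  · rintro χ' ⟨hχ'l, hχ'f⟩
    have hfst : χ'.hom.fst ≫ m.hom.fst = m'.hom.fst := by
      rw [← hχ'f]; rfl
    have hsnd : χ'.hom.snd ≫ m.hom.snd = m'.hom.snd := by
      rw [← hχ'f]; rfl
    have l5 : 𝒴.p.IsHomLift g χ'.hom.snd := snd_lift F G g χ'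
    apply ObjectProperty.hom_ext
    apply Limits.CategoricalPullback.hom_ext
    · exact hχ₁u χ'.hom.fst ⟨(fp_lift_iff F G g χ').mp hχ'l, hfst⟩
    · exact hχ₂u χ'.hom.snd ⟨l5, hsnd⟩

/-- For fibred categories `𝒳, 𝒴, 𝒮` over `C` and functors `F : 𝒳 ⟶ 𝒮`, `G : 𝒴 ⟶ 𝒮` over `C` preserving
strongly cartesian morphisms, the 2-fibre product `𝒳 ×_𝒮 𝒴` over `C` is fibred over `C`. (The
published statement also says that this category, with its two projections, is a 2-fibre product in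
the 2-category of fibred categories over `C`; this row states only that it is fibred.) -/
theorem result {C : Type u} [Category.{v} C] {𝒳 𝒴 𝒮 : BasedCategory.{v, max u v} C} (F : 𝒳 ⥤ᵇ 𝒮) (G : 𝒴 ⥤ᵇ 𝒮) [𝒳.p.IsFibered] [𝒴.p.IsFibered] [𝒮.p.IsFibered]
    (hF : ∀ {R S : C} (f : R ⟶ S) {a b : 𝒳.obj} (φ : a ⟶ b), 𝒳.p.IsStronglyCartesian f φ → 𝒮.p.IsStronglyCartesian f (F.map φ))
    (hG : ∀ {R S : C} (f : R ⟶ S) {a b : 𝒴.obj} (φ : a ⟶ b), 𝒴.p.IsStronglyCartesian f φ → 𝒮.p.IsStronglyCartesian f (G.map φ)) :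
    (FibCat.fp F G).p.IsFibered := by
  refine Functor.IsFibered.of_exists_isStronglyCartesian (fun X R f => ?_)
  obtain ⟨x', φ, hφ⟩ := Functor.IsPreFibered.exists_isCartesian' (p := 𝒳.p) (a := X.obj.fst) f
  have hφ' : 𝒳.p.IsCartesian (S := (fp F G).p.obj X) f φ := hφ
  have hsφ : 𝒳.p.IsStronglyCartesian f φ := inferInstance
  have hXp : 𝒮.p.IsHomLift (𝟙 ((fp F G).p.obj X)) X.obj.iso.hom := X.property
  have hX : 𝒴.p.obj X.obj.snd = (fp F G).p.obj X :=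
    (G.w_obj _).symm.trans (IsHomLift.codomain_eq 𝒮.p (𝟙 ((fp F G).p.obj X)) X.obj.iso.hom)
  obtain ⟨y', ψ, hψ⟩ := IsPreFibered.exists_isCartesian 𝒴.p hX f
  have hsψ : 𝒴.p.IsStronglyCartesian f ψ := inferInstance
  have hsFφ : 𝒮.p.IsStronglyCartesian f (F.map φ) := hF f φ hsφ
  have hsGψ : 𝒮.p.IsStronglyCartesian f (G.map ψ) := hG f ψ hsψ
  have hXi : 𝒮.p.IsHomLift (𝟙 ((fp F G).p.obj X)) X.obj.iso.inv := inferInstance
  have l1 : 𝒮.p.IsHomLift f (F.map φ ≫ X.obj.iso.hom) := by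
    have : 𝒮.p.IsHomLift (f ≫ 𝟙 _) (F.map φ ≫ X.obj.iso.hom) := inferInstance
    rw [Category.comp_id] at this; exact this
  have l2 : 𝒮.p.IsHomLift f (G.map ψ ≫ X.obj.iso.inv) := by
    have : 𝒮.p.IsHomLift (f ≫ 𝟙 _) (G.map ψ ≫ X.obj.iso.inv) := inferInstance
    rw [Category.comp_id] at this; exact this
  let e₀ : F.obj x' ⟶ G.obj y' := Functor.IsStronglyCartesian.map 𝒮.p f (G.map ψ)
    (g := 𝟙 R) (f' := f) (Category.id_comp f).symm (F.map φ ≫ X.obj.iso.hom)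
  let e₁ : G.obj y' ⟶ F.obj x' := Functor.IsStronglyCartesian.map 𝒮.p f (F.map φ)
    (g := 𝟙 R) (f' := f) (Category.id_comp f).symm (G.map ψ ≫ X.obj.iso.inv)
  have he₀l : 𝒮.p.IsHomLift (𝟙 R) e₀ :=
    Functor.IsStronglyCartesian.map_isHomLift 𝒮.p f (G.map ψ) _ _
  have he₀f : e₀ ≫ G.map ψ = F.map φ ≫ X.obj.iso.hom :=
    Functor.IsStronglyCartesian.fac 𝒮.p f (G.map ψ) _ _
  have he₁l : 𝒮.p.IsHomLift (𝟙 R) e₁ :=
    Functor.IsStronglyCartesian.map_isHomLift 𝒮.p f (F.map φ) _ _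
  have he₁f : e₁ ≫ F.map φ = G.map ψ ≫ X.obj.iso.inv :=
    Functor.IsStronglyCartesian.fac 𝒮.p f (F.map φ) _ _
  have hx' : 𝒳.p.obj x' = R := IsHomLift.domain_eq 𝒳.p f φ
  have hy' : 𝒴.p.obj y' = R := IsHomLift.domain_eq 𝒴.p f ψ
  have lidF : 𝒮.p.IsHomLift (𝟙 R) (𝟙 (F.obj x')) := IsHomLift.id ((F.w_obj x').trans hx')
  have lidG : 𝒮.p.IsHomLift (𝟙 R) (𝟙 (G.obj y')) := IsHomLift.id ((G.w_obj y').trans hy')
  have l01 : 𝒮.p.IsHomLift (𝟙 R) (e₀ ≫ e₁) := by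
    have : 𝒮.p.IsHomLift (𝟙 R ≫ 𝟙 R) (e₀ ≫ e₁) := inferInstance
    rw [Category.comp_id] at this; exact this
  have l10 : 𝒮.p.IsHomLift (𝟙 R) (e₁ ≫ e₀) := by
    have : 𝒮.p.IsHomLift (𝟙 R ≫ 𝟙 R) (e₁ ≫ e₀) := inferInstance
    rw [Category.comp_id] at this; exact this
  have h01 : e₀ ≫ e₁ = 𝟙 _ := by
    apply Functor.IsStronglyCartesian.ext 𝒮.p f (F.map φ) (𝟙 R)
    rw [Category.assoc, he₁f, ← Category.assoc, he₀f, Category.assoc, Iso.hom_inv_id,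
      Category.comp_id, Category.id_comp]
  have h10 : e₁ ≫ e₀ = 𝟙 _ := by
    apply Functor.IsStronglyCartesian.ext 𝒮.p f (G.map ψ) (𝟙 R)
    rw [Category.assoc, he₀f, ← Category.assoc, he₁f, Category.assoc, Iso.inv_hom_id,
      Category.comp_id, Category.id_comp]
  have hprop : 𝒮.p.IsHomLift (𝟙 (𝒳.p.obj x')) e₀ := by rw [hx']; exact he₀l
  let X'' : (fp F G).obj := ⟨⟨x', y', ⟨e₀, e₁, h01, h10⟩⟩, hprop⟩
  let m : X'' ⟶ X := ⟨⟨φ, ψ, he₀f.symm⟩⟩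
  have : 𝒳.p.IsStronglyCartesian f m.hom.fst := hsφ
  have : 𝒴.p.IsStronglyCartesian f m.hom.snd := hsψ
  have : 𝒮.p.IsStronglyCartesian f (G.map m.hom.snd) := hsGψ
  exact ⟨X'', m, sc_of_components F G f m⟩

end Groth.Agent.S6400
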