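import Groth.Statements.S6403
-- import your own Groth.Agent.* helpers here

set_option autoImplicit false
open CategoryTheory
universe v u
open FibCat

namespace Groth.Agent.S6403

theorem lift_comp_iff {A : Type*} [Category A] {B : Type*} [Category B] {D : Type*} [Category D]
    (G : A ⥤ B) (p : B ⥤ D) {R S : D} {a b : A} (f : R ⟶ S) (ψ : a ⟶ b) :
    (G ⋙ p).IsHomLift f ψ ↔ p.IsHomLift f (G.map ψ) := by
  constructor
  · intro h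
    exact IsHomLift.of_fac p f (G.map ψ) (IsHomLift.domain_eq (G ⋙ p) f ψ)
      (IsHomLift.codomain_eq (G ⋙ p) f ψ) (IsHomLift.fac (G ⋙ p) f ψ)
  · intro h
    exact IsHomLift.of_fac (G ⋙ p) f ψ (IsHomLift.domain_eq p f (G.map ψ))
      (IsHomLift.codomain_eq p f (G.map ψ)) (IsHomLift.fac p f (G.map ψ))

universe v₂ u₂ v₃ u₃

variable {C : Type u} [Category.{v} C] {𝒳 : BasedCategory.{v₂, u₂} C}
  {𝒴 : BasedCategory.{v₃, u₃} C}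

theorem aut_lift (F : 𝒳 ⥤ᵇ 𝒴) (X : InertiaObj F) {R : C} (h : 𝒳.p.obj X.pt = R) :
    𝒳.p.IsHomLift (𝟙 R) X.aut.hom := by
  subst h
  have : 𝒴.p.IsHomLift (𝟙 (𝒳.p.obj X.pt)) (F.map X.aut.hom) := by
    rw [X.map_aut]; infer_instance
  exact BasedFunctor.isHomLift_map F _ _

theorem aut_inv_lift (F : 𝒳 ⥤ᵇ 𝒴) (X : InertiaObj F) {R : C} (h : 𝒳.p.obj X.pt = R) :
    𝒳.p.IsHomLift (𝟙 R) X.aut.inv := by
  have := aut_lift F X h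
  infer_instance

theorem inertia_lift_iff (F : 𝒳 ⥤ᵇ 𝒴) {X Y : InertiaObj F} {R S : C} (f : R ⟶ S) (ψ : X ⟶ Y) :
    (inertia F).p.IsHomLift f ψ ↔ 𝒳.p.IsHomLift f ψ.hom :=
  lift_comp_iff InertiaObj.forget 𝒳.p f ψ

theorem sc_of_hom (F : 𝒳 ⥤ᵇ 𝒴) {X Y : InertiaObj F} {R S : C} (f : R ⟶ S) (ψ : X ⟶ Y)
    [hψ : 𝒳.p.IsStronglyCartesian f ψ.hom] : (inertia F).p.IsStronglyCartesian f ψ := by
  have hl : (inertia F).p.IsHomLift f ψ := (inertia_lift_iff F f ψ).mpr inferInstance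
  refine ⟨fun {Z} g φ' hφ' => ?_⟩
  have h1 : 𝒳.p.IsHomLift (g ≫ f) φ'.hom := (inertia_lift_iff F _ φ').mp hφ'
  obtain ⟨χ, ⟨hχl, hχf⟩, hχu⟩ := Functor.IsStronglyCartesian.universal_property 𝒳.p f ψ.hom
    (R' := (inertia F).p.obj Z) g (g ≫ f) rfl φ'.hom
  have hX : 𝒳.p.obj X.pt = R := IsHomLift.domain_eq 𝒳.p f ψ.hom
  have hZ : 𝒳.p.obj Z.pt = (inertia F).p.obj Z := rfl
  have lZ : 𝒳.p.IsHomLift (𝟙 ((inertia F).p.obj Z)) Z.aut.hom := aut_lift F Z hZ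
  have lX : 𝒳.p.IsHomLift (𝟙 R) X.aut.hom := aut_lift F X hX
  have l1 : 𝒳.p.IsHomLift g (Z.aut.hom ≫ χ) := by
    have : 𝒳.p.IsHomLift (𝟙 _ ≫ g) (Z.aut.hom ≫ χ) := inferInstance
    rw [Category.id_comp] at this; exact this
  have l2 : 𝒳.p.IsHomLift g (χ ≫ X.aut.hom) := by
    have : 𝒳.p.IsHomLift (g ≫ 𝟙 _) (χ ≫ X.aut.hom) := inferInstance
    rw [Category.comp_id] at this; exact this
  have hcomm : Z.aut.hom ≫ χ = χ ≫ X.aut.hom := by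
    apply Functor.IsStronglyCartesian.ext 𝒳.p f ψ.hom g
    rw [Category.assoc, hχf, φ'.comm, Category.assoc, ψ.comm, ← Category.assoc, hχf]
  let χ' : Z ⟶ X := ⟨χ, hcomm⟩
  refine ⟨χ', ⟨(inertia_lift_iff F g χ').mpr hχl, InertiaObj.hom_ext hχf⟩, ?_⟩
  rintro χ'' ⟨hχ''l, hχ''f⟩
  apply InertiaObj.hom_ext
  exact hχu χ''.hom ⟨(inertia_lift_iff F g χ'').mp hχ''l, congrArg InertiaObj.Hom.hom hχ''f⟩

theorem exists_sc_lift (F : 𝒳 ⥤ᵇ 𝒴) (Y : InertiaObj F) {R S : C} (f : R ⟶ S) {y : 𝒳.obj}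
    (φ : y ⟶ Y.pt) [𝒳.p.IsStronglyCartesian f φ]
    (hF : ∀ β : y ⟶ y, 𝒳.p.IsHomLift (𝟙 R) β → β ≫ φ = φ ≫ Y.aut.hom → F.map β = 𝟙 (F.obj y)) :
    ∃ (X : InertiaObj F) (ψ : X ⟶ Y), (inertia F).p.IsStronglyCartesian f ψ := by
  have hY : 𝒳.p.obj Y.pt = S := IsHomLift.codomain_eq 𝒳.p f φ
  have hy : 𝒳.p.obj y = R := IsHomLift.domain_eq 𝒳.p f φ
  have lY : 𝒳.p.IsHomLift (𝟙 S) Y.aut.hom := aut_lift F Y hY
  have lY' : 𝒳.p.IsHomLift (𝟙 S) Y.aut.inv := aut_inv_lift F Y hY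
  have l0 : 𝒳.p.IsHomLift f (φ ≫ Y.aut.hom) := by
    have : 𝒳.p.IsHomLift (f ≫ 𝟙 S) (φ ≫ Y.aut.hom) := inferInstance
    rw [Category.comp_id] at this; exact this
  have l0' : 𝒳.p.IsHomLift f (φ ≫ Y.aut.inv) := by
    have : 𝒳.p.IsHomLift (f ≫ 𝟙 S) (φ ≫ Y.aut.inv) := inferInstance
    rw [Category.comp_id] at this; exact this
  let β₀ : y ⟶ y := Functor.IsStronglyCartesian.map 𝒳.p f φ (g := 𝟙 R) (f' := f)
    (Category.id_comp f).symm (φ ≫ Y.aut.hom)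
  let β₁ : y ⟶ y := Functor.IsStronglyCartesian.map 𝒳.p f φ (g := 𝟙 R) (f' := f)
    (Category.id_comp f).symm (φ ≫ Y.aut.inv)
  have hβ₀ : β₀ ≫ φ = φ ≫ Y.aut.hom := Functor.IsStronglyCartesian.fac 𝒳.p f φ _ _
  have hβ₁ : β₁ ≫ φ = φ ≫ Y.aut.inv := Functor.IsStronglyCartesian.fac 𝒳.p f φ _ _
  have lβ₀ : 𝒳.p.IsHomLift (𝟙 R) β₀ := Functor.IsStronglyCartesian.map_isHomLift 𝒳.p f φ _ _
  have lβ₁ : 𝒳.p.IsHomLift (𝟙 R) β₁ := Functor.IsStronglyCartesian.map_isHomLift 𝒳.p f φ _ _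
  have lid : 𝒳.p.IsHomLift (𝟙 R) (𝟙 y) := IsHomLift.id hy
  have l01 : 𝒳.p.IsHomLift (𝟙 R) (β₀ ≫ β₁) := by
    have : 𝒳.p.IsHomLift (𝟙 R ≫ 𝟙 R) (β₀ ≫ β₁) := inferInstance
    rw [Category.comp_id] at this; exact this
  have l10 : 𝒳.p.IsHomLift (𝟙 R) (β₁ ≫ β₀) := by
    have : 𝒳.p.IsHomLift (𝟙 R ≫ 𝟙 R) (β₁ ≫ β₀) := inferInstance
    rw [Category.comp_id] at this; exact this
  have h01 : β₀ ≫ β₁ = 𝟙 y := by
    apply Functor.IsStronglyCartesian.ext 𝒳.p f φ (𝟙 R)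
    rw [Category.assoc, hβ₁, ← Category.assoc, hβ₀, Category.assoc, Iso.hom_inv_id,
      Category.comp_id, Category.id_comp]
  have h10 : β₁ ≫ β₀ = 𝟙 y := by
    apply Functor.IsStronglyCartesian.ext 𝒳.p f φ (𝟙 R)
    rw [Category.assoc, hβ₀, ← Category.assoc, hβ₁, Category.assoc, Iso.inv_hom_id,
      Category.comp_id, Category.id_comp]
  let X : InertiaObj F := ⟨y, ⟨β₀, β₁, h01, h10⟩, hF β₀ lβ₀ hβ₀⟩
  let ψ : X ⟶ Y := ⟨φ, hβ₀⟩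
  have : 𝒳.p.IsStronglyCartesian f ψ.hom := inferInstance
  exact ⟨X, ψ, sc_of_hom F f ψ⟩

/-- For a functor `F : 𝒳 ⟶ 𝒴` of fibred categories over `C` preserving strongly cartesian morphisms, the
relative inertia `I_{𝒳/𝒴}` is a fibred category over `C`. -/
theorem result {C : Type u} [Category.{v} C] {𝒳 𝒴 : BasedCategory.{v, max u v} C} [𝒳.p.IsFibered] [𝒴.p.IsFibered] (F : 𝒳 ⥤ᵇ 𝒴) (hF : FibCat.PreservesStronglyCartesian F) :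
    (FibCat.inertia F).p.IsFibered := by
  refine Functor.IsFibered.of_exists_isStronglyCartesian (fun Y R f => ?_)
  obtain ⟨y, φ, hφ⟩ := Functor.IsPreFibered.exists_isCartesian' (p := 𝒳.p) (a := Y.pt) f
  have hφ' : 𝒳.p.IsCartesian (S := (inertia F).p.obj Y) f φ := hφ
  have hs : 𝒳.p.IsStronglyCartesian f φ := inferInstance
  have hsF : 𝒴.p.IsStronglyCartesian f (F.map φ) := hF f φ hs
  have hy : 𝒳.p.obj y = R := IsHomLift.domain_eq 𝒳.p f φ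
  obtain ⟨X, ψ, hψ⟩ := exists_sc_lift F Y f φ (fun β hβ hcomm => by
    have l1 : 𝒴.p.IsHomLift (𝟙 R) (F.map β) := inferInstance
    have l2 : 𝒴.p.IsHomLift (𝟙 R) (𝟙 (F.obj y)) := by
      have : 𝒴.p.IsHomLift (𝟙 (𝒳.p.obj y)) (𝟙 (F.obj y)) := inferInstance
      rw [hy] at this; exact this
    apply Functor.IsStronglyCartesian.ext 𝒴.p f (F.map φ) (𝟙 R)
    rw [← F.map_comp, hcomm, F.map_comp, Y.map_aut, Category.comp_id, Category.id_comp])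
  exact ⟨X, ψ, hψ⟩

end Groth.Agent.S6403
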