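import Groth.Statements.S6404
import Groth.Agent.S6403

set_option autoImplicit false
open CategoryTheory
universe v u
open FibCat

namespace Groth.Agent.S6404

theorem sc_transport {𝒳 : Type*} [Category 𝒳] {𝒮 : Type*} [Category 𝒮] (p : 𝒳 ⥤ 𝒮)
    {R S : 𝒮} {a b : 𝒳} (f : R ⟶ S) (φ : a ⟶ b) [p.IsHomLift f φ]
    [p.IsStronglyCartesian (p.map φ) φ] : p.IsStronglyCartesian f φ := by
  subst_hom_lift p f φ
  infer_instance

/-- The inertia of a category fibred in groupoids over `C` is fibred in groupoids over `C`. -/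
theorem result {C : Type u} [Category.{v} C] {𝒳 : BasedCategory.{v, max u v} C} (h𝒳 : FibCat.IsFibGrpd 𝒳.p) :
    FibCat.IsFibGrpd (FibCat.inertia (FibCat.toSelf 𝒳)).p := by
  refine ⟨fun {X V} f => ?_, fun {Y X} ψ => ?_⟩
  · obtain ⟨y, φ, hφ⟩ := h𝒳.exists_lift (x := X.pt) f
    have hs0 := h𝒳.isStronglyCartesian φ
    have hφ' : 𝒳.p.IsHomLift (S := (inertia (toSelf 𝒳)).p.obj X) f φ := hφ
    have hs : 𝒳.p.IsStronglyCartesian f φ := sc_transport 𝒳.p f φ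
    have hy : 𝒳.p.obj y = V := IsHomLift.domain_eq 𝒳.p f φ
    obtain ⟨X', ψ, hψ⟩ := Groth.Agent.S6403.exists_sc_lift (toSelf 𝒳) X f φ
      (fun β hβ hcomm => by
        change 𝒳.p.map β = 𝟙 (𝒳.p.obj y)
        subst hy
        exact (IsHomLift.eq_of_isHomLift 𝒳.p (𝟙 (𝒳.p.obj y)) β).symm)
    exact ⟨X', ψ, hψ.toIsHomLift⟩
  · have hs := h𝒳.isStronglyCartesian ψ.hom
    exact Groth.Agent.S6403.sc_of_hom (toSelf 𝒳) (𝒳.p.map ψ.hom) ψ

end Groth.Agent.S6404
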