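import Groth.Statements.S6408
-- import your own Groth.Agent.* helpers here

set_option autoImplicit false
open CategoryTheory
universe v u
open FibCat

namespace Groth.Agent.S6408

/-- Between categories fibred in sets over `C` the only 2-morphisms over `C` are identities. -/
theorem result {C : Type u} [Category.{v} C] {𝒳 𝒴 : BasedCategory.{v, max u v} C} (h𝒳 : FibCat.IsFibSet 𝒳.p) (h𝒴 : FibCat.IsFibSet 𝒴.p) {F G : 𝒳 ⥤ᵇ 𝒴} (α : F ⟶ G) :
    ∃ h : F = G, α = eqToHom h := by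
  obtain ⟨-, h𝒴d⟩ := h𝒴
  have hobj : ∀ x : 𝒳.obj, F.obj x = G.obj x := by
    intro x
    let Fx : 𝒴.p.Fiber (𝒳.p.obj x) := Functor.Fiber.mk (p := 𝒴.p) (F.w_obj x)
    let Gx : 𝒴.p.Fiber (𝒳.p.obj x) := Functor.Fiber.mk (p := 𝒴.p) (G.w_obj x)
    let αx : Fx ⟶ Gx := ⟨α.toNatTrans.app x, BasedNatTrans.app_isHomLift _ x⟩
    exact congrArg Subtype.val ((h𝒴d (𝒳.p.obj x)).eq_of_hom αx)
  have happ : ∀ x : 𝒳.obj, α.toNatTrans.app x = eqToHom (hobj x) := by
    intro x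
    let Fx : 𝒴.p.Fiber (𝒳.p.obj x) := Functor.Fiber.mk (p := 𝒴.p) (F.w_obj x)
    let Gx : 𝒴.p.Fiber (𝒳.p.obj x) := Functor.Fiber.mk (p := 𝒴.p) (G.w_obj x)
    have l1 : 𝒴.p.IsHomLift (𝟙 (𝒳.p.obj x)) (𝟙 (G.obj x)) := inferInstance
    have l2 : 𝒴.p.IsHomLift (𝟙 (𝒳.p.obj x)) (eqToHom (hobj x) ≫ 𝟙 (G.obj x)) := inferInstance
    rw [Category.comp_id] at l2
    let αx : Fx ⟶ Gx := ⟨α.toNatTrans.app x, BasedNatTrans.app_isHomLift _ x⟩
    let βx : Fx ⟶ Gx := ⟨eqToHom (hobj x), l2⟩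
    have := (h𝒴d (𝒳.p.obj x)).subsingleton Fx Gx
    exact congrArg Subtype.val (Subsingleton.elim αx βx)
  have hfun : F.toFunctor = G.toFunctor := by
    refine Functor.ext hobj (fun X Y f => ?_)
    have hn := α.toNatTrans.naturality f
    rw [happ X, happ Y] at hn
    change F.map f ≫ eqToHom (hobj Y) = eqToHom (hobj X) ≫ G.map f at hn
    rw [← Category.assoc, ← hn, Category.assoc, eqToHom_trans, eqToHom_refl, Category.comp_id]
  have hFG : F = G := by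
    cases F; cases G
    simp only at hfun
    subst hfun
    rfl
  refine ⟨hFG, ?_⟩
  subst hFG
  ext x
  rw [happ x]
  simp

end Groth.Agent.S6408
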