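import Groth.Statements.S6419
-- import your own Groth.Agent.* helpers here

set_option autoImplicit false
open CategoryTheory
universe v₁ u₁ v₂ u₂
open FibCat

namespace Groth.Agent.S6419

theorem over_obj_ext {C : Type u₂} [Category.{v₂} C] {U : C} {A B : Over U}
    (h : A.left = B.left) (hh : A.hom = eqToHom h ≫ B.hom) : A = B := by
  obtain ⟨Al, ⟨⟨⟩⟩, Ah⟩ := A
  obtain ⟨Bl, ⟨⟨⟩⟩, Bh⟩ := B
  change Al = Bl at h
  subst h
  change Ah = eqToHom rfl ≫ Bh at hh
  simp only [eqToHom_refl, Category.id_comp] at hh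
  subst hh
  rfl

theorem lift_iff' {𝒮 : Type u₁} [Category.{v₁} 𝒮] {C : Type u₂} [Category.{v₂} C] {U : C}
    (p' : 𝒮 ⥤ Over U) {a b : 𝒮} (g : p'.obj a ⟶ p'.obj b) (χ : a ⟶ b) :
    (p' ⋙ Over.forget U).IsHomLift (R := (p' ⋙ Over.forget U).obj a)
      (S := (p' ⋙ Over.forget U).obj b) g.left χ ↔ p'.IsHomLift g χ := by
  constructor
  · intro h
    have h1 : g.left = (p'.map χ).left :=
      IsHomLift.eq_of_isHomLift (p' ⋙ Over.forget U) g.left χ
    have hg : g = p'.map χ := Over.OverMorphism.ext h1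
    rw [hg]; infer_instance
  · intro h
    have hg : g = p'.map χ := IsHomLift.eq_of_isHomLift p' g χ
    subst hg
    exact IsHomLift.map (p' ⋙ Over.forget U) χ

theorem lift_of_forget {𝒮 : Type u₁} [Category.{v₁} 𝒮] {C : Type u₂} [Category.{v₂} C] {U : C}
    (p' : 𝒮 ⥤ Over U) {V : Over U} {y x : 𝒮} (f : V ⟶ p'.obj x) (φ : y ⟶ x)
    [(p' ⋙ Over.forget U).IsHomLift (R := V.left) (S := (p' ⋙ Over.forget U).obj x) f.left φ] :
    p'.IsHomLift f φ := by
  have hy : (p' ⋙ Over.forget U).obj y = V.left :=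
    IsHomLift.domain_eq (p' ⋙ Over.forget U) (S := (p' ⋙ Over.forget U).obj x) f.left φ
  have hfac := IsHomLift.fac (p' ⋙ Over.forget U) (S := (p' ⋙ Over.forget U).obj x) f.left φ
  simp only [eqToHom_refl, Category.comp_id] at hfac
  dsimp only [Functor.comp_obj, Functor.comp_map, Over.forget_obj, Over.forget_map] at hy hfac
  have hV : p'.obj y = V := by
    apply over_obj_ext hy
    rw [← Over.w f, hfac]
    simp only [Category.assoc]
    erw [eqToHom_trans_assoc, eqToHom_refl, Category.id_comp]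
    exact (Over.w (p'.map φ)).symm
  refine IsHomLift.of_fac p' f φ hV rfl ?_
  ext
  rw [hfac]
  simp only [eqToHom_refl, Category.comp_id, Over.comp_left, Over.eqToHom_left]

theorem sc_of_forget {𝒮 : Type u₁} [Category.{v₁} 𝒮] {C : Type u₂} [Category.{v₂} C] {U : C}
    (p' : 𝒮 ⥤ Over U) {b a : 𝒮} (φ : b ⟶ a)
    [(p' ⋙ Over.forget U).IsStronglyCartesian ((p' ⋙ Over.forget U).map φ) φ] :
    p'.IsStronglyCartesian (p'.map φ) φ := by
  refine ⟨fun {a'} g φ' hφ' => ?_⟩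
  have e1 : g ≫ p'.map φ = p'.map φ' := IsHomLift.eq_of_isHomLift p' _ φ'
  have e2 : (p' ⋙ Over.forget U).map φ' = g.left ≫ (p' ⋙ Over.forget U).map φ := by
    change (p'.map φ').left = g.left ≫ (p'.map φ).left
    rw [← Over.comp_left, e1]
  obtain ⟨χ, ⟨hχlift, hχfac⟩, hχuniq⟩ :=
    Functor.IsStronglyCartesian.universal_property (p' ⋙ Over.forget U)
      ((p' ⋙ Over.forget U).map φ) φ (R' := (p' ⋙ Over.forget U).obj a') g.left
      ((p' ⋙ Over.forget U).map φ') e2 φ'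
  refine ⟨χ, ⟨(lift_iff' p' g χ).mp hχlift, hχfac⟩, ?_⟩
  rintro χ' ⟨hχ'lift, hχ'fac⟩
  exact hχuniq χ' ⟨(lift_iff' p' g χ').mpr hχ'lift, hχ'fac⟩

/-- If `p' : 𝒮 ⥤ C/U` composed with the forgetful functor `C/U ⥤ C` is fibred in groupoids, then so is
`p'`. -/
theorem result {𝒮 : Type u₁} [Category.{v₁} 𝒮] {C : Type u₂} [Category.{v₂} C] {U : C} (p' : 𝒮 ⥤ Over U) (h : FibCat.IsFibGrpd (p' ⋙ Over.forget U)) : FibCat.IsFibGrpd p' := by
  refine ⟨fun {x V} f => ?_, fun {y x} φ => ?_⟩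
  · obtain ⟨y, φ, hφ⟩ := h.exists_lift (x := x) f.left
    exact ⟨y, φ, lift_of_forget p' f φ⟩
  · have := h.isStronglyCartesian φ
    exact sc_of_forget p' φ

end Groth.Agent.S6419
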