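import Groth.Statements.S6411
import Groth.Agent.S6401
import Groth.Agent.S6419

set_option autoImplicit false
open CategoryTheory
universe v u
open FibCat

namespace Groth.Agent.S6411

theorem overFibGrpd {C : Type u} [Category.{v} C] (U : C) :
    FibCat.IsFibGrpd (Over.forget U) := by
  refine ⟨fun {x V} f => ?_, fun {y x} φ => ?_⟩
  · refine ⟨Over.mk (f ≫ x.hom), Over.homMk f rfl, ?_⟩
    exact IsHomLift.map (Over.forget U) (Over.homMk f rfl : Over.mk (f ≫ x.hom) ⟶ x)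
  · refine ⟨fun {a'} g φ' hφ' => ?_⟩
    have e0 : g ≫ (Over.forget U).map φ = (Over.forget U).map φ' :=
      IsHomLift.eq_of_isHomLift (Over.forget U) _ φ'
    have e1 : g ≫ φ.left = φ'.left := e0
    have hw : g ≫ y.hom = a'.hom := by
      have h4 := Over.w φ'
      rw [← e1] at h4
      exact (congrArg (fun t => g ≫ t) (Over.w φ).symm).trans
        ((Category.assoc g φ.left x.hom).symm.trans h4)
    refine ⟨Over.homMk g hw, ⟨?_, ?_⟩, ?_⟩
    · exact IsHomLift.map (Over.forget U) (Over.homMk g hw : a' ⟶ y)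
    · exact Over.OverMorphism.ext e1
    · rintro χ ⟨hχl, -⟩
      have e2 : g = (Over.forget U).map χ := IsHomLift.eq_of_isHomLift (Over.forget U) _ χ
      exact Over.OverMorphism.ext e2.symm

/-- For `𝒳, 𝒴` fibred in groupoids over `C`, `F : 𝒳 ⟶ 𝒴` over `C` and `G : C/U ⟶ 𝒴` over `C`, the
projection `(C/U) ×_𝒴 𝒳 ⟶ C/U` is a category fibred in groupoids. -/
theorem result {C : Type u} [Category.{v} C] {𝒳 𝒴 : BasedCategory.{v, max u v} C} (h𝒳 : FibCat.IsFibGrpd 𝒳.p) (h𝒴 : FibCat.IsFibGrpd 𝒴.p) (F : 𝒳 ⥤ᵇ 𝒴) (U : C) (G : FibCat.overCat U ⥤ᵇ 𝒴) :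
    FibCat.IsFibGrpd (FibCat.fpFst G F).toFunctor := by
  have h0 : FibCat.IsFibGrpd (FibCat.overCat U).p := overFibGrpd U
  have h1 : FibCat.IsFibGrpd (fp G F).p :=
    Groth.Agent.S6401.result G F h0 h𝒳 h𝒴
  exact Groth.Agent.S6419.result (fpFst G F).toFunctor h1

end Groth.Agent.S6411
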