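import Groth.Statements.S6414
-- import your own Groth.Agent.* helpers here

set_option autoImplicit false
open CategoryTheory
universe v₁ u₁ v₂ u₂ v₃ u₃
open FibCat

namespace Groth.Agent.S6414

/-- A morphism that is strongly cartesian with respect to `F : 𝒜 ⥤ ℬ` and whose image is strongly
cartesian with respect to `G : ℬ ⥤ 𝒞` is strongly cartesian with respect to `F ⋙ G`. -/
theorem result {𝒜 : Type u₁} [Category.{v₁} 𝒜] {ℬ : Type u₂} [Category.{v₂} ℬ] {𝒞 : Type u₃} [Category.{v₃} 𝒞] (F : 𝒜 ⥤ ℬ) (G : ℬ ⥤ 𝒞) {x y : 𝒜} (φ : x ⟶ y)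
    [F.IsStronglyCartesian (F.map φ) φ] [G.IsStronglyCartesian (G.map (F.map φ)) (F.map φ)] :
    (F ⋙ G).IsStronglyCartesian ((F ⋙ G).map φ) φ := by
  have lift_iff : ∀ {R S : 𝒞} {a b : 𝒜} (f : R ⟶ S) (ψ : a ⟶ b),
      (F ⋙ G).IsHomLift f ψ ↔ G.IsHomLift f (F.map ψ) := by
    intro R S a b f ψ
    constructor
    · intro h
      exact IsHomLift.of_fac G f (F.map ψ) (IsHomLift.domain_eq (F ⋙ G) f ψ)
        (IsHomLift.codomain_eq (F ⋙ G) f ψ) (IsHomLift.fac (F ⋙ G) f ψ)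
    · intro h
      exact IsHomLift.of_fac (F ⋙ G) f ψ (IsHomLift.domain_eq G f (F.map ψ))
        (IsHomLift.codomain_eq G f (F.map ψ)) (IsHomLift.fac G f (F.map ψ))
  refine ⟨fun {a'} g φ' hφ' => ?_⟩
  have h1 : G.IsHomLift (g ≫ G.map (F.map φ)) (F.map φ') := (lift_iff _ _).mp hφ'
  obtain ⟨χ₁, ⟨hχ₁lift, hχ₁fac⟩, hχ₁uniq⟩ :=
    Functor.IsStronglyCartesian.universal_property' (p := G) (f := G.map (F.map φ))
      (φ := F.map φ) g (F.map φ')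
  have h2 : F.IsHomLift (χ₁ ≫ F.map φ) φ' := by
    rw [hχ₁fac]; infer_instance
  obtain ⟨χ, ⟨hχlift, hχfac⟩, hχuniq⟩ :=
    Functor.IsStronglyCartesian.universal_property' (p := F) (f := F.map φ) (φ := φ) χ₁ φ'
  have hFχ : χ₁ = F.map χ := IsHomLift.eq_of_isHomLift F χ₁ χ
  refine ⟨χ, ⟨?_, hχfac⟩, ?_⟩
  · rw [lift_iff, ← hFχ]; exact hχ₁lift
  · rintro χ' ⟨hχ'lift, hχ'fac⟩
    have h3 : G.IsHomLift g (F.map χ') := (lift_iff _ _).mp hχ'lift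
    have h4 : F.map χ' = χ₁ := hχ₁uniq (F.map χ') ⟨h3, by rw [← F.map_comp, hχ'fac]⟩
    have h5 : F.IsHomLift χ₁ χ' := by rw [← h4]; infer_instance
    exact hχuniq χ' ⟨h5, hχ'fac⟩

end Groth.Agent.S6414
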