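import Groth.Statements.S6415
import Groth.Agent.S6414

set_option autoImplicit false
open CategoryTheory
universe v₁ u₁ v₂ u₂ v₃ u₃
open FibCat

namespace Groth.Agent.S6415

theorem comp_sc {𝒜 : Type u₁} [Category.{v₁} 𝒜] {ℬ : Type u₂} [Category.{v₂} ℬ] {𝒞 : Type u₃}
    [Category.{v₃} 𝒞] (F : 𝒜 ⥤ ℬ) (G : ℬ ⥤ 𝒞) {R S : 𝒞} {a' b' : ℬ} {a b : 𝒜} (f : R ⟶ S)
    (ψ : a' ⟶ b') (φ : a ⟶ b) [F.IsStronglyCartesian ψ φ] [G.IsStronglyCartesian f ψ] :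
    (F ⋙ G).IsStronglyCartesian f φ := by
  subst_hom_lift F ψ φ
  subst_hom_lift G f (F.map φ)
  exact Groth.Agent.S6414.result F G φ

/-- The composite of two fibred functors is fibred. -/
theorem result {𝒜 : Type u₁} [Category.{v₁} 𝒜] {ℬ : Type u₂} [Category.{v₂} ℬ] {𝒞 : Type u₃} [Category.{v₃} 𝒞] (F : 𝒜 ⥤ ℬ) (G : ℬ ⥤ 𝒞) [F.IsFibered] [G.IsFibered] : (F ⋙ G).IsFibered := by
  refine Functor.IsFibered.of_exists_isStronglyCartesian (fun a R f => ?_)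
  obtain ⟨b', ψ, hψ⟩ := Functor.IsPreFibered.exists_isCartesian' (p := G) f
  obtain ⟨b, φ, hφ⟩ := Functor.IsPreFibered.exists_isCartesian' (p := F) ψ
  exact ⟨b, φ, comp_sc F G f ψ φ⟩

end Groth.Agent.S6415
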