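import Groth.Statements.S6416
import Groth.Agent.S6414

set_option autoImplicit false
open CategoryTheory
universe v₁ u₁ v₂ u₂ v₃ u₃
open FibCat

namespace Groth.Agent.S6416

theorem comp_lift {𝒜 : Type u₁} [Category.{v₁} 𝒜] {ℬ : Type u₂} [Category.{v₂} ℬ] {𝒞 : Type u₃}
    [Category.{v₃} 𝒞] (F : 𝒜 ⥤ ℬ) (G : ℬ ⥤ 𝒞) {R S : 𝒞} {a' b' : ℬ} {a b : 𝒜} (f : R ⟶ S)
    (ψ : a' ⟶ b') (φ : a ⟶ b) [F.IsHomLift ψ φ] [G.IsHomLift f ψ] :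
    (F ⋙ G).IsHomLift f φ := by
  subst_hom_lift F ψ φ
  subst_hom_lift G f (F.map φ)
  exact IsHomLift.map (F ⋙ G) φ

/-- The composite of two functors fibred in groupoids is fibred in groupoids. -/
theorem result {𝒜 : Type u₁} [Category.{v₁} 𝒜] {ℬ : Type u₂} [Category.{v₂} ℬ] {𝒞 : Type u₃} [Category.{v₃} 𝒞] (F : 𝒜 ⥤ ℬ) (G : ℬ ⥤ 𝒞) (hF : FibCat.IsFibGrpd F) (hG : FibCat.IsFibGrpd G) : FibCat.IsFibGrpd (F ⋙ G) := by
  refine ⟨fun {x V} f => ?_, fun {y x} φ => ?_⟩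
  · obtain ⟨y', ψ, hψ⟩ := hG.exists_lift f
    obtain ⟨y, φ, hφ⟩ := hF.exists_lift ψ
    exact ⟨y, φ, comp_lift F G f ψ φ⟩
  · haveI := hF.isStronglyCartesian φ
    haveI := hG.isStronglyCartesian (F.map φ)
    exact Groth.Agent.S6414.result F G φ

end Groth.Agent.S6416
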