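import Groth.Statements.S6417
-- import your own Groth.Agent.* helpers here

set_option autoImplicit false
open CategoryTheory CategoryTheory.Limits
universe v₁ u₁ v₂ u₂
open FibCat

namespace Groth.Agent.S6417

/-- For `p : 𝒮 ⥤ C`, a strongly cartesian `φ : x ⟶ y`, any `ψ : z ⟶ y`, and a strongly cartesian `a : w
⟶ z` lying over the second projection of `p x ×_{p y} p z`, the object `w` is a fibre product `x ×_y
z`: there is `b : w ⟶ x` over the first projection with `(b, a)` a pullback square. -/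
theorem result {𝒮 : Type u₁} [Category.{v₁} 𝒮] {C : Type u₂} [Category.{v₂} C] (p : 𝒮 ⥤ C) {x y z w : 𝒮} (φ : x ⟶ y) (ψ : z ⟶ y)
    [p.IsStronglyCartesian (p.map φ) φ] [HasPullback (p.map φ) (p.map ψ)] (a : w ⟶ z)
    [p.IsStronglyCartesian (pullback.snd (p.map φ) (p.map ψ)) a] :
    ∃ b : w ⟶ x, p.IsHomLift (pullback.fst (p.map φ) (p.map ψ)) b ∧ IsPullback b a φ ψ := by
  have hw : p.obj w = pullback (p.map φ) (p.map ψ) :=
    IsHomLift.domain_eq p (pullback.snd (p.map φ) (p.map ψ)) a
  have hcond : pullback.fst (p.map φ) (p.map ψ) ≫ p.map φ =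
      pullback.snd (p.map φ) (p.map ψ) ≫ p.map ψ := pullback.condition
  have l1 : p.IsHomLift (pullback.snd (p.map φ) (p.map ψ) ≫ p.map ψ) (a ≫ ψ) := inferInstance
  obtain ⟨b, ⟨hbl, hbf⟩, -⟩ := Functor.IsStronglyCartesian.universal_property p (p.map φ) φ
    (pullback.fst (p.map φ) (p.map ψ)) (pullback.snd (p.map φ) (p.map ψ) ≫ p.map ψ)
    hcond.symm (a ≫ ψ)
  refine ⟨b, hbl, ?_⟩
  refine IsPullback.of_isLimit' ⟨hbf⟩ ?_
  have mcond : ∀ s : PullbackCone φ ψ, p.map s.fst ≫ p.map φ = p.map s.snd ≫ p.map ψ := by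
    intro s; rw [← p.map_comp, ← p.map_comp, s.condition]
  let m : ∀ s : PullbackCone φ ψ, p.obj s.pt ⟶ pullback (p.map φ) (p.map ψ) :=
    fun s => pullback.lift (p.map s.fst) (p.map s.snd) (mcond s)
  have hm : ∀ s : PullbackCone φ ψ, p.map s.snd = m s ≫ pullback.snd (p.map φ) (p.map ψ) :=
    fun s => (pullback.lift_snd _ _ _).symm
  let t : ∀ s : PullbackCone φ ψ, s.pt ⟶ w := fun s =>
    Functor.IsStronglyCartesian.map p (pullback.snd (p.map φ) (p.map ψ)) a (hm s) s.snd
  have ht_lift : ∀ s : PullbackCone φ ψ, p.IsHomLift (m s) (t s) := fun s =>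
    Functor.IsStronglyCartesian.map_isHomLift p _ a (hm s) s.snd
  have ht_snd : ∀ s : PullbackCone φ ψ, t s ≫ a = s.snd := fun s =>
    Functor.IsStronglyCartesian.fac p _ a (hm s) s.snd
  refine PullbackCone.IsLimit.mk _ t (fun s => ?_) ht_snd (fun s m' h1 h2 => ?_)
  · have l2 : p.IsHomLift (m s ≫ pullback.fst (p.map φ) (p.map ψ)) (t s ≫ b) := by
      have := ht_lift s; infer_instance
    have e1 : m s ≫ pullback.fst (p.map φ) (p.map ψ) = p.map s.fst := pullback.lift_fst _ _ _
    rw [e1] at l2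
    apply Functor.IsStronglyCartesian.ext p (p.map φ) φ (p.map s.fst)
    rw [Category.assoc, hbf, ← Category.assoc, ht_snd s, s.condition]
  · let k : p.obj s.pt ⟶ pullback (p.map φ) (p.map ψ) := p.map m' ≫ eqToHom hw
    have lk : p.IsHomLift k m' := inferInstance
    have e2 : k ≫ pullback.snd (p.map φ) (p.map ψ) = p.map s.snd := by
      have : p.IsHomLift (k ≫ pullback.snd (p.map φ) (p.map ψ)) (m' ≫ a) := inferInstance
      rw [h2] at this
      exact IsHomLift.eq_of_isHomLift p _ s.snd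
    have e3 : k ≫ pullback.fst (p.map φ) (p.map ψ) = p.map s.fst := by
      have : p.IsHomLift (k ≫ pullback.fst (p.map φ) (p.map ψ)) (m' ≫ b) := inferInstance
      rw [h1] at this
      exact IsHomLift.eq_of_isHomLift p _ s.fst
    have e4 : k = m s := by
      apply pullback.hom_ext
      · rw [e3]; exact (pullback.lift_fst _ _ _).symm
      · rw [e2]; exact (pullback.lift_snd _ _ _).symm
    have lk' : p.IsHomLift (m s) m' := by rw [← e4]; exact lk
    exact Functor.IsStronglyCartesian.map_uniq p _ a (hm s) s.snd m' h2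

end Groth.Agent.S6417
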