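import Groth.Statements.S6418
import Groth.Agent.S6419

set_option autoImplicit false
open CategoryTheory
universe v₁ u₁ v₂ u₂
open FibCat

namespace Groth.Agent.S6418

/-- If `p' : 𝒮 ⥤ C/U` composed with the forgetful functor `C/U ⥤ C` is a fibred category, then so is
`p'`. -/
theorem result {𝒮 : Type u₁} [Category.{v₁} 𝒮] {C : Type u₂} [Category.{v₂} C] {U : C} (p' : 𝒮 ⥤ Over U) [(p' ⋙ Over.forget U).IsFibered] : p'.IsFibered := by
  refine Functor.IsFibered.of_exists_isStronglyCartesian (fun a R f => ?_)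
  obtain ⟨b, φ, hφ⟩ :=
    Functor.IsPreFibered.exists_isCartesian' (p := p' ⋙ Over.forget U) (a := a) f.left
  have hsc : (p' ⋙ Over.forget U).IsStronglyCartesian (R := R.left)
      (S := (p' ⋙ Over.forget U).obj a) f.left φ :=
    Functor.IsFibered.isStronglyCartesian_of_isCartesian _ _ _
  have hl : p'.IsHomLift f φ :=
    @Groth.Agent.S6419.lift_of_forget _ _ _ _ _ p' R b a f φ hφ.toIsHomLift
  have hR : p'.obj b = R := IsHomLift.domain_eq p' f φ
  subst hR
  have hf : f = p'.map φ := IsHomLift.eq_of_isHomLift p' f φ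
  subst hf
  have : (p' ⋙ Over.forget U).IsStronglyCartesian ((p' ⋙ Over.forget U).map φ) φ := hsc
  exact ⟨b, φ, Groth.Agent.S6419.sc_of_forget p' φ⟩

end Groth.Agent.S6418
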