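import Groth.Statements.S6420
-- import your own Groth.Agent.* helpers here

set_option autoImplicit false
open CategoryTheory CategoryTheory.Limits
universe v u
open FibCat

namespace Groth.Agent.S6420

/-- For a 2-commutative morphism of cospans of categories whose outer functors `X ⥤ A` and `Y ⥤ B` are
faithful, the induced functor `X ×_Z Y ⥤ A ×_C B` of 2-fibre products is faithful. -/
theorem result {X Y Z A B C : Type u} [Category.{v} X] [Category.{v} Y] [Category.{v} Z] [Category.{v} A] [Category.{v} B] [Category.{v} C] {H : X ⥤ Z} {I : Y ⥤ Z} {F : A ⥤ C} {G : B ⥤ C} (ψ : CatCospanTransform H I F G) [ψ.left.Faithful] [ψ.right.Faithful] :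
    (FibCat.categoricalPullbackMap ψ).Faithful := by
  refine ⟨fun {x y} f g h => ?_⟩
  have h1 : ψ.left.map f.fst = ψ.left.map g.fst := congrArg (fun m => m.fst) h
  have h2 : ψ.right.map f.snd = ψ.right.map g.snd := congrArg (fun m => m.snd) h
  exact CategoricalPullback.hom_ext (ψ.left.map_injective h1) (ψ.right.map_injective h2)

end Groth.Agent.S6420
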