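import Groth.Statements.S6421
import Groth.Agent.S6420

set_option autoImplicit false
open CategoryTheory CategoryTheory.Limits
universe v u
open FibCat

namespace Groth.Agent.S6421

/-- For a 2-commutative morphism of cospans of categories whose outer functors `X ⥤ A`, `Y ⥤ B` are
fully faithful and whose middle functor `Z ⥤ C` is faithful, the induced functor `X ×_Z Y ⥤ A ×_C B`
is fully faithful. -/
theorem result {X Y Z A B C : Type u} [Category.{v} X] [Category.{v} Y] [Category.{v} Z] [Category.{v} A] [Category.{v} B] [Category.{v} C] {H : X ⥤ Z} {I : Y ⥤ Z} {F : A ⥤ C} {G : B ⥤ C} (ψ : CatCospanTransform H I F G) [ψ.left.Full] [ψ.left.Faithful] [ψ.right.Full] [ψ.right.Faithful] [ψ.base.Faithful] :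
    (FibCat.categoricalPullbackMap ψ).Full ∧ (FibCat.categoricalPullbackMap ψ).Faithful := by
  letI := ψ.squareLeft
  letI := ψ.squareRight
  have hiso : ∀ x : CategoricalPullback H I, ((categoricalPullbackMap ψ).obj x).iso.hom =
      (CatCommSq.iso H ψ.left ψ.base F).inv.app x.fst ≫ ψ.base.map x.iso.hom ≫
        (CatCommSq.iso I ψ.right ψ.base G).hom.app x.snd := fun x => by
    simp [FibCat.categoricalPullbackMap]; rfl
  refine ⟨⟨fun {x y} m => ?_⟩, Groth.Agent.S6420.result ψ⟩
  let a : x.fst ⟶ y.fst := ψ.left.preimage m.fst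
  let b : x.snd ⟶ y.snd := ψ.right.preimage m.snd
  have ha : ψ.left.map a = m.fst := ψ.left.map_preimage _
  have hb : ψ.right.map b = m.snd := ψ.right.map_preimage _
  have hw : H.map a ≫ y.iso.hom = x.iso.hom ≫ I.map b := by
    apply ψ.base.map_injective
    have hm := m.w
    rw [hiso, hiso, ← ha, ← hb] at hm
    have n1 := (CatCommSq.iso H ψ.left ψ.base F).inv.naturality a
    have n2 := (CatCommSq.iso I ψ.right ψ.base G).hom.naturality b
    simp only [Functor.comp_map] at n1 n2
    rw [Functor.map_comp, Functor.map_comp,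
      ← cancel_epi ((CatCommSq.iso H ψ.left ψ.base F).inv.app x.fst),
      ← cancel_mono ((CatCommSq.iso I ψ.right ψ.base G).hom.app y.snd)]
    simp only [Category.assoc]
    rw [n2, ← reassoc_of% n1]
    exact hm.trans ((Category.assoc _ _ _).trans
      (congrArg (fun t => _ ≫ t) (Category.assoc _ _ _)))
  exact ⟨⟨a, b, hw⟩, CategoricalPullback.hom_ext ha hb⟩

end Groth.Agent.S6421
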