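import Groth.Statements.S6422
import Groth.Agent.S6421

set_option autoImplicit false
open CategoryTheory CategoryTheory.Limits
universe v u
open FibCat

namespace Groth.Agent.S6422

/-- For a 2-commutative morphism of cospans of categories whose outer functors `X ⥤ A`, `Y ⥤ B` are
equivalences and whose middle functor `Z ⥤ C` is fully faithful, the induced functor `X ×_Z Y ⥤ A
×_C B` is an equivalence of categories. -/
theorem result {X Y Z A B C : Type u} [Category.{v} X] [Category.{v} Y] [Category.{v} Z] [Category.{v} A] [Category.{v} B] [Category.{v} C] {H : X ⥤ Z} {I : Y ⥤ Z} {F : A ⥤ C} {G : B ⥤ C} (ψ : CatCospanTransform H I F G) [ψ.left.IsEquivalence] [ψ.right.IsEquivalence] [ψ.base.Full] [ψ.base.Faithful] :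
    (FibCat.categoricalPullbackMap ψ).IsEquivalence := by
  letI := ψ.squareLeft
  letI := ψ.squareRight
  have hiso : ∀ x : CategoricalPullback H I, ((categoricalPullbackMap ψ).obj x).iso.hom =
      (CatCommSq.iso H ψ.left ψ.base F).inv.app x.fst ≫ ψ.base.map x.iso.hom ≫
        (CatCommSq.iso I ψ.right ψ.base G).hom.app x.snd := fun x => by
    simp [FibCat.categoricalPullbackMap]; rfl
  have hlF : ψ.left.Full := inferInstance
  have hlFa : ψ.left.Faithful := inferInstance
  have hrF : ψ.right.Full := inferInstance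
  have hrFa : ψ.right.Faithful := inferInstance
  obtain ⟨hF, hFa⟩ := Groth.Agent.S6421.result ψ
  refine { faithful := hFa, full := hF, essSurj := ⟨fun z => ?_⟩ }
  let a := ψ.left.objPreimage z.fst
  let α : ψ.left.obj a ≅ z.fst := ψ.left.objObjPreimageIso z.fst
  let b := ψ.right.objPreimage z.snd
  let β : ψ.right.obj b ≅ z.snd := ψ.right.objObjPreimageIso z.snd
  let E : ψ.base.obj (H.obj a) ≅ ψ.base.obj (I.obj b) :=
    (CatCommSq.iso H ψ.left ψ.base F).app a ≪≫ F.mapIso α ≪≫ z.iso ≪≫ G.mapIso β.symm ≪≫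
      ((CatCommSq.iso I ψ.right ψ.base G).app b).symm
  let e : H.obj a ≅ I.obj b := (Functor.FullyFaithful.ofFullyFaithful ψ.base).preimageIso E
  have he : ψ.base.map e.hom = E.hom := (Functor.FullyFaithful.ofFullyFaithful ψ.base).map_preimage _
  let w : CategoricalPullback H I := ⟨a, b, e⟩
  refine ⟨w, ⟨CategoricalPullback.mkIso α β ?_⟩⟩
  rw [hiso]
  change F.map α.hom ≫ z.iso.hom = ((CatCommSq.iso H ψ.left ψ.base F).inv.app a ≫
      ψ.base.map e.hom ≫ (CatCommSq.iso I ψ.right ψ.base G).hom.app b) ≫ G.map β.hom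
  rw [he]
  simp [E]

end Groth.Agent.S6422
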