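import Groth.Statements.S6424
import Mathlib.CategoryTheory.Limits.Constructions.FiniteProductsOfBinaryProducts
import Mathlib.CategoryTheory.Limits.Constructions.LimitsOfProductsAndEqualizers
-- import your own Groth.Agent.* helpers here

set_option autoImplicit false
open CategoryTheory CategoryTheory.Limits
universe v u
open CatLim

namespace Groth.Agent.S6424

theorem hasProduct_fin_succ {C : Type u} [Category.{v} C] [HasBinaryProducts C] :
    ∀ (n : ℕ) (f : Fin (n + 1) → C), HasProduct f
  | 0 => fun f => by
    haveI : Subsingleton (Fin (0 + 1)) := ⟨fun a b => Fin.ext (by omega)⟩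
    haveI : Nonempty (Fin (0 + 1)) := ⟨0⟩
    exact hasProduct_unique f
  | n + 1 => fun f => by
    haveI := hasProduct_fin_succ n (fun i => f i.succ)
    exact HasLimit.mk ⟨_, extendFanIsLimit f (limit.isLimit _) (limit.isLimit _)⟩

theorem hasLimitsOfShape_fin_succ {C : Type u} [Category.{v} C] [HasBinaryProducts C] (n : ℕ) :
    HasLimitsOfShape (Discrete (Fin (n + 1))) C := ⟨fun K => by
  let that : (Discrete.functor fun i => K.obj ⟨i⟩) ≅ K := Discrete.natIso fun ⟨_⟩ => Iso.refl _
  rw [← hasLimit_iff_of_iso that]
  exact hasProduct_fin_succ n _⟩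

theorem hasProduct_of_finite_nonempty {C : Type u} [Category.{v} C] [HasBinaryProducts C]
    {β : Type} [Finite β] [Nonempty β] (g : β → C) : HasProduct g := by
  obtain ⟨n, hn⟩ := Finite.exists_equiv_fin β
  obtain ⟨e⟩ := hn
  cases n with
  | zero => exact ((e (Classical.arbitrary β)).elim0)
  | succ n =>
    haveI := hasLimitsOfShape_fin_succ (C := C) n
    haveI : HasLimitsOfShape (Discrete β) C :=
      hasLimitsOfShape_of_equivalence (Discrete.equivalence e.symm)
    infer_instance

/-- (2) ⇒ (1): a category with products of pairs and equalizers has all finite nonempty limits. -/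
theorem result {C : Type u} [Category.{v} C] [HasBinaryProducts C] [HasEqualizers C]
    (J : Type) [SmallCategory J] [FinCategory J] [Nonempty J] : HasLimitsOfShape J C := by
  refine ⟨fun F => ?_⟩
  haveI : HasLimit (Discrete.functor F.obj) := hasProduct_of_finite_nonempty F.obj
  haveI : Nonempty (Σ p : J × J, p.1 ⟶ p.2) :=
    ⟨⟨(Classical.arbitrary J, Classical.arbitrary J), 𝟙 _⟩⟩
  haveI : HasLimit (Discrete.functor fun f : Σ p : J × J, p.1 ⟶ p.2 => F.obj f.1.2) :=
    hasProduct_of_finite_nonempty _
  exact hasLimit_of_equalizer_and_product F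

end Groth.Agent.S6424
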