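import Groth.Statements.S6427
-- import your own Groth.Agent.* helpers here

set_option autoImplicit false
open CategoryTheory CategoryTheory.Limits
universe v
open CatLim

namespace Groth.Agent.S6427

/-- Over an index category in which every pair of morphisms with common source can be completed to a
commutative square, colimits of sets preserve injective morphisms of diagrams. -/
theorem result {I : Type v} [SmallCategory I]
    (hI : ∀ ⦃x y z : I⦄ (f : x ⟶ y) (g : x ⟶ z), ∃ (w : I) (f' : y ⟶ w) (g' : z ⟶ w), f ≫ f' = g ≫ g')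
    {M N : I ⥤ Type v} (φ : M ⟶ N) (hφ : ∀ i, Function.Injective (φ.app i)) :
    Function.Injective (colimMap φ) := by
  let R : (Σ k, N.obj k) → (Σ k, N.obj k) → Prop := fun p q =>
    ∃ (k : I) (f : p.1 ⟶ k) (g : q.1 ⟶ k), N.map f p.2 = N.map g q.2
  have hR : ∀ p q, Relation.EqvGen N.ColimitTypeRel p q → R p q := by
    intro p q h
    induction h with
    | rel p q h =>
      obtain ⟨f, hf⟩ := h
      exact ⟨q.1, f, 𝟙 _, by rw [hf]; simp⟩
    | refl p => exact ⟨p.1, 𝟙 _, 𝟙 _, rfl⟩
    | symm p q _ ih =>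
      obtain ⟨k, f, g, h⟩ := ih
      exact ⟨k, g, f, h.symm⟩
    | trans p q r _ _ ih1 ih2 =>
      obtain ⟨k, f, g, h1⟩ := ih1
      obtain ⟨k', f', g', h2⟩ := ih2
      obtain ⟨w, c, d, hcd⟩ := hI g f'
      refine ⟨w, f ≫ c, g' ≫ d, ?_⟩
      rw [N.map_comp, N.map_comp]
      change N.map c (N.map f p.2) = N.map d (N.map g' r.2)
      rw [h1, ← h2]
      change (N.map g ≫ N.map c) q.2 = (N.map f' ≫ N.map d) q.2
      rw [← N.map_comp, ← N.map_comp, hcd]
  intro a b hab
  obtain ⟨i, x, rfl⟩ := Types.jointly_surjective' a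
  obtain ⟨j, y, rfl⟩ := Types.jointly_surjective' b
  have e1 : colimMap φ (colimit.ι M i x) = colimit.ι N i (φ.app i x) := by simp
  have e2 : colimMap φ (colimit.ι M j y) = colimit.ι N j (φ.app j y) := by simp
  rw [e1, e2] at hab
  obtain ⟨k, f, g, h⟩ := hR _ _ (Types.colimit_eq hab)
  have h' : φ.app k (M.map f x) = φ.app k (M.map g y) := by
    rw [NatTrans.naturality_apply, NatTrans.naturality_apply]
    exact h
  exact Types.colimit_sound' f g (hφ k h')

end Groth.Agent.S6427
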