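import Groth.Statements.S6429
-- import your own Groth.Agent.* helpers here

set_option autoImplicit false
open CategoryTheory CategoryTheory.MonoidalCategory
universe v u
open MonCat

namespace Groth.Agent.S6429

/-- An object `X` of a monoidal category is invertible (some `X'` has `X ⊗ X' ≅ 𝟙` and `X' ⊗ X ≅ 𝟙`) if
and only if tensoring on the left by `X` is an equivalence, if and only if tensoring on the right by
`X` is an equivalence. -/
theorem result {C : Type u} [Category.{v} C] [MonoidalCategory C] (X : C) :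
    ((tensorLeft X).IsEquivalence ↔ ∃ X' : C, Nonempty (X ⊗ X' ≅ 𝟙_ C) ∧ Nonempty (X' ⊗ X ≅ 𝟙_ C)) ∧
      ((tensorRight X).IsEquivalence ↔ ∃ X' : C, Nonempty (X ⊗ X' ≅ 𝟙_ C) ∧ Nonempty (X' ⊗ X ≅ 𝟙_ C)) := by
  constructor
  · constructor
    · intro hE
      have : (tensorLeft X).EssSurj := hE.essSurj
      have : (tensorLeft X).Full := hE.full
      have : (tensorLeft X).Faithful := hE.faithful
      let X' := (tensorLeft X).objPreimage (𝟙_ C)
      let e : X ⊗ X' ≅ 𝟙_ C := (tensorLeft X).objObjPreimageIso (𝟙_ C)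
      have hff := Functor.FullyFaithful.ofFullyFaithful (tensorLeft X)
      let iso : (tensorLeft X).obj (X' ⊗ X) ≅ (tensorLeft X).obj (𝟙_ C) :=
        (α_ X X' X).symm ≪≫ whiskerRightIso e X ≪≫ λ_ X ≪≫ (ρ_ X).symm
      exact ⟨X', ⟨e⟩, ⟨hff.preimageIso iso⟩⟩
    · rintro ⟨X', ⟨e₁⟩, ⟨e₂⟩⟩
      let E : C ≌ C := CategoryTheory.Equivalence.mk (tensorLeft X) (tensorLeft X')
        ((leftUnitorNatIso C).symm ≪≫ ((tensoringLeft C).mapIso e₂).symm ≪≫ tensorLeftTensor X' X)
        ((tensorLeftTensor X X').symm ≪≫ (tensoringLeft C).mapIso e₁ ≪≫ leftUnitorNatIso C)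
      exact E.isEquivalence_functor
  · constructor
    · intro hE
      have : (tensorRight X).EssSurj := hE.essSurj
      have : (tensorRight X).Full := hE.full
      have : (tensorRight X).Faithful := hE.faithful
      let X' := (tensorRight X).objPreimage (𝟙_ C)
      let e : X' ⊗ X ≅ 𝟙_ C := (tensorRight X).objObjPreimageIso (𝟙_ C)
      have hff := Functor.FullyFaithful.ofFullyFaithful (tensorRight X)
      let iso : (tensorRight X).obj (X ⊗ X') ≅ (tensorRight X).obj (𝟙_ C) :=
        α_ X X' X ≪≫ whiskerLeftIso X e ≪≫ ρ_ X ≪≫ (λ_ X).symm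
      exact ⟨X', ⟨hff.preimageIso iso⟩, ⟨e⟩⟩
    · rintro ⟨X', ⟨e₁⟩, ⟨e₂⟩⟩
      let E : C ≌ C := CategoryTheory.Equivalence.mk (tensorRight X) (tensorRight X')
        ((rightUnitorNatIso C).symm ≪≫ ((tensoringRight C).mapIso e₁).symm ≪≫
          tensorRightTensor X X')
        ((tensorRightTensor X' X).symm ≪≫ (tensoringRight C).mapIso e₂ ≪≫ rightUnitorNatIso C)
      exact E.isEquivalence_functor

end Groth.Agent.S6429
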