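import Groth.Statements.S6430
-- import your own Groth.Agent.* helpers here

set_option autoImplicit false
open CategoryTheory
universe v₂ u₂ v u
open FibCat

namespace Groth.Agent.S6430

theorem sc_transport' {𝒳 : Type*} [Category 𝒳] {𝒮 : Type*} [Category 𝒮] (p : 𝒳 ⥤ 𝒮)
    {R S : 𝒮} {a b : 𝒳} (f : R ⟶ S) (φ : a ⟶ b) [p.IsStronglyCartesian f φ] :
    p.IsStronglyCartesian (p.map φ) φ := by
  subst_hom_lift p f φ
  assumption

theorem lift_comp_iff {A : Type*} [Category A] {B : Type*} [Category B] {D : Type*} [Category D]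
    (G : A ⥤ B) (p : B ⥤ D) {R S : D} {a b : A} (f : R ⟶ S) (ψ : a ⟶ b) :
    (G ⋙ p).IsHomLift f ψ ↔ p.IsHomLift f (G.map ψ) := by
  constructor
  · intro h
    exact IsHomLift.of_fac p f (G.map ψ) (IsHomLift.domain_eq (G ⋙ p) f ψ)
      (IsHomLift.codomain_eq (G ⋙ p) f ψ) (IsHomLift.fac (G ⋙ p) f ψ)
  · intro h
    exact IsHomLift.of_fac (G ⋙ p) f ψ (IsHomLift.domain_eq p f (G.map ψ))
      (IsHomLift.codomain_eq p f (G.map ψ)) (IsHomLift.fac p f (G.map ψ))

/-- For a fibred category `p : 𝒮 ⥤ C`, the wide subcategory of `𝒮` on the strongly cartesian morphisms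
is fibred in groupoids over `C`. -/
theorem result {C : Type u} [Category.{v} C] {𝒮 : Type u₂} [Category.{v₂} 𝒮] (p : 𝒮 ⥤ C) [p.IsFibered] :
    FibCat.IsFibGrpd (FibCat.cartSubProj p) := by
  have liff : ∀ {R S : C} {a b : cartSub p} (f : R ⟶ S) (ψ : a ⟶ b),
      (cartSubProj p).IsHomLift f ψ ↔ p.IsHomLift f ψ.hom :=
    fun f ψ => lift_comp_iff (wideSubcategoryInclusion _) p f ψ
  refine ⟨fun {x V} f => ?_, fun {y x} ψ => ?_⟩
  · obtain ⟨b, φ, hφ⟩ := Functor.IsPreFibered.exists_isCartesian' (p := p) (a := x.obj) f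
    have hφ' : p.IsCartesian (S := (cartSubProj p).obj x) f φ := hφ
    have hs : p.IsStronglyCartesian f φ := inferInstance
    have hs' : p.IsStronglyCartesian (p.map φ) φ := sc_transport' p f φ
    let ψ : (⟨b⟩ : cartSub p) ⟶ x := ⟨φ, hs'⟩
    exact ⟨⟨b⟩, ψ, (liff f ψ).mpr inferInstance⟩
  · have hψ : p.IsStronglyCartesian ((cartSubProj p).map ψ) ψ.hom := ψ.property
    refine ⟨fun {z} g ψ' hψ' => ?_⟩
    have h1 : p.IsHomLift (g ≫ (cartSubProj p).map ψ) ψ'.hom := (liff _ ψ').mp hψ'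
    obtain ⟨χ, ⟨hχl, hχf⟩, hχu⟩ := Functor.IsStronglyCartesian.universal_property p
      ((cartSubProj p).map ψ) ψ.hom (R' := (cartSubProj p).obj z) g
      (g ≫ (cartSubProj p).map ψ) rfl ψ'.hom
    have hψ'c : p.IsStronglyCartesian ((cartSubProj p).map ψ') ψ'.hom := ψ'.property
    have e1 : g ≫ (cartSubProj p).map ψ = (cartSubProj p).map ψ' :=
      IsHomLift.eq_of_isHomLift _ _ ψ'
    have hc : p.IsStronglyCartesian (g ≫ (cartSubProj p).map ψ) (χ ≫ ψ.hom) := by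
      rw [hχf, e1]; exact hψ'c
    have hχc : p.IsStronglyCartesian g χ :=
      Functor.IsStronglyCartesian.of_comp p (f := g) (g := (cartSubProj p).map ψ) (φ := χ)
        (ψ := ψ.hom)
    have hχc' : p.IsStronglyCartesian (p.map χ) χ := sc_transport' p g χ
    let χ' : z ⟶ y := ⟨χ, hχc'⟩
    refine ⟨χ', ⟨(liff g χ').mpr hχl, WideSubcategory.hom_ext _ hχf⟩, ?_⟩
    rintro χ'' ⟨hl, hf⟩
    apply WideSubcategory.hom_ext
    exact hχu χ''.hom ⟨(liff g χ'').mp hl, congrArg InducedWideCategory.Hom.hom hf⟩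

end Groth.Agent.S6430
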