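import Groth.Statements.S6433
-- import your own Groth.Agent.* helpers here

set_option autoImplicit false
open CategoryTheory
universe v u v' u'
open CatLoc

namespace Groth.Agent.S6433

/-- For a left multiplicative system `W` and a localization functor `L`, any finite family of morphisms
`L X_i ⟶ L Y` admits a common denominator: some `s : Y ⟶ Y'` in `W` and morphisms `f_i : X_i ⟶ Y'`
with `g_i = L(s)⁻¹ L(f_i)`. -/
theorem result {C : Type u} [Category.{v} C] {D : Type u'} [Category.{v'} D] (W : MorphismProperty C) (L : C ⥤ D) [L.IsLocalization W] [W.HasLeftCalculusOfFractions]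
    {ι : Type} [Finite ι] (X : ι → C) (Y : C) (g : ∀ i, L.obj (X i) ⟶ L.obj Y) :
    ∃ (Y' : C) (s : Y ⟶ Y') (_ : W s) (f : ∀ i, X i ⟶ Y'), ∀ i, g i ≫ L.map s = L.map (f i) := by
  classical
  haveI := Fintype.ofFinite ι
  have key : ∀ S : Finset ι, ∃ (Y' : C) (s : Y ⟶ Y'), W s ∧
      ∀ i ∈ S, ∃ f : X i ⟶ Y', g i ≫ L.map s = L.map f := by
    intro S
    induction S using Finset.induction_on with
    | empty => exact ⟨Y, 𝟙 Y, W.id_mem Y, fun i hi => by simp at hi⟩
    | insert j S hj ih =>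
      obtain ⟨Y', s, hs, hS⟩ := ih
      obtain ⟨φ, hφ⟩ := Localization.exists_leftFraction L W (g j)
      obtain ⟨ψ, hψ⟩ := (MorphismProperty.RightFraction.mk (W := W) s hs φ.s).exists_leftFraction
      refine ⟨ψ.Y', φ.s ≫ ψ.s, W.comp_mem _ _ φ.hs ψ.hs, fun i hi => ?_⟩
      rcases Finset.mem_insert.mp hi with rfl | hi
      · refine ⟨φ.f ≫ ψ.s, ?_⟩
        rw [L.map_comp, L.map_comp, ← Category.assoc, hφ,
          MorphismProperty.LeftFraction.map_comp_map_s]
      · obtain ⟨f, hf⟩ := hS i hi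
        refine ⟨f ≫ ψ.f, ?_⟩
        have hψ' : φ.s ≫ ψ.s = s ≫ ψ.f := hψ
        rw [hψ', L.map_comp, L.map_comp, ← Category.assoc, hf]
  obtain ⟨Y', s, hs, h⟩ := key Finset.univ
  choose f hf using fun i => h i (Finset.mem_univ i)
  exact ⟨Y', s, hs, f, hf⟩

end Groth.Agent.S6433
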