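import Groth.Statements.S6435
-- import your own Groth.Agent.* helpers here

set_option autoImplicit false
open CategoryTheory
universe v u v' u'
open CatLoc

namespace Groth.Agent.S6435

/-- For a multiplicative system `W` (left and right calculus of fractions) with localization functor
`L`, a morphism `f` becomes an isomorphism under `L` if and only if `g ∘ f ∈ W` and `f ∘ h ∈ W` for
some `g, h`. -/
theorem result {C : Type u} [Category.{v} C] {D : Type u'} [Category.{v'} D] (W : MorphismProperty C) (L : C ⥤ D) [L.IsLocalization W] [W.HasLeftCalculusOfFractions] [W.HasRightCalculusOfFractions]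
    {X Y : C} (f : X ⟶ Y) :
    IsIso (L.map f) ↔ ∃ (Z Z' : C) (g : Y ⟶ Z) (h : Z' ⟶ X), W (f ≫ g) ∧ W (h ≫ f) := by
  constructor
  · intro hf
    obtain ⟨φ, hφ⟩ := Localization.exists_leftFraction L W (inv (L.map f))
    have e1 : L.map (f ≫ φ.f) = L.map φ.s := by
      rw [L.map_comp, ← MorphismProperty.LeftFraction.map_comp_map_s φ L
        (Localization.inverts L W), ← hφ, ← Category.assoc, IsIso.hom_inv_id, Category.id_comp]
    obtain ⟨Z, t, ht, hZ⟩ := (MorphismProperty.map_eq_iff_postcomp L W _ _).mp e1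
    obtain ⟨ψ, hψ⟩ := Localization.exists_rightFraction L W (inv (L.map f))
    have e2 : L.map (ψ.f ≫ f) = L.map ψ.s := by
      rw [L.map_comp, ← MorphismProperty.RightFraction.map_s_comp_map ψ L
        (Localization.inverts L W), ← hψ, Category.assoc, IsIso.inv_hom_id, Category.comp_id]
    obtain ⟨Z', t', ht', hZ'⟩ := (MorphismProperty.map_eq_iff_precomp L W _ _).mp e2
    refine ⟨Z, Z', φ.f ≫ t, t' ≫ ψ.f, ?_, ?_⟩
    · rw [← Category.assoc, hZ]; exact W.comp_mem _ _ φ.hs ht
    · rw [Category.assoc, hZ']; exact W.comp_mem _ _ ht' ψ.hs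
  · rintro ⟨Z, Z', g, h, hg, hh⟩
    have i1 : IsIso (L.map (f ≫ g)) := Localization.inverts L W _ hg
    have i2 : IsIso (L.map (h ≫ f)) := Localization.inverts L W _ hh
    let r := L.map g ≫ inv (L.map (f ≫ g))
    let l := inv (L.map (h ≫ f)) ≫ L.map h
    have hr : L.map f ≫ r = 𝟙 _ := by
      simp only [r, ← Category.assoc, ← L.map_comp, IsIso.hom_inv_id]
    have hl : l ≫ L.map f = 𝟙 _ := by
      simp only [l, Category.assoc, ← L.map_comp, IsIso.inv_hom_id]
    have hlr : l = r := by
      calc l = l ≫ (L.map f ≫ r) := by rw [hr, Category.comp_id]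
        _ = (l ≫ L.map f) ≫ r := (Category.assoc _ _ _).symm
        _ = r := by rw [hl, Category.id_comp]
    exact ⟨r, hr, by rw [← hlr, hl]⟩

end Groth.Agent.S6435
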