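import Groth.Statements.S6436
-- import your own Groth.Agent.* helpers here

set_option autoImplicit false
open CategoryTheory
universe v₁ u₁ v₂ u₂
open CatLim

namespace Groth.Agent.S6436

/-- For an adjunction `u ⊣ v`, if `v ∘ u` is fully faithful then so is `u`, and if `u ∘ v` is fully
faithful then so is `v`. -/
theorem result {C : Type u₁} [Category.{v₁} C] {D : Type u₂} [Category.{v₂} D] {u : C ⥤ D} {v : D ⥤ C} (adj : u ⊣ v) :
    ((u ⋙ v).Full → (u ⋙ v).Faithful → u.Full ∧ u.Faithful) ∧ ((v ⋙ u).Full → (v ⋙ u).Faithful → v.Full ∧ v.Faithful) := by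
  constructor
  · intro hF hFa
    refine ⟨⟨fun {X X'} φ => ?_⟩, ⟨fun {X X'} f g h => ?_⟩⟩
    · have key : ∀ φ₁ φ₂ : u.obj X ⟶ u.obj X', v.map φ₁ = v.map φ₂ → φ₁ = φ₂ :=
        fun φ₁ φ₂ h => (adj.homEquiv _ _).injective
          (by rw [adj.homEquiv_unit, adj.homEquiv_unit, h])
      obtain ⟨f, hf⟩ := (u ⋙ v).map_surjective (v.map φ)
      exact ⟨f, key _ _ hf⟩
    · apply (u ⋙ v).map_injective
      change v.map (u.map f) = v.map (u.map g)
      rw [h]
  · intro hF hFa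
    refine ⟨⟨fun {Y Y'} φ => ?_⟩, ⟨fun {Y Y'} f g h => ?_⟩⟩
    · have key : ∀ φ₁ φ₂ : v.obj Y ⟶ v.obj Y', u.map φ₁ = u.map φ₂ → φ₁ = φ₂ :=
        fun φ₁ φ₂ h => (adj.homEquiv _ _).symm.injective
          (by rw [adj.homEquiv_counit, adj.homEquiv_counit, h])
      obtain ⟨f, hf⟩ := (v ⋙ u).map_surjective (u.map φ)
      exact ⟨f, key _ _ hf⟩
    · apply (v ⋙ u).map_injective
      change u.map (v.map f) = u.map (v.map g)
      rw [h]

end Groth.Agent.S6436
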