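import Groth.Statements.S6444
-- import your own Groth.Agent.* helpers here

set_option autoImplicit false
open CategoryTheory
universe v u v' u'
open CatLoc

namespace Groth.Agent.S6444

/-- For a left multiplicative system, a commutative square in the localization between the images of two
morphisms `f, f'` of `C` lifts to a commutative diagram `X → X'' ← X'`, `Y → Y'' ← Y'` in `C` over a
third morphism `f''`, the backward arrows lying in `W`. -/
theorem result {C : Type u} [Category.{v} C] {D : Type u'} [Category.{v'} D] (W : MorphismProperty C) (L : C ⥤ D) [L.IsLocalization W] [W.HasLeftCalculusOfFractions]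
    {X Y X' Y' : C} (f : X ⟶ Y) (f' : X' ⟶ Y') (a : L.obj X ⟶ L.obj X') (b : L.obj Y ⟶ L.obj Y') (w : L.map f ≫ b = a ≫ L.map f') :
    ∃ (X'' Y'' : C) (f'' : X'' ⟶ Y'') (g : X ⟶ X'') (h : Y ⟶ Y'') (s : X' ⟶ X'') (t : Y' ⟶ Y''),
      W s ∧ W t ∧ f ≫ h = g ≫ f'' ∧ f' ≫ t = s ≫ f'' ∧ L.map g = a ≫ L.map s ∧ L.map h = b ≫ L.map t := by
  obtain ⟨α, hα⟩ := Localization.exists_leftFraction L W a
  obtain ⟨β, hβ⟩ := Localization.exists_leftFraction L W b
  have ha : a ≫ L.map α.s = L.map α.f := by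
    rw [hα]; exact MorphismProperty.LeftFraction.map_comp_map_s α L _
  have hb : b ≫ L.map β.s = L.map β.f := by
    rw [hβ]; exact MorphismProperty.LeftFraction.map_comp_map_s β L _
  obtain ⟨ψ, hψ⟩ := (MorphismProperty.RightFraction.mk (W := W) α.s α.hs (f' ≫ β.s)).exists_leftFraction
  have hψ' : (f' ≫ β.s) ≫ ψ.s = α.s ≫ ψ.f := hψ
  have e1 : L.map (f ≫ β.f ≫ ψ.s) = L.map (α.f ≫ ψ.f) := by
    rw [L.map_comp, L.map_comp, ← hb, ← Category.assoc, ← Category.assoc, w, Category.assoc,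
      Category.assoc, ← L.map_comp, ← L.map_comp, ← Category.assoc, hψ', L.map_comp,
      ← Category.assoc, ha, L.map_comp]
  obtain ⟨Y₃, v, hv, hY⟩ := (MorphismProperty.map_eq_iff_postcomp L W _ _).mp e1
  refine ⟨α.Y', Y₃, ψ.f ≫ v, α.f, β.f ≫ ψ.s ≫ v, α.s, β.s ≫ ψ.s ≫ v, α.hs,
    W.comp_mem _ _ β.hs (W.comp_mem _ _ ψ.hs hv), ?_, ?_, ha.symm, ?_⟩
  · simpa [Category.assoc] using hY
  · rw [← Category.assoc, ← Category.assoc, ← Category.assoc, hψ', Category.assoc]
  · rw [L.map_comp, ← hb, Category.assoc, L.map_comp, L.map_comp, L.map_comp]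

end Groth.Agent.S6444
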