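import Groth.Statements.S6445
-- import your own Groth.Agent.* helpers here

set_option autoImplicit false
open CategoryTheory CategoryTheory.Limits
universe v u
open FibCat

namespace Groth.Agent.S6445

/-- Associativity of 2-fibre products of categories: `(A ×_B C) ×_D E` and `A ×_B (C ×_D E)` are
isomorphic categories, by an equivalence whose functor and inverse compose to the identity functors
on both sides and whose functor sends `((a, c, φ), e, ψ)` to an object with components `a`, `c`,
`e`. (The published statement gives the isomorphism by the formula `((a, c, φ), e, ψ) ↦ (a, (c, e,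
ψ), φ)`; this row pins the components `a`, `c`, `e` of the functor on objects and asks the functor
and its inverse to be mutually inverse on the nose.) -/
theorem result {A B C D E : Type u} [Category.{v} A] [Category.{v} B] [Category.{v} C] [Category.{v} D] [Category.{v} E]
    (F : A ⥤ B) (G : C ⥤ B) (H : C ⥤ D) (K : E ⥤ D) :
    ∃ e : CategoricalPullback (CategoricalPullback.π₂ F G ⋙ H) K ≌ CategoricalPullback F (CategoricalPullback.π₁ H K ⋙ G),
      e.functor ⋙ e.inverse = 𝟭 _ ∧ e.inverse ⋙ e.functor = 𝟭 _ ∧
      ∀ x, (e.functor.obj x).fst = x.fst.fst ∧ (e.functor.obj x).snd.fst = x.fst.snd ∧ (e.functor.obj x).snd.snd = x.snd := by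
  let Φ : CategoricalPullback (CategoricalPullback.π₂ F G ⋙ H) K ⥤
      CategoricalPullback F (CategoricalPullback.π₁ H K ⋙ G) :=
    { obj := fun x => ⟨x.fst.fst, ⟨x.fst.snd, x.snd, x.iso⟩, x.fst.iso⟩
      map := fun {x y} f => ⟨f.fst.fst, ⟨f.fst.snd, f.snd, f.w⟩, f.fst.w⟩
      map_id := fun x => rfl
      map_comp := fun f g => rfl }
  let Ψ : CategoricalPullback F (CategoricalPullback.π₁ H K ⋙ G) ⥤
      CategoricalPullback (CategoricalPullback.π₂ F G ⋙ H) K :=
    { obj := fun y => ⟨⟨y.fst, y.snd.fst, y.iso⟩, y.snd.snd, y.snd.iso⟩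
      map := fun {x y} g => ⟨⟨g.fst, g.snd.fst, g.w⟩, g.snd.snd, g.snd.w⟩
      map_id := fun x => rfl
      map_comp := fun f g => rfl }
  let e := CategoryTheory.Equivalence.mk Φ Ψ (Iso.refl _) (Iso.refl _)
  exact ⟨e, rfl, rfl, fun x => ⟨rfl, rfl, rfl⟩⟩

end Groth.Agent.S6445
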