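import Groth.Statements.S6446
import Mathlib.CategoryTheory.Limits.Types.Filtered

set_option autoImplicit false
open CategoryTheory CategoryTheory.Limits Opposite
universe v u
open CatLim

namespace Groth.Agent.S6446

/-- (2) ⇒ (1): over a filtered index category, a diagram `M` with a cocone `(X, M_i → X)` inducing
bijections `colim_i Mor(W, M_i) → Mor(W, X)` for all `W` is essentially constant as an ind-object
with value `X`. -/
theorem result {I : Type v} [SmallCategory I] [IsFiltered I] {C : Type u} [Category.{v} C]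
    (M : I ⥤ C) (c : Cocone M)
    (h : ∀ W : C, Function.Bijective (colimit.desc (M ⋙ coyoneda.obj (op W)) ((coyoneda.obj (op W)).mapCocone c))) :
    CatLim.IsEssConstInd M c := by
  have hdesc : ∀ (W : C) (i : I) (x : W ⟶ M.obj i),
      colimit.desc (M ⋙ coyoneda.obj (op W)) ((coyoneda.obj (op W)).mapCocone c)
        (colimit.ι (M ⋙ coyoneda.obj (op W)) i x) = x ≫ c.ι.app i := by
    intro W i x
    simp
  obtain ⟨z, hz⟩ := (h c.pt).2 (𝟙 c.pt)
  obtain ⟨i, s, rfl⟩ := Types.jointly_surjective' z
  rw [hdesc] at hz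
  refine ⟨i, s, hz, fun j => ?_⟩
  have e : colimit.ι (M ⋙ coyoneda.obj (op (M.obj j))) j (𝟙 (M.obj j)) =
      colimit.ι (M ⋙ coyoneda.obj (op (M.obj j))) i (c.ι.app j ≫ s) := by
    apply (h (M.obj j)).1
    rw [hdesc, hdesc, Category.assoc, hz]
    simp
  obtain ⟨k, b, a, hab⟩ := (CategoryTheory.Limits.Types.FilteredColimit.colimit_eq_iff _).mp e
  refine ⟨k, a, b, ?_⟩
  simpa using hab

end Groth.Agent.S6446
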