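import Groth.Statements.S6448
-- import your own Groth.Agent.* helpers here

set_option autoImplicit false
open CategoryTheory
universe v u
open CatLim

namespace Groth.Agent.S6448

/-- In a category where spans complete to commutative squares and parallel pairs are coequalized by a
later arrow, every connected component is filtered (so the category is a disjoint union of filtered
categories). -/
theorem result {I : Type u} [Category.{v} I]
    (h1 : ∀ ⦃w x y : I⦄ (a : w ⟶ x) (b : w ⟶ y), ∃ (z : I) (c : x ⟶ z) (d : y ⟶ z), a ≫ c = b ≫ d)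
    (h2 : ∀ ⦃x y : I⦄ (a b : x ⟶ y), ∃ (z : I) (c : y ⟶ z), a ≫ c = b ≫ c)
    (j : ConnectedComponents I) : IsFiltered j.Component := by
  have key : ∀ a b : I, Zigzag a b → ∃ c : I, Nonempty (a ⟶ c) ∧ Nonempty (b ⟶ c) := by
    intro a b h
    induction h with
    | refl => exact ⟨a, ⟨𝟙 a⟩, ⟨𝟙 a⟩⟩
    | tail _ hbd ih =>
      obtain ⟨c, ⟨fa⟩, ⟨fb⟩⟩ := ih
      rcases hbd with ⟨⟨g⟩⟩ | ⟨⟨g⟩⟩
      · obtain ⟨z, u, v, -⟩ := h1 fb g
        exact ⟨z, ⟨fa ≫ u⟩, ⟨v⟩⟩
      · exact ⟨c, ⟨fa⟩, ⟨g ≫ fb⟩⟩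
  have mem : ∀ (x : j.Component) (c : I) (g : x.obj ⟶ c), j.objectProperty c := by
    intro x c g
    exact (Quotient.sound (Zigzag.of_hom g)).symm.trans x.property
  haveI : IsFilteredOrEmpty j.Component := by
    constructor
    · intro x y
      have hxy : Zigzag x.obj y.obj := Quotient.exact' (x.property.trans y.property.symm)
      obtain ⟨c, ⟨fx⟩, ⟨fy⟩⟩ := key _ _ hxy
      exact ⟨⟨c, mem x c fx⟩, ObjectProperty.homMk fx, ObjectProperty.homMk fy, trivial⟩
    · intro x y f g
      obtain ⟨z, c, hc⟩ := h2 f.hom g.hom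
      refine ⟨⟨z, mem y z c⟩, ObjectProperty.homMk c, ?_⟩
      apply ObjectProperty.hom_ext
      simpa using hc
  exact {}

end Groth.Agent.S6448
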