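import Groth.Statements.S6457
-- import your own Groth.Agent.* helpers here

set_option autoImplicit false
universe u
open CategoryTheory AlgebraicGeometry
open Cyc

namespace Groth.Agent.S6457

/-- Let f : X → Y be a quasi-compact morphism of schemes and {Z_i} a locally finite collection of closed
subsets of X. Then the closures of the images f(Z_i) form a locally finite collection of closed
subsets of Y. (The published statement takes X and Y locally of finite type over a base; this row
allows arbitrary schemes, only quasi-compactness of f being used.) -/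
theorem result (X Y : Scheme.{u}) (f : X ⟶ Y) [QuasiCompact f] (ι : Type u) (Z : ι → Set X) (hZ : ∀ i, IsClosed (Z i)) (hlf : LocallyFinite Z) : LocallyFinite (fun i => closure (f '' Z i)) := by
  intro y
  obtain ⟨V, hV, hyV, -⟩ := (TopologicalSpace.Opens.isBasis_iff_nbhd.mp Y.isBasis_affineOpens)
    (show y ∈ (⊤ : Y.Opens) from trivial)
  have hcpt : IsCompact (f ⁻¹' (V : Set Y)) :=
    QuasiCompact.isCompact_preimage _ V.isOpen (IsAffineOpen.isCompact hV)
  have hfin := hlf.finite_nonempty_inter_compact hcpt
  refine ⟨V, V.isOpen.mem_nhds hyV, hfin.subset ?_⟩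
  rintro i ⟨z, hz1, hz2⟩
  obtain ⟨w, hw1, hw2⟩ := mem_closure_iff.mp hz1 V V.isOpen hz2
  obtain ⟨x, hx, rfl⟩ := hw2
  exact ⟨x, hx, hw1⟩

end Groth.Agent.S6457
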