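import Groth.Statements.S6464
-- import your own Groth.Agent.* helpers here

set_option autoImplicit false
universe u v
open CycAlg

namespace Groth.Agent.S6464

/-- Let (M, N, φ, ψ) be a 2-periodic complex over a ring R with M and N of finite length. Then its
cohomology modules have finite length and e_R(M, N, φ, ψ) = length_R(M) − length_R(N). (The case M =
N, where the conclusion reads e_R(M, φ, ψ) = 0, is the special case and is not restated.) -/
theorem result {R : Type u} [CommRing R] {M N : Type v} [AddCommGroup M] [Module R M] [AddCommGroup N] [Module R N] (φ : M →ₗ[R] N) (ψ : N →ₗ[R] M) (h : CycAlg.IsPeriodic φ ψ) (hM : Module.length R M < ⊤) (hN : Module.length R N < ⊤) : CycAlg.FinCoh R φ ψ ∧ CycAlg.herbrand R φ ψ = ((Module.length R M).toNat : ℤ) - ((Module.length R N).toNat : ℤ) := by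
  obtain ⟨h1, h2⟩ := h
  have exK : ∀ {P Q : Type v} [AddCommGroup P] [Module R P] [AddCommGroup Q] [Module R Q]
      (f : P →ₗ[R] Q), Function.Exact (LinearMap.ker f).subtype f.rangeRestrict := by
    intro P Q _ _ _ _ f y
    constructor
    · intro hy
      refine ⟨⟨y, ?_⟩, rfl⟩
      rw [LinearMap.mem_ker]
      simpa [Subtype.ext_iff] using hy
    · rintro ⟨⟨z, hz⟩, rfl⟩
      ext
      simpa using hz
  have eM : Module.length R M = Module.length R (LinearMap.ker φ) +
      Module.length R (LinearMap.range φ) :=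
    Module.length_eq_add_of_exact (LinearMap.ker φ).subtype φ.rangeRestrict
      (Submodule.injective_subtype _) φ.surjective_rangeRestrict (exK φ)
  have eN : Module.length R N = Module.length R (LinearMap.ker ψ) +
      Module.length R (LinearMap.range ψ) :=
    Module.length_eq_add_of_exact (LinearMap.ker ψ).subtype ψ.rangeRestrict
      (Submodule.injective_subtype _) ψ.surjective_rangeRestrict (exK ψ)
  have hle1 : LinearMap.range ψ ≤ LinearMap.ker φ := by
    rintro _ ⟨y, rfl⟩
    exact LinearMap.congr_fun h1 y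
  have hle2 : LinearMap.range φ ≤ LinearMap.ker ψ := by
    rintro _ ⟨y, rfl⟩
    exact LinearMap.congr_fun h2 y
  have e0 : Module.length R (LinearMap.ker φ) = Module.length R (LinearMap.range ψ) +
      Module.length R (perH φ ψ) := by
    rw [← (Submodule.submoduleOfEquivOfLe hle1).length_eq]
    exact Module.length_eq_add_of_exact _ _ (Submodule.injective_subtype _)
      (Submodule.mkQ_surjective _) (LinearMap.exact_subtype_mkQ _)
  have e1 : Module.length R (LinearMap.ker ψ) = Module.length R (LinearMap.range φ) +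
      Module.length R (perH ψ φ) := by
    rw [← (Submodule.submoduleOfEquivOfLe hle2).length_eq]
    exact Module.length_eq_add_of_exact _ _ (Submodule.injective_subtype _)
      (Submodule.mkQ_surjective _) (LinearMap.exact_subtype_mkQ _)
  have hM' : Module.length R M ≠ ⊤ := hM.ne
  have hN' : Module.length R N ≠ ⊤ := hN.ne
  rw [eM] at hM'
  rw [eN] at hN'
  have fa : Module.length R (LinearMap.ker φ) ≠ ⊤ := fun h => hM' (by rw [h, top_add])
  have fb : Module.length R (LinearMap.range φ) ≠ ⊤ := fun h => hM' (by rw [h, add_top])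
  have fc : Module.length R (LinearMap.ker ψ) ≠ ⊤ := fun h => hN' (by rw [h, top_add])
  have fd : Module.length R (LinearMap.range ψ) ≠ ⊤ := fun h => hN' (by rw [h, add_top])
  have f0 : Module.length R (perH φ ψ) ≠ ⊤ := fun h => fa (by rw [e0, h, add_top])
  have f1 : Module.length R (perH ψ φ) ≠ ⊤ := fun h => fc (by rw [e1, h, add_top])
  refine ⟨⟨lt_top_iff_ne_top.mpr f0, lt_top_iff_ne_top.mpr f1⟩, ?_⟩
  obtain ⟨a, ha⟩ := ENat.ne_top_iff_exists.mp fa
  obtain ⟨b, hb⟩ := ENat.ne_top_iff_exists.mp fb
  obtain ⟨c, hc⟩ := ENat.ne_top_iff_exists.mp fc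
  obtain ⟨d, hd⟩ := ENat.ne_top_iff_exists.mp fd
  obtain ⟨x, hx⟩ := ENat.ne_top_iff_exists.mp f0
  obtain ⟨y, hy⟩ := ENat.ne_top_iff_exists.mp f1
  unfold CycAlg.herbrand
  rw [eM, eN, ← ha, ← hb, ← hc, ← hd, ← hx, ← hy]
  rw [← ha, ← hd, ← hx] at e0
  rw [← hc, ← hb, ← hy] at e1
  have e0' : a = d + x := by exact_mod_cast e0
  have e1' : c = b + y := by exact_mod_cast e1
  simp only [← ENat.natCast_add, ENat.toNat_natCast]
  push_cast
  omega

end Groth.Agent.S6464
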