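import Groth.Statements.S6580
import Mathlib.Tactic.NoncommRing

set_option autoImplicit false
universe v u
open CategoryTheory CategoryTheory.Limits
open CohDer

namespace Groth.Agent.S6580

open CategoryTheory.Pretriangulated in
/-- Let (X, Y, Z, f, g, h) be a distinguished triangle of a pretriangulated category, and let a : X ⟶ X
and c : Z ⟶ Z be idempotents with h ≫ a⟦1⟧ = c ≫ h. Then there is an idempotent b : Y ⟶ Y such that
(a, b, c) is an endomorphism of the triangle. -/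
theorem result {D : Type u} [Category.{v} D] [Preadditive D] [HasZeroObject D] [HasShift D ℤ]
    [∀ n : ℤ, (shiftFunctor D n).Additive] [Pretriangulated D]
    (T : Triangle D) (hT : T ∈ distinguishedTriangles) (a : T.obj₁ ⟶ T.obj₁) (c : T.obj₃ ⟶ T.obj₃)
    (ha : a ≫ a = a) (hc : c ≫ c = c) (comm : T.mor₃ ≫ (shiftFunctor D (1 : ℤ)).map a = c ≫ T.mor₃) :
    ∃ b : T.obj₂ ⟶ T.obj₂, b ≫ b = b ∧ T.mor₁ ≫ b = a ≫ T.mor₁ ∧ T.mor₂ ≫ c = b ≫ T.mor₂ := by
  obtain ⟨e, he1, he2⟩ := complete_distinguished_triangle_morphism₂ T T hT hT a c comm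
  have he2' : e ≫ T.mor₂ = T.mor₂ ≫ c := he2.symm
  have hfn : T.mor₁ ≫ (e ≫ e - e) = 0 := by
    rw [Preadditive.comp_sub, ← Category.assoc, he1, Category.assoc, he1, ← Category.assoc, ha,
      sub_self]
  have hng : (e ≫ e - e) ≫ T.mor₂ = 0 := by
    rw [Preadditive.sub_comp, Category.assoc, he2', ← Category.assoc, he2', Category.assoc, hc,
      sub_self]
  obtain ⟨ψ, hψ⟩ := Triangle.yoneda_exact₂ T hT _ hfn
  obtain ⟨χ, hχ⟩ := Triangle.coyoneda_exact₂ T hT _ hng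
  have hnn : (e ≫ e - e) ≫ (e ≫ e - e) = 0 := by
    calc (e ≫ e - e) ≫ (e ≫ e - e) = (χ ≫ T.mor₁) ≫ (T.mor₂ ≫ ψ) := by rw [← hχ, ← hψ]
      _ = χ ≫ (T.mor₁ ≫ T.mor₂) ≫ ψ := by simp only [Category.assoc]
      _ = 0 := by rw [comp_distTriang_mor_zero₁₂ T hT]; simp
  let e' : End T.obj₂ := e
  have hn' : (e' * e' - e') * (e' * e' - e') = 0 := hnn
  let b : T.obj₂ ⟶ T.obj₂ := (3 : ℤ) • (e ≫ e) - (2 : ℤ) • (e ≫ e ≫ e)
  let b' : End T.obj₂ := b
  have hb' : b' = (3 : ℤ) • (e' * e') - (2 : ℤ) • (e' * e' * e') := rfl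
  have key : b' * b' - b' =
      ((e' * e' - e') * (e' * e' - e')) * (4 * e' * e' - 4 * e' - 3) := by
    rw [hb']
    noncomm_ring
  refine ⟨b, ?_, ?_, ?_⟩
  · have : b' * b' = b' := by rw [← sub_eq_zero, key, hn', zero_mul]
    exact this
  · simp only [b, Preadditive.comp_sub, Preadditive.comp_zsmul, reassoc_of% he1, he1,
      reassoc_of% ha, ha]
    abel
  · simp only [b, Preadditive.sub_comp, Preadditive.zsmul_comp, Category.assoc, he2',
      reassoc_of% he2', reassoc_of% hc, hc]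
    abel

end Groth.Agent.S6580
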