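import Groth.Statements.S6582
-- import your own Groth.Agent.* helpers here

set_option autoImplicit false
universe v u v' u'
open CategoryTheory CategoryTheory.Limits
open CohDer

namespace Groth.Agent.S6582

open ZeroObject

open CategoryTheory.Pretriangulated in
/-- Let F : D ⥤ D' be an exact functor of pretriangulated categories. The full subcategory of D on the
objects X with F(X) ≅ 0 is a strictly full pretriangulated subcategory (it contains a zero object,
is stable under shifts and isomorphisms and is closed under extensions) and it is saturated: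
whenever X ⊞ Y belongs to it, so do X and Y. -/
theorem result {D : Type u} [Category.{v} D] [Preadditive D] [HasZeroObject D] [HasShift D ℤ]
    [∀ n : ℤ, (shiftFunctor D n).Additive] [Pretriangulated D]
    {D' : Type u'} [Category.{v'} D'] [Preadditive D'] [HasZeroObject D'] [HasShift D' ℤ]
    [∀ n : ℤ, (shiftFunctor D' n).Additive] [Pretriangulated D']
    (F : D ⥤ D') [F.Additive] [F.CommShift ℤ] [F.IsTriangulated] :
    (ObjectProperty.IsTriangulated (fun X : D => IsZero (F.obj X))) ∧
    (ObjectProperty.IsClosedUnderIsomorphisms (fun X : D => IsZero (F.obj X))) ∧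
    (∀ X Y : D, IsZero (F.obj (X ⊞ Y)) → IsZero (F.obj X) ∧ IsZero (F.obj Y)) := by
  have hiso : ObjectProperty.IsClosedUnderIsomorphisms (fun X : D => IsZero (F.obj X)) :=
    ⟨fun e hX => hX.of_iso (F.mapIso e.symm)⟩
  have hsat : ∀ X Y : D, IsZero (F.obj (X ⊞ Y)) → IsZero (F.obj X) ∧ IsZero (F.obj Y) := by
    intro X Y h
    constructor
    · rw [IsZero.iff_id_eq_zero]
      calc 𝟙 (F.obj X) = F.map (biprod.inl : X ⟶ X ⊞ Y) ≫ F.map biprod.fst := by
            rw [← F.map_comp, biprod.inl_fst, F.map_id]
        _ = 0 := by rw [h.eq_of_src (F.map biprod.fst) 0, comp_zero]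
    · rw [IsZero.iff_id_eq_zero]
      calc 𝟙 (F.obj Y) = F.map (biprod.inr : Y ⟶ X ⊞ Y) ≫ F.map biprod.snd := by
            rw [← F.map_comp, biprod.inr_snd, F.map_id]
        _ = 0 := by rw [h.eq_of_src (F.map biprod.snd) 0, comp_zero]
  refine ⟨?_, hiso, hsat⟩
  exact
    { exists_zero := ⟨0, isZero_zero D, F.map_isZero (isZero_zero D)⟩
      toIsStableUnderShift := ⟨fun a => ⟨fun X hX =>
        ((shiftFunctor D' a).map_isZero hX).of_iso ((F.commShiftIso a).app X)⟩⟩
      toIsTriangulatedClosed₂ := ObjectProperty.IsTriangulatedClosed₂.mk' (fun T hT h₁ h₃ =>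
        Triangle.isZero₂_of_isZero₁₃ _ (F.map_distinguished T hT) h₁ h₃) }

end Groth.Agent.S6582
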