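import Groth.Statements.S6583
-- import your own Groth.Agent.* helpers here

set_option autoImplicit false
universe v u v' u'
open CategoryTheory CategoryTheory.Limits
open CohDer

namespace Groth.Agent.S6583

open ZeroObject

open CategoryTheory.Pretriangulated in
/-- Let H : D ⥤ A be a homological functor from a pretriangulated category to an abelian category. The
full subcategory of D on the objects X with H(X⟦n⟧) = 0 for all n ≪ 0 is a strictly full
pretriangulated subcategory (zero object, stable under shifts and isomorphisms, closed under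
extensions) and is saturated: if X ⊞ Y belongs to it then so do X and Y. -/
theorem result {D : Type u} [Category.{v} D] [Preadditive D] [HasZeroObject D] [HasShift D ℤ]
    [∀ n : ℤ, (shiftFunctor D n).Additive] [Pretriangulated D]
    {A : Type u'} [Category.{v'} A] [Abelian A] (H : D ⥤ A) [H.IsHomological] :
    (ObjectProperty.IsTriangulated (fun X : D => ∃ N : ℤ, ∀ n : ℤ, n ≤ N → IsZero (H.obj ((shiftFunctor D n).obj X)))) ∧
    (ObjectProperty.IsClosedUnderIsomorphisms (fun X : D => ∃ N : ℤ, ∀ n : ℤ, n ≤ N → IsZero (H.obj ((shiftFunctor D n).obj X)))) ∧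
    (∀ X Y : D, (∃ N : ℤ, ∀ n : ℤ, n ≤ N → IsZero (H.obj ((shiftFunctor D n).obj (X ⊞ Y)))) →
      (∃ N : ℤ, ∀ n : ℤ, n ≤ N → IsZero (H.obj ((shiftFunctor D n).obj X))) ∧
      (∃ N : ℤ, ∀ n : ℤ, n ≤ N → IsZero (H.obj ((shiftFunctor D n).obj Y)))) := by
  have hiso : ObjectProperty.IsClosedUnderIsomorphisms
      (fun X : D => ∃ N : ℤ, ∀ n : ℤ, n ≤ N → IsZero (H.obj ((shiftFunctor D n).obj X))) :=
    ⟨fun e ⟨N, hN⟩ => ⟨N, fun n hn => (hN n hn).of_iso (H.mapIso ((shiftFunctor D n).mapIso e.symm))⟩⟩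
  have hsat : ∀ X Y : D, (∃ N : ℤ, ∀ n : ℤ, n ≤ N → IsZero (H.obj ((shiftFunctor D n).obj (X ⊞ Y)))) →
      (∃ N : ℤ, ∀ n : ℤ, n ≤ N → IsZero (H.obj ((shiftFunctor D n).obj X))) ∧
      (∃ N : ℤ, ∀ n : ℤ, n ≤ N → IsZero (H.obj ((shiftFunctor D n).obj Y))) := by
    rintro X Y ⟨N, hN⟩
    constructor
    · refine ⟨N, fun n hn => ?_⟩
      rw [IsZero.iff_id_eq_zero]
      let G := shiftFunctor D n ⋙ H
      calc 𝟙 (G.obj X) = G.map (biprod.inl : X ⟶ X ⊞ Y) ≫ G.map biprod.fst := by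
            rw [← G.map_comp, biprod.inl_fst, G.map_id]
        _ = 0 := by rw [(hN n hn).eq_of_src (G.map biprod.fst) 0, comp_zero]
    · refine ⟨N, fun n hn => ?_⟩
      rw [IsZero.iff_id_eq_zero]
      let G := shiftFunctor D n ⋙ H
      calc 𝟙 (G.obj Y) = G.map (biprod.inr : Y ⟶ X ⊞ Y) ≫ G.map biprod.snd := by
            rw [← G.map_comp, biprod.inr_snd, G.map_id]
        _ = 0 := by rw [(hN n hn).eq_of_src (G.map biprod.snd) 0, comp_zero]
  refine ⟨?_, hiso, hsat⟩
  exact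
    { exists_zero := ⟨0, isZero_zero D, ⟨0, fun n _ => (shiftFunctor D n ⋙ H).map_isZero (isZero_zero D)⟩⟩
      toIsStableUnderShift := ⟨fun a => ⟨fun X ⟨N, hN⟩ => ⟨N - a, fun n hn =>
        (hN (a + n) (by omega)).of_iso (H.mapIso ((shiftFunctorAdd D a n).app X).symm)⟩⟩⟩
      toIsTriangulatedClosed₂ := ObjectProperty.IsTriangulatedClosed₂.mk'
        (fun T hT ⟨N₁, h₁⟩ ⟨N₃, h₃⟩ => ⟨min N₁ N₃, fun n hn =>
          (H.map_distinguished_exact _ (Triangle.shift_distinguished T hT n)).isZero_of_both_zeros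
            ((h₁ n (by omega)).eq_of_src _ _) ((h₃ n (by omega)).eq_of_tgt _ _)⟩) }

end Groth.Agent.S6583
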