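import Groth.Statements.S6585
-- import your own Groth.Agent.* helpers here

set_option autoImplicit false
universe v u
open CategoryTheory CategoryTheory.Limits
open CohDer

namespace Groth.Agent.S6585

open ZeroObject

section
variable {D : Type u} [Category.{v} D] [Preadditive D] [HasZeroObject D] [HasShift D ℤ]
    [∀ n : ℤ, (shiftFunctor D n).Additive] [Pretriangulated D]

/-- Objects all of whose maps to the shifts of `K` vanish. -/
def Q (K : D) : ObjectProperty D := fun X => ∀ (i : ℤ) (f : X ⟶ (shiftFunctor D i).obj K), f = 0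

instance Q_iso (K : D) : (Q K).IsClosedUnderIsomorphisms where
  of_iso {X Y} e hX i f := by
    have := hX i (e.hom ≫ f)
    rw [← cancel_epi e.hom, this, comp_zero]

instance Q_retract (K : D) : (Q K).IsStableUnderRetracts where
  of_retract {X Y} r hY i f := by
    have h0 : r.r ≫ f = 0 := hY i _
    rw [← Category.id_comp f, ← r.retract, Category.assoc, h0, comp_zero]

lemma Q_shift (K : D) (a : ℤ) (X : D) (hX : Q K X) : Q K ((shiftFunctor D a).obj X) := by
  intro i f
  let e₁ : X ≅ (shiftFunctor D (-a)).obj ((shiftFunctor D a).obj X) :=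
    ((shiftFunctorCompIsoId D a (-a) (by omega)).app X).symm
  let e₂ : (shiftFunctor D (-a)).obj ((shiftFunctor D i).obj K) ≅ (shiftFunctor D (i + -a)).obj K :=
    ((shiftFunctorAdd' D i (-a) (i + -a) rfl).app K).symm
  have h1 : e₁.hom ≫ (shiftFunctor D (-a)).map f ≫ e₂.hom = 0 := hX _ _
  have h2 : (shiftFunctor D (-a)).map f = 0 := by
    have h3 : (shiftFunctor D (-a)).map f ≫ e₂.hom = 0 :=
      (cancel_epi e₁.hom).1 (by rw [h1, comp_zero])
    exact (cancel_mono e₂.hom).1 (by rw [h3, zero_comp])
  apply (shiftFunctor D (-a)).map_injective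
  rw [h2, Functor.map_zero]

open CategoryTheory.Pretriangulated in
instance Q_tri (K : D) : (Q K).IsTriangulated where
  exists_zero := ⟨0, isZero_zero D, fun i f => (isZero_zero D).eq_of_src _ _⟩
  toIsStableUnderShift := ⟨fun a => ⟨fun X hX => Q_shift K a X hX⟩⟩
  toIsTriangulatedClosed₂ := ObjectProperty.IsTriangulatedClosed₂.mk' (fun T hT h₁ h₃ i f => by
    obtain ⟨g, hg⟩ := Triangle.yoneda_exact₂ T hT f (h₁ i _)
    rw [hg, h₃ i g, comp_zero])

end

open CategoryTheory.Pretriangulated in
/-- Let D be a triangulated category and E, K objects of D. Then Hom(E, K⟦i⟧) = 0 for all integers i if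
and only if Hom(E', K) = 0 for every E' in ⟨E⟩, the smallest strictly full saturated triangulated
subcategory of D containing E (the objects obtained from E by shifts, finite direct sums, direct
summands and extensions). -/
theorem result {D : Type u} [Category.{v} D] [Preadditive D] [HasZeroObject D] [HasShift D ℤ]
    [∀ n : ℤ, (shiftFunctor D n).Additive] [Pretriangulated D] [IsTriangulated D]
    (E K : D) :
    (∀ (i : ℤ) (f : E ⟶ (shiftFunctor D i).obj K), f = 0) ↔
      ∀ (E' : D), (ObjectProperty.singleton E).triangEnvelope E' → ∀ f : E' ⟶ K, f = 0 := by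
  constructor
  · intro h E' hE' f
    have hle : (ObjectProperty.singleton E).triangEnvelope ≤ Q K := by
      rw [ObjectProperty.triangEnvelope_le_iff]
      intro X hX
      rw [ObjectProperty.singleton_iff] at hX
      subst hX
      exact h
    have := hle E' hE' 0 (f ≫ (shiftFunctorZero D ℤ).inv.app K)
    rw [← cancel_mono ((shiftFunctorZero D ℤ).inv.app K), this, zero_comp]
  · intro h i f
    have hE : (ObjectProperty.singleton E).triangEnvelope E :=
      ObjectProperty.le_triangEnvelope _ _ ((ObjectProperty.singleton_iff E E).2 rfl)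
    have hE' : (ObjectProperty.singleton E).triangEnvelope ((shiftFunctor D (-i)).obj E) :=
      (ObjectProperty.singleton E).triangEnvelope.le_shift (-i) E hE
    let e : (shiftFunctor D (-i)).obj ((shiftFunctor D i).obj K) ≅ K :=
      (shiftFunctorCompIsoId D i (-i) (by omega)).app K
    have h1 : (shiftFunctor D (-i)).map f ≫ e.hom = 0 := h _ hE' _
    have h2 : (shiftFunctor D (-i)).map f = 0 := (cancel_mono e.hom).1 (by rw [h1, zero_comp])
    apply (shiftFunctor D (-i)).map_injective
    rw [h2, Functor.map_zero]

end Groth.Agent.S6585
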