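import Groth.Statements.S6586
import Groth.Agent.S6585

set_option autoImplicit false
universe v u
open CategoryTheory CategoryTheory.Limits
open CohDer

namespace Groth.Agent.S6586

/-- Fix a triangulated category D together with an object E in it. Suppose E classically generates D,
i.e. ⟨E⟩ = D; then E is a generator of D: an object K with Hom(E, K⟦n⟧) = 0 for all n is zero. -/
theorem result {D : Type u} [Category.{v} D] [Preadditive D] [HasZeroObject D] [HasShift D ℤ]
    [∀ n : ℤ, (shiftFunctor D n).Additive] [Pretriangulated D] [IsTriangulated D]
    (E : D) (hE : (ObjectProperty.singleton E).IsClassicalTriangulatedGenerator) :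
    CohDer.Generates (fun _ : PUnit.{1} => E) := by
  intro K hK
  have h := (Groth.Agent.S6585.result E K).1 (fun i f => hK PUnit.unit i f)
  have hK' : (ObjectProperty.singleton E).triangEnvelope K := by
    rw [hE]
    trivial
  rw [IsZero.iff_id_eq_zero]
  exact h K hK' (𝟙 K)

end Groth.Agent.S6586
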