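import Groth.Statements.S6587
-- import your own Groth.Agent.* helpers here

set_option autoImplicit false
universe v u
open CategoryTheory CategoryTheory.Limits Opposite
open CohDer

namespace Groth.Agent.S6587

open CategoryTheory.Pretriangulated in
/-- Let D be a triangulated category and let X_n → Y_n → Z_n → X_n⟦1⟧ be an inverse system of
distinguished triangles of D indexed by ℕ (levelwise maps f, g, h of inverse systems, each level
distinguished). If the inverse system (Z_n) is pro-zero, then the levelwise map f : (X_n) → (Y_n) is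
a pro-isomorphism. -/
theorem result {D : Type u} [Category.{v} D] [Preadditive D] [HasZeroObject D] [HasShift D ℤ]
    [∀ n : ℤ, (shiftFunctor D n).Additive] [Pretriangulated D] [IsTriangulated D]
    (X Y Z : ARSys.PS D) (f : X ⟶ Y) (g : Y ⟶ Z) (h : Z ⟶ X ⋙ shiftFunctor D (1 : ℤ))
    (hT : ∀ n : ℕ, Triangle.mk (f.app (op n)) (g.app (op n)) (h.app (op n)) ∈ distinguishedTriangles)
    (hZ : DerCA.IsProZero Z) :
    DerCA.IsProIso f := by
  classical
  let T : ℕ → Triangle D := fun n => Triangle.mk (f.app (op n)) (g.app (op n)) (h.app (op n))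
  have hTd : ∀ n, T n ∈ distinguishedTriangles := hT
  have hTi : ∀ n, (T n).invRotate ∈ distinguishedTriangles := fun n => inv_rot_of_distTriang _ (hTd n)
  have trc : ∀ (W : ARSys.PS D) {a b c : ℕ} (hab : a ≤ b) (hbc : b ≤ c),
      ARSys.tr W hbc ≫ ARSys.tr W hab = ARSys.tr W (hab.trans hbc) := by
    intro W a b c hab hbc
    simp only [ARSys.tr, ← W.map_comp]
    rfl
  intro n
  obtain ⟨m1, hnm1, hz1⟩ := hZ n
  obtain ⟨m2, hm12, hz2⟩ := hZ m1
  obtain ⟨δ, hδ⟩ : ∃ δ : (T n).invRotate.obj₁ ⟶ X.obj (op n), δ = (T n).invRotate.mor₁ := ⟨_, rfl⟩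
  have h0 : δ ≫ f.app (op n) = 0 := by
    rw [hδ]; exact comp_distTriang_mor_zero₁₂ _ (hTi n)
  have e1 : ARSys.tr Y hnm1 ≫ (T n).mor₂ = 0 := by
    change Y.map (homOfLE hnm1).op ≫ g.app (op n) = 0
    rw [g.naturality]
    change g.app (op m1) ≫ ARSys.tr Z hnm1 = 0
    rw [hz1, comp_zero]
  obtain ⟨β1, hβ1⟩ : ∃ β1 : Y.obj (op m1) ⟶ X.obj (op n), ARSys.tr Y hnm1 = β1 ≫ f.app (op n) :=
    Triangle.coyoneda_exact₂ (T n) (hTd n) (ARSys.tr Y hnm1) e1
  have hε : (f.app (op m1) ≫ β1 - ARSys.tr X hnm1) ≫ (T n).invRotate.mor₂ = 0 := by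
    change (f.app (op m1) ≫ β1 - ARSys.tr X hnm1) ≫ f.app (op n) = 0
    have h1 : β1 ≫ f.app (op n) = ARSys.tr Y hnm1 := hβ1.symm
    have h2 : ARSys.tr X hnm1 ≫ f.app (op n) = f.app (op m1) ≫ ARSys.tr Y hnm1 := f.naturality _
    rw [Preadditive.sub_comp, Category.assoc, h1, h2, sub_self]
  obtain ⟨v1, hv1⟩ : ∃ v1 : X.obj (op m1) ⟶ (T n).invRotate.obj₁,
      f.app (op m1) ≫ β1 - ARSys.tr X hnm1 = v1 ≫ δ := by
    rw [hδ]; exact Triangle.coyoneda_exact₂ ((T n).invRotate) (hTi n) _ hε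
  have hu : ((T m2).invRotate).mor₁ ≫ (ARSys.tr X hm12 ≫ v1) = 0 := by
    let φ : T m2 ⟶ T m1 := Triangle.homMk (T m2) (T m1) (ARSys.tr X hm12) (ARSys.tr Y hm12)
      (ARSys.tr Z hm12) (f.naturality (homOfLE hm12).op).symm (g.naturality (homOfLE hm12).op).symm
      (h.naturality (homOfLE hm12).op).symm
    have hc := ((CategoryTheory.Pretriangulated.invRotate D).map φ).comm₁
    have hh1 : ((CategoryTheory.Pretriangulated.invRotate D).map φ).hom₁ = 0 := by
      change (shiftFunctor D (-1 : ℤ)).map (ARSys.tr Z hm12) = 0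
      rw [hz2, Functor.map_zero]
    have hh2 : ((CategoryTheory.Pretriangulated.invRotate D).map φ).hom₂ = ARSys.tr X hm12 := rfl
    rw [hh1, hh2, zero_comp] at hc
    exact (Category.assoc _ _ _).symm.trans ((congrArg (· ≫ v1) hc).trans zero_comp)
  obtain ⟨w, hw⟩ : ∃ w : Y.obj (op m2) ⟶ (T n).invRotate.obj₁, ARSys.tr X hm12 ≫ v1 = f.app (op m2) ≫ w :=
    Triangle.yoneda_exact₂ ((T m2).invRotate) (hTi m2) _ hu
  refine ⟨m2, hnm1.trans hm12, ARSys.tr Y hm12 ≫ β1 - w ≫ δ, ?_, ?_⟩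
  · have hw' : f.app (op m2) ≫ w = ARSys.tr X hm12 ≫ v1 := hw.symm
    have hf2 : f.app (op m2) ≫ ARSys.tr Y hm12 = ARSys.tr X hm12 ≫ f.app (op m1) := (f.naturality _).symm
    rw [Preadditive.comp_sub, ← Category.assoc, hf2, ← Category.assoc, hw', Category.assoc,
      Category.assoc, ← Preadditive.comp_sub, ← hv1, sub_sub_cancel, trc]
  · have h1 : β1 ≫ f.app (op n) = ARSys.tr Y hnm1 := hβ1.symm
    rw [Preadditive.sub_comp, Category.assoc, Category.assoc, h0, comp_zero, sub_zero, h1, trc]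

end Groth.Agent.S6587
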