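import Groth.Statements.S6594
-- import your own Groth.Agent.* helpers here

set_option autoImplicit false
universe v u
open CategoryTheory CategoryTheory.Limits
open CohDer

namespace Groth.Agent.S6594

open CategoryTheory.Pretriangulated in
lemma split_of_mono {D : Type u} [Category.{v} D] [Preadditive D] [HasZeroObject D] [HasShift D ℤ]
    [∀ n : ℤ, (shiftFunctor D n).Additive] [Pretriangulated D]
    {X Y : D} (i : X ⟶ Y) [Mono i] : ∃ (C : D) (e : Y ≅ X ⊞ C), i ≫ e.hom = biprod.inl := by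
  obtain ⟨C, p, δ, hT⟩ := distinguished_cocone_triangle i
  have h0 : (Triangle.mk i p δ).mor₃ = 0 :=
    Triangle.mor₃_eq_zero_of_mono₁ _ hT (show Mono i from inferInstance)
  obtain ⟨e, he, -⟩ := exists_iso_binaryBiproduct_of_distTriang _ hT h0
  exact ⟨C, e, he⟩

open CategoryTheory.Pretriangulated in
/-- (1) ⇔ (3): let D be a pretriangulated category and f : X ⟶ Y a morphism. Then f has a kernel if and
only if f is isomorphic to a composite K ⊞ Z → Z → Z ⊞ Q of a projection and a coprojection for some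
objects K, Z, Q. -/
theorem result {D : Type u} [Category.{v} D] [Preadditive D] [HasZeroObject D] [HasShift D ℤ]
    [∀ n : ℤ, (shiftFunctor D n).Additive] [Pretriangulated D]
    {X Y : D} (f : X ⟶ Y) :
    HasKernel f ↔ ∃ (K Z Q : D) (e₁ : X ≅ K ⊞ Z) (e₂ : Y ≅ Z ⊞ Q),
      f = e₁.hom ≫ biprod.snd ≫ biprod.inl ≫ e₂.inv := by
  constructor
  · intro hf
    obtain ⟨C, e₁, he₁⟩ := split_of_mono (kernel.ι f)
    have hi : (biprod.inl : kernel f ⟶ kernel f ⊞ C) ≫ e₁.inv = kernel.ι f := by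
      rw [← he₁, Category.assoc, Iso.hom_inv_id, Category.comp_id]
    let g : C ⟶ Y := biprod.inr ≫ e₁.inv ≫ f
    have h1 : e₁.inv ≫ f = biprod.snd ≫ g := by
      apply biprod.hom_ext'
      · rw [← Category.assoc, hi, kernel.condition, ← Category.assoc, biprod.inl_snd, zero_comp]
      · simp [g]
    have hfg : f = e₁.hom ≫ biprod.snd ≫ g := by
      rw [← h1, ← Category.assoc, Iso.hom_inv_id, Category.id_comp]
    have hg : Mono g := by
      apply Preadditive.mono_of_cancel_zero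
      intro W u hu
      have hu' : (u ≫ biprod.inr ≫ e₁.inv) ≫ f = 0 := by simpa [g] using hu
      have hv := kernel.lift_ι f _ hu'
      calc u = u ≫ biprod.inr ≫ e₁.inv ≫ e₁.hom ≫ biprod.snd := by simp
        _ = (u ≫ biprod.inr ≫ e₁.inv) ≫ e₁.hom ≫ biprod.snd := by simp
        _ = (kernel.lift f _ hu' ≫ kernel.ι f) ≫ e₁.hom ≫ biprod.snd := by rw [hv]
        _ = 0 := by rw [Category.assoc, ← Category.assoc (kernel.ι f), he₁]; simp
    obtain ⟨Q, e₂, he₂⟩ := split_of_mono g
    refine ⟨kernel f, C, Q, e₁, e₂, ?_⟩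
    have hg' : g = biprod.inl ≫ e₂.inv := by
      rw [← he₂, Category.assoc, Iso.hom_inv_id, Category.comp_id]
    exact hfg.trans (by rw [hg'])
  · rintro ⟨K, Z, Q, e₁, e₂, rfl⟩
    have : HasKernel (biprod.snd : K ⊞ Z ⟶ Z) := HasLimit.mk ⟨_, biprod.isKernelSndKernelFork K Z⟩
    have : HasKernel ((biprod.snd : K ⊞ Z ⟶ Z) ≫ biprod.inl ≫ e₂.inv) := hasKernel_comp_mono _ _
    exact hasKernel_iso_comp _ _

end Groth.Agent.S6594
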