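import Groth.Statements.S6595
-- import your own Groth.Agent.* helpers here

set_option autoImplicit false
universe v u
open CategoryTheory CategoryTheory.Limits
open CohDer

namespace Groth.Agent.S6595

open CategoryTheory.Pretriangulated in
/-- Let D be a triangulated category, X and X' chain complexes in D considered in degrees ≤ n, where a
Postnikov system for the complex X_n → … → X_0 consists of objects Y_k, an isomorphism Y_0 ⟶ X_0,
and for 0 ≤ k < n distinguished triangles Y_{k+1} ⟶ X_{k+1} ⟶ Y_k ⟶ Y_{k+1}⟦1⟧ with X_{k+1} ⟶ Y_k ⟶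
X_k the differential. Suppose X' carries a Postnikov system (Y', a', b', c'). If Hom(X_i⟦i - j - 1⟧,
X'_j) = 0 for all j + 1 < i ≤ n, then Hom(X_i⟦i - j - 1⟧, Y'_j) = 0 for all j + 1 < i ≤ n. -/
theorem result {D : Type u} [Category.{v} D] [Preadditive D] [HasZeroObject D] [HasShift D ℤ]
    [∀ n : ℤ, (shiftFunctor D n).Additive] [Pretriangulated D] [IsTriangulated D]
    (X X' : ChainComplex D ℕ) (n : ℕ)
    (Y : ℕ → D) (a : ∀ k, Y k ⟶ X'.X k) (b : ∀ k, X'.X (k + 1) ⟶ Y k)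
    (c : ∀ k, Y k ⟶ (shiftFunctor D (1 : ℤ)).obj (Y (k + 1)))
    (h0 : IsIso (a 0))
    (hP : ∀ k, k < n → Triangle.mk (a (k + 1)) (b k) (c k) ∈ distinguishedTriangles ∧ b k ≫ a k = X'.d (k + 1) k)
    (hX : ∀ i j : ℕ, j + 1 < i → i ≤ n → ∀ ψ : (shiftFunctor D ((i : ℤ) - j - 1)).obj (X.X i) ⟶ X'.X j, ψ = 0)
    (i j : ℕ) (hij : j + 1 < i) (hi : i ≤ n) (ψ : (shiftFunctor D ((i : ℤ) - j - 1)).obj (X.X i) ⟶ Y j) :
    ψ = 0 := by
  induction j generalizing i with
  | zero =>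
    have := hX i 0 hij hi (ψ ≫ a 0)
    rw [← cancel_mono (a 0), this, zero_comp]
  | succ j ih =>
    have hjn : j < n := by omega
    obtain ⟨hT, -⟩ := hP j hjn
    have h1 : ψ ≫ a (j + 1) = 0 := hX i (j + 1) hij hi _
    obtain ⟨w, hw⟩ := Triangle.coyoneda_exact₂ _ (inv_rot_of_distTriang _ hT) ψ h1
    have hw0 : w = 0 := by
      let e : (shiftFunctor D ((i : ℤ) - j - 1)).obj (X.X i) ≅
          (shiftFunctor D (1 : ℤ)).obj ((shiftFunctor D ((i : ℤ) - ↑(j + 1) - 1)).obj (X.X i)) :=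
        (shiftFunctorAdd' D ((i : ℤ) - ↑(j + 1) - 1) 1 ((i : ℤ) - j - 1)
          (by push_cast; omega)).app (X.X i)
      let κ : (shiftFunctor D (1 : ℤ)).obj (Triangle.mk (a (j + 1)) (b j) (c j)).invRotate.obj₁ ≅
          Y j := (shiftFunctorCompIsoId D (-1 : ℤ) 1 (by norm_num)).app (Y j)
      have h2 : e.hom ≫ (shiftFunctor D (1 : ℤ)).map w ≫ κ.hom = 0 := ih i (by omega) hi _
      have h3 : (shiftFunctor D (1 : ℤ)).map w = 0 := by
        have h4 : (shiftFunctor D (1 : ℤ)).map w ≫ κ.hom = 0 :=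
          (cancel_epi e.hom).1 (by rw [h2, comp_zero])
        exact (cancel_mono κ.hom).1 (by rw [h4, zero_comp])
      apply (shiftFunctor D (1 : ℤ)).map_injective
      rw [h3, Functor.map_zero]
    rw [hw, hw0]
    exact zero_comp

end Groth.Agent.S6595
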