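import Groth.Statements.S6596
import Groth.Agent.S6595

set_option autoImplicit false
universe v u
open CategoryTheory CategoryTheory.Limits
open CohDer

namespace Groth.Agent.S6596

open CategoryTheory.Pretriangulated in
/-- Let D be a triangulated category and φ : X ⟶ X' a morphism of chain complexes in D considered in
degrees ≤ n, where a Postnikov system for the complex X_n → … → X_0 consists of objects Y_k, an
isomorphism Y_0 ⟶ X_0, and for 0 ≤ k < n distinguished triangles Y_{k+1} ⟶ X_{k+1} ⟶ Y_k ⟶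
Y_{k+1}⟦1⟧ with X_{k+1} ⟶ Y_k ⟶ X_k the differential. Suppose X and X' carry Postnikov systems (Y,
a, b, c) and (Y', a', b', c'). If Hom(X_i⟦i - j - 1⟧, X'_j) = 0 for all j + 1 < i ≤ n, then φ
extends to a morphism of Postnikov systems: morphisms y_k : Y_k ⟶ Y'_k for k ≤ n forming, with the
φ_k, morphisms of the distinguished triangles and compatible with Y_0 ⟶ X_0 and Y'_0 ⟶ X'_0. -/
theorem result {D : Type u} [Category.{v} D] [Preadditive D] [HasZeroObject D] [HasShift D ℤ]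
    [∀ n : ℤ, (shiftFunctor D n).Additive] [Pretriangulated D] [IsTriangulated D]
    (X X' : ChainComplex D ℕ) (φ : X ⟶ X') (n : ℕ)
    (Y : ℕ → D) (a : ∀ k, Y k ⟶ X.X k) (b : ∀ k, X.X (k + 1) ⟶ Y k)
    (c : ∀ k, Y k ⟶ (shiftFunctor D (1 : ℤ)).obj (Y (k + 1)))
    (h0 : IsIso (a 0))
    (hP : ∀ k, k < n → Triangle.mk (a (k + 1)) (b k) (c k) ∈ distinguishedTriangles ∧ b k ≫ a k = X.d (k + 1) k)
    (qY : ℕ → D) (qa : ∀ k, qY k ⟶ X'.X k) (qb : ∀ k, X'.X (k + 1) ⟶ qY k)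
    (qc : ∀ k, qY k ⟶ (shiftFunctor D (1 : ℤ)).obj (qY (k + 1)))
    (qh0 : IsIso (qa 0))
    (qhP : ∀ k, k < n → Triangle.mk (qa (k + 1)) (qb k) (qc k) ∈ distinguishedTriangles ∧ qb k ≫ qa k = X'.d (k + 1) k)
    (hX : ∀ i j : ℕ, j + 1 < i → i ≤ n → ∀ ψ : (shiftFunctor D ((i : ℤ) - j - 1)).obj (X.X i) ⟶ X'.X j, ψ = 0) :
    ∃ y : ∀ k, Y k ⟶ qY k,
      (∀ k, k ≤ n → y k ≫ qa k = a k ≫ φ.f k) ∧
      (∀ k, k < n → b k ≫ y k = φ.f (k + 1) ≫ qb k ∧ c k ≫ (shiftFunctor D (1 : ℤ)).map (y (k + 1)) = y k ≫ qc k) := by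
  have step : ∀ k, k < n → ∀ (f : Y k ⟶ qY k), f ≫ qa k = a k ≫ φ.f k →
      ∃ g : Y (k + 1) ⟶ qY (k + 1), g ≫ qa (k + 1) = a (k + 1) ≫ φ.f (k + 1) ∧
        b k ≫ f = φ.f (k + 1) ≫ qb k ∧ c k ≫ (shiftFunctor D (1 : ℤ)).map g = f ≫ qc k := by
    intro k hk f hf
    have hδ : (b k ≫ f - φ.f (k + 1) ≫ qb k) ≫ qa k = 0 := by
      rw [Preadditive.sub_comp, Category.assoc, hf, Category.assoc, (qhP k hk).2,
        ← Category.assoc, (hP k hk).2, ← φ.comm (k + 1) k, sub_self]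
    have hsq : b k ≫ f = φ.f (k + 1) ≫ qb k := by
      rw [← sub_eq_zero]
      cases k with
      | zero =>
        rw [← cancel_mono (qa 0), hδ, zero_comp]
      | succ j =>
        have hjn : j < n := by omega
        have hT := (qhP j hjn).1
        obtain ⟨w, hw⟩ := Triangle.coyoneda_exact₂ _ (inv_rot_of_distTriang _ hT) _ hδ
        have hw0 : w = 0 := by
          have e : (shiftFunctor D (((j + 1 + 1 : ℕ) : ℤ) - (j : ℤ) - 1)).obj (X.X (j + 1 + 1)) =
              (shiftFunctor D (1 : ℤ)).obj (X.X (j + 1 + 1)) := by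
            congr 2
            push_cast
            omega
          let κ : (shiftFunctor D (1 : ℤ)).obj (Triangle.mk (qa (j + 1)) (qb j) (qc j)).invRotate.obj₁ ≅
              qY j := (shiftFunctorCompIsoId D (-1 : ℤ) 1 (by norm_num)).app (qY j)
          have h1 : eqToHom e ≫ (shiftFunctor D (1 : ℤ)).map w ≫ κ.hom = 0 :=
            Groth.Agent.S6595.result X X' n qY qa qb qc qh0 qhP hX (j + 1 + 1) j (by omega)
              (by omega) _
          have h2 : (shiftFunctor D (1 : ℤ)).map w = 0 := by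
            have h3 : (shiftFunctor D (1 : ℤ)).map w ≫ κ.hom = 0 :=
              (cancel_epi (eqToHom e)).1 (by rw [h1, comp_zero])
            exact (cancel_mono κ.hom).1 (by rw [h3, zero_comp])
          apply (shiftFunctor D (1 : ℤ)).map_injective
          rw [h2, Functor.map_zero]
        rw [hw, hw0]
        exact zero_comp
    obtain ⟨g, hg1, hg2⟩ := complete_distinguished_triangle_morphism₁ _ _ (hP k hk).1 (qhP k hk).1
      (φ.f (k + 1)) f hsq
    exact ⟨g, hg1.symm, hsq, hg2⟩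
  have hy0 : (a 0 ≫ φ.f 0 ≫ inv (qa 0)) ≫ qa 0 = a 0 ≫ φ.f 0 := by simp
  let S : ℕ → Type v := fun k => { f : Y k ⟶ qY k // k ≤ n → f ≫ qa k = a k ≫ φ.f k }
  let next : ∀ k, S k → S (k + 1) := fun k s =>
    if hk : k < n then ⟨Classical.choose (step k hk s.1 (s.2 hk.le)),
      fun _ => (Classical.choose_spec (step k hk s.1 (s.2 hk.le))).1⟩
    else ⟨0, fun h => absurd h (by omega)⟩
  let seq : ∀ k, S k := fun k => Nat.rec (motive := S) ⟨a 0 ≫ φ.f 0 ≫ inv (qa 0), fun _ => hy0⟩ next k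
  refine ⟨fun k => (seq k).1, fun k hk => (seq k).2 hk, fun k hk => ?_⟩
  have hnext : (seq (k + 1)).1 = Classical.choose (step k hk (seq k).1 ((seq k).2 hk.le)) := by
    show (next k (seq k)).1 = _
    simp only [next, dif_pos hk]
  obtain ⟨-, h2, h3⟩ := Classical.choose_spec (step k hk (seq k).1 ((seq k).2 hk.le))
  refine ⟨h2, ?_⟩
  show c k ≫ (shiftFunctor D (1 : ℤ)).map (seq (k + 1)).1 = (seq k).1 ≫ qc k
  rw [hnext]
  exact h3

end Groth.Agent.S6596
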