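import Groth.Statements.S6597
-- import your own Groth.Agent.* helpers here

set_option autoImplicit false
universe v u
open CategoryTheory CategoryTheory.Limits
open CohDer

namespace Groth.Agent.S6597

section
variable {D : Type u} [Category.{v} D] [HasShift D ℤ]

/-- The composite `qY k⟦k⟧ ⟶ qY (k+1)⟦k+1⟧ ⟶ ⋯ ⟶ qY n⟦n⟧` of the shifted connecting maps. -/
noncomputable def qch (qY : ℕ → D) (qc : ∀ k, qY k ⟶ (shiftFunctor D (1 : ℤ)).obj (qY (k + 1)))
    (n : ℕ) : (j : ℕ) → (k : ℕ) → k + j = n →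
      ((shiftFunctor D (k : ℤ)).obj (qY k) ⟶ (shiftFunctor D (n : ℤ)).obj (qY n))
  | 0, k, h => eqToHom (by subst h; rfl)
  | j + 1, k, h => (shiftFunctor D (k : ℤ)).map (qc k) ≫
      (shiftFunctorAdd' D 1 (k : ℤ) ((k + 1 : ℕ) : ℤ) (by push_cast; omega)).inv.app (qY (k + 1)) ≫
      qch qY qc n j (k + 1) (by omega)

lemma qch_congr (qY : ℕ → D) (qc : ∀ k, qY k ⟶ (shiftFunctor D (1 : ℤ)).obj (qY (k + 1)))
    (n j j' k : ℕ) (h : k + j = n) (h' : k + j' = n) (hj : j = j') :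
    qch qY qc n j k h = qch qY qc n j' k h' := by
  subst hj; rfl

lemma qch_succ (qY : ℕ → D) (qc : ∀ k, qY k ⟶ (shiftFunctor D (1 : ℤ)).obj (qY (k + 1)))
    (n j k : ℕ) (h : k + (j + 1) = n) :
    qch qY qc n (j + 1) k h = (shiftFunctor D (k : ℤ)).map (qc k) ≫
      (shiftFunctorAdd' D 1 (k : ℤ) ((k + 1 : ℕ) : ℤ) (by push_cast; omega)).inv.app (qY (k + 1)) ≫
      qch qY qc n j (k + 1) (by omega) := rfl

lemma qch_zero (qY : ℕ → D) (qc : ∀ k, qY k ⟶ (shiftFunctor D (1 : ℤ)).obj (qY (k + 1)))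
    (n : ℕ) (h : n + 0 = n) : qch qY qc n 0 n h = 𝟙 _ := rfl

end

open CategoryTheory.Pretriangulated in
/-- Let D be a triangulated category, φ : X ⟶ X' a morphism of chain complexes in D considered in
degrees ≤ n, where a Postnikov system for the complex X_n → … → X_0 consists of objects Y_k, an
isomorphism Y_0 ⟶ X_0, and for 0 ≤ k < n distinguished triangles Y_{k+1} ⟶ X_{k+1} ⟶ Y_k ⟶
Y_{k+1}⟦1⟧ with X_{k+1} ⟶ Y_k ⟶ X_k the differential; let (Y, a, b, c) and (Y', a', b', c') be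
Postnikov systems for X and X'. If Hom(X_i⟦i⟧, Y'_n⟦n⟧) = 0 for i = 1, …, n, then two morphisms of
Postnikov systems extending φ agree on Y_n. (The published statement says there is at most one
morphism of Postnikov systems; the argument, by induction along Y_0 → Y_1⟦1⟧ → … → Y_n⟦n⟧,
determines the component in degree n, which is what is asserted here.) -/
theorem result {D : Type u} [Category.{v} D] [Preadditive D] [HasZeroObject D] [HasShift D ℤ]
    [∀ n : ℤ, (shiftFunctor D n).Additive] [Pretriangulated D] [IsTriangulated D]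
    (X X' : ChainComplex D ℕ) (φ : X ⟶ X') (n : ℕ)
    (Y : ℕ → D) (a : ∀ k, Y k ⟶ X.X k) (b : ∀ k, X.X (k + 1) ⟶ Y k)
    (c : ∀ k, Y k ⟶ (shiftFunctor D (1 : ℤ)).obj (Y (k + 1)))
    (h0 : IsIso (a 0))
    (hP : ∀ k, k < n → Triangle.mk (a (k + 1)) (b k) (c k) ∈ distinguishedTriangles ∧ b k ≫ a k = X.d (k + 1) k)
    (qY : ℕ → D) (qa : ∀ k, qY k ⟶ X'.X k) (qb : ∀ k, X'.X (k + 1) ⟶ qY k)
    (qc : ∀ k, qY k ⟶ (shiftFunctor D (1 : ℤ)).obj (qY (k + 1)))
    (qh0 : IsIso (qa 0))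
    (qhP : ∀ k, k < n → Triangle.mk (qa (k + 1)) (qb k) (qc k) ∈ distinguishedTriangles ∧ qb k ≫ qa k = X'.d (k + 1) k)
    (hv : ∀ i : ℕ, 1 ≤ i → i ≤ n → ∀ ψ : (shiftFunctor D (i : ℤ)).obj (X.X i) ⟶ (shiftFunctor D (n : ℤ)).obj (qY n), ψ = 0)
    (y z : ∀ k, Y k ⟶ qY k)
    (hy : (∀ k, k ≤ n → y k ≫ qa k = a k ≫ φ.f k) ∧
      (∀ k, k < n → b k ≫ y k = φ.f (k + 1) ≫ qb k ∧ c k ≫ (shiftFunctor D (1 : ℤ)).map (y (k + 1)) = y k ≫ qc k))
    (hz : (∀ k, k ≤ n → z k ≫ qa k = a k ≫ φ.f k) ∧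
      (∀ k, k < n → b k ≫ z k = φ.f (k + 1) ≫ qb k ∧ c k ≫ (shiftFunctor D (1 : ℤ)).map (z (k + 1)) = z k ≫ qc k)) :
    y n = z n := by
  have hd3 : ∀ k, k < n → c k ≫ (shiftFunctor D (1 : ℤ)).map (y (k + 1) - z (k + 1)) =
      (y k - z k) ≫ qc k := by
    intro k hk
    rw [Functor.map_sub, Preadditive.comp_sub, Preadditive.sub_comp, (hy.2 k hk).2, (hz.2 k hk).2]
  have hd0 : y 0 - z 0 = 0 := by
    have : y 0 = z 0 := by
      have := qh0
      rw [← cancel_mono (qa 0), hy.1 0 (Nat.zero_le _), hz.1 0 (Nat.zero_le _)]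
    rw [this, sub_self]
  have key : ∀ k (hk : k ≤ n), (shiftFunctor D (k : ℤ)).map (y k - z k) ≫
      qch qY qc n (n - k) k (by omega) = 0 := by
    intro k
    induction k with
    | zero =>
      intro hk
      rw [hd0, Functor.map_zero, zero_comp]
    | succ k ih =>
      intro hk
      have ih' := ih (by omega)
      rw [qch_congr qY qc n (n - k) ((n - (k + 1)) + 1) k _ (by omega) (by omega), qch_succ] at ih'
      obtain ⟨hT, -⟩ := hP k (by omega)
      have hT' := Triangle.shift_distinguished _ (rot_of_distTriang _ hT) (k : ℤ)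
      let isoY : (shiftFunctor D (k : ℤ)).obj ((shiftFunctor D (1 : ℤ)).obj (Y (k + 1))) ⟶
          (shiftFunctor D ((k + 1 : ℕ) : ℤ)).obj (Y (k + 1)) :=
        (shiftFunctorAdd' D 1 (k : ℤ) ((k + 1 : ℕ) : ℤ) (by push_cast; omega)).inv.app (Y (k + 1))
      let isoQ : (shiftFunctor D (k : ℤ)).obj ((shiftFunctor D (1 : ℤ)).obj (qY (k + 1))) ⟶
          (shiftFunctor D ((k + 1 : ℕ) : ℤ)).obj (qY (k + 1)) :=
        (shiftFunctorAdd' D 1 (k : ℤ) ((k + 1 : ℕ) : ℤ) (by push_cast; omega)).inv.app (qY (k + 1))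
      let m := (shiftFunctor D ((k + 1 : ℕ) : ℤ)).map (y (k + 1) - z (k + 1)) ≫
        qch qY qc n (n - (k + 1)) (k + 1) (by omega)
      have hnat : isoY ≫ (shiftFunctor D ((k + 1 : ℕ) : ℤ)).map (y (k + 1) - z (k + 1)) =
          (shiftFunctor D (k : ℤ)).map ((shiftFunctor D (1 : ℤ)).map (y (k + 1) - z (k + 1))) ≫ isoQ :=
        ((shiftFunctorAdd' D 1 (k : ℤ) ((k + 1 : ℕ) : ℤ) (by push_cast; omega)).inv.naturality
          (y (k + 1) - z (k + 1))).symm
      have hcm : (shiftFunctor D (k : ℤ)).map (c k) ≫ isoY ≫ m = 0 := by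
        simp only [m]
        rw [← Category.assoc isoY, hnat, Category.assoc, ← Category.assoc, ← Functor.map_comp,
          hd3 k (by omega), Functor.map_comp, Category.assoc]
        exact ih'
      have hm' : ((CategoryTheory.shiftFunctor (Triangle D) (k : ℤ)).obj
          (Triangle.mk (a (k + 1)) (b k) (c k)).rotate).mor₂ ≫ (isoY ≫ m) = 0 := by
        show ((k : ℤ).negOnePow • (shiftFunctor D (k : ℤ)).map (c k)) ≫ (isoY ≫ m) = 0
        rw [Units.smul_def, Preadditive.zsmul_comp, hcm, smul_zero]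
      obtain ⟨w, hw⟩ := Triangle.yoneda_exact₃ _ hT' (isoY ≫ m) hm'
      have hw0 : w = 0 := by
        let isoX : (shiftFunctor D ((k + 1 : ℕ) : ℤ)).obj (X.X (k + 1)) ≅
            (shiftFunctor D (1 : ℤ)).obj ((shiftFunctor D (k : ℤ)).obj (X.X (k + 1))) :=
          (shiftFunctorAdd' D (k : ℤ) 1 ((k + 1 : ℕ) : ℤ) (by push_cast; omega)).app (X.X (k + 1))
        let w' : (shiftFunctor D (1 : ℤ)).obj ((shiftFunctor D (k : ℤ)).obj (X.X (k + 1))) ⟶
            (shiftFunctor D (n : ℤ)).obj (qY n) := w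
        have h1 : isoX.hom ≫ w' = 0 := hv (k + 1) (by omega) hk _
        have h2 : w' = 0 := (cancel_epi isoX.hom).1 (by rw [h1, comp_zero])
        exact h2
      have hm0 : isoY ≫ m = 0 := hw.trans (by rw [hw0]; exact comp_zero)
      have hiso : IsIso isoY := by simp only [isoY]; infer_instance
      have hm00 : m = 0 := (cancel_epi isoY).1 (by rw [hm0, comp_zero])
      exact hm00
  have hn := key n le_rfl
  rw [qch_congr qY qc n (n - n) 0 n _ (by omega) (by omega), qch_zero, Category.comp_id] at hn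
  have : y n - z n = 0 := by
    apply (shiftFunctor D (n : ℤ)).map_injective
    rw [hn, Functor.map_zero]
  exact sub_eq_zero.mp this

end Groth.Agent.S6597
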