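import Groth.Statements.S6600
-- import your own Groth.Agent.* helpers here

set_option autoImplicit false
universe v u
open CategoryTheory CategoryTheory.Limits
open CohDer

namespace Groth.Agent.S6600

open CategoryTheory.Pretriangulated in
/-- Let D be a triangulated category, A ⊂ D a full subcategory invariant under all shifts, and X → Y → Z
→ X⟦1⟧ a distinguished triangle. Then Z lies in the right orthogonal A^⊥ if and only if Hom(A, X) →
Hom(A, Y) is bijective for every object A of A. -/
theorem result {D : Type u} [Category.{v} D] [Preadditive D] [HasZeroObject D] [HasShift D ℤ]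
    [∀ n : ℤ, (shiftFunctor D n).Additive] [Pretriangulated D] [IsTriangulated D]
    (P : ObjectProperty D) [P.IsStableUnderShift ℤ] (T : Triangle D) (hT : T ∈ distinguishedTriangles) :
    P.rightOrthogonal T.obj₃ ↔ ∀ A : D, P A → Function.Bijective (fun u : A ⟶ T.obj₁ => u ≫ T.mor₁) := by
  constructor
  · intro hZ A hA
    constructor
    · intro u₁ u₂ h12
      dsimp at h12
      have h0 : (u₁ - u₂) ≫ T.mor₁ = 0 := by rw [Preadditive.sub_comp, h12, sub_self]
      obtain ⟨w, hw⟩ := Triangle.coyoneda_exact₂ _ (inv_rot_of_distTriang _ hT) (u₁ - u₂) h0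
      have hw0 : w = 0 := by
        let e' : (shiftFunctor D (1 : ℤ)).obj T.invRotate.obj₁ ≅ T.obj₃ :=
          (shiftFunctorCompIsoId D (-1 : ℤ) 1 (by norm_num)).app T.obj₃
        have h1 : (shiftFunctor D (1 : ℤ)).map w ≫ e'.hom = 0 :=
          hZ _ (P.le_shift 1 A hA)
        have h2 : (shiftFunctor D (1 : ℤ)).map w = 0 :=
          (cancel_mono e'.hom).1 (by rw [h1, zero_comp])
        apply (shiftFunctor D (1 : ℤ)).map_injective
        rw [h2, Functor.map_zero]
      have : u₁ - u₂ = 0 := by rw [hw, hw0]; exact zero_comp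
      exact sub_eq_zero.mp this
    · intro y
      obtain ⟨x, hx⟩ := Triangle.coyoneda_exact₂ T hT y (hZ _ hA)
      exact ⟨x, hx.symm⟩
  · intro H A φ hA
    have hψ : (φ ≫ T.mor₃) ≫ (shiftFunctor D (1 : ℤ)).map T.mor₁ = 0 := by
      rw [Category.assoc, comp_distTriang_mor_zero₃₁ T hT, comp_zero]
    have hψ0 : φ ≫ T.mor₃ = 0 := by
      have hA' : P ((shiftFunctor D (-1 : ℤ)).obj A) := P.le_shift (-1) A hA
      let e : (shiftFunctor D (1 : ℤ)).obj ((shiftFunctor D (-1 : ℤ)).obj A) ≅ A :=
        (shiftFunctorCompIsoId D (-1 : ℤ) 1 (by norm_num)).app A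
      let u := (shiftFunctor D (1 : ℤ)).preimage (e.hom ≫ φ ≫ T.mor₃)
      have hu : (shiftFunctor D (1 : ℤ)).map u = e.hom ≫ φ ≫ T.mor₃ := by
        simp only [u, Functor.map_preimage]
      have hu1 : u ≫ T.mor₁ = 0 ≫ T.mor₁ := by
        apply (shiftFunctor D (1 : ℤ)).map_injective
        rw [Functor.map_comp, hu, zero_comp, Functor.map_zero, Category.assoc, hψ, comp_zero]
      have hu0 : u = 0 := (H _ hA').1 hu1
      have : e.hom ≫ φ ≫ T.mor₃ = 0 := by rw [← hu, hu0, Functor.map_zero]
      rw [← cancel_epi e.hom, this, comp_zero]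
    obtain ⟨y, hy⟩ := Triangle.coyoneda_exact₃ T hT φ hψ0
    obtain ⟨x, hx⟩ := (H A hA).2 y
    dsimp at hx
    rw [hy, ← hx, Category.assoc, comp_distTriang_mor_zero₁₂ T hT, comp_zero]

end Groth.Agent.S6600
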