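import Groth.Statements.S6601
-- import your own Groth.Agent.* helpers here

set_option autoImplicit false
universe v u
open CategoryTheory CategoryTheory.Limits
open CohDer

namespace Groth.Agent.S6601

open CategoryTheory.Pretriangulated in
/-- Let D be a triangulated category, B ⊂ D a full subcategory invariant under all shifts, and X → Y → Z
→ X⟦1⟧ a distinguished triangle. Then X lies in the left orthogonal ^⊥B if and only if Hom(Z, B) →
Hom(Y, B) is bijective for every object B of B. -/
theorem result {D : Type u} [Category.{v} D] [Preadditive D] [HasZeroObject D] [HasShift D ℤ]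
    [∀ n : ℤ, (shiftFunctor D n).Additive] [Pretriangulated D] [IsTriangulated D]
    (P : ObjectProperty D) [P.IsStableUnderShift ℤ] (T : Triangle D) (hT : T ∈ distinguishedTriangles) :
    P.leftOrthogonal T.obj₁ ↔ ∀ B : D, P B → Function.Bijective (fun u : T.obj₃ ⟶ B => T.mor₂ ≫ u) := by
  constructor
  · intro hX B hB
    constructor
    · intro u₁ u₂ h12
      dsimp at h12
      have h0 : T.mor₂ ≫ (u₁ - u₂) = 0 := by rw [Preadditive.comp_sub, h12, sub_self]
      obtain ⟨w, hw⟩ := Triangle.yoneda_exact₃ T hT (u₁ - u₂) h0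
      have hw0 : w = 0 := by
        let e' : T.obj₁ ≅ (shiftFunctor D (-1 : ℤ)).obj ((shiftFunctor D (1 : ℤ)).obj T.obj₁) :=
          ((shiftFunctorCompIsoId D (1 : ℤ) (-1) (by norm_num)).app T.obj₁).symm
        have h1 : e'.hom ≫ (shiftFunctor D (-1 : ℤ)).map w = 0 := hX _ (P.le_shift (-1) B hB)
        have h2 : (shiftFunctor D (-1 : ℤ)).map w = 0 :=
          (cancel_epi e'.hom).1 (by rw [h1, comp_zero])
        apply (shiftFunctor D (-1 : ℤ)).map_injective
        rw [h2, Functor.map_zero]
      have : u₁ - u₂ = 0 := by rw [hw, hw0]; exact comp_zero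
      exact sub_eq_zero.mp this
    · intro v
      obtain ⟨g, hg⟩ := Triangle.yoneda_exact₂ T hT v (hX _ hB)
      exact ⟨g, hg.symm⟩
  · intro H B φ hB
    have hB1 : P ((shiftFunctor D (1 : ℤ)).obj B) := P.le_shift 1 B hB
    have hu : T.mor₃ ≫ (shiftFunctor D (1 : ℤ)).map φ = 0 := by
      apply (H _ hB1).1
      dsimp only
      rw [← Category.assoc, comp_distTriang_mor_zero₂₃ T hT, zero_comp, comp_zero]
    obtain ⟨w, hw⟩ := Triangle.yoneda_exact₃ _ (rot_of_distTriang _ hT)
      ((shiftFunctor D (1 : ℤ)).map φ) hu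
    let w' : (shiftFunctor D (1 : ℤ)).obj T.obj₂ ⟶ (shiftFunctor D (1 : ℤ)).obj B := w
    let v : T.obj₂ ⟶ B := (shiftFunctor D (1 : ℤ)).preimage w'
    have hφ : φ = -(T.mor₁ ≫ v) := by
      apply (shiftFunctor D (1 : ℤ)).map_injective
      rw [hw]
      show (-(shiftFunctor D (1 : ℤ)).map T.mor₁) ≫ w' = _
      rw [Functor.map_neg, Functor.map_comp, Functor.map_preimage, Preadditive.neg_comp]
    obtain ⟨u', hu'⟩ := (H B hB).2 v
    dsimp at hu'
    rw [hφ, ← hu', ← Category.assoc, comp_distTriang_mor_zero₁₂ T hT, zero_comp, neg_zero]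

end Groth.Agent.S6601
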