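import Groth.Statements.S6602
import Groth.Agent.S6601

set_option autoImplicit false
universe v u
open CategoryTheory CategoryTheory.Limits
open CohDer

namespace Groth.Agent.S6602

open CategoryTheory.Pretriangulated in
/-- (1) ⇔ (2): let D be a triangulated category and B a full triangulated subcategory. The inclusion
functor B → D has a left adjoint if and only if for every X in D there is a distinguished triangle A
→ X → B → A⟦1⟧ with B in B and A in the left orthogonal ^⊥B. (The published statement further
asserts that B is then saturated and, when strictly full, equals the right orthogonal of its left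
orthogonal; this row asserts only the equivalence.) -/
theorem result {D : Type u} [Category.{v} D] [Preadditive D] [HasZeroObject D] [HasShift D ℤ]
    [∀ n : ℤ, (shiftFunctor D n).Additive] [Pretriangulated D] [IsTriangulated D]
    (P : ObjectProperty D) [P.IsTriangulated] :
    P.ι.IsRightAdjoint ↔ ∀ X : D, ∃ (A B : D) (f : A ⟶ X) (g : X ⟶ B) (h : B ⟶ (shiftFunctor D (1 : ℤ)).obj A),
      Triangle.mk f g h ∈ distinguishedTriangles ∧ P B ∧ P.leftOrthogonal A := by
  constructor
  · intro hR X
    obtain ⟨L, ⟨adj⟩⟩ := hR.exists_leftAdjoint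
    obtain ⟨A, f, h, hT⟩ := distinguished_cocone_triangle₁ (adj.unit.app X)
    refine ⟨A, (L.obj X).obj, f, adj.unit.app X, h, hT, (L.obj X).property, ?_⟩
    refine (Groth.Agent.S6601.result P _ hT).2 ?_
    intro B hB
    have heq : (fun u : (Triangle.mk f (adj.unit.app X) h).obj₃ ⟶ B =>
        (Triangle.mk f (adj.unit.app X) h).mor₂ ≫ u) =
        (adj.homEquiv X ⟨B, hB⟩) ∘ (fun u => ObjectProperty.homMk u) := by
      funext u
      show _ = adj.homEquiv X ⟨B, hB⟩ (ObjectProperty.homMk u)
      rw [Adjunction.homEquiv_unit]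
      rfl
    rw [heq]
    refine (Equiv.bijective _).comp ⟨fun u v huv => ?_, fun v => ⟨v.hom, rfl⟩⟩
    have := congrArg (fun w => w.hom) huv
    exact this
  · intro H
    choose A B f g h hT hB hA using H
    have hbij : ∀ (X : D) (Y : P.FullSubcategory),
        Function.Bijective (fun u : B X ⟶ Y.obj => g X ≫ u) :=
      fun X Y => (Groth.Agent.S6601.result P _ (hT X)).1 (hA X) Y.obj Y.property
    let F_obj : D → P.FullSubcategory := fun X => ⟨B X, hB X⟩
    have hbij' : ∀ (X : D) (Y : P.FullSubcategory),
        Function.Bijective (fun v : F_obj X ⟶ Y => g X ≫ v.hom) := by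
      intro X Y
      have : (fun v : F_obj X ⟶ Y => g X ≫ v.hom) =
          (fun u : B X ⟶ Y.obj => g X ≫ u) ∘ (fun v : F_obj X ⟶ Y => v.hom) := rfl
      rw [this]
      refine (hbij X Y).comp ⟨fun v w hvw => ObjectProperty.hom_ext _ hvw,
        fun u => ⟨ObjectProperty.homMk u, rfl⟩⟩
    let e : ∀ (X : D) (Y : P.FullSubcategory), (F_obj X ⟶ Y) ≃ (X ⟶ P.ι.obj Y) :=
      fun X Y => Equiv.ofBijective _ (hbij' X Y)
    have he : ∀ (X : D) (Y Y' : P.FullSubcategory) (g' : Y ⟶ Y') (h' : F_obj X ⟶ Y),
        e X Y' (h' ≫ g') = e X Y h' ≫ P.ι.map g' := by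
      intro X Y Y' g' h'
      simp [e]
    exact ⟨⟨Adjunction.leftAdjointOfEquiv e he, ⟨Adjunction.adjunctionOfEquivLeft e he⟩⟩⟩

end Groth.Agent.S6602
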