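import Groth.Statements.S6788
-- import your own Groth.Agent.* helpers here

set_option autoImplicit false
open CategoryTheory CategoryTheory.Limits
universe v u v' u'
open CategoryTheory CategoryTheory.Localization

namespace Groth.Agent.S6788

open ZeroObject

lemma isZero_of_retract {D : Type u'} [Category.{v'} D] {X Z : D} (i : X ⟶ Z) (r : Z ⟶ X)
    (h : i ≫ r = 𝟙 X) (hZ : IsZero Z) : IsZero X :=
  ⟨fun Y => ⟨{ default := i ≫ hZ.to_ Y
               uniq := fun φ => by
                 rw [← Category.id_comp φ, ← h, Category.assoc, hZ.eq_of_src (r ≫ φ) (hZ.to_ Y)] }⟩,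
   fun Y => ⟨{ default := hZ.from_ Y ≫ r
               uniq := fun ψ => by
                 rw [← Category.comp_id ψ, ← h, ← Category.assoc, hZ.eq_of_tgt (ψ ≫ i) (hZ.from_ Y)] }⟩⟩

lemma isZero_L0 {C : Type u} [Category.{v} C] [Preadditive C] [HasZeroObject C] {D : Type u'}
    [Category.{v'} D] (L : C ⥤ D) (W : MorphismProperty C) [W.HasLeftCalculusOfFractions]
    [W.HasRightCalculusOfFractions] [L.IsLocalization W] : IsZero (L.obj (0 : C)) := by
  have := Localization.essSurj L W
  have hto : ∀ (Z : C) (φ : L.obj (0 : C) ⟶ L.obj Z), φ = L.map (0 : (0 : C) ⟶ Z) := by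
    intro Z φ
    obtain ⟨ψ, rfl⟩ := Localization.exists_leftFraction L W φ
    have : IsIso (L.map ψ.s) := Localization.inverts L W _ ψ.hs
    rw [← cancel_mono (L.map ψ.s), MorphismProperty.LeftFraction.map_comp_map_s, ← L.map_comp]
    congr 1
    exact (isZero_zero C).eq_of_src _ _
  have hfrom : ∀ (Z : C) (φ : L.obj Z ⟶ L.obj (0 : C)), φ = L.map (0 : Z ⟶ (0 : C)) := by
    intro Z φ
    obtain ⟨ψ, rfl⟩ := Localization.exists_rightFraction L W φ
    have : IsIso (L.map ψ.s) := Localization.inverts L W _ ψ.hs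
    rw [← cancel_epi (L.map ψ.s), MorphismProperty.RightFraction.map_s_comp_map, ← L.map_comp]
    congr 1
    exact (isZero_zero C).eq_of_tgt _ _
  refine ⟨fun Y => ⟨⟨⟨L.map (0 : (0 : C) ⟶ L.objPreimage Y) ≫ (L.objObjPreimageIso Y).hom⟩,
      fun φ => ?_⟩⟩,
    fun Y => ⟨⟨⟨(L.objObjPreimageIso Y).inv ≫ L.map (0 : L.objPreimage Y ⟶ (0 : C))⟩,
      fun φ => ?_⟩⟩⟩
  · show φ = L.map (0 : (0 : C) ⟶ L.objPreimage Y) ≫ (L.objObjPreimageIso Y).hom
    rw [← hto _ (φ ≫ (L.objObjPreimageIso Y).inv), Category.assoc, Iso.inv_hom_id, Category.comp_id]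
  · show φ = (L.objObjPreimageIso Y).inv ≫ L.map (0 : L.objPreimage Y ⟶ (0 : C))
    rw [← hfrom _ ((L.objObjPreimageIso Y).hom ≫ φ), ← Category.assoc, Iso.inv_hom_id,
      Category.id_comp]

/-- For a multiplicative system `W` (left and right calculus of fractions) in a preadditive category
with a zero object and its localization functor `L`, an object `X` becomes zero in the localization
iff some zero map out of `X` lies in `W`, iff some zero map into `X` lies in `W`. (The published
statement assumes the category additive; only the zero object and the preadditive structure are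
used.) -/
theorem result {C : Type u} [Category.{v} C] [Preadditive C] [HasZeroObject C] {D : Type u'} [Category.{v'} D] (L : C ⥤ D) (W : MorphismProperty C) [W.HasLeftCalculusOfFractions] [W.HasRightCalculusOfFractions] [L.IsLocalization W] (X : C) : (IsZero (L.obj X) ↔ ∃ Y : C, W (0 : X ⟶ Y)) ∧ (IsZero (L.obj X) ↔ ∃ Z : C, W (0 : Z ⟶ X)) := by
  have hL0 := isZero_L0 L W
  constructor
  · constructor
    · intro hX
      have h : L.map (𝟙 X) = L.map (0 : X ⟶ X) := hX.eq_of_src _ _
      obtain ⟨Z, s, hs, hfac⟩ := (MorphismProperty.map_eq_iff_postcomp L W _ _).1 h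
      rw [Category.id_comp, zero_comp] at hfac
      exact ⟨Z, hfac ▸ hs⟩
    · rintro ⟨Y, hY⟩
      have : IsIso (L.map (0 : X ⟶ Y)) := Localization.inverts L W _ hY
      refine isZero_of_retract (L.map (0 : X ⟶ 0))
        (L.map (0 : (0 : C) ⟶ Y) ≫ inv (L.map (0 : X ⟶ Y))) ?_ hL0
      rw [← Category.assoc, ← L.map_comp, zero_comp, IsIso.hom_inv_id]
  · constructor
    · intro hX
      have h : L.map (𝟙 X) = L.map (0 : X ⟶ X) := hX.eq_of_src _ _
      obtain ⟨Z, s, hs, hfac⟩ := (MorphismProperty.map_eq_iff_precomp L W _ _).1 h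
      rw [Category.comp_id, comp_zero] at hfac
      exact ⟨Z, hfac ▸ hs⟩
    · rintro ⟨Z, hZ⟩
      have : IsIso (L.map (0 : Z ⟶ X)) := Localization.inverts L W _ hZ
      refine isZero_of_retract (inv (L.map (0 : Z ⟶ X)) ≫ L.map (0 : Z ⟶ 0))
        (L.map (0 : (0 : C) ⟶ X)) ?_ hL0
      rw [Category.assoc, ← L.map_comp, zero_comp, IsIso.inv_hom_id]

end Groth.Agent.S6788
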