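import Groth.Statements.S6603
import Groth.Agent.S6788

set_option autoImplicit false
universe v u v' u'
open CategoryTheory CategoryTheory.Limits
open CohDer

namespace Groth.Agent.S6603

open ZeroObject

open CategoryTheory.Pretriangulated in
/-- (1) ⇔ (2) ⇔ (3) ⇔ (4): let D be a pretriangulated category, S a multiplicative system compatible
with the triangulated structure, and Q : D → S⁻¹D the localization functor. For an object Z of D the
following are equivalent: (1) Q(Z) = 0; (2) 0 : Z ⟶ Z' is in S for some Z'; (3) 0 : Z' ⟶ Z is in S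
for some Z'; (4) there are an object Z' and a distinguished triangle (X, Y, Z ⊞ Z', f, g, h) with f
∈ S. (The further equivalences (5)–(7) for saturated S are not asserted.) -/
theorem result {D : Type u} [Category.{v} D] [Preadditive D] [HasZeroObject D] [HasShift D ℤ]
    [∀ n : ℤ, (shiftFunctor D n).Additive] [Pretriangulated D]
    (S : MorphismProperty D) [S.HasLeftCalculusOfFractions] [S.HasRightCalculusOfFractions]
    [S.IsCompatibleWithTriangulation]
    {E : Type u'} [Category.{v'} E] (Q : D ⥤ E) [Q.IsLocalization S] (Z : D) :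
    (IsZero (Q.obj Z) ↔ ∃ Z' : D, S (0 : Z ⟶ Z')) ∧
    (IsZero (Q.obj Z) ↔ ∃ Z' : D, S (0 : Z' ⟶ Z)) ∧
    (IsZero (Q.obj Z) ↔ ∃ (Z' X Y : D) (f : X ⟶ Y) (g : Y ⟶ Z ⊞ Z') (h : Z ⊞ Z' ⟶ (shiftFunctor D (1 : ℤ)).obj X),
      Triangle.mk f g h ∈ distinguishedTriangles ∧ S f) := by
  have H := Groth.Agent.S6788.result Q S Z
  refine ⟨H.1, H.2, ?_⟩
  constructor
  · intro hZ
    obtain ⟨Z'', hZ''⟩ := H.2.1 hZ
    refine ⟨(shiftFunctor D (1 : ℤ)).obj Z'', Z'', Z, 0, biprod.inl, biprod.snd, ?_, hZ''⟩
    rw [rotate_distinguished_triangle]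
    refine isomorphic_distinguished _
      (binaryBiproductTriangle_distinguished Z ((shiftFunctor D (1 : ℤ)).obj Z'')) _ ?_
    refine Triangle.isoMk _ _ (Iso.refl _) (Iso.refl _) (Iso.refl _) ?_ ?_ ?_
    · set_option backward.isDefEq.respectTransparency false in simp
    · set_option backward.isDefEq.respectTransparency false in simp
    · set_option backward.isDefEq.respectTransparency false in simp
  · rintro ⟨Z', X, Y, f, g, h, hT, hf⟩
    obtain ⟨c, hc, -, -⟩ := S.compatible_with_triangulation (Triangle.mk f g h)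
      (contractibleTriangle Y) hT (contractible_distinguished Y) f (𝟙 Y) hf (S.id_mem _) rfl
    have hc0 : c = 0 := (isZero_zero D).eq_of_tgt _ _
    rw [hc0] at hc
    have hZZ : IsZero (Q.obj (Z ⊞ Z')) := (Groth.Agent.S6788.result Q S (Z ⊞ Z')).1.2 ⟨_, hc⟩
    refine Groth.Agent.S6788.isZero_of_retract (Q.map biprod.inl) (Q.map biprod.fst) ?_ hZZ
    rw [← Q.map_comp, biprod.inl_fst, Q.map_id]

end Groth.Agent.S6603
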