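import Groth.Statements.S6604
import Groth.Agent.S6788

set_option autoImplicit false
universe v u v' u'
open CategoryTheory CategoryTheory.Limits
open CohDer

namespace Groth.Agent.S6604

open ZeroObject CategoryTheory.Pretriangulated

/-- Let D be a triangulated category, B a full triangulated subcategory and Q : D → D/B the quotient
functor. Q sends an object Z of D to zero (Q(Z) = 0, i.e. Z belongs to the kernel of Q) exactly
when, for a suitable object Z' of D, the direct sum Z ⊞ Z' is isomorphic to some object lying in B;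
put differently, the kernel is the smallest saturated, strictly full triangulated subcategory that
contains B. -/
theorem result {D : Type u} [Category.{v} D] [Preadditive D] [HasZeroObject D] [HasShift D ℤ]
    [∀ n : ℤ, (shiftFunctor D n).Additive] [Pretriangulated D] [IsTriangulated D]
    (B : ObjectProperty D) [B.IsTriangulated]
    {E : Type u'} [Category.{v'} E] (Q : D ⥤ E) [Q.IsLocalization B.trW] (Z : D) :
    IsZero (Q.obj Z) ↔ ∃ (Z' Y : D), B Y ∧ Nonempty (Z ⊞ Z' ≅ Y) := by
  have H := Groth.Agent.S6788.result Q B.trW Z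
  constructor
  · intro hZ
    obtain ⟨Z₀, hZ₀⟩ := H.2.1 hZ
    obtain ⟨W, g, h, hT, hW⟩ := (B.trW_iff _).1 hZ₀
    have hT' := rot_of_distTriang _ hT
    obtain ⟨e, -, -⟩ := exists_iso_binaryBiproduct_of_distTriang _ hT'
      (by set_option backward.isDefEq.respectTransparency false in simp)
    exact ⟨_, W, hW, ⟨e.symm⟩⟩
  · rintro ⟨Z', Y, hY, ⟨e⟩⟩
    have h1 : B.trW (0 : Y ⟶ 0) := ObjectProperty.trW.mk' B (contractible_distinguished Y) hY
    have hY0 : IsZero (Q.obj Y) := (Groth.Agent.S6788.result Q B.trW Y).1.2 ⟨_, h1⟩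
    have hZZ : IsZero (Q.obj (Z ⊞ Z')) := hY0.of_iso (Q.mapIso e)
    refine Groth.Agent.S6788.isZero_of_retract (Q.map biprod.inl) (Q.map biprod.fst) ?_ hZZ
    rw [← Q.map_comp, biprod.inl_fst, Q.map_id]

end Groth.Agent.S6604
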