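import Groth.Statements.S6605
import Groth.Agent.Lib.Helper2.FilD

set_option autoImplicit false
universe v u
open CategoryTheory CategoryTheory.Limits Opposite
open FilD

namespace Groth.Agent.S6605

/-- Let A be an abelian category, u : A ⟶ B a strict monomorphism of finite filtered objects and f : A ⟶
I a morphism into a filtered injective object I of Fil^f(A). Then there is g : B ⟶ I with u ≫ g = f. -/
theorem result {A : Type u} [Category.{v} A] [Abelian A]
    {X Y I : FilD.FilF A} (u : X ⟶ Y) [Mono u] (hu : FilD.IsStrict u) (hI : FilD.IsFilteredInjective I) (f : X ⟶ I) :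
    ∃ g : Y ⟶ I, u ≫ g = f := by
  exact Groth.Agent.Lib.Helper2.FilDLib.exists_ext_of_mono u hu hI f

end Groth.Agent.S6605
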