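import Groth.Statements.S6608
-- import your own Groth.Agent.* helpers here

set_option autoImplicit false
universe v u
open CategoryTheory CategoryTheory.Limits
open CohDer

namespace Groth.Agent.S6608

set_option backward.isDefEq.respectTransparency false in
open CategoryTheory.Pretriangulated ZeroObject in
theorem key {D : Type u} [Category.{v} D] [Preadditive D] [HasZeroObject D] [HasShift D ℤ]
    [∀ n : ℤ, (shiftFunctor D n).Additive] [Pretriangulated D]
    (S : MorphismProperty D) [S.ContainsIdentities] [S.IsCompatibleWithTriangulation]
    {X Y : D} (f : X ⟶ Y) [IsIso f] (X' : D) (e : (shiftFunctor D (1 : ℤ)).obj X' ≅ X) : S f := by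
  have h1 : Triangle.mk (0 : X' ⟶ 0) (0 : 0 ⟶ X) e.inv ∈ distinguishedTriangles := by
    refine isomorphic_distinguished _ (contractible_distinguished₂ X') _ ?_
    refine Triangle.isoMk _ _ (Iso.refl X') (Iso.refl (0 : D)) e.symm ?_ ?_ ?_
    · simp
    · simp
    · simp
      erw [CategoryTheory.Functor.map_id]
      rfl
  have h2 : Triangle.mk (0 : X' ⟶ 0) (0 : 0 ⟶ Y) (inv f ≫ e.inv) ∈ distinguishedTriangles := by
    refine isomorphic_distinguished _ h1 _ ?_
    refine Triangle.isoMk _ _ (Iso.refl X') (Iso.refl (0 : D)) (asIso f).symm ?_ ?_ ?_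
    · simp
    · simp
    · simp
      erw [CategoryTheory.Functor.map_id]
      exact Category.comp_id _
  obtain ⟨c, hc, -, hc3⟩ := S.compatible_with_triangulation _ _ h1 h2 (𝟙 _) (𝟙 _)
    (S.id_mem _) (S.id_mem _) (by simp)
  have : c = f := by
    simp only [Triangle.mk_mor₃] at hc3
    erw [CategoryTheory.Functor.map_id, Category.comp_id] at hc3
    have := hc3 =≫ e.hom
    simp only [Iso.inv_hom_id, Category.assoc] at this
    rw [← cancel_mono (inv f)]
    simpa using this.symm
  rw [← this]
  exact hc

open CategoryTheory.Pretriangulated in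
/-- Let D be a pretriangulated category and S a set of arrows of D containing the identities and
satisfying MS6 (compatibility with the triangulated structure; here together with stability under
shifts, MS5). Then every isomorphism of D lies in S. -/
theorem result {D : Type u} [Category.{v} D] [Preadditive D] [HasZeroObject D] [HasShift D ℤ]
    [∀ n : ℤ, (shiftFunctor D n).Additive] [Pretriangulated D]
    (S : MorphismProperty D) [S.ContainsIdentities] [S.IsCompatibleWithTriangulation]
    {X Y : D} (f : X ⟶ Y) [IsIso f] : S f := by
  exact key S f _ ((shiftFunctorCompIsoId D (-1 : ℤ) 1 (by norm_num)).app X)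

end Groth.Agent.S6608
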