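import Groth.Statements.S6609
-- import your own Groth.Agent.* helpers here

set_option autoImplicit false
universe v u
open CategoryTheory CategoryTheory.Limits
open CohDer

namespace Groth.Agent.S6609

open CategoryTheory.Pretriangulated in
/-- Let D be a pretriangulated category and S a set of arrows satisfying MS1 (identities, stable under
composition), MS5 (stable under shifts in both directions) and MS6 (compatibility with distinguished
triangles). Then MS2 holds: (LMS2) for f : X ⟶ Y and t : X ⟶ X' in S there are f' : X' ⟶ Y' and s' :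
Y ⟶ Y' in S with f ≫ s' = t ≫ f'; (RMS2) for f : X ⟶ Y and s : Y' ⟶ Y in S there are f' : X' ⟶ Y'
and t' : X' ⟶ X in S with t' ≫ f = f' ≫ s. -/
theorem result {D : Type u} [Category.{v} D] [Preadditive D] [HasZeroObject D] [HasShift D ℤ]
    [∀ n : ℤ, (shiftFunctor D n).Additive] [Pretriangulated D]
    (S : MorphismProperty D) [S.IsMultiplicative] [S.IsCompatibleWithTriangulation] :
    (∀ {X Y X' : D} (f : X ⟶ Y) (t : X ⟶ X'), S t →
      ∃ (Y' : D) (f' : X' ⟶ Y') (s' : Y ⟶ Y'), S s' ∧ f ≫ s' = t ≫ f') ∧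
    (∀ {X Y Y' : D} (f : X ⟶ Y) (s : Y' ⟶ Y), S s →
      ∃ (X' : D) (f' : X' ⟶ Y') (t' : X' ⟶ X), S t' ∧ t' ≫ f = f' ≫ s) := by
  constructor
  · intro X Y X' f t ht
    obtain ⟨Z, g, h, hT⟩ := distinguished_cocone_triangle f
    let T₁ := (Triangle.mk f g h).invRotate
    have hT₁ : T₁ ∈ distinguishedTriangles := inv_rot_of_distTriang _ hT
    obtain ⟨Y', f', h', hT₂⟩ := distinguished_cocone_triangle (T₁.mor₁ ≫ t)
    obtain ⟨c, hc, hc1, -⟩ := S.compatible_with_triangulation T₁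
      (Triangle.mk (T₁.mor₁ ≫ t) f' h') hT₁ hT₂ (𝟙 _) t (S.id_mem _) ht
      (Category.id_comp _).symm
    exact ⟨Y', f', c, hc, hc1⟩
  · intro X Y Y' f s hs
    obtain ⟨Z, g, h, hT⟩ := distinguished_cocone_triangle f
    let T₂ := (Triangle.mk f g h).invRotate.invRotate
    have hT₂ : T₂ ∈ distinguishedTriangles :=
      inv_rot_of_distTriang _ (inv_rot_of_distTriang _ hT)
    let u : (shiftFunctor D (-1 : ℤ)).obj Y' ⟶ T₂.obj₂ := (shiftFunctor D (-1 : ℤ)).map s ≫ T₂.mor₁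
    obtain ⟨X', v, w, hT₁⟩ := distinguished_cocone_triangle u
    obtain ⟨c, hc, hc1, hc2⟩ := S.compatible_with_triangulation (Triangle.mk u v w) T₂ hT₁ hT₂
      ((shiftFunctor D (-1 : ℤ)).map s) (𝟙 _)
      ((MorphismProperty.IsCompatibleWithShift.iff S s (-1)).2 hs) (S.id_mem _)
      (Category.comp_id _)
    let c' : X' ⟶ X := c
    let κY : (shiftFunctor D (1 : ℤ)).obj ((shiftFunctor D (-1 : ℤ)).obj Y) ⟶ Y :=
      (shiftEquiv D (1 : ℤ)).counitIso.hom.app Y
    let κY' : (shiftFunctor D (1 : ℤ)).obj ((shiftFunctor D (-1 : ℤ)).obj Y') ⟶ Y' :=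
      (shiftEquiv D (1 : ℤ)).counitIso.hom.app Y'
    let κiY : Y ⟶ (shiftFunctor D (1 : ℤ)).obj ((shiftFunctor D (-1 : ℤ)).obj Y) :=
      (shiftEquiv D (1 : ℤ)).counitIso.inv.app Y
    have hκ : κiY ≫ κY = 𝟙 Y := (shiftEquiv D (1 : ℤ)).counitIso.inv_hom_id_app Y
    have hc2' : w ≫ (shiftFunctor D (1 : ℤ)).map ((shiftFunctor D (-1 : ℤ)).map s) =
        c' ≫ f ≫ κiY := hc2
    refine ⟨X', w ≫ κY', c', hc, ?_⟩
    have nat : (shiftFunctor D (1 : ℤ)).map ((shiftFunctor D (-1 : ℤ)).map s) ≫ κY = κY' ≫ s :=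
      (shiftEquiv D (1 : ℤ)).counitIso.hom.naturality s
    rw [Category.assoc, ← nat, ← Category.assoc, hc2', Category.assoc, Category.assoc, hκ,
      Category.comp_id]

end Groth.Agent.S6609
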