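import Groth.Statements.S6775
import Mathlib.CategoryTheory.Abelian.CommSq

set_option autoImplicit false
open CategoryTheory CategoryTheory.Limits
universe v u
open CategoryTheory CategoryTheory.Abelian

namespace Groth.Agent.S6775

/-- In an abelian category a cartesian square whose bottom arrow `k` is an epimorphism is also
cocartesian, and the arrow `f` opposite to `k` is an epimorphism. -/
theorem result {A : Type u} [Category.{v} A] [Abelian A] {w x y z : A} (f : w ⟶ y) (g : w ⟶ x) (h : y ⟶ z) (k : x ⟶ z) (sq : IsPullback f g h k) [Epi k] : IsPushout f g h k ∧ Epi f := by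
  have hepi : Epi f := Abelian.epi_fst_of_isLimit h k sq.isLimit
  refine ⟨?_, hepi⟩
  let S' : ShortComplex A := ShortComplex.mk (biprod.lift f g) (biprod.desc h (-k)) (by simp [sq.w])
  have hS' : S'.Exact := sq.exact_shortComplex'
  let S : ShortComplex A := ShortComplex.mk (biprod.lift f (-g)) (biprod.desc h k) (by simp [sq.w])
  let σ : (y ⊞ x) ≅ (y ⊞ x) :=
    { hom := biprod.map (𝟙 y) (-𝟙 x), inv := biprod.map (𝟙 y) (-𝟙 x),
      hom_inv_id := by ext <;> simp, inv_hom_id := by ext <;> simp }
  have e : S' ≅ S :=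
    ShortComplex.isoMk (Iso.refl w) σ (Iso.refl z)
      (by apply biprod.hom_ext <;> simp [S, S', σ]) (by apply biprod.hom_ext' <;> simp [S, S', σ])
  have hS : S.Exact := (ShortComplex.exact_iff_of_iso e).1 hS'
  have hg : Epi S.g := by
    have h2 : (biprod.inr : x ⟶ y ⊞ x) ≫ S.g = k := by simp [S]
    have : Epi ((biprod.inr : x ⟶ y ⊞ x) ≫ S.g) := by rw [h2]; infer_instance
    exact epi_of_epi (biprod.inr : x ⟶ y ⊞ x) S.g
  have hc := hS.gIsCokernel
  exact IsPushout.of_isColimit (c := PushoutCocone.mk _ _ sq.w)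
    ((sq.toCommSq.isColimitEquivIsColimitCokernelCofork).symm hc)

end Groth.Agent.S6775
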