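import Groth.Statements.S6776
import Mathlib.CategoryTheory.Abelian.CommSq

set_option autoImplicit false
open CategoryTheory CategoryTheory.Limits
universe v u
open CategoryTheory CategoryTheory.Abelian

namespace Groth.Agent.S6776

/-- In an abelian category a cocartesian square whose left arrow `g` is a monomorphism is also
cartesian, and the arrow `h` opposite to `g` is a monomorphism. -/
theorem result {A : Type u} [Category.{v} A] [Abelian A] {w x y z : A} (f : w ⟶ y) (g : w ⟶ x) (h : y ⟶ z) (k : x ⟶ z) (sq : IsPushout f g h k) [Mono g] : IsPullback f g h k ∧ Mono h := by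
  have hmono : Mono h := Abelian.mono_inl_of_isColimit f g sq.isColimit
  refine ⟨?_, hmono⟩
  let S : ShortComplex A := ShortComplex.mk (biprod.lift f (-g)) (biprod.desc h k) (by simp [sq.w])
  have hS : S.Exact := sq.exact_shortComplex
  let S' : ShortComplex A := ShortComplex.mk (biprod.lift f g) (biprod.desc h (-k)) (by simp [sq.w])
  let σ : (y ⊞ x) ≅ (y ⊞ x) :=
    { hom := biprod.map (𝟙 y) (-𝟙 x), inv := biprod.map (𝟙 y) (-𝟙 x),
      hom_inv_id := by ext <;> simp, inv_hom_id := by ext <;> simp }
  have e : S ≅ S' :=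
    ShortComplex.isoMk (Iso.refl w) σ (Iso.refl z)
      (by apply biprod.hom_ext <;> simp [S, S', σ]) (by apply biprod.hom_ext' <;> simp [S, S', σ])
  have hS' : S'.Exact := (ShortComplex.exact_iff_of_iso e).1 hS
  have hf : Mono S'.f := by
    have h2 : S'.f ≫ (biprod.snd : y ⊞ x ⟶ x) = g := by simp [S']
    have : Mono (S'.f ≫ (biprod.snd : y ⊞ x ⟶ x)) := by rw [h2]; infer_instance
    exact mono_of_mono S'.f (biprod.snd : y ⊞ x ⟶ x)
  have hk := hS'.fIsKernel
  exact IsPullback.of_isLimit (c := PullbackCone.mk _ _ sq.w)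
    ((sq.toCommSq.isLimitEquivIsLimitKernelFork).symm hk)

end Groth.Agent.S6776
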