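import Groth.Statements.S6777
import Mathlib.CategoryTheory.Abelian.Refinements

set_option autoImplicit false
open CategoryTheory CategoryTheory.Limits
universe v u
open CategoryTheory CategoryTheory.Abelian

namespace Groth.Agent.S6777

/-- For a commutative diagram with rows `x ⟶ y ⟶ z` and `u ⟶ v ⟶ w` in an abelian category, if the first
row is exact and the first map `k` of the second row is a monomorphism, then the induced sequence of
kernels of the vertical maps is exact. -/
theorem result {A : Type u} [Category.{v} A] [Abelian A] {x y z u' v' w : A} (f : x ⟶ y) (g : y ⟶ z) (k : u' ⟶ v') (l : v' ⟶ w) (α : x ⟶ u') (β : y ⟶ v') (γ : z ⟶ w) (h₁ : α ≫ k = f ≫ β) (h₂ : β ≫ l = g ≫ γ) (hfg : f ≫ g = 0) (hex : (ShortComplex.mk f g hfg).Exact) [Mono k] : ∃ hc : kernel.map α β f k h₁ ≫ kernel.map β γ g l h₂ = 0, (ShortComplex.mk _ _ hc).Exact := by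
  have hc : kernel.map α β f k h₁ ≫ kernel.map β γ g l h₂ = 0 := by
    apply (cancel_mono (kernel.ι γ)).1
    simp [hfg]
  refine ⟨hc, ?_⟩
  rw [ShortComplex.exact_iff_exact_up_to_refinements]
  intro T t ht
  dsimp at t ht ⊢
  have ht' : (t ≫ kernel.ι β) ≫ g = 0 := by
    have := ht =≫ kernel.ι γ
    simpa using this
  obtain ⟨T', π, hπ, s, hs⟩ := hex.exact_up_to_refinements (t ≫ kernel.ι β) ht'
  dsimp at s hs
  have hsα : s ≫ α = 0 := by
    apply (cancel_mono k).1
    rw [Category.assoc, h₁, ← Category.assoc, ← hs]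
    simp
  refine ⟨T', π, hπ, kernel.lift α s hsα, ?_⟩
  apply (cancel_mono (kernel.ι β)).1
  simp [hs]

end Groth.Agent.S6777
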