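import Groth.Statements.S6778
import Mathlib.CategoryTheory.Abelian.Refinements

set_option autoImplicit false
open CategoryTheory CategoryTheory.Limits
universe v u
open CategoryTheory CategoryTheory.Abelian

namespace Groth.Agent.S6778

/-- For a commutative diagram with rows `x ⟶ y ⟶ z` and `u ⟶ v ⟶ w` in an abelian category, if the
second row is exact and the second map `g` of the first row is an epimorphism, then the induced
sequence of cokernels of the vertical maps is exact. -/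
theorem result {A : Type u} [Category.{v} A] [Abelian A] {x y z u' v' w : A} (f : x ⟶ y) (g : y ⟶ z) (k : u' ⟶ v') (l : v' ⟶ w) (α : x ⟶ u') (β : y ⟶ v') (γ : z ⟶ w) (h₁ : α ≫ k = f ≫ β) (h₂ : β ≫ l = g ≫ γ) (hkl : k ≫ l = 0) (hex : (ShortComplex.mk k l hkl).Exact) [Epi g] : ∃ hc : cokernel.map α β f k h₁ ≫ cokernel.map β γ g l h₂ = 0, (ShortComplex.mk _ _ hc).Exact := by
  have hc : cokernel.map α β f k h₁ ≫ cokernel.map β γ g l h₂ = 0 := by
    apply (cancel_epi (cokernel.π α)).1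
    simp [reassoc_of% hkl]
  refine ⟨hc, ?_⟩
  rw [ShortComplex.exact_iff_exact_up_to_refinements]
  intro T t ht
  dsimp at t ht ⊢
  obtain ⟨T₁, π₁, hπ₁, v, hv⟩ := surjective_up_to_refinements_of_epi (cokernel.π β) t
  have hvl : (v ≫ l) ≫ cokernel.π γ = 0 := by
    have : v ≫ cokernel.π β ≫ cokernel.map β γ g l h₂ = 0 := by
      rw [← Category.assoc, ← hv, Category.assoc, ht, comp_zero]
    simpa using this
  obtain ⟨T₂, π₂, hπ₂, c, hc2⟩ :=
    (CokernelCofork.IsColimit.comp_π_eq_zero_iff_up_to_refinements (cokernelIsCokernel γ) (v ≫ l)).1 hvl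
  obtain ⟨T₃, π₃, hπ₃, b, hb⟩ := surjective_up_to_refinements_of_epi g c
  have hv' : (π₃ ≫ π₂ ≫ v - b ≫ β) ≫ l = 0 := by
    rw [Preadditive.sub_comp, Category.assoc, Category.assoc, hc2, Category.assoc, h₂,
      ← Category.assoc, hb, Category.assoc, sub_self]
  obtain ⟨T₄, π₄, hπ₄, a, ha⟩ := hex.exact_up_to_refinements _ hv'
  dsimp at a ha
  refine ⟨T₄, π₄ ≫ π₃ ≫ π₂ ≫ π₁, inferInstance, a ≫ cokernel.π α, ?_⟩
  have e1 : π₄ ≫ π₃ ≫ π₂ ≫ π₁ ≫ t = π₄ ≫ (π₃ ≫ π₂ ≫ v - b ≫ β) ≫ cokernel.π β := by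
    rw [hv, Preadditive.sub_comp]
    simp
  simp only [Category.assoc]
  rw [e1, ← Category.assoc, ha]
  simp

end Groth.Agent.S6778
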