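import Groth.Statements.S6862
import Mathlib.Algebra.Module.StablyFree.Basic
import Mathlib.Algebra.Exact.Basic
import Mathlib.Algebra.Module.Projective
import Mathlib.LinearAlgebra.FreeModule.Basic
import Mathlib.LinearAlgebra.Prod
import Mathlib.RingTheory.Finiteness.Prod

set_option autoImplicit false
universe u
open CAlg

namespace Groth.Agent.S6862

/-- Rearranging products: `((A × B) × C) × D ≃ B × ((A × D) × C)`. -/
def rearr1 (R : Type u) [CommRing R] (A B C D : Type u) [AddCommGroup A] [Module R A]
    [AddCommGroup B] [Module R B] [AddCommGroup C] [Module R C] [AddCommGroup D] [Module R D] :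
    (((A × B) × C) × D) ≃ₗ[R] (B × ((A × D) × C)) where
  toFun x := (x.1.1.2, ((x.1.1.1, x.2), x.1.2))
  invFun y := (((y.2.1.1, y.1), y.2.2), y.2.1.2)
  map_add' _ _ := rfl
  map_smul' _ _ := rfl
  left_inv _ := rfl
  right_inv _ := rfl

/-- Rearranging products: `((A × B) × C) × D ≃ A × ((B × D) × C)`. -/
def rearr3 (R : Type u) [CommRing R] (A B C D : Type u) [AddCommGroup A] [Module R A]
    [AddCommGroup B] [Module R B] [AddCommGroup C] [Module R C] [AddCommGroup D] [Module R D] :
    (((A × B) × C) × D) ≃ₗ[R] (A × ((B × D) × C)) where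
  toFun x := (x.1.1.1, ((x.1.1.2, x.2), x.1.2))
  invFun y := (((y.1, y.2.1.1), y.2.2), y.2.1.2)
  map_add' _ _ := rfl
  map_smul' _ _ := rfl
  left_inv _ := rfl
  right_inv _ := rfl


/-- Let `R` be a commutative ring and `P'`, `P`, `P''` finitely generated projective `R`-modules in an
exact sequence `0 → P' → P → P'' → 0`. Whenever two of the three are stably free, the remaining one
is stably free too (all three cases are stated). -/
theorem result {R : Type u} [CommRing R] {P' P P'' : Type u}
    [AddCommGroup P'] [Module R P'] [Module.Finite R P'] [Module.Projective R P']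
    [AddCommGroup P] [Module R P] [Module.Finite R P] [Module.Projective R P]
    [AddCommGroup P''] [Module R P''] [Module.Finite R P''] [Module.Projective R P'']
    (f : P' →ₗ[R] P) (g : P →ₗ[R] P'') (hf : Function.Injective f) (hg : Function.Surjective g)
    (hfg : Function.Exact f g) :
    (Module.IsStablyFree R P' → Module.IsStablyFree R P → Module.IsStablyFree R P'') ∧
    (Module.IsStablyFree R P' → Module.IsStablyFree R P'' → Module.IsStablyFree R P) ∧
    (Module.IsStablyFree R P → Module.IsStablyFree R P'' → Module.IsStablyFree R P') := by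
  obtain ⟨l, hl⟩ := Module.projective_lifting_property g (LinearMap.id) hg
  let e : P ≃ₗ[R] P' × P'' := ((hfg.splitSurjectiveEquiv hf) ⟨l, hl⟩).1
  refine ⟨?_, ?_, ?_⟩
  · intro h1 h2
    obtain ⟨N', _, _, _, _, hN'⟩ := Module.IsStablyFree.exist_free_prod R P'
    obtain ⟨N, _, _, _, _, hN⟩ := Module.IsStablyFree.exist_free_prod R P
    let E : ((P × N) × N') ≃ₗ[R] (P'' × ((P' × N') × N)) :=
      ((e.prodCongr (LinearEquiv.refl R N)).prodCongr (LinearEquiv.refl R N')).trans
        (rearr1 R P' P'' N N')
    have : Module.Free R (P'' × ((P' × N') × N)) := Module.Free.of_equiv E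
    exact Module.IsStablyFree.of_free_prod R P'' ((P' × N') × N)
  · intro h1 h3
    obtain ⟨N', _, _, _, _, hN'⟩ := Module.IsStablyFree.exist_free_prod R P'
    obtain ⟨N'', _, _, _, _, hN''⟩ := Module.IsStablyFree.exist_free_prod R P''
    let E : ((P' × N') × (P'' × N'')) ≃ₗ[R] (P × (N' × N'')) :=
      (LinearEquiv.prodProdProdComm R P' N' P'' N'').trans
        (e.symm.prodCongr (LinearEquiv.refl R (N' × N'')))
    have : Module.Free R (P × (N' × N'')) := Module.Free.of_equiv E
    exact Module.IsStablyFree.of_free_prod R P (N' × N'')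
  · intro h2 h3
    obtain ⟨N, _, _, _, _, hN⟩ := Module.IsStablyFree.exist_free_prod R P
    obtain ⟨N'', _, _, _, _, hN''⟩ := Module.IsStablyFree.exist_free_prod R P''
    let E : ((P × N) × N'') ≃ₗ[R] (P' × ((P'' × N'') × N)) :=
      ((e.prodCongr (LinearEquiv.refl R N)).prodCongr (LinearEquiv.refl R N'')).trans
        (rearr3 R P' P'' N N'')
    have : Module.Free R (P' × ((P'' × N'') × N)) := Module.Free.of_equiv E
    exact Module.IsStablyFree.of_free_prod R P' ((P'' × N'') × N)

end Groth.Agent.S6862
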