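import Groth.Statements.S6864
import Mathlib.LinearAlgebra.TensorProduct.Quotient
import Mathlib.RingTheory.Nakayama

set_option autoImplicit false
universe u
open TensorProduct
open CAlg

namespace Groth.Agent.S6864

/-- Let `I` be an ideal of a commutative ring `R` contained in the Jacobson radical and let `φ : P → P'`
be an `R`-linear map between finite projective `R`-modules. If the induced map `P/IP → P'/IP'` is
bijective, then `φ` is bijective. -/
theorem result {R : Type u} [CommRing R] (I : Ideal R)
    (hI : I ≤ Ideal.jacobson (⊥ : Ideal R)) {P P' : Type u}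
    [AddCommGroup P] [Module R P] [Module.Finite R P] [Module.Projective R P]
    [AddCommGroup P'] [Module R P'] [Module.Finite R P'] [Module.Projective R P'] (φ : P →ₗ[R] P')
    (h : Function.Bijective (φ.baseChange (R ⧸ I))) : Function.Bijective φ := by
  have hquot : ∀ (M : Type u) [AddCommGroup M] [Module R M] (x : TensorProduct R (R ⧸ I) M),
      ∃ m : M, x = (1 : R ⧸ I) ⊗ₜ[R] m := by
    intro M _ _ x
    induction x using TensorProduct.induction_on with
    | zero => exact ⟨0, by simp⟩
    | tmul r m =>
      obtain ⟨r, rfl⟩ := Ideal.Quotient.mk_surjective r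
      refine ⟨r • m, ?_⟩
      rw [← TensorProduct.smul_tmul, ← Algebra.algebraMap_eq_smul_one]
      rfl
    | add x y hx hy =>
      obtain ⟨m, rfl⟩ := hx
      obtain ⟨m', rfl⟩ := hy
      exact ⟨m + m', by rw [TensorProduct.tmul_add]⟩
  have hker : ∀ (M : Type u) [AddCommGroup M] [Module R M] (m : M),
      (1 : R ⧸ I) ⊗ₜ[R] m = 0 → m ∈ I • (⊤ : Submodule R M) := by
    intro M _ _ m hm
    have := congrArg (TensorProduct.quotTensorEquivQuotSMul M I) hm
    rw [map_zero, ← map_one (Ideal.Quotient.mk I), TensorProduct.quotTensorEquivQuotSMul_mk_tmul,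
      one_smul, Submodule.Quotient.mk_eq_zero] at this
    exact this
  have hsurj : Function.Surjective φ := by
    apply LinearMap.surjective_of_surjective_comp_mkQ φ I hI
    intro y
    obtain ⟨p', rfl⟩ := Submodule.Quotient.mk_surjective _ y
    obtain ⟨z, hz⟩ := h.2 ((1 : R ⧸ I) ⊗ₜ[R] p')
    obtain ⟨p, rfl⟩ := hquot P z
    refine ⟨p, ?_⟩
    rw [LinearMap.baseChange_tmul] at hz
    have h0 : (1 : R ⧸ I) ⊗ₜ[R] (p' - φ p) = 0 := by
      rw [TensorProduct.tmul_sub, hz, sub_self]
    have hmem := hker P' _ h0
    simp only [LinearMap.comp_apply, Submodule.mkQ_apply]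
    rw [eq_comm, Submodule.Quotient.eq]
    exact hmem
  refine ⟨?_, hsurj⟩
  obtain ⟨s, hs⟩ := Module.projective_lifting_property φ LinearMap.id hsurj
  let π : P →ₗ[R] P := LinearMap.id - s ∘ₗ φ
  have hπ : LinearMap.range π = LinearMap.ker φ := by
    ext x
    constructor
    · rintro ⟨y, rfl⟩
      simp only [π, LinearMap.mem_ker, LinearMap.sub_apply, LinearMap.id_apply,
        LinearMap.comp_apply, map_sub]
      rw [← LinearMap.comp_apply φ s, hs, LinearMap.id_apply, sub_self]
    · intro hx
      refine ⟨x, ?_⟩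
      simp only [π, LinearMap.sub_apply, LinearMap.id_apply, LinearMap.comp_apply]
      rw [LinearMap.mem_ker.mp hx, map_zero, sub_zero]
  have hKfg : (LinearMap.ker φ).FG := by
    rw [← hπ, LinearMap.range_eq_map]
    exact (Module.Finite.fg_top).map π
  have hK : LinearMap.ker φ ≤ I • LinearMap.ker φ := by
    intro k hk
    have h1 : (1 : R ⧸ I) ⊗ₜ[R] k = 0 := by
      apply h.1
      rw [LinearMap.baseChange_tmul, LinearMap.mem_ker.mp hk, TensorProduct.tmul_zero, map_zero]
    have h2 := hker P k h1
    have h3 : π k = k := by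
      simp only [π, LinearMap.sub_apply, LinearMap.id_apply, LinearMap.comp_apply]
      rw [LinearMap.mem_ker.mp hk, map_zero, sub_zero]
    rw [← h3, ← hπ, LinearMap.range_eq_map, ← Submodule.map_smul'']
    exact Submodule.mem_map_of_mem h2
  have hbot := Submodule.eq_bot_of_le_smul_of_le_jacobson_bot I _ hKfg hK hI
  exact LinearMap.ker_eq_bot.mp hbot

end Groth.Agent.S6864
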