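import Groth.Statements.S6865
import Groth.Agent.S6864

set_option autoImplicit false
universe u
open TensorProduct
open CAlg

namespace Groth.Agent.S6865

/-- Let `I` be an ideal of a commutative ring `R` contained in the Jacobson radical and let `P, P'` be
finite projective `R`-modules. If `P/IP` and `P'/IP'` are isomorphic `R/I`-modules, then `P` and
`P'` are isomorphic. -/
theorem result {R : Type u} [CommRing R] (I : Ideal R)
    (hI : I ≤ Ideal.jacobson (⊥ : Ideal R)) (P P' : Type u)
    [AddCommGroup P] [Module R P] [Module.Finite R P] [Module.Projective R P]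
    [AddCommGroup P'] [Module R P'] [Module.Finite R P'] [Module.Projective R P']
    (e : (R ⧸ I) ⊗[R] P ≃ₗ[R ⧸ I] (R ⧸ I) ⊗[R] P') : Nonempty (P ≃ₗ[R] P') := by
  have hquot : ∀ (M : Type u) [AddCommGroup M] [Module R M] (x : TensorProduct R (R ⧸ I) M),
      ∃ m : M, x = (1 : R ⧸ I) ⊗ₜ[R] m := by
    intro M _ _ x
    induction x using TensorProduct.induction_on with
    | zero => exact ⟨0, by simp⟩
    | tmul r m =>
      obtain ⟨r, rfl⟩ := Ideal.Quotient.mk_surjective r
      refine ⟨r • m, ?_⟩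
      rw [← TensorProduct.smul_tmul, ← Algebra.algebraMap_eq_smul_one]
      rfl
    | add x y hx hy =>
      obtain ⟨m, rfl⟩ := hx
      obtain ⟨m', rfl⟩ := hy
      exact ⟨m + m', by rw [TensorProduct.tmul_add]⟩
  let q : P' →ₗ[R] TensorProduct R (R ⧸ I) P' := TensorProduct.mk R (R ⧸ I) P' 1
  have hq : Function.Surjective q := by
    intro x
    obtain ⟨m, rfl⟩ := hquot P' x
    exact ⟨m, rfl⟩
  let ψ : P →ₗ[R] TensorProduct R (R ⧸ I) P' :=
    (e.toLinearMap.restrictScalars R) ∘ₗ TensorProduct.mk R (R ⧸ I) P 1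
  obtain ⟨φ, hφ⟩ := Module.projective_lifting_property q ψ hq
  have hbc : ∀ x, φ.baseChange (R ⧸ I) x = e x := by
    intro x
    induction x using TensorProduct.induction_on with
    | zero => simp
    | tmul r p =>
      have h1 : (1 : R ⧸ I) ⊗ₜ[R] φ p = e ((1 : R ⧸ I) ⊗ₜ[R] p) := by
        have := LinearMap.congr_fun hφ p
        simpa [q, ψ] using this
      rw [LinearMap.baseChange_tmul]
      have h2 : r ⊗ₜ[R] φ p = r • ((1 : R ⧸ I) ⊗ₜ[R] φ p) := by
        rw [TensorProduct.smul_tmul', smul_eq_mul, mul_one]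
      have h3 : r ⊗ₜ[R] p = r • ((1 : R ⧸ I) ⊗ₜ[R] p) := by
        rw [TensorProduct.smul_tmul', smul_eq_mul, mul_one]
      rw [h2, h3, h1, map_smul]
    | add x y hx hy => rw [map_add, map_add, hx, hy]
  have hbij : Function.Bijective (φ.baseChange (R ⧸ I)) := by
    have : ⇑(φ.baseChange (R ⧸ I)) = ⇑e := funext hbc
    rw [this]
    exact e.bijective
  exact ⟨LinearEquiv.ofBijective φ (Groth.Agent.S6864.result I hI φ hbij)⟩

end Groth.Agent.S6865
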