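import Groth.Statements.S6867
-- import your own Groth.Agent.* helpers here
import Groth.Agent.Lib.Lead.TorsionFree

set_option autoImplicit false
universe u
open CAlg

namespace Groth.Agent.S6867

/-- For a domain `R`, a finite `R`-module `M` is torsion free exactly when it admits an injective
`R`-linear map into `Rⁿ` for some `n`. -/
theorem result (R : Type u) [CommRing R] [IsDomain R] (M : Type u)
    [AddCommGroup M] [Module R M] [Module.Finite R M] :
    Module.IsTorsionFree R M ↔ ∃ (n : ℕ) (f : M →ₗ[R] (Fin n → R)), Function.Injective f := by
  constructor
  · intro h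
    exact Groth.Agent.Lib.Lead.TorsionFree.exists_injective_pi R M
  · rintro ⟨n, f, hf⟩
    exact hf.moduleIsTorsionFree f (fun r m => f.map_smul r m)

end Groth.Agent.S6867
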