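import Groth.Statements.S6869
-- import your own Groth.Agent.* helpers here
import Groth.Agent.Lib.Lead.TorsionFree

set_option autoImplicit false
universe u
open CAlg

namespace Groth.Agent.S6869

/-- For a domain `R` and a finite `R`-module `M`, the evaluation map `M → M**` into the double dual is
injective exactly when `M` is torsion free. -/
theorem result (R : Type u) [CommRing R] [IsDomain R] (M : Type u)
    [AddCommGroup M] [Module R M] [Module.Finite R M] :
    Function.Injective (Module.Dual.eval R M) ↔ Module.IsTorsionFree R M := by
  constructor
  · intro h
    refine ⟨fun r hr => ?_⟩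
    intro x y hxy
    apply h
    ext ℓ
    have h1 : ℓ ((r : R) • x) = ℓ ((r : R) • y) := congrArg ℓ hxy
    rw [map_smul, map_smul, smul_eq_mul, smul_eq_mul] at h1
    simpa using hr.1 h1
  · intro h
    obtain ⟨n, f, hf⟩ := Groth.Agent.Lib.Lead.TorsionFree.exists_injective_pi R M
    rw [injective_iff_map_eq_zero]
    intro m hm
    apply hf
    rw [map_zero]
    funext i
    have := LinearMap.congr_fun hm ((LinearMap.proj i) ∘ₗ f)
    simpa using this

end Groth.Agent.S6869
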