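import Groth.Statements.S6878
import Mathlib.RingTheory.Ideal.AssociatedPrime.Basic
import Mathlib.Algebra.Module.LocalizedModule.Basic

set_option autoImplicit false
universe u
open CAlg

namespace Groth.Agent.S6878

/-- Let `R` be a Noetherian ring and `φ : M → N` a map of `R`-modules. Suppose that for every prime `𝔭`
of `R` either `M_𝔭 → N_𝔭` is injective or `𝔭` is not an associated prime of `M`. Then `φ` is
injective. -/
theorem result (R : Type u) [CommRing R]
    [IsNoetherianRing R] {M N : Type u} [AddCommGroup M] [Module R M] [AddCommGroup N] [Module R N] (φ : M →ₗ[R] N)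
    (h : ∀ (p : Ideal R) [p.IsPrime],
      Function.Injective (LocalizedModule.map p.primeCompl φ) ∨ p ∉ associatedPrimes R M) :
    Function.Injective φ := by
  by_contra hninj
  have hK : LinearMap.ker φ ≠ ⊥ := fun h => hninj (LinearMap.ker_eq_bot.mp h)
  have : Nontrivial (LinearMap.ker φ) := Submodule.nontrivial_iff_ne_bot.mpr hK
  obtain ⟨p, hp⟩ := associatedPrimes.nonempty R (LinearMap.ker φ)
  have hp' : IsAssociatedPrime p M :=
    IsAssociatedPrime.map_of_injective (LinearMap.ker φ).subtype hp (LinearMap.ker φ).injective_subtype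
  obtain ⟨hprime, k, hk⟩ := isAssociatedPrime_iff.mp hp
  rcases @h p hprime with hinj | hnot
  · have h0 : LocalizedModule.map p.primeCompl φ (LocalizedModule.mk (k : M) 1) = 0 := by
      rw [LocalizedModule.map_mk, LinearMap.mem_ker.mp k.2, LocalizedModule.zero_mk]
    have h1 : LocalizedModule.mk (k : M) (1 : p.primeCompl) = 0 := by
      apply hinj; rw [h0, map_zero]
    rw [← LocalizedModule.zero_mk (1 : p.primeCompl), LocalizedModule.mk_eq] at h1
    obtain ⟨s, hs⟩ := h1
    have hsk : (s : R) • k = 0 := by
      apply Subtype.ext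
      simpa [Submonoid.smul_def] using hs
    have key : ∀ r : R, r • k = 0 → r ∈ p := fun r hr => by
      rw [hk, Submodule.mem_colon_singleton, hr]
      exact Submodule.zero_mem _
    exact s.2 (key _ hsk)
  · exact hnot hp'

end Groth.Agent.S6878
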