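import Groth.Statements.S6882
import Mathlib.LinearAlgebra.FreeModule.PID
import Mathlib.Algebra.Module.Torsion.Basic

set_option autoImplicit false
universe u
open CAlg

namespace Groth.Agent.S6882

/-- For a finite module `M` over a discrete valuation ring `R`, the evaluation map from `M` to its
double dual `M**` is surjective. -/
theorem result (R : Type u) [CommRing R] [IsDomain R]
    [IsDiscreteValuationRing R] (M : Type u) [AddCommGroup M] [Module R M] [Module.Finite R M] :
    Function.Surjective (Module.Dual.eval R M) := by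
  classical
  set T := Submodule.torsion R M with hT
  have hvan : ∀ φ : Module.Dual R M, T ≤ LinearMap.ker φ := by
    intro φ t ht
    obtain ⟨⟨r, hr⟩, hrt⟩ := (Submodule.mem_torsion_iff t).mp ht
    have h0 : r * φ t = 0 := by
      rw [← smul_eq_mul, ← φ.map_smul]
      rw [show r • t = 0 from hrt, map_zero]
    rw [LinearMap.mem_ker]
    exact (mul_right_mem_nonZeroDivisors_eq_zero_iff hr).mp (by rw [mul_comm]; exact h0)
  intro ψ
  let ψ' : Module.Dual R (Module.Dual R (M ⧸ T)) := ψ ∘ₗ T.mkQ.dualMap
  obtain ⟨x, hx⟩ := (Module.bijective_dual_eval R (M ⧸ T)).2 ψ'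
  obtain ⟨m, rfl⟩ := Submodule.mkQ_surjective T x
  refine ⟨m, ?_⟩
  ext φ
  have hφ : φ = T.mkQ.dualMap (T.liftQ φ (hvan φ)) := by
    ext y; simp
  rw [Module.Dual.eval_apply]
  calc φ m = (T.liftQ φ (hvan φ)) (T.mkQ m) := by simp
    _ = Module.Dual.eval R _ (T.mkQ m) (T.liftQ φ (hvan φ)) := rfl
    _ = ψ' (T.liftQ φ (hvan φ)) := by rw [hx]
    _ = ψ φ := by
      simp only [ψ', LinearMap.coe_comp, Function.comp_apply]
      rw [← hφ]

end Groth.Agent.S6882
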