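import Groth.Statements.S6933

set_option autoImplicit false
universe u
open CategoryTheory

namespace Groth.Agent.S6933

theorem result (J : Type u) [AddCommGroup J] (hJ : Injective (AddCommGrpCat.of J))
    (n : ℤ) (hn : n ≠ 0) (x : J) : ∃ y : J, n • y = x := by
  let Z := AddCommGrpCat.of (ULift.{u} ℤ)
  let mulN : Z ⟶ Z := AddCommGrpCat.ofHom
    { toFun := fun k => ⟨n * k.down⟩
      map_zero' := by ext; simp
      map_add' := fun a b => by ext; simp [mul_add] }
  have hmono : Mono mulN := by
    apply ConcreteCategory.mono_of_injective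
    intro a b hab
    have : n * a.down = n * b.down := congrArg ULift.down hab
    exact ULift.ext _ _ (mul_left_cancel₀ hn this)
  let g : Z ⟶ AddCommGrpCat.of J := AddCommGrpCat.ofHom
    { toFun := fun k => k.down • x
      map_zero' := by simp
      map_add' := fun a b => by simp [add_smul] }
  obtain ⟨h, hh⟩ := Injective.factors g mulN
  refine ⟨h.hom ⟨1⟩, ?_⟩
  have e1 : (mulN ≫ h).hom ⟨1⟩ = g.hom ⟨1⟩ := by rw [hh]
  have e2 : h.hom ⟨n⟩ = n • h.hom ⟨1⟩ := by
    have : (⟨n⟩ : ULift.{u} ℤ) = n • (⟨1⟩ : ULift.{u} ℤ) := by ext; simp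
    rw [this, map_zsmul]
  simp only [AddCommGrpCat.hom_comp, AddMonoidHom.coe_comp, Function.comp_apply] at e1
  rw [← e2]
  convert e1 using 2
  · simp [mulN]
  · simp [g]

end Groth.Agent.S6933
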