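import Groth.Statements.S7039
-- import your own Groth.Agent.* helpers here

set_option autoImplicit false
universe u
open LocCoh

namespace Groth.Agent.S7039

/-- For a finitely generated ideal I of a commutative ring R and any R-module M, the quotient of M by
its submodule of I-power torsion elements has no nonzero element annihilated by I. -/
theorem result {R : Type u} [CommRing R] (I : Ideal R) (hI : I.FG)
    (M : Type u) [AddCommGroup M] [Module R M] :
    LocCoh.torsionBy I (M ⧸ DRing.torsionSub I M) = ⊥ := by
  classical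
  rw [Submodule.eq_bot_iff]
  intro xb hxb
  obtain ⟨x, rfl⟩ := Submodule.Quotient.mk_surjective _ xb
  rw [Submodule.mem_torsionBySet_iff] at hxb
  obtain ⟨S, hS⟩ := hI
  have hgen : ∀ s ∈ S, ∃ n : ℕ, ∀ b ∈ I ^ n, b • s • x = 0 := by
    intro s hs
    have hsI : s ∈ I := hS ▸ Submodule.subset_span hs
    have := hxb ⟨s, hsI⟩
    rw [← Submodule.Quotient.mk_smul, Submodule.Quotient.mk_eq_zero] at this
    exact this
  choose! nfun hnfun using hgen
  let N := S.sup nfun
  have key : ∀ b ∈ I ^ N, ∀ a ∈ I, b • a • x = 0 := by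
    intro b hb a ha
    rw [← hS] at ha
    induction ha using Submodule.span_induction with
    | mem s hs =>
      exact hnfun s hs b (Ideal.pow_le_pow_right (Finset.le_sup hs) hb)
    | zero => simp
    | add a₁ a₂ _ _ h₁ h₂ => rw [add_smul, smul_add, h₁, h₂, add_zero]
    | smul r a _ h => rw [smul_eq_mul, mul_smul, smul_comm, h, smul_zero]
  rw [Submodule.Quotient.mk_eq_zero]
  refine ⟨N + 1, fun c hc => ?_⟩
  rw [pow_succ] at hc
  refine Submodule.mul_induction_on hc ?_ ?_
  · intro b hb a ha; rw [mul_smul]; exact key b hb a ha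
  · intro c₁ c₂ h₁ h₂; rw [add_smul, h₁, h₂, add_zero]

end Groth.Agent.S7039
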