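import Groth.Statements.S7086
import Mathlib.RingTheory.Ideal.Operations

set_option autoImplicit false
universe u
open LocCoh

namespace Groth.Agent.S7086

theorem result {R : Type u} [CommRing R] {n : ℕ} (f : Fin n → R)
    (N : Type u) [AddCommGroup N] [Module R N] (x : Fin n → N) (hx : ∀ i j : Fin n, f i • x j = f j • x i)
    (a : R) (ha : a ∈ Ideal.span (Set.range f)) :
    ∃ y : N, ∀ j : Fin n, a • x j = f j • y := by
  obtain ⟨c, rfl⟩ := (Ideal.mem_span_range_iff_exists_fun).1 ha
  refine ⟨∑ i, c i • x i, fun j => ?_⟩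
  rw [Finset.sum_smul, Finset.smul_sum]
  refine Finset.sum_congr rfl fun i _ => ?_
  rw [mul_smul, hx i j, smul_comm]

end Groth.Agent.S7086
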