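import Groth.Statements.S7087
import Mathlib.RingTheory.Ideal.Operations

set_option autoImplicit false
universe u
open LocCoh

namespace Groth.Agent.S7087

theorem key {R : Type u} [CommRing R] {n : ℕ} (f : Fin n → R)
    (a : Fin n → R) (ha : ∑ i, a i * f i = 0) (c : Fin n → R) : (∑ i, c i * f i) • a =
      ∑ i, ∑ j, (c i * a j) • (f i • Pi.single j (1 : R) - f j • Pi.single i (1 : R)) := by
  funext k
  simp only [Pi.smul_apply, Finset.sum_apply, Pi.sub_apply, smul_eq_mul, Pi.single_apply]
  have e : ∀ x x_1 : Fin n, c x * a x_1 * ((f x * if k = x_1 then 1 else 0) - f x_1 * if k = x then 1 else 0)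
      = (if k = x_1 then c x * f x * a k else 0) - (if k = x then c k * (a x_1 * f x_1) else 0) := by
    intro x x_1
    split_ifs with h1 h2 h2 <;> subst_vars <;> ring
  simp only [e, Finset.sum_sub_distrib, Finset.sum_ite_eq, Finset.mem_univ, if_true]
  rw [Finset.sum_comm (f := fun x x_1 => if k = x then c k * (a x_1 * f x_1) else 0)]
  simp only [Finset.sum_ite_eq, Finset.mem_univ, if_true]
  rw [← Finset.mul_sum, ha, mul_zero, sub_zero, Finset.sum_mul]

theorem result {R : Type u} [CommRing R] {n : ℕ} (f : Fin n → R)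
    (a : Fin n → R) (ha : ∑ i, a i * f i = 0) (b : R) (hb : b ∈ Ideal.span (Set.range f)) :
    b • a ∈ Submodule.span R {v : Fin n → R | ∃ i j : Fin n, v = f i • Pi.single j (1 : R) - f j • Pi.single i (1 : R)} := by
  obtain ⟨c, rfl⟩ := (Ideal.mem_span_range_iff_exists_fun).1 hb
  rw [key f a ha c]
  refine Submodule.sum_mem _ fun i _ => Submodule.sum_mem _ fun j _ => ?_
  exact Submodule.smul_mem _ _ (Submodule.subset_span ⟨i, j, rfl⟩)

end Groth.Agent.S7087
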