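import Groth.Statements.S7107
-- import your own Groth.Agent.* helpers here
import Groth.Agent.Lib.Lead.Swindle

set_option autoImplicit false
universe u
open CAlg

namespace Groth.Agent.S7107

/-- Let R be a ring and P, Q modules such that P ⊕ Q is isomorphic to a free module F on an infinite
basis. Then P ⊕ F is isomorphic to F. -/
theorem result (R : Type u) [CommRing R] (P Q : Type u) [AddCommGroup P] [Module R P]
    [AddCommGroup Q] [Module R Q] (ι : Type u) [Infinite ι] (e : (P × Q) ≃ₗ[R] (ι →₀ R)) :
    Nonempty ((P × (ι →₀ R)) ≃ₗ[R] (ι →₀ R)) := by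
  exact Groth.Agent.Lib.Lead.Swindle.prod_free_equiv R P Q ι e

end Groth.Agent.S7107
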