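import Groth.Statements.S7108
-- import your own Groth.Agent.* helpers here
import Groth.Agent.Lib.Lead.Swindle

set_option autoImplicit false
universe u
open CAlg

namespace Groth.Agent.S7108

/-- Every projective module P over a ring R becomes free after adding a suitable free module: P ⊕ F is
free for some free module F (here F is the free module on some index type). -/
theorem result (R : Type u) [CommRing R] (P : Type u) [AddCommGroup P]
    [Module R P] [Module.Projective R P] : ∃ ι : Type u, Module.Free R (P × (ι →₀ R)) := by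
  classical
  obtain ⟨s, hs⟩ := Module.projective_def'.mp (inferInstance : Module.Projective R P)
  set π : (P →₀ R) →ₗ[R] P := Finsupp.linearCombination R id with hπ
  have hπs : ∀ p, π (s p) = p := fun p => by
    have := congrArg (fun f => f p) hs
    simpa using this
  let K := LinearMap.ker π
  let fwd : (P →₀ R) →ₗ[R] P × K :=
    π.prod ((LinearMap.id - s ∘ₗ π).codRestrict K (fun m => by
      change π (m - s (π m)) = 0
      rw [map_sub, hπs, sub_self]))
  let bwd : P × K →ₗ[R] (P →₀ R) := s.coprod K.subtype
  let e0 : (P →₀ R) ≃ₗ[R] P × K := LinearEquiv.ofLinearMap fwd bwd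
    (by
      ext p
      · simp [fwd, bwd, hπs]
      · simp [fwd, bwd, hπs]
      · simp [fwd, bwd]
      · simp [fwd, bwd])
    (by
      ext m
      simp [fwd, bwd])
  refine ⟨ULift.{u} ℕ × P, ?_⟩
  let g : ((ULift.{u} ℕ × P) →₀ R) ≃ₗ[R] (ULift.{u} ℕ →₀ (P × K)) :=
    (Finsupp.curryLinearEquiv R).trans (Finsupp.mapRange.linearEquiv e0)
  let h : (P × ((ULift.{u} ℕ × P) →₀ R)) ≃ₗ[R] ((ULift.{u} ℕ × P) →₀ R) :=
    (LinearEquiv.prodCongr (LinearEquiv.refl R P) g).trans
      ((Groth.Agent.Lib.Lead.Swindle.swindle R P K).trans g.symm)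
  exact Module.Free.of_equiv h.symm

end Groth.Agent.S7108
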