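import Groth.Statements.S7129
import Mathlib.RingTheory.Flat.Tensor
import Mathlib.Tactic.LinearCombination
-- import your own Groth.Agent.* helpers here

set_option autoImplicit false
universe u
open EtAlg

namespace Groth.Agent.S7129

theorem exists_idem {ι : Type u} {K : ι → Type u} [∀ i, Field (K i)] (I : Ideal (∀ i, K i))
    (hI : I.FG) : ∃ e ∈ I, ∀ x ∈ I, x * e = x := by
  induction I, hI using Submodule.fg_induction with
  | singleton a =>
    refine ⟨a * a⁻¹, ?_, ?_⟩
    · exact Ideal.mul_mem_right _ _ (Submodule.mem_span_singleton_self a)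
    · intro x hx
      obtain ⟨c, rfl⟩ := Submodule.mem_span_singleton.mp hx
      funext i
      simp only [Pi.mul_apply, Pi.inv_apply, Pi.smul_apply, smul_eq_mul]
      by_cases h : a i = 0
      · simp [h]
      · rw [mul_inv_cancel₀ h, mul_one]
  | sup N₁ N₂ _ _ h₁ h₂ =>
    obtain ⟨e₁, he₁, h₁⟩ := h₁
    obtain ⟨e₂, he₂, h₂⟩ := h₂
    refine ⟨e₁ + e₂ - e₁ * e₂, ?_, ?_⟩
    · exact sub_mem (add_mem (Submodule.mem_sup_left he₁) (Submodule.mem_sup_right he₂))
        (Submodule.mem_sup_left (Ideal.mul_mem_right e₂ N₁ he₁))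
    · intro x hx
      obtain ⟨y, hy, z, hz, rfl⟩ := Submodule.mem_sup.mp hx
      have hy1 := h₁ y hy
      have hz2 := h₂ z hz
      linear_combination (1 - e₂) * hy1 + (1 - e₁) * hz2

/-- Every module over a product of fields ∏ K_i is flat over it (the product is an absolutely flat
ring). -/
theorem result (ι : Type u) (K : ι → Type u) [∀ i, Field (K i)] (M : Type u)
    [AddCommGroup M] [Module (∀ i, K i) M] : Module.Flat (∀ i, K i) M := by
  rw [Module.Flat.iff_rTensor_injective]
  intro I hI
  obtain ⟨e, he, hxe⟩ := exists_idem I hI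
  let π : (∀ i, K i) →ₗ[∀ i, K i] I :=
    LinearMap.codRestrict I (LinearMap.mulRight (∀ i, K i) e) (fun r => I.mul_mem_left r he)
  have hπ : π ∘ₗ I.subtype = LinearMap.id := by
    refine LinearMap.ext fun x => Subtype.ext ?_
    show (x : ∀ i, K i) * e = x
    exact hxe x x.2
  have hl : Function.LeftInverse (π.rTensor M) (I.subtype.rTensor M) := by
    intro t
    rw [← LinearMap.comp_apply, ← LinearMap.rTensor_comp, hπ, LinearMap.rTensor_id,
      LinearMap.id_apply]
  exact hl.injective

end Groth.Agent.S7129
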