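import Groth.Statements.S7316
import Groth.Agent.Lib.Helper11.NumType

set_option autoImplicit false
open Finset
open Models Models.NumericalType

namespace Groth.Agent.S7316

/-- Let T be a numerical type on n > 1 indices and i an index whose contribution m_i (w_i (g_i - 1) -
a_ii / 2) to the genus is negative (stated as m_i (2 w_i (g_i - 1) - a_ii) < 0). Then g_i = 0 and
a_ii = -w_i, i.e. i is a (-1)-index. -/
theorem result {n : ℕ} (T : Models.NumericalType n) (hn : 1 < n) (i : Fin n)
    (h : T.m i * (2 * T.w i * (T.g i - 1) - T.a i i) < 0) : T.IsMinusOne i := by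
  exact Groth.Agent.Lib.Helper11.NumType.isMinusOne_of_contribution_neg T hn i h

end Groth.Agent.S7316
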