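import Groth.Statements.S7341
import Groth.Agent.Lib.Helper11.NumTypeChain

set_option autoImplicit false
open Finset
open Models Models.NumericalType
open Groth.Agent.Lib.Helper11.NumType

namespace Groth.Agent.S7341

/-- Classification of proper subgraphs which are chains of three vertices: let T be a numerical type on
n > 3 indices and i, j, k distinct (-2)-indices with a_ij > 0 and a_jk > 0. Then a_ik = 0 and, up to
reversing the order of i, j, k, one of the following holds for some integer w: (A3) w_i = w_j = w_k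
= w, a_ij = a_jk = w, with 2 m_i ≥ m_j, 2 m_j ≥ m_i + m_k, 2 m_k ≥ m_j; (C3) w_i = w_j = w, w_k =
2w, a_ij = w, a_jk = 2w, with 2 m_i ≥ m_j, 2 m_j ≥ m_i + 2 m_k, 2 m_k ≥ m_j; (B3) w_i = w_j = 2w,
w_k = w, a_ij = a_jk = 2w, with 2 m_i ≥ m_j, 2 m_j ≥ m_i + m_k, m_k ≥ m_j. -/
theorem result {n : ℕ} (T : Models.NumericalType n) (hn : 3 < n) (i j k : Fin n)
    (hij : i ≠ j) (hjk : j ≠ k) (hik : i ≠ k) (hi : T.IsMinusTwo i) (hj : T.IsMinusTwo j) (hk : T.IsMinusTwo k)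
    (h1 : 0 < T.a i j) (h2 : 0 < T.a j k) :
    T.a i k = 0 ∧ ∃ (i' k' : Fin n) (w : ℤ), ((i' = i ∧ k' = k) ∨ (i' = k ∧ k' = i)) ∧
      ((T.w i' = w ∧ T.w j = w ∧ T.w k' = w ∧ T.a i' j = w ∧ T.a j k' = w ∧
          T.m j ≤ 2 * T.m i' ∧ T.m i' + T.m k' ≤ 2 * T.m j ∧ T.m j ≤ 2 * T.m k') ∨
        (T.w i' = w ∧ T.w j = w ∧ T.w k' = 2 * w ∧ T.a i' j = w ∧ T.a j k' = 2 * w ∧
          T.m j ≤ 2 * T.m i' ∧ T.m i' + 2 * T.m k' ≤ 2 * T.m j ∧ T.m j ≤ 2 * T.m k') ∨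
        (T.w i' = 2 * w ∧ T.w j = 2 * w ∧ T.w k' = w ∧ T.a i' j = 2 * w ∧ T.a j k' = 2 * w ∧
          T.m j ≤ 2 * T.m i' ∧ T.m i' + T.m k' ≤ 2 * T.m j ∧ T.m j ≤ T.m k')) := by
  obtain ⟨hz, hc⟩ := chain3_types T hn hij hjk hik hi hj hk h1.ne' h2.ne'
  refine ⟨hz, ?_⟩
  rcases hc with ⟨c1, c2⟩ | ⟨c1, c2⟩ | ⟨c1, c2⟩ | ⟨c1, c2⟩ | ⟨c1, c2⟩
  · -- A3
    have wk : T.w k = T.w i := by rw [c2.2, c1.2]
    have ajk : T.a j k = T.w i := by rw [c2.1, c1.2]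
    exact ⟨i, k, T.w i, Or.inl ⟨rfl, rfl⟩, Or.inl ⟨rfl, c1.2, wk, c1.1, ajk,
      A3_m T hij hjk hik hi hj hk (T.w_pos i) rfl c1.2 wk c1.1 ajk⟩⟩
  · -- j heavy on jk : B3, w = w k
    have wi : T.w i = 2 * T.w k := by rw [← c2.2, c1.2]
    have wj : T.w j = 2 * T.w k := c2.2
    have aij : T.a i j = 2 * T.w k := by rw [c1.1, wi]
    have ajk : T.a j k = 2 * T.w k := by rw [c2.1, wj]
    exact ⟨i, k, T.w k, Or.inl ⟨rfl, rfl⟩, Or.inr (Or.inr ⟨wi, wj, rfl, aij, ajk,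
      B3_m T hij hjk hik hi hj hk (T.w_pos k) wi wj rfl aij ajk⟩)⟩
  · -- k heavy on jk : C3, w = w i
    have wk : T.w k = 2 * T.w i := by rw [c2.2, c1.2]
    have ajk : T.a j k = 2 * T.w i := by rw [c2.1, wk]
    exact ⟨i, k, T.w i, Or.inl ⟨rfl, rfl⟩, Or.inr (Or.inl ⟨rfl, c1.2, wk, c1.1, ajk,
      C3_m T hij hjk hik hi hj hk (T.w_pos i) rfl c1.2 wk c1.1 ajk⟩)⟩
  · -- i heavy on ij : C3 reversed, w = w k
    have wj : T.w j = T.w k := c2.2.symm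
    have wi : T.w i = 2 * T.w k := by rw [c1.2, wj]
    have akj : T.a k j = T.w k := by rw [a_symm T, c2.1, wj]
    have aji : T.a j i = 2 * T.w k := by rw [a_symm T, c1.1, wi]
    exact ⟨k, i, T.w k, Or.inr ⟨rfl, rfl⟩, Or.inr (Or.inl ⟨rfl, wj, wi, akj, aji,
      C3_m T hjk.symm hij.symm hik.symm hk hj hi (T.w_pos k) rfl wj wi akj aji⟩)⟩
  · -- j heavy on ij : B3 reversed, w = w i
    have wj : T.w j = 2 * T.w i := c1.2
    have wk : T.w k = 2 * T.w i := by rw [c2.2, c1.2]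
    have akj : T.a k j = 2 * T.w i := by rw [a_symm T, c2.1, wj]
    have aji : T.a j i = 2 * T.w i := by rw [a_symm T, c1.1, wj]
    exact ⟨k, i, T.w i, Or.inr ⟨rfl, rfl⟩, Or.inr (Or.inr ⟨wk, wj, rfl, akj, aji,
      B3_m T hjk.symm hij.symm hik.symm hk hj hi (T.w_pos i) wk wj rfl akj aji⟩)⟩

end Groth.Agent.S7341
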