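import Groth.Statements.S7342
import Groth.Agent.Lib.Helper11.NumTypeTest

set_option autoImplicit false
open Finset
open Models Models.NumericalType
open Groth.Agent.Lib.Helper11.NumType

namespace Groth.Agent.S7342

/-- Let T be a numerical type on n indices, t ≥ 4 and n > t + 2. Then no t + 2 (-2)-indices of T,
pairwise distinct and numbered i_0, …, i_{t+1}, satisfy: a_{i_j i_{j+1}} > 0 for 1 ≤ j ≤ t - 1,
a_{i_0 i_2} > 0 and a_{i_{t-1} i_{t+1}} > 0. -/
theorem result {n : ℕ} (T : Models.NumericalType n) (t : ℕ) (ht : 4 ≤ t) (hn : t + 2 < n)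
    (v : Fin (t + 2) ↪ Fin n) (hv : ∀ j, T.IsMinusTwo (v j))
    (hchain : ∀ j j' : Fin (t + 2), 1 ≤ j.val → j.val + 1 ≤ t → j'.val = j.val + 1 → 0 < T.a (v j) (v j'))
    (h02 : ∀ j j' : Fin (t + 2), j.val = 0 → j'.val = 2 → 0 < T.a (v j) (v j'))
    (hlast : ∀ j j' : Fin (t + 2), j.val = t - 1 → j'.val = t + 1 → 0 < T.a (v j) (v j')) : False := by
  have s_ : ∀ i j, T.a i j ≠ 0 → T.a j i ≠ 0 := fun i j h => by rwa [a_symm T]
  have E : ∀ (i j : ℕ) (hi : i < t + 2) (hj : j < t + 2),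
      ((j = i + 1 ∧ 1 ≤ i ∧ i + 1 ≤ t) ∨ (i = j + 1 ∧ 1 ≤ j ∧ j + 1 ≤ t) ∨
        (i = 0 ∧ j = 2) ∨ (i = 2 ∧ j = 0) ∨ (i = t - 1 ∧ j = t + 1) ∨
        (i = t + 1 ∧ j = t - 1)) → T.a (v ⟨i, hi⟩) (v ⟨j, hj⟩) ≠ 0 := by
    intro i j hi hj h
    rcases h with ⟨h1, h2, h3⟩ | ⟨h1, h2, h3⟩ | ⟨h1, h2⟩ | ⟨h1, h2⟩ | ⟨h1, h2⟩ | ⟨h1, h2⟩
    · exact (hchain ⟨i, hi⟩ ⟨j, hj⟩ h2 h3 h1).ne'
    · exact s_ _ _ (hchain ⟨j, hj⟩ ⟨i, hi⟩ h2 h3 h1).ne'
    · exact (h02 ⟨i, hi⟩ ⟨j, hj⟩ h1 h2).ne'
    · exact s_ _ _ (h02 ⟨j, hj⟩ ⟨i, hi⟩ h2 h1).ne'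
    · exact (hlast ⟨i, hi⟩ ⟨j, hj⟩ h1 h2).ne'
    · exact s_ _ _ (hlast ⟨j, hj⟩ ⟨i, hi⟩ h2 h1).ne'
  refine no_test_simple T v v.injective hn hv
    (fun p => if 2 ≤ p.val ∧ p.val + 1 ≤ t then (2 : ℚ) else 1) ?_
    ⟨0, by simp⟩ ?_
  · intro p; split_ifs <;> norm_num
  · rintro ⟨p, hp⟩
    by_cases h0 : p = 0
    · refine ⟨[⟨2, by omega⟩], ?_, ?_, ?_, ?_⟩
      · simp
      · simp only [List.mem_cons, List.not_mem_nil, or_false, Fin.ext_iff, Fin.val_mk, Fin.mk.injEq, not_or]; omega
      · simp only [List.mem_cons, List.not_mem_nil, or_false, forall_eq]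
        exact E _ _ _ _ (by omega)
      · simp only [List.map_cons, List.map_nil, List.sum_cons, List.sum_nil, Fin.val_mk]
        split_ifs <;> (try norm_num) <;> (try simp only [not_and, not_le] at *) <;> omega
    by_cases h1 : p = 1
    · refine ⟨[⟨2, by omega⟩], ?_, ?_, ?_, ?_⟩
      · simp
      · simp only [List.mem_cons, List.not_mem_nil, or_false, Fin.ext_iff, Fin.val_mk, Fin.mk.injEq, not_or]; omega
      · simp only [List.mem_cons, List.not_mem_nil, or_false, forall_eq]
        exact E _ _ _ _ (by omega)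
      · simp only [List.map_cons, List.map_nil, List.sum_cons, List.sum_nil, Fin.val_mk]
        split_ifs <;> (try norm_num) <;> (try simp only [not_and, not_le] at *) <;> omega
    by_cases h2 : p = 2
    · refine ⟨[⟨0, by omega⟩, ⟨1, by omega⟩, ⟨3, by omega⟩], ?_, ?_, ?_, ?_⟩
      · simp only [List.nodup_cons, List.mem_cons, List.not_mem_nil, List.nodup_nil, or_false,
          Fin.ext_iff, Fin.val_mk, and_true, not_or, not_false_eq_true]; omega
      · simp only [List.mem_cons, List.not_mem_nil, or_false, Fin.ext_iff, Fin.val_mk, Fin.mk.injEq, not_or]; omega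
      · simp only [List.mem_cons, List.not_mem_nil, or_false, forall_eq_or_imp, forall_eq]
        exact ⟨E _ _ _ _ (by omega), E _ _ _ _ (by omega), E _ _ _ _ (by omega)⟩
      · simp only [List.map_cons, List.map_nil, List.sum_cons, List.sum_nil, Fin.val_mk]
        split_ifs <;> (try norm_num) <;> (try simp only [not_and, not_le] at *) <;> omega
    by_cases ht1 : p = t - 1
    · refine ⟨[⟨t - 2, by omega⟩, ⟨t, by omega⟩, ⟨t + 1, by omega⟩], ?_, ?_, ?_, ?_⟩
      · simp only [List.nodup_cons, List.mem_cons, List.not_mem_nil, List.nodup_nil, or_false,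
          Fin.ext_iff, Fin.val_mk, and_true, not_or, not_false_eq_true]; omega
      · simp only [List.mem_cons, List.not_mem_nil, or_false, Fin.ext_iff, Fin.val_mk, Fin.mk.injEq, not_or]; omega
      · simp only [List.mem_cons, List.not_mem_nil, or_false, forall_eq_or_imp, forall_eq]
        exact ⟨E _ _ _ _ (by omega), E _ _ _ _ (by omega), E _ _ _ _ (by omega)⟩
      · simp only [List.map_cons, List.map_nil, List.sum_cons, List.sum_nil, Fin.val_mk]
        split_ifs <;> (try norm_num) <;> (try simp only [not_and, not_le] at *) <;> omega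
    by_cases ht : p = t
    · refine ⟨[⟨t - 1, by omega⟩], ?_, ?_, ?_, ?_⟩
      · simp
      · simp only [List.mem_cons, List.not_mem_nil, or_false, Fin.ext_iff, Fin.val_mk, Fin.mk.injEq, not_or]; omega
      · simp only [List.mem_cons, List.not_mem_nil, or_false, forall_eq]
        exact E _ _ _ _ (by omega)
      · simp only [List.map_cons, List.map_nil, List.sum_cons, List.sum_nil, Fin.val_mk]
        split_ifs <;> (try norm_num) <;> (try simp only [not_and, not_le] at *) <;> omega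
    by_cases ht2 : p = t + 1
    · refine ⟨[⟨t - 1, by omega⟩], ?_, ?_, ?_, ?_⟩
      · simp
      · simp only [List.mem_cons, List.not_mem_nil, or_false, Fin.ext_iff, Fin.val_mk, Fin.mk.injEq, not_or]; omega
      · simp only [List.mem_cons, List.not_mem_nil, or_false, forall_eq]
        exact E _ _ _ _ (by omega)
      · simp only [List.map_cons, List.map_nil, List.sum_cons, List.sum_nil, Fin.val_mk]
        split_ifs <;> (try norm_num) <;> (try simp only [not_and, not_le] at *) <;> omega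
    · refine ⟨[⟨p - 1, by omega⟩, ⟨p + 1, by omega⟩], ?_, ?_, ?_, ?_⟩
      · simp only [List.nodup_cons, List.mem_cons, List.not_mem_nil, List.nodup_nil, or_false,
          Fin.ext_iff, Fin.val_mk, and_true, not_or, not_false_eq_true]; omega
      · simp only [List.mem_cons, List.not_mem_nil, or_false, Fin.ext_iff, Fin.val_mk, Fin.mk.injEq, not_or]; omega
      · simp only [List.mem_cons, List.not_mem_nil, or_false, forall_eq_or_imp, forall_eq]
        exact ⟨E _ _ _ _ (by omega), E _ _ _ _ (by omega)⟩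
      · simp only [List.map_cons, List.map_nil, List.sum_cons, List.sum_nil, Fin.val_mk]
        split_ifs <;> (try norm_num) <;> (try simp only [not_and, not_le] at *) <;> omega

end Groth.Agent.S7342
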