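import Groth.Statements.S7344
import Groth.Agent.Lib.Helper11.NumTypeTest

set_option autoImplicit false
open Finset
open Models Models.NumericalType
open Groth.Agent.Lib.Helper11.NumType

namespace Groth.Agent.S7344

/-- Let T be a numerical type on n > 8 indices. Then no eight (-2)-indices of T, pairwise distinct and
named e, f, g, h, i, j, k, l, have a_ef, a_fg, a_gh, a_hi, a_ij, a_jk and a_lh all nonzero (a chain
of seven, e to k, with l joined to its fourth vertex h). -/
theorem result {n : ℕ} (T : Models.NumericalType n) (hn : 8 < n)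
    (v : Fin 8 ↪ Fin n) (hv : ∀ j, T.IsMinusTwo (v j))
    (h01 : T.a (v 0) (v 1) ≠ 0) (h12 : T.a (v 1) (v 2) ≠ 0) (h23 : T.a (v 2) (v 3) ≠ 0)
    (h34 : T.a (v 3) (v 4) ≠ 0) (h45 : T.a (v 4) (v 5) ≠ 0) (h56 : T.a (v 5) (v 6) ≠ 0)
    (h73 : T.a (v 7) (v 3) ≠ 0) : False := by
  have s_ : ∀ i j, T.a i j ≠ 0 → T.a j i ≠ 0 := fun i j h => by rwa [a_symm T]
  have e0_1 : T.a (v 0) (v 1) ≠ 0 := h01
  have e1_0 : T.a (v 1) (v 0) ≠ 0 := s_ _ _ e0_1
  have e1_2 : T.a (v 1) (v 2) ≠ 0 := h12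
  have e2_1 : T.a (v 2) (v 1) ≠ 0 := s_ _ _ e1_2
  have e2_3 : T.a (v 2) (v 3) ≠ 0 := h23
  have e3_2 : T.a (v 3) (v 2) ≠ 0 := s_ _ _ e2_3
  have e3_4 : T.a (v 3) (v 4) ≠ 0 := h34
  have e4_3 : T.a (v 4) (v 3) ≠ 0 := s_ _ _ e3_4
  have e4_5 : T.a (v 4) (v 5) ≠ 0 := h45
  have e5_4 : T.a (v 5) (v 4) ≠ 0 := s_ _ _ e4_5
  have e5_6 : T.a (v 5) (v 6) ≠ 0 := h56
  have e6_5 : T.a (v 6) (v 5) ≠ 0 := s_ _ _ e5_6
  have e7_3 : T.a (v 7) (v 3) ≠ 0 := h73
  have e3_7 : T.a (v 3) (v 7) ≠ 0 := s_ _ _ e7_3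
  refine no_test_simple T v v.injective hn hv ![1, 2, 3, 4, 3, 2, 1, 2] ?_ ⟨0, by simp⟩ ?_
  · intro p; fin_cases p <;> simp
  · intro p
    fin_cases p
    · refine ⟨[1], by decide, by decide, ?_, by simp <;> norm_num⟩
      simp
      (repeat' constructor) <;> assumption
    · refine ⟨[0, 2], by decide, by decide, ?_, by simp <;> norm_num⟩
      simp
      (repeat' constructor) <;> assumption
    · refine ⟨[1, 3], by decide, by decide, ?_, by simp <;> norm_num⟩
      simp
      (repeat' constructor) <;> assumption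
    · refine ⟨[2, 4, 7], by decide, by decide, ?_, by simp <;> norm_num⟩
      simp
      (repeat' constructor) <;> assumption
    · refine ⟨[3, 5], by decide, by decide, ?_, by simp <;> norm_num⟩
      simp
      (repeat' constructor) <;> assumption
    · refine ⟨[4, 6], by decide, by decide, ?_, by simp <;> norm_num⟩
      simp
      (repeat' constructor) <;> assumption
    · refine ⟨[5], by decide, by decide, ?_, by simp <;> norm_num⟩
      simp
      (repeat' constructor) <;> assumption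
    · refine ⟨[3], by decide, by decide, ?_, by simp <;> norm_num⟩
      simp
      (repeat' constructor) <;> assumption

end Groth.Agent.S7344
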