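import Groth.Statements.S7345
import Groth.Agent.Lib.Helper11.NumTypeTest

set_option autoImplicit false
open Finset
open Models Models.NumericalType
open Groth.Agent.Lib.Helper11.NumType

namespace Groth.Agent.S7345

/-- Let T be a numerical type on n > 9 indices. Then no nine (-2)-indices of T, pairwise distinct and
named d, e, f, g, h, i, j, k, l, have a_de, a_ef, a_fg, a_gh, a_hi, a_ij, a_jk and a_li all nonzero
(a chain of eight, d to k, with l joined to its sixth vertex i). (The published list of nonzero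
entries ends with a_lh, joining l to the fifth vertex h; that configuration already contains the
completed E7 configuration on eight of the indices and is impossible for that reason alone. The
pictured graph and the argument for it join l to the sixth vertex i, and this row states that case.) -/
theorem result {n : ℕ} (T : Models.NumericalType n) (hn : 9 < n)
    (v : Fin 9 ↪ Fin n) (hv : ∀ j, T.IsMinusTwo (v j))
    (h01 : T.a (v 0) (v 1) ≠ 0) (h12 : T.a (v 1) (v 2) ≠ 0) (h23 : T.a (v 2) (v 3) ≠ 0)
    (h34 : T.a (v 3) (v 4) ≠ 0) (h45 : T.a (v 4) (v 5) ≠ 0) (h56 : T.a (v 5) (v 6) ≠ 0)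
    (h67 : T.a (v 6) (v 7) ≠ 0) (h85 : T.a (v 8) (v 5) ≠ 0) : False := by
  have s_ : ∀ i j, T.a i j ≠ 0 → T.a j i ≠ 0 := fun i j h => by rwa [a_symm T]
  have e0_1 : T.a (v 0) (v 1) ≠ 0 := h01
  have e1_0 : T.a (v 1) (v 0) ≠ 0 := s_ _ _ e0_1
  have e1_2 : T.a (v 1) (v 2) ≠ 0 := h12
  have e2_1 : T.a (v 2) (v 1) ≠ 0 := s_ _ _ e1_2
  have e2_3 : T.a (v 2) (v 3) ≠ 0 := h23
  have e3_2 : T.a (v 3) (v 2) ≠ 0 := s_ _ _ e2_3
  have e3_4 : T.a (v 3) (v 4) ≠ 0 := h34
  have e4_3 : T.a (v 4) (v 3) ≠ 0 := s_ _ _ e3_4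
  have e4_5 : T.a (v 4) (v 5) ≠ 0 := h45
  have e5_4 : T.a (v 5) (v 4) ≠ 0 := s_ _ _ e4_5
  have e5_6 : T.a (v 5) (v 6) ≠ 0 := h56
  have e6_5 : T.a (v 6) (v 5) ≠ 0 := s_ _ _ e5_6
  have e6_7 : T.a (v 6) (v 7) ≠ 0 := h67
  have e7_6 : T.a (v 7) (v 6) ≠ 0 := s_ _ _ e6_7
  have e8_5 : T.a (v 8) (v 5) ≠ 0 := h85
  have e5_8 : T.a (v 5) (v 8) ≠ 0 := s_ _ _ e8_5
  refine no_test_simple T v v.injective hn hv ![1, 2, 3, 4, 5, 6, 4, 2, 3] ?_ ⟨0, by simp⟩ ?_
  · intro p; fin_cases p <;> simp
  · intro p
    fin_cases p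
    · refine ⟨[1], by decide, by decide, ?_, by simp <;> norm_num⟩
      simp
      (repeat' constructor) <;> assumption
    · refine ⟨[0, 2], by decide, by decide, ?_, by simp <;> norm_num⟩
      simp
      (repeat' constructor) <;> assumption
    · refine ⟨[1, 3], by decide, by decide, ?_, by simp <;> norm_num⟩
      simp
      (repeat' constructor) <;> assumption
    · refine ⟨[2, 4], by decide, by decide, ?_, by simp <;> norm_num⟩
      simp
      (repeat' constructor) <;> assumption
    · refine ⟨[3, 5], by decide, by decide, ?_, by simp <;> norm_num⟩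
      simp
      (repeat' constructor) <;> assumption
    · refine ⟨[4, 6, 8], by decide, by decide, ?_, by simp <;> norm_num⟩
      simp
      (repeat' constructor) <;> assumption
    · refine ⟨[5, 7], by decide, by decide, ?_, by simp <;> norm_num⟩
      simp
      (repeat' constructor) <;> assumption
    · refine ⟨[6], by decide, by decide, ?_, by simp <;> norm_num⟩
      simp
      (repeat' constructor) <;> assumption
    · refine ⟨[5], by decide, by decide, ?_, by simp <;> norm_num⟩
      simp
      (repeat' constructor) <;> assumption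

end Groth.Agent.S7345
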