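import Groth.Statements.S7346
import Groth.Agent.Lib.Helper11.NumTypeDArm

set_option autoImplicit false
open Finset
open Models Models.NumericalType
open Groth.Agent.Lib.Helper11.NumType

namespace Groth.Agent.S7346

theorem aux_z1_2 {n : ℕ} (T : Models.NumericalType n) (hn : 4 < n)
    (v : Fin 4 ↪ Fin n) (hv : ∀ j, T.IsMinusTwo (v j)) (h01 : T.a (v 0) (v 1) ≠ 0) (h02 : T.a (v 0) (v 2) ≠ 0) (h03 : T.a (v 0) (v 3) ≠ 0) : T.a (v 1) (v 2) = 0 := by
  have s_ : ∀ i j, T.a i j ≠ 0 → T.a j i ≠ 0 := fun i j h => by rwa [a_symm T]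
  have e0_1 : T.a (v 0) (v 1) ≠ 0 := h01
  have e1_0 : T.a (v 1) (v 0) ≠ 0 := s_ _ _ e0_1
  have r0_1 : 1 ≤ ratio T (v 0) (v 1) := ratio_ge_one T (v.injective.ne (by decide)) e0_1
  have r1_0 : 1 ≤ ratio T (v 1) (v 0) := ratio_ge_one T (v.injective.ne (by decide)) e1_0
  have e0_2 : T.a (v 0) (v 2) ≠ 0 := h02
  have e2_0 : T.a (v 2) (v 0) ≠ 0 := s_ _ _ e0_2
  have r0_2 : 1 ≤ ratio T (v 0) (v 2) := ratio_ge_one T (v.injective.ne (by decide)) e0_2
  have r2_0 : 1 ≤ ratio T (v 2) (v 0) := ratio_ge_one T (v.injective.ne (by decide)) e2_0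
  have e0_3 : T.a (v 0) (v 3) ≠ 0 := h03
  have e3_0 : T.a (v 3) (v 0) ≠ 0 := s_ _ _ e0_3
  have r0_3 : 1 ≤ ratio T (v 0) (v 3) := ratio_ge_one T (v.injective.ne (by decide)) e0_3
  have r3_0 : 1 ≤ ratio T (v 3) (v 0) := ratio_ge_one T (v.injective.ne (by decide)) e3_0
  by_contra hz
  have r1_2 : 1 ≤ ratio T (v 1) (v 2) := ratio_ge_one T (v.injective.ne (by decide)) hz
  have r2_1 : 1 ≤ ratio T (v 2) (v 1) := ratio_ge_one T (v.injective.ne (by decide)) (s_ _ _ hz)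
  refine no_test T (fun i => v (![1, 0, 2] i)) (v.injective.comp (by decide : Function.Injective (![1, 0, 2] : Fin 3 → Fin 4))) (lt_of_le_of_lt (by norm_num) hn) (fun i => hv _) ![1, 1, 1] ?_ ⟨0, by simp⟩ ?_
  · intro p; fin_cases p <;> simp
  · intro p
    fin_cases p
    · refine ⟨[2, 1], by decide, by decide, ?_⟩
      simp
      linarith only [r1_2, r1_0]
    · refine ⟨[0, 2], by decide, by decide, ?_⟩
      simp
      linarith only [r0_1, r0_2]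
    · refine ⟨[1, 0], by decide, by decide, ?_⟩
      simp
      linarith only [r2_0, r2_1]

theorem aux_z1_3 {n : ℕ} (T : Models.NumericalType n) (hn : 4 < n)
    (v : Fin 4 ↪ Fin n) (hv : ∀ j, T.IsMinusTwo (v j)) (h01 : T.a (v 0) (v 1) ≠ 0) (h02 : T.a (v 0) (v 2) ≠ 0) (h03 : T.a (v 0) (v 3) ≠ 0) : T.a (v 1) (v 3) = 0 := by
  have s_ : ∀ i j, T.a i j ≠ 0 → T.a j i ≠ 0 := fun i j h => by rwa [a_symm T]
  have e0_1 : T.a (v 0) (v 1) ≠ 0 := h01
  have e1_0 : T.a (v 1) (v 0) ≠ 0 := s_ _ _ e0_1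
  have r0_1 : 1 ≤ ratio T (v 0) (v 1) := ratio_ge_one T (v.injective.ne (by decide)) e0_1
  have r1_0 : 1 ≤ ratio T (v 1) (v 0) := ratio_ge_one T (v.injective.ne (by decide)) e1_0
  have e0_2 : T.a (v 0) (v 2) ≠ 0 := h02
  have e2_0 : T.a (v 2) (v 0) ≠ 0 := s_ _ _ e0_2
  have r0_2 : 1 ≤ ratio T (v 0) (v 2) := ratio_ge_one T (v.injective.ne (by decide)) e0_2
  have r2_0 : 1 ≤ ratio T (v 2) (v 0) := ratio_ge_one T (v.injective.ne (by decide)) e2_0
  have e0_3 : T.a (v 0) (v 3) ≠ 0 := h03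
  have e3_0 : T.a (v 3) (v 0) ≠ 0 := s_ _ _ e0_3
  have r0_3 : 1 ≤ ratio T (v 0) (v 3) := ratio_ge_one T (v.injective.ne (by decide)) e0_3
  have r3_0 : 1 ≤ ratio T (v 3) (v 0) := ratio_ge_one T (v.injective.ne (by decide)) e3_0
  by_contra hz
  have r1_3 : 1 ≤ ratio T (v 1) (v 3) := ratio_ge_one T (v.injective.ne (by decide)) hz
  have r3_1 : 1 ≤ ratio T (v 3) (v 1) := ratio_ge_one T (v.injective.ne (by decide)) (s_ _ _ hz)
  refine no_test T (fun i => v (![1, 0, 3] i)) (v.injective.comp (by decide : Function.Injective (![1, 0, 3] : Fin 3 → Fin 4))) (lt_of_le_of_lt (by norm_num) hn) (fun i => hv _) ![1, 1, 1] ?_ ⟨0, by simp⟩ ?_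
  · intro p; fin_cases p <;> simp
  · intro p
    fin_cases p
    · refine ⟨[2, 1], by decide, by decide, ?_⟩
      simp
      linarith only [r1_3, r1_0]
    · refine ⟨[0, 2], by decide, by decide, ?_⟩
      simp
      linarith only [r0_1, r0_3]
    · refine ⟨[1, 0], by decide, by decide, ?_⟩
      simp
      linarith only [r3_0, r3_1]

theorem aux_z2_3 {n : ℕ} (T : Models.NumericalType n) (hn : 4 < n)
    (v : Fin 4 ↪ Fin n) (hv : ∀ j, T.IsMinusTwo (v j)) (h01 : T.a (v 0) (v 1) ≠ 0) (h02 : T.a (v 0) (v 2) ≠ 0) (h03 : T.a (v 0) (v 3) ≠ 0) : T.a (v 2) (v 3) = 0 := by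
  have s_ : ∀ i j, T.a i j ≠ 0 → T.a j i ≠ 0 := fun i j h => by rwa [a_symm T]
  have e0_1 : T.a (v 0) (v 1) ≠ 0 := h01
  have e1_0 : T.a (v 1) (v 0) ≠ 0 := s_ _ _ e0_1
  have r0_1 : 1 ≤ ratio T (v 0) (v 1) := ratio_ge_one T (v.injective.ne (by decide)) e0_1
  have r1_0 : 1 ≤ ratio T (v 1) (v 0) := ratio_ge_one T (v.injective.ne (by decide)) e1_0
  have e0_2 : T.a (v 0) (v 2) ≠ 0 := h02
  have e2_0 : T.a (v 2) (v 0) ≠ 0 := s_ _ _ e0_2
  have r0_2 : 1 ≤ ratio T (v 0) (v 2) := ratio_ge_one T (v.injective.ne (by decide)) e0_2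
  have r2_0 : 1 ≤ ratio T (v 2) (v 0) := ratio_ge_one T (v.injective.ne (by decide)) e2_0
  have e0_3 : T.a (v 0) (v 3) ≠ 0 := h03
  have e3_0 : T.a (v 3) (v 0) ≠ 0 := s_ _ _ e0_3
  have r0_3 : 1 ≤ ratio T (v 0) (v 3) := ratio_ge_one T (v.injective.ne (by decide)) e0_3
  have r3_0 : 1 ≤ ratio T (v 3) (v 0) := ratio_ge_one T (v.injective.ne (by decide)) e3_0
  by_contra hz
  have r2_3 : 1 ≤ ratio T (v 2) (v 3) := ratio_ge_one T (v.injective.ne (by decide)) hz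
  have r3_2 : 1 ≤ ratio T (v 3) (v 2) := ratio_ge_one T (v.injective.ne (by decide)) (s_ _ _ hz)
  refine no_test T (fun i => v (![2, 0, 3] i)) (v.injective.comp (by decide : Function.Injective (![2, 0, 3] : Fin 3 → Fin 4))) (lt_of_le_of_lt (by norm_num) hn) (fun i => hv _) ![1, 1, 1] ?_ ⟨0, by simp⟩ ?_
  · intro p; fin_cases p <;> simp
  · intro p
    fin_cases p
    · refine ⟨[2, 1], by decide, by decide, ?_⟩
      simp
      linarith only [r2_3, r2_0]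
    · refine ⟨[0, 2], by decide, by decide, ?_⟩
      simp
      linarith only [r0_2, r0_3]
    · refine ⟨[1, 0], by decide, by decide, ?_⟩
      simp
      linarith only [r3_0, r3_2]

theorem aux_sA1_0 {n : ℕ} (T : Models.NumericalType n) (hn : 4 < n)
    (v : Fin 4 ↪ Fin n) (hv : ∀ j, T.IsMinusTwo (v j)) (h01 : T.a (v 0) (v 1) ≠ 0) (h02 : T.a (v 0) (v 2) ≠ 0) (h03 : T.a (v 0) (v 3) ≠ 0) : ratio T (v 1) (v 0) < 2 := by
  have s_ : ∀ i j, T.a i j ≠ 0 → T.a j i ≠ 0 := fun i j h => by rwa [a_symm T]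
  have e0_1 : T.a (v 0) (v 1) ≠ 0 := h01
  have e1_0 : T.a (v 1) (v 0) ≠ 0 := s_ _ _ e0_1
  have r0_1 : 1 ≤ ratio T (v 0) (v 1) := ratio_ge_one T (v.injective.ne (by decide)) e0_1
  have r1_0 : 1 ≤ ratio T (v 1) (v 0) := ratio_ge_one T (v.injective.ne (by decide)) e1_0
  have e0_2 : T.a (v 0) (v 2) ≠ 0 := h02
  have e2_0 : T.a (v 2) (v 0) ≠ 0 := s_ _ _ e0_2
  have r0_2 : 1 ≤ ratio T (v 0) (v 2) := ratio_ge_one T (v.injective.ne (by decide)) e0_2
  have r2_0 : 1 ≤ ratio T (v 2) (v 0) := ratio_ge_one T (v.injective.ne (by decide)) e2_0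
  have e0_3 : T.a (v 0) (v 3) ≠ 0 := h03
  have e3_0 : T.a (v 3) (v 0) ≠ 0 := s_ _ _ e0_3
  have r0_3 : 1 ≤ ratio T (v 0) (v 3) := ratio_ge_one T (v.injective.ne (by decide)) e0_3
  have r3_0 : 1 ≤ ratio T (v 3) (v 0) := ratio_ge_one T (v.injective.ne (by decide)) e3_0
  by_contra hA; push Not at hA
  refine no_test T (fun i => v (![1, 0, 2, 3] i)) (v.injective.comp (by decide : Function.Injective (![1, 0, 2, 3] : Fin 4 → Fin 4))) (lt_of_le_of_lt (by norm_num) hn) (fun i => hv _) ![2, 2, 1, 1] ?_ ⟨0, by simp⟩ ?_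
  · intro p; fin_cases p <;> simp
  · intro p
    fin_cases p
    · refine ⟨[1], by decide, by decide, ?_⟩
      simp
      linarith only [r1_0, hA]
    · refine ⟨[0, 2, 3], by decide, by decide, ?_⟩
      simp
      linarith only [r0_1, r0_2, r0_3]
    · refine ⟨[1], by decide, by decide, ?_⟩
      simp
      linarith only [r2_0]
    · refine ⟨[1], by decide, by decide, ?_⟩
      simp
      linarith only [r3_0]

theorem aux_sB1_0 {n : ℕ} (T : Models.NumericalType n) (hn : 4 < n)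
    (v : Fin 4 ↪ Fin n) (hv : ∀ j, T.IsMinusTwo (v j)) (h01 : T.a (v 0) (v 1) ≠ 0) (h02 : T.a (v 0) (v 2) ≠ 0) (h03 : T.a (v 0) (v 3) ≠ 0) : ratio T (v 0) (v 1) < 2 := by
  have s_ : ∀ i j, T.a i j ≠ 0 → T.a j i ≠ 0 := fun i j h => by rwa [a_symm T]
  have e0_1 : T.a (v 0) (v 1) ≠ 0 := h01
  have e1_0 : T.a (v 1) (v 0) ≠ 0 := s_ _ _ e0_1
  have r0_1 : 1 ≤ ratio T (v 0) (v 1) := ratio_ge_one T (v.injective.ne (by decide)) e0_1
  have r1_0 : 1 ≤ ratio T (v 1) (v 0) := ratio_ge_one T (v.injective.ne (by decide)) e1_0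
  have e0_2 : T.a (v 0) (v 2) ≠ 0 := h02
  have e2_0 : T.a (v 2) (v 0) ≠ 0 := s_ _ _ e0_2
  have r0_2 : 1 ≤ ratio T (v 0) (v 2) := ratio_ge_one T (v.injective.ne (by decide)) e0_2
  have r2_0 : 1 ≤ ratio T (v 2) (v 0) := ratio_ge_one T (v.injective.ne (by decide)) e2_0
  have e0_3 : T.a (v 0) (v 3) ≠ 0 := h03
  have e3_0 : T.a (v 3) (v 0) ≠ 0 := s_ _ _ e0_3
  have r0_3 : 1 ≤ ratio T (v 0) (v 3) := ratio_ge_one T (v.injective.ne (by decide)) e0_3
  have r3_0 : 1 ≤ ratio T (v 3) (v 0) := ratio_ge_one T (v.injective.ne (by decide)) e3_0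
  by_contra hB; push Not at hB
  refine no_test T (fun i => v (![1, 0, 2, 3] i)) (v.injective.comp (by decide : Function.Injective (![1, 0, 2, 3] : Fin 4 → Fin 4))) (lt_of_le_of_lt (by norm_num) hn) (fun i => hv _) ![1, 2, 1, 1] ?_ ⟨0, by simp⟩ ?_
  · intro p; fin_cases p <;> simp
  · intro p
    fin_cases p
    · refine ⟨[1], by decide, by decide, ?_⟩
      simp
      linarith only [r1_0]
    · refine ⟨[0, 2, 3], by decide, by decide, ?_⟩
      simp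
      linarith only [r0_1, r0_2, r0_3, hB]
    · refine ⟨[1], by decide, by decide, ?_⟩
      simp
      linarith only [r2_0]
    · refine ⟨[1], by decide, by decide, ?_⟩
      simp
      linarith only [r3_0]

theorem aux_sA2_0 {n : ℕ} (T : Models.NumericalType n) (hn : 4 < n)
    (v : Fin 4 ↪ Fin n) (hv : ∀ j, T.IsMinusTwo (v j)) (h01 : T.a (v 0) (v 1) ≠ 0) (h02 : T.a (v 0) (v 2) ≠ 0) (h03 : T.a (v 0) (v 3) ≠ 0) : ratio T (v 2) (v 0) < 2 := by
  have s_ : ∀ i j, T.a i j ≠ 0 → T.a j i ≠ 0 := fun i j h => by rwa [a_symm T]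
  have e0_1 : T.a (v 0) (v 1) ≠ 0 := h01
  have e1_0 : T.a (v 1) (v 0) ≠ 0 := s_ _ _ e0_1
  have r0_1 : 1 ≤ ratio T (v 0) (v 1) := ratio_ge_one T (v.injective.ne (by decide)) e0_1
  have r1_0 : 1 ≤ ratio T (v 1) (v 0) := ratio_ge_one T (v.injective.ne (by decide)) e1_0
  have e0_2 : T.a (v 0) (v 2) ≠ 0 := h02
  have e2_0 : T.a (v 2) (v 0) ≠ 0 := s_ _ _ e0_2
  have r0_2 : 1 ≤ ratio T (v 0) (v 2) := ratio_ge_one T (v.injective.ne (by decide)) e0_2
  have r2_0 : 1 ≤ ratio T (v 2) (v 0) := ratio_ge_one T (v.injective.ne (by decide)) e2_0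
  have e0_3 : T.a (v 0) (v 3) ≠ 0 := h03
  have e3_0 : T.a (v 3) (v 0) ≠ 0 := s_ _ _ e0_3
  have r0_3 : 1 ≤ ratio T (v 0) (v 3) := ratio_ge_one T (v.injective.ne (by decide)) e0_3
  have r3_0 : 1 ≤ ratio T (v 3) (v 0) := ratio_ge_one T (v.injective.ne (by decide)) e3_0
  by_contra hA; push Not at hA
  refine no_test T (fun i => v (![2, 0, 1, 3] i)) (v.injective.comp (by decide : Function.Injective (![2, 0, 1, 3] : Fin 4 → Fin 4))) (lt_of_le_of_lt (by norm_num) hn) (fun i => hv _) ![2, 2, 1, 1] ?_ ⟨0, by simp⟩ ?_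
  · intro p; fin_cases p <;> simp
  · intro p
    fin_cases p
    · refine ⟨[1], by decide, by decide, ?_⟩
      simp
      linarith only [r2_0, hA]
    · refine ⟨[0, 2, 3], by decide, by decide, ?_⟩
      simp
      linarith only [r0_2, r0_1, r0_3]
    · refine ⟨[1], by decide, by decide, ?_⟩
      simp
      linarith only [r1_0]
    · refine ⟨[1], by decide, by decide, ?_⟩
      simp
      linarith only [r3_0]

theorem aux_sB2_0 {n : ℕ} (T : Models.NumericalType n) (hn : 4 < n)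
    (v : Fin 4 ↪ Fin n) (hv : ∀ j, T.IsMinusTwo (v j)) (h01 : T.a (v 0) (v 1) ≠ 0) (h02 : T.a (v 0) (v 2) ≠ 0) (h03 : T.a (v 0) (v 3) ≠ 0) : ratio T (v 0) (v 2) < 2 := by
  have s_ : ∀ i j, T.a i j ≠ 0 → T.a j i ≠ 0 := fun i j h => by rwa [a_symm T]
  have e0_1 : T.a (v 0) (v 1) ≠ 0 := h01
  have e1_0 : T.a (v 1) (v 0) ≠ 0 := s_ _ _ e0_1
  have r0_1 : 1 ≤ ratio T (v 0) (v 1) := ratio_ge_one T (v.injective.ne (by decide)) e0_1
  have r1_0 : 1 ≤ ratio T (v 1) (v 0) := ratio_ge_one T (v.injective.ne (by decide)) e1_0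
  have e0_2 : T.a (v 0) (v 2) ≠ 0 := h02
  have e2_0 : T.a (v 2) (v 0) ≠ 0 := s_ _ _ e0_2
  have r0_2 : 1 ≤ ratio T (v 0) (v 2) := ratio_ge_one T (v.injective.ne (by decide)) e0_2
  have r2_0 : 1 ≤ ratio T (v 2) (v 0) := ratio_ge_one T (v.injective.ne (by decide)) e2_0
  have e0_3 : T.a (v 0) (v 3) ≠ 0 := h03
  have e3_0 : T.a (v 3) (v 0) ≠ 0 := s_ _ _ e0_3
  have r0_3 : 1 ≤ ratio T (v 0) (v 3) := ratio_ge_one T (v.injective.ne (by decide)) e0_3
  have r3_0 : 1 ≤ ratio T (v 3) (v 0) := ratio_ge_one T (v.injective.ne (by decide)) e3_0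
  by_contra hB; push Not at hB
  refine no_test T (fun i => v (![2, 0, 1, 3] i)) (v.injective.comp (by decide : Function.Injective (![2, 0, 1, 3] : Fin 4 → Fin 4))) (lt_of_le_of_lt (by norm_num) hn) (fun i => hv _) ![1, 2, 1, 1] ?_ ⟨0, by simp⟩ ?_
  · intro p; fin_cases p <;> simp
  · intro p
    fin_cases p
    · refine ⟨[1], by decide, by decide, ?_⟩
      simp
      linarith only [r2_0]
    · refine ⟨[0, 2, 3], by decide, by decide, ?_⟩
      simp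
      linarith only [r0_2, r0_1, r0_3, hB]
    · refine ⟨[1], by decide, by decide, ?_⟩
      simp
      linarith only [r1_0]
    · refine ⟨[1], by decide, by decide, ?_⟩
      simp
      linarith only [r3_0]

theorem aux_sA3_0 {n : ℕ} (T : Models.NumericalType n) (hn : 4 < n)
    (v : Fin 4 ↪ Fin n) (hv : ∀ j, T.IsMinusTwo (v j)) (h01 : T.a (v 0) (v 1) ≠ 0) (h02 : T.a (v 0) (v 2) ≠ 0) (h03 : T.a (v 0) (v 3) ≠ 0) : ratio T (v 3) (v 0) < 2 := by
  have s_ : ∀ i j, T.a i j ≠ 0 → T.a j i ≠ 0 := fun i j h => by rwa [a_symm T]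
  have e0_1 : T.a (v 0) (v 1) ≠ 0 := h01
  have e1_0 : T.a (v 1) (v 0) ≠ 0 := s_ _ _ e0_1
  have r0_1 : 1 ≤ ratio T (v 0) (v 1) := ratio_ge_one T (v.injective.ne (by decide)) e0_1
  have r1_0 : 1 ≤ ratio T (v 1) (v 0) := ratio_ge_one T (v.injective.ne (by decide)) e1_0
  have e0_2 : T.a (v 0) (v 2) ≠ 0 := h02
  have e2_0 : T.a (v 2) (v 0) ≠ 0 := s_ _ _ e0_2
  have r0_2 : 1 ≤ ratio T (v 0) (v 2) := ratio_ge_one T (v.injective.ne (by decide)) e0_2
  have r2_0 : 1 ≤ ratio T (v 2) (v 0) := ratio_ge_one T (v.injective.ne (by decide)) e2_0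
  have e0_3 : T.a (v 0) (v 3) ≠ 0 := h03
  have e3_0 : T.a (v 3) (v 0) ≠ 0 := s_ _ _ e0_3
  have r0_3 : 1 ≤ ratio T (v 0) (v 3) := ratio_ge_one T (v.injective.ne (by decide)) e0_3
  have r3_0 : 1 ≤ ratio T (v 3) (v 0) := ratio_ge_one T (v.injective.ne (by decide)) e3_0
  by_contra hA; push Not at hA
  refine no_test T (fun i => v (![3, 0, 1, 2] i)) (v.injective.comp (by decide : Function.Injective (![3, 0, 1, 2] : Fin 4 → Fin 4))) (lt_of_le_of_lt (by norm_num) hn) (fun i => hv _) ![2, 2, 1, 1] ?_ ⟨0, by simp⟩ ?_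
  · intro p; fin_cases p <;> simp
  · intro p
    fin_cases p
    · refine ⟨[1], by decide, by decide, ?_⟩
      simp
      linarith only [r3_0, hA]
    · refine ⟨[0, 2, 3], by decide, by decide, ?_⟩
      simp
      linarith only [r0_3, r0_1, r0_2]
    · refine ⟨[1], by decide, by decide, ?_⟩
      simp
      linarith only [r1_0]
    · refine ⟨[1], by decide, by decide, ?_⟩
      simp
      linarith only [r2_0]

theorem aux_sB3_0 {n : ℕ} (T : Models.NumericalType n) (hn : 4 < n)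
    (v : Fin 4 ↪ Fin n) (hv : ∀ j, T.IsMinusTwo (v j)) (h01 : T.a (v 0) (v 1) ≠ 0) (h02 : T.a (v 0) (v 2) ≠ 0) (h03 : T.a (v 0) (v 3) ≠ 0) : ratio T (v 0) (v 3) < 2 := by
  have s_ : ∀ i j, T.a i j ≠ 0 → T.a j i ≠ 0 := fun i j h => by rwa [a_symm T]
  have e0_1 : T.a (v 0) (v 1) ≠ 0 := h01
  have e1_0 : T.a (v 1) (v 0) ≠ 0 := s_ _ _ e0_1
  have r0_1 : 1 ≤ ratio T (v 0) (v 1) := ratio_ge_one T (v.injective.ne (by decide)) e0_1
  have r1_0 : 1 ≤ ratio T (v 1) (v 0) := ratio_ge_one T (v.injective.ne (by decide)) e1_0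
  have e0_2 : T.a (v 0) (v 2) ≠ 0 := h02
  have e2_0 : T.a (v 2) (v 0) ≠ 0 := s_ _ _ e0_2
  have r0_2 : 1 ≤ ratio T (v 0) (v 2) := ratio_ge_one T (v.injective.ne (by decide)) e0_2
  have r2_0 : 1 ≤ ratio T (v 2) (v 0) := ratio_ge_one T (v.injective.ne (by decide)) e2_0
  have e0_3 : T.a (v 0) (v 3) ≠ 0 := h03
  have e3_0 : T.a (v 3) (v 0) ≠ 0 := s_ _ _ e0_3
  have r0_3 : 1 ≤ ratio T (v 0) (v 3) := ratio_ge_one T (v.injective.ne (by decide)) e0_3
  have r3_0 : 1 ≤ ratio T (v 3) (v 0) := ratio_ge_one T (v.injective.ne (by decide)) e3_0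
  by_contra hB; push Not at hB
  refine no_test T (fun i => v (![3, 0, 1, 2] i)) (v.injective.comp (by decide : Function.Injective (![3, 0, 1, 2] : Fin 4 → Fin 4))) (lt_of_le_of_lt (by norm_num) hn) (fun i => hv _) ![1, 2, 1, 1] ?_ ⟨0, by simp⟩ ?_
  · intro p; fin_cases p <;> simp
  · intro p
    fin_cases p
    · refine ⟨[1], by decide, by decide, ?_⟩
      simp
      linarith only [r3_0]
    · refine ⟨[0, 2, 3], by decide, by decide, ?_⟩
      simp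
      linarith only [r0_3, r0_1, r0_2, hB]
    · refine ⟨[1], by decide, by decide, ?_⟩
      simp
      linarith only [r1_0]
    · refine ⟨[1], by decide, by decide, ?_⟩
      simp
      linarith only [r2_0]

set_option maxHeartbeats 1000000 in
/-- Classification of proper subgraphs of type D4 (one vertex joined to three others): let T be a
numerical type on n > 4 indices and i_1, …, i_4 distinct (-2)-indices with a_{12}, a_{13}, a_{14}
nonzero. Then for some integer w all w_{i_j} equal w, these intersection numbers equal w, all other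
a_{i_j i_k} (j ≠ k) vanish, and 2 m_1 ≥ m_2 + m_3 + m_4, 2 m_2 ≥ m_1, 2 m_3 ≥ m_1, 2 m_4 ≥ m_1. -/
theorem result {n : ℕ} (T : Models.NumericalType n) (hn : 4 < n)
    (v : Fin 4 ↪ Fin n) (hv : ∀ j, T.IsMinusTwo (v j)) (h01 : T.a (v 0) (v 1) ≠ 0) (h02 : T.a (v 0) (v 2) ≠ 0) (h03 : T.a (v 0) (v 3) ≠ 0) :
    ∃ w : ℤ, (∀ j : Fin 4, T.w (v j) = w) ∧
      T.a (v 0) (v 1) = w ∧
      T.a (v 0) (v 2) = w ∧
      T.a (v 0) (v 3) = w ∧
      T.a (v 1) (v 2) = 0 ∧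
      T.a (v 1) (v 3) = 0 ∧
      T.a (v 2) (v 3) = 0 ∧
      T.m (v 1) + T.m (v 2) + T.m (v 3) ≤ 2 * T.m (v 0) ∧
      T.m (v 0) ≤ 2 * T.m (v 1) ∧
      T.m (v 0) ≤ 2 * T.m (v 2) ∧
      T.m (v 0) ≤ 2 * T.m (v 3) := by
  have s_ : ∀ i j, T.a i j ≠ 0 → T.a j i ≠ 0 := fun i j h => by rwa [a_symm T]
  have e0_1 : T.a (v 0) (v 1) ≠ 0 := h01
  have e1_0 : T.a (v 1) (v 0) ≠ 0 := s_ _ _ e0_1
  have e0_2 : T.a (v 0) (v 2) ≠ 0 := h02
  have e2_0 : T.a (v 2) (v 0) ≠ 0 := s_ _ _ e0_2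
  have e0_3 : T.a (v 0) (v 3) ≠ 0 := h03
  have e3_0 : T.a (v 3) (v 0) ≠ 0 := s_ _ _ e0_3
  have z1_2 : T.a (v 1) (v 2) = 0 := aux_z1_2 T hn v hv h01 h02 h03
  have z2_1 : T.a (v 2) (v 1) = 0 := by rw [a_symm T]; exact z1_2
  have z1_3 : T.a (v 1) (v 3) = 0 := aux_z1_3 T hn v hv h01 h02 h03
  have z3_1 : T.a (v 3) (v 1) = 0 := by rw [a_symm T]; exact z1_3
  have z2_3 : T.a (v 2) (v 3) = 0 := aux_z2_3 T hn v hv h01 h02 h03
  have z3_2 : T.a (v 3) (v 2) = 0 := by rw [a_symm T]; exact z2_3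
  obtain ⟨a1_0, w1_0⟩ := simple_of_ratio_lt T (lt_of_le_of_lt (by norm_num) hn) (v.injective.ne (by decide)) (hv 1) (hv 0) e1_0 (aux_sA1_0 T hn v hv h01 h02 h03) (aux_sB1_0 T hn v hv h01 h02 h03)
  obtain ⟨a2_0, w2_0⟩ := simple_of_ratio_lt T (lt_of_le_of_lt (by norm_num) hn) (v.injective.ne (by decide)) (hv 2) (hv 0) e2_0 (aux_sA2_0 T hn v hv h01 h02 h03) (aux_sB2_0 T hn v hv h01 h02 h03)
  obtain ⟨a3_0, w3_0⟩ := simple_of_ratio_lt T (lt_of_le_of_lt (by norm_num) hn) (v.injective.ne (by decide)) (hv 3) (hv 0) e3_0 (aux_sA3_0 T hn v hv h01 h02 h03) (aux_sB3_0 T hn v hv h01 h02 h03)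
  have hW := T.w_pos (v 0)
  have W0 : T.w (v 0) = T.w (v 0) := rfl
  have W1 : T.w (v 1) = T.w (v 0) := by rw [← W0]; exact (w1_0).symm
  have W2 : T.w (v 2) = T.w (v 0) := by rw [← W0]; exact (w2_0).symm
  have W3 : T.w (v 3) = T.w (v 0) := by rw [← W0]; exact (w3_0).symm
  have A1_0 : T.a (v 1) (v 0) = T.w (v 0) := by rw [a1_0, W1]
  have A0_1 : T.a (v 0) (v 1) = T.w (v 0) := by rw [a_symm T, A1_0]
  have A2_0 : T.a (v 2) (v 0) = T.w (v 0) := by rw [a2_0, W2]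
  have A0_2 : T.a (v 0) (v 2) = T.w (v 0) := by rw [a_symm T, A2_0]
  have A3_0 : T.a (v 3) (v 0) = T.w (v 0) := by rw [a3_0, W3]
  have A0_3 : T.a (v 0) (v 3) = T.w (v 0) := by rw [a_symm T, A3_0]
  have D0 : T.a (v 0) (v 0) = -2 * T.w (v 0) := by rw [(hv 0).2, W0]
  have D1 : T.a (v 1) (v 1) = -2 * T.w (v 0) := by rw [(hv 1).2, W1]
  have D2 : T.a (v 2) (v 2) = -2 * T.w (v 0) := by rw [(hv 2).2, W2]
  have D3 : T.a (v 3) (v 3) = -2 * T.w (v 0) := by rw [(hv 3).2, W3]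
  refine ⟨T.w (v 0), ?_, ?_, ?_, ?_, ?_, ?_, ?_, ?_, ?_, ?_, ?_⟩
  · intro j; fin_cases j <;> simp [W1, W2, W3]
  · exact A0_1
  · exact A0_2
  · exact A0_3
  · exact z1_2
  · exact z1_3
  · exact z2_3
  · have h := row_ineq T (v 0) ([1, 2, 3].map v) ((by decide : ([0, 1, 2, 3] : List (Fin 4)).Nodup).map v.injective) (T.w (v 0)) hW 2 (by rw [D0]; ring) (fun _ => 1) (by simp; exact ⟨A0_1, A0_2, A0_3⟩)
    simp at h; linarith
  · have h := row_ineq T (v 1) ([0].map v) ((by decide : ([1, 0] : List (Fin 4)).Nodup).map v.injective) (T.w (v 0)) hW 2 (by rw [D1]; ring) (fun _ => 1) (by simp; exact A1_0)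
    simp at h; linarith
  · have h := row_ineq T (v 2) ([0].map v) ((by decide : ([2, 0] : List (Fin 4)).Nodup).map v.injective) (T.w (v 0)) hW 2 (by rw [D2]; ring) (fun _ => 1) (by simp; exact A2_0)
    simp at h; linarith
  · have h := row_ineq T (v 3) ([0].map v) ((by decide : ([3, 0] : List (Fin 4)).Nodup).map v.injective) (T.w (v 0)) hW 2 (by rw [D3]; ring) (fun _ => 1) (by simp; exact A3_0)
    simp at h; linarith

end Groth.Agent.S7346
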