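import Groth.Statements.S7347
import Groth.Agent.Lib.Helper11.NumTypeDArm

set_option autoImplicit false
open Finset
open Models Models.NumericalType
open Groth.Agent.Lib.Helper11.NumType

namespace Groth.Agent.S7347

theorem aux_z0_2 {n : ℕ} (T : Models.NumericalType n) (hn : 5 < n)
    (v : Fin 5 ↪ Fin n) (hv : ∀ j, T.IsMinusTwo (v j)) (h01 : T.a (v 0) (v 1) ≠ 0) (h12 : T.a (v 1) (v 2) ≠ 0) (h23 : T.a (v 2) (v 3) ≠ 0) (h24 : T.a (v 2) (v 4) ≠ 0) : T.a (v 0) (v 2) = 0 := by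
  have s_ : ∀ i j, T.a i j ≠ 0 → T.a j i ≠ 0 := fun i j h => by rwa [a_symm T]
  have e0_1 : T.a (v 0) (v 1) ≠ 0 := h01
  have e1_0 : T.a (v 1) (v 0) ≠ 0 := s_ _ _ e0_1
  have r0_1 : 1 ≤ ratio T (v 0) (v 1) := ratio_ge_one T (v.injective.ne (by decide)) e0_1
  have r1_0 : 1 ≤ ratio T (v 1) (v 0) := ratio_ge_one T (v.injective.ne (by decide)) e1_0
  have e1_2 : T.a (v 1) (v 2) ≠ 0 := h12
  have e2_1 : T.a (v 2) (v 1) ≠ 0 := s_ _ _ e1_2
  have r1_2 : 1 ≤ ratio T (v 1) (v 2) := ratio_ge_one T (v.injective.ne (by decide)) e1_2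
  have r2_1 : 1 ≤ ratio T (v 2) (v 1) := ratio_ge_one T (v.injective.ne (by decide)) e2_1
  have e2_3 : T.a (v 2) (v 3) ≠ 0 := h23
  have e3_2 : T.a (v 3) (v 2) ≠ 0 := s_ _ _ e2_3
  have r2_3 : 1 ≤ ratio T (v 2) (v 3) := ratio_ge_one T (v.injective.ne (by decide)) e2_3
  have r3_2 : 1 ≤ ratio T (v 3) (v 2) := ratio_ge_one T (v.injective.ne (by decide)) e3_2
  have e2_4 : T.a (v 2) (v 4) ≠ 0 := h24
  have e4_2 : T.a (v 4) (v 2) ≠ 0 := s_ _ _ e2_4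
  have r2_4 : 1 ≤ ratio T (v 2) (v 4) := ratio_ge_one T (v.injective.ne (by decide)) e2_4
  have r4_2 : 1 ≤ ratio T (v 4) (v 2) := ratio_ge_one T (v.injective.ne (by decide)) e4_2
  by_contra hz
  have r0_2 : 1 ≤ ratio T (v 0) (v 2) := ratio_ge_one T (v.injective.ne (by decide)) hz
  have r2_0 : 1 ≤ ratio T (v 2) (v 0) := ratio_ge_one T (v.injective.ne (by decide)) (s_ _ _ hz)
  refine no_test T (fun i => v (![0, 1, 2] i)) (v.injective.comp (by decide : Function.Injective (![0, 1, 2] : Fin 3 → Fin 5))) (lt_of_le_of_lt (by norm_num) hn) (fun i => hv _) ![1, 1, 1] ?_ ⟨0, by simp⟩ ?_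
  · intro p; fin_cases p <;> simp
  · intro p
    fin_cases p
    · refine ⟨[2, 1], by decide, by decide, ?_⟩
      simp
      linarith only [r0_2, r0_1]
    · refine ⟨[0, 2], by decide, by decide, ?_⟩
      simp
      linarith only [r1_0, r1_2]
    · refine ⟨[1, 0], by decide, by decide, ?_⟩
      simp
      linarith only [r2_1, r2_0]

theorem aux_z0_3 {n : ℕ} (T : Models.NumericalType n) (hn : 5 < n)
    (v : Fin 5 ↪ Fin n) (hv : ∀ j, T.IsMinusTwo (v j)) (h01 : T.a (v 0) (v 1) ≠ 0) (h12 : T.a (v 1) (v 2) ≠ 0) (h23 : T.a (v 2) (v 3) ≠ 0) (h24 : T.a (v 2) (v 4) ≠ 0) : T.a (v 0) (v 3) = 0 := by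
  have s_ : ∀ i j, T.a i j ≠ 0 → T.a j i ≠ 0 := fun i j h => by rwa [a_symm T]
  have e0_1 : T.a (v 0) (v 1) ≠ 0 := h01
  have e1_0 : T.a (v 1) (v 0) ≠ 0 := s_ _ _ e0_1
  have r0_1 : 1 ≤ ratio T (v 0) (v 1) := ratio_ge_one T (v.injective.ne (by decide)) e0_1
  have r1_0 : 1 ≤ ratio T (v 1) (v 0) := ratio_ge_one T (v.injective.ne (by decide)) e1_0
  have e1_2 : T.a (v 1) (v 2) ≠ 0 := h12
  have e2_1 : T.a (v 2) (v 1) ≠ 0 := s_ _ _ e1_2
  have r1_2 : 1 ≤ ratio T (v 1) (v 2) := ratio_ge_one T (v.injective.ne (by decide)) e1_2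
  have r2_1 : 1 ≤ ratio T (v 2) (v 1) := ratio_ge_one T (v.injective.ne (by decide)) e2_1
  have e2_3 : T.a (v 2) (v 3) ≠ 0 := h23
  have e3_2 : T.a (v 3) (v 2) ≠ 0 := s_ _ _ e2_3
  have r2_3 : 1 ≤ ratio T (v 2) (v 3) := ratio_ge_one T (v.injective.ne (by decide)) e2_3
  have r3_2 : 1 ≤ ratio T (v 3) (v 2) := ratio_ge_one T (v.injective.ne (by decide)) e3_2
  have e2_4 : T.a (v 2) (v 4) ≠ 0 := h24
  have e4_2 : T.a (v 4) (v 2) ≠ 0 := s_ _ _ e2_4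
  have r2_4 : 1 ≤ ratio T (v 2) (v 4) := ratio_ge_one T (v.injective.ne (by decide)) e2_4
  have r4_2 : 1 ≤ ratio T (v 4) (v 2) := ratio_ge_one T (v.injective.ne (by decide)) e4_2
  by_contra hz
  have r0_3 : 1 ≤ ratio T (v 0) (v 3) := ratio_ge_one T (v.injective.ne (by decide)) hz
  have r3_0 : 1 ≤ ratio T (v 3) (v 0) := ratio_ge_one T (v.injective.ne (by decide)) (s_ _ _ hz)
  refine no_test T (fun i => v (![0, 1, 2, 3] i)) (v.injective.comp (by decide : Function.Injective (![0, 1, 2, 3] : Fin 4 → Fin 5))) (lt_of_le_of_lt (by norm_num) hn) (fun i => hv _) ![1, 1, 1, 1] ?_ ⟨0, by simp⟩ ?_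
  · intro p; fin_cases p <;> simp
  · intro p
    fin_cases p
    · refine ⟨[3, 1], by decide, by decide, ?_⟩
      simp
      linarith only [r0_3, r0_1]
    · refine ⟨[0, 2], by decide, by decide, ?_⟩
      simp
      linarith only [r1_0, r1_2]
    · refine ⟨[1, 3], by decide, by decide, ?_⟩
      simp
      linarith only [r2_1, r2_3]
    · refine ⟨[2, 0], by decide, by decide, ?_⟩
      simp
      linarith only [r3_2, r3_0]

theorem aux_z0_4 {n : ℕ} (T : Models.NumericalType n) (hn : 5 < n)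
    (v : Fin 5 ↪ Fin n) (hv : ∀ j, T.IsMinusTwo (v j)) (h01 : T.a (v 0) (v 1) ≠ 0) (h12 : T.a (v 1) (v 2) ≠ 0) (h23 : T.a (v 2) (v 3) ≠ 0) (h24 : T.a (v 2) (v 4) ≠ 0) : T.a (v 0) (v 4) = 0 := by
  have s_ : ∀ i j, T.a i j ≠ 0 → T.a j i ≠ 0 := fun i j h => by rwa [a_symm T]
  have e0_1 : T.a (v 0) (v 1) ≠ 0 := h01
  have e1_0 : T.a (v 1) (v 0) ≠ 0 := s_ _ _ e0_1
  have r0_1 : 1 ≤ ratio T (v 0) (v 1) := ratio_ge_one T (v.injective.ne (by decide)) e0_1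
  have r1_0 : 1 ≤ ratio T (v 1) (v 0) := ratio_ge_one T (v.injective.ne (by decide)) e1_0
  have e1_2 : T.a (v 1) (v 2) ≠ 0 := h12
  have e2_1 : T.a (v 2) (v 1) ≠ 0 := s_ _ _ e1_2
  have r1_2 : 1 ≤ ratio T (v 1) (v 2) := ratio_ge_one T (v.injective.ne (by decide)) e1_2
  have r2_1 : 1 ≤ ratio T (v 2) (v 1) := ratio_ge_one T (v.injective.ne (by decide)) e2_1
  have e2_3 : T.a (v 2) (v 3) ≠ 0 := h23
  have e3_2 : T.a (v 3) (v 2) ≠ 0 := s_ _ _ e2_3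
  have r2_3 : 1 ≤ ratio T (v 2) (v 3) := ratio_ge_one T (v.injective.ne (by decide)) e2_3
  have r3_2 : 1 ≤ ratio T (v 3) (v 2) := ratio_ge_one T (v.injective.ne (by decide)) e3_2
  have e2_4 : T.a (v 2) (v 4) ≠ 0 := h24
  have e4_2 : T.a (v 4) (v 2) ≠ 0 := s_ _ _ e2_4
  have r2_4 : 1 ≤ ratio T (v 2) (v 4) := ratio_ge_one T (v.injective.ne (by decide)) e2_4
  have r4_2 : 1 ≤ ratio T (v 4) (v 2) := ratio_ge_one T (v.injective.ne (by decide)) e4_2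
  by_contra hz
  have r0_4 : 1 ≤ ratio T (v 0) (v 4) := ratio_ge_one T (v.injective.ne (by decide)) hz
  have r4_0 : 1 ≤ ratio T (v 4) (v 0) := ratio_ge_one T (v.injective.ne (by decide)) (s_ _ _ hz)
  refine no_test T (fun i => v (![0, 1, 2, 4] i)) (v.injective.comp (by decide : Function.Injective (![0, 1, 2, 4] : Fin 4 → Fin 5))) (lt_of_le_of_lt (by norm_num) hn) (fun i => hv _) ![1, 1, 1, 1] ?_ ⟨0, by simp⟩ ?_
  · intro p; fin_cases p <;> simp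
  · intro p
    fin_cases p
    · refine ⟨[3, 1], by decide, by decide, ?_⟩
      simp
      linarith only [r0_4, r0_1]
    · refine ⟨[0, 2], by decide, by decide, ?_⟩
      simp
      linarith only [r1_0, r1_2]
    · refine ⟨[1, 3], by decide, by decide, ?_⟩
      simp
      linarith only [r2_1, r2_4]
    · refine ⟨[2, 0], by decide, by decide, ?_⟩
      simp
      linarith only [r4_2, r4_0]

theorem aux_z1_3 {n : ℕ} (T : Models.NumericalType n) (hn : 5 < n)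
    (v : Fin 5 ↪ Fin n) (hv : ∀ j, T.IsMinusTwo (v j)) (h01 : T.a (v 0) (v 1) ≠ 0) (h12 : T.a (v 1) (v 2) ≠ 0) (h23 : T.a (v 2) (v 3) ≠ 0) (h24 : T.a (v 2) (v 4) ≠ 0) : T.a (v 1) (v 3) = 0 := by
  have s_ : ∀ i j, T.a i j ≠ 0 → T.a j i ≠ 0 := fun i j h => by rwa [a_symm T]
  have e0_1 : T.a (v 0) (v 1) ≠ 0 := h01
  have e1_0 : T.a (v 1) (v 0) ≠ 0 := s_ _ _ e0_1
  have r0_1 : 1 ≤ ratio T (v 0) (v 1) := ratio_ge_one T (v.injective.ne (by decide)) e0_1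
  have r1_0 : 1 ≤ ratio T (v 1) (v 0) := ratio_ge_one T (v.injective.ne (by decide)) e1_0
  have e1_2 : T.a (v 1) (v 2) ≠ 0 := h12
  have e2_1 : T.a (v 2) (v 1) ≠ 0 := s_ _ _ e1_2
  have r1_2 : 1 ≤ ratio T (v 1) (v 2) := ratio_ge_one T (v.injective.ne (by decide)) e1_2
  have r2_1 : 1 ≤ ratio T (v 2) (v 1) := ratio_ge_one T (v.injective.ne (by decide)) e2_1
  have e2_3 : T.a (v 2) (v 3) ≠ 0 := h23
  have e3_2 : T.a (v 3) (v 2) ≠ 0 := s_ _ _ e2_3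
  have r2_3 : 1 ≤ ratio T (v 2) (v 3) := ratio_ge_one T (v.injective.ne (by decide)) e2_3
  have r3_2 : 1 ≤ ratio T (v 3) (v 2) := ratio_ge_one T (v.injective.ne (by decide)) e3_2
  have e2_4 : T.a (v 2) (v 4) ≠ 0 := h24
  have e4_2 : T.a (v 4) (v 2) ≠ 0 := s_ _ _ e2_4
  have r2_4 : 1 ≤ ratio T (v 2) (v 4) := ratio_ge_one T (v.injective.ne (by decide)) e2_4
  have r4_2 : 1 ≤ ratio T (v 4) (v 2) := ratio_ge_one T (v.injective.ne (by decide)) e4_2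
  by_contra hz
  have r1_3 : 1 ≤ ratio T (v 1) (v 3) := ratio_ge_one T (v.injective.ne (by decide)) hz
  have r3_1 : 1 ≤ ratio T (v 3) (v 1) := ratio_ge_one T (v.injective.ne (by decide)) (s_ _ _ hz)
  refine no_test T (fun i => v (![1, 2, 3] i)) (v.injective.comp (by decide : Function.Injective (![1, 2, 3] : Fin 3 → Fin 5))) (lt_of_le_of_lt (by norm_num) hn) (fun i => hv _) ![1, 1, 1] ?_ ⟨0, by simp⟩ ?_
  · intro p; fin_cases p <;> simp
  · intro p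
    fin_cases p
    · refine ⟨[2, 1], by decide, by decide, ?_⟩
      simp
      linarith only [r1_3, r1_2]
    · refine ⟨[0, 2], by decide, by decide, ?_⟩
      simp
      linarith only [r2_1, r2_3]
    · refine ⟨[1, 0], by decide, by decide, ?_⟩
      simp
      linarith only [r3_2, r3_1]

theorem aux_z1_4 {n : ℕ} (T : Models.NumericalType n) (hn : 5 < n)
    (v : Fin 5 ↪ Fin n) (hv : ∀ j, T.IsMinusTwo (v j)) (h01 : T.a (v 0) (v 1) ≠ 0) (h12 : T.a (v 1) (v 2) ≠ 0) (h23 : T.a (v 2) (v 3) ≠ 0) (h24 : T.a (v 2) (v 4) ≠ 0) : T.a (v 1) (v 4) = 0 := by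
  have s_ : ∀ i j, T.a i j ≠ 0 → T.a j i ≠ 0 := fun i j h => by rwa [a_symm T]
  have e0_1 : T.a (v 0) (v 1) ≠ 0 := h01
  have e1_0 : T.a (v 1) (v 0) ≠ 0 := s_ _ _ e0_1
  have r0_1 : 1 ≤ ratio T (v 0) (v 1) := ratio_ge_one T (v.injective.ne (by decide)) e0_1
  have r1_0 : 1 ≤ ratio T (v 1) (v 0) := ratio_ge_one T (v.injective.ne (by decide)) e1_0
  have e1_2 : T.a (v 1) (v 2) ≠ 0 := h12
  have e2_1 : T.a (v 2) (v 1) ≠ 0 := s_ _ _ e1_2
  have r1_2 : 1 ≤ ratio T (v 1) (v 2) := ratio_ge_one T (v.injective.ne (by decide)) e1_2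
  have r2_1 : 1 ≤ ratio T (v 2) (v 1) := ratio_ge_one T (v.injective.ne (by decide)) e2_1
  have e2_3 : T.a (v 2) (v 3) ≠ 0 := h23
  have e3_2 : T.a (v 3) (v 2) ≠ 0 := s_ _ _ e2_3
  have r2_3 : 1 ≤ ratio T (v 2) (v 3) := ratio_ge_one T (v.injective.ne (by decide)) e2_3
  have r3_2 : 1 ≤ ratio T (v 3) (v 2) := ratio_ge_one T (v.injective.ne (by decide)) e3_2
  have e2_4 : T.a (v 2) (v 4) ≠ 0 := h24
  have e4_2 : T.a (v 4) (v 2) ≠ 0 := s_ _ _ e2_4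
  have r2_4 : 1 ≤ ratio T (v 2) (v 4) := ratio_ge_one T (v.injective.ne (by decide)) e2_4
  have r4_2 : 1 ≤ ratio T (v 4) (v 2) := ratio_ge_one T (v.injective.ne (by decide)) e4_2
  by_contra hz
  have r1_4 : 1 ≤ ratio T (v 1) (v 4) := ratio_ge_one T (v.injective.ne (by decide)) hz
  have r4_1 : 1 ≤ ratio T (v 4) (v 1) := ratio_ge_one T (v.injective.ne (by decide)) (s_ _ _ hz)
  refine no_test T (fun i => v (![1, 2, 4] i)) (v.injective.comp (by decide : Function.Injective (![1, 2, 4] : Fin 3 → Fin 5))) (lt_of_le_of_lt (by norm_num) hn) (fun i => hv _) ![1, 1, 1] ?_ ⟨0, by simp⟩ ?_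
  · intro p; fin_cases p <;> simp
  · intro p
    fin_cases p
    · refine ⟨[2, 1], by decide, by decide, ?_⟩
      simp
      linarith only [r1_4, r1_2]
    · refine ⟨[0, 2], by decide, by decide, ?_⟩
      simp
      linarith only [r2_1, r2_4]
    · refine ⟨[1, 0], by decide, by decide, ?_⟩
      simp
      linarith only [r4_2, r4_1]

theorem aux_z3_4 {n : ℕ} (T : Models.NumericalType n) (hn : 5 < n)
    (v : Fin 5 ↪ Fin n) (hv : ∀ j, T.IsMinusTwo (v j)) (h01 : T.a (v 0) (v 1) ≠ 0) (h12 : T.a (v 1) (v 2) ≠ 0) (h23 : T.a (v 2) (v 3) ≠ 0) (h24 : T.a (v 2) (v 4) ≠ 0) : T.a (v 3) (v 4) = 0 := by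
  have s_ : ∀ i j, T.a i j ≠ 0 → T.a j i ≠ 0 := fun i j h => by rwa [a_symm T]
  have e0_1 : T.a (v 0) (v 1) ≠ 0 := h01
  have e1_0 : T.a (v 1) (v 0) ≠ 0 := s_ _ _ e0_1
  have r0_1 : 1 ≤ ratio T (v 0) (v 1) := ratio_ge_one T (v.injective.ne (by decide)) e0_1
  have r1_0 : 1 ≤ ratio T (v 1) (v 0) := ratio_ge_one T (v.injective.ne (by decide)) e1_0
  have e1_2 : T.a (v 1) (v 2) ≠ 0 := h12
  have e2_1 : T.a (v 2) (v 1) ≠ 0 := s_ _ _ e1_2
  have r1_2 : 1 ≤ ratio T (v 1) (v 2) := ratio_ge_one T (v.injective.ne (by decide)) e1_2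
  have r2_1 : 1 ≤ ratio T (v 2) (v 1) := ratio_ge_one T (v.injective.ne (by decide)) e2_1
  have e2_3 : T.a (v 2) (v 3) ≠ 0 := h23
  have e3_2 : T.a (v 3) (v 2) ≠ 0 := s_ _ _ e2_3
  have r2_3 : 1 ≤ ratio T (v 2) (v 3) := ratio_ge_one T (v.injective.ne (by decide)) e2_3
  have r3_2 : 1 ≤ ratio T (v 3) (v 2) := ratio_ge_one T (v.injective.ne (by decide)) e3_2
  have e2_4 : T.a (v 2) (v 4) ≠ 0 := h24
  have e4_2 : T.a (v 4) (v 2) ≠ 0 := s_ _ _ e2_4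
  have r2_4 : 1 ≤ ratio T (v 2) (v 4) := ratio_ge_one T (v.injective.ne (by decide)) e2_4
  have r4_2 : 1 ≤ ratio T (v 4) (v 2) := ratio_ge_one T (v.injective.ne (by decide)) e4_2
  by_contra hz
  have r3_4 : 1 ≤ ratio T (v 3) (v 4) := ratio_ge_one T (v.injective.ne (by decide)) hz
  have r4_3 : 1 ≤ ratio T (v 4) (v 3) := ratio_ge_one T (v.injective.ne (by decide)) (s_ _ _ hz)
  refine no_test T (fun i => v (![3, 2, 4] i)) (v.injective.comp (by decide : Function.Injective (![3, 2, 4] : Fin 3 → Fin 5))) (lt_of_le_of_lt (by norm_num) hn) (fun i => hv _) ![1, 1, 1] ?_ ⟨0, by simp⟩ ?_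
  · intro p; fin_cases p <;> simp
  · intro p
    fin_cases p
    · refine ⟨[2, 1], by decide, by decide, ?_⟩
      simp
      linarith only [r3_4, r3_2]
    · refine ⟨[0, 2], by decide, by decide, ?_⟩
      simp
      linarith only [r2_3, r2_4]
    · refine ⟨[1, 0], by decide, by decide, ?_⟩
      simp
      linarith only [r4_2, r4_3]

theorem aux_sA0_1 {n : ℕ} (T : Models.NumericalType n) (hn : 5 < n)
    (v : Fin 5 ↪ Fin n) (hv : ∀ j, T.IsMinusTwo (v j)) (h01 : T.a (v 0) (v 1) ≠ 0) (h12 : T.a (v 1) (v 2) ≠ 0) (h23 : T.a (v 2) (v 3) ≠ 0) (h24 : T.a (v 2) (v 4) ≠ 0) : ratio T (v 0) (v 1) < 2 := by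
  have s_ : ∀ i j, T.a i j ≠ 0 → T.a j i ≠ 0 := fun i j h => by rwa [a_symm T]
  have e0_1 : T.a (v 0) (v 1) ≠ 0 := h01
  have e1_0 : T.a (v 1) (v 0) ≠ 0 := s_ _ _ e0_1
  have r0_1 : 1 ≤ ratio T (v 0) (v 1) := ratio_ge_one T (v.injective.ne (by decide)) e0_1
  have r1_0 : 1 ≤ ratio T (v 1) (v 0) := ratio_ge_one T (v.injective.ne (by decide)) e1_0
  have e1_2 : T.a (v 1) (v 2) ≠ 0 := h12
  have e2_1 : T.a (v 2) (v 1) ≠ 0 := s_ _ _ e1_2
  have r1_2 : 1 ≤ ratio T (v 1) (v 2) := ratio_ge_one T (v.injective.ne (by decide)) e1_2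
  have r2_1 : 1 ≤ ratio T (v 2) (v 1) := ratio_ge_one T (v.injective.ne (by decide)) e2_1
  have e2_3 : T.a (v 2) (v 3) ≠ 0 := h23
  have e3_2 : T.a (v 3) (v 2) ≠ 0 := s_ _ _ e2_3
  have r2_3 : 1 ≤ ratio T (v 2) (v 3) := ratio_ge_one T (v.injective.ne (by decide)) e2_3
  have r3_2 : 1 ≤ ratio T (v 3) (v 2) := ratio_ge_one T (v.injective.ne (by decide)) e3_2
  have e2_4 : T.a (v 2) (v 4) ≠ 0 := h24
  have e4_2 : T.a (v 4) (v 2) ≠ 0 := s_ _ _ e2_4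
  have r2_4 : 1 ≤ ratio T (v 2) (v 4) := ratio_ge_one T (v.injective.ne (by decide)) e2_4
  have r4_2 : 1 ≤ ratio T (v 4) (v 2) := ratio_ge_one T (v.injective.ne (by decide)) e4_2
  by_contra hA; push Not at hA
  refine no_test T (fun i => v (![0, 1, 2, 3, 4] i)) (v.injective.comp (by decide : Function.Injective (![0, 1, 2, 3, 4] : Fin 5 → Fin 5))) (lt_of_le_of_lt (by norm_num) hn) (fun i => hv _) ![2, 2, 2, 1, 1] ?_ ⟨0, by simp⟩ ?_
  · intro p; fin_cases p <;> simp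
  · intro p
    fin_cases p
    · refine ⟨[1], by decide, by decide, ?_⟩
      simp
      linarith only [r0_1, hA]
    · refine ⟨[0, 2], by decide, by decide, ?_⟩
      simp
      linarith only [r1_0, r1_2]
    · refine ⟨[1, 3, 4], by decide, by decide, ?_⟩
      simp
      linarith only [r2_1, r2_3, r2_4]
    · refine ⟨[2], by decide, by decide, ?_⟩
      simp
      linarith only [r3_2]
    · refine ⟨[2], by decide, by decide, ?_⟩
      simp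
      linarith only [r4_2]

theorem aux_sB0_1 {n : ℕ} (T : Models.NumericalType n) (hn : 5 < n)
    (v : Fin 5 ↪ Fin n) (hv : ∀ j, T.IsMinusTwo (v j)) (h01 : T.a (v 0) (v 1) ≠ 0) (h12 : T.a (v 1) (v 2) ≠ 0) (h23 : T.a (v 2) (v 3) ≠ 0) (h24 : T.a (v 2) (v 4) ≠ 0) : ratio T (v 1) (v 0) < 2 := by
  have s_ : ∀ i j, T.a i j ≠ 0 → T.a j i ≠ 0 := fun i j h => by rwa [a_symm T]
  have e0_1 : T.a (v 0) (v 1) ≠ 0 := h01
  have e1_0 : T.a (v 1) (v 0) ≠ 0 := s_ _ _ e0_1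
  have r0_1 : 1 ≤ ratio T (v 0) (v 1) := ratio_ge_one T (v.injective.ne (by decide)) e0_1
  have r1_0 : 1 ≤ ratio T (v 1) (v 0) := ratio_ge_one T (v.injective.ne (by decide)) e1_0
  have e1_2 : T.a (v 1) (v 2) ≠ 0 := h12
  have e2_1 : T.a (v 2) (v 1) ≠ 0 := s_ _ _ e1_2
  have r1_2 : 1 ≤ ratio T (v 1) (v 2) := ratio_ge_one T (v.injective.ne (by decide)) e1_2
  have r2_1 : 1 ≤ ratio T (v 2) (v 1) := ratio_ge_one T (v.injective.ne (by decide)) e2_1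
  have e2_3 : T.a (v 2) (v 3) ≠ 0 := h23
  have e3_2 : T.a (v 3) (v 2) ≠ 0 := s_ _ _ e2_3
  have r2_3 : 1 ≤ ratio T (v 2) (v 3) := ratio_ge_one T (v.injective.ne (by decide)) e2_3
  have r3_2 : 1 ≤ ratio T (v 3) (v 2) := ratio_ge_one T (v.injective.ne (by decide)) e3_2
  have e2_4 : T.a (v 2) (v 4) ≠ 0 := h24
  have e4_2 : T.a (v 4) (v 2) ≠ 0 := s_ _ _ e2_4
  have r2_4 : 1 ≤ ratio T (v 2) (v 4) := ratio_ge_one T (v.injective.ne (by decide)) e2_4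
  have r4_2 : 1 ≤ ratio T (v 4) (v 2) := ratio_ge_one T (v.injective.ne (by decide)) e4_2
  by_contra hB; push Not at hB
  refine no_test T (fun i => v (![0, 1, 2, 3, 4] i)) (v.injective.comp (by decide : Function.Injective (![0, 1, 2, 3, 4] : Fin 5 → Fin 5))) (lt_of_le_of_lt (by norm_num) hn) (fun i => hv _) ![1, 2, 2, 1, 1] ?_ ⟨0, by simp⟩ ?_
  · intro p; fin_cases p <;> simp
  · intro p
    fin_cases p
    · refine ⟨[1], by decide, by decide, ?_⟩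
      simp
      linarith only [r0_1]
    · refine ⟨[0, 2], by decide, by decide, ?_⟩
      simp
      linarith only [r1_0, r1_2, hB]
    · refine ⟨[1, 3, 4], by decide, by decide, ?_⟩
      simp
      linarith only [r2_1, r2_3, r2_4]
    · refine ⟨[2], by decide, by decide, ?_⟩
      simp
      linarith only [r3_2]
    · refine ⟨[2], by decide, by decide, ?_⟩
      simp
      linarith only [r4_2]

theorem aux_sA1_2 {n : ℕ} (T : Models.NumericalType n) (hn : 5 < n)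
    (v : Fin 5 ↪ Fin n) (hv : ∀ j, T.IsMinusTwo (v j)) (h01 : T.a (v 0) (v 1) ≠ 0) (h12 : T.a (v 1) (v 2) ≠ 0) (h23 : T.a (v 2) (v 3) ≠ 0) (h24 : T.a (v 2) (v 4) ≠ 0) : ratio T (v 1) (v 2) < 2 := by
  have s_ : ∀ i j, T.a i j ≠ 0 → T.a j i ≠ 0 := fun i j h => by rwa [a_symm T]
  have e0_1 : T.a (v 0) (v 1) ≠ 0 := h01
  have e1_0 : T.a (v 1) (v 0) ≠ 0 := s_ _ _ e0_1
  have r0_1 : 1 ≤ ratio T (v 0) (v 1) := ratio_ge_one T (v.injective.ne (by decide)) e0_1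
  have r1_0 : 1 ≤ ratio T (v 1) (v 0) := ratio_ge_one T (v.injective.ne (by decide)) e1_0
  have e1_2 : T.a (v 1) (v 2) ≠ 0 := h12
  have e2_1 : T.a (v 2) (v 1) ≠ 0 := s_ _ _ e1_2
  have r1_2 : 1 ≤ ratio T (v 1) (v 2) := ratio_ge_one T (v.injective.ne (by decide)) e1_2
  have r2_1 : 1 ≤ ratio T (v 2) (v 1) := ratio_ge_one T (v.injective.ne (by decide)) e2_1
  have e2_3 : T.a (v 2) (v 3) ≠ 0 := h23
  have e3_2 : T.a (v 3) (v 2) ≠ 0 := s_ _ _ e2_3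
  have r2_3 : 1 ≤ ratio T (v 2) (v 3) := ratio_ge_one T (v.injective.ne (by decide)) e2_3
  have r3_2 : 1 ≤ ratio T (v 3) (v 2) := ratio_ge_one T (v.injective.ne (by decide)) e3_2
  have e2_4 : T.a (v 2) (v 4) ≠ 0 := h24
  have e4_2 : T.a (v 4) (v 2) ≠ 0 := s_ _ _ e2_4
  have r2_4 : 1 ≤ ratio T (v 2) (v 4) := ratio_ge_one T (v.injective.ne (by decide)) e2_4
  have r4_2 : 1 ≤ ratio T (v 4) (v 2) := ratio_ge_one T (v.injective.ne (by decide)) e4_2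
  by_contra hA; push Not at hA
  refine no_test T (fun i => v (![1, 2, 3, 4] i)) (v.injective.comp (by decide : Function.Injective (![1, 2, 3, 4] : Fin 4 → Fin 5))) (lt_of_le_of_lt (by norm_num) hn) (fun i => hv _) ![2, 2, 1, 1] ?_ ⟨0, by simp⟩ ?_
  · intro p; fin_cases p <;> simp
  · intro p
    fin_cases p
    · refine ⟨[1], by decide, by decide, ?_⟩
      simp
      linarith only [r1_2, hA]
    · refine ⟨[0, 2, 3], by decide, by decide, ?_⟩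
      simp
      linarith only [r2_1, r2_3, r2_4]
    · refine ⟨[1], by decide, by decide, ?_⟩
      simp
      linarith only [r3_2]
    · refine ⟨[1], by decide, by decide, ?_⟩
      simp
      linarith only [r4_2]

theorem aux_sB1_2 {n : ℕ} (T : Models.NumericalType n) (hn : 5 < n)
    (v : Fin 5 ↪ Fin n) (hv : ∀ j, T.IsMinusTwo (v j)) (h01 : T.a (v 0) (v 1) ≠ 0) (h12 : T.a (v 1) (v 2) ≠ 0) (h23 : T.a (v 2) (v 3) ≠ 0) (h24 : T.a (v 2) (v 4) ≠ 0) : ratio T (v 2) (v 1) < 2 := by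
  have s_ : ∀ i j, T.a i j ≠ 0 → T.a j i ≠ 0 := fun i j h => by rwa [a_symm T]
  have e0_1 : T.a (v 0) (v 1) ≠ 0 := h01
  have e1_0 : T.a (v 1) (v 0) ≠ 0 := s_ _ _ e0_1
  have r0_1 : 1 ≤ ratio T (v 0) (v 1) := ratio_ge_one T (v.injective.ne (by decide)) e0_1
  have r1_0 : 1 ≤ ratio T (v 1) (v 0) := ratio_ge_one T (v.injective.ne (by decide)) e1_0
  have e1_2 : T.a (v 1) (v 2) ≠ 0 := h12
  have e2_1 : T.a (v 2) (v 1) ≠ 0 := s_ _ _ e1_2
  have r1_2 : 1 ≤ ratio T (v 1) (v 2) := ratio_ge_one T (v.injective.ne (by decide)) e1_2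
  have r2_1 : 1 ≤ ratio T (v 2) (v 1) := ratio_ge_one T (v.injective.ne (by decide)) e2_1
  have e2_3 : T.a (v 2) (v 3) ≠ 0 := h23
  have e3_2 : T.a (v 3) (v 2) ≠ 0 := s_ _ _ e2_3
  have r2_3 : 1 ≤ ratio T (v 2) (v 3) := ratio_ge_one T (v.injective.ne (by decide)) e2_3
  have r3_2 : 1 ≤ ratio T (v 3) (v 2) := ratio_ge_one T (v.injective.ne (by decide)) e3_2
  have e2_4 : T.a (v 2) (v 4) ≠ 0 := h24
  have e4_2 : T.a (v 4) (v 2) ≠ 0 := s_ _ _ e2_4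
  have r2_4 : 1 ≤ ratio T (v 2) (v 4) := ratio_ge_one T (v.injective.ne (by decide)) e2_4
  have r4_2 : 1 ≤ ratio T (v 4) (v 2) := ratio_ge_one T (v.injective.ne (by decide)) e4_2
  by_contra hB; push Not at hB
  refine no_test T (fun i => v (![1, 2, 3, 4] i)) (v.injective.comp (by decide : Function.Injective (![1, 2, 3, 4] : Fin 4 → Fin 5))) (lt_of_le_of_lt (by norm_num) hn) (fun i => hv _) ![1, 2, 1, 1] ?_ ⟨0, by simp⟩ ?_
  · intro p; fin_cases p <;> simp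
  · intro p
    fin_cases p
    · refine ⟨[1], by decide, by decide, ?_⟩
      simp
      linarith only [r1_2]
    · refine ⟨[0, 2, 3], by decide, by decide, ?_⟩
      simp
      linarith only [r2_1, r2_3, r2_4, hB]
    · refine ⟨[1], by decide, by decide, ?_⟩
      simp
      linarith only [r3_2]
    · refine ⟨[1], by decide, by decide, ?_⟩
      simp
      linarith only [r4_2]

theorem aux_sA3_2 {n : ℕ} (T : Models.NumericalType n) (hn : 5 < n)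
    (v : Fin 5 ↪ Fin n) (hv : ∀ j, T.IsMinusTwo (v j)) (h01 : T.a (v 0) (v 1) ≠ 0) (h12 : T.a (v 1) (v 2) ≠ 0) (h23 : T.a (v 2) (v 3) ≠ 0) (h24 : T.a (v 2) (v 4) ≠ 0) : ratio T (v 3) (v 2) < 2 := by
  have s_ : ∀ i j, T.a i j ≠ 0 → T.a j i ≠ 0 := fun i j h => by rwa [a_symm T]
  have e0_1 : T.a (v 0) (v 1) ≠ 0 := h01
  have e1_0 : T.a (v 1) (v 0) ≠ 0 := s_ _ _ e0_1
  have r0_1 : 1 ≤ ratio T (v 0) (v 1) := ratio_ge_one T (v.injective.ne (by decide)) e0_1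
  have r1_0 : 1 ≤ ratio T (v 1) (v 0) := ratio_ge_one T (v.injective.ne (by decide)) e1_0
  have e1_2 : T.a (v 1) (v 2) ≠ 0 := h12
  have e2_1 : T.a (v 2) (v 1) ≠ 0 := s_ _ _ e1_2
  have r1_2 : 1 ≤ ratio T (v 1) (v 2) := ratio_ge_one T (v.injective.ne (by decide)) e1_2
  have r2_1 : 1 ≤ ratio T (v 2) (v 1) := ratio_ge_one T (v.injective.ne (by decide)) e2_1
  have e2_3 : T.a (v 2) (v 3) ≠ 0 := h23
  have e3_2 : T.a (v 3) (v 2) ≠ 0 := s_ _ _ e2_3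
  have r2_3 : 1 ≤ ratio T (v 2) (v 3) := ratio_ge_one T (v.injective.ne (by decide)) e2_3
  have r3_2 : 1 ≤ ratio T (v 3) (v 2) := ratio_ge_one T (v.injective.ne (by decide)) e3_2
  have e2_4 : T.a (v 2) (v 4) ≠ 0 := h24
  have e4_2 : T.a (v 4) (v 2) ≠ 0 := s_ _ _ e2_4
  have r2_4 : 1 ≤ ratio T (v 2) (v 4) := ratio_ge_one T (v.injective.ne (by decide)) e2_4
  have r4_2 : 1 ≤ ratio T (v 4) (v 2) := ratio_ge_one T (v.injective.ne (by decide)) e4_2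
  by_contra hA; push Not at hA
  refine no_test T (fun i => v (![3, 2, 1, 4] i)) (v.injective.comp (by decide : Function.Injective (![3, 2, 1, 4] : Fin 4 → Fin 5))) (lt_of_le_of_lt (by norm_num) hn) (fun i => hv _) ![2, 2, 1, 1] ?_ ⟨0, by simp⟩ ?_
  · intro p; fin_cases p <;> simp
  · intro p
    fin_cases p
    · refine ⟨[1], by decide, by decide, ?_⟩
      simp
      linarith only [r3_2, hA]
    · refine ⟨[0, 2, 3], by decide, by decide, ?_⟩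
      simp
      linarith only [r2_3, r2_1, r2_4]
    · refine ⟨[1], by decide, by decide, ?_⟩
      simp
      linarith only [r1_2]
    · refine ⟨[1], by decide, by decide, ?_⟩
      simp
      linarith only [r4_2]

theorem aux_sB3_2 {n : ℕ} (T : Models.NumericalType n) (hn : 5 < n)
    (v : Fin 5 ↪ Fin n) (hv : ∀ j, T.IsMinusTwo (v j)) (h01 : T.a (v 0) (v 1) ≠ 0) (h12 : T.a (v 1) (v 2) ≠ 0) (h23 : T.a (v 2) (v 3) ≠ 0) (h24 : T.a (v 2) (v 4) ≠ 0) : ratio T (v 2) (v 3) < 2 := by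
  have s_ : ∀ i j, T.a i j ≠ 0 → T.a j i ≠ 0 := fun i j h => by rwa [a_symm T]
  have e0_1 : T.a (v 0) (v 1) ≠ 0 := h01
  have e1_0 : T.a (v 1) (v 0) ≠ 0 := s_ _ _ e0_1
  have r0_1 : 1 ≤ ratio T (v 0) (v 1) := ratio_ge_one T (v.injective.ne (by decide)) e0_1
  have r1_0 : 1 ≤ ratio T (v 1) (v 0) := ratio_ge_one T (v.injective.ne (by decide)) e1_0
  have e1_2 : T.a (v 1) (v 2) ≠ 0 := h12
  have e2_1 : T.a (v 2) (v 1) ≠ 0 := s_ _ _ e1_2
  have r1_2 : 1 ≤ ratio T (v 1) (v 2) := ratio_ge_one T (v.injective.ne (by decide)) e1_2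
  have r2_1 : 1 ≤ ratio T (v 2) (v 1) := ratio_ge_one T (v.injective.ne (by decide)) e2_1
  have e2_3 : T.a (v 2) (v 3) ≠ 0 := h23
  have e3_2 : T.a (v 3) (v 2) ≠ 0 := s_ _ _ e2_3
  have r2_3 : 1 ≤ ratio T (v 2) (v 3) := ratio_ge_one T (v.injective.ne (by decide)) e2_3
  have r3_2 : 1 ≤ ratio T (v 3) (v 2) := ratio_ge_one T (v.injective.ne (by decide)) e3_2
  have e2_4 : T.a (v 2) (v 4) ≠ 0 := h24
  have e4_2 : T.a (v 4) (v 2) ≠ 0 := s_ _ _ e2_4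
  have r2_4 : 1 ≤ ratio T (v 2) (v 4) := ratio_ge_one T (v.injective.ne (by decide)) e2_4
  have r4_2 : 1 ≤ ratio T (v 4) (v 2) := ratio_ge_one T (v.injective.ne (by decide)) e4_2
  by_contra hB; push Not at hB
  refine no_test T (fun i => v (![3, 2, 1, 4] i)) (v.injective.comp (by decide : Function.Injective (![3, 2, 1, 4] : Fin 4 → Fin 5))) (lt_of_le_of_lt (by norm_num) hn) (fun i => hv _) ![1, 2, 1, 1] ?_ ⟨0, by simp⟩ ?_
  · intro p; fin_cases p <;> simp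
  · intro p
    fin_cases p
    · refine ⟨[1], by decide, by decide, ?_⟩
      simp
      linarith only [r3_2]
    · refine ⟨[0, 2, 3], by decide, by decide, ?_⟩
      simp
      linarith only [r2_3, r2_1, r2_4, hB]
    · refine ⟨[1], by decide, by decide, ?_⟩
      simp
      linarith only [r1_2]
    · refine ⟨[1], by decide, by decide, ?_⟩
      simp
      linarith only [r4_2]

theorem aux_sA4_2 {n : ℕ} (T : Models.NumericalType n) (hn : 5 < n)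
    (v : Fin 5 ↪ Fin n) (hv : ∀ j, T.IsMinusTwo (v j)) (h01 : T.a (v 0) (v 1) ≠ 0) (h12 : T.a (v 1) (v 2) ≠ 0) (h23 : T.a (v 2) (v 3) ≠ 0) (h24 : T.a (v 2) (v 4) ≠ 0) : ratio T (v 4) (v 2) < 2 := by
  have s_ : ∀ i j, T.a i j ≠ 0 → T.a j i ≠ 0 := fun i j h => by rwa [a_symm T]
  have e0_1 : T.a (v 0) (v 1) ≠ 0 := h01
  have e1_0 : T.a (v 1) (v 0) ≠ 0 := s_ _ _ e0_1
  have r0_1 : 1 ≤ ratio T (v 0) (v 1) := ratio_ge_one T (v.injective.ne (by decide)) e0_1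
  have r1_0 : 1 ≤ ratio T (v 1) (v 0) := ratio_ge_one T (v.injective.ne (by decide)) e1_0
  have e1_2 : T.a (v 1) (v 2) ≠ 0 := h12
  have e2_1 : T.a (v 2) (v 1) ≠ 0 := s_ _ _ e1_2
  have r1_2 : 1 ≤ ratio T (v 1) (v 2) := ratio_ge_one T (v.injective.ne (by decide)) e1_2
  have r2_1 : 1 ≤ ratio T (v 2) (v 1) := ratio_ge_one T (v.injective.ne (by decide)) e2_1
  have e2_3 : T.a (v 2) (v 3) ≠ 0 := h23
  have e3_2 : T.a (v 3) (v 2) ≠ 0 := s_ _ _ e2_3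
  have r2_3 : 1 ≤ ratio T (v 2) (v 3) := ratio_ge_one T (v.injective.ne (by decide)) e2_3
  have r3_2 : 1 ≤ ratio T (v 3) (v 2) := ratio_ge_one T (v.injective.ne (by decide)) e3_2
  have e2_4 : T.a (v 2) (v 4) ≠ 0 := h24
  have e4_2 : T.a (v 4) (v 2) ≠ 0 := s_ _ _ e2_4
  have r2_4 : 1 ≤ ratio T (v 2) (v 4) := ratio_ge_one T (v.injective.ne (by decide)) e2_4
  have r4_2 : 1 ≤ ratio T (v 4) (v 2) := ratio_ge_one T (v.injective.ne (by decide)) e4_2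
  by_contra hA; push Not at hA
  refine no_test T (fun i => v (![4, 2, 1, 3] i)) (v.injective.comp (by decide : Function.Injective (![4, 2, 1, 3] : Fin 4 → Fin 5))) (lt_of_le_of_lt (by norm_num) hn) (fun i => hv _) ![2, 2, 1, 1] ?_ ⟨0, by simp⟩ ?_
  · intro p; fin_cases p <;> simp
  · intro p
    fin_cases p
    · refine ⟨[1], by decide, by decide, ?_⟩
      simp
      linarith only [r4_2, hA]
    · refine ⟨[0, 2, 3], by decide, by decide, ?_⟩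
      simp
      linarith only [r2_4, r2_1, r2_3]
    · refine ⟨[1], by decide, by decide, ?_⟩
      simp
      linarith only [r1_2]
    · refine ⟨[1], by decide, by decide, ?_⟩
      simp
      linarith only [r3_2]

theorem aux_sB4_2 {n : ℕ} (T : Models.NumericalType n) (hn : 5 < n)
    (v : Fin 5 ↪ Fin n) (hv : ∀ j, T.IsMinusTwo (v j)) (h01 : T.a (v 0) (v 1) ≠ 0) (h12 : T.a (v 1) (v 2) ≠ 0) (h23 : T.a (v 2) (v 3) ≠ 0) (h24 : T.a (v 2) (v 4) ≠ 0) : ratio T (v 2) (v 4) < 2 := by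
  have s_ : ∀ i j, T.a i j ≠ 0 → T.a j i ≠ 0 := fun i j h => by rwa [a_symm T]
  have e0_1 : T.a (v 0) (v 1) ≠ 0 := h01
  have e1_0 : T.a (v 1) (v 0) ≠ 0 := s_ _ _ e0_1
  have r0_1 : 1 ≤ ratio T (v 0) (v 1) := ratio_ge_one T (v.injective.ne (by decide)) e0_1
  have r1_0 : 1 ≤ ratio T (v 1) (v 0) := ratio_ge_one T (v.injective.ne (by decide)) e1_0
  have e1_2 : T.a (v 1) (v 2) ≠ 0 := h12
  have e2_1 : T.a (v 2) (v 1) ≠ 0 := s_ _ _ e1_2
  have r1_2 : 1 ≤ ratio T (v 1) (v 2) := ratio_ge_one T (v.injective.ne (by decide)) e1_2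
  have r2_1 : 1 ≤ ratio T (v 2) (v 1) := ratio_ge_one T (v.injective.ne (by decide)) e2_1
  have e2_3 : T.a (v 2) (v 3) ≠ 0 := h23
  have e3_2 : T.a (v 3) (v 2) ≠ 0 := s_ _ _ e2_3
  have r2_3 : 1 ≤ ratio T (v 2) (v 3) := ratio_ge_one T (v.injective.ne (by decide)) e2_3
  have r3_2 : 1 ≤ ratio T (v 3) (v 2) := ratio_ge_one T (v.injective.ne (by decide)) e3_2
  have e2_4 : T.a (v 2) (v 4) ≠ 0 := h24
  have e4_2 : T.a (v 4) (v 2) ≠ 0 := s_ _ _ e2_4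
  have r2_4 : 1 ≤ ratio T (v 2) (v 4) := ratio_ge_one T (v.injective.ne (by decide)) e2_4
  have r4_2 : 1 ≤ ratio T (v 4) (v 2) := ratio_ge_one T (v.injective.ne (by decide)) e4_2
  by_contra hB; push Not at hB
  refine no_test T (fun i => v (![4, 2, 1, 3] i)) (v.injective.comp (by decide : Function.Injective (![4, 2, 1, 3] : Fin 4 → Fin 5))) (lt_of_le_of_lt (by norm_num) hn) (fun i => hv _) ![1, 2, 1, 1] ?_ ⟨0, by simp⟩ ?_
  · intro p; fin_cases p <;> simp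
  · intro p
    fin_cases p
    · refine ⟨[1], by decide, by decide, ?_⟩
      simp
      linarith only [r4_2]
    · refine ⟨[0, 2, 3], by decide, by decide, ?_⟩
      simp
      linarith only [r2_4, r2_1, r2_3, hB]
    · refine ⟨[1], by decide, by decide, ?_⟩
      simp
      linarith only [r1_2]
    · refine ⟨[1], by decide, by decide, ?_⟩
      simp
      linarith only [r3_2]

set_option maxHeartbeats 1000000 in
/-- Classification of proper subgraphs of type D5 (a chain i_1 i_2 i_3 with i_4 and i_5 both joined to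
i_3): let T be a numerical type on n > 5 indices and i_1, …, i_5 distinct (-2)-indices with a_{12},
a_{23}, a_{34}, a_{35} nonzero. Then for some integer w all w_{i_j} equal w, these intersection
numbers equal w, all other a_{i_j i_k} (j ≠ k) vanish, and 2 m_1 ≥ m_2, 2 m_2 ≥ m_1 + m_3, 2 m_3 ≥
m_2 + m_4 + m_5, 2 m_4 ≥ m_3, 2 m_5 ≥ m_3. -/
theorem result {n : ℕ} (T : Models.NumericalType n) (hn : 5 < n)
    (v : Fin 5 ↪ Fin n) (hv : ∀ j, T.IsMinusTwo (v j)) (h01 : T.a (v 0) (v 1) ≠ 0) (h12 : T.a (v 1) (v 2) ≠ 0) (h23 : T.a (v 2) (v 3) ≠ 0) (h24 : T.a (v 2) (v 4) ≠ 0) :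
    ∃ w : ℤ, (∀ j : Fin 5, T.w (v j) = w) ∧
      T.a (v 0) (v 1) = w ∧
      T.a (v 1) (v 2) = w ∧
      T.a (v 2) (v 3) = w ∧
      T.a (v 2) (v 4) = w ∧
      T.a (v 0) (v 2) = 0 ∧
      T.a (v 0) (v 3) = 0 ∧
      T.a (v 0) (v 4) = 0 ∧
      T.a (v 1) (v 3) = 0 ∧
      T.a (v 1) (v 4) = 0 ∧
      T.a (v 3) (v 4) = 0 ∧
      T.m (v 1) ≤ 2 * T.m (v 0) ∧
      T.m (v 0) + T.m (v 2) ≤ 2 * T.m (v 1) ∧
      T.m (v 1) + T.m (v 3) + T.m (v 4) ≤ 2 * T.m (v 2) ∧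
      T.m (v 2) ≤ 2 * T.m (v 3) ∧
      T.m (v 2) ≤ 2 * T.m (v 4) := by
  have s_ : ∀ i j, T.a i j ≠ 0 → T.a j i ≠ 0 := fun i j h => by rwa [a_symm T]
  have e0_1 : T.a (v 0) (v 1) ≠ 0 := h01
  have e1_0 : T.a (v 1) (v 0) ≠ 0 := s_ _ _ e0_1
  have e1_2 : T.a (v 1) (v 2) ≠ 0 := h12
  have e2_1 : T.a (v 2) (v 1) ≠ 0 := s_ _ _ e1_2
  have e2_3 : T.a (v 2) (v 3) ≠ 0 := h23
  have e3_2 : T.a (v 3) (v 2) ≠ 0 := s_ _ _ e2_3
  have e2_4 : T.a (v 2) (v 4) ≠ 0 := h24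
  have e4_2 : T.a (v 4) (v 2) ≠ 0 := s_ _ _ e2_4
  have z0_2 : T.a (v 0) (v 2) = 0 := aux_z0_2 T hn v hv h01 h12 h23 h24
  have z2_0 : T.a (v 2) (v 0) = 0 := by rw [a_symm T]; exact z0_2
  have z0_3 : T.a (v 0) (v 3) = 0 := aux_z0_3 T hn v hv h01 h12 h23 h24
  have z3_0 : T.a (v 3) (v 0) = 0 := by rw [a_symm T]; exact z0_3
  have z0_4 : T.a (v 0) (v 4) = 0 := aux_z0_4 T hn v hv h01 h12 h23 h24
  have z4_0 : T.a (v 4) (v 0) = 0 := by rw [a_symm T]; exact z0_4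
  have z1_3 : T.a (v 1) (v 3) = 0 := aux_z1_3 T hn v hv h01 h12 h23 h24
  have z3_1 : T.a (v 3) (v 1) = 0 := by rw [a_symm T]; exact z1_3
  have z1_4 : T.a (v 1) (v 4) = 0 := aux_z1_4 T hn v hv h01 h12 h23 h24
  have z4_1 : T.a (v 4) (v 1) = 0 := by rw [a_symm T]; exact z1_4
  have z3_4 : T.a (v 3) (v 4) = 0 := aux_z3_4 T hn v hv h01 h12 h23 h24
  have z4_3 : T.a (v 4) (v 3) = 0 := by rw [a_symm T]; exact z3_4
  obtain ⟨a0_1, w0_1⟩ := simple_of_ratio_lt T (lt_of_le_of_lt (by norm_num) hn) (v.injective.ne (by decide)) (hv 0) (hv 1) e0_1 (aux_sA0_1 T hn v hv h01 h12 h23 h24) (aux_sB0_1 T hn v hv h01 h12 h23 h24)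
  obtain ⟨a1_2, w1_2⟩ := simple_of_ratio_lt T (lt_of_le_of_lt (by norm_num) hn) (v.injective.ne (by decide)) (hv 1) (hv 2) e1_2 (aux_sA1_2 T hn v hv h01 h12 h23 h24) (aux_sB1_2 T hn v hv h01 h12 h23 h24)
  obtain ⟨a3_2, w3_2⟩ := simple_of_ratio_lt T (lt_of_le_of_lt (by norm_num) hn) (v.injective.ne (by decide)) (hv 3) (hv 2) e3_2 (aux_sA3_2 T hn v hv h01 h12 h23 h24) (aux_sB3_2 T hn v hv h01 h12 h23 h24)
  obtain ⟨a4_2, w4_2⟩ := simple_of_ratio_lt T (lt_of_le_of_lt (by norm_num) hn) (v.injective.ne (by decide)) (hv 4) (hv 2) e4_2 (aux_sA4_2 T hn v hv h01 h12 h23 h24) (aux_sB4_2 T hn v hv h01 h12 h23 h24)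
  have hW := T.w_pos (v 2)
  have W2 : T.w (v 2) = T.w (v 2) := rfl
  have W1 : T.w (v 1) = T.w (v 2) := by rw [← W2]; exact (w1_2).symm
  have W3 : T.w (v 3) = T.w (v 2) := by rw [← W2]; exact (w3_2).symm
  have W4 : T.w (v 4) = T.w (v 2) := by rw [← W2]; exact (w4_2).symm
  have W0 : T.w (v 0) = T.w (v 2) := by rw [← W1]; exact (w0_1).symm
  have A0_1 : T.a (v 0) (v 1) = T.w (v 2) := by rw [a0_1, W0]
  have A1_0 : T.a (v 1) (v 0) = T.w (v 2) := by rw [a_symm T, A0_1]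
  have A1_2 : T.a (v 1) (v 2) = T.w (v 2) := by rw [a1_2, W1]
  have A2_1 : T.a (v 2) (v 1) = T.w (v 2) := by rw [a_symm T, A1_2]
  have A3_2 : T.a (v 3) (v 2) = T.w (v 2) := by rw [a3_2, W3]
  have A2_3 : T.a (v 2) (v 3) = T.w (v 2) := by rw [a_symm T, A3_2]
  have A4_2 : T.a (v 4) (v 2) = T.w (v 2) := by rw [a4_2, W4]
  have A2_4 : T.a (v 2) (v 4) = T.w (v 2) := by rw [a_symm T, A4_2]
  have D0 : T.a (v 0) (v 0) = -2 * T.w (v 2) := by rw [(hv 0).2, W0]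
  have D1 : T.a (v 1) (v 1) = -2 * T.w (v 2) := by rw [(hv 1).2, W1]
  have D2 : T.a (v 2) (v 2) = -2 * T.w (v 2) := by rw [(hv 2).2, W2]
  have D3 : T.a (v 3) (v 3) = -2 * T.w (v 2) := by rw [(hv 3).2, W3]
  have D4 : T.a (v 4) (v 4) = -2 * T.w (v 2) := by rw [(hv 4).2, W4]
  refine ⟨T.w (v 2), ?_, ?_, ?_, ?_, ?_, ?_, ?_, ?_, ?_, ?_, ?_, ?_, ?_, ?_, ?_, ?_⟩
  · intro j; fin_cases j <;> simp [W0, W1, W3, W4]
  · exact A0_1
  · exact A1_2
  · exact A2_3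
  · exact A2_4
  · exact z0_2
  · exact z0_3
  · exact z0_4
  · exact z1_3
  · exact z1_4
  · exact z3_4
  · have h := row_ineq T (v 0) ([1].map v) ((by decide : ([0, 1] : List (Fin 5)).Nodup).map v.injective) (T.w (v 2)) hW 2 (by rw [D0]; ring) (fun _ => 1) (by simp; exact A0_1)
    simp at h; linarith
  · have h := row_ineq T (v 1) ([0, 2].map v) ((by decide : ([1, 0, 2] : List (Fin 5)).Nodup).map v.injective) (T.w (v 2)) hW 2 (by rw [D1]; ring) (fun _ => 1) (by simp; exact ⟨A1_0, A1_2⟩)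
    simp at h; linarith
  · have h := row_ineq T (v 2) ([1, 3, 4].map v) ((by decide : ([2, 1, 3, 4] : List (Fin 5)).Nodup).map v.injective) (T.w (v 2)) hW 2 (by rw [D2]; ring) (fun _ => 1) (by simp; exact ⟨A2_1, A2_3, A2_4⟩)
    simp at h; linarith
  · have h := row_ineq T (v 3) ([2].map v) ((by decide : ([3, 2] : List (Fin 5)).Nodup).map v.injective) (T.w (v 2)) hW 2 (by rw [D3]; ring) (fun _ => 1) (by simp; exact A3_2)
    simp at h; linarith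
  · have h := row_ineq T (v 4) ([2].map v) ((by decide : ([4, 2] : List (Fin 5)).Nodup).map v.injective) (T.w (v 2)) hW 2 (by rw [D4]; ring) (fun _ => 1) (by simp; exact A4_2)
    simp at h; linarith

end Groth.Agent.S7347
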