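import Groth.Statements.S7350
import Groth.Agent.Lib.Helper11.NumTypeDArm

set_option autoImplicit false
open Finset
open Models Models.NumericalType
open Groth.Agent.Lib.Helper11.NumType

namespace Groth.Agent.S7350

theorem aux_z0_2 {n : ℕ} (T : Models.NumericalType n) (hn : 8 < n)
    (v : Fin 8 ↪ Fin n) (hv : ∀ j, T.IsMinusTwo (v j)) (h01 : T.a (v 0) (v 1) ≠ 0) (h12 : T.a (v 1) (v 2) ≠ 0) (h23 : T.a (v 2) (v 3) ≠ 0) (h34 : T.a (v 3) (v 4) ≠ 0) (h45 : T.a (v 4) (v 5) ≠ 0) (h56 : T.a (v 5) (v 6) ≠ 0) (h47 : T.a (v 4) (v 7) ≠ 0) : T.a (v 0) (v 2) = 0 := by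
  have s_ : ∀ i j, T.a i j ≠ 0 → T.a j i ≠ 0 := fun i j h => by rwa [a_symm T]
  have e0_1 : T.a (v 0) (v 1) ≠ 0 := h01
  have e1_0 : T.a (v 1) (v 0) ≠ 0 := s_ _ _ e0_1
  have r0_1 : 1 ≤ ratio T (v 0) (v 1) := ratio_ge_one T (v.injective.ne (by decide)) e0_1
  have r1_0 : 1 ≤ ratio T (v 1) (v 0) := ratio_ge_one T (v.injective.ne (by decide)) e1_0
  have e1_2 : T.a (v 1) (v 2) ≠ 0 := h12
  have e2_1 : T.a (v 2) (v 1) ≠ 0 := s_ _ _ e1_2
  have r1_2 : 1 ≤ ratio T (v 1) (v 2) := ratio_ge_one T (v.injective.ne (by decide)) e1_2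
  have r2_1 : 1 ≤ ratio T (v 2) (v 1) := ratio_ge_one T (v.injective.ne (by decide)) e2_1
  have e2_3 : T.a (v 2) (v 3) ≠ 0 := h23
  have e3_2 : T.a (v 3) (v 2) ≠ 0 := s_ _ _ e2_3
  have r2_3 : 1 ≤ ratio T (v 2) (v 3) := ratio_ge_one T (v.injective.ne (by decide)) e2_3
  have r3_2 : 1 ≤ ratio T (v 3) (v 2) := ratio_ge_one T (v.injective.ne (by decide)) e3_2
  have e3_4 : T.a (v 3) (v 4) ≠ 0 := h34
  have e4_3 : T.a (v 4) (v 3) ≠ 0 := s_ _ _ e3_4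
  have r3_4 : 1 ≤ ratio T (v 3) (v 4) := ratio_ge_one T (v.injective.ne (by decide)) e3_4
  have r4_3 : 1 ≤ ratio T (v 4) (v 3) := ratio_ge_one T (v.injective.ne (by decide)) e4_3
  have e4_5 : T.a (v 4) (v 5) ≠ 0 := h45
  have e5_4 : T.a (v 5) (v 4) ≠ 0 := s_ _ _ e4_5
  have r4_5 : 1 ≤ ratio T (v 4) (v 5) := ratio_ge_one T (v.injective.ne (by decide)) e4_5
  have r5_4 : 1 ≤ ratio T (v 5) (v 4) := ratio_ge_one T (v.injective.ne (by decide)) e5_4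
  have e5_6 : T.a (v 5) (v 6) ≠ 0 := h56
  have e6_5 : T.a (v 6) (v 5) ≠ 0 := s_ _ _ e5_6
  have r5_6 : 1 ≤ ratio T (v 5) (v 6) := ratio_ge_one T (v.injective.ne (by decide)) e5_6
  have r6_5 : 1 ≤ ratio T (v 6) (v 5) := ratio_ge_one T (v.injective.ne (by decide)) e6_5
  have e4_7 : T.a (v 4) (v 7) ≠ 0 := h47
  have e7_4 : T.a (v 7) (v 4) ≠ 0 := s_ _ _ e4_7
  have r4_7 : 1 ≤ ratio T (v 4) (v 7) := ratio_ge_one T (v.injective.ne (by decide)) e4_7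
  have r7_4 : 1 ≤ ratio T (v 7) (v 4) := ratio_ge_one T (v.injective.ne (by decide)) e7_4
  by_contra hz
  have r0_2 : 1 ≤ ratio T (v 0) (v 2) := ratio_ge_one T (v.injective.ne (by decide)) hz
  have r2_0 : 1 ≤ ratio T (v 2) (v 0) := ratio_ge_one T (v.injective.ne (by decide)) (s_ _ _ hz)
  refine no_test T (fun i => v (![0, 1, 2] i)) (v.injective.comp (by decide : Function.Injective (![0, 1, 2] : Fin 3 → Fin 8))) (lt_of_le_of_lt (by norm_num) hn) (fun i => hv _) ![1, 1, 1] ?_ ⟨0, by simp⟩ ?_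
  · intro p; fin_cases p <;> simp
  · intro p
    fin_cases p
    · refine ⟨[2, 1], by decide, by decide, ?_⟩
      simp
      linarith only [r0_2, r0_1]
    · refine ⟨[0, 2], by decide, by decide, ?_⟩
      simp
      linarith only [r1_0, r1_2]
    · refine ⟨[1, 0], by decide, by decide, ?_⟩
      simp
      linarith only [r2_1, r2_0]

theorem aux_z0_3 {n : ℕ} (T : Models.NumericalType n) (hn : 8 < n)
    (v : Fin 8 ↪ Fin n) (hv : ∀ j, T.IsMinusTwo (v j)) (h01 : T.a (v 0) (v 1) ≠ 0) (h12 : T.a (v 1) (v 2) ≠ 0) (h23 : T.a (v 2) (v 3) ≠ 0) (h34 : T.a (v 3) (v 4) ≠ 0) (h45 : T.a (v 4) (v 5) ≠ 0) (h56 : T.a (v 5) (v 6) ≠ 0) (h47 : T.a (v 4) (v 7) ≠ 0) : T.a (v 0) (v 3) = 0 := by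
  have s_ : ∀ i j, T.a i j ≠ 0 → T.a j i ≠ 0 := fun i j h => by rwa [a_symm T]
  have e0_1 : T.a (v 0) (v 1) ≠ 0 := h01
  have e1_0 : T.a (v 1) (v 0) ≠ 0 := s_ _ _ e0_1
  have r0_1 : 1 ≤ ratio T (v 0) (v 1) := ratio_ge_one T (v.injective.ne (by decide)) e0_1
  have r1_0 : 1 ≤ ratio T (v 1) (v 0) := ratio_ge_one T (v.injective.ne (by decide)) e1_0
  have e1_2 : T.a (v 1) (v 2) ≠ 0 := h12
  have e2_1 : T.a (v 2) (v 1) ≠ 0 := s_ _ _ e1_2
  have r1_2 : 1 ≤ ratio T (v 1) (v 2) := ratio_ge_one T (v.injective.ne (by decide)) e1_2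
  have r2_1 : 1 ≤ ratio T (v 2) (v 1) := ratio_ge_one T (v.injective.ne (by decide)) e2_1
  have e2_3 : T.a (v 2) (v 3) ≠ 0 := h23
  have e3_2 : T.a (v 3) (v 2) ≠ 0 := s_ _ _ e2_3
  have r2_3 : 1 ≤ ratio T (v 2) (v 3) := ratio_ge_one T (v.injective.ne (by decide)) e2_3
  have r3_2 : 1 ≤ ratio T (v 3) (v 2) := ratio_ge_one T (v.injective.ne (by decide)) e3_2
  have e3_4 : T.a (v 3) (v 4) ≠ 0 := h34
  have e4_3 : T.a (v 4) (v 3) ≠ 0 := s_ _ _ e3_4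
  have r3_4 : 1 ≤ ratio T (v 3) (v 4) := ratio_ge_one T (v.injective.ne (by decide)) e3_4
  have r4_3 : 1 ≤ ratio T (v 4) (v 3) := ratio_ge_one T (v.injective.ne (by decide)) e4_3
  have e4_5 : T.a (v 4) (v 5) ≠ 0 := h45
  have e5_4 : T.a (v 5) (v 4) ≠ 0 := s_ _ _ e4_5
  have r4_5 : 1 ≤ ratio T (v 4) (v 5) := ratio_ge_one T (v.injective.ne (by decide)) e4_5
  have r5_4 : 1 ≤ ratio T (v 5) (v 4) := ratio_ge_one T (v.injective.ne (by decide)) e5_4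
  have e5_6 : T.a (v 5) (v 6) ≠ 0 := h56
  have e6_5 : T.a (v 6) (v 5) ≠ 0 := s_ _ _ e5_6
  have r5_6 : 1 ≤ ratio T (v 5) (v 6) := ratio_ge_one T (v.injective.ne (by decide)) e5_6
  have r6_5 : 1 ≤ ratio T (v 6) (v 5) := ratio_ge_one T (v.injective.ne (by decide)) e6_5
  have e4_7 : T.a (v 4) (v 7) ≠ 0 := h47
  have e7_4 : T.a (v 7) (v 4) ≠ 0 := s_ _ _ e4_7
  have r4_7 : 1 ≤ ratio T (v 4) (v 7) := ratio_ge_one T (v.injective.ne (by decide)) e4_7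
  have r7_4 : 1 ≤ ratio T (v 7) (v 4) := ratio_ge_one T (v.injective.ne (by decide)) e7_4
  by_contra hz
  have r0_3 : 1 ≤ ratio T (v 0) (v 3) := ratio_ge_one T (v.injective.ne (by decide)) hz
  have r3_0 : 1 ≤ ratio T (v 3) (v 0) := ratio_ge_one T (v.injective.ne (by decide)) (s_ _ _ hz)
  refine no_test T (fun i => v (![0, 1, 2, 3] i)) (v.injective.comp (by decide : Function.Injective (![0, 1, 2, 3] : Fin 4 → Fin 8))) (lt_of_le_of_lt (by norm_num) hn) (fun i => hv _) ![1, 1, 1, 1] ?_ ⟨0, by simp⟩ ?_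
  · intro p; fin_cases p <;> simp
  · intro p
    fin_cases p
    · refine ⟨[3, 1], by decide, by decide, ?_⟩
      simp
      linarith only [r0_3, r0_1]
    · refine ⟨[0, 2], by decide, by decide, ?_⟩
      simp
      linarith only [r1_0, r1_2]
    · refine ⟨[1, 3], by decide, by decide, ?_⟩
      simp
      linarith only [r2_1, r2_3]
    · refine ⟨[2, 0], by decide, by decide, ?_⟩
      simp
      linarith only [r3_2, r3_0]

theorem aux_z0_4 {n : ℕ} (T : Models.NumericalType n) (hn : 8 < n)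
    (v : Fin 8 ↪ Fin n) (hv : ∀ j, T.IsMinusTwo (v j)) (h01 : T.a (v 0) (v 1) ≠ 0) (h12 : T.a (v 1) (v 2) ≠ 0) (h23 : T.a (v 2) (v 3) ≠ 0) (h34 : T.a (v 3) (v 4) ≠ 0) (h45 : T.a (v 4) (v 5) ≠ 0) (h56 : T.a (v 5) (v 6) ≠ 0) (h47 : T.a (v 4) (v 7) ≠ 0) : T.a (v 0) (v 4) = 0 := by
  have s_ : ∀ i j, T.a i j ≠ 0 → T.a j i ≠ 0 := fun i j h => by rwa [a_symm T]
  have e0_1 : T.a (v 0) (v 1) ≠ 0 := h01
  have e1_0 : T.a (v 1) (v 0) ≠ 0 := s_ _ _ e0_1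
  have r0_1 : 1 ≤ ratio T (v 0) (v 1) := ratio_ge_one T (v.injective.ne (by decide)) e0_1
  have r1_0 : 1 ≤ ratio T (v 1) (v 0) := ratio_ge_one T (v.injective.ne (by decide)) e1_0
  have e1_2 : T.a (v 1) (v 2) ≠ 0 := h12
  have e2_1 : T.a (v 2) (v 1) ≠ 0 := s_ _ _ e1_2
  have r1_2 : 1 ≤ ratio T (v 1) (v 2) := ratio_ge_one T (v.injective.ne (by decide)) e1_2
  have r2_1 : 1 ≤ ratio T (v 2) (v 1) := ratio_ge_one T (v.injective.ne (by decide)) e2_1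
  have e2_3 : T.a (v 2) (v 3) ≠ 0 := h23
  have e3_2 : T.a (v 3) (v 2) ≠ 0 := s_ _ _ e2_3
  have r2_3 : 1 ≤ ratio T (v 2) (v 3) := ratio_ge_one T (v.injective.ne (by decide)) e2_3
  have r3_2 : 1 ≤ ratio T (v 3) (v 2) := ratio_ge_one T (v.injective.ne (by decide)) e3_2
  have e3_4 : T.a (v 3) (v 4) ≠ 0 := h34
  have e4_3 : T.a (v 4) (v 3) ≠ 0 := s_ _ _ e3_4
  have r3_4 : 1 ≤ ratio T (v 3) (v 4) := ratio_ge_one T (v.injective.ne (by decide)) e3_4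
  have r4_3 : 1 ≤ ratio T (v 4) (v 3) := ratio_ge_one T (v.injective.ne (by decide)) e4_3
  have e4_5 : T.a (v 4) (v 5) ≠ 0 := h45
  have e5_4 : T.a (v 5) (v 4) ≠ 0 := s_ _ _ e4_5
  have r4_5 : 1 ≤ ratio T (v 4) (v 5) := ratio_ge_one T (v.injective.ne (by decide)) e4_5
  have r5_4 : 1 ≤ ratio T (v 5) (v 4) := ratio_ge_one T (v.injective.ne (by decide)) e5_4
  have e5_6 : T.a (v 5) (v 6) ≠ 0 := h56
  have e6_5 : T.a (v 6) (v 5) ≠ 0 := s_ _ _ e5_6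
  have r5_6 : 1 ≤ ratio T (v 5) (v 6) := ratio_ge_one T (v.injective.ne (by decide)) e5_6
  have r6_5 : 1 ≤ ratio T (v 6) (v 5) := ratio_ge_one T (v.injective.ne (by decide)) e6_5
  have e4_7 : T.a (v 4) (v 7) ≠ 0 := h47
  have e7_4 : T.a (v 7) (v 4) ≠ 0 := s_ _ _ e4_7
  have r4_7 : 1 ≤ ratio T (v 4) (v 7) := ratio_ge_one T (v.injective.ne (by decide)) e4_7
  have r7_4 : 1 ≤ ratio T (v 7) (v 4) := ratio_ge_one T (v.injective.ne (by decide)) e7_4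
  by_contra hz
  have r0_4 : 1 ≤ ratio T (v 0) (v 4) := ratio_ge_one T (v.injective.ne (by decide)) hz
  have r4_0 : 1 ≤ ratio T (v 4) (v 0) := ratio_ge_one T (v.injective.ne (by decide)) (s_ _ _ hz)
  refine no_test T (fun i => v (![0, 1, 2, 3, 4] i)) (v.injective.comp (by decide : Function.Injective (![0, 1, 2, 3, 4] : Fin 5 → Fin 8))) (lt_of_le_of_lt (by norm_num) hn) (fun i => hv _) ![1, 1, 1, 1, 1] ?_ ⟨0, by simp⟩ ?_
  · intro p; fin_cases p <;> simp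
  · intro p
    fin_cases p
    · refine ⟨[4, 1], by decide, by decide, ?_⟩
      simp
      linarith only [r0_4, r0_1]
    · refine ⟨[0, 2], by decide, by decide, ?_⟩
      simp
      linarith only [r1_0, r1_2]
    · refine ⟨[1, 3], by decide, by decide, ?_⟩
      simp
      linarith only [r2_1, r2_3]
    · refine ⟨[2, 4], by decide, by decide, ?_⟩
      simp
      linarith only [r3_2, r3_4]
    · refine ⟨[3, 0], by decide, by decide, ?_⟩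
      simp
      linarith only [r4_3, r4_0]

theorem aux_z0_5 {n : ℕ} (T : Models.NumericalType n) (hn : 8 < n)
    (v : Fin 8 ↪ Fin n) (hv : ∀ j, T.IsMinusTwo (v j)) (h01 : T.a (v 0) (v 1) ≠ 0) (h12 : T.a (v 1) (v 2) ≠ 0) (h23 : T.a (v 2) (v 3) ≠ 0) (h34 : T.a (v 3) (v 4) ≠ 0) (h45 : T.a (v 4) (v 5) ≠ 0) (h56 : T.a (v 5) (v 6) ≠ 0) (h47 : T.a (v 4) (v 7) ≠ 0) : T.a (v 0) (v 5) = 0 := by
  have s_ : ∀ i j, T.a i j ≠ 0 → T.a j i ≠ 0 := fun i j h => by rwa [a_symm T]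
  have e0_1 : T.a (v 0) (v 1) ≠ 0 := h01
  have e1_0 : T.a (v 1) (v 0) ≠ 0 := s_ _ _ e0_1
  have r0_1 : 1 ≤ ratio T (v 0) (v 1) := ratio_ge_one T (v.injective.ne (by decide)) e0_1
  have r1_0 : 1 ≤ ratio T (v 1) (v 0) := ratio_ge_one T (v.injective.ne (by decide)) e1_0
  have e1_2 : T.a (v 1) (v 2) ≠ 0 := h12
  have e2_1 : T.a (v 2) (v 1) ≠ 0 := s_ _ _ e1_2
  have r1_2 : 1 ≤ ratio T (v 1) (v 2) := ratio_ge_one T (v.injective.ne (by decide)) e1_2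
  have r2_1 : 1 ≤ ratio T (v 2) (v 1) := ratio_ge_one T (v.injective.ne (by decide)) e2_1
  have e2_3 : T.a (v 2) (v 3) ≠ 0 := h23
  have e3_2 : T.a (v 3) (v 2) ≠ 0 := s_ _ _ e2_3
  have r2_3 : 1 ≤ ratio T (v 2) (v 3) := ratio_ge_one T (v.injective.ne (by decide)) e2_3
  have r3_2 : 1 ≤ ratio T (v 3) (v 2) := ratio_ge_one T (v.injective.ne (by decide)) e3_2
  have e3_4 : T.a (v 3) (v 4) ≠ 0 := h34
  have e4_3 : T.a (v 4) (v 3) ≠ 0 := s_ _ _ e3_4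
  have r3_4 : 1 ≤ ratio T (v 3) (v 4) := ratio_ge_one T (v.injective.ne (by decide)) e3_4
  have r4_3 : 1 ≤ ratio T (v 4) (v 3) := ratio_ge_one T (v.injective.ne (by decide)) e4_3
  have e4_5 : T.a (v 4) (v 5) ≠ 0 := h45
  have e5_4 : T.a (v 5) (v 4) ≠ 0 := s_ _ _ e4_5
  have r4_5 : 1 ≤ ratio T (v 4) (v 5) := ratio_ge_one T (v.injective.ne (by decide)) e4_5
  have r5_4 : 1 ≤ ratio T (v 5) (v 4) := ratio_ge_one T (v.injective.ne (by decide)) e5_4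
  have e5_6 : T.a (v 5) (v 6) ≠ 0 := h56
  have e6_5 : T.a (v 6) (v 5) ≠ 0 := s_ _ _ e5_6
  have r5_6 : 1 ≤ ratio T (v 5) (v 6) := ratio_ge_one T (v.injective.ne (by decide)) e5_6
  have r6_5 : 1 ≤ ratio T (v 6) (v 5) := ratio_ge_one T (v.injective.ne (by decide)) e6_5
  have e4_7 : T.a (v 4) (v 7) ≠ 0 := h47
  have e7_4 : T.a (v 7) (v 4) ≠ 0 := s_ _ _ e4_7
  have r4_7 : 1 ≤ ratio T (v 4) (v 7) := ratio_ge_one T (v.injective.ne (by decide)) e4_7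
  have r7_4 : 1 ≤ ratio T (v 7) (v 4) := ratio_ge_one T (v.injective.ne (by decide)) e7_4
  by_contra hz
  have r0_5 : 1 ≤ ratio T (v 0) (v 5) := ratio_ge_one T (v.injective.ne (by decide)) hz
  have r5_0 : 1 ≤ ratio T (v 5) (v 0) := ratio_ge_one T (v.injective.ne (by decide)) (s_ _ _ hz)
  refine no_test T (fun i => v (![0, 1, 2, 3, 4, 5] i)) (v.injective.comp (by decide : Function.Injective (![0, 1, 2, 3, 4, 5] : Fin 6 → Fin 8))) (lt_of_le_of_lt (by norm_num) hn) (fun i => hv _) ![1, 1, 1, 1, 1, 1] ?_ ⟨0, by simp⟩ ?_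
  · intro p; fin_cases p <;> simp
  · intro p
    fin_cases p
    · refine ⟨[5, 1], by decide, by decide, ?_⟩
      simp
      linarith only [r0_5, r0_1]
    · refine ⟨[0, 2], by decide, by decide, ?_⟩
      simp
      linarith only [r1_0, r1_2]
    · refine ⟨[1, 3], by decide, by decide, ?_⟩
      simp
      linarith only [r2_1, r2_3]
    · refine ⟨[2, 4], by decide, by decide, ?_⟩
      simp
      linarith only [r3_2, r3_4]
    · refine ⟨[3, 5], by decide, by decide, ?_⟩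
      simp
      linarith only [r4_3, r4_5]
    · refine ⟨[4, 0], by decide, by decide, ?_⟩
      simp
      linarith only [r5_4, r5_0]

theorem aux_z0_6 {n : ℕ} (T : Models.NumericalType n) (hn : 8 < n)
    (v : Fin 8 ↪ Fin n) (hv : ∀ j, T.IsMinusTwo (v j)) (h01 : T.a (v 0) (v 1) ≠ 0) (h12 : T.a (v 1) (v 2) ≠ 0) (h23 : T.a (v 2) (v 3) ≠ 0) (h34 : T.a (v 3) (v 4) ≠ 0) (h45 : T.a (v 4) (v 5) ≠ 0) (h56 : T.a (v 5) (v 6) ≠ 0) (h47 : T.a (v 4) (v 7) ≠ 0) : T.a (v 0) (v 6) = 0 := by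
  have s_ : ∀ i j, T.a i j ≠ 0 → T.a j i ≠ 0 := fun i j h => by rwa [a_symm T]
  have e0_1 : T.a (v 0) (v 1) ≠ 0 := h01
  have e1_0 : T.a (v 1) (v 0) ≠ 0 := s_ _ _ e0_1
  have r0_1 : 1 ≤ ratio T (v 0) (v 1) := ratio_ge_one T (v.injective.ne (by decide)) e0_1
  have r1_0 : 1 ≤ ratio T (v 1) (v 0) := ratio_ge_one T (v.injective.ne (by decide)) e1_0
  have e1_2 : T.a (v 1) (v 2) ≠ 0 := h12
  have e2_1 : T.a (v 2) (v 1) ≠ 0 := s_ _ _ e1_2
  have r1_2 : 1 ≤ ratio T (v 1) (v 2) := ratio_ge_one T (v.injective.ne (by decide)) e1_2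
  have r2_1 : 1 ≤ ratio T (v 2) (v 1) := ratio_ge_one T (v.injective.ne (by decide)) e2_1
  have e2_3 : T.a (v 2) (v 3) ≠ 0 := h23
  have e3_2 : T.a (v 3) (v 2) ≠ 0 := s_ _ _ e2_3
  have r2_3 : 1 ≤ ratio T (v 2) (v 3) := ratio_ge_one T (v.injective.ne (by decide)) e2_3
  have r3_2 : 1 ≤ ratio T (v 3) (v 2) := ratio_ge_one T (v.injective.ne (by decide)) e3_2
  have e3_4 : T.a (v 3) (v 4) ≠ 0 := h34
  have e4_3 : T.a (v 4) (v 3) ≠ 0 := s_ _ _ e3_4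
  have r3_4 : 1 ≤ ratio T (v 3) (v 4) := ratio_ge_one T (v.injective.ne (by decide)) e3_4
  have r4_3 : 1 ≤ ratio T (v 4) (v 3) := ratio_ge_one T (v.injective.ne (by decide)) e4_3
  have e4_5 : T.a (v 4) (v 5) ≠ 0 := h45
  have e5_4 : T.a (v 5) (v 4) ≠ 0 := s_ _ _ e4_5
  have r4_5 : 1 ≤ ratio T (v 4) (v 5) := ratio_ge_one T (v.injective.ne (by decide)) e4_5
  have r5_4 : 1 ≤ ratio T (v 5) (v 4) := ratio_ge_one T (v.injective.ne (by decide)) e5_4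
  have e5_6 : T.a (v 5) (v 6) ≠ 0 := h56
  have e6_5 : T.a (v 6) (v 5) ≠ 0 := s_ _ _ e5_6
  have r5_6 : 1 ≤ ratio T (v 5) (v 6) := ratio_ge_one T (v.injective.ne (by decide)) e5_6
  have r6_5 : 1 ≤ ratio T (v 6) (v 5) := ratio_ge_one T (v.injective.ne (by decide)) e6_5
  have e4_7 : T.a (v 4) (v 7) ≠ 0 := h47
  have e7_4 : T.a (v 7) (v 4) ≠ 0 := s_ _ _ e4_7
  have r4_7 : 1 ≤ ratio T (v 4) (v 7) := ratio_ge_one T (v.injective.ne (by decide)) e4_7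
  have r7_4 : 1 ≤ ratio T (v 7) (v 4) := ratio_ge_one T (v.injective.ne (by decide)) e7_4
  by_contra hz
  have r0_6 : 1 ≤ ratio T (v 0) (v 6) := ratio_ge_one T (v.injective.ne (by decide)) hz
  have r6_0 : 1 ≤ ratio T (v 6) (v 0) := ratio_ge_one T (v.injective.ne (by decide)) (s_ _ _ hz)
  refine no_test T (fun i => v (![0, 1, 2, 3, 4, 5, 6] i)) (v.injective.comp (by decide : Function.Injective (![0, 1, 2, 3, 4, 5, 6] : Fin 7 → Fin 8))) (lt_of_le_of_lt (by norm_num) hn) (fun i => hv _) ![1, 1, 1, 1, 1, 1, 1] ?_ ⟨0, by simp⟩ ?_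
  · intro p; fin_cases p <;> simp
  · intro p
    fin_cases p
    · refine ⟨[6, 1], by decide, by decide, ?_⟩
      simp
      linarith only [r0_6, r0_1]
    · refine ⟨[0, 2], by decide, by decide, ?_⟩
      simp
      linarith only [r1_0, r1_2]
    · refine ⟨[1, 3], by decide, by decide, ?_⟩
      simp
      linarith only [r2_1, r2_3]
    · refine ⟨[2, 4], by decide, by decide, ?_⟩
      simp
      linarith only [r3_2, r3_4]
    · refine ⟨[3, 5], by decide, by decide, ?_⟩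
      simp
      linarith only [r4_3, r4_5]
    · refine ⟨[4, 6], by decide, by decide, ?_⟩
      simp
      linarith only [r5_4, r5_6]
    · refine ⟨[5, 0], by decide, by decide, ?_⟩
      simp
      linarith only [r6_5, r6_0]

theorem aux_z0_7 {n : ℕ} (T : Models.NumericalType n) (hn : 8 < n)
    (v : Fin 8 ↪ Fin n) (hv : ∀ j, T.IsMinusTwo (v j)) (h01 : T.a (v 0) (v 1) ≠ 0) (h12 : T.a (v 1) (v 2) ≠ 0) (h23 : T.a (v 2) (v 3) ≠ 0) (h34 : T.a (v 3) (v 4) ≠ 0) (h45 : T.a (v 4) (v 5) ≠ 0) (h56 : T.a (v 5) (v 6) ≠ 0) (h47 : T.a (v 4) (v 7) ≠ 0) : T.a (v 0) (v 7) = 0 := by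
  have s_ : ∀ i j, T.a i j ≠ 0 → T.a j i ≠ 0 := fun i j h => by rwa [a_symm T]
  have e0_1 : T.a (v 0) (v 1) ≠ 0 := h01
  have e1_0 : T.a (v 1) (v 0) ≠ 0 := s_ _ _ e0_1
  have r0_1 : 1 ≤ ratio T (v 0) (v 1) := ratio_ge_one T (v.injective.ne (by decide)) e0_1
  have r1_0 : 1 ≤ ratio T (v 1) (v 0) := ratio_ge_one T (v.injective.ne (by decide)) e1_0
  have e1_2 : T.a (v 1) (v 2) ≠ 0 := h12
  have e2_1 : T.a (v 2) (v 1) ≠ 0 := s_ _ _ e1_2
  have r1_2 : 1 ≤ ratio T (v 1) (v 2) := ratio_ge_one T (v.injective.ne (by decide)) e1_2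
  have r2_1 : 1 ≤ ratio T (v 2) (v 1) := ratio_ge_one T (v.injective.ne (by decide)) e2_1
  have e2_3 : T.a (v 2) (v 3) ≠ 0 := h23
  have e3_2 : T.a (v 3) (v 2) ≠ 0 := s_ _ _ e2_3
  have r2_3 : 1 ≤ ratio T (v 2) (v 3) := ratio_ge_one T (v.injective.ne (by decide)) e2_3
  have r3_2 : 1 ≤ ratio T (v 3) (v 2) := ratio_ge_one T (v.injective.ne (by decide)) e3_2
  have e3_4 : T.a (v 3) (v 4) ≠ 0 := h34
  have e4_3 : T.a (v 4) (v 3) ≠ 0 := s_ _ _ e3_4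
  have r3_4 : 1 ≤ ratio T (v 3) (v 4) := ratio_ge_one T (v.injective.ne (by decide)) e3_4
  have r4_3 : 1 ≤ ratio T (v 4) (v 3) := ratio_ge_one T (v.injective.ne (by decide)) e4_3
  have e4_5 : T.a (v 4) (v 5) ≠ 0 := h45
  have e5_4 : T.a (v 5) (v 4) ≠ 0 := s_ _ _ e4_5
  have r4_5 : 1 ≤ ratio T (v 4) (v 5) := ratio_ge_one T (v.injective.ne (by decide)) e4_5
  have r5_4 : 1 ≤ ratio T (v 5) (v 4) := ratio_ge_one T (v.injective.ne (by decide)) e5_4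
  have e5_6 : T.a (v 5) (v 6) ≠ 0 := h56
  have e6_5 : T.a (v 6) (v 5) ≠ 0 := s_ _ _ e5_6
  have r5_6 : 1 ≤ ratio T (v 5) (v 6) := ratio_ge_one T (v.injective.ne (by decide)) e5_6
  have r6_5 : 1 ≤ ratio T (v 6) (v 5) := ratio_ge_one T (v.injective.ne (by decide)) e6_5
  have e4_7 : T.a (v 4) (v 7) ≠ 0 := h47
  have e7_4 : T.a (v 7) (v 4) ≠ 0 := s_ _ _ e4_7
  have r4_7 : 1 ≤ ratio T (v 4) (v 7) := ratio_ge_one T (v.injective.ne (by decide)) e4_7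
  have r7_4 : 1 ≤ ratio T (v 7) (v 4) := ratio_ge_one T (v.injective.ne (by decide)) e7_4
  by_contra hz
  have r0_7 : 1 ≤ ratio T (v 0) (v 7) := ratio_ge_one T (v.injective.ne (by decide)) hz
  have r7_0 : 1 ≤ ratio T (v 7) (v 0) := ratio_ge_one T (v.injective.ne (by decide)) (s_ _ _ hz)
  refine no_test T (fun i => v (![0, 1, 2, 3, 4, 7] i)) (v.injective.comp (by decide : Function.Injective (![0, 1, 2, 3, 4, 7] : Fin 6 → Fin 8))) (lt_of_le_of_lt (by norm_num) hn) (fun i => hv _) ![1, 1, 1, 1, 1, 1] ?_ ⟨0, by simp⟩ ?_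
  · intro p; fin_cases p <;> simp
  · intro p
    fin_cases p
    · refine ⟨[5, 1], by decide, by decide, ?_⟩
      simp
      linarith only [r0_7, r0_1]
    · refine ⟨[0, 2], by decide, by decide, ?_⟩
      simp
      linarith only [r1_0, r1_2]
    · refine ⟨[1, 3], by decide, by decide, ?_⟩
      simp
      linarith only [r2_1, r2_3]
    · refine ⟨[2, 4], by decide, by decide, ?_⟩
      simp
      linarith only [r3_2, r3_4]
    · refine ⟨[3, 5], by decide, by decide, ?_⟩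
      simp
      linarith only [r4_3, r4_7]
    · refine ⟨[4, 0], by decide, by decide, ?_⟩
      simp
      linarith only [r7_4, r7_0]

theorem aux_z1_3 {n : ℕ} (T : Models.NumericalType n) (hn : 8 < n)
    (v : Fin 8 ↪ Fin n) (hv : ∀ j, T.IsMinusTwo (v j)) (h01 : T.a (v 0) (v 1) ≠ 0) (h12 : T.a (v 1) (v 2) ≠ 0) (h23 : T.a (v 2) (v 3) ≠ 0) (h34 : T.a (v 3) (v 4) ≠ 0) (h45 : T.a (v 4) (v 5) ≠ 0) (h56 : T.a (v 5) (v 6) ≠ 0) (h47 : T.a (v 4) (v 7) ≠ 0) : T.a (v 1) (v 3) = 0 := by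
  have s_ : ∀ i j, T.a i j ≠ 0 → T.a j i ≠ 0 := fun i j h => by rwa [a_symm T]
  have e0_1 : T.a (v 0) (v 1) ≠ 0 := h01
  have e1_0 : T.a (v 1) (v 0) ≠ 0 := s_ _ _ e0_1
  have r0_1 : 1 ≤ ratio T (v 0) (v 1) := ratio_ge_one T (v.injective.ne (by decide)) e0_1
  have r1_0 : 1 ≤ ratio T (v 1) (v 0) := ratio_ge_one T (v.injective.ne (by decide)) e1_0
  have e1_2 : T.a (v 1) (v 2) ≠ 0 := h12
  have e2_1 : T.a (v 2) (v 1) ≠ 0 := s_ _ _ e1_2
  have r1_2 : 1 ≤ ratio T (v 1) (v 2) := ratio_ge_one T (v.injective.ne (by decide)) e1_2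
  have r2_1 : 1 ≤ ratio T (v 2) (v 1) := ratio_ge_one T (v.injective.ne (by decide)) e2_1
  have e2_3 : T.a (v 2) (v 3) ≠ 0 := h23
  have e3_2 : T.a (v 3) (v 2) ≠ 0 := s_ _ _ e2_3
  have r2_3 : 1 ≤ ratio T (v 2) (v 3) := ratio_ge_one T (v.injective.ne (by decide)) e2_3
  have r3_2 : 1 ≤ ratio T (v 3) (v 2) := ratio_ge_one T (v.injective.ne (by decide)) e3_2
  have e3_4 : T.a (v 3) (v 4) ≠ 0 := h34
  have e4_3 : T.a (v 4) (v 3) ≠ 0 := s_ _ _ e3_4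
  have r3_4 : 1 ≤ ratio T (v 3) (v 4) := ratio_ge_one T (v.injective.ne (by decide)) e3_4
  have r4_3 : 1 ≤ ratio T (v 4) (v 3) := ratio_ge_one T (v.injective.ne (by decide)) e4_3
  have e4_5 : T.a (v 4) (v 5) ≠ 0 := h45
  have e5_4 : T.a (v 5) (v 4) ≠ 0 := s_ _ _ e4_5
  have r4_5 : 1 ≤ ratio T (v 4) (v 5) := ratio_ge_one T (v.injective.ne (by decide)) e4_5
  have r5_4 : 1 ≤ ratio T (v 5) (v 4) := ratio_ge_one T (v.injective.ne (by decide)) e5_4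
  have e5_6 : T.a (v 5) (v 6) ≠ 0 := h56
  have e6_5 : T.a (v 6) (v 5) ≠ 0 := s_ _ _ e5_6
  have r5_6 : 1 ≤ ratio T (v 5) (v 6) := ratio_ge_one T (v.injective.ne (by decide)) e5_6
  have r6_5 : 1 ≤ ratio T (v 6) (v 5) := ratio_ge_one T (v.injective.ne (by decide)) e6_5
  have e4_7 : T.a (v 4) (v 7) ≠ 0 := h47
  have e7_4 : T.a (v 7) (v 4) ≠ 0 := s_ _ _ e4_7
  have r4_7 : 1 ≤ ratio T (v 4) (v 7) := ratio_ge_one T (v.injective.ne (by decide)) e4_7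
  have r7_4 : 1 ≤ ratio T (v 7) (v 4) := ratio_ge_one T (v.injective.ne (by decide)) e7_4
  by_contra hz
  have r1_3 : 1 ≤ ratio T (v 1) (v 3) := ratio_ge_one T (v.injective.ne (by decide)) hz
  have r3_1 : 1 ≤ ratio T (v 3) (v 1) := ratio_ge_one T (v.injective.ne (by decide)) (s_ _ _ hz)
  refine no_test T (fun i => v (![1, 2, 3] i)) (v.injective.comp (by decide : Function.Injective (![1, 2, 3] : Fin 3 → Fin 8))) (lt_of_le_of_lt (by norm_num) hn) (fun i => hv _) ![1, 1, 1] ?_ ⟨0, by simp⟩ ?_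
  · intro p; fin_cases p <;> simp
  · intro p
    fin_cases p
    · refine ⟨[2, 1], by decide, by decide, ?_⟩
      simp
      linarith only [r1_3, r1_2]
    · refine ⟨[0, 2], by decide, by decide, ?_⟩
      simp
      linarith only [r2_1, r2_3]
    · refine ⟨[1, 0], by decide, by decide, ?_⟩
      simp
      linarith only [r3_2, r3_1]

theorem aux_z1_4 {n : ℕ} (T : Models.NumericalType n) (hn : 8 < n)
    (v : Fin 8 ↪ Fin n) (hv : ∀ j, T.IsMinusTwo (v j)) (h01 : T.a (v 0) (v 1) ≠ 0) (h12 : T.a (v 1) (v 2) ≠ 0) (h23 : T.a (v 2) (v 3) ≠ 0) (h34 : T.a (v 3) (v 4) ≠ 0) (h45 : T.a (v 4) (v 5) ≠ 0) (h56 : T.a (v 5) (v 6) ≠ 0) (h47 : T.a (v 4) (v 7) ≠ 0) : T.a (v 1) (v 4) = 0 := by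
  have s_ : ∀ i j, T.a i j ≠ 0 → T.a j i ≠ 0 := fun i j h => by rwa [a_symm T]
  have e0_1 : T.a (v 0) (v 1) ≠ 0 := h01
  have e1_0 : T.a (v 1) (v 0) ≠ 0 := s_ _ _ e0_1
  have r0_1 : 1 ≤ ratio T (v 0) (v 1) := ratio_ge_one T (v.injective.ne (by decide)) e0_1
  have r1_0 : 1 ≤ ratio T (v 1) (v 0) := ratio_ge_one T (v.injective.ne (by decide)) e1_0
  have e1_2 : T.a (v 1) (v 2) ≠ 0 := h12
  have e2_1 : T.a (v 2) (v 1) ≠ 0 := s_ _ _ e1_2
  have r1_2 : 1 ≤ ratio T (v 1) (v 2) := ratio_ge_one T (v.injective.ne (by decide)) e1_2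
  have r2_1 : 1 ≤ ratio T (v 2) (v 1) := ratio_ge_one T (v.injective.ne (by decide)) e2_1
  have e2_3 : T.a (v 2) (v 3) ≠ 0 := h23
  have e3_2 : T.a (v 3) (v 2) ≠ 0 := s_ _ _ e2_3
  have r2_3 : 1 ≤ ratio T (v 2) (v 3) := ratio_ge_one T (v.injective.ne (by decide)) e2_3
  have r3_2 : 1 ≤ ratio T (v 3) (v 2) := ratio_ge_one T (v.injective.ne (by decide)) e3_2
  have e3_4 : T.a (v 3) (v 4) ≠ 0 := h34
  have e4_3 : T.a (v 4) (v 3) ≠ 0 := s_ _ _ e3_4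
  have r3_4 : 1 ≤ ratio T (v 3) (v 4) := ratio_ge_one T (v.injective.ne (by decide)) e3_4
  have r4_3 : 1 ≤ ratio T (v 4) (v 3) := ratio_ge_one T (v.injective.ne (by decide)) e4_3
  have e4_5 : T.a (v 4) (v 5) ≠ 0 := h45
  have e5_4 : T.a (v 5) (v 4) ≠ 0 := s_ _ _ e4_5
  have r4_5 : 1 ≤ ratio T (v 4) (v 5) := ratio_ge_one T (v.injective.ne (by decide)) e4_5
  have r5_4 : 1 ≤ ratio T (v 5) (v 4) := ratio_ge_one T (v.injective.ne (by decide)) e5_4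
  have e5_6 : T.a (v 5) (v 6) ≠ 0 := h56
  have e6_5 : T.a (v 6) (v 5) ≠ 0 := s_ _ _ e5_6
  have r5_6 : 1 ≤ ratio T (v 5) (v 6) := ratio_ge_one T (v.injective.ne (by decide)) e5_6
  have r6_5 : 1 ≤ ratio T (v 6) (v 5) := ratio_ge_one T (v.injective.ne (by decide)) e6_5
  have e4_7 : T.a (v 4) (v 7) ≠ 0 := h47
  have e7_4 : T.a (v 7) (v 4) ≠ 0 := s_ _ _ e4_7
  have r4_7 : 1 ≤ ratio T (v 4) (v 7) := ratio_ge_one T (v.injective.ne (by decide)) e4_7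
  have r7_4 : 1 ≤ ratio T (v 7) (v 4) := ratio_ge_one T (v.injective.ne (by decide)) e7_4
  by_contra hz
  have r1_4 : 1 ≤ ratio T (v 1) (v 4) := ratio_ge_one T (v.injective.ne (by decide)) hz
  have r4_1 : 1 ≤ ratio T (v 4) (v 1) := ratio_ge_one T (v.injective.ne (by decide)) (s_ _ _ hz)
  refine no_test T (fun i => v (![1, 2, 3, 4] i)) (v.injective.comp (by decide : Function.Injective (![1, 2, 3, 4] : Fin 4 → Fin 8))) (lt_of_le_of_lt (by norm_num) hn) (fun i => hv _) ![1, 1, 1, 1] ?_ ⟨0, by simp⟩ ?_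
  · intro p; fin_cases p <;> simp
  · intro p
    fin_cases p
    · refine ⟨[3, 1], by decide, by decide, ?_⟩
      simp
      linarith only [r1_4, r1_2]
    · refine ⟨[0, 2], by decide, by decide, ?_⟩
      simp
      linarith only [r2_1, r2_3]
    · refine ⟨[1, 3], by decide, by decide, ?_⟩
      simp
      linarith only [r3_2, r3_4]
    · refine ⟨[2, 0], by decide, by decide, ?_⟩
      simp
      linarith only [r4_3, r4_1]

theorem aux_z1_5 {n : ℕ} (T : Models.NumericalType n) (hn : 8 < n)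
    (v : Fin 8 ↪ Fin n) (hv : ∀ j, T.IsMinusTwo (v j)) (h01 : T.a (v 0) (v 1) ≠ 0) (h12 : T.a (v 1) (v 2) ≠ 0) (h23 : T.a (v 2) (v 3) ≠ 0) (h34 : T.a (v 3) (v 4) ≠ 0) (h45 : T.a (v 4) (v 5) ≠ 0) (h56 : T.a (v 5) (v 6) ≠ 0) (h47 : T.a (v 4) (v 7) ≠ 0) : T.a (v 1) (v 5) = 0 := by
  have s_ : ∀ i j, T.a i j ≠ 0 → T.a j i ≠ 0 := fun i j h => by rwa [a_symm T]
  have e0_1 : T.a (v 0) (v 1) ≠ 0 := h01
  have e1_0 : T.a (v 1) (v 0) ≠ 0 := s_ _ _ e0_1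
  have r0_1 : 1 ≤ ratio T (v 0) (v 1) := ratio_ge_one T (v.injective.ne (by decide)) e0_1
  have r1_0 : 1 ≤ ratio T (v 1) (v 0) := ratio_ge_one T (v.injective.ne (by decide)) e1_0
  have e1_2 : T.a (v 1) (v 2) ≠ 0 := h12
  have e2_1 : T.a (v 2) (v 1) ≠ 0 := s_ _ _ e1_2
  have r1_2 : 1 ≤ ratio T (v 1) (v 2) := ratio_ge_one T (v.injective.ne (by decide)) e1_2
  have r2_1 : 1 ≤ ratio T (v 2) (v 1) := ratio_ge_one T (v.injective.ne (by decide)) e2_1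
  have e2_3 : T.a (v 2) (v 3) ≠ 0 := h23
  have e3_2 : T.a (v 3) (v 2) ≠ 0 := s_ _ _ e2_3
  have r2_3 : 1 ≤ ratio T (v 2) (v 3) := ratio_ge_one T (v.injective.ne (by decide)) e2_3
  have r3_2 : 1 ≤ ratio T (v 3) (v 2) := ratio_ge_one T (v.injective.ne (by decide)) e3_2
  have e3_4 : T.a (v 3) (v 4) ≠ 0 := h34
  have e4_3 : T.a (v 4) (v 3) ≠ 0 := s_ _ _ e3_4
  have r3_4 : 1 ≤ ratio T (v 3) (v 4) := ratio_ge_one T (v.injective.ne (by decide)) e3_4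
  have r4_3 : 1 ≤ ratio T (v 4) (v 3) := ratio_ge_one T (v.injective.ne (by decide)) e4_3
  have e4_5 : T.a (v 4) (v 5) ≠ 0 := h45
  have e5_4 : T.a (v 5) (v 4) ≠ 0 := s_ _ _ e4_5
  have r4_5 : 1 ≤ ratio T (v 4) (v 5) := ratio_ge_one T (v.injective.ne (by decide)) e4_5
  have r5_4 : 1 ≤ ratio T (v 5) (v 4) := ratio_ge_one T (v.injective.ne (by decide)) e5_4
  have e5_6 : T.a (v 5) (v 6) ≠ 0 := h56
  have e6_5 : T.a (v 6) (v 5) ≠ 0 := s_ _ _ e5_6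
  have r5_6 : 1 ≤ ratio T (v 5) (v 6) := ratio_ge_one T (v.injective.ne (by decide)) e5_6
  have r6_5 : 1 ≤ ratio T (v 6) (v 5) := ratio_ge_one T (v.injective.ne (by decide)) e6_5
  have e4_7 : T.a (v 4) (v 7) ≠ 0 := h47
  have e7_4 : T.a (v 7) (v 4) ≠ 0 := s_ _ _ e4_7
  have r4_7 : 1 ≤ ratio T (v 4) (v 7) := ratio_ge_one T (v.injective.ne (by decide)) e4_7
  have r7_4 : 1 ≤ ratio T (v 7) (v 4) := ratio_ge_one T (v.injective.ne (by decide)) e7_4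
  by_contra hz
  have r1_5 : 1 ≤ ratio T (v 1) (v 5) := ratio_ge_one T (v.injective.ne (by decide)) hz
  have r5_1 : 1 ≤ ratio T (v 5) (v 1) := ratio_ge_one T (v.injective.ne (by decide)) (s_ _ _ hz)
  refine no_test T (fun i => v (![1, 2, 3, 4, 5] i)) (v.injective.comp (by decide : Function.Injective (![1, 2, 3, 4, 5] : Fin 5 → Fin 8))) (lt_of_le_of_lt (by norm_num) hn) (fun i => hv _) ![1, 1, 1, 1, 1] ?_ ⟨0, by simp⟩ ?_
  · intro p; fin_cases p <;> simp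
  · intro p
    fin_cases p
    · refine ⟨[4, 1], by decide, by decide, ?_⟩
      simp
      linarith only [r1_5, r1_2]
    · refine ⟨[0, 2], by decide, by decide, ?_⟩
      simp
      linarith only [r2_1, r2_3]
    · refine ⟨[1, 3], by decide, by decide, ?_⟩
      simp
      linarith only [r3_2, r3_4]
    · refine ⟨[2, 4], by decide, by decide, ?_⟩
      simp
      linarith only [r4_3, r4_5]
    · refine ⟨[3, 0], by decide, by decide, ?_⟩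
      simp
      linarith only [r5_4, r5_1]

theorem aux_z1_6 {n : ℕ} (T : Models.NumericalType n) (hn : 8 < n)
    (v : Fin 8 ↪ Fin n) (hv : ∀ j, T.IsMinusTwo (v j)) (h01 : T.a (v 0) (v 1) ≠ 0) (h12 : T.a (v 1) (v 2) ≠ 0) (h23 : T.a (v 2) (v 3) ≠ 0) (h34 : T.a (v 3) (v 4) ≠ 0) (h45 : T.a (v 4) (v 5) ≠ 0) (h56 : T.a (v 5) (v 6) ≠ 0) (h47 : T.a (v 4) (v 7) ≠ 0) : T.a (v 1) (v 6) = 0 := by
  have s_ : ∀ i j, T.a i j ≠ 0 → T.a j i ≠ 0 := fun i j h => by rwa [a_symm T]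
  have e0_1 : T.a (v 0) (v 1) ≠ 0 := h01
  have e1_0 : T.a (v 1) (v 0) ≠ 0 := s_ _ _ e0_1
  have r0_1 : 1 ≤ ratio T (v 0) (v 1) := ratio_ge_one T (v.injective.ne (by decide)) e0_1
  have r1_0 : 1 ≤ ratio T (v 1) (v 0) := ratio_ge_one T (v.injective.ne (by decide)) e1_0
  have e1_2 : T.a (v 1) (v 2) ≠ 0 := h12
  have e2_1 : T.a (v 2) (v 1) ≠ 0 := s_ _ _ e1_2
  have r1_2 : 1 ≤ ratio T (v 1) (v 2) := ratio_ge_one T (v.injective.ne (by decide)) e1_2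
  have r2_1 : 1 ≤ ratio T (v 2) (v 1) := ratio_ge_one T (v.injective.ne (by decide)) e2_1
  have e2_3 : T.a (v 2) (v 3) ≠ 0 := h23
  have e3_2 : T.a (v 3) (v 2) ≠ 0 := s_ _ _ e2_3
  have r2_3 : 1 ≤ ratio T (v 2) (v 3) := ratio_ge_one T (v.injective.ne (by decide)) e2_3
  have r3_2 : 1 ≤ ratio T (v 3) (v 2) := ratio_ge_one T (v.injective.ne (by decide)) e3_2
  have e3_4 : T.a (v 3) (v 4) ≠ 0 := h34
  have e4_3 : T.a (v 4) (v 3) ≠ 0 := s_ _ _ e3_4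
  have r3_4 : 1 ≤ ratio T (v 3) (v 4) := ratio_ge_one T (v.injective.ne (by decide)) e3_4
  have r4_3 : 1 ≤ ratio T (v 4) (v 3) := ratio_ge_one T (v.injective.ne (by decide)) e4_3
  have e4_5 : T.a (v 4) (v 5) ≠ 0 := h45
  have e5_4 : T.a (v 5) (v 4) ≠ 0 := s_ _ _ e4_5
  have r4_5 : 1 ≤ ratio T (v 4) (v 5) := ratio_ge_one T (v.injective.ne (by decide)) e4_5
  have r5_4 : 1 ≤ ratio T (v 5) (v 4) := ratio_ge_one T (v.injective.ne (by decide)) e5_4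
  have e5_6 : T.a (v 5) (v 6) ≠ 0 := h56
  have e6_5 : T.a (v 6) (v 5) ≠ 0 := s_ _ _ e5_6
  have r5_6 : 1 ≤ ratio T (v 5) (v 6) := ratio_ge_one T (v.injective.ne (by decide)) e5_6
  have r6_5 : 1 ≤ ratio T (v 6) (v 5) := ratio_ge_one T (v.injective.ne (by decide)) e6_5
  have e4_7 : T.a (v 4) (v 7) ≠ 0 := h47
  have e7_4 : T.a (v 7) (v 4) ≠ 0 := s_ _ _ e4_7
  have r4_7 : 1 ≤ ratio T (v 4) (v 7) := ratio_ge_one T (v.injective.ne (by decide)) e4_7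
  have r7_4 : 1 ≤ ratio T (v 7) (v 4) := ratio_ge_one T (v.injective.ne (by decide)) e7_4
  by_contra hz
  have r1_6 : 1 ≤ ratio T (v 1) (v 6) := ratio_ge_one T (v.injective.ne (by decide)) hz
  have r6_1 : 1 ≤ ratio T (v 6) (v 1) := ratio_ge_one T (v.injective.ne (by decide)) (s_ _ _ hz)
  refine no_test T (fun i => v (![1, 2, 3, 4, 5, 6] i)) (v.injective.comp (by decide : Function.Injective (![1, 2, 3, 4, 5, 6] : Fin 6 → Fin 8))) (lt_of_le_of_lt (by norm_num) hn) (fun i => hv _) ![1, 1, 1, 1, 1, 1] ?_ ⟨0, by simp⟩ ?_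
  · intro p; fin_cases p <;> simp
  · intro p
    fin_cases p
    · refine ⟨[5, 1], by decide, by decide, ?_⟩
      simp
      linarith only [r1_6, r1_2]
    · refine ⟨[0, 2], by decide, by decide, ?_⟩
      simp
      linarith only [r2_1, r2_3]
    · refine ⟨[1, 3], by decide, by decide, ?_⟩
      simp
      linarith only [r3_2, r3_4]
    · refine ⟨[2, 4], by decide, by decide, ?_⟩
      simp
      linarith only [r4_3, r4_5]
    · refine ⟨[3, 5], by decide, by decide, ?_⟩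
      simp
      linarith only [r5_4, r5_6]
    · refine ⟨[4, 0], by decide, by decide, ?_⟩
      simp
      linarith only [r6_5, r6_1]

theorem aux_z1_7 {n : ℕ} (T : Models.NumericalType n) (hn : 8 < n)
    (v : Fin 8 ↪ Fin n) (hv : ∀ j, T.IsMinusTwo (v j)) (h01 : T.a (v 0) (v 1) ≠ 0) (h12 : T.a (v 1) (v 2) ≠ 0) (h23 : T.a (v 2) (v 3) ≠ 0) (h34 : T.a (v 3) (v 4) ≠ 0) (h45 : T.a (v 4) (v 5) ≠ 0) (h56 : T.a (v 5) (v 6) ≠ 0) (h47 : T.a (v 4) (v 7) ≠ 0) : T.a (v 1) (v 7) = 0 := by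
  have s_ : ∀ i j, T.a i j ≠ 0 → T.a j i ≠ 0 := fun i j h => by rwa [a_symm T]
  have e0_1 : T.a (v 0) (v 1) ≠ 0 := h01
  have e1_0 : T.a (v 1) (v 0) ≠ 0 := s_ _ _ e0_1
  have r0_1 : 1 ≤ ratio T (v 0) (v 1) := ratio_ge_one T (v.injective.ne (by decide)) e0_1
  have r1_0 : 1 ≤ ratio T (v 1) (v 0) := ratio_ge_one T (v.injective.ne (by decide)) e1_0
  have e1_2 : T.a (v 1) (v 2) ≠ 0 := h12
  have e2_1 : T.a (v 2) (v 1) ≠ 0 := s_ _ _ e1_2
  have r1_2 : 1 ≤ ratio T (v 1) (v 2) := ratio_ge_one T (v.injective.ne (by decide)) e1_2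
  have r2_1 : 1 ≤ ratio T (v 2) (v 1) := ratio_ge_one T (v.injective.ne (by decide)) e2_1
  have e2_3 : T.a (v 2) (v 3) ≠ 0 := h23
  have e3_2 : T.a (v 3) (v 2) ≠ 0 := s_ _ _ e2_3
  have r2_3 : 1 ≤ ratio T (v 2) (v 3) := ratio_ge_one T (v.injective.ne (by decide)) e2_3
  have r3_2 : 1 ≤ ratio T (v 3) (v 2) := ratio_ge_one T (v.injective.ne (by decide)) e3_2
  have e3_4 : T.a (v 3) (v 4) ≠ 0 := h34
  have e4_3 : T.a (v 4) (v 3) ≠ 0 := s_ _ _ e3_4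
  have r3_4 : 1 ≤ ratio T (v 3) (v 4) := ratio_ge_one T (v.injective.ne (by decide)) e3_4
  have r4_3 : 1 ≤ ratio T (v 4) (v 3) := ratio_ge_one T (v.injective.ne (by decide)) e4_3
  have e4_5 : T.a (v 4) (v 5) ≠ 0 := h45
  have e5_4 : T.a (v 5) (v 4) ≠ 0 := s_ _ _ e4_5
  have r4_5 : 1 ≤ ratio T (v 4) (v 5) := ratio_ge_one T (v.injective.ne (by decide)) e4_5
  have r5_4 : 1 ≤ ratio T (v 5) (v 4) := ratio_ge_one T (v.injective.ne (by decide)) e5_4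
  have e5_6 : T.a (v 5) (v 6) ≠ 0 := h56
  have e6_5 : T.a (v 6) (v 5) ≠ 0 := s_ _ _ e5_6
  have r5_6 : 1 ≤ ratio T (v 5) (v 6) := ratio_ge_one T (v.injective.ne (by decide)) e5_6
  have r6_5 : 1 ≤ ratio T (v 6) (v 5) := ratio_ge_one T (v.injective.ne (by decide)) e6_5
  have e4_7 : T.a (v 4) (v 7) ≠ 0 := h47
  have e7_4 : T.a (v 7) (v 4) ≠ 0 := s_ _ _ e4_7
  have r4_7 : 1 ≤ ratio T (v 4) (v 7) := ratio_ge_one T (v.injective.ne (by decide)) e4_7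
  have r7_4 : 1 ≤ ratio T (v 7) (v 4) := ratio_ge_one T (v.injective.ne (by decide)) e7_4
  by_contra hz
  have r1_7 : 1 ≤ ratio T (v 1) (v 7) := ratio_ge_one T (v.injective.ne (by decide)) hz
  have r7_1 : 1 ≤ ratio T (v 7) (v 1) := ratio_ge_one T (v.injective.ne (by decide)) (s_ _ _ hz)
  refine no_test T (fun i => v (![1, 2, 3, 4, 7] i)) (v.injective.comp (by decide : Function.Injective (![1, 2, 3, 4, 7] : Fin 5 → Fin 8))) (lt_of_le_of_lt (by norm_num) hn) (fun i => hv _) ![1, 1, 1, 1, 1] ?_ ⟨0, by simp⟩ ?_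
  · intro p; fin_cases p <;> simp
  · intro p
    fin_cases p
    · refine ⟨[4, 1], by decide, by decide, ?_⟩
      simp
      linarith only [r1_7, r1_2]
    · refine ⟨[0, 2], by decide, by decide, ?_⟩
      simp
      linarith only [r2_1, r2_3]
    · refine ⟨[1, 3], by decide, by decide, ?_⟩
      simp
      linarith only [r3_2, r3_4]
    · refine ⟨[2, 4], by decide, by decide, ?_⟩
      simp
      linarith only [r4_3, r4_7]
    · refine ⟨[3, 0], by decide, by decide, ?_⟩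
      simp
      linarith only [r7_4, r7_1]

theorem aux_z2_4 {n : ℕ} (T : Models.NumericalType n) (hn : 8 < n)
    (v : Fin 8 ↪ Fin n) (hv : ∀ j, T.IsMinusTwo (v j)) (h01 : T.a (v 0) (v 1) ≠ 0) (h12 : T.a (v 1) (v 2) ≠ 0) (h23 : T.a (v 2) (v 3) ≠ 0) (h34 : T.a (v 3) (v 4) ≠ 0) (h45 : T.a (v 4) (v 5) ≠ 0) (h56 : T.a (v 5) (v 6) ≠ 0) (h47 : T.a (v 4) (v 7) ≠ 0) : T.a (v 2) (v 4) = 0 := by
  have s_ : ∀ i j, T.a i j ≠ 0 → T.a j i ≠ 0 := fun i j h => by rwa [a_symm T]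
  have e0_1 : T.a (v 0) (v 1) ≠ 0 := h01
  have e1_0 : T.a (v 1) (v 0) ≠ 0 := s_ _ _ e0_1
  have r0_1 : 1 ≤ ratio T (v 0) (v 1) := ratio_ge_one T (v.injective.ne (by decide)) e0_1
  have r1_0 : 1 ≤ ratio T (v 1) (v 0) := ratio_ge_one T (v.injective.ne (by decide)) e1_0
  have e1_2 : T.a (v 1) (v 2) ≠ 0 := h12
  have e2_1 : T.a (v 2) (v 1) ≠ 0 := s_ _ _ e1_2
  have r1_2 : 1 ≤ ratio T (v 1) (v 2) := ratio_ge_one T (v.injective.ne (by decide)) e1_2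
  have r2_1 : 1 ≤ ratio T (v 2) (v 1) := ratio_ge_one T (v.injective.ne (by decide)) e2_1
  have e2_3 : T.a (v 2) (v 3) ≠ 0 := h23
  have e3_2 : T.a (v 3) (v 2) ≠ 0 := s_ _ _ e2_3
  have r2_3 : 1 ≤ ratio T (v 2) (v 3) := ratio_ge_one T (v.injective.ne (by decide)) e2_3
  have r3_2 : 1 ≤ ratio T (v 3) (v 2) := ratio_ge_one T (v.injective.ne (by decide)) e3_2
  have e3_4 : T.a (v 3) (v 4) ≠ 0 := h34
  have e4_3 : T.a (v 4) (v 3) ≠ 0 := s_ _ _ e3_4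
  have r3_4 : 1 ≤ ratio T (v 3) (v 4) := ratio_ge_one T (v.injective.ne (by decide)) e3_4
  have r4_3 : 1 ≤ ratio T (v 4) (v 3) := ratio_ge_one T (v.injective.ne (by decide)) e4_3
  have e4_5 : T.a (v 4) (v 5) ≠ 0 := h45
  have e5_4 : T.a (v 5) (v 4) ≠ 0 := s_ _ _ e4_5
  have r4_5 : 1 ≤ ratio T (v 4) (v 5) := ratio_ge_one T (v.injective.ne (by decide)) e4_5
  have r5_4 : 1 ≤ ratio T (v 5) (v 4) := ratio_ge_one T (v.injective.ne (by decide)) e5_4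
  have e5_6 : T.a (v 5) (v 6) ≠ 0 := h56
  have e6_5 : T.a (v 6) (v 5) ≠ 0 := s_ _ _ e5_6
  have r5_6 : 1 ≤ ratio T (v 5) (v 6) := ratio_ge_one T (v.injective.ne (by decide)) e5_6
  have r6_5 : 1 ≤ ratio T (v 6) (v 5) := ratio_ge_one T (v.injective.ne (by decide)) e6_5
  have e4_7 : T.a (v 4) (v 7) ≠ 0 := h47
  have e7_4 : T.a (v 7) (v 4) ≠ 0 := s_ _ _ e4_7
  have r4_7 : 1 ≤ ratio T (v 4) (v 7) := ratio_ge_one T (v.injective.ne (by decide)) e4_7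
  have r7_4 : 1 ≤ ratio T (v 7) (v 4) := ratio_ge_one T (v.injective.ne (by decide)) e7_4
  by_contra hz
  have r2_4 : 1 ≤ ratio T (v 2) (v 4) := ratio_ge_one T (v.injective.ne (by decide)) hz
  have r4_2 : 1 ≤ ratio T (v 4) (v 2) := ratio_ge_one T (v.injective.ne (by decide)) (s_ _ _ hz)
  refine no_test T (fun i => v (![2, 3, 4] i)) (v.injective.comp (by decide : Function.Injective (![2, 3, 4] : Fin 3 → Fin 8))) (lt_of_le_of_lt (by norm_num) hn) (fun i => hv _) ![1, 1, 1] ?_ ⟨0, by simp⟩ ?_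
  · intro p; fin_cases p <;> simp
  · intro p
    fin_cases p
    · refine ⟨[2, 1], by decide, by decide, ?_⟩
      simp
      linarith only [r2_4, r2_3]
    · refine ⟨[0, 2], by decide, by decide, ?_⟩
      simp
      linarith only [r3_2, r3_4]
    · refine ⟨[1, 0], by decide, by decide, ?_⟩
      simp
      linarith only [r4_3, r4_2]

theorem aux_z2_5 {n : ℕ} (T : Models.NumericalType n) (hn : 8 < n)
    (v : Fin 8 ↪ Fin n) (hv : ∀ j, T.IsMinusTwo (v j)) (h01 : T.a (v 0) (v 1) ≠ 0) (h12 : T.a (v 1) (v 2) ≠ 0) (h23 : T.a (v 2) (v 3) ≠ 0) (h34 : T.a (v 3) (v 4) ≠ 0) (h45 : T.a (v 4) (v 5) ≠ 0) (h56 : T.a (v 5) (v 6) ≠ 0) (h47 : T.a (v 4) (v 7) ≠ 0) : T.a (v 2) (v 5) = 0 := by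
  have s_ : ∀ i j, T.a i j ≠ 0 → T.a j i ≠ 0 := fun i j h => by rwa [a_symm T]
  have e0_1 : T.a (v 0) (v 1) ≠ 0 := h01
  have e1_0 : T.a (v 1) (v 0) ≠ 0 := s_ _ _ e0_1
  have r0_1 : 1 ≤ ratio T (v 0) (v 1) := ratio_ge_one T (v.injective.ne (by decide)) e0_1
  have r1_0 : 1 ≤ ratio T (v 1) (v 0) := ratio_ge_one T (v.injective.ne (by decide)) e1_0
  have e1_2 : T.a (v 1) (v 2) ≠ 0 := h12
  have e2_1 : T.a (v 2) (v 1) ≠ 0 := s_ _ _ e1_2
  have r1_2 : 1 ≤ ratio T (v 1) (v 2) := ratio_ge_one T (v.injective.ne (by decide)) e1_2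
  have r2_1 : 1 ≤ ratio T (v 2) (v 1) := ratio_ge_one T (v.injective.ne (by decide)) e2_1
  have e2_3 : T.a (v 2) (v 3) ≠ 0 := h23
  have e3_2 : T.a (v 3) (v 2) ≠ 0 := s_ _ _ e2_3
  have r2_3 : 1 ≤ ratio T (v 2) (v 3) := ratio_ge_one T (v.injective.ne (by decide)) e2_3
  have r3_2 : 1 ≤ ratio T (v 3) (v 2) := ratio_ge_one T (v.injective.ne (by decide)) e3_2
  have e3_4 : T.a (v 3) (v 4) ≠ 0 := h34
  have e4_3 : T.a (v 4) (v 3) ≠ 0 := s_ _ _ e3_4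
  have r3_4 : 1 ≤ ratio T (v 3) (v 4) := ratio_ge_one T (v.injective.ne (by decide)) e3_4
  have r4_3 : 1 ≤ ratio T (v 4) (v 3) := ratio_ge_one T (v.injective.ne (by decide)) e4_3
  have e4_5 : T.a (v 4) (v 5) ≠ 0 := h45
  have e5_4 : T.a (v 5) (v 4) ≠ 0 := s_ _ _ e4_5
  have r4_5 : 1 ≤ ratio T (v 4) (v 5) := ratio_ge_one T (v.injective.ne (by decide)) e4_5
  have r5_4 : 1 ≤ ratio T (v 5) (v 4) := ratio_ge_one T (v.injective.ne (by decide)) e5_4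
  have e5_6 : T.a (v 5) (v 6) ≠ 0 := h56
  have e6_5 : T.a (v 6) (v 5) ≠ 0 := s_ _ _ e5_6
  have r5_6 : 1 ≤ ratio T (v 5) (v 6) := ratio_ge_one T (v.injective.ne (by decide)) e5_6
  have r6_5 : 1 ≤ ratio T (v 6) (v 5) := ratio_ge_one T (v.injective.ne (by decide)) e6_5
  have e4_7 : T.a (v 4) (v 7) ≠ 0 := h47
  have e7_4 : T.a (v 7) (v 4) ≠ 0 := s_ _ _ e4_7
  have r4_7 : 1 ≤ ratio T (v 4) (v 7) := ratio_ge_one T (v.injective.ne (by decide)) e4_7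
  have r7_4 : 1 ≤ ratio T (v 7) (v 4) := ratio_ge_one T (v.injective.ne (by decide)) e7_4
  by_contra hz
  have r2_5 : 1 ≤ ratio T (v 2) (v 5) := ratio_ge_one T (v.injective.ne (by decide)) hz
  have r5_2 : 1 ≤ ratio T (v 5) (v 2) := ratio_ge_one T (v.injective.ne (by decide)) (s_ _ _ hz)
  refine no_test T (fun i => v (![2, 3, 4, 5] i)) (v.injective.comp (by decide : Function.Injective (![2, 3, 4, 5] : Fin 4 → Fin 8))) (lt_of_le_of_lt (by norm_num) hn) (fun i => hv _) ![1, 1, 1, 1] ?_ ⟨0, by simp⟩ ?_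
  · intro p; fin_cases p <;> simp
  · intro p
    fin_cases p
    · refine ⟨[3, 1], by decide, by decide, ?_⟩
      simp
      linarith only [r2_5, r2_3]
    · refine ⟨[0, 2], by decide, by decide, ?_⟩
      simp
      linarith only [r3_2, r3_4]
    · refine ⟨[1, 3], by decide, by decide, ?_⟩
      simp
      linarith only [r4_3, r4_5]
    · refine ⟨[2, 0], by decide, by decide, ?_⟩
      simp
      linarith only [r5_4, r5_2]

theorem aux_z2_6 {n : ℕ} (T : Models.NumericalType n) (hn : 8 < n)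
    (v : Fin 8 ↪ Fin n) (hv : ∀ j, T.IsMinusTwo (v j)) (h01 : T.a (v 0) (v 1) ≠ 0) (h12 : T.a (v 1) (v 2) ≠ 0) (h23 : T.a (v 2) (v 3) ≠ 0) (h34 : T.a (v 3) (v 4) ≠ 0) (h45 : T.a (v 4) (v 5) ≠ 0) (h56 : T.a (v 5) (v 6) ≠ 0) (h47 : T.a (v 4) (v 7) ≠ 0) : T.a (v 2) (v 6) = 0 := by
  have s_ : ∀ i j, T.a i j ≠ 0 → T.a j i ≠ 0 := fun i j h => by rwa [a_symm T]
  have e0_1 : T.a (v 0) (v 1) ≠ 0 := h01
  have e1_0 : T.a (v 1) (v 0) ≠ 0 := s_ _ _ e0_1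
  have r0_1 : 1 ≤ ratio T (v 0) (v 1) := ratio_ge_one T (v.injective.ne (by decide)) e0_1
  have r1_0 : 1 ≤ ratio T (v 1) (v 0) := ratio_ge_one T (v.injective.ne (by decide)) e1_0
  have e1_2 : T.a (v 1) (v 2) ≠ 0 := h12
  have e2_1 : T.a (v 2) (v 1) ≠ 0 := s_ _ _ e1_2
  have r1_2 : 1 ≤ ratio T (v 1) (v 2) := ratio_ge_one T (v.injective.ne (by decide)) e1_2
  have r2_1 : 1 ≤ ratio T (v 2) (v 1) := ratio_ge_one T (v.injective.ne (by decide)) e2_1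
  have e2_3 : T.a (v 2) (v 3) ≠ 0 := h23
  have e3_2 : T.a (v 3) (v 2) ≠ 0 := s_ _ _ e2_3
  have r2_3 : 1 ≤ ratio T (v 2) (v 3) := ratio_ge_one T (v.injective.ne (by decide)) e2_3
  have r3_2 : 1 ≤ ratio T (v 3) (v 2) := ratio_ge_one T (v.injective.ne (by decide)) e3_2
  have e3_4 : T.a (v 3) (v 4) ≠ 0 := h34
  have e4_3 : T.a (v 4) (v 3) ≠ 0 := s_ _ _ e3_4
  have r3_4 : 1 ≤ ratio T (v 3) (v 4) := ratio_ge_one T (v.injective.ne (by decide)) e3_4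
  have r4_3 : 1 ≤ ratio T (v 4) (v 3) := ratio_ge_one T (v.injective.ne (by decide)) e4_3
  have e4_5 : T.a (v 4) (v 5) ≠ 0 := h45
  have e5_4 : T.a (v 5) (v 4) ≠ 0 := s_ _ _ e4_5
  have r4_5 : 1 ≤ ratio T (v 4) (v 5) := ratio_ge_one T (v.injective.ne (by decide)) e4_5
  have r5_4 : 1 ≤ ratio T (v 5) (v 4) := ratio_ge_one T (v.injective.ne (by decide)) e5_4
  have e5_6 : T.a (v 5) (v 6) ≠ 0 := h56
  have e6_5 : T.a (v 6) (v 5) ≠ 0 := s_ _ _ e5_6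
  have r5_6 : 1 ≤ ratio T (v 5) (v 6) := ratio_ge_one T (v.injective.ne (by decide)) e5_6
  have r6_5 : 1 ≤ ratio T (v 6) (v 5) := ratio_ge_one T (v.injective.ne (by decide)) e6_5
  have e4_7 : T.a (v 4) (v 7) ≠ 0 := h47
  have e7_4 : T.a (v 7) (v 4) ≠ 0 := s_ _ _ e4_7
  have r4_7 : 1 ≤ ratio T (v 4) (v 7) := ratio_ge_one T (v.injective.ne (by decide)) e4_7
  have r7_4 : 1 ≤ ratio T (v 7) (v 4) := ratio_ge_one T (v.injective.ne (by decide)) e7_4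
  by_contra hz
  have r2_6 : 1 ≤ ratio T (v 2) (v 6) := ratio_ge_one T (v.injective.ne (by decide)) hz
  have r6_2 : 1 ≤ ratio T (v 6) (v 2) := ratio_ge_one T (v.injective.ne (by decide)) (s_ _ _ hz)
  refine no_test T (fun i => v (![2, 3, 4, 5, 6] i)) (v.injective.comp (by decide : Function.Injective (![2, 3, 4, 5, 6] : Fin 5 → Fin 8))) (lt_of_le_of_lt (by norm_num) hn) (fun i => hv _) ![1, 1, 1, 1, 1] ?_ ⟨0, by simp⟩ ?_
  · intro p; fin_cases p <;> simp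
  · intro p
    fin_cases p
    · refine ⟨[4, 1], by decide, by decide, ?_⟩
      simp
      linarith only [r2_6, r2_3]
    · refine ⟨[0, 2], by decide, by decide, ?_⟩
      simp
      linarith only [r3_2, r3_4]
    · refine ⟨[1, 3], by decide, by decide, ?_⟩
      simp
      linarith only [r4_3, r4_5]
    · refine ⟨[2, 4], by decide, by decide, ?_⟩
      simp
      linarith only [r5_4, r5_6]
    · refine ⟨[3, 0], by decide, by decide, ?_⟩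
      simp
      linarith only [r6_5, r6_2]

theorem aux_z2_7 {n : ℕ} (T : Models.NumericalType n) (hn : 8 < n)
    (v : Fin 8 ↪ Fin n) (hv : ∀ j, T.IsMinusTwo (v j)) (h01 : T.a (v 0) (v 1) ≠ 0) (h12 : T.a (v 1) (v 2) ≠ 0) (h23 : T.a (v 2) (v 3) ≠ 0) (h34 : T.a (v 3) (v 4) ≠ 0) (h45 : T.a (v 4) (v 5) ≠ 0) (h56 : T.a (v 5) (v 6) ≠ 0) (h47 : T.a (v 4) (v 7) ≠ 0) : T.a (v 2) (v 7) = 0 := by
  have s_ : ∀ i j, T.a i j ≠ 0 → T.a j i ≠ 0 := fun i j h => by rwa [a_symm T]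
  have e0_1 : T.a (v 0) (v 1) ≠ 0 := h01
  have e1_0 : T.a (v 1) (v 0) ≠ 0 := s_ _ _ e0_1
  have r0_1 : 1 ≤ ratio T (v 0) (v 1) := ratio_ge_one T (v.injective.ne (by decide)) e0_1
  have r1_0 : 1 ≤ ratio T (v 1) (v 0) := ratio_ge_one T (v.injective.ne (by decide)) e1_0
  have e1_2 : T.a (v 1) (v 2) ≠ 0 := h12
  have e2_1 : T.a (v 2) (v 1) ≠ 0 := s_ _ _ e1_2
  have r1_2 : 1 ≤ ratio T (v 1) (v 2) := ratio_ge_one T (v.injective.ne (by decide)) e1_2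
  have r2_1 : 1 ≤ ratio T (v 2) (v 1) := ratio_ge_one T (v.injective.ne (by decide)) e2_1
  have e2_3 : T.a (v 2) (v 3) ≠ 0 := h23
  have e3_2 : T.a (v 3) (v 2) ≠ 0 := s_ _ _ e2_3
  have r2_3 : 1 ≤ ratio T (v 2) (v 3) := ratio_ge_one T (v.injective.ne (by decide)) e2_3
  have r3_2 : 1 ≤ ratio T (v 3) (v 2) := ratio_ge_one T (v.injective.ne (by decide)) e3_2
  have e3_4 : T.a (v 3) (v 4) ≠ 0 := h34
  have e4_3 : T.a (v 4) (v 3) ≠ 0 := s_ _ _ e3_4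
  have r3_4 : 1 ≤ ratio T (v 3) (v 4) := ratio_ge_one T (v.injective.ne (by decide)) e3_4
  have r4_3 : 1 ≤ ratio T (v 4) (v 3) := ratio_ge_one T (v.injective.ne (by decide)) e4_3
  have e4_5 : T.a (v 4) (v 5) ≠ 0 := h45
  have e5_4 : T.a (v 5) (v 4) ≠ 0 := s_ _ _ e4_5
  have r4_5 : 1 ≤ ratio T (v 4) (v 5) := ratio_ge_one T (v.injective.ne (by decide)) e4_5
  have r5_4 : 1 ≤ ratio T (v 5) (v 4) := ratio_ge_one T (v.injective.ne (by decide)) e5_4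
  have e5_6 : T.a (v 5) (v 6) ≠ 0 := h56
  have e6_5 : T.a (v 6) (v 5) ≠ 0 := s_ _ _ e5_6
  have r5_6 : 1 ≤ ratio T (v 5) (v 6) := ratio_ge_one T (v.injective.ne (by decide)) e5_6
  have r6_5 : 1 ≤ ratio T (v 6) (v 5) := ratio_ge_one T (v.injective.ne (by decide)) e6_5
  have e4_7 : T.a (v 4) (v 7) ≠ 0 := h47
  have e7_4 : T.a (v 7) (v 4) ≠ 0 := s_ _ _ e4_7
  have r4_7 : 1 ≤ ratio T (v 4) (v 7) := ratio_ge_one T (v.injective.ne (by decide)) e4_7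
  have r7_4 : 1 ≤ ratio T (v 7) (v 4) := ratio_ge_one T (v.injective.ne (by decide)) e7_4
  by_contra hz
  have r2_7 : 1 ≤ ratio T (v 2) (v 7) := ratio_ge_one T (v.injective.ne (by decide)) hz
  have r7_2 : 1 ≤ ratio T (v 7) (v 2) := ratio_ge_one T (v.injective.ne (by decide)) (s_ _ _ hz)
  refine no_test T (fun i => v (![2, 3, 4, 7] i)) (v.injective.comp (by decide : Function.Injective (![2, 3, 4, 7] : Fin 4 → Fin 8))) (lt_of_le_of_lt (by norm_num) hn) (fun i => hv _) ![1, 1, 1, 1] ?_ ⟨0, by simp⟩ ?_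
  · intro p; fin_cases p <;> simp
  · intro p
    fin_cases p
    · refine ⟨[3, 1], by decide, by decide, ?_⟩
      simp
      linarith only [r2_7, r2_3]
    · refine ⟨[0, 2], by decide, by decide, ?_⟩
      simp
      linarith only [r3_2, r3_4]
    · refine ⟨[1, 3], by decide, by decide, ?_⟩
      simp
      linarith only [r4_3, r4_7]
    · refine ⟨[2, 0], by decide, by decide, ?_⟩
      simp
      linarith only [r7_4, r7_2]

theorem aux_z3_5 {n : ℕ} (T : Models.NumericalType n) (hn : 8 < n)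
    (v : Fin 8 ↪ Fin n) (hv : ∀ j, T.IsMinusTwo (v j)) (h01 : T.a (v 0) (v 1) ≠ 0) (h12 : T.a (v 1) (v 2) ≠ 0) (h23 : T.a (v 2) (v 3) ≠ 0) (h34 : T.a (v 3) (v 4) ≠ 0) (h45 : T.a (v 4) (v 5) ≠ 0) (h56 : T.a (v 5) (v 6) ≠ 0) (h47 : T.a (v 4) (v 7) ≠ 0) : T.a (v 3) (v 5) = 0 := by
  have s_ : ∀ i j, T.a i j ≠ 0 → T.a j i ≠ 0 := fun i j h => by rwa [a_symm T]
  have e0_1 : T.a (v 0) (v 1) ≠ 0 := h01
  have e1_0 : T.a (v 1) (v 0) ≠ 0 := s_ _ _ e0_1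
  have r0_1 : 1 ≤ ratio T (v 0) (v 1) := ratio_ge_one T (v.injective.ne (by decide)) e0_1
  have r1_0 : 1 ≤ ratio T (v 1) (v 0) := ratio_ge_one T (v.injective.ne (by decide)) e1_0
  have e1_2 : T.a (v 1) (v 2) ≠ 0 := h12
  have e2_1 : T.a (v 2) (v 1) ≠ 0 := s_ _ _ e1_2
  have r1_2 : 1 ≤ ratio T (v 1) (v 2) := ratio_ge_one T (v.injective.ne (by decide)) e1_2
  have r2_1 : 1 ≤ ratio T (v 2) (v 1) := ratio_ge_one T (v.injective.ne (by decide)) e2_1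
  have e2_3 : T.a (v 2) (v 3) ≠ 0 := h23
  have e3_2 : T.a (v 3) (v 2) ≠ 0 := s_ _ _ e2_3
  have r2_3 : 1 ≤ ratio T (v 2) (v 3) := ratio_ge_one T (v.injective.ne (by decide)) e2_3
  have r3_2 : 1 ≤ ratio T (v 3) (v 2) := ratio_ge_one T (v.injective.ne (by decide)) e3_2
  have e3_4 : T.a (v 3) (v 4) ≠ 0 := h34
  have e4_3 : T.a (v 4) (v 3) ≠ 0 := s_ _ _ e3_4
  have r3_4 : 1 ≤ ratio T (v 3) (v 4) := ratio_ge_one T (v.injective.ne (by decide)) e3_4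
  have r4_3 : 1 ≤ ratio T (v 4) (v 3) := ratio_ge_one T (v.injective.ne (by decide)) e4_3
  have e4_5 : T.a (v 4) (v 5) ≠ 0 := h45
  have e5_4 : T.a (v 5) (v 4) ≠ 0 := s_ _ _ e4_5
  have r4_5 : 1 ≤ ratio T (v 4) (v 5) := ratio_ge_one T (v.injective.ne (by decide)) e4_5
  have r5_4 : 1 ≤ ratio T (v 5) (v 4) := ratio_ge_one T (v.injective.ne (by decide)) e5_4
  have e5_6 : T.a (v 5) (v 6) ≠ 0 := h56
  have e6_5 : T.a (v 6) (v 5) ≠ 0 := s_ _ _ e5_6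
  have r5_6 : 1 ≤ ratio T (v 5) (v 6) := ratio_ge_one T (v.injective.ne (by decide)) e5_6
  have r6_5 : 1 ≤ ratio T (v 6) (v 5) := ratio_ge_one T (v.injective.ne (by decide)) e6_5
  have e4_7 : T.a (v 4) (v 7) ≠ 0 := h47
  have e7_4 : T.a (v 7) (v 4) ≠ 0 := s_ _ _ e4_7
  have r4_7 : 1 ≤ ratio T (v 4) (v 7) := ratio_ge_one T (v.injective.ne (by decide)) e4_7
  have r7_4 : 1 ≤ ratio T (v 7) (v 4) := ratio_ge_one T (v.injective.ne (by decide)) e7_4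
  by_contra hz
  have r3_5 : 1 ≤ ratio T (v 3) (v 5) := ratio_ge_one T (v.injective.ne (by decide)) hz
  have r5_3 : 1 ≤ ratio T (v 5) (v 3) := ratio_ge_one T (v.injective.ne (by decide)) (s_ _ _ hz)
  refine no_test T (fun i => v (![3, 4, 5] i)) (v.injective.comp (by decide : Function.Injective (![3, 4, 5] : Fin 3 → Fin 8))) (lt_of_le_of_lt (by norm_num) hn) (fun i => hv _) ![1, 1, 1] ?_ ⟨0, by simp⟩ ?_
  · intro p; fin_cases p <;> simp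
  · intro p
    fin_cases p
    · refine ⟨[2, 1], by decide, by decide, ?_⟩
      simp
      linarith only [r3_5, r3_4]
    · refine ⟨[0, 2], by decide, by decide, ?_⟩
      simp
      linarith only [r4_3, r4_5]
    · refine ⟨[1, 0], by decide, by decide, ?_⟩
      simp
      linarith only [r5_4, r5_3]

theorem aux_z3_6 {n : ℕ} (T : Models.NumericalType n) (hn : 8 < n)
    (v : Fin 8 ↪ Fin n) (hv : ∀ j, T.IsMinusTwo (v j)) (h01 : T.a (v 0) (v 1) ≠ 0) (h12 : T.a (v 1) (v 2) ≠ 0) (h23 : T.a (v 2) (v 3) ≠ 0) (h34 : T.a (v 3) (v 4) ≠ 0) (h45 : T.a (v 4) (v 5) ≠ 0) (h56 : T.a (v 5) (v 6) ≠ 0) (h47 : T.a (v 4) (v 7) ≠ 0) : T.a (v 3) (v 6) = 0 := by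
  have s_ : ∀ i j, T.a i j ≠ 0 → T.a j i ≠ 0 := fun i j h => by rwa [a_symm T]
  have e0_1 : T.a (v 0) (v 1) ≠ 0 := h01
  have e1_0 : T.a (v 1) (v 0) ≠ 0 := s_ _ _ e0_1
  have r0_1 : 1 ≤ ratio T (v 0) (v 1) := ratio_ge_one T (v.injective.ne (by decide)) e0_1
  have r1_0 : 1 ≤ ratio T (v 1) (v 0) := ratio_ge_one T (v.injective.ne (by decide)) e1_0
  have e1_2 : T.a (v 1) (v 2) ≠ 0 := h12
  have e2_1 : T.a (v 2) (v 1) ≠ 0 := s_ _ _ e1_2
  have r1_2 : 1 ≤ ratio T (v 1) (v 2) := ratio_ge_one T (v.injective.ne (by decide)) e1_2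
  have r2_1 : 1 ≤ ratio T (v 2) (v 1) := ratio_ge_one T (v.injective.ne (by decide)) e2_1
  have e2_3 : T.a (v 2) (v 3) ≠ 0 := h23
  have e3_2 : T.a (v 3) (v 2) ≠ 0 := s_ _ _ e2_3
  have r2_3 : 1 ≤ ratio T (v 2) (v 3) := ratio_ge_one T (v.injective.ne (by decide)) e2_3
  have r3_2 : 1 ≤ ratio T (v 3) (v 2) := ratio_ge_one T (v.injective.ne (by decide)) e3_2
  have e3_4 : T.a (v 3) (v 4) ≠ 0 := h34
  have e4_3 : T.a (v 4) (v 3) ≠ 0 := s_ _ _ e3_4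
  have r3_4 : 1 ≤ ratio T (v 3) (v 4) := ratio_ge_one T (v.injective.ne (by decide)) e3_4
  have r4_3 : 1 ≤ ratio T (v 4) (v 3) := ratio_ge_one T (v.injective.ne (by decide)) e4_3
  have e4_5 : T.a (v 4) (v 5) ≠ 0 := h45
  have e5_4 : T.a (v 5) (v 4) ≠ 0 := s_ _ _ e4_5
  have r4_5 : 1 ≤ ratio T (v 4) (v 5) := ratio_ge_one T (v.injective.ne (by decide)) e4_5
  have r5_4 : 1 ≤ ratio T (v 5) (v 4) := ratio_ge_one T (v.injective.ne (by decide)) e5_4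
  have e5_6 : T.a (v 5) (v 6) ≠ 0 := h56
  have e6_5 : T.a (v 6) (v 5) ≠ 0 := s_ _ _ e5_6
  have r5_6 : 1 ≤ ratio T (v 5) (v 6) := ratio_ge_one T (v.injective.ne (by decide)) e5_6
  have r6_5 : 1 ≤ ratio T (v 6) (v 5) := ratio_ge_one T (v.injective.ne (by decide)) e6_5
  have e4_7 : T.a (v 4) (v 7) ≠ 0 := h47
  have e7_4 : T.a (v 7) (v 4) ≠ 0 := s_ _ _ e4_7
  have r4_7 : 1 ≤ ratio T (v 4) (v 7) := ratio_ge_one T (v.injective.ne (by decide)) e4_7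
  have r7_4 : 1 ≤ ratio T (v 7) (v 4) := ratio_ge_one T (v.injective.ne (by decide)) e7_4
  by_contra hz
  have r3_6 : 1 ≤ ratio T (v 3) (v 6) := ratio_ge_one T (v.injective.ne (by decide)) hz
  have r6_3 : 1 ≤ ratio T (v 6) (v 3) := ratio_ge_one T (v.injective.ne (by decide)) (s_ _ _ hz)
  refine no_test T (fun i => v (![3, 4, 5, 6] i)) (v.injective.comp (by decide : Function.Injective (![3, 4, 5, 6] : Fin 4 → Fin 8))) (lt_of_le_of_lt (by norm_num) hn) (fun i => hv _) ![1, 1, 1, 1] ?_ ⟨0, by simp⟩ ?_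
  · intro p; fin_cases p <;> simp
  · intro p
    fin_cases p
    · refine ⟨[3, 1], by decide, by decide, ?_⟩
      simp
      linarith only [r3_6, r3_4]
    · refine ⟨[0, 2], by decide, by decide, ?_⟩
      simp
      linarith only [r4_3, r4_5]
    · refine ⟨[1, 3], by decide, by decide, ?_⟩
      simp
      linarith only [r5_4, r5_6]
    · refine ⟨[2, 0], by decide, by decide, ?_⟩
      simp
      linarith only [r6_5, r6_3]

theorem aux_z3_7 {n : ℕ} (T : Models.NumericalType n) (hn : 8 < n)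
    (v : Fin 8 ↪ Fin n) (hv : ∀ j, T.IsMinusTwo (v j)) (h01 : T.a (v 0) (v 1) ≠ 0) (h12 : T.a (v 1) (v 2) ≠ 0) (h23 : T.a (v 2) (v 3) ≠ 0) (h34 : T.a (v 3) (v 4) ≠ 0) (h45 : T.a (v 4) (v 5) ≠ 0) (h56 : T.a (v 5) (v 6) ≠ 0) (h47 : T.a (v 4) (v 7) ≠ 0) : T.a (v 3) (v 7) = 0 := by
  have s_ : ∀ i j, T.a i j ≠ 0 → T.a j i ≠ 0 := fun i j h => by rwa [a_symm T]
  have e0_1 : T.a (v 0) (v 1) ≠ 0 := h01
  have e1_0 : T.a (v 1) (v 0) ≠ 0 := s_ _ _ e0_1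
  have r0_1 : 1 ≤ ratio T (v 0) (v 1) := ratio_ge_one T (v.injective.ne (by decide)) e0_1
  have r1_0 : 1 ≤ ratio T (v 1) (v 0) := ratio_ge_one T (v.injective.ne (by decide)) e1_0
  have e1_2 : T.a (v 1) (v 2) ≠ 0 := h12
  have e2_1 : T.a (v 2) (v 1) ≠ 0 := s_ _ _ e1_2
  have r1_2 : 1 ≤ ratio T (v 1) (v 2) := ratio_ge_one T (v.injective.ne (by decide)) e1_2
  have r2_1 : 1 ≤ ratio T (v 2) (v 1) := ratio_ge_one T (v.injective.ne (by decide)) e2_1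
  have e2_3 : T.a (v 2) (v 3) ≠ 0 := h23
  have e3_2 : T.a (v 3) (v 2) ≠ 0 := s_ _ _ e2_3
  have r2_3 : 1 ≤ ratio T (v 2) (v 3) := ratio_ge_one T (v.injective.ne (by decide)) e2_3
  have r3_2 : 1 ≤ ratio T (v 3) (v 2) := ratio_ge_one T (v.injective.ne (by decide)) e3_2
  have e3_4 : T.a (v 3) (v 4) ≠ 0 := h34
  have e4_3 : T.a (v 4) (v 3) ≠ 0 := s_ _ _ e3_4
  have r3_4 : 1 ≤ ratio T (v 3) (v 4) := ratio_ge_one T (v.injective.ne (by decide)) e3_4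
  have r4_3 : 1 ≤ ratio T (v 4) (v 3) := ratio_ge_one T (v.injective.ne (by decide)) e4_3
  have e4_5 : T.a (v 4) (v 5) ≠ 0 := h45
  have e5_4 : T.a (v 5) (v 4) ≠ 0 := s_ _ _ e4_5
  have r4_5 : 1 ≤ ratio T (v 4) (v 5) := ratio_ge_one T (v.injective.ne (by decide)) e4_5
  have r5_4 : 1 ≤ ratio T (v 5) (v 4) := ratio_ge_one T (v.injective.ne (by decide)) e5_4
  have e5_6 : T.a (v 5) (v 6) ≠ 0 := h56
  have e6_5 : T.a (v 6) (v 5) ≠ 0 := s_ _ _ e5_6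
  have r5_6 : 1 ≤ ratio T (v 5) (v 6) := ratio_ge_one T (v.injective.ne (by decide)) e5_6
  have r6_5 : 1 ≤ ratio T (v 6) (v 5) := ratio_ge_one T (v.injective.ne (by decide)) e6_5
  have e4_7 : T.a (v 4) (v 7) ≠ 0 := h47
  have e7_4 : T.a (v 7) (v 4) ≠ 0 := s_ _ _ e4_7
  have r4_7 : 1 ≤ ratio T (v 4) (v 7) := ratio_ge_one T (v.injective.ne (by decide)) e4_7
  have r7_4 : 1 ≤ ratio T (v 7) (v 4) := ratio_ge_one T (v.injective.ne (by decide)) e7_4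
  by_contra hz
  have r3_7 : 1 ≤ ratio T (v 3) (v 7) := ratio_ge_one T (v.injective.ne (by decide)) hz
  have r7_3 : 1 ≤ ratio T (v 7) (v 3) := ratio_ge_one T (v.injective.ne (by decide)) (s_ _ _ hz)
  refine no_test T (fun i => v (![3, 4, 7] i)) (v.injective.comp (by decide : Function.Injective (![3, 4, 7] : Fin 3 → Fin 8))) (lt_of_le_of_lt (by norm_num) hn) (fun i => hv _) ![1, 1, 1] ?_ ⟨0, by simp⟩ ?_
  · intro p; fin_cases p <;> simp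
  · intro p
    fin_cases p
    · refine ⟨[2, 1], by decide, by decide, ?_⟩
      simp
      linarith only [r3_7, r3_4]
    · refine ⟨[0, 2], by decide, by decide, ?_⟩
      simp
      linarith only [r4_3, r4_7]
    · refine ⟨[1, 0], by decide, by decide, ?_⟩
      simp
      linarith only [r7_4, r7_3]

theorem aux_z4_6 {n : ℕ} (T : Models.NumericalType n) (hn : 8 < n)
    (v : Fin 8 ↪ Fin n) (hv : ∀ j, T.IsMinusTwo (v j)) (h01 : T.a (v 0) (v 1) ≠ 0) (h12 : T.a (v 1) (v 2) ≠ 0) (h23 : T.a (v 2) (v 3) ≠ 0) (h34 : T.a (v 3) (v 4) ≠ 0) (h45 : T.a (v 4) (v 5) ≠ 0) (h56 : T.a (v 5) (v 6) ≠ 0) (h47 : T.a (v 4) (v 7) ≠ 0) : T.a (v 4) (v 6) = 0 := by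
  have s_ : ∀ i j, T.a i j ≠ 0 → T.a j i ≠ 0 := fun i j h => by rwa [a_symm T]
  have e0_1 : T.a (v 0) (v 1) ≠ 0 := h01
  have e1_0 : T.a (v 1) (v 0) ≠ 0 := s_ _ _ e0_1
  have r0_1 : 1 ≤ ratio T (v 0) (v 1) := ratio_ge_one T (v.injective.ne (by decide)) e0_1
  have r1_0 : 1 ≤ ratio T (v 1) (v 0) := ratio_ge_one T (v.injective.ne (by decide)) e1_0
  have e1_2 : T.a (v 1) (v 2) ≠ 0 := h12
  have e2_1 : T.a (v 2) (v 1) ≠ 0 := s_ _ _ e1_2
  have r1_2 : 1 ≤ ratio T (v 1) (v 2) := ratio_ge_one T (v.injective.ne (by decide)) e1_2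
  have r2_1 : 1 ≤ ratio T (v 2) (v 1) := ratio_ge_one T (v.injective.ne (by decide)) e2_1
  have e2_3 : T.a (v 2) (v 3) ≠ 0 := h23
  have e3_2 : T.a (v 3) (v 2) ≠ 0 := s_ _ _ e2_3
  have r2_3 : 1 ≤ ratio T (v 2) (v 3) := ratio_ge_one T (v.injective.ne (by decide)) e2_3
  have r3_2 : 1 ≤ ratio T (v 3) (v 2) := ratio_ge_one T (v.injective.ne (by decide)) e3_2
  have e3_4 : T.a (v 3) (v 4) ≠ 0 := h34
  have e4_3 : T.a (v 4) (v 3) ≠ 0 := s_ _ _ e3_4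
  have r3_4 : 1 ≤ ratio T (v 3) (v 4) := ratio_ge_one T (v.injective.ne (by decide)) e3_4
  have r4_3 : 1 ≤ ratio T (v 4) (v 3) := ratio_ge_one T (v.injective.ne (by decide)) e4_3
  have e4_5 : T.a (v 4) (v 5) ≠ 0 := h45
  have e5_4 : T.a (v 5) (v 4) ≠ 0 := s_ _ _ e4_5
  have r4_5 : 1 ≤ ratio T (v 4) (v 5) := ratio_ge_one T (v.injective.ne (by decide)) e4_5
  have r5_4 : 1 ≤ ratio T (v 5) (v 4) := ratio_ge_one T (v.injective.ne (by decide)) e5_4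
  have e5_6 : T.a (v 5) (v 6) ≠ 0 := h56
  have e6_5 : T.a (v 6) (v 5) ≠ 0 := s_ _ _ e5_6
  have r5_6 : 1 ≤ ratio T (v 5) (v 6) := ratio_ge_one T (v.injective.ne (by decide)) e5_6
  have r6_5 : 1 ≤ ratio T (v 6) (v 5) := ratio_ge_one T (v.injective.ne (by decide)) e6_5
  have e4_7 : T.a (v 4) (v 7) ≠ 0 := h47
  have e7_4 : T.a (v 7) (v 4) ≠ 0 := s_ _ _ e4_7
  have r4_7 : 1 ≤ ratio T (v 4) (v 7) := ratio_ge_one T (v.injective.ne (by decide)) e4_7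
  have r7_4 : 1 ≤ ratio T (v 7) (v 4) := ratio_ge_one T (v.injective.ne (by decide)) e7_4
  by_contra hz
  have r4_6 : 1 ≤ ratio T (v 4) (v 6) := ratio_ge_one T (v.injective.ne (by decide)) hz
  have r6_4 : 1 ≤ ratio T (v 6) (v 4) := ratio_ge_one T (v.injective.ne (by decide)) (s_ _ _ hz)
  refine no_test T (fun i => v (![4, 5, 6] i)) (v.injective.comp (by decide : Function.Injective (![4, 5, 6] : Fin 3 → Fin 8))) (lt_of_le_of_lt (by norm_num) hn) (fun i => hv _) ![1, 1, 1] ?_ ⟨0, by simp⟩ ?_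
  · intro p; fin_cases p <;> simp
  · intro p
    fin_cases p
    · refine ⟨[2, 1], by decide, by decide, ?_⟩
      simp
      linarith only [r4_6, r4_5]
    · refine ⟨[0, 2], by decide, by decide, ?_⟩
      simp
      linarith only [r5_4, r5_6]
    · refine ⟨[1, 0], by decide, by decide, ?_⟩
      simp
      linarith only [r6_5, r6_4]

theorem aux_z5_7 {n : ℕ} (T : Models.NumericalType n) (hn : 8 < n)
    (v : Fin 8 ↪ Fin n) (hv : ∀ j, T.IsMinusTwo (v j)) (h01 : T.a (v 0) (v 1) ≠ 0) (h12 : T.a (v 1) (v 2) ≠ 0) (h23 : T.a (v 2) (v 3) ≠ 0) (h34 : T.a (v 3) (v 4) ≠ 0) (h45 : T.a (v 4) (v 5) ≠ 0) (h56 : T.a (v 5) (v 6) ≠ 0) (h47 : T.a (v 4) (v 7) ≠ 0) : T.a (v 5) (v 7) = 0 := by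
  have s_ : ∀ i j, T.a i j ≠ 0 → T.a j i ≠ 0 := fun i j h => by rwa [a_symm T]
  have e0_1 : T.a (v 0) (v 1) ≠ 0 := h01
  have e1_0 : T.a (v 1) (v 0) ≠ 0 := s_ _ _ e0_1
  have r0_1 : 1 ≤ ratio T (v 0) (v 1) := ratio_ge_one T (v.injective.ne (by decide)) e0_1
  have r1_0 : 1 ≤ ratio T (v 1) (v 0) := ratio_ge_one T (v.injective.ne (by decide)) e1_0
  have e1_2 : T.a (v 1) (v 2) ≠ 0 := h12
  have e2_1 : T.a (v 2) (v 1) ≠ 0 := s_ _ _ e1_2
  have r1_2 : 1 ≤ ratio T (v 1) (v 2) := ratio_ge_one T (v.injective.ne (by decide)) e1_2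
  have r2_1 : 1 ≤ ratio T (v 2) (v 1) := ratio_ge_one T (v.injective.ne (by decide)) e2_1
  have e2_3 : T.a (v 2) (v 3) ≠ 0 := h23
  have e3_2 : T.a (v 3) (v 2) ≠ 0 := s_ _ _ e2_3
  have r2_3 : 1 ≤ ratio T (v 2) (v 3) := ratio_ge_one T (v.injective.ne (by decide)) e2_3
  have r3_2 : 1 ≤ ratio T (v 3) (v 2) := ratio_ge_one T (v.injective.ne (by decide)) e3_2
  have e3_4 : T.a (v 3) (v 4) ≠ 0 := h34
  have e4_3 : T.a (v 4) (v 3) ≠ 0 := s_ _ _ e3_4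
  have r3_4 : 1 ≤ ratio T (v 3) (v 4) := ratio_ge_one T (v.injective.ne (by decide)) e3_4
  have r4_3 : 1 ≤ ratio T (v 4) (v 3) := ratio_ge_one T (v.injective.ne (by decide)) e4_3
  have e4_5 : T.a (v 4) (v 5) ≠ 0 := h45
  have e5_4 : T.a (v 5) (v 4) ≠ 0 := s_ _ _ e4_5
  have r4_5 : 1 ≤ ratio T (v 4) (v 5) := ratio_ge_one T (v.injective.ne (by decide)) e4_5
  have r5_4 : 1 ≤ ratio T (v 5) (v 4) := ratio_ge_one T (v.injective.ne (by decide)) e5_4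
  have e5_6 : T.a (v 5) (v 6) ≠ 0 := h56
  have e6_5 : T.a (v 6) (v 5) ≠ 0 := s_ _ _ e5_6
  have r5_6 : 1 ≤ ratio T (v 5) (v 6) := ratio_ge_one T (v.injective.ne (by decide)) e5_6
  have r6_5 : 1 ≤ ratio T (v 6) (v 5) := ratio_ge_one T (v.injective.ne (by decide)) e6_5
  have e4_7 : T.a (v 4) (v 7) ≠ 0 := h47
  have e7_4 : T.a (v 7) (v 4) ≠ 0 := s_ _ _ e4_7
  have r4_7 : 1 ≤ ratio T (v 4) (v 7) := ratio_ge_one T (v.injective.ne (by decide)) e4_7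
  have r7_4 : 1 ≤ ratio T (v 7) (v 4) := ratio_ge_one T (v.injective.ne (by decide)) e7_4
  by_contra hz
  have r5_7 : 1 ≤ ratio T (v 5) (v 7) := ratio_ge_one T (v.injective.ne (by decide)) hz
  have r7_5 : 1 ≤ ratio T (v 7) (v 5) := ratio_ge_one T (v.injective.ne (by decide)) (s_ _ _ hz)
  refine no_test T (fun i => v (![5, 4, 7] i)) (v.injective.comp (by decide : Function.Injective (![5, 4, 7] : Fin 3 → Fin 8))) (lt_of_le_of_lt (by norm_num) hn) (fun i => hv _) ![1, 1, 1] ?_ ⟨0, by simp⟩ ?_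
  · intro p; fin_cases p <;> simp
  · intro p
    fin_cases p
    · refine ⟨[2, 1], by decide, by decide, ?_⟩
      simp
      linarith only [r5_7, r5_4]
    · refine ⟨[0, 2], by decide, by decide, ?_⟩
      simp
      linarith only [r4_5, r4_7]
    · refine ⟨[1, 0], by decide, by decide, ?_⟩
      simp
      linarith only [r7_4, r7_5]

theorem aux_z6_7 {n : ℕ} (T : Models.NumericalType n) (hn : 8 < n)
    (v : Fin 8 ↪ Fin n) (hv : ∀ j, T.IsMinusTwo (v j)) (h01 : T.a (v 0) (v 1) ≠ 0) (h12 : T.a (v 1) (v 2) ≠ 0) (h23 : T.a (v 2) (v 3) ≠ 0) (h34 : T.a (v 3) (v 4) ≠ 0) (h45 : T.a (v 4) (v 5) ≠ 0) (h56 : T.a (v 5) (v 6) ≠ 0) (h47 : T.a (v 4) (v 7) ≠ 0) : T.a (v 6) (v 7) = 0 := by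
  have s_ : ∀ i j, T.a i j ≠ 0 → T.a j i ≠ 0 := fun i j h => by rwa [a_symm T]
  have e0_1 : T.a (v 0) (v 1) ≠ 0 := h01
  have e1_0 : T.a (v 1) (v 0) ≠ 0 := s_ _ _ e0_1
  have r0_1 : 1 ≤ ratio T (v 0) (v 1) := ratio_ge_one T (v.injective.ne (by decide)) e0_1
  have r1_0 : 1 ≤ ratio T (v 1) (v 0) := ratio_ge_one T (v.injective.ne (by decide)) e1_0
  have e1_2 : T.a (v 1) (v 2) ≠ 0 := h12
  have e2_1 : T.a (v 2) (v 1) ≠ 0 := s_ _ _ e1_2
  have r1_2 : 1 ≤ ratio T (v 1) (v 2) := ratio_ge_one T (v.injective.ne (by decide)) e1_2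
  have r2_1 : 1 ≤ ratio T (v 2) (v 1) := ratio_ge_one T (v.injective.ne (by decide)) e2_1
  have e2_3 : T.a (v 2) (v 3) ≠ 0 := h23
  have e3_2 : T.a (v 3) (v 2) ≠ 0 := s_ _ _ e2_3
  have r2_3 : 1 ≤ ratio T (v 2) (v 3) := ratio_ge_one T (v.injective.ne (by decide)) e2_3
  have r3_2 : 1 ≤ ratio T (v 3) (v 2) := ratio_ge_one T (v.injective.ne (by decide)) e3_2
  have e3_4 : T.a (v 3) (v 4) ≠ 0 := h34
  have e4_3 : T.a (v 4) (v 3) ≠ 0 := s_ _ _ e3_4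
  have r3_4 : 1 ≤ ratio T (v 3) (v 4) := ratio_ge_one T (v.injective.ne (by decide)) e3_4
  have r4_3 : 1 ≤ ratio T (v 4) (v 3) := ratio_ge_one T (v.injective.ne (by decide)) e4_3
  have e4_5 : T.a (v 4) (v 5) ≠ 0 := h45
  have e5_4 : T.a (v 5) (v 4) ≠ 0 := s_ _ _ e4_5
  have r4_5 : 1 ≤ ratio T (v 4) (v 5) := ratio_ge_one T (v.injective.ne (by decide)) e4_5
  have r5_4 : 1 ≤ ratio T (v 5) (v 4) := ratio_ge_one T (v.injective.ne (by decide)) e5_4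
  have e5_6 : T.a (v 5) (v 6) ≠ 0 := h56
  have e6_5 : T.a (v 6) (v 5) ≠ 0 := s_ _ _ e5_6
  have r5_6 : 1 ≤ ratio T (v 5) (v 6) := ratio_ge_one T (v.injective.ne (by decide)) e5_6
  have r6_5 : 1 ≤ ratio T (v 6) (v 5) := ratio_ge_one T (v.injective.ne (by decide)) e6_5
  have e4_7 : T.a (v 4) (v 7) ≠ 0 := h47
  have e7_4 : T.a (v 7) (v 4) ≠ 0 := s_ _ _ e4_7
  have r4_7 : 1 ≤ ratio T (v 4) (v 7) := ratio_ge_one T (v.injective.ne (by decide)) e4_7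
  have r7_4 : 1 ≤ ratio T (v 7) (v 4) := ratio_ge_one T (v.injective.ne (by decide)) e7_4
  by_contra hz
  have r6_7 : 1 ≤ ratio T (v 6) (v 7) := ratio_ge_one T (v.injective.ne (by decide)) hz
  have r7_6 : 1 ≤ ratio T (v 7) (v 6) := ratio_ge_one T (v.injective.ne (by decide)) (s_ _ _ hz)
  refine no_test T (fun i => v (![6, 5, 4, 7] i)) (v.injective.comp (by decide : Function.Injective (![6, 5, 4, 7] : Fin 4 → Fin 8))) (lt_of_le_of_lt (by norm_num) hn) (fun i => hv _) ![1, 1, 1, 1] ?_ ⟨0, by simp⟩ ?_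
  · intro p; fin_cases p <;> simp
  · intro p
    fin_cases p
    · refine ⟨[3, 1], by decide, by decide, ?_⟩
      simp
      linarith only [r6_7, r6_5]
    · refine ⟨[0, 2], by decide, by decide, ?_⟩
      simp
      linarith only [r5_6, r5_4]
    · refine ⟨[1, 3], by decide, by decide, ?_⟩
      simp
      linarith only [r4_5, r4_7]
    · refine ⟨[2, 0], by decide, by decide, ?_⟩
      simp
      linarith only [r7_4, r7_6]

theorem aux_sA0_1 {n : ℕ} (T : Models.NumericalType n) (hn : 8 < n)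
    (v : Fin 8 ↪ Fin n) (hv : ∀ j, T.IsMinusTwo (v j)) (h01 : T.a (v 0) (v 1) ≠ 0) (h12 : T.a (v 1) (v 2) ≠ 0) (h23 : T.a (v 2) (v 3) ≠ 0) (h34 : T.a (v 3) (v 4) ≠ 0) (h45 : T.a (v 4) (v 5) ≠ 0) (h56 : T.a (v 5) (v 6) ≠ 0) (h47 : T.a (v 4) (v 7) ≠ 0) : ratio T (v 0) (v 1) < 2 := by
  have s_ : ∀ i j, T.a i j ≠ 0 → T.a j i ≠ 0 := fun i j h => by rwa [a_symm T]
  have e0_1 : T.a (v 0) (v 1) ≠ 0 := h01
  have e1_0 : T.a (v 1) (v 0) ≠ 0 := s_ _ _ e0_1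
  have r0_1 : 1 ≤ ratio T (v 0) (v 1) := ratio_ge_one T (v.injective.ne (by decide)) e0_1
  have r1_0 : 1 ≤ ratio T (v 1) (v 0) := ratio_ge_one T (v.injective.ne (by decide)) e1_0
  have e1_2 : T.a (v 1) (v 2) ≠ 0 := h12
  have e2_1 : T.a (v 2) (v 1) ≠ 0 := s_ _ _ e1_2
  have r1_2 : 1 ≤ ratio T (v 1) (v 2) := ratio_ge_one T (v.injective.ne (by decide)) e1_2
  have r2_1 : 1 ≤ ratio T (v 2) (v 1) := ratio_ge_one T (v.injective.ne (by decide)) e2_1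
  have e2_3 : T.a (v 2) (v 3) ≠ 0 := h23
  have e3_2 : T.a (v 3) (v 2) ≠ 0 := s_ _ _ e2_3
  have r2_3 : 1 ≤ ratio T (v 2) (v 3) := ratio_ge_one T (v.injective.ne (by decide)) e2_3
  have r3_2 : 1 ≤ ratio T (v 3) (v 2) := ratio_ge_one T (v.injective.ne (by decide)) e3_2
  have e3_4 : T.a (v 3) (v 4) ≠ 0 := h34
  have e4_3 : T.a (v 4) (v 3) ≠ 0 := s_ _ _ e3_4
  have r3_4 : 1 ≤ ratio T (v 3) (v 4) := ratio_ge_one T (v.injective.ne (by decide)) e3_4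
  have r4_3 : 1 ≤ ratio T (v 4) (v 3) := ratio_ge_one T (v.injective.ne (by decide)) e4_3
  have e4_5 : T.a (v 4) (v 5) ≠ 0 := h45
  have e5_4 : T.a (v 5) (v 4) ≠ 0 := s_ _ _ e4_5
  have r4_5 : 1 ≤ ratio T (v 4) (v 5) := ratio_ge_one T (v.injective.ne (by decide)) e4_5
  have r5_4 : 1 ≤ ratio T (v 5) (v 4) := ratio_ge_one T (v.injective.ne (by decide)) e5_4
  have e5_6 : T.a (v 5) (v 6) ≠ 0 := h56
  have e6_5 : T.a (v 6) (v 5) ≠ 0 := s_ _ _ e5_6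
  have r5_6 : 1 ≤ ratio T (v 5) (v 6) := ratio_ge_one T (v.injective.ne (by decide)) e5_6
  have r6_5 : 1 ≤ ratio T (v 6) (v 5) := ratio_ge_one T (v.injective.ne (by decide)) e6_5
  have e4_7 : T.a (v 4) (v 7) ≠ 0 := h47
  have e7_4 : T.a (v 7) (v 4) ≠ 0 := s_ _ _ e4_7
  have r4_7 : 1 ≤ ratio T (v 4) (v 7) := ratio_ge_one T (v.injective.ne (by decide)) e4_7
  have r7_4 : 1 ≤ ratio T (v 7) (v 4) := ratio_ge_one T (v.injective.ne (by decide)) e7_4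
  by_contra hA; push Not at hA
  refine no_test T (fun i => v (![0, 1, 2, 3, 4, 5, 7] i)) (v.injective.comp (by decide : Function.Injective (![0, 1, 2, 3, 4, 5, 7] : Fin 7 → Fin 8))) (lt_of_le_of_lt (by norm_num) hn) (fun i => hv _) ![2, 2, 2, 2, 2, 1, 1] ?_ ⟨0, by simp⟩ ?_
  · intro p; fin_cases p <;> simp
  · intro p
    fin_cases p
    · refine ⟨[1], by decide, by decide, ?_⟩
      simp
      linarith only [r0_1, hA]
    · refine ⟨[0, 2], by decide, by decide, ?_⟩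
      simp
      linarith only [r1_0, r1_2]
    · refine ⟨[1, 3], by decide, by decide, ?_⟩
      simp
      linarith only [r2_1, r2_3]
    · refine ⟨[2, 4], by decide, by decide, ?_⟩
      simp
      linarith only [r3_2, r3_4]
    · refine ⟨[3, 5, 6], by decide, by decide, ?_⟩
      simp
      linarith only [r4_3, r4_5, r4_7]
    · refine ⟨[4], by decide, by decide, ?_⟩
      simp
      linarith only [r5_4]
    · refine ⟨[4], by decide, by decide, ?_⟩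
      simp
      linarith only [r7_4]

theorem aux_sB0_1 {n : ℕ} (T : Models.NumericalType n) (hn : 8 < n)
    (v : Fin 8 ↪ Fin n) (hv : ∀ j, T.IsMinusTwo (v j)) (h01 : T.a (v 0) (v 1) ≠ 0) (h12 : T.a (v 1) (v 2) ≠ 0) (h23 : T.a (v 2) (v 3) ≠ 0) (h34 : T.a (v 3) (v 4) ≠ 0) (h45 : T.a (v 4) (v 5) ≠ 0) (h56 : T.a (v 5) (v 6) ≠ 0) (h47 : T.a (v 4) (v 7) ≠ 0) : ratio T (v 1) (v 0) < 2 := by
  have s_ : ∀ i j, T.a i j ≠ 0 → T.a j i ≠ 0 := fun i j h => by rwa [a_symm T]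
  have e0_1 : T.a (v 0) (v 1) ≠ 0 := h01
  have e1_0 : T.a (v 1) (v 0) ≠ 0 := s_ _ _ e0_1
  have r0_1 : 1 ≤ ratio T (v 0) (v 1) := ratio_ge_one T (v.injective.ne (by decide)) e0_1
  have r1_0 : 1 ≤ ratio T (v 1) (v 0) := ratio_ge_one T (v.injective.ne (by decide)) e1_0
  have e1_2 : T.a (v 1) (v 2) ≠ 0 := h12
  have e2_1 : T.a (v 2) (v 1) ≠ 0 := s_ _ _ e1_2
  have r1_2 : 1 ≤ ratio T (v 1) (v 2) := ratio_ge_one T (v.injective.ne (by decide)) e1_2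
  have r2_1 : 1 ≤ ratio T (v 2) (v 1) := ratio_ge_one T (v.injective.ne (by decide)) e2_1
  have e2_3 : T.a (v 2) (v 3) ≠ 0 := h23
  have e3_2 : T.a (v 3) (v 2) ≠ 0 := s_ _ _ e2_3
  have r2_3 : 1 ≤ ratio T (v 2) (v 3) := ratio_ge_one T (v.injective.ne (by decide)) e2_3
  have r3_2 : 1 ≤ ratio T (v 3) (v 2) := ratio_ge_one T (v.injective.ne (by decide)) e3_2
  have e3_4 : T.a (v 3) (v 4) ≠ 0 := h34
  have e4_3 : T.a (v 4) (v 3) ≠ 0 := s_ _ _ e3_4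
  have r3_4 : 1 ≤ ratio T (v 3) (v 4) := ratio_ge_one T (v.injective.ne (by decide)) e3_4
  have r4_3 : 1 ≤ ratio T (v 4) (v 3) := ratio_ge_one T (v.injective.ne (by decide)) e4_3
  have e4_5 : T.a (v 4) (v 5) ≠ 0 := h45
  have e5_4 : T.a (v 5) (v 4) ≠ 0 := s_ _ _ e4_5
  have r4_5 : 1 ≤ ratio T (v 4) (v 5) := ratio_ge_one T (v.injective.ne (by decide)) e4_5
  have r5_4 : 1 ≤ ratio T (v 5) (v 4) := ratio_ge_one T (v.injective.ne (by decide)) e5_4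
  have e5_6 : T.a (v 5) (v 6) ≠ 0 := h56
  have e6_5 : T.a (v 6) (v 5) ≠ 0 := s_ _ _ e5_6
  have r5_6 : 1 ≤ ratio T (v 5) (v 6) := ratio_ge_one T (v.injective.ne (by decide)) e5_6
  have r6_5 : 1 ≤ ratio T (v 6) (v 5) := ratio_ge_one T (v.injective.ne (by decide)) e6_5
  have e4_7 : T.a (v 4) (v 7) ≠ 0 := h47
  have e7_4 : T.a (v 7) (v 4) ≠ 0 := s_ _ _ e4_7
  have r4_7 : 1 ≤ ratio T (v 4) (v 7) := ratio_ge_one T (v.injective.ne (by decide)) e4_7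
  have r7_4 : 1 ≤ ratio T (v 7) (v 4) := ratio_ge_one T (v.injective.ne (by decide)) e7_4
  by_contra hB; push Not at hB
  refine no_test T (fun i => v (![0, 1, 2, 3, 4, 5, 7] i)) (v.injective.comp (by decide : Function.Injective (![0, 1, 2, 3, 4, 5, 7] : Fin 7 → Fin 8))) (lt_of_le_of_lt (by norm_num) hn) (fun i => hv _) ![1, 2, 2, 2, 2, 1, 1] ?_ ⟨0, by simp⟩ ?_
  · intro p; fin_cases p <;> simp
  · intro p
    fin_cases p
    · refine ⟨[1], by decide, by decide, ?_⟩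
      simp
      linarith only [r0_1]
    · refine ⟨[0, 2], by decide, by decide, ?_⟩
      simp
      linarith only [r1_0, r1_2, hB]
    · refine ⟨[1, 3], by decide, by decide, ?_⟩
      simp
      linarith only [r2_1, r2_3]
    · refine ⟨[2, 4], by decide, by decide, ?_⟩
      simp
      linarith only [r3_2, r3_4]
    · refine ⟨[3, 5, 6], by decide, by decide, ?_⟩
      simp
      linarith only [r4_3, r4_5, r4_7]
    · refine ⟨[4], by decide, by decide, ?_⟩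
      simp
      linarith only [r5_4]
    · refine ⟨[4], by decide, by decide, ?_⟩
      simp
      linarith only [r7_4]

theorem aux_sA1_2 {n : ℕ} (T : Models.NumericalType n) (hn : 8 < n)
    (v : Fin 8 ↪ Fin n) (hv : ∀ j, T.IsMinusTwo (v j)) (h01 : T.a (v 0) (v 1) ≠ 0) (h12 : T.a (v 1) (v 2) ≠ 0) (h23 : T.a (v 2) (v 3) ≠ 0) (h34 : T.a (v 3) (v 4) ≠ 0) (h45 : T.a (v 4) (v 5) ≠ 0) (h56 : T.a (v 5) (v 6) ≠ 0) (h47 : T.a (v 4) (v 7) ≠ 0) : ratio T (v 1) (v 2) < 2 := by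
  have s_ : ∀ i j, T.a i j ≠ 0 → T.a j i ≠ 0 := fun i j h => by rwa [a_symm T]
  have e0_1 : T.a (v 0) (v 1) ≠ 0 := h01
  have e1_0 : T.a (v 1) (v 0) ≠ 0 := s_ _ _ e0_1
  have r0_1 : 1 ≤ ratio T (v 0) (v 1) := ratio_ge_one T (v.injective.ne (by decide)) e0_1
  have r1_0 : 1 ≤ ratio T (v 1) (v 0) := ratio_ge_one T (v.injective.ne (by decide)) e1_0
  have e1_2 : T.a (v 1) (v 2) ≠ 0 := h12
  have e2_1 : T.a (v 2) (v 1) ≠ 0 := s_ _ _ e1_2
  have r1_2 : 1 ≤ ratio T (v 1) (v 2) := ratio_ge_one T (v.injective.ne (by decide)) e1_2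
  have r2_1 : 1 ≤ ratio T (v 2) (v 1) := ratio_ge_one T (v.injective.ne (by decide)) e2_1
  have e2_3 : T.a (v 2) (v 3) ≠ 0 := h23
  have e3_2 : T.a (v 3) (v 2) ≠ 0 := s_ _ _ e2_3
  have r2_3 : 1 ≤ ratio T (v 2) (v 3) := ratio_ge_one T (v.injective.ne (by decide)) e2_3
  have r3_2 : 1 ≤ ratio T (v 3) (v 2) := ratio_ge_one T (v.injective.ne (by decide)) e3_2
  have e3_4 : T.a (v 3) (v 4) ≠ 0 := h34
  have e4_3 : T.a (v 4) (v 3) ≠ 0 := s_ _ _ e3_4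
  have r3_4 : 1 ≤ ratio T (v 3) (v 4) := ratio_ge_one T (v.injective.ne (by decide)) e3_4
  have r4_3 : 1 ≤ ratio T (v 4) (v 3) := ratio_ge_one T (v.injective.ne (by decide)) e4_3
  have e4_5 : T.a (v 4) (v 5) ≠ 0 := h45
  have e5_4 : T.a (v 5) (v 4) ≠ 0 := s_ _ _ e4_5
  have r4_5 : 1 ≤ ratio T (v 4) (v 5) := ratio_ge_one T (v.injective.ne (by decide)) e4_5
  have r5_4 : 1 ≤ ratio T (v 5) (v 4) := ratio_ge_one T (v.injective.ne (by decide)) e5_4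
  have e5_6 : T.a (v 5) (v 6) ≠ 0 := h56
  have e6_5 : T.a (v 6) (v 5) ≠ 0 := s_ _ _ e5_6
  have r5_6 : 1 ≤ ratio T (v 5) (v 6) := ratio_ge_one T (v.injective.ne (by decide)) e5_6
  have r6_5 : 1 ≤ ratio T (v 6) (v 5) := ratio_ge_one T (v.injective.ne (by decide)) e6_5
  have e4_7 : T.a (v 4) (v 7) ≠ 0 := h47
  have e7_4 : T.a (v 7) (v 4) ≠ 0 := s_ _ _ e4_7
  have r4_7 : 1 ≤ ratio T (v 4) (v 7) := ratio_ge_one T (v.injective.ne (by decide)) e4_7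
  have r7_4 : 1 ≤ ratio T (v 7) (v 4) := ratio_ge_one T (v.injective.ne (by decide)) e7_4
  by_contra hA; push Not at hA
  refine no_test T (fun i => v (![1, 2, 3, 4, 5, 7] i)) (v.injective.comp (by decide : Function.Injective (![1, 2, 3, 4, 5, 7] : Fin 6 → Fin 8))) (lt_of_le_of_lt (by norm_num) hn) (fun i => hv _) ![2, 2, 2, 2, 1, 1] ?_ ⟨0, by simp⟩ ?_
  · intro p; fin_cases p <;> simp
  · intro p
    fin_cases p
    · refine ⟨[1], by decide, by decide, ?_⟩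
      simp
      linarith only [r1_2, hA]
    · refine ⟨[0, 2], by decide, by decide, ?_⟩
      simp
      linarith only [r2_1, r2_3]
    · refine ⟨[1, 3], by decide, by decide, ?_⟩
      simp
      linarith only [r3_2, r3_4]
    · refine ⟨[2, 4, 5], by decide, by decide, ?_⟩
      simp
      linarith only [r4_3, r4_5, r4_7]
    · refine ⟨[3], by decide, by decide, ?_⟩
      simp
      linarith only [r5_4]
    · refine ⟨[3], by decide, by decide, ?_⟩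
      simp
      linarith only [r7_4]

theorem aux_sB1_2 {n : ℕ} (T : Models.NumericalType n) (hn : 8 < n)
    (v : Fin 8 ↪ Fin n) (hv : ∀ j, T.IsMinusTwo (v j)) (h01 : T.a (v 0) (v 1) ≠ 0) (h12 : T.a (v 1) (v 2) ≠ 0) (h23 : T.a (v 2) (v 3) ≠ 0) (h34 : T.a (v 3) (v 4) ≠ 0) (h45 : T.a (v 4) (v 5) ≠ 0) (h56 : T.a (v 5) (v 6) ≠ 0) (h47 : T.a (v 4) (v 7) ≠ 0) : ratio T (v 2) (v 1) < 2 := by
  have s_ : ∀ i j, T.a i j ≠ 0 → T.a j i ≠ 0 := fun i j h => by rwa [a_symm T]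
  have e0_1 : T.a (v 0) (v 1) ≠ 0 := h01
  have e1_0 : T.a (v 1) (v 0) ≠ 0 := s_ _ _ e0_1
  have r0_1 : 1 ≤ ratio T (v 0) (v 1) := ratio_ge_one T (v.injective.ne (by decide)) e0_1
  have r1_0 : 1 ≤ ratio T (v 1) (v 0) := ratio_ge_one T (v.injective.ne (by decide)) e1_0
  have e1_2 : T.a (v 1) (v 2) ≠ 0 := h12
  have e2_1 : T.a (v 2) (v 1) ≠ 0 := s_ _ _ e1_2
  have r1_2 : 1 ≤ ratio T (v 1) (v 2) := ratio_ge_one T (v.injective.ne (by decide)) e1_2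
  have r2_1 : 1 ≤ ratio T (v 2) (v 1) := ratio_ge_one T (v.injective.ne (by decide)) e2_1
  have e2_3 : T.a (v 2) (v 3) ≠ 0 := h23
  have e3_2 : T.a (v 3) (v 2) ≠ 0 := s_ _ _ e2_3
  have r2_3 : 1 ≤ ratio T (v 2) (v 3) := ratio_ge_one T (v.injective.ne (by decide)) e2_3
  have r3_2 : 1 ≤ ratio T (v 3) (v 2) := ratio_ge_one T (v.injective.ne (by decide)) e3_2
  have e3_4 : T.a (v 3) (v 4) ≠ 0 := h34
  have e4_3 : T.a (v 4) (v 3) ≠ 0 := s_ _ _ e3_4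
  have r3_4 : 1 ≤ ratio T (v 3) (v 4) := ratio_ge_one T (v.injective.ne (by decide)) e3_4
  have r4_3 : 1 ≤ ratio T (v 4) (v 3) := ratio_ge_one T (v.injective.ne (by decide)) e4_3
  have e4_5 : T.a (v 4) (v 5) ≠ 0 := h45
  have e5_4 : T.a (v 5) (v 4) ≠ 0 := s_ _ _ e4_5
  have r4_5 : 1 ≤ ratio T (v 4) (v 5) := ratio_ge_one T (v.injective.ne (by decide)) e4_5
  have r5_4 : 1 ≤ ratio T (v 5) (v 4) := ratio_ge_one T (v.injective.ne (by decide)) e5_4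
  have e5_6 : T.a (v 5) (v 6) ≠ 0 := h56
  have e6_5 : T.a (v 6) (v 5) ≠ 0 := s_ _ _ e5_6
  have r5_6 : 1 ≤ ratio T (v 5) (v 6) := ratio_ge_one T (v.injective.ne (by decide)) e5_6
  have r6_5 : 1 ≤ ratio T (v 6) (v 5) := ratio_ge_one T (v.injective.ne (by decide)) e6_5
  have e4_7 : T.a (v 4) (v 7) ≠ 0 := h47
  have e7_4 : T.a (v 7) (v 4) ≠ 0 := s_ _ _ e4_7
  have r4_7 : 1 ≤ ratio T (v 4) (v 7) := ratio_ge_one T (v.injective.ne (by decide)) e4_7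
  have r7_4 : 1 ≤ ratio T (v 7) (v 4) := ratio_ge_one T (v.injective.ne (by decide)) e7_4
  by_contra hB; push Not at hB
  refine no_test T (fun i => v (![1, 2, 3, 4, 5, 7] i)) (v.injective.comp (by decide : Function.Injective (![1, 2, 3, 4, 5, 7] : Fin 6 → Fin 8))) (lt_of_le_of_lt (by norm_num) hn) (fun i => hv _) ![1, 2, 2, 2, 1, 1] ?_ ⟨0, by simp⟩ ?_
  · intro p; fin_cases p <;> simp
  · intro p
    fin_cases p
    · refine ⟨[1], by decide, by decide, ?_⟩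
      simp
      linarith only [r1_2]
    · refine ⟨[0, 2], by decide, by decide, ?_⟩
      simp
      linarith only [r2_1, r2_3, hB]
    · refine ⟨[1, 3], by decide, by decide, ?_⟩
      simp
      linarith only [r3_2, r3_4]
    · refine ⟨[2, 4, 5], by decide, by decide, ?_⟩
      simp
      linarith only [r4_3, r4_5, r4_7]
    · refine ⟨[3], by decide, by decide, ?_⟩
      simp
      linarith only [r5_4]
    · refine ⟨[3], by decide, by decide, ?_⟩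
      simp
      linarith only [r7_4]

theorem aux_sA2_3 {n : ℕ} (T : Models.NumericalType n) (hn : 8 < n)
    (v : Fin 8 ↪ Fin n) (hv : ∀ j, T.IsMinusTwo (v j)) (h01 : T.a (v 0) (v 1) ≠ 0) (h12 : T.a (v 1) (v 2) ≠ 0) (h23 : T.a (v 2) (v 3) ≠ 0) (h34 : T.a (v 3) (v 4) ≠ 0) (h45 : T.a (v 4) (v 5) ≠ 0) (h56 : T.a (v 5) (v 6) ≠ 0) (h47 : T.a (v 4) (v 7) ≠ 0) : ratio T (v 2) (v 3) < 2 := by
  have s_ : ∀ i j, T.a i j ≠ 0 → T.a j i ≠ 0 := fun i j h => by rwa [a_symm T]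
  have e0_1 : T.a (v 0) (v 1) ≠ 0 := h01
  have e1_0 : T.a (v 1) (v 0) ≠ 0 := s_ _ _ e0_1
  have r0_1 : 1 ≤ ratio T (v 0) (v 1) := ratio_ge_one T (v.injective.ne (by decide)) e0_1
  have r1_0 : 1 ≤ ratio T (v 1) (v 0) := ratio_ge_one T (v.injective.ne (by decide)) e1_0
  have e1_2 : T.a (v 1) (v 2) ≠ 0 := h12
  have e2_1 : T.a (v 2) (v 1) ≠ 0 := s_ _ _ e1_2
  have r1_2 : 1 ≤ ratio T (v 1) (v 2) := ratio_ge_one T (v.injective.ne (by decide)) e1_2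
  have r2_1 : 1 ≤ ratio T (v 2) (v 1) := ratio_ge_one T (v.injective.ne (by decide)) e2_1
  have e2_3 : T.a (v 2) (v 3) ≠ 0 := h23
  have e3_2 : T.a (v 3) (v 2) ≠ 0 := s_ _ _ e2_3
  have r2_3 : 1 ≤ ratio T (v 2) (v 3) := ratio_ge_one T (v.injective.ne (by decide)) e2_3
  have r3_2 : 1 ≤ ratio T (v 3) (v 2) := ratio_ge_one T (v.injective.ne (by decide)) e3_2
  have e3_4 : T.a (v 3) (v 4) ≠ 0 := h34
  have e4_3 : T.a (v 4) (v 3) ≠ 0 := s_ _ _ e3_4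
  have r3_4 : 1 ≤ ratio T (v 3) (v 4) := ratio_ge_one T (v.injective.ne (by decide)) e3_4
  have r4_3 : 1 ≤ ratio T (v 4) (v 3) := ratio_ge_one T (v.injective.ne (by decide)) e4_3
  have e4_5 : T.a (v 4) (v 5) ≠ 0 := h45
  have e5_4 : T.a (v 5) (v 4) ≠ 0 := s_ _ _ e4_5
  have r4_5 : 1 ≤ ratio T (v 4) (v 5) := ratio_ge_one T (v.injective.ne (by decide)) e4_5
  have r5_4 : 1 ≤ ratio T (v 5) (v 4) := ratio_ge_one T (v.injective.ne (by decide)) e5_4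
  have e5_6 : T.a (v 5) (v 6) ≠ 0 := h56
  have e6_5 : T.a (v 6) (v 5) ≠ 0 := s_ _ _ e5_6
  have r5_6 : 1 ≤ ratio T (v 5) (v 6) := ratio_ge_one T (v.injective.ne (by decide)) e5_6
  have r6_5 : 1 ≤ ratio T (v 6) (v 5) := ratio_ge_one T (v.injective.ne (by decide)) e6_5
  have e4_7 : T.a (v 4) (v 7) ≠ 0 := h47
  have e7_4 : T.a (v 7) (v 4) ≠ 0 := s_ _ _ e4_7
  have r4_7 : 1 ≤ ratio T (v 4) (v 7) := ratio_ge_one T (v.injective.ne (by decide)) e4_7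
  have r7_4 : 1 ≤ ratio T (v 7) (v 4) := ratio_ge_one T (v.injective.ne (by decide)) e7_4
  by_contra hA; push Not at hA
  refine no_test T (fun i => v (![2, 3, 4, 5, 7] i)) (v.injective.comp (by decide : Function.Injective (![2, 3, 4, 5, 7] : Fin 5 → Fin 8))) (lt_of_le_of_lt (by norm_num) hn) (fun i => hv _) ![2, 2, 2, 1, 1] ?_ ⟨0, by simp⟩ ?_
  · intro p; fin_cases p <;> simp
  · intro p
    fin_cases p
    · refine ⟨[1], by decide, by decide, ?_⟩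
      simp
      linarith only [r2_3, hA]
    · refine ⟨[0, 2], by decide, by decide, ?_⟩
      simp
      linarith only [r3_2, r3_4]
    · refine ⟨[1, 3, 4], by decide, by decide, ?_⟩
      simp
      linarith only [r4_3, r4_5, r4_7]
    · refine ⟨[2], by decide, by decide, ?_⟩
      simp
      linarith only [r5_4]
    · refine ⟨[2], by decide, by decide, ?_⟩
      simp
      linarith only [r7_4]

theorem aux_sB2_3 {n : ℕ} (T : Models.NumericalType n) (hn : 8 < n)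
    (v : Fin 8 ↪ Fin n) (hv : ∀ j, T.IsMinusTwo (v j)) (h01 : T.a (v 0) (v 1) ≠ 0) (h12 : T.a (v 1) (v 2) ≠ 0) (h23 : T.a (v 2) (v 3) ≠ 0) (h34 : T.a (v 3) (v 4) ≠ 0) (h45 : T.a (v 4) (v 5) ≠ 0) (h56 : T.a (v 5) (v 6) ≠ 0) (h47 : T.a (v 4) (v 7) ≠ 0) : ratio T (v 3) (v 2) < 2 := by
  have s_ : ∀ i j, T.a i j ≠ 0 → T.a j i ≠ 0 := fun i j h => by rwa [a_symm T]
  have e0_1 : T.a (v 0) (v 1) ≠ 0 := h01
  have e1_0 : T.a (v 1) (v 0) ≠ 0 := s_ _ _ e0_1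
  have r0_1 : 1 ≤ ratio T (v 0) (v 1) := ratio_ge_one T (v.injective.ne (by decide)) e0_1
  have r1_0 : 1 ≤ ratio T (v 1) (v 0) := ratio_ge_one T (v.injective.ne (by decide)) e1_0
  have e1_2 : T.a (v 1) (v 2) ≠ 0 := h12
  have e2_1 : T.a (v 2) (v 1) ≠ 0 := s_ _ _ e1_2
  have r1_2 : 1 ≤ ratio T (v 1) (v 2) := ratio_ge_one T (v.injective.ne (by decide)) e1_2
  have r2_1 : 1 ≤ ratio T (v 2) (v 1) := ratio_ge_one T (v.injective.ne (by decide)) e2_1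
  have e2_3 : T.a (v 2) (v 3) ≠ 0 := h23
  have e3_2 : T.a (v 3) (v 2) ≠ 0 := s_ _ _ e2_3
  have r2_3 : 1 ≤ ratio T (v 2) (v 3) := ratio_ge_one T (v.injective.ne (by decide)) e2_3
  have r3_2 : 1 ≤ ratio T (v 3) (v 2) := ratio_ge_one T (v.injective.ne (by decide)) e3_2
  have e3_4 : T.a (v 3) (v 4) ≠ 0 := h34
  have e4_3 : T.a (v 4) (v 3) ≠ 0 := s_ _ _ e3_4
  have r3_4 : 1 ≤ ratio T (v 3) (v 4) := ratio_ge_one T (v.injective.ne (by decide)) e3_4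
  have r4_3 : 1 ≤ ratio T (v 4) (v 3) := ratio_ge_one T (v.injective.ne (by decide)) e4_3
  have e4_5 : T.a (v 4) (v 5) ≠ 0 := h45
  have e5_4 : T.a (v 5) (v 4) ≠ 0 := s_ _ _ e4_5
  have r4_5 : 1 ≤ ratio T (v 4) (v 5) := ratio_ge_one T (v.injective.ne (by decide)) e4_5
  have r5_4 : 1 ≤ ratio T (v 5) (v 4) := ratio_ge_one T (v.injective.ne (by decide)) e5_4
  have e5_6 : T.a (v 5) (v 6) ≠ 0 := h56
  have e6_5 : T.a (v 6) (v 5) ≠ 0 := s_ _ _ e5_6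
  have r5_6 : 1 ≤ ratio T (v 5) (v 6) := ratio_ge_one T (v.injective.ne (by decide)) e5_6
  have r6_5 : 1 ≤ ratio T (v 6) (v 5) := ratio_ge_one T (v.injective.ne (by decide)) e6_5
  have e4_7 : T.a (v 4) (v 7) ≠ 0 := h47
  have e7_4 : T.a (v 7) (v 4) ≠ 0 := s_ _ _ e4_7
  have r4_7 : 1 ≤ ratio T (v 4) (v 7) := ratio_ge_one T (v.injective.ne (by decide)) e4_7
  have r7_4 : 1 ≤ ratio T (v 7) (v 4) := ratio_ge_one T (v.injective.ne (by decide)) e7_4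
  by_contra hB; push Not at hB
  refine no_test T (fun i => v (![2, 3, 4, 5, 7] i)) (v.injective.comp (by decide : Function.Injective (![2, 3, 4, 5, 7] : Fin 5 → Fin 8))) (lt_of_le_of_lt (by norm_num) hn) (fun i => hv _) ![1, 2, 2, 1, 1] ?_ ⟨0, by simp⟩ ?_
  · intro p; fin_cases p <;> simp
  · intro p
    fin_cases p
    · refine ⟨[1], by decide, by decide, ?_⟩
      simp
      linarith only [r2_3]
    · refine ⟨[0, 2], by decide, by decide, ?_⟩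
      simp
      linarith only [r3_2, r3_4, hB]
    · refine ⟨[1, 3, 4], by decide, by decide, ?_⟩
      simp
      linarith only [r4_3, r4_5, r4_7]
    · refine ⟨[2], by decide, by decide, ?_⟩
      simp
      linarith only [r5_4]
    · refine ⟨[2], by decide, by decide, ?_⟩
      simp
      linarith only [r7_4]

theorem aux_sA3_4 {n : ℕ} (T : Models.NumericalType n) (hn : 8 < n)
    (v : Fin 8 ↪ Fin n) (hv : ∀ j, T.IsMinusTwo (v j)) (h01 : T.a (v 0) (v 1) ≠ 0) (h12 : T.a (v 1) (v 2) ≠ 0) (h23 : T.a (v 2) (v 3) ≠ 0) (h34 : T.a (v 3) (v 4) ≠ 0) (h45 : T.a (v 4) (v 5) ≠ 0) (h56 : T.a (v 5) (v 6) ≠ 0) (h47 : T.a (v 4) (v 7) ≠ 0) : ratio T (v 3) (v 4) < 2 := by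
  have s_ : ∀ i j, T.a i j ≠ 0 → T.a j i ≠ 0 := fun i j h => by rwa [a_symm T]
  have e0_1 : T.a (v 0) (v 1) ≠ 0 := h01
  have e1_0 : T.a (v 1) (v 0) ≠ 0 := s_ _ _ e0_1
  have r0_1 : 1 ≤ ratio T (v 0) (v 1) := ratio_ge_one T (v.injective.ne (by decide)) e0_1
  have r1_0 : 1 ≤ ratio T (v 1) (v 0) := ratio_ge_one T (v.injective.ne (by decide)) e1_0
  have e1_2 : T.a (v 1) (v 2) ≠ 0 := h12
  have e2_1 : T.a (v 2) (v 1) ≠ 0 := s_ _ _ e1_2
  have r1_2 : 1 ≤ ratio T (v 1) (v 2) := ratio_ge_one T (v.injective.ne (by decide)) e1_2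
  have r2_1 : 1 ≤ ratio T (v 2) (v 1) := ratio_ge_one T (v.injective.ne (by decide)) e2_1
  have e2_3 : T.a (v 2) (v 3) ≠ 0 := h23
  have e3_2 : T.a (v 3) (v 2) ≠ 0 := s_ _ _ e2_3
  have r2_3 : 1 ≤ ratio T (v 2) (v 3) := ratio_ge_one T (v.injective.ne (by decide)) e2_3
  have r3_2 : 1 ≤ ratio T (v 3) (v 2) := ratio_ge_one T (v.injective.ne (by decide)) e3_2
  have e3_4 : T.a (v 3) (v 4) ≠ 0 := h34
  have e4_3 : T.a (v 4) (v 3) ≠ 0 := s_ _ _ e3_4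
  have r3_4 : 1 ≤ ratio T (v 3) (v 4) := ratio_ge_one T (v.injective.ne (by decide)) e3_4
  have r4_3 : 1 ≤ ratio T (v 4) (v 3) := ratio_ge_one T (v.injective.ne (by decide)) e4_3
  have e4_5 : T.a (v 4) (v 5) ≠ 0 := h45
  have e5_4 : T.a (v 5) (v 4) ≠ 0 := s_ _ _ e4_5
  have r4_5 : 1 ≤ ratio T (v 4) (v 5) := ratio_ge_one T (v.injective.ne (by decide)) e4_5
  have r5_4 : 1 ≤ ratio T (v 5) (v 4) := ratio_ge_one T (v.injective.ne (by decide)) e5_4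
  have e5_6 : T.a (v 5) (v 6) ≠ 0 := h56
  have e6_5 : T.a (v 6) (v 5) ≠ 0 := s_ _ _ e5_6
  have r5_6 : 1 ≤ ratio T (v 5) (v 6) := ratio_ge_one T (v.injective.ne (by decide)) e5_6
  have r6_5 : 1 ≤ ratio T (v 6) (v 5) := ratio_ge_one T (v.injective.ne (by decide)) e6_5
  have e4_7 : T.a (v 4) (v 7) ≠ 0 := h47
  have e7_4 : T.a (v 7) (v 4) ≠ 0 := s_ _ _ e4_7
  have r4_7 : 1 ≤ ratio T (v 4) (v 7) := ratio_ge_one T (v.injective.ne (by decide)) e4_7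
  have r7_4 : 1 ≤ ratio T (v 7) (v 4) := ratio_ge_one T (v.injective.ne (by decide)) e7_4
  by_contra hA; push Not at hA
  refine no_test T (fun i => v (![3, 4, 5, 7] i)) (v.injective.comp (by decide : Function.Injective (![3, 4, 5, 7] : Fin 4 → Fin 8))) (lt_of_le_of_lt (by norm_num) hn) (fun i => hv _) ![2, 2, 1, 1] ?_ ⟨0, by simp⟩ ?_
  · intro p; fin_cases p <;> simp
  · intro p
    fin_cases p
    · refine ⟨[1], by decide, by decide, ?_⟩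
      simp
      linarith only [r3_4, hA]
    · refine ⟨[0, 2, 3], by decide, by decide, ?_⟩
      simp
      linarith only [r4_3, r4_5, r4_7]
    · refine ⟨[1], by decide, by decide, ?_⟩
      simp
      linarith only [r5_4]
    · refine ⟨[1], by decide, by decide, ?_⟩
      simp
      linarith only [r7_4]

theorem aux_sB3_4 {n : ℕ} (T : Models.NumericalType n) (hn : 8 < n)
    (v : Fin 8 ↪ Fin n) (hv : ∀ j, T.IsMinusTwo (v j)) (h01 : T.a (v 0) (v 1) ≠ 0) (h12 : T.a (v 1) (v 2) ≠ 0) (h23 : T.a (v 2) (v 3) ≠ 0) (h34 : T.a (v 3) (v 4) ≠ 0) (h45 : T.a (v 4) (v 5) ≠ 0) (h56 : T.a (v 5) (v 6) ≠ 0) (h47 : T.a (v 4) (v 7) ≠ 0) : ratio T (v 4) (v 3) < 2 := by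
  have s_ : ∀ i j, T.a i j ≠ 0 → T.a j i ≠ 0 := fun i j h => by rwa [a_symm T]
  have e0_1 : T.a (v 0) (v 1) ≠ 0 := h01
  have e1_0 : T.a (v 1) (v 0) ≠ 0 := s_ _ _ e0_1
  have r0_1 : 1 ≤ ratio T (v 0) (v 1) := ratio_ge_one T (v.injective.ne (by decide)) e0_1
  have r1_0 : 1 ≤ ratio T (v 1) (v 0) := ratio_ge_one T (v.injective.ne (by decide)) e1_0
  have e1_2 : T.a (v 1) (v 2) ≠ 0 := h12
  have e2_1 : T.a (v 2) (v 1) ≠ 0 := s_ _ _ e1_2
  have r1_2 : 1 ≤ ratio T (v 1) (v 2) := ratio_ge_one T (v.injective.ne (by decide)) e1_2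
  have r2_1 : 1 ≤ ratio T (v 2) (v 1) := ratio_ge_one T (v.injective.ne (by decide)) e2_1
  have e2_3 : T.a (v 2) (v 3) ≠ 0 := h23
  have e3_2 : T.a (v 3) (v 2) ≠ 0 := s_ _ _ e2_3
  have r2_3 : 1 ≤ ratio T (v 2) (v 3) := ratio_ge_one T (v.injective.ne (by decide)) e2_3
  have r3_2 : 1 ≤ ratio T (v 3) (v 2) := ratio_ge_one T (v.injective.ne (by decide)) e3_2
  have e3_4 : T.a (v 3) (v 4) ≠ 0 := h34
  have e4_3 : T.a (v 4) (v 3) ≠ 0 := s_ _ _ e3_4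
  have r3_4 : 1 ≤ ratio T (v 3) (v 4) := ratio_ge_one T (v.injective.ne (by decide)) e3_4
  have r4_3 : 1 ≤ ratio T (v 4) (v 3) := ratio_ge_one T (v.injective.ne (by decide)) e4_3
  have e4_5 : T.a (v 4) (v 5) ≠ 0 := h45
  have e5_4 : T.a (v 5) (v 4) ≠ 0 := s_ _ _ e4_5
  have r4_5 : 1 ≤ ratio T (v 4) (v 5) := ratio_ge_one T (v.injective.ne (by decide)) e4_5
  have r5_4 : 1 ≤ ratio T (v 5) (v 4) := ratio_ge_one T (v.injective.ne (by decide)) e5_4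
  have e5_6 : T.a (v 5) (v 6) ≠ 0 := h56
  have e6_5 : T.a (v 6) (v 5) ≠ 0 := s_ _ _ e5_6
  have r5_6 : 1 ≤ ratio T (v 5) (v 6) := ratio_ge_one T (v.injective.ne (by decide)) e5_6
  have r6_5 : 1 ≤ ratio T (v 6) (v 5) := ratio_ge_one T (v.injective.ne (by decide)) e6_5
  have e4_7 : T.a (v 4) (v 7) ≠ 0 := h47
  have e7_4 : T.a (v 7) (v 4) ≠ 0 := s_ _ _ e4_7
  have r4_7 : 1 ≤ ratio T (v 4) (v 7) := ratio_ge_one T (v.injective.ne (by decide)) e4_7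
  have r7_4 : 1 ≤ ratio T (v 7) (v 4) := ratio_ge_one T (v.injective.ne (by decide)) e7_4
  by_contra hB; push Not at hB
  refine no_test T (fun i => v (![3, 4, 5, 7] i)) (v.injective.comp (by decide : Function.Injective (![3, 4, 5, 7] : Fin 4 → Fin 8))) (lt_of_le_of_lt (by norm_num) hn) (fun i => hv _) ![1, 2, 1, 1] ?_ ⟨0, by simp⟩ ?_
  · intro p; fin_cases p <;> simp
  · intro p
    fin_cases p
    · refine ⟨[1], by decide, by decide, ?_⟩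
      simp
      linarith only [r3_4]
    · refine ⟨[0, 2, 3], by decide, by decide, ?_⟩
      simp
      linarith only [r4_3, r4_5, r4_7, hB]
    · refine ⟨[1], by decide, by decide, ?_⟩
      simp
      linarith only [r5_4]
    · refine ⟨[1], by decide, by decide, ?_⟩
      simp
      linarith only [r7_4]

theorem aux_sA5_4 {n : ℕ} (T : Models.NumericalType n) (hn : 8 < n)
    (v : Fin 8 ↪ Fin n) (hv : ∀ j, T.IsMinusTwo (v j)) (h01 : T.a (v 0) (v 1) ≠ 0) (h12 : T.a (v 1) (v 2) ≠ 0) (h23 : T.a (v 2) (v 3) ≠ 0) (h34 : T.a (v 3) (v 4) ≠ 0) (h45 : T.a (v 4) (v 5) ≠ 0) (h56 : T.a (v 5) (v 6) ≠ 0) (h47 : T.a (v 4) (v 7) ≠ 0) : ratio T (v 5) (v 4) < 2 := by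
  have s_ : ∀ i j, T.a i j ≠ 0 → T.a j i ≠ 0 := fun i j h => by rwa [a_symm T]
  have e0_1 : T.a (v 0) (v 1) ≠ 0 := h01
  have e1_0 : T.a (v 1) (v 0) ≠ 0 := s_ _ _ e0_1
  have r0_1 : 1 ≤ ratio T (v 0) (v 1) := ratio_ge_one T (v.injective.ne (by decide)) e0_1
  have r1_0 : 1 ≤ ratio T (v 1) (v 0) := ratio_ge_one T (v.injective.ne (by decide)) e1_0
  have e1_2 : T.a (v 1) (v 2) ≠ 0 := h12
  have e2_1 : T.a (v 2) (v 1) ≠ 0 := s_ _ _ e1_2
  have r1_2 : 1 ≤ ratio T (v 1) (v 2) := ratio_ge_one T (v.injective.ne (by decide)) e1_2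
  have r2_1 : 1 ≤ ratio T (v 2) (v 1) := ratio_ge_one T (v.injective.ne (by decide)) e2_1
  have e2_3 : T.a (v 2) (v 3) ≠ 0 := h23
  have e3_2 : T.a (v 3) (v 2) ≠ 0 := s_ _ _ e2_3
  have r2_3 : 1 ≤ ratio T (v 2) (v 3) := ratio_ge_one T (v.injective.ne (by decide)) e2_3
  have r3_2 : 1 ≤ ratio T (v 3) (v 2) := ratio_ge_one T (v.injective.ne (by decide)) e3_2
  have e3_4 : T.a (v 3) (v 4) ≠ 0 := h34
  have e4_3 : T.a (v 4) (v 3) ≠ 0 := s_ _ _ e3_4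
  have r3_4 : 1 ≤ ratio T (v 3) (v 4) := ratio_ge_one T (v.injective.ne (by decide)) e3_4
  have r4_3 : 1 ≤ ratio T (v 4) (v 3) := ratio_ge_one T (v.injective.ne (by decide)) e4_3
  have e4_5 : T.a (v 4) (v 5) ≠ 0 := h45
  have e5_4 : T.a (v 5) (v 4) ≠ 0 := s_ _ _ e4_5
  have r4_5 : 1 ≤ ratio T (v 4) (v 5) := ratio_ge_one T (v.injective.ne (by decide)) e4_5
  have r5_4 : 1 ≤ ratio T (v 5) (v 4) := ratio_ge_one T (v.injective.ne (by decide)) e5_4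
  have e5_6 : T.a (v 5) (v 6) ≠ 0 := h56
  have e6_5 : T.a (v 6) (v 5) ≠ 0 := s_ _ _ e5_6
  have r5_6 : 1 ≤ ratio T (v 5) (v 6) := ratio_ge_one T (v.injective.ne (by decide)) e5_6
  have r6_5 : 1 ≤ ratio T (v 6) (v 5) := ratio_ge_one T (v.injective.ne (by decide)) e6_5
  have e4_7 : T.a (v 4) (v 7) ≠ 0 := h47
  have e7_4 : T.a (v 7) (v 4) ≠ 0 := s_ _ _ e4_7
  have r4_7 : 1 ≤ ratio T (v 4) (v 7) := ratio_ge_one T (v.injective.ne (by decide)) e4_7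
  have r7_4 : 1 ≤ ratio T (v 7) (v 4) := ratio_ge_one T (v.injective.ne (by decide)) e7_4
  by_contra hA; push Not at hA
  refine no_test T (fun i => v (![5, 4, 3, 7] i)) (v.injective.comp (by decide : Function.Injective (![5, 4, 3, 7] : Fin 4 → Fin 8))) (lt_of_le_of_lt (by norm_num) hn) (fun i => hv _) ![2, 2, 1, 1] ?_ ⟨0, by simp⟩ ?_
  · intro p; fin_cases p <;> simp
  · intro p
    fin_cases p
    · refine ⟨[1], by decide, by decide, ?_⟩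
      simp
      linarith only [r5_4, hA]
    · refine ⟨[0, 2, 3], by decide, by decide, ?_⟩
      simp
      linarith only [r4_5, r4_3, r4_7]
    · refine ⟨[1], by decide, by decide, ?_⟩
      simp
      linarith only [r3_4]
    · refine ⟨[1], by decide, by decide, ?_⟩
      simp
      linarith only [r7_4]

theorem aux_sB5_4 {n : ℕ} (T : Models.NumericalType n) (hn : 8 < n)
    (v : Fin 8 ↪ Fin n) (hv : ∀ j, T.IsMinusTwo (v j)) (h01 : T.a (v 0) (v 1) ≠ 0) (h12 : T.a (v 1) (v 2) ≠ 0) (h23 : T.a (v 2) (v 3) ≠ 0) (h34 : T.a (v 3) (v 4) ≠ 0) (h45 : T.a (v 4) (v 5) ≠ 0) (h56 : T.a (v 5) (v 6) ≠ 0) (h47 : T.a (v 4) (v 7) ≠ 0) : ratio T (v 4) (v 5) < 2 := by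
  have s_ : ∀ i j, T.a i j ≠ 0 → T.a j i ≠ 0 := fun i j h => by rwa [a_symm T]
  have e0_1 : T.a (v 0) (v 1) ≠ 0 := h01
  have e1_0 : T.a (v 1) (v 0) ≠ 0 := s_ _ _ e0_1
  have r0_1 : 1 ≤ ratio T (v 0) (v 1) := ratio_ge_one T (v.injective.ne (by decide)) e0_1
  have r1_0 : 1 ≤ ratio T (v 1) (v 0) := ratio_ge_one T (v.injective.ne (by decide)) e1_0
  have e1_2 : T.a (v 1) (v 2) ≠ 0 := h12
  have e2_1 : T.a (v 2) (v 1) ≠ 0 := s_ _ _ e1_2
  have r1_2 : 1 ≤ ratio T (v 1) (v 2) := ratio_ge_one T (v.injective.ne (by decide)) e1_2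
  have r2_1 : 1 ≤ ratio T (v 2) (v 1) := ratio_ge_one T (v.injective.ne (by decide)) e2_1
  have e2_3 : T.a (v 2) (v 3) ≠ 0 := h23
  have e3_2 : T.a (v 3) (v 2) ≠ 0 := s_ _ _ e2_3
  have r2_3 : 1 ≤ ratio T (v 2) (v 3) := ratio_ge_one T (v.injective.ne (by decide)) e2_3
  have r3_2 : 1 ≤ ratio T (v 3) (v 2) := ratio_ge_one T (v.injective.ne (by decide)) e3_2
  have e3_4 : T.a (v 3) (v 4) ≠ 0 := h34
  have e4_3 : T.a (v 4) (v 3) ≠ 0 := s_ _ _ e3_4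
  have r3_4 : 1 ≤ ratio T (v 3) (v 4) := ratio_ge_one T (v.injective.ne (by decide)) e3_4
  have r4_3 : 1 ≤ ratio T (v 4) (v 3) := ratio_ge_one T (v.injective.ne (by decide)) e4_3
  have e4_5 : T.a (v 4) (v 5) ≠ 0 := h45
  have e5_4 : T.a (v 5) (v 4) ≠ 0 := s_ _ _ e4_5
  have r4_5 : 1 ≤ ratio T (v 4) (v 5) := ratio_ge_one T (v.injective.ne (by decide)) e4_5
  have r5_4 : 1 ≤ ratio T (v 5) (v 4) := ratio_ge_one T (v.injective.ne (by decide)) e5_4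
  have e5_6 : T.a (v 5) (v 6) ≠ 0 := h56
  have e6_5 : T.a (v 6) (v 5) ≠ 0 := s_ _ _ e5_6
  have r5_6 : 1 ≤ ratio T (v 5) (v 6) := ratio_ge_one T (v.injective.ne (by decide)) e5_6
  have r6_5 : 1 ≤ ratio T (v 6) (v 5) := ratio_ge_one T (v.injective.ne (by decide)) e6_5
  have e4_7 : T.a (v 4) (v 7) ≠ 0 := h47
  have e7_4 : T.a (v 7) (v 4) ≠ 0 := s_ _ _ e4_7
  have r4_7 : 1 ≤ ratio T (v 4) (v 7) := ratio_ge_one T (v.injective.ne (by decide)) e4_7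
  have r7_4 : 1 ≤ ratio T (v 7) (v 4) := ratio_ge_one T (v.injective.ne (by decide)) e7_4
  by_contra hB; push Not at hB
  refine no_test T (fun i => v (![5, 4, 3, 7] i)) (v.injective.comp (by decide : Function.Injective (![5, 4, 3, 7] : Fin 4 → Fin 8))) (lt_of_le_of_lt (by norm_num) hn) (fun i => hv _) ![1, 2, 1, 1] ?_ ⟨0, by simp⟩ ?_
  · intro p; fin_cases p <;> simp
  · intro p
    fin_cases p
    · refine ⟨[1], by decide, by decide, ?_⟩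
      simp
      linarith only [r5_4]
    · refine ⟨[0, 2, 3], by decide, by decide, ?_⟩
      simp
      linarith only [r4_5, r4_3, r4_7, hB]
    · refine ⟨[1], by decide, by decide, ?_⟩
      simp
      linarith only [r3_4]
    · refine ⟨[1], by decide, by decide, ?_⟩
      simp
      linarith only [r7_4]

theorem aux_sA6_5 {n : ℕ} (T : Models.NumericalType n) (hn : 8 < n)
    (v : Fin 8 ↪ Fin n) (hv : ∀ j, T.IsMinusTwo (v j)) (h01 : T.a (v 0) (v 1) ≠ 0) (h12 : T.a (v 1) (v 2) ≠ 0) (h23 : T.a (v 2) (v 3) ≠ 0) (h34 : T.a (v 3) (v 4) ≠ 0) (h45 : T.a (v 4) (v 5) ≠ 0) (h56 : T.a (v 5) (v 6) ≠ 0) (h47 : T.a (v 4) (v 7) ≠ 0) : ratio T (v 6) (v 5) < 2 := by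
  have s_ : ∀ i j, T.a i j ≠ 0 → T.a j i ≠ 0 := fun i j h => by rwa [a_symm T]
  have e0_1 : T.a (v 0) (v 1) ≠ 0 := h01
  have e1_0 : T.a (v 1) (v 0) ≠ 0 := s_ _ _ e0_1
  have r0_1 : 1 ≤ ratio T (v 0) (v 1) := ratio_ge_one T (v.injective.ne (by decide)) e0_1
  have r1_0 : 1 ≤ ratio T (v 1) (v 0) := ratio_ge_one T (v.injective.ne (by decide)) e1_0
  have e1_2 : T.a (v 1) (v 2) ≠ 0 := h12
  have e2_1 : T.a (v 2) (v 1) ≠ 0 := s_ _ _ e1_2
  have r1_2 : 1 ≤ ratio T (v 1) (v 2) := ratio_ge_one T (v.injective.ne (by decide)) e1_2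
  have r2_1 : 1 ≤ ratio T (v 2) (v 1) := ratio_ge_one T (v.injective.ne (by decide)) e2_1
  have e2_3 : T.a (v 2) (v 3) ≠ 0 := h23
  have e3_2 : T.a (v 3) (v 2) ≠ 0 := s_ _ _ e2_3
  have r2_3 : 1 ≤ ratio T (v 2) (v 3) := ratio_ge_one T (v.injective.ne (by decide)) e2_3
  have r3_2 : 1 ≤ ratio T (v 3) (v 2) := ratio_ge_one T (v.injective.ne (by decide)) e3_2
  have e3_4 : T.a (v 3) (v 4) ≠ 0 := h34
  have e4_3 : T.a (v 4) (v 3) ≠ 0 := s_ _ _ e3_4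
  have r3_4 : 1 ≤ ratio T (v 3) (v 4) := ratio_ge_one T (v.injective.ne (by decide)) e3_4
  have r4_3 : 1 ≤ ratio T (v 4) (v 3) := ratio_ge_one T (v.injective.ne (by decide)) e4_3
  have e4_5 : T.a (v 4) (v 5) ≠ 0 := h45
  have e5_4 : T.a (v 5) (v 4) ≠ 0 := s_ _ _ e4_5
  have r4_5 : 1 ≤ ratio T (v 4) (v 5) := ratio_ge_one T (v.injective.ne (by decide)) e4_5
  have r5_4 : 1 ≤ ratio T (v 5) (v 4) := ratio_ge_one T (v.injective.ne (by decide)) e5_4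
  have e5_6 : T.a (v 5) (v 6) ≠ 0 := h56
  have e6_5 : T.a (v 6) (v 5) ≠ 0 := s_ _ _ e5_6
  have r5_6 : 1 ≤ ratio T (v 5) (v 6) := ratio_ge_one T (v.injective.ne (by decide)) e5_6
  have r6_5 : 1 ≤ ratio T (v 6) (v 5) := ratio_ge_one T (v.injective.ne (by decide)) e6_5
  have e4_7 : T.a (v 4) (v 7) ≠ 0 := h47
  have e7_4 : T.a (v 7) (v 4) ≠ 0 := s_ _ _ e4_7
  have r4_7 : 1 ≤ ratio T (v 4) (v 7) := ratio_ge_one T (v.injective.ne (by decide)) e4_7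
  have r7_4 : 1 ≤ ratio T (v 7) (v 4) := ratio_ge_one T (v.injective.ne (by decide)) e7_4
  by_contra hA; push Not at hA
  refine no_test T (fun i => v (![6, 5, 4, 3, 7] i)) (v.injective.comp (by decide : Function.Injective (![6, 5, 4, 3, 7] : Fin 5 → Fin 8))) (lt_of_le_of_lt (by norm_num) hn) (fun i => hv _) ![2, 2, 2, 1, 1] ?_ ⟨0, by simp⟩ ?_
  · intro p; fin_cases p <;> simp
  · intro p
    fin_cases p
    · refine ⟨[1], by decide, by decide, ?_⟩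
      simp
      linarith only [r6_5, hA]
    · refine ⟨[0, 2], by decide, by decide, ?_⟩
      simp
      linarith only [r5_6, r5_4]
    · refine ⟨[1, 3, 4], by decide, by decide, ?_⟩
      simp
      linarith only [r4_5, r4_3, r4_7]
    · refine ⟨[2], by decide, by decide, ?_⟩
      simp
      linarith only [r3_4]
    · refine ⟨[2], by decide, by decide, ?_⟩
      simp
      linarith only [r7_4]

theorem aux_sB6_5 {n : ℕ} (T : Models.NumericalType n) (hn : 8 < n)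
    (v : Fin 8 ↪ Fin n) (hv : ∀ j, T.IsMinusTwo (v j)) (h01 : T.a (v 0) (v 1) ≠ 0) (h12 : T.a (v 1) (v 2) ≠ 0) (h23 : T.a (v 2) (v 3) ≠ 0) (h34 : T.a (v 3) (v 4) ≠ 0) (h45 : T.a (v 4) (v 5) ≠ 0) (h56 : T.a (v 5) (v 6) ≠ 0) (h47 : T.a (v 4) (v 7) ≠ 0) : ratio T (v 5) (v 6) < 2 := by
  have s_ : ∀ i j, T.a i j ≠ 0 → T.a j i ≠ 0 := fun i j h => by rwa [a_symm T]
  have e0_1 : T.a (v 0) (v 1) ≠ 0 := h01
  have e1_0 : T.a (v 1) (v 0) ≠ 0 := s_ _ _ e0_1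
  have r0_1 : 1 ≤ ratio T (v 0) (v 1) := ratio_ge_one T (v.injective.ne (by decide)) e0_1
  have r1_0 : 1 ≤ ratio T (v 1) (v 0) := ratio_ge_one T (v.injective.ne (by decide)) e1_0
  have e1_2 : T.a (v 1) (v 2) ≠ 0 := h12
  have e2_1 : T.a (v 2) (v 1) ≠ 0 := s_ _ _ e1_2
  have r1_2 : 1 ≤ ratio T (v 1) (v 2) := ratio_ge_one T (v.injective.ne (by decide)) e1_2
  have r2_1 : 1 ≤ ratio T (v 2) (v 1) := ratio_ge_one T (v.injective.ne (by decide)) e2_1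
  have e2_3 : T.a (v 2) (v 3) ≠ 0 := h23
  have e3_2 : T.a (v 3) (v 2) ≠ 0 := s_ _ _ e2_3
  have r2_3 : 1 ≤ ratio T (v 2) (v 3) := ratio_ge_one T (v.injective.ne (by decide)) e2_3
  have r3_2 : 1 ≤ ratio T (v 3) (v 2) := ratio_ge_one T (v.injective.ne (by decide)) e3_2
  have e3_4 : T.a (v 3) (v 4) ≠ 0 := h34
  have e4_3 : T.a (v 4) (v 3) ≠ 0 := s_ _ _ e3_4
  have r3_4 : 1 ≤ ratio T (v 3) (v 4) := ratio_ge_one T (v.injective.ne (by decide)) e3_4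
  have r4_3 : 1 ≤ ratio T (v 4) (v 3) := ratio_ge_one T (v.injective.ne (by decide)) e4_3
  have e4_5 : T.a (v 4) (v 5) ≠ 0 := h45
  have e5_4 : T.a (v 5) (v 4) ≠ 0 := s_ _ _ e4_5
  have r4_5 : 1 ≤ ratio T (v 4) (v 5) := ratio_ge_one T (v.injective.ne (by decide)) e4_5
  have r5_4 : 1 ≤ ratio T (v 5) (v 4) := ratio_ge_one T (v.injective.ne (by decide)) e5_4
  have e5_6 : T.a (v 5) (v 6) ≠ 0 := h56
  have e6_5 : T.a (v 6) (v 5) ≠ 0 := s_ _ _ e5_6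
  have r5_6 : 1 ≤ ratio T (v 5) (v 6) := ratio_ge_one T (v.injective.ne (by decide)) e5_6
  have r6_5 : 1 ≤ ratio T (v 6) (v 5) := ratio_ge_one T (v.injective.ne (by decide)) e6_5
  have e4_7 : T.a (v 4) (v 7) ≠ 0 := h47
  have e7_4 : T.a (v 7) (v 4) ≠ 0 := s_ _ _ e4_7
  have r4_7 : 1 ≤ ratio T (v 4) (v 7) := ratio_ge_one T (v.injective.ne (by decide)) e4_7
  have r7_4 : 1 ≤ ratio T (v 7) (v 4) := ratio_ge_one T (v.injective.ne (by decide)) e7_4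
  by_contra hB; push Not at hB
  refine no_test T (fun i => v (![6, 5, 4, 3, 7] i)) (v.injective.comp (by decide : Function.Injective (![6, 5, 4, 3, 7] : Fin 5 → Fin 8))) (lt_of_le_of_lt (by norm_num) hn) (fun i => hv _) ![1, 2, 2, 1, 1] ?_ ⟨0, by simp⟩ ?_
  · intro p; fin_cases p <;> simp
  · intro p
    fin_cases p
    · refine ⟨[1], by decide, by decide, ?_⟩
      simp
      linarith only [r6_5]
    · refine ⟨[0, 2], by decide, by decide, ?_⟩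
      simp
      linarith only [r5_6, r5_4, hB]
    · refine ⟨[1, 3, 4], by decide, by decide, ?_⟩
      simp
      linarith only [r4_5, r4_3, r4_7]
    · refine ⟨[2], by decide, by decide, ?_⟩
      simp
      linarith only [r3_4]
    · refine ⟨[2], by decide, by decide, ?_⟩
      simp
      linarith only [r7_4]

theorem aux_sA7_4 {n : ℕ} (T : Models.NumericalType n) (hn : 8 < n)
    (v : Fin 8 ↪ Fin n) (hv : ∀ j, T.IsMinusTwo (v j)) (h01 : T.a (v 0) (v 1) ≠ 0) (h12 : T.a (v 1) (v 2) ≠ 0) (h23 : T.a (v 2) (v 3) ≠ 0) (h34 : T.a (v 3) (v 4) ≠ 0) (h45 : T.a (v 4) (v 5) ≠ 0) (h56 : T.a (v 5) (v 6) ≠ 0) (h47 : T.a (v 4) (v 7) ≠ 0) : ratio T (v 7) (v 4) < 2 := by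
  have s_ : ∀ i j, T.a i j ≠ 0 → T.a j i ≠ 0 := fun i j h => by rwa [a_symm T]
  have e0_1 : T.a (v 0) (v 1) ≠ 0 := h01
  have e1_0 : T.a (v 1) (v 0) ≠ 0 := s_ _ _ e0_1
  have r0_1 : 1 ≤ ratio T (v 0) (v 1) := ratio_ge_one T (v.injective.ne (by decide)) e0_1
  have r1_0 : 1 ≤ ratio T (v 1) (v 0) := ratio_ge_one T (v.injective.ne (by decide)) e1_0
  have e1_2 : T.a (v 1) (v 2) ≠ 0 := h12
  have e2_1 : T.a (v 2) (v 1) ≠ 0 := s_ _ _ e1_2
  have r1_2 : 1 ≤ ratio T (v 1) (v 2) := ratio_ge_one T (v.injective.ne (by decide)) e1_2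
  have r2_1 : 1 ≤ ratio T (v 2) (v 1) := ratio_ge_one T (v.injective.ne (by decide)) e2_1
  have e2_3 : T.a (v 2) (v 3) ≠ 0 := h23
  have e3_2 : T.a (v 3) (v 2) ≠ 0 := s_ _ _ e2_3
  have r2_3 : 1 ≤ ratio T (v 2) (v 3) := ratio_ge_one T (v.injective.ne (by decide)) e2_3
  have r3_2 : 1 ≤ ratio T (v 3) (v 2) := ratio_ge_one T (v.injective.ne (by decide)) e3_2
  have e3_4 : T.a (v 3) (v 4) ≠ 0 := h34
  have e4_3 : T.a (v 4) (v 3) ≠ 0 := s_ _ _ e3_4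
  have r3_4 : 1 ≤ ratio T (v 3) (v 4) := ratio_ge_one T (v.injective.ne (by decide)) e3_4
  have r4_3 : 1 ≤ ratio T (v 4) (v 3) := ratio_ge_one T (v.injective.ne (by decide)) e4_3
  have e4_5 : T.a (v 4) (v 5) ≠ 0 := h45
  have e5_4 : T.a (v 5) (v 4) ≠ 0 := s_ _ _ e4_5
  have r4_5 : 1 ≤ ratio T (v 4) (v 5) := ratio_ge_one T (v.injective.ne (by decide)) e4_5
  have r5_4 : 1 ≤ ratio T (v 5) (v 4) := ratio_ge_one T (v.injective.ne (by decide)) e5_4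
  have e5_6 : T.a (v 5) (v 6) ≠ 0 := h56
  have e6_5 : T.a (v 6) (v 5) ≠ 0 := s_ _ _ e5_6
  have r5_6 : 1 ≤ ratio T (v 5) (v 6) := ratio_ge_one T (v.injective.ne (by decide)) e5_6
  have r6_5 : 1 ≤ ratio T (v 6) (v 5) := ratio_ge_one T (v.injective.ne (by decide)) e6_5
  have e4_7 : T.a (v 4) (v 7) ≠ 0 := h47
  have e7_4 : T.a (v 7) (v 4) ≠ 0 := s_ _ _ e4_7
  have r4_7 : 1 ≤ ratio T (v 4) (v 7) := ratio_ge_one T (v.injective.ne (by decide)) e4_7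
  have r7_4 : 1 ≤ ratio T (v 7) (v 4) := ratio_ge_one T (v.injective.ne (by decide)) e7_4
  by_contra hA; push Not at hA
  refine no_test T (fun i => v (![7, 4, 3, 5] i)) (v.injective.comp (by decide : Function.Injective (![7, 4, 3, 5] : Fin 4 → Fin 8))) (lt_of_le_of_lt (by norm_num) hn) (fun i => hv _) ![2, 2, 1, 1] ?_ ⟨0, by simp⟩ ?_
  · intro p; fin_cases p <;> simp
  · intro p
    fin_cases p
    · refine ⟨[1], by decide, by decide, ?_⟩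
      simp
      linarith only [r7_4, hA]
    · refine ⟨[0, 2, 3], by decide, by decide, ?_⟩
      simp
      linarith only [r4_7, r4_3, r4_5]
    · refine ⟨[1], by decide, by decide, ?_⟩
      simp
      linarith only [r3_4]
    · refine ⟨[1], by decide, by decide, ?_⟩
      simp
      linarith only [r5_4]

theorem aux_sB7_4 {n : ℕ} (T : Models.NumericalType n) (hn : 8 < n)
    (v : Fin 8 ↪ Fin n) (hv : ∀ j, T.IsMinusTwo (v j)) (h01 : T.a (v 0) (v 1) ≠ 0) (h12 : T.a (v 1) (v 2) ≠ 0) (h23 : T.a (v 2) (v 3) ≠ 0) (h34 : T.a (v 3) (v 4) ≠ 0) (h45 : T.a (v 4) (v 5) ≠ 0) (h56 : T.a (v 5) (v 6) ≠ 0) (h47 : T.a (v 4) (v 7) ≠ 0) : ratio T (v 4) (v 7) < 2 := by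
  have s_ : ∀ i j, T.a i j ≠ 0 → T.a j i ≠ 0 := fun i j h => by rwa [a_symm T]
  have e0_1 : T.a (v 0) (v 1) ≠ 0 := h01
  have e1_0 : T.a (v 1) (v 0) ≠ 0 := s_ _ _ e0_1
  have r0_1 : 1 ≤ ratio T (v 0) (v 1) := ratio_ge_one T (v.injective.ne (by decide)) e0_1
  have r1_0 : 1 ≤ ratio T (v 1) (v 0) := ratio_ge_one T (v.injective.ne (by decide)) e1_0
  have e1_2 : T.a (v 1) (v 2) ≠ 0 := h12
  have e2_1 : T.a (v 2) (v 1) ≠ 0 := s_ _ _ e1_2
  have r1_2 : 1 ≤ ratio T (v 1) (v 2) := ratio_ge_one T (v.injective.ne (by decide)) e1_2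
  have r2_1 : 1 ≤ ratio T (v 2) (v 1) := ratio_ge_one T (v.injective.ne (by decide)) e2_1
  have e2_3 : T.a (v 2) (v 3) ≠ 0 := h23
  have e3_2 : T.a (v 3) (v 2) ≠ 0 := s_ _ _ e2_3
  have r2_3 : 1 ≤ ratio T (v 2) (v 3) := ratio_ge_one T (v.injective.ne (by decide)) e2_3
  have r3_2 : 1 ≤ ratio T (v 3) (v 2) := ratio_ge_one T (v.injective.ne (by decide)) e3_2
  have e3_4 : T.a (v 3) (v 4) ≠ 0 := h34
  have e4_3 : T.a (v 4) (v 3) ≠ 0 := s_ _ _ e3_4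
  have r3_4 : 1 ≤ ratio T (v 3) (v 4) := ratio_ge_one T (v.injective.ne (by decide)) e3_4
  have r4_3 : 1 ≤ ratio T (v 4) (v 3) := ratio_ge_one T (v.injective.ne (by decide)) e4_3
  have e4_5 : T.a (v 4) (v 5) ≠ 0 := h45
  have e5_4 : T.a (v 5) (v 4) ≠ 0 := s_ _ _ e4_5
  have r4_5 : 1 ≤ ratio T (v 4) (v 5) := ratio_ge_one T (v.injective.ne (by decide)) e4_5
  have r5_4 : 1 ≤ ratio T (v 5) (v 4) := ratio_ge_one T (v.injective.ne (by decide)) e5_4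
  have e5_6 : T.a (v 5) (v 6) ≠ 0 := h56
  have e6_5 : T.a (v 6) (v 5) ≠ 0 := s_ _ _ e5_6
  have r5_6 : 1 ≤ ratio T (v 5) (v 6) := ratio_ge_one T (v.injective.ne (by decide)) e5_6
  have r6_5 : 1 ≤ ratio T (v 6) (v 5) := ratio_ge_one T (v.injective.ne (by decide)) e6_5
  have e4_7 : T.a (v 4) (v 7) ≠ 0 := h47
  have e7_4 : T.a (v 7) (v 4) ≠ 0 := s_ _ _ e4_7
  have r4_7 : 1 ≤ ratio T (v 4) (v 7) := ratio_ge_one T (v.injective.ne (by decide)) e4_7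
  have r7_4 : 1 ≤ ratio T (v 7) (v 4) := ratio_ge_one T (v.injective.ne (by decide)) e7_4
  by_contra hB; push Not at hB
  refine no_test T (fun i => v (![7, 4, 3, 5] i)) (v.injective.comp (by decide : Function.Injective (![7, 4, 3, 5] : Fin 4 → Fin 8))) (lt_of_le_of_lt (by norm_num) hn) (fun i => hv _) ![1, 2, 1, 1] ?_ ⟨0, by simp⟩ ?_
  · intro p; fin_cases p <;> simp
  · intro p
    fin_cases p
    · refine ⟨[1], by decide, by decide, ?_⟩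
      simp
      linarith only [r7_4]
    · refine ⟨[0, 2, 3], by decide, by decide, ?_⟩
      simp
      linarith only [r4_7, r4_3, r4_5, hB]
    · refine ⟨[1], by decide, by decide, ?_⟩
      simp
      linarith only [r3_4]
    · refine ⟨[1], by decide, by decide, ?_⟩
      simp
      linarith only [r5_4]

set_option maxHeartbeats 1000000 in
/-- Classification of proper subgraphs of type E8 (a chain i_1 … i_7 with i_8 joined to i_5): let T be a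
numerical type on n > 8 indices and i_1, …, i_8 distinct (-2)-indices with a_{12}, a_{23}, a_{34},
a_{45}, a_{56}, a_{67}, a_{58} nonzero. Then for some integer w all w_{i_j} equal w, these
intersection numbers equal w, all other a_{i_j i_k} (j ≠ k) vanish, and 2 m_1 ≥ m_2, 2 m_2 ≥ m_1 +
m_3, 2 m_3 ≥ m_2 + m_4, 2 m_4 ≥ m_3 + m_5, 2 m_5 ≥ m_4 + m_6 + m_8, 2 m_6 ≥ m_5 + m_7, 2 m_7 ≥ m_6,
2 m_8 ≥ m_5. (The published statement lists a_{65} and a_{57} among the nonzero entries, which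
contradicts its own conclusion a_{57} = 0; this row uses the edges of the E8 graph, a_{67} and
a_{58}, as the pictured graph and the matrix give them.) -/
theorem result {n : ℕ} (T : Models.NumericalType n) (hn : 8 < n)
    (v : Fin 8 ↪ Fin n) (hv : ∀ j, T.IsMinusTwo (v j)) (h01 : T.a (v 0) (v 1) ≠ 0) (h12 : T.a (v 1) (v 2) ≠ 0) (h23 : T.a (v 2) (v 3) ≠ 0) (h34 : T.a (v 3) (v 4) ≠ 0) (h45 : T.a (v 4) (v 5) ≠ 0) (h56 : T.a (v 5) (v 6) ≠ 0) (h47 : T.a (v 4) (v 7) ≠ 0) :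
    ∃ w : ℤ, (∀ j : Fin 8, T.w (v j) = w) ∧
      T.a (v 0) (v 1) = w ∧
      T.a (v 1) (v 2) = w ∧
      T.a (v 2) (v 3) = w ∧
      T.a (v 3) (v 4) = w ∧
      T.a (v 4) (v 5) = w ∧
      T.a (v 5) (v 6) = w ∧
      T.a (v 4) (v 7) = w ∧
      T.a (v 0) (v 2) = 0 ∧
      T.a (v 0) (v 3) = 0 ∧
      T.a (v 0) (v 4) = 0 ∧
      T.a (v 0) (v 5) = 0 ∧
      T.a (v 0) (v 6) = 0 ∧
      T.a (v 0) (v 7) = 0 ∧
      T.a (v 1) (v 3) = 0 ∧
      T.a (v 1) (v 4) = 0 ∧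
      T.a (v 1) (v 5) = 0 ∧
      T.a (v 1) (v 6) = 0 ∧
      T.a (v 1) (v 7) = 0 ∧
      T.a (v 2) (v 4) = 0 ∧
      T.a (v 2) (v 5) = 0 ∧
      T.a (v 2) (v 6) = 0 ∧
      T.a (v 2) (v 7) = 0 ∧
      T.a (v 3) (v 5) = 0 ∧
      T.a (v 3) (v 6) = 0 ∧
      T.a (v 3) (v 7) = 0 ∧
      T.a (v 4) (v 6) = 0 ∧
      T.a (v 5) (v 7) = 0 ∧
      T.a (v 6) (v 7) = 0 ∧
      T.m (v 1) ≤ 2 * T.m (v 0) ∧
      T.m (v 0) + T.m (v 2) ≤ 2 * T.m (v 1) ∧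
      T.m (v 1) + T.m (v 3) ≤ 2 * T.m (v 2) ∧
      T.m (v 2) + T.m (v 4) ≤ 2 * T.m (v 3) ∧
      T.m (v 3) + T.m (v 5) + T.m (v 7) ≤ 2 * T.m (v 4) ∧
      T.m (v 4) + T.m (v 6) ≤ 2 * T.m (v 5) ∧
      T.m (v 5) ≤ 2 * T.m (v 6) ∧
      T.m (v 4) ≤ 2 * T.m (v 7) := by
  have s_ : ∀ i j, T.a i j ≠ 0 → T.a j i ≠ 0 := fun i j h => by rwa [a_symm T]
  have e0_1 : T.a (v 0) (v 1) ≠ 0 := h01
  have e1_0 : T.a (v 1) (v 0) ≠ 0 := s_ _ _ e0_1
  have e1_2 : T.a (v 1) (v 2) ≠ 0 := h12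
  have e2_1 : T.a (v 2) (v 1) ≠ 0 := s_ _ _ e1_2
  have e2_3 : T.a (v 2) (v 3) ≠ 0 := h23
  have e3_2 : T.a (v 3) (v 2) ≠ 0 := s_ _ _ e2_3
  have e3_4 : T.a (v 3) (v 4) ≠ 0 := h34
  have e4_3 : T.a (v 4) (v 3) ≠ 0 := s_ _ _ e3_4
  have e4_5 : T.a (v 4) (v 5) ≠ 0 := h45
  have e5_4 : T.a (v 5) (v 4) ≠ 0 := s_ _ _ e4_5
  have e5_6 : T.a (v 5) (v 6) ≠ 0 := h56
  have e6_5 : T.a (v 6) (v 5) ≠ 0 := s_ _ _ e5_6
  have e4_7 : T.a (v 4) (v 7) ≠ 0 := h47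
  have e7_4 : T.a (v 7) (v 4) ≠ 0 := s_ _ _ e4_7
  have z0_2 : T.a (v 0) (v 2) = 0 := aux_z0_2 T hn v hv h01 h12 h23 h34 h45 h56 h47
  have z2_0 : T.a (v 2) (v 0) = 0 := by rw [a_symm T]; exact z0_2
  have z0_3 : T.a (v 0) (v 3) = 0 := aux_z0_3 T hn v hv h01 h12 h23 h34 h45 h56 h47
  have z3_0 : T.a (v 3) (v 0) = 0 := by rw [a_symm T]; exact z0_3
  have z0_4 : T.a (v 0) (v 4) = 0 := aux_z0_4 T hn v hv h01 h12 h23 h34 h45 h56 h47
  have z4_0 : T.a (v 4) (v 0) = 0 := by rw [a_symm T]; exact z0_4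
  have z0_5 : T.a (v 0) (v 5) = 0 := aux_z0_5 T hn v hv h01 h12 h23 h34 h45 h56 h47
  have z5_0 : T.a (v 5) (v 0) = 0 := by rw [a_symm T]; exact z0_5
  have z0_6 : T.a (v 0) (v 6) = 0 := aux_z0_6 T hn v hv h01 h12 h23 h34 h45 h56 h47
  have z6_0 : T.a (v 6) (v 0) = 0 := by rw [a_symm T]; exact z0_6
  have z0_7 : T.a (v 0) (v 7) = 0 := aux_z0_7 T hn v hv h01 h12 h23 h34 h45 h56 h47
  have z7_0 : T.a (v 7) (v 0) = 0 := by rw [a_symm T]; exact z0_7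
  have z1_3 : T.a (v 1) (v 3) = 0 := aux_z1_3 T hn v hv h01 h12 h23 h34 h45 h56 h47
  have z3_1 : T.a (v 3) (v 1) = 0 := by rw [a_symm T]; exact z1_3
  have z1_4 : T.a (v 1) (v 4) = 0 := aux_z1_4 T hn v hv h01 h12 h23 h34 h45 h56 h47
  have z4_1 : T.a (v 4) (v 1) = 0 := by rw [a_symm T]; exact z1_4
  have z1_5 : T.a (v 1) (v 5) = 0 := aux_z1_5 T hn v hv h01 h12 h23 h34 h45 h56 h47
  have z5_1 : T.a (v 5) (v 1) = 0 := by rw [a_symm T]; exact z1_5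
  have z1_6 : T.a (v 1) (v 6) = 0 := aux_z1_6 T hn v hv h01 h12 h23 h34 h45 h56 h47
  have z6_1 : T.a (v 6) (v 1) = 0 := by rw [a_symm T]; exact z1_6
  have z1_7 : T.a (v 1) (v 7) = 0 := aux_z1_7 T hn v hv h01 h12 h23 h34 h45 h56 h47
  have z7_1 : T.a (v 7) (v 1) = 0 := by rw [a_symm T]; exact z1_7
  have z2_4 : T.a (v 2) (v 4) = 0 := aux_z2_4 T hn v hv h01 h12 h23 h34 h45 h56 h47
  have z4_2 : T.a (v 4) (v 2) = 0 := by rw [a_symm T]; exact z2_4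
  have z2_5 : T.a (v 2) (v 5) = 0 := aux_z2_5 T hn v hv h01 h12 h23 h34 h45 h56 h47
  have z5_2 : T.a (v 5) (v 2) = 0 := by rw [a_symm T]; exact z2_5
  have z2_6 : T.a (v 2) (v 6) = 0 := aux_z2_6 T hn v hv h01 h12 h23 h34 h45 h56 h47
  have z6_2 : T.a (v 6) (v 2) = 0 := by rw [a_symm T]; exact z2_6
  have z2_7 : T.a (v 2) (v 7) = 0 := aux_z2_7 T hn v hv h01 h12 h23 h34 h45 h56 h47
  have z7_2 : T.a (v 7) (v 2) = 0 := by rw [a_symm T]; exact z2_7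
  have z3_5 : T.a (v 3) (v 5) = 0 := aux_z3_5 T hn v hv h01 h12 h23 h34 h45 h56 h47
  have z5_3 : T.a (v 5) (v 3) = 0 := by rw [a_symm T]; exact z3_5
  have z3_6 : T.a (v 3) (v 6) = 0 := aux_z3_6 T hn v hv h01 h12 h23 h34 h45 h56 h47
  have z6_3 : T.a (v 6) (v 3) = 0 := by rw [a_symm T]; exact z3_6
  have z3_7 : T.a (v 3) (v 7) = 0 := aux_z3_7 T hn v hv h01 h12 h23 h34 h45 h56 h47
  have z7_3 : T.a (v 7) (v 3) = 0 := by rw [a_symm T]; exact z3_7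
  have z4_6 : T.a (v 4) (v 6) = 0 := aux_z4_6 T hn v hv h01 h12 h23 h34 h45 h56 h47
  have z6_4 : T.a (v 6) (v 4) = 0 := by rw [a_symm T]; exact z4_6
  have z5_7 : T.a (v 5) (v 7) = 0 := aux_z5_7 T hn v hv h01 h12 h23 h34 h45 h56 h47
  have z7_5 : T.a (v 7) (v 5) = 0 := by rw [a_symm T]; exact z5_7
  have z6_7 : T.a (v 6) (v 7) = 0 := aux_z6_7 T hn v hv h01 h12 h23 h34 h45 h56 h47
  have z7_6 : T.a (v 7) (v 6) = 0 := by rw [a_symm T]; exact z6_7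
  obtain ⟨a0_1, w0_1⟩ := simple_of_ratio_lt T (lt_of_le_of_lt (by norm_num) hn) (v.injective.ne (by decide)) (hv 0) (hv 1) e0_1 (aux_sA0_1 T hn v hv h01 h12 h23 h34 h45 h56 h47) (aux_sB0_1 T hn v hv h01 h12 h23 h34 h45 h56 h47)
  obtain ⟨a1_2, w1_2⟩ := simple_of_ratio_lt T (lt_of_le_of_lt (by norm_num) hn) (v.injective.ne (by decide)) (hv 1) (hv 2) e1_2 (aux_sA1_2 T hn v hv h01 h12 h23 h34 h45 h56 h47) (aux_sB1_2 T hn v hv h01 h12 h23 h34 h45 h56 h47)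
  obtain ⟨a2_3, w2_3⟩ := simple_of_ratio_lt T (lt_of_le_of_lt (by norm_num) hn) (v.injective.ne (by decide)) (hv 2) (hv 3) e2_3 (aux_sA2_3 T hn v hv h01 h12 h23 h34 h45 h56 h47) (aux_sB2_3 T hn v hv h01 h12 h23 h34 h45 h56 h47)
  obtain ⟨a3_4, w3_4⟩ := simple_of_ratio_lt T (lt_of_le_of_lt (by norm_num) hn) (v.injective.ne (by decide)) (hv 3) (hv 4) e3_4 (aux_sA3_4 T hn v hv h01 h12 h23 h34 h45 h56 h47) (aux_sB3_4 T hn v hv h01 h12 h23 h34 h45 h56 h47)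
  obtain ⟨a5_4, w5_4⟩ := simple_of_ratio_lt T (lt_of_le_of_lt (by norm_num) hn) (v.injective.ne (by decide)) (hv 5) (hv 4) e5_4 (aux_sA5_4 T hn v hv h01 h12 h23 h34 h45 h56 h47) (aux_sB5_4 T hn v hv h01 h12 h23 h34 h45 h56 h47)
  obtain ⟨a6_5, w6_5⟩ := simple_of_ratio_lt T (lt_of_le_of_lt (by norm_num) hn) (v.injective.ne (by decide)) (hv 6) (hv 5) e6_5 (aux_sA6_5 T hn v hv h01 h12 h23 h34 h45 h56 h47) (aux_sB6_5 T hn v hv h01 h12 h23 h34 h45 h56 h47)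
  obtain ⟨a7_4, w7_4⟩ := simple_of_ratio_lt T (lt_of_le_of_lt (by norm_num) hn) (v.injective.ne (by decide)) (hv 7) (hv 4) e7_4 (aux_sA7_4 T hn v hv h01 h12 h23 h34 h45 h56 h47) (aux_sB7_4 T hn v hv h01 h12 h23 h34 h45 h56 h47)
  have hW := T.w_pos (v 4)
  have W4 : T.w (v 4) = T.w (v 4) := rfl
  have W3 : T.w (v 3) = T.w (v 4) := by rw [← W4]; exact (w3_4).symm
  have W5 : T.w (v 5) = T.w (v 4) := by rw [← W4]; exact (w5_4).symm
  have W7 : T.w (v 7) = T.w (v 4) := by rw [← W4]; exact (w7_4).symm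
  have W2 : T.w (v 2) = T.w (v 4) := by rw [← W3]; exact (w2_3).symm
  have W6 : T.w (v 6) = T.w (v 4) := by rw [← W5]; exact (w6_5).symm
  have W1 : T.w (v 1) = T.w (v 4) := by rw [← W2]; exact (w1_2).symm
  have W0 : T.w (v 0) = T.w (v 4) := by rw [← W1]; exact (w0_1).symm
  have A0_1 : T.a (v 0) (v 1) = T.w (v 4) := by rw [a0_1, W0]
  have A1_0 : T.a (v 1) (v 0) = T.w (v 4) := by rw [a_symm T, A0_1]
  have A1_2 : T.a (v 1) (v 2) = T.w (v 4) := by rw [a1_2, W1]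
  have A2_1 : T.a (v 2) (v 1) = T.w (v 4) := by rw [a_symm T, A1_2]
  have A2_3 : T.a (v 2) (v 3) = T.w (v 4) := by rw [a2_3, W2]
  have A3_2 : T.a (v 3) (v 2) = T.w (v 4) := by rw [a_symm T, A2_3]
  have A3_4 : T.a (v 3) (v 4) = T.w (v 4) := by rw [a3_4, W3]
  have A4_3 : T.a (v 4) (v 3) = T.w (v 4) := by rw [a_symm T, A3_4]
  have A5_4 : T.a (v 5) (v 4) = T.w (v 4) := by rw [a5_4, W5]
  have A4_5 : T.a (v 4) (v 5) = T.w (v 4) := by rw [a_symm T, A5_4]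
  have A6_5 : T.a (v 6) (v 5) = T.w (v 4) := by rw [a6_5, W6]
  have A5_6 : T.a (v 5) (v 6) = T.w (v 4) := by rw [a_symm T, A6_5]
  have A7_4 : T.a (v 7) (v 4) = T.w (v 4) := by rw [a7_4, W7]
  have A4_7 : T.a (v 4) (v 7) = T.w (v 4) := by rw [a_symm T, A7_4]
  have D0 : T.a (v 0) (v 0) = -2 * T.w (v 4) := by rw [(hv 0).2, W0]
  have D1 : T.a (v 1) (v 1) = -2 * T.w (v 4) := by rw [(hv 1).2, W1]
  have D2 : T.a (v 2) (v 2) = -2 * T.w (v 4) := by rw [(hv 2).2, W2]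
  have D3 : T.a (v 3) (v 3) = -2 * T.w (v 4) := by rw [(hv 3).2, W3]
  have D4 : T.a (v 4) (v 4) = -2 * T.w (v 4) := by rw [(hv 4).2, W4]
  have D5 : T.a (v 5) (v 5) = -2 * T.w (v 4) := by rw [(hv 5).2, W5]
  have D6 : T.a (v 6) (v 6) = -2 * T.w (v 4) := by rw [(hv 6).2, W6]
  have D7 : T.a (v 7) (v 7) = -2 * T.w (v 4) := by rw [(hv 7).2, W7]
  refine ⟨T.w (v 4), ?_, ?_, ?_, ?_, ?_, ?_, ?_, ?_, ?_, ?_, ?_, ?_, ?_, ?_, ?_, ?_, ?_, ?_, ?_, ?_, ?_, ?_, ?_, ?_, ?_, ?_, ?_, ?_, ?_, ?_, ?_, ?_, ?_, ?_, ?_, ?_, ?_⟩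
  · intro j; fin_cases j <;> simp [W0, W1, W2, W3, W5, W6, W7]
  · exact A0_1
  · exact A1_2
  · exact A2_3
  · exact A3_4
  · exact A4_5
  · exact A5_6
  · exact A4_7
  · exact z0_2
  · exact z0_3
  · exact z0_4
  · exact z0_5
  · exact z0_6
  · exact z0_7
  · exact z1_3
  · exact z1_4
  · exact z1_5
  · exact z1_6
  · exact z1_7
  · exact z2_4
  · exact z2_5
  · exact z2_6
  · exact z2_7
  · exact z3_5
  · exact z3_6
  · exact z3_7
  · exact z4_6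
  · exact z5_7
  · exact z6_7
  · have h := row_ineq T (v 0) ([1].map v) ((by decide : ([0, 1] : List (Fin 8)).Nodup).map v.injective) (T.w (v 4)) hW 2 (by rw [D0]; ring) (fun _ => 1) (by simp; exact A0_1)
    simp at h; linarith
  · have h := row_ineq T (v 1) ([0, 2].map v) ((by decide : ([1, 0, 2] : List (Fin 8)).Nodup).map v.injective) (T.w (v 4)) hW 2 (by rw [D1]; ring) (fun _ => 1) (by simp; exact ⟨A1_0, A1_2⟩)
    simp at h; linarith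
  · have h := row_ineq T (v 2) ([1, 3].map v) ((by decide : ([2, 1, 3] : List (Fin 8)).Nodup).map v.injective) (T.w (v 4)) hW 2 (by rw [D2]; ring) (fun _ => 1) (by simp; exact ⟨A2_1, A2_3⟩)
    simp at h; linarith
  · have h := row_ineq T (v 3) ([2, 4].map v) ((by decide : ([3, 2, 4] : List (Fin 8)).Nodup).map v.injective) (T.w (v 4)) hW 2 (by rw [D3]; ring) (fun _ => 1) (by simp; exact ⟨A3_2, A3_4⟩)
    simp at h; linarith
  · have h := row_ineq T (v 4) ([3, 5, 7].map v) ((by decide : ([4, 3, 5, 7] : List (Fin 8)).Nodup).map v.injective) (T.w (v 4)) hW 2 (by rw [D4]; ring) (fun _ => 1) (by simp; exact ⟨A4_3, A4_5, A4_7⟩)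
    simp at h; linarith
  · have h := row_ineq T (v 5) ([4, 6].map v) ((by decide : ([5, 4, 6] : List (Fin 8)).Nodup).map v.injective) (T.w (v 4)) hW 2 (by rw [D5]; ring) (fun _ => 1) (by simp; exact ⟨A5_4, A5_6⟩)
    simp at h; linarith
  · have h := row_ineq T (v 6) ([5].map v) ((by decide : ([6, 5] : List (Fin 8)).Nodup).map v.injective) (T.w (v 4)) hW 2 (by rw [D6]; ring) (fun _ => 1) (by simp; exact A6_5)
    simp at h; linarith
  · have h := row_ineq T (v 7) ([4].map v) ((by decide : ([7, 4] : List (Fin 8)).Nodup).map v.injective) (T.w (v 4)) hW 2 (by rw [D7]; ring) (fun _ => 1) (by simp; exact A7_4)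
    simp at h; linarith

end Groth.Agent.S7350
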