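import Groth.Statements.S7351
import Groth.Agent.Lib.Helper11.NumTypeTest

set_option autoImplicit false
open Finset
open Models Models.NumericalType
open Groth.Agent.Lib.Helper11.NumType

namespace Groth.Agent.S7351

/-- Let T be a numerical type on n > 5 indices. There do not exist five distinct (-2)-indices h, i, j,
k, l with a_hi > 0, a_hj > 0, a_hk > 0 and a_hl > 0. -/
theorem result {n : ℕ} (T : Models.NumericalType n) (hn : 5 < n)
    (v : Fin 5 ↪ Fin n) (hv : ∀ j, T.IsMinusTwo (v j))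
    (h01 : 0 < T.a (v 0) (v 1)) (h02 : 0 < T.a (v 0) (v 2)) (h03 : 0 < T.a (v 0) (v 3)) (h04 : 0 < T.a (v 0) (v 4)) : False := by
  have s_ : ∀ i j, T.a i j ≠ 0 → T.a j i ≠ 0 := fun i j h => by rwa [a_symm T]
  have e0_1 : T.a (v 0) (v 1) ≠ 0 := h01.ne'
  have e1_0 : T.a (v 1) (v 0) ≠ 0 := s_ _ _ e0_1
  have e0_2 : T.a (v 0) (v 2) ≠ 0 := h02.ne'
  have e2_0 : T.a (v 2) (v 0) ≠ 0 := s_ _ _ e0_2
  have e0_3 : T.a (v 0) (v 3) ≠ 0 := h03.ne'
  have e3_0 : T.a (v 3) (v 0) ≠ 0 := s_ _ _ e0_3
  have e0_4 : T.a (v 0) (v 4) ≠ 0 := h04.ne'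
  have e4_0 : T.a (v 4) (v 0) ≠ 0 := s_ _ _ e0_4
  refine no_test_simple T v v.injective hn hv ![2, 1, 1, 1, 1] ?_ ⟨0, by simp⟩ ?_
  · intro p; fin_cases p <;> simp
  · intro p
    fin_cases p
    · refine ⟨[1, 2, 3, 4], by decide, by decide, ?_, by simp <;> norm_num⟩
      simp
      (repeat' constructor) <;> assumption
    · refine ⟨[0], by decide, by decide, ?_, by simp <;> norm_num⟩
      simp
      (repeat' constructor) <;> assumption
    · refine ⟨[0], by decide, by decide, ?_, by simp <;> norm_num⟩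
      simp
      (repeat' constructor) <;> assumption
    · refine ⟨[0], by decide, by decide, ?_, by simp <;> norm_num⟩
      simp
      (repeat' constructor) <;> assumption
    · refine ⟨[0], by decide, by decide, ?_, by simp <;> norm_num⟩
      simp
      (repeat' constructor) <;> assumption

end Groth.Agent.S7351
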