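import Groth.Statements.S7353
import Groth.Agent.Lib.Helper11.NumTypeChain

set_option autoImplicit false
open Finset
open Models Models.NumericalType
open Groth.Agent.Lib.Helper11.NumType

namespace Groth.Agent.S7353

/-- Classification of proper subgraphs which are chains of five vertices: let T be a numerical type on n
> 5 indices and i_1, …, i_5 distinct (-2)-indices with a_{i_j i_{j+1}} nonzero for j < 5. Then
a_{i_j i_l} = 0 for |j - l| ≥ 2 and, after possibly reversing the order of the indices, for some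
integer w one of the following holds: (A5) w = (w, w, w, w, w), consecutive a = (w, w, w, w), with
2m_1 ≥ m_2, 2m_2 ≥ m_1 + m_3, 2m_3 ≥ m_2 + m_4, 2m_4 ≥ m_3 + m_5, 2m_5 ≥ m_4; (C5) w = (w, w, w, w,
2w), consecutive a = (w, w, w, 2w), with 2m_1 ≥ m_2, 2m_2 ≥ m_1 + m_3, 2m_3 ≥ m_2 + m_4, 2m_4 ≥ m_3
+ 2m_5, 2m_5 ≥ m_4; (B5) w = (2w, 2w, 2w, 2w, w), consecutive a = (2w, 2w, 2w, 2w), with 2m_1 ≥ m_2,
2m_2 ≥ m_1 + m_3, 2m_3 ≥ m_2 + m_4, 2m_4 ≥ m_3 + m_5, m_5 ≥ m_4. (The inequalities are those given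
by the rows Σ_l a_{kl} m_l = 0 of the displayed matrices; the published text has 2m_3 ≥ m_2 + 2m_4
and 2m_4 ≥ m_3 + m_5 in case C5 and m_4 ≥ m_3 in case B5, of which the first does not follow — for
the numerical type with six indices, weights (1,1,1,1,2,1), chain intersection numbers (1,1,1,2)
plus a_{16} = 1, a_{66} = -1 and multiplicities (2,2,2,2,1,2) one has 2m_3 = 4 < m_2 + 2m_4 = 6 — so
the matrix inequalities are stated.) -/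
theorem result {n : ℕ} (T : Models.NumericalType n) (hn : 5 < n)
    (v : Fin 5 ↪ Fin n) (hv : ∀ j, T.IsMinusTwo (v j)) (h01 : T.a (v 0) (v 1) ≠ 0) (h12 : T.a (v 1) (v 2) ≠ 0) (h23 : T.a (v 2) (v 3) ≠ 0) (h34 : T.a (v 3) (v 4) ≠ 0) :
    (T.a (v 0) (v 2) = 0 ∧ T.a (v 0) (v 3) = 0 ∧ T.a (v 0) (v 4) = 0 ∧ T.a (v 1) (v 3) = 0 ∧ T.a (v 1) (v 4) = 0 ∧ T.a (v 2) (v 4) = 0) ∧
    ∃ (u : Fin 5 → Fin n) (w : ℤ), ((∀ j, u j = v j) ∨ (∀ j, u j = v (Fin.rev j))) ∧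
      ((T.w (u 0) = w ∧ T.w (u 1) = w ∧ T.w (u 2) = w ∧ T.w (u 3) = w ∧ T.w (u 4) = w ∧ T.a (u 0) (u 1) = w ∧ T.a (u 1) (u 2) = w ∧ T.a (u 2) (u 3) = w ∧ T.a (u 3) (u 4) = w ∧ T.m (u 1) ≤ 2 * T.m (u 0) ∧ T.m (u 0) + T.m (u 2) ≤ 2 * T.m (u 1) ∧ T.m (u 1) + T.m (u 3) ≤ 2 * T.m (u 2) ∧ T.m (u 2) + T.m (u 4) ≤ 2 * T.m (u 3) ∧ T.m (u 3) ≤ 2 * T.m (u 4)) ∨
      (T.w (u 0) = w ∧ T.w (u 1) = w ∧ T.w (u 2) = w ∧ T.w (u 3) = w ∧ T.w (u 4) = 2 * w ∧ T.a (u 0) (u 1) = w ∧ T.a (u 1) (u 2) = w ∧ T.a (u 2) (u 3) = w ∧ T.a (u 3) (u 4) = 2 * w ∧ T.m (u 1) ≤ 2 * T.m (u 0) ∧ T.m (u 0) + T.m (u 2) ≤ 2 * T.m (u 1) ∧ T.m (u 1) + T.m (u 3) ≤ 2 * T.m (u 2) ∧ T.m (u 2) + 2 * T.m (u 4) ≤ 2 * T.m (u 3) ∧ T.m (u 3) ≤ 2 * T.m (u 4)) ∨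
      (T.w (u 0) = 2 * w ∧ T.w (u 1) = 2 * w ∧ T.w (u 2) = 2 * w ∧ T.w (u 3) = 2 * w ∧ T.w (u 4) = w ∧ T.a (u 0) (u 1) = 2 * w ∧ T.a (u 1) (u 2) = 2 * w ∧ T.a (u 2) (u 3) = 2 * w ∧ T.a (u 3) (u 4) = 2 * w ∧ T.m (u 1) ≤ 2 * T.m (u 0) ∧ T.m (u 0) + T.m (u 2) ≤ 2 * T.m (u 1) ∧ T.m (u 1) + T.m (u 3) ≤ 2 * T.m (u 2) ∧ T.m (u 2) + T.m (u 4) ≤ 2 * T.m (u 3) ∧ T.m (u 3) ≤ T.m (u 4))) := by
  obtain ⟨⟨z02, z03, z04, z13, z14, z24⟩, hc⟩ := chain5_types T hn (v.injective.ne (by decide : (0 : Fin 5) ≠ 1)) (v.injective.ne (by decide : (0 : Fin 5) ≠ 2)) (v.injective.ne (by decide : (0 : Fin 5) ≠ 3)) (v.injective.ne (by decide : (0 : Fin 5) ≠ 4)) (v.injective.ne (by decide : (1 : Fin 5) ≠ 2)) (v.injective.ne (by decide : (1 : Fin 5) ≠ 3)) (v.injective.ne (by decide : (1 : Fin 5) ≠ 4)) (v.injective.ne (by decide : (2 : Fin 5) ≠ 3)) (v.injective.ne (by decide :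 (2 : Fin 5) ≠ 4)) (v.injective.ne (by decide : (3 : Fin 5) ≠ 4)) (hv 0) (hv 1) (hv 2) (hv 3) (hv 4) h01 h12 h23 h34
  refine ⟨⟨z02, z03, z04, z13, z14, z24⟩, ?_⟩
  rcases hc with ⟨c0, c1, c2, c3⟩ | ⟨c0, c1, c2, c3⟩ | ⟨c0, c1, c2, c3⟩ | ⟨c0, c1, c2, c3⟩ | ⟨c0, c1, c2, c3⟩
  · simp only [ES, EL, ER] at c0 c1 c2 c3
    obtain ⟨a0, w0⟩ := c0
    obtain ⟨a1, w1⟩ := c1
    obtain ⟨a2, w2⟩ := c2
    obtain ⟨a3, w3⟩ := c3
    have s0 := a_symm T (v 0) (v 1)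
    have s1 := a_symm T (v 1) (v 2)
    have s2 := a_symm T (v 2) (v 3)
    have s3 := a_symm T (v 3) (v 4)
    have wp0 := T.w_pos (v 0)
    have wp1 := T.w_pos (v 1)
    have wp2 := T.w_pos (v 2)
    have wp3 := T.w_pos (v 3)
    have wp4 := T.w_pos (v 4)
    obtain ⟨M0a, M0b, M0c⟩ := A3_m T (v.injective.ne (by decide : (0 : Fin _) ≠ 1)) (v.injective.ne (by decide : (1 : Fin _) ≠ 2)) (v.injective.ne (by decide : (0 : Fin _) ≠ 2)) (hv 0) (hv 1) (hv 2) (T.w_pos (v 0)) (by omega : T.w (v 0) = T.w (v 0)) (by omega : T.w (v 1) = T.w (v 0)) (by omega : T.w (v 2) = T.w (v 0)) (by omega : T.a (v 0) (v 1) = T.w (v 0)) (by omega : T.a (v 1) (v 2) = T.w (v 0))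
    obtain ⟨M1a, M1b, M1c⟩ := A3_m T (v.injective.ne (by decide : (1 : Fin _) ≠ 2)) (v.injective.ne (by decide : (2 : Fin _) ≠ 3)) (v.injective.ne (by decide : (1 : Fin _) ≠ 3)) (hv 1) (hv 2) (hv 3) (T.w_pos (v 1)) (by omega : T.w (v 1) = T.w (v 1)) (by omega : T.w (v 2) = T.w (v 1)) (by omega : T.w (v 3) = T.w (v 1)) (by omega : T.a (v 1) (v 2) = T.w (v 1)) (by omega : T.a (v 2) (v 3) = T.w (v 1))
    obtain ⟨M2a, M2b, M2c⟩ := A3_m T (v.injective.ne (by decide : (2 : Fin _) ≠ 3)) (v.injective.ne (by decide : (3 : Fin _) ≠ 4)) (v.injective.ne (by decide : (2 : Fin _) ≠ 4)) (hv 2) (hv 3) (hv 4) (T.w_pos (v 2)) (by omega : T.w (v 2) = T.w (v 2)) (by omega : T.w (v 3) = T.w (v 2)) (by omega : T.w (v 4) = T.w (v 2)) (by omega : T.a (v 2) (v 3) = T.w (v 2)) (by omega : T.a (v 3) (v 4) = T.w (v 2))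
    exact ⟨fun j => v j, T.w (v 0), Or.inl (fun j => rfl), Or.inl ⟨(by omega : T.w (v 0) = T.w (v 0)), (by omega : T.w (v 1) = T.w (v 0)), (by omega : T.w (v 2) = T.w (v 0)), (by omega : T.w (v 3) = T.w (v 0)), (by omega : T.w (v 4) = T.w (v 0)), (by omega : T.a (v 0) (v 1) = T.w (v 0)), (by omega : T.a (v 1) (v 2) = T.w (v 0)), (by omega : T.a (v 2) (v 3) = T.w (v 0)), (by omega : T.a (v 3) (v 4) = T.w (v 0)), (by omega : T.m (v 1) ≤ 2 * T.m (v 0)), (by omega : T.m (v 0) + T.m (v 2) ≤ 2 * T.m (v 1)), (by omega : T.m (v 1) + T.m (v 3) ≤ 2 * T.m (v 2)), (by omega : T.m (v 2) + T.m (v 4) ≤ 2 * T.m (v 3)), (by omega : T.m (v 3) ≤ 2 * T.m (v 4))⟩⟩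
  · simp only [ES, EL, ER] at c0 c1 c2 c3
    obtain ⟨a0, w0⟩ := c0
    obtain ⟨a1, w1⟩ := c1
    obtain ⟨a2, w2⟩ := c2
    obtain ⟨a3, w3⟩ := c3
    have s0 := a_symm T (v 0) (v 1)
    have s1 := a_symm T (v 1) (v 2)
    have s2 := a_symm T (v 2) (v 3)
    have s3 := a_symm T (v 3) (v 4)
    have wp0 := T.w_pos (v 0)
    have wp1 := T.w_pos (v 1)
    have wp2 := T.w_pos (v 2)
    have wp3 := T.w_pos (v 3)
    have wp4 := T.w_pos (v 4)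
    obtain ⟨M0a, M0b, M0c⟩ := A3_m T (v.injective.ne (by decide : (0 : Fin _) ≠ 1)) (v.injective.ne (by decide : (1 : Fin _) ≠ 2)) (v.injective.ne (by decide : (0 : Fin _) ≠ 2)) (hv 0) (hv 1) (hv 2) (T.w_pos (v 0)) (by omega : T.w (v 0) = T.w (v 0)) (by omega : T.w (v 1) = T.w (v 0)) (by omega : T.w (v 2) = T.w (v 0)) (by omega : T.a (v 0) (v 1) = T.w (v 0)) (by omega : T.a (v 1) (v 2) = T.w (v 0))
    obtain ⟨M1a, M1b, M1c⟩ := A3_m T (v.injective.ne (by decide : (1 : Fin _) ≠ 2)) (v.injective.ne (by decide : (2 : Fin _) ≠ 3)) (v.injective.ne (by decide : (1 : Fin _) ≠ 3)) (hv 1) (hv 2) (hv 3) (T.w_pos (v 1)) (by omega : T.w (v 1) = T.w (v 1)) (by omega : T.w (v 2) = T.w (v 1)) (by omega : T.w (v 3) = T.w (v 1)) (by omega : T.a (v 1) (v 2) = T.w (v 1)) (by omega : T.a (v 2) (v 3) = T.w (v 1))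
    obtain ⟨M2a, M2b, M2c⟩ := B3_m T (v.injective.ne (by decide : (2 : Fin _) ≠ 3)) (v.injective.ne (by decide : (3 : Fin _) ≠ 4)) (v.injective.ne (by decide : (2 : Fin _) ≠ 4)) (hv 2) (hv 3) (hv 4) (T.w_pos (v 4)) (by omega : T.w (v 2) = 2 * T.w (v 4)) (by omega : T.w (v 3) = 2 * T.w (v 4)) (by omega : T.w (v 4) = T.w (v 4)) (by omega : T.a (v 2) (v 3) = 2 * T.w (v 4)) (by omega : T.a (v 3) (v 4) = 2 * T.w (v 4))
    exact ⟨fun j => v j, T.w (v 4), Or.inl (fun j => rfl), Or.inr (Or.inr (⟨(by omega : T.w (v 0) = 2 * T.w (v 4)), (by omega : T.w (v 1) = 2 * T.w (v 4)), (by omega : T.w (v 2) = 2 * T.w (v 4)), (by omega : T.w (v 3) = 2 * T.w (v 4)), (by omega : T.w (v 4) = T.w (v 4)), (by omega : T.a (v 0) (v 1) = 2 * T.w (v 4)), (by omega : T.a (v 1) (v 2) = 2 * T.w (v 4)), (by omega : T.a (v 2) (v 3) = 2 * T.w (v 4)), (by omega : T.a (v 3) (v 4)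 = 2 * T.w (v 4)), (by omega : T.m (v 1) ≤ 2 * T.m (v 0)), (by omega : T.m (v 0) + T.m (v 2) ≤ 2 * T.m (v 1)), (by omega : T.m (v 1) + T.m (v 3) ≤ 2 * T.m (v 2)), (by omega : T.m (v 2) + T.m (v 4) ≤ 2 * T.m (v 3)), (by omega : T.m (v 3) ≤ T.m (v 4))⟩))⟩
  · simp only [ES, EL, ER] at c0 c1 c2 c3
    obtain ⟨a0, w0⟩ := c0
    obtain ⟨a1, w1⟩ := c1
    obtain ⟨a2, w2⟩ := c2
    obtain ⟨a3, w3⟩ := c3
    have s0 := a_symm T (v 0) (v 1)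
    have s1 := a_symm T (v 1) (v 2)
    have s2 := a_symm T (v 2) (v 3)
    have s3 := a_symm T (v 3) (v 4)
    have wp0 := T.w_pos (v 0)
    have wp1 := T.w_pos (v 1)
    have wp2 := T.w_pos (v 2)
    have wp3 := T.w_pos (v 3)
    have wp4 := T.w_pos (v 4)
    obtain ⟨M0a, M0b, M0c⟩ := A3_m T (v.injective.ne (by decide : (0 : Fin _) ≠ 1)) (v.injective.ne (by decide : (1 : Fin _) ≠ 2)) (v.injective.ne (by decide : (0 : Fin _) ≠ 2)) (hv 0) (hv 1) (hv 2) (T.w_pos (v 0)) (by omega : T.w (v 0) = T.w (v 0)) (by omega : T.w (v 1) = T.w (v 0)) (by omega : T.w (v 2) = T.w (v 0)) (by omega : T.a (v 0) (v 1) = T.w (v 0)) (by omega : T.a (v 1) (v 2) = T.w (v 0))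
    obtain ⟨M1a, M1b, M1c⟩ := A3_m T (v.injective.ne (by decide : (1 : Fin _) ≠ 2)) (v.injective.ne (by decide : (2 : Fin _) ≠ 3)) (v.injective.ne (by decide : (1 : Fin _) ≠ 3)) (hv 1) (hv 2) (hv 3) (T.w_pos (v 1)) (by omega : T.w (v 1) = T.w (v 1)) (by omega : T.w (v 2) = T.w (v 1)) (by omega : T.w (v 3) = T.w (v 1)) (by omega : T.a (v 1) (v 2) = T.w (v 1)) (by omega : T.a (v 2) (v 3) = T.w (v 1))
    obtain ⟨M2a, M2b, M2c⟩ := C3_m T (v.injective.ne (by decide : (2 : Fin _) ≠ 3)) (v.injective.ne (by decide : (3 : Fin _) ≠ 4)) (v.injective.ne (by decide : (2 : Fin _) ≠ 4)) (hv 2) (hv 3) (hv 4) (T.w_pos (v 2)) (by omega : T.w (v 2) = T.w (v 2)) (by omega : T.w (v 3) = T.w (v 2)) (by omega : T.w (v 4) = 2 * T.w (v 2)) (by omega : T.a (v 2) (v 3) = T.w (v 2)) (by omega : T.a (v 3) (v 4) = 2 * T.w (v 2))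
    exact ⟨fun j => v j, T.w (v 0), Or.inl (fun j => rfl), Or.inr (Or.inl ⟨(by omega : T.w (v 0) = T.w (v 0)), (by omega : T.w (v 1) = T.w (v 0)), (by omega : T.w (v 2) = T.w (v 0)), (by omega : T.w (v 3) = T.w (v 0)), (by omega : T.w (v 4) = 2 * T.w (v 0)), (by omega : T.a (v 0) (v 1) = T.w (v 0)), (by omega : T.a (v 1) (v 2) = T.w (v 0)), (by omega : T.a (v 2) (v 3) = T.w (v 0)), (by omega : T.a (v 3) (v 4) = 2 * T.w (v 0)), (by omega : T.m (v 1) ≤ 2 * T.m (v 0)), (by omega : T.m (v 0) + T.m (v 2) ≤ 2 * T.m (v 1)), (by omega : T.m (v 1) + T.m (v 3) ≤ 2 * T.m (v 2)), (by omega : T.m (v 2) + 2 * T.m (v 4) ≤ 2 * T.m (v 3)), (by omega : T.m (v 3) ≤ 2 * T.m (v 4))⟩)⟩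
  · simp only [ES, EL, ER] at c0 c1 c2 c3
    obtain ⟨a0, w0⟩ := c0
    obtain ⟨a1, w1⟩ := c1
    obtain ⟨a2, w2⟩ := c2
    obtain ⟨a3, w3⟩ := c3
    have s0 := a_symm T (v 0) (v 1)
    have s1 := a_symm T (v 1) (v 2)
    have s2 := a_symm T (v 2) (v 3)
    have s3 := a_symm T (v 3) (v 4)
    have wp0 := T.w_pos (v 0)
    have wp1 := T.w_pos (v 1)
    have wp2 := T.w_pos (v 2)
    have wp3 := T.w_pos (v 3)
    have wp4 := T.w_pos (v 4)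
    obtain ⟨M0a, M0b, M0c⟩ := C3_m T (v.injective.ne (by decide : (2 : Fin _) ≠ 1)) (v.injective.ne (by decide : (1 : Fin _) ≠ 0)) (v.injective.ne (by decide : (2 : Fin _) ≠ 0)) (hv 2) (hv 1) (hv 0) (T.w_pos (v 2)) (by omega : T.w (v 2) = T.w (v 2)) (by omega : T.w (v 1) = T.w (v 2)) (by omega : T.w (v 0) = 2 * T.w (v 2)) (by omega : T.a (v 2) (v 1) = T.w (v 2)) (by omega : T.a (v 1) (v 0) = 2 * T.w (v 2))
    obtain ⟨M1a, M1b, M1c⟩ := A3_m T (v.injective.ne (by decide : (1 : Fin _) ≠ 2)) (v.injective.ne (by decide : (2 : Fin _) ≠ 3)) (v.injective.ne (by decide : (1 : Fin _) ≠ 3)) (hv 1) (hv 2) (hv 3) (T.w_pos (v 1)) (by omega : T.w (v 1) = T.w (v 1)) (by omega : T.w (v 2) = T.w (v 1)) (by omega : T.w (v 3) = T.w (v 1)) (by omega : T.a (v 1) (v 2) = T.w (v 1)) (by omega : T.a (v 2) (v 3) = T.w (v 1))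
    obtain ⟨M2a, M2b, M2c⟩ := A3_m T (v.injective.ne (by decide : (2 : Fin _) ≠ 3)) (v.injective.ne (by decide : (3 : Fin _) ≠ 4)) (v.injective.ne (by decide : (2 : Fin _) ≠ 4)) (hv 2) (hv 3) (hv 4) (T.w_pos (v 2)) (by omega : T.w (v 2) = T.w (v 2)) (by omega : T.w (v 3) = T.w (v 2)) (by omega : T.w (v 4) = T.w (v 2)) (by omega : T.a (v 2) (v 3) = T.w (v 2)) (by omega : T.a (v 3) (v 4) = T.w (v 2))
    exact ⟨fun j => v (Fin.rev j), T.w (v 4), Or.inr (fun j => rfl), Or.inr (Or.inl ⟨(by omega : T.w (v 4) = T.w (v 4)), (by omega : T.w (v 3) = T.w (v 4)), (by omega : T.w (v 2) = T.w (v 4)), (by omega : T.w (v 1) = T.w (v 4)), (by omega : T.w (v 0) = 2 * T.w (v 4)), (by omega : T.a (v 4) (v 3) = T.w (v 4)), (by omega : T.a (v 3) (v 2) = T.w (v 4)), (by omega : T.a (v 2) (v 1) = T.w (v 4)), (by omega : T.a (v 1) (v 0) = 2 * T.w (v 4)), (by omega : T.m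 (v 3) ≤ 2 * T.m (v 4)), (by omega : T.m (v 4) + T.m (v 2) ≤ 2 * T.m (v 3)), (by omega : T.m (v 3) + T.m (v 1) ≤ 2 * T.m (v 2)), (by omega : T.m (v 2) + 2 * T.m (v 0) ≤ 2 * T.m (v 1)), (by omega : T.m (v 1) ≤ 2 * T.m (v 0))⟩)⟩
  · simp only [ES, EL, ER] at c0 c1 c2 c3
    obtain ⟨a0, w0⟩ := c0
    obtain ⟨a1, w1⟩ := c1
    obtain ⟨a2, w2⟩ := c2
    obtain ⟨a3, w3⟩ := c3
    have s0 := a_symm T (v 0) (v 1)
    have s1 := a_symm T (v 1) (v 2)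
    have s2 := a_symm T (v 2) (v 3)
    have s3 := a_symm T (v 3) (v 4)
    have wp0 := T.w_pos (v 0)
    have wp1 := T.w_pos (v 1)
    have wp2 := T.w_pos (v 2)
    have wp3 := T.w_pos (v 3)
    have wp4 := T.w_pos (v 4)
    obtain ⟨M0a, M0b, M0c⟩ := B3_m T (v.injective.ne (by decide : (2 : Fin _) ≠ 1)) (v.injective.ne (by decide : (1 : Fin _) ≠ 0)) (v.injective.ne (by decide : (2 : Fin _) ≠ 0)) (hv 2) (hv 1) (hv 0) (T.w_pos (v 0)) (by omega : T.w (v 2) = 2 * T.w (v 0)) (by omega : T.w (v 1) = 2 * T.w (v 0)) (by omega : T.w (v 0) = T.w (v 0)) (by omega : T.a (v 2) (v 1) = 2 * T.w (v 0)) (by omega : T.a (v 1) (v 0) = 2 * T.w (v 0))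
    obtain ⟨M1a, M1b, M1c⟩ := A3_m T (v.injective.ne (by decide : (1 : Fin _) ≠ 2)) (v.injective.ne (by decide : (2 : Fin _) ≠ 3)) (v.injective.ne (by decide : (1 : Fin _) ≠ 3)) (hv 1) (hv 2) (hv 3) (T.w_pos (v 1)) (by omega : T.w (v 1) = T.w (v 1)) (by omega : T.w (v 2) = T.w (v 1)) (by omega : T.w (v 3) = T.w (v 1)) (by omega : T.a (v 1) (v 2) = T.w (v 1)) (by omega : T.a (v 2) (v 3) = T.w (v 1))
    obtain ⟨M2a, M2b, M2c⟩ := A3_m T (v.injective.ne (by decide : (2 : Fin _) ≠ 3)) (v.injective.ne (by decide : (3 : Fin _) ≠ 4)) (v.injective.ne (by decide : (2 : Fin _) ≠ 4)) (hv 2) (hv 3) (hv 4) (T.w_pos (v 2)) (by omega : T.w (v 2) = T.w (v 2)) (by omega : T.w (v 3) = T.w (v 2)) (by omega : T.w (v 4) = T.w (v 2)) (by omega : T.a (v 2) (v 3) = T.w (v 2)) (by omega : T.a (v 3) (v 4) = T.w (v 2))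
    exact ⟨fun j => v (Fin.rev j), T.w (v 0), Or.inr (fun j => rfl), Or.inr (Or.inr (⟨(by omega : T.w (v 4) = 2 * T.w (v 0)), (by omega : T.w (v 3) = 2 * T.w (v 0)), (by omega : T.w (v 2) = 2 * T.w (v 0)), (by omega : T.w (v 1) = 2 * T.w (v 0)), (by omega : T.w (v 0) = T.w (v 0)), (by omega : T.a (v 4) (v 3) = 2 * T.w (v 0)), (by omega : T.a (v 3) (v 2) = 2 * T.w (v 0)), (by omega : T.a (v 2) (v 1) = 2 * T.w (v 0)), (by omega : T.a (v 1) (v 0) = 2 * T.w (v 0)), (by omega : T.m (v 3) ≤ 2 * T.m (v 4)), (by omega : T.m (v 4) + T.m (v 2) ≤ 2 * T.m (v 3)), (by omega : T.m (v 3) + T.m (v 1) ≤ 2 * T.m (v 2)), (by omega : T.m (v 2) + T.m (v 0) ≤ 2 * T.m (v 1)), (by omega : T.m (v 1) ≤ T.m (v 0))⟩))⟩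

end Groth.Agent.S7353
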