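import Groth.Statements.S7354
import Groth.Agent.Lib.Helper11.NumTypeLong

set_option autoImplicit false
open Finset
open Models Models.NumericalType
open Groth.Agent.Lib.Helper11.NumType

namespace Groth.Agent.S7354

/-- Let T be a numerical type on n indices, t > 5 with n > t, and i_1, …, i_t distinct (-2)-indices with
a_{i_j i_{j+1}} nonzero for j = 1, …, t - 1. Then, after possibly reversing the order of the
indices, for some integer w either (A) w_{i_1} = … = w_{i_t} = w and a_{i_j i_{j+1}} = w for all j;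
or (C) w_{i_1} = … = w_{i_{t-1}} = w, w_{i_t} = 2w, a_{i_j i_{j+1}} = w for j < t - 1 and a_{i_{t-1}
i_t} = 2w; or (B) w_{i_1} = … = w_{i_{t-1}} = 2w, w_{i_t} = w and a_{i_j i_{j+1}} = 2w for all j;
and in every case a_{i_j i_k} = 0 whenever k > j + 1. -/
theorem result {n : ℕ} (T : Models.NumericalType n) (t : ℕ) (ht : 5 < t) (hn : t < n)
    (v : Fin t ↪ Fin n) (hv : ∀ j, T.IsMinusTwo (v j))
    (hchain : ∀ j j' : Fin t, j'.val = j.val + 1 → T.a (v j) (v j') ≠ 0) :
    ∃ (u : Fin t → Fin n) (w : ℤ), ((∀ j, u j = v j) ∨ (∀ j, u j = v (Fin.rev j))) ∧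
      (∀ j k : Fin t, j.val + 1 < k.val → T.a (u j) (u k) = 0) ∧
      ((∀ j : Fin t, T.w (u j) = w) ∧ (∀ j j' : Fin t, j'.val = j.val + 1 → T.a (u j) (u j') = w) ∨
        ((∀ j : Fin t, j.val + 1 < t → T.w (u j) = w) ∧ (∀ j : Fin t, j.val + 1 = t → T.w (u j) = 2 * w) ∧
          (∀ j j' : Fin t, j'.val = j.val + 1 → j'.val + 1 < t → T.a (u j) (u j') = w) ∧
          (∀ j j' : Fin t, j'.val = j.val + 1 → j'.val + 1 = t → T.a (u j) (u j') = 2 * w)) ∨
        ((∀ j : Fin t, j.val + 1 < t → T.w (u j) = 2 * w) ∧ (∀ j : Fin t, j.val + 1 = t → T.w (u j) = w) ∧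
          (∀ j j' : Fin t, j'.val = j.val + 1 → T.a (u j) (u j') = 2 * w))) := by
  have hinj := v.injective
  have Z : ∀ j k : Fin t, j.val + 1 < k.val → T.a (v j) (v k) = 0 :=
    fun j k h => long_zero T v hinj hn hv hchain j k h
  have I : ∀ m (h1 : 1 ≤ m) (h2 : m + 3 ≤ t), ES T (v ⟨m, by omega⟩) (v ⟨m + 1, by omega⟩) :=
    fun m h1 h2 => long_interior T v hinj hn hv hchain (by omega) m h1 h2
  obtain ⟨-, -, E0, -⟩ := window5 T v hinj hn hv hchain 0 (by omega)
  obtain ⟨-, -, -, E1⟩ := window5 T v hinj hn hv hchain (t - 5) (by omega)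
  have e3 : t - 5 + 3 = t - 2 := by omega
  have e4 : t - 5 + 4 = t - 1 := by omega
  simp only [zero_add, e3, e4] at E0 E1
  -- the value of w along the interior
  have Wm : ∀ m (h1 : 1 ≤ m) (h2 : m ≤ t - 2),
      T.w (v ⟨m, by omega⟩) = T.w (v ⟨1, by omega⟩) := by
    intro m h1 h2
    induction m with
    | zero => omega
    | succ k ih =>
      rcases Nat.eq_zero_or_pos k with hk | hk
      · subst hk; rfl
      · rw [← ih hk (by omega)]
        exact (I k hk (by omega)).2
  set W := T.w (v ⟨1, by omega⟩) with hW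
  have Wall : ∀ j : Fin t, 1 ≤ j.val → j.val ≤ t - 2 → T.w (v j) = W := by
    intro j h1 h2
    exact Wm j.val h1 h2
  have Aint : ∀ j j' : Fin t, j'.val = j.val + 1 → 1 ≤ j.val → j'.val ≤ t - 2 → T.a (v j) (v j') = W := by
    intro j j' hjj h1 h2
    have hj' : j' = ⟨j.val + 1, by omega⟩ := Fin.ext hjj
    rw [hj']
    have := (I j.val h1 (by omega)).1
    rw [this]
    exact Wm j.val h1 (by omega)
  have f0 : ∀ j : Fin t, j.val = 0 → j = ⟨0, by omega⟩ := fun j h => Fin.ext h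
  have f1 : ∀ j : Fin t, j.val = 1 → j = ⟨1, by omega⟩ := fun j h => Fin.ext h
  have fl : ∀ j : Fin t, j.val = t - 1 → j = ⟨t - 1, by omega⟩ := fun j h => Fin.ext h
  have fl2 : ∀ j : Fin t, j.val = t - 2 → j = ⟨t - 2, by omega⟩ := fun j h => Fin.ext h
  have w1W : T.w (v ⟨1, by omega⟩) = W := rfl
  have wl2W : T.w (v ⟨t - 2, by omega⟩) = W := Wm (t - 2) (by omega) le_rfl
  have R : ∀ (i j : ℕ) (hi : i < t) (hj : j < t), (j = i + 1 ∨ i = j + 1) →
      1 ≤ ratio T (v ⟨i, hi⟩) (v ⟨j, hj⟩) := by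
    intro i j hi hj h
    refine ratio_ge_one T (fun e => ?_) ?_
    · have := hinj e; simp only [Fin.mk.injEq] at this; omega
    · rcases h with h | h
      · exact hchain _ _ (by simp only; omega)
      · rw [a_symm]; exact hchain _ _ (by simp only; omega)
  have r01 := R 0 1 (by omega) (by omega) (by omega)
  have r10 := R 1 0 (by omega) (by omega) (by omega)
  have rl := R (t - 1) (t - 2) (by omega) (by omega) (by omega)
  have rl' := R (t - 2) (t - 1) (by omega) (by omega) (by omega)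
  have rv : ∀ j : Fin t, (Fin.rev j).val = t - 1 - j.val := fun j => by simp [Fin.val_rev]; omega
  have wp0 := T.w_pos (v ⟨0, by omega⟩)
  have wpl := T.w_pos (v ⟨t - 1, by omega⟩)
  have wp1 := T.w_pos (v ⟨1, by omega⟩)
  rcases E0 with c0 | c0 | c0 <;> rcases E1 with c1 | c1 | c1
  · -- A
    refine ⟨fun j => v j, W, Or.inl (fun j => rfl), Z, Or.inl ⟨?_, ?_⟩⟩
    · intro j
      rcases (show j.val = 0 ∨ (1 ≤ j.val ∧ j.val ≤ t - 2) ∨ j.val = t - 1 by omega) with h | h | h
      · rw [f0 j h, ← c0.2]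
      · exact Wall j h.1 h.2
      · rw [fl j h, c1.2, wl2W]
    · intro j j' hjj
      rcases (show j.val = 0 ∨ (1 ≤ j.val ∧ j'.val ≤ t - 2) ∨ j.val = t - 2 by omega) with h | h | h
      · rw [f0 j h, f1 j' (by omega), c0.1, ← c0.2]
      · exact Aint j j' hjj h.1 h.2
      · rw [fl2 j h, fl j' (by omega), c1.1, wl2W]
  · -- S, L : B with u = v, w = w (t-1)
    refine ⟨fun j => v j, T.w (v ⟨t - 1, by omega⟩), Or.inl (fun j => rfl), Z, Or.inr (Or.inr ⟨?_, ?_, ?_⟩)⟩
    · intro j hj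
      rcases (show j.val = 0 ∨ (1 ≤ j.val ∧ j.val ≤ t - 2) by omega) with h | h
      · rw [f0 j h, ← c0.2, w1W, ← wl2W, c1.2]
      · rw [Wall j h.1 h.2, ← wl2W, c1.2]
    · intro j hj
      rw [fl j (by omega)]
    · intro j j' hjj
      rcases (show j.val = 0 ∨ (1 ≤ j.val ∧ j'.val ≤ t - 2) ∨ j.val = t - 2 by omega) with h | h | h
      · rw [f0 j h, f1 j' (by omega), c0.1, ← c0.2, w1W, ← wl2W, c1.2]
      · rw [Aint j j' hjj h.1 h.2, ← wl2W, c1.2]
      · rw [fl2 j h, fl j' (by omega), c1.1, c1.2]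
  · -- S, R : C with u = v, w = W
    refine ⟨fun j => v j, W, Or.inl (fun j => rfl), Z, Or.inr (Or.inl ⟨?_, ?_, ?_, ?_⟩)⟩
    · intro j hj
      rcases (show j.val = 0 ∨ (1 ≤ j.val ∧ j.val ≤ t - 2) by omega) with h | h
      · rw [f0 j h, ← c0.2]
      · exact Wall j h.1 h.2
    · intro j hj
      rw [fl j (by omega), c1.2, wl2W]
    · intro j j' hjj hj'
      rcases (show j.val = 0 ∨ (1 ≤ j.val ∧ j'.val ≤ t - 2) by omega) with h | h
      · rw [f0 j h, f1 j' (by omega), c0.1, ← c0.2]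
      · exact Aint j j' hjj h.1 h.2
    · intro j j' hjj hj'
      rw [fl2 j (by omega), fl j' (by omega), c1.1, c1.2, wl2W]
  · -- L, S : C reversed, w = W
    refine ⟨fun j => v (Fin.rev j), W, Or.inr (fun j => rfl), ?_, Or.inr (Or.inl ⟨?_, ?_, ?_, ?_⟩)⟩
    · intro j k hjk
      show T.a (v (Fin.rev j)) (v (Fin.rev k)) = 0
      rw [a_symm]; exact Z _ _ (by rw [rv, rv]; omega)
    · intro j hj
      show T.w (v (Fin.rev j)) = W
      rcases (show (Fin.rev j).val = t - 1 ∨ (1 ≤ (Fin.rev j).val ∧ (Fin.rev j).val ≤ t - 2) by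
        rw [rv]; omega) with h | h
      · rw [fl (Fin.rev j) h, c1.2, wl2W]
      · exact Wall _ h.1 h.2
    · intro j hj
      have h : (Fin.rev j).val = 0 := by rw [rv]; omega
      show T.w (v (Fin.rev j)) = 2 * W
      rw [f0 (Fin.rev j) h, c0.2, w1W]
    · intro j j' hjj hj'
      show T.a (v (Fin.rev j)) (v (Fin.rev j')) = W
      rw [a_symm]
      rcases (show (Fin.rev j').val = t - 2 ∨ (1 ≤ (Fin.rev j').val ∧ (Fin.rev j).val ≤ t - 2) by
        rw [rv, rv]; omega) with h | h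
      · rw [fl2 (Fin.rev j') h, fl (Fin.rev j) (by rw [rv]; rw [rv] at h; omega), c1.1, wl2W]
      · exact Aint _ _ (by rw [rv, rv]; omega) h.1 h.2
    · intro j j' hjj hj'
      show T.a (v (Fin.rev j)) (v (Fin.rev j')) = 2 * W
      rw [a_symm, f0 (Fin.rev j') (by rw [rv]; omega), f1 (Fin.rev j) (by rw [rv]; omega), c0.1,
        c0.2, w1W]
  · -- L, L : excluded
    exfalso
    have h1 := ratio_of_EL T c0
    have h2 := ratio_of_EL T c1
    exact long_ends_test T v hinj hn hv hchain (by omega) 2 2 1 (by norm_num) (by norm_num) (by norm_num)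
      (by linarith) (by linarith) (by linarith) (by linarith)
  · -- L, R : excluded
    exfalso
    have h1 := ratio_of_EL T c0
    have h2 := ratio_of_ER T c1
    exact long_ends_test T v hinj hn hv hchain (by omega) 1 1 1 (by norm_num) (by norm_num) (by norm_num)
      (by linarith) (by linarith) (by linarith) (by linarith)
  · -- R, S : B reversed, w = w 0
    refine ⟨fun j => v (Fin.rev j), T.w (v ⟨0, by omega⟩), Or.inr (fun j => rfl), ?_,
      Or.inr (Or.inr ⟨?_, ?_, ?_⟩)⟩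
    · intro j k hjk
      show T.a (v (Fin.rev j)) (v (Fin.rev k)) = 0
      rw [a_symm]; exact Z _ _ (by rw [rv, rv]; omega)
    · intro j hj
      show T.w (v (Fin.rev j)) = 2 * T.w (v ⟨0, by omega⟩)
      rcases (show (Fin.rev j).val = t - 1 ∨ (1 ≤ (Fin.rev j).val ∧ (Fin.rev j).val ≤ t - 2) by
        rw [rv]; omega) with h | h
      · rw [fl (Fin.rev j) h, c1.2, wl2W, ← w1W, c0.2]
      · rw [Wall _ h.1 h.2, ← w1W, c0.2]
    · intro j hj
      show T.w (v (Fin.rev j)) = T.w (v ⟨0, by omega⟩)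
      rw [f0 (Fin.rev j) (by rw [rv]; omega)]
    · intro j j' hjj
      show T.a (v (Fin.rev j)) (v (Fin.rev j')) = 2 * T.w (v ⟨0, by omega⟩)
      rw [a_symm]
      rcases (show (Fin.rev j').val = t - 2 ∨ (1 ≤ (Fin.rev j').val ∧ (Fin.rev j).val ≤ t - 2) ∨
          (Fin.rev j').val = 0 by rw [rv, rv]; omega) with h | h | h
      · rw [fl2 (Fin.rev j') h, fl (Fin.rev j) (by rw [rv]; rw [rv] at h; omega), c1.1, wl2W, ← w1W, c0.2]
      · rw [Aint _ _ (by rw [rv, rv]; omega) h.1 h.2, ← w1W, c0.2]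
      · rw [f0 (Fin.rev j') h, f1 (Fin.rev j) (by rw [rv]; rw [rv] at h; omega), c0.1, c0.2]
  · -- R, L : excluded
    exfalso
    have h1 := ratio_of_ER T c0
    have h2 := ratio_of_EL T c1
    exact long_ends_test T v hinj hn hv hchain (by omega) 1 2 1 (by norm_num) (by norm_num) (by norm_num)
      (by linarith) (by linarith) (by linarith) (by linarith)
  · -- R, R : excluded
    exfalso
    have h1 := ratio_of_ER T c0
    have h2 := ratio_of_ER T c1
    exact long_ends_test T v hinj hn hv hchain (by omega) 1 2 2 (by norm_num) (by norm_num) (by norm_num)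
      (by linarith) (by linarith) (by linarith) (by linarith)

end Groth.Agent.S7354
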