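import Groth.Statements.S7355
import Groth.Agent.Lib.Helper11.NumTypeLong

set_option autoImplicit false
open Finset
open Models Models.NumericalType
open Groth.Agent.Lib.Helper11.NumType

namespace Groth.Agent.S7355

/-- Classification of proper subgraphs of type D: let T be a numerical type on n indices, t > 4 with n >
t + 1, and i_1, …, i_{t+1} distinct (-2)-indices such that a_{i_j i_{j+1}} is nonzero for j = 1, …,
t - 1 and a_{i_{t-1} i_{t+1}} is nonzero. Then for some integer w one has w_{i_1} = … = w_{i_{t+1}}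
= w, a_{i_j i_{j+1}} = w for j < t, a_{i_{t-1} i_{t+1}} = w, and a_{i_j i_k} = 0 for all other pairs
j ≠ k. -/
theorem result {n : ℕ} (T : Models.NumericalType n) (t : ℕ) (ht : 4 < t) (hn : t + 1 < n)
    (v : Fin (t + 1) ↪ Fin n) (hv : ∀ j, T.IsMinusTwo (v j))
    (hchain : ∀ j j' : Fin (t + 1), j'.val = j.val + 1 → j'.val < t → T.a (v j) (v j') ≠ 0)
    (hbranch : ∀ j j' : Fin (t + 1), j.val + 2 = t → j'.val = t → T.a (v j) (v j') ≠ 0) :
    ∃ w : ℤ, (∀ j : Fin (t + 1), T.w (v j) = w) ∧
      (∀ j j' : Fin (t + 1), j'.val = j.val + 1 → j'.val < t → T.a (v j) (v j') = w) ∧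
      (∀ j j' : Fin (t + 1), j.val + 2 = t → j'.val = t → T.a (v j) (v j') = w) ∧
      (∀ j k : Fin (t + 1), j.val < k.val → ¬ (k.val = j.val + 1 ∧ k.val < t) → ¬ (j.val + 2 = t ∧ k.val = t) →
        T.a (v j) (v k) = 0) := by
  have hinj := v.injective
  have s_ : ∀ x y, T.a x y ≠ 0 → T.a y x ≠ 0 := fun x y h => by rwa [a_symm T]
  have ne : ∀ (i j : ℕ) (hi : i < t + 1) (hj : j < t + 1), i ≠ j → v ⟨i, hi⟩ ≠ v ⟨j, hj⟩ :=
    fun i j hi hj h e => h (by have := hinj e; simp only [Fin.mk.injEq] at this; exact this)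
  -- simple chain bonds (m, m+1), m + 3 ≤ t
  have S1 : ∀ m (hm : m + 3 ≤ t), T.a (v ⟨m, by omega⟩) (v ⟨m + 1, by omega⟩) = T.w (v ⟨m, by omega⟩) ∧
      T.w (v ⟨m + 1, by omega⟩) = T.w (v ⟨m, by omega⟩) := by
    intro m hm
    have := d_arm_simple T (s := t - 2 - m) (by omega)
      (fun p => v ⟨m + p.val, by have := p.isLt; omega⟩)
      (fun p q h => by have := hinj h; simp only [Fin.mk.injEq] at this; exact Fin.ext (by omega))
      (by omega) (fun p => hv _) (by
        intro i j hi hj h
        rcases h with ⟨h1, h2⟩ | ⟨h1, h2⟩ | ⟨h1, h2⟩ | ⟨h1, h2⟩ | ⟨h1, h2⟩ | ⟨h1, h2⟩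
        · exact hchain _ _ (by simp only; omega) (by simp only; omega)
        · exact s_ _ _ (hchain _ _ (by simp only; omega) (by simp only; omega))
        · exact hchain _ _ (by simp only; omega) (by simp only; omega)
        · exact s_ _ _ (hchain _ _ (by simp only; omega) (by simp only; omega))
        · exact hbranch _ _ (by simp only; omega) (by simp only; omega)
        · exact s_ _ _ (hbranch _ _ (by simp only; omega) (by simp only; omega)))
    simp only [add_zero] at this
    exact this
  have Ec : T.a (v ⟨t - 2, by omega⟩) (v ⟨t - 1, by omega⟩) ≠ 0 :=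
    hchain _ _ (by simp only; omega) (by simp only; omega)
  have Ec' : T.a (v ⟨t - 2, by omega⟩) (v ⟨t - 3, by omega⟩) ≠ 0 :=
    s_ _ _ (hchain _ _ (by simp only; omega) (by simp only; omega))
  have Eb : T.a (v ⟨t - 2, by omega⟩) (v ⟨t, by omega⟩) ≠ 0 :=
    hbranch _ _ (by simp only; omega) (by simp only)
  have St1 := star_simple T (by omega) (ne _ _ _ _ (by omega)) (ne _ _ _ _ (by omega)) (ne _ _ _ _ (by omega))
    (ne _ _ _ _ (by omega)) (ne _ _ _ _ (by omega)) (ne _ _ _ _ (by omega)) (hv _) (hv _) (hv _) (hv _) Ec Ec' Eb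
  have St2 := star_simple T (by omega) (ne _ _ _ _ (by omega)) (ne _ _ _ _ (by omega)) (ne _ _ _ _ (by omega))
    (ne _ _ _ _ (by omega)) (ne _ _ _ _ (by omega)) (ne _ _ _ _ (by omega)) (hv _) (hv _) (hv _) (hv _) Eb Ec' Ec
  set W := T.w (v ⟨0, by omega⟩) with hW
  have Wm : ∀ m (hm : m ≤ t - 2), T.w (v ⟨m, by omega⟩) = W := by
    intro m hm
    induction m with
    | zero => rfl
    | succ k ih => rw [(S1 k (by omega)).2, ih (by omega)]
  have Wl : T.w (v ⟨t - 1, by omega⟩) = W := by rw [← St1.2]; exact Wm (t - 2) le_rfl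
  have Wt : T.w (v ⟨t, by omega⟩) = W := by rw [← St2.2]; exact Wm (t - 2) le_rfl
  -- chain shifted for zeros
  refine ⟨W, ?_, ?_, ?_, ?_⟩
  · intro j
    obtain ⟨j, hj⟩ := j
    rcases (show j ≤ t - 2 ∨ j = t - 1 ∨ j = t by omega) with h | h | h
    · exact Wm j h
    · subst h; exact Wl
    · subst h; exact Wt
  · intro j j' hjj hj't
    obtain ⟨j, hj⟩ := j
    obtain ⟨j', hj'⟩ := j'
    simp only at hjj hj't
    subst hjj
    rcases (show j + 3 ≤ t ∨ j = t - 2 by omega) with h | h
    · rw [(S1 j h).1]; exact Wm j (by omega)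
    · have e1 : (⟨j, hj⟩ : Fin (t + 1)) = ⟨t - 2, by omega⟩ := Fin.ext h
      have e2 : (⟨j + 1, hj'⟩ : Fin (t + 1)) = ⟨t - 1, by omega⟩ := Fin.ext (by simp only; omega)
      rw [e1, e2, a_symm, St1.1, Wl]
  · intro j j' hj hj'
    obtain ⟨j, hjl⟩ := j
    obtain ⟨j', hj'l⟩ := j'
    simp only at hj hj'
    subst hj'
    have e1 : j = j' - 2 := by omega
    subst e1
    rw [a_symm]
    exact St2.1.trans Wt
  · intro j k hjk hnc hnb
    by_contra hz
    obtain ⟨j, hj⟩ := j
    obtain ⟨k, hk⟩ := k
    simp only at hjk hnc hnb hz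
    rcases (show k < t ∨ (k = t ∧ j + 3 ≤ t) ∨ (k = t ∧ j = t - 1) by omega) with h | ⟨h1, h2⟩ | ⟨h1, h2⟩
    · -- a cycle inside the chain
      have := long_zero T (t := t) (fun p => v ⟨p.val, by omega⟩)
        (fun p q h => by have := hinj h; simp only [Fin.mk.injEq] at this; exact Fin.ext this) (by omega)
        (fun p => hv _) (fun p q h => hchain _ _ h (by have := q.isLt; simp only; omega)) ⟨j, by omega⟩ ⟨k, h⟩ (by simp only; omega)
      exact hz this
    · -- the cycle j, ..., t - 2, t
      subst h1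
      have := long_zero T (t := k - j)
        (fun p => if p.val + 1 < k - j then v ⟨j + p.val, by omega⟩ else v ⟨k, hk⟩)
        (by
          intro p q hpq
          have hp := p.isLt
          have hq := q.isLt
          simp only at hpq
          split_ifs at hpq with h1 h2 h2
          · have := hinj hpq; simp only [Fin.mk.injEq] at this; exact Fin.ext (by omega)
          · exact absurd hpq (ne _ _ _ _ (by omega))
          · exact absurd hpq.symm (ne _ _ _ _ (by omega))
          · exact Fin.ext (by omega))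
        (by omega)
        (fun p => by (try simp only); split_ifs <;> exact hv _)
        (by
          intro p q hpq
          have hq := q.isLt
          try simp only
          split_ifs with h1 h2 h2
          · exact hchain _ _ (by simp only; omega) (by simp only; omega)
          · have e1 : (⟨j + p.val, by omega⟩ : Fin (k + 1)) = ⟨k - 2, by omega⟩ := Fin.ext (by simp only; omega)
            rw [e1]; exact Eb
          · omega
          · omega)
        ⟨0, by omega⟩ ⟨k - j - 1, by omega⟩ (by simp only; omega)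
      simp only [zero_add, show 0 + 1 < k - j by omega, if_true, show ¬ (k - j - 1 + 1 < k - j) by omega,
        if_false, add_zero] at this
      exact hz this
    · -- the triangle t - 1, t - 2, t
      subst h1
      have hj2 : (⟨j, hj⟩ : Fin (k + 1)) = ⟨k - 1, by omega⟩ := Fin.ext h2
      rw [hj2] at hz
      have := long_zero T (t := 3) ![v ⟨k - 1, by omega⟩, v ⟨k - 2, by omega⟩, v ⟨k, hk⟩]
        (inj3 (ne _ _ _ _ (by omega)) (ne _ _ _ _ (by omega)) (ne _ _ _ _ (by omega))) (by omega)
        (fun p => by fin_cases p <;> exact hv _)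
        (by
          intro p q hpq
          fin_cases p <;> fin_cases q <;> simp at hpq
          · exact s_ _ _ Ec
          · exact Eb)
        0 2 (by decide)
      exact hz this

end Groth.Agent.S7355
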