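import Groth.Statements.S7362
import Groth.Agent.Lib.Helper11.NumTypeGenus

set_option autoImplicit false
open Finset
open Models Models.NumericalType
open Groth.Agent.Lib.Helper11.NumType

namespace Groth.Agent.S7362

/-- Genus one classification: case n = 2: let T be a minimal numerical type of genus 1 on two indices.
Then for some ordering i, j of the indices and some integers m, w, either m_i = m_j = m, a_ii = a_jj
= -2w, a_ij = 2w, w_i = w_j = w, g_i = g_j = 0; or m_i = 2m, m_j = m, a_ii = -2w, a_ij = 4w, a_jj =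
-8w, w_i = w, w_j = 4w, g_i = g_j = 0. Only the classification direction is stated. -/
theorem result (T : Models.NumericalType 2) (hmin : T.IsMinimal) (hg : T.genus = 1) :
    ∃ (i j : Fin 2) (m w : ℤ), i ≠ j ∧ T.g i = 0 ∧ T.g j = 0 ∧
      ((T.m i = m ∧ T.m j = m ∧ T.a i i = -2 * w ∧ T.a i j = 2 * w ∧ T.a j j = -2 * w ∧ T.w i = w ∧ T.w j = w) ∨
        (T.m i = 2 * m ∧ T.m j = m ∧ T.a i i = -2 * w ∧ T.a i j = 4 * w ∧ T.a j j = -8 * w ∧ T.w i = w ∧ T.w j = 4 * w)) := by
  have hn : 1 < 2 := by norm_num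
  have h2g := two_mul_genus T
  rw [hg] at h2g
  have hsum0 : ∑ i, T.m i * (2 * T.w i * (T.g i - 1) - T.a i i) = 0 := by linarith
  have hterm : ∀ i ∈ (Finset.univ : Finset (Fin 2)), T.m i * (2 * T.w i * (T.g i - 1) - T.a i i) = 0 :=
    (Finset.sum_eq_zero_iff_of_nonneg (fun i _ => contribution_nonneg T hmin hn i)).1 hsum0
  have t0 := isMinusTwo_of_contribution_zero T hn 0 (hterm 0 (Finset.mem_univ _))
  have t1 := isMinusTwo_of_contribution_zero T hn 1 (hterm 1 (Finset.mem_univ _))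
  have r0 := row_sum T 0
  have r1 := row_sum T 1
  simp only [Fin.sum_univ_two] at r0 r1
  rw [a_symm T 1 0, t1.2] at r1
  rw [t0.2] at r0
  have m0 := T.m_pos 0
  have m1 := T.m_pos 1
  have w0 := T.w_pos 0
  have w1 := T.w_pos 1
  have hA : T.a 0 1 * T.m 1 = 2 * T.w 0 * T.m 0 := by linarith
  have hB : T.a 0 1 * T.m 0 = 2 * T.w 1 * T.m 1 := by linarith
  have hsq : T.a 0 1 * T.a 0 1 = 4 * T.w 0 * T.w 1 := by
    have : (T.a 0 1 * T.a 0 1) * (T.m 0 * T.m 1) = (4 * T.w 0 * T.w 1) * (T.m 0 * T.m 1) := by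
      calc _ = (T.a 0 1 * T.m 1) * (T.a 0 1 * T.m 0) := by ring
        _ = (2 * T.w 0 * T.m 0) * (2 * T.w 1 * T.m 1) := by rw [hA, hB]
        _ = _ := by ring
    exact mul_right_cancel₀ (mul_pos m0 m1).ne' this
  obtain ⟨k, hk⟩ := T.w_dvd 0 1
  obtain ⟨l, hl⟩ := w_dvd' T 0 1
  have hkl : k * l = 4 := by
    have : (T.w 0 * T.w 1) * (k * l) = (T.w 0 * T.w 1) * 4 := by
      calc _ = (T.w 0 * k) * (T.w 1 * l) := by ring
        _ = T.a 0 1 * T.a 0 1 := by rw [← hk, ← hl]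
        _ = _ := by rw [hsq]; ring
    exact mul_left_cancel₀ (mul_pos w0 w1).ne' this
  have apos : 0 < T.a 0 1 := by
    have : 0 < T.a 0 1 * T.m 1 := by rw [hA]; positivity
    exact pos_of_mul_pos_left this m1.le
  have kpos : 0 < k := by
    rw [hk] at apos; exact pos_of_mul_pos_right apos w0.le
  have lpos : 0 < l := by
    rw [hl] at apos; exact pos_of_mul_pos_right apos w1.le
  have k4 : k ≤ 4 := by nlinarith
  interval_cases k
  · -- k = 1, l = 4 : a = w0 = 4 w1
    have hl4 : l = 4 := by omega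
    subst hl4
    have e1 : T.w 0 = 4 * T.w 1 := by linarith
    have e2 : T.m 1 = 2 * T.m 0 := by
      have : T.w 0 * T.m 1 = T.w 0 * (2 * T.m 0) := by
        have := hA; rw [hk, mul_one] at this; linarith
      exact mul_left_cancel₀ w0.ne' this
    refine ⟨1, 0, T.m 0, T.w 1, by decide, t1.1, t0.1, Or.inr ⟨e2, rfl, t1.2, ?_, ?_, rfl, e1⟩⟩
    · rw [a_symm T 1 0, hl]; ring
    · rw [t0.2, e1]; ring
  · -- k = 2, l = 2
    have hl2 : l = 2 := by omega
    subst hl2
    have e1 : T.w 1 = T.w 0 := by linarith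
    have e2 : T.m 1 = T.m 0 := by
      have : T.w 0 * T.m 1 = T.w 0 * T.m 0 := by
        have := hA; rw [hk] at this; linarith
      exact mul_left_cancel₀ w0.ne' this
    refine ⟨0, 1, T.m 0, T.w 0, by decide, t0.1, t1.1, Or.inl ⟨rfl, e2, t0.2, by rw [hk]; ring, ?_, rfl, e1⟩⟩
    rw [t1.2, e1]
  · have : 3 * l = 4 := hkl
    omega
  · -- k = 4, l = 1 : a = 4 w0 = w1
    have hl1 : l = 1 := by omega
    subst hl1
    have e1 : T.w 1 = 4 * T.w 0 := by linarith
    have e2 : T.m 0 = 2 * T.m 1 := by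
      have : T.w 1 * T.m 0 = T.w 1 * (2 * T.m 1) := by
        have := hB; rw [hl] at this; linarith
      exact mul_left_cancel₀ w1.ne' this
    refine ⟨0, 1, T.m 1, T.w 0, by decide, t0.1, t1.1, Or.inr ⟨e2, rfl, t0.2, by rw [hk]; ring, ?_, rfl, e1⟩⟩
    rw [t1.2, e1]; ring

end Groth.Agent.S7362
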