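import Groth.Statements.S7363
import Groth.Agent.Lib.Helper11.NumTypeTest
import Groth.Agent.Lib.Helper11.NumTypeGenus

set_option autoImplicit false
open Finset
open Models Models.NumericalType
open Groth.Agent.Lib.Helper11.NumType

namespace Groth.Agent.S7363

theorem path3 (T : Models.NumericalType 3) {i j k : Fin 3} (hij : i ≠ j) (hjk : j ≠ k) (hik : i ≠ k)
    (ti : T.IsMinusTwo i) (tj : T.IsMinusTwo j) (tk : T.IsMinusTwo k) (hik0 : T.a i k = 0)
    (e1 : T.a i j ≠ 0) (e2 : T.a j k ≠ 0)
    (ri : T.a i i * T.m i + T.a i j * T.m j = 0)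
    (rj : T.a j i * T.m i + T.a j j * T.m j + T.a j k * T.m k = 0)
    (rk : T.a k j * T.m j + T.a k k * T.m k = 0) :
    ∃ (x z : Fin 3) (m w : ℤ), ((x = i ∧ z = k) ∨ (x = k ∧ z = i)) ∧
      ((T.m x = m ∧ T.m j = m ∧ T.m z = m ∧ T.a x x = -2 * w ∧ T.a j j = -2 * w ∧ T.a z z = -2 * w ∧ T.a x j = w ∧ T.a x z = w ∧ T.a j z = w ∧ T.w x = w ∧ T.w j = w ∧ T.w z = w) ∨
        (T.m x = m ∧ T.m j = 2 * m ∧ T.m z = m ∧ T.a x x = -2 * w ∧ T.a x j = w ∧ T.a x z = 0 ∧ T.a j j = -2 * w ∧ T.a j z = 3 * w ∧ T.a z z = -6 * w ∧ T.w x = w ∧ T.w j = w ∧ T.w z = 3 * w) ∨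
        (T.m x = m ∧ T.m j = 2 * m ∧ T.m z = 3 * m ∧ T.a x x = -6 * w ∧ T.a x j = 3 * w ∧ T.a x z = 0 ∧ T.a j j = -6 * w ∧ T.a j z = 3 * w ∧ T.a z z = -2 * w ∧ T.w x = 3 * w ∧ T.w j = 3 * w ∧ T.w z = w) ∨
        (T.m x = 2 * m ∧ T.m j = 2 * m ∧ T.m z = m ∧ T.a x x = -2 * w ∧ T.a x j = 2 * w ∧ T.a x z = 0 ∧ T.a j j = -4 * w ∧ T.a j z = 4 * w ∧ T.a z z = -8 * w ∧ T.w x = w ∧ T.w j = 2 * w ∧ T.w z = 4 * w) ∨
        (T.m x = m ∧ T.m j = m ∧ T.m z = m ∧ T.a x x = -2 * w ∧ T.a x j = 2 * w ∧ T.a x z = 0 ∧ T.a j j = -4 * w ∧ T.a j z = 2 * w ∧ T.a z z = -2 * w ∧ T.w x = w ∧ T.w j = 2 * w ∧ T.w z = w) ∨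
        (T.m x = m ∧ T.m j = 2 * m ∧ T.m z = m ∧ T.a x x = -4 * w ∧ T.a x j = 2 * w ∧ T.a x z = 0 ∧ T.a j j = -2 * w ∧ T.a j z = 2 * w ∧ T.a z z = -4 * w ∧ T.w x = 2 * w ∧ T.w j = w ∧ T.w z = 2 * w)) := by
  have E : T.a i j ^ 2 * T.w k + T.a j k ^ 2 * T.w i = 4 * T.w i * T.w j * T.w k := by
    have hmj := T.m_pos j
    have ri' := ri
    have rj' := rj
    have rk' := rk
    rw [ti.2] at ri'
    rw [tj.2, a_symm T j i] at rj'
    rw [tk.2, a_symm T k j] at rk'
    have : (T.a i j ^ 2 * T.w k + T.a j k ^ 2 * T.w i - 4 * T.w i * T.w j * T.w k) * T.m j = 0 := by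
      linear_combination (2 * T.w i * T.w k) * rj' + (T.w k * T.a i j) * ri' + (T.w i * T.a j k) * rk'
    have := (mul_eq_zero.1 this).resolve_right hmj.ne'
    linarith
  rcases edge_cases T (by norm_num) hij ti tj e1 with ⟨a1, w1⟩ | ⟨a1, w1⟩ | ⟨a1, w1⟩ | ⟨a1, w1⟩ | ⟨a1, w1⟩ <;>
    rcases edge_cases T (by norm_num) hjk tj tk e2 with ⟨a2, w2⟩ | ⟨a2, w2⟩ | ⟨a2, w2⟩ | ⟨a2, w2⟩ | ⟨a2, w2⟩
  · -- S S
    have hW := T.w_pos i
    have ewi : T.w i = 1 * T.w i := by omega
    have ewj : T.w j = 1 * T.w i := by omega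
    have ewk : T.w k = 1 * T.w i := by omega
    have eaij : T.a i j = 1 * T.w i := by omega
    have eajk : T.a j k = 1 * T.w i := by omega
    exfalso
    rw [eaij, eajk, ewi, ewj, ewk] at E
    have h3 : 0 < T.w i ^ 3 := pow_pos hW 3
    first | linarith | nlinarith
  · -- S L
    have hW := T.w_pos k
    have ewi : T.w i = 2 * T.w k := by omega
    have ewj : T.w j = 2 * T.w k := by omega
    have ewk : T.w k = 1 * T.w k := by omega
    have eaij : T.a i j = 2 * T.w k := by omega
    have eajk : T.a j k = 2 * T.w k := by omega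
    exfalso
    rw [eaij, eajk, ewi, ewj, ewk] at E
    have h3 : 0 < T.w k ^ 3 := pow_pos hW 3
    first | linarith | nlinarith
  · -- S R
    have hW := T.w_pos i
    have ewi : T.w i = 1 * T.w i := by omega
    have ewj : T.w j = 1 * T.w i := by omega
    have ewk : T.w k = 2 * T.w i := by omega
    have eaij : T.a i j = 1 * T.w i := by omega
    have eajk : T.a j k = 2 * T.w i := by omega
    exfalso
    rw [eaij, eajk, ewi, ewj, ewk] at E
    have h3 : 0 < T.w i ^ 3 := pow_pos hW 3
    first | linarith | nlinarith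
  · -- S L3
    have hW := T.w_pos k
    have ewi : T.w i = 3 * T.w k := by omega
    have ewj : T.w j = 3 * T.w k := by omega
    have ewk : T.w k = 1 * T.w k := by omega
    have eaij : T.a i j = 3 * T.w k := by omega
    have eajk : T.a j k = 3 * T.w k := by omega
    have eaji : T.a j i = 3 * T.w k := by rw [a_symm T j i]; exact eaij
    have eakj : T.a k j = 3 * T.w k := by rw [a_symm T k j]; exact eajk
    have ekj0 : T.a k i = 0 := by rw [a_symm T k i]; exact hik0
    have aii := ti.2
    have ajj := tj.2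
    have akk := tk.2
    rw [ti.2, eaij, ewi] at ri
    rw [tk.2, eakj, ewk] at rk
    have mi : 3 * T.m j = 6 * T.m i := by
      have := mul_left_cancel₀ hW.ne' (show T.w k * (3 * T.m j - 6 * T.m i) = T.w k * 0 by linear_combination ri)
      linarith
    have mk : 3 * T.m j = 2 * T.m k := by
      have := mul_left_cancel₀ hW.ne' (show T.w k * (3 * T.m j - 2 * T.m k) = T.w k * 0 by linear_combination rk)
      linarith
    exact ⟨i, k, T.m i, T.w k, Or.inl ⟨rfl, rfl⟩, Or.inr (Or.inr (Or.inl ⟨(by first | omega | linarith : T.m i = T.m i), (by first | omega | linarith : T.m j = 2 * T.m i), (by first | omega | linarith : T.m k = 3 * T.m i), (by first | omega | linarith : T.a i i = -6 * T.w k), (by first | omega | linarith : T.a i j = 3 * T.w k), (by first | omega | linarith : T.a i k = 0), (by first | omega | linarith : T.a j j = -6 * T.w k), (by first | omega | linarith : T.a j k = 3 * T.w k), (by first | omega | linarith : T.a k k = -2 * T.w k), (by first | omega | linarith : T.w i = 3 * T.w k), (by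 first | omega | linarith : T.w j = 3 * T.w k), (by first | omega | linarith : T.w k = T.w k)⟩))⟩
  · -- S R3
    have hW := T.w_pos i
    have ewi : T.w i = 1 * T.w i := by omega
    have ewj : T.w j = 1 * T.w i := by omega
    have ewk : T.w k = 3 * T.w i := by omega
    have eaij : T.a i j = 1 * T.w i := by omega
    have eajk : T.a j k = 3 * T.w i := by omega
    have eaji : T.a j i = 1 * T.w i := by rw [a_symm T j i]; exact eaij
    have eakj : T.a k j = 3 * T.w i := by rw [a_symm T k j]; exact eajk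
    have ekj0 : T.a k i = 0 := by rw [a_symm T k i]; exact hik0
    have aii := ti.2
    have ajj := tj.2
    have akk := tk.2
    rw [ti.2, eaij, ewi] at ri
    rw [tk.2, eakj, ewk] at rk
    have mi : 1 * T.m j = 2 * T.m i := by
      have := mul_left_cancel₀ hW.ne' (show T.w i * (1 * T.m j - 2 * T.m i) = T.w i * 0 by linear_combination ri)
      linarith
    have mk : 3 * T.m j = 6 * T.m k := by
      have := mul_left_cancel₀ hW.ne' (show T.w i * (3 * T.m j - 6 * T.m k) = T.w i * 0 by linear_combination rk)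
      linarith
    exact ⟨i, k, T.m i, T.w i, Or.inl ⟨rfl, rfl⟩, Or.inr (Or.inl ⟨(by first | omega | linarith : T.m i = T.m i), (by first | omega | linarith : T.m j = 2 * T.m i), (by first | omega | linarith : T.m k = T.m i), (by first | omega | linarith : T.a i i = -2 * T.w i), (by first | omega | linarith : T.a i j = T.w i), (by first | omega | linarith : T.a i k = 0), (by first | omega | linarith : T.a j j = -2 * T.w i), (by first | omega | linarith : T.a j k = 3 * T.w i), (by first | omega | linarith : T.a k k = -6 * T.w i), (by first | omega | linarith : T.w i = T.w i), (by first | omega | linarith : T.w j = T.w i), (by first | omega | linarith : T.w k = 3 * T.w i)⟩)⟩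
  · -- L S
    have hW := T.w_pos j
    have ewi : T.w i = 2 * T.w j := by omega
    have ewj : T.w j = 1 * T.w j := by omega
    have ewk : T.w k = 1 * T.w j := by omega
    have eaij : T.a i j = 2 * T.w j := by omega
    have eajk : T.a j k = 1 * T.w j := by omega
    exfalso
    rw [eaij, eajk, ewi, ewj, ewk] at E
    have h3 : 0 < T.w j ^ 3 := pow_pos hW 3
    first | linarith | nlinarith
  · -- L L
    have hW := T.w_pos k
    have ewi : T.w i = 4 * T.w k := by omega
    have ewj : T.w j = 2 * T.w k := by omega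
    have ewk : T.w k = 1 * T.w k := by omega
    have eaij : T.a i j = 4 * T.w k := by omega
    have eajk : T.a j k = 2 * T.w k := by omega
    have eaji : T.a j i = 4 * T.w k := by rw [a_symm T j i]; exact eaij
    have eakj : T.a k j = 2 * T.w k := by rw [a_symm T k j]; exact eajk
    have ekj0 : T.a k i = 0 := by rw [a_symm T k i]; exact hik0
    have aii := ti.2
    have ajj := tj.2
    have akk := tk.2
    rw [ti.2, eaij, ewi] at ri
    rw [tk.2, eakj, ewk] at rk
    have mi : 4 * T.m j = 8 * T.m i := by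
      have := mul_left_cancel₀ hW.ne' (show T.w k * (4 * T.m j - 8 * T.m i) = T.w k * 0 by linear_combination ri)
      linarith
    have mk : 2 * T.m j = 2 * T.m k := by
      have := mul_left_cancel₀ hW.ne' (show T.w k * (2 * T.m j - 2 * T.m k) = T.w k * 0 by linear_combination rk)
      linarith
    exact ⟨k, i, T.m i, T.w k, Or.inr ⟨rfl, rfl⟩, Or.inr (Or.inr (Or.inr (Or.inl ⟨(by first | omega | linarith : T.m k = 2 * T.m i), (by first | omega | linarith : T.m j = 2 * T.m i), (by first | omega | linarith : T.m i = T.m i), (by first | omega | linarith : T.a k k = -2 * T.w k), (by first | omega | linarith : T.a k j = 2 * T.w k), (by first | omega | linarith : T.a k i = 0), (by first | omega | linarith : T.a j j = -4 * T.w k), (by first | omega | linarith : T.a j i = 4 * T.w k), (by first | omega | linarith : T.a i i = -8 * T.w k), (by first | omega | linarith : T.w k = T.w k), (by first | omega | linarith : T.w j = 2 * T.w k), (by first | omega | linarith : T.w i = 4 * T.w k)⟩)))⟩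
  · -- L R
    have hW := T.w_pos j
    have ewi : T.w i = 2 * T.w j := by omega
    have ewj : T.w j = 1 * T.w j := by omega
    have ewk : T.w k = 2 * T.w j := by omega
    have eaij : T.a i j = 2 * T.w j := by omega
    have eajk : T.a j k = 2 * T.w j := by omega
    have eaji : T.a j i = 2 * T.w j := by rw [a_symm T j i]; exact eaij
    have eakj : T.a k j = 2 * T.w j := by rw [a_symm T k j]; exact eajk
    have ekj0 : T.a k i = 0 := by rw [a_symm T k i]; exact hik0
    have aii := ti.2
    have ajj := tj.2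
    have akk := tk.2
    rw [ti.2, eaij, ewi] at ri
    rw [tk.2, eakj, ewk] at rk
    have mi : 2 * T.m j = 4 * T.m i := by
      have := mul_left_cancel₀ hW.ne' (show T.w j * (2 * T.m j - 4 * T.m i) = T.w j * 0 by linear_combination ri)
      linarith
    have mk : 2 * T.m j = 4 * T.m k := by
      have := mul_left_cancel₀ hW.ne' (show T.w j * (2 * T.m j - 4 * T.m k) = T.w j * 0 by linear_combination rk)
      linarith
    exact ⟨i, k, T.m i, T.w j, Or.inl ⟨rfl, rfl⟩, Or.inr (Or.inr (Or.inr (Or.inr (Or.inr (⟨(by first | omega | linarith : T.m i = T.m i), (by first | omega | linarith : T.m j = 2 * T.m i), (by first | omega | linarith : T.m k = T.m i), (by first | omega | linarith : T.a i i = -4 * T.w j), (by first | omega | linarith : T.a i j = 2 * T.w j), (by first | omega | linarith : T.a i k = 0), (by first | omega | linarith : T.a j j = -2 * T.w j), (by first | omega | linarith : T.a j k = 2 * T.w j), (by first | omega | linarith : T.a k k = -4 * T.w j), (by first | omega | linarith : T.w i = 2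 * T.w j), (by first | omega | linarith : T.w j = T.w j), (by first | omega | linarith : T.w k = 2 * T.w j)⟩)))))⟩
  · -- L L3
    have hW := T.w_pos k
    have ewi : T.w i = 6 * T.w k := by omega
    have ewj : T.w j = 3 * T.w k := by omega
    have ewk : T.w k = 1 * T.w k := by omega
    have eaij : T.a i j = 6 * T.w k := by omega
    have eajk : T.a j k = 3 * T.w k := by omega
    exfalso
    rw [eaij, eajk, ewi, ewj, ewk] at E
    have h3 : 0 < T.w k ^ 3 := pow_pos hW 3
    first | linarith | nlinarith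
  · -- L R3
    have hW := T.w_pos j
    have ewi : T.w i = 2 * T.w j := by omega
    have ewj : T.w j = 1 * T.w j := by omega
    have ewk : T.w k = 3 * T.w j := by omega
    have eaij : T.a i j = 2 * T.w j := by omega
    have eajk : T.a j k = 3 * T.w j := by omega
    exfalso
    rw [eaij, eajk, ewi, ewj, ewk] at E
    have h3 : 0 < T.w j ^ 3 := pow_pos hW 3
    first | linarith | nlinarith
  · -- R S
    have hW := T.w_pos i
    have ewi : T.w i = 1 * T.w i := by omega
    have ewj : T.w j = 2 * T.w i := by omega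
    have ewk : T.w k = 2 * T.w i := by omega
    have eaij : T.a i j = 2 * T.w i := by omega
    have eajk : T.a j k = 2 * T.w i := by omega
    exfalso
    rw [eaij, eajk, ewi, ewj, ewk] at E
    have h3 : 0 < T.w i ^ 3 := pow_pos hW 3
    first | linarith | nlinarith
  · -- R L
    have hW := T.w_pos i
    have ewi : T.w i = 1 * T.w i := by omega
    have ewj : T.w j = 2 * T.w i := by omega
    have ewk : T.w k = 1 * T.w i := by omega
    have eaij : T.a i j = 2 * T.w i := by omega
    have eajk : T.a j k = 2 * T.w i := by omega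
    have eaji : T.a j i = 2 * T.w i := by rw [a_symm T j i]; exact eaij
    have eakj : T.a k j = 2 * T.w i := by rw [a_symm T k j]; exact eajk
    have ekj0 : T.a k i = 0 := by rw [a_symm T k i]; exact hik0
    have aii := ti.2
    have ajj := tj.2
    have akk := tk.2
    rw [ti.2, eaij, ewi] at ri
    rw [tk.2, eakj, ewk] at rk
    have mi : 2 * T.m j = 2 * T.m i := by
      have := mul_left_cancel₀ hW.ne' (show T.w i * (2 * T.m j - 2 * T.m i) = T.w i * 0 by linear_combination ri)
      linarith
    have mk : 2 * T.m j = 2 * T.m k := by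
      have := mul_left_cancel₀ hW.ne' (show T.w i * (2 * T.m j - 2 * T.m k) = T.w i * 0 by linear_combination rk)
      linarith
    exact ⟨i, k, T.m i, T.w i, Or.inl ⟨rfl, rfl⟩, Or.inr (Or.inr (Or.inr (Or.inr (Or.inl ⟨(by first | omega | linarith : T.m i = T.m i), (by first | omega | linarith : T.m j = T.m i), (by first | omega | linarith : T.m k = T.m i), (by first | omega | linarith : T.a i i = -2 * T.w i), (by first | omega | linarith : T.a i j = 2 * T.w i), (by first | omega | linarith : T.a i k = 0), (by first | omega | linarith : T.a j j = -4 * T.w i), (by first | omega | linarith : T.a j k = 2 * T.w i), (by first | omega | linarith : T.a k k = -2 * T.w i), (by first | omega | linarith : T.w i = T.w i), (by first | omega | linarith : T.w j = 2 * T.w i), (by first | omega | linarith : T.w k = T.w i)⟩))))⟩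
  · -- R R
    have hW := T.w_pos i
    have ewi : T.w i = 1 * T.w i := by omega
    have ewj : T.w j = 2 * T.w i := by omega
    have ewk : T.w k = 4 * T.w i := by omega
    have eaij : T.a i j = 2 * T.w i := by omega
    have eajk : T.a j k = 4 * T.w i := by omega
    have eaji : T.a j i = 2 * T.w i := by rw [a_symm T j i]; exact eaij
    have eakj : T.a k j = 4 * T.w i := by rw [a_symm T k j]; exact eajk
    have ekj0 : T.a k i = 0 := by rw [a_symm T k i]; exact hik0
    have aii := ti.2
    have ajj := tj.2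
    have akk := tk.2
    rw [ti.2, eaij, ewi] at ri
    rw [tk.2, eakj, ewk] at rk
    have mi : 2 * T.m j = 2 * T.m i := by
      have := mul_left_cancel₀ hW.ne' (show T.w i * (2 * T.m j - 2 * T.m i) = T.w i * 0 by linear_combination ri)
      linarith
    have mk : 4 * T.m j = 8 * T.m k := by
      have := mul_left_cancel₀ hW.ne' (show T.w i * (4 * T.m j - 8 * T.m k) = T.w i * 0 by linear_combination rk)
      linarith
    exact ⟨i, k, T.m k, T.w i, Or.inl ⟨rfl, rfl⟩, Or.inr (Or.inr (Or.inr (Or.inl ⟨(by first | omega | linarith : T.m i = 2 * T.m k), (by first | omega | linarith : T.m j = 2 * T.m k), (by first | omega | linarith : T.m k = T.m k), (by first | omega | linarith : T.a i i = -2 * T.w i), (by first | omega | linarith : T.a i j = 2 * T.w i), (by first | omega | linarith : T.a i k = 0), (by first | omega | linarith : T.a j j = -4 * T.w i), (by first | omega | linarith : T.a j k = 4 * T.w i), (by first | omega | linarith : T.a k k = -8 * T.w i), (by first | omega | linarith : T.w i = T.w i),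 (by first | omega | linarith : T.w j = 2 * T.w i), (by first | omega | linarith : T.w k = 4 * T.w i)⟩)))⟩
  · -- R L3
    obtain ⟨u, hu⟩ : ∃ u : ℤ, u = -5 * T.w i + 1 * T.w j + 5 * T.w k := ⟨_, rfl⟩
    have hW : 0 < u := by have := T.w_pos i; have := T.w_pos j; have := T.w_pos k; omega
    have ewi : T.w i = 3 * u := by omega
    have ewj : T.w j = 6 * u := by omega
    have ewk : T.w k = 2 * u := by omega
    have eaij : T.a i j = 6 * u := by omega
    have eajk : T.a j k = 6 * u := by omega
    exfalso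
    rw [eaij, eajk, ewi, ewj, ewk] at E
    have h3 : 0 < u ^ 3 := pow_pos hW 3
    first | linarith | nlinarith
  · -- R R3
    have hW := T.w_pos i
    have ewi : T.w i = 1 * T.w i := by omega
    have ewj : T.w j = 2 * T.w i := by omega
    have ewk : T.w k = 6 * T.w i := by omega
    have eaij : T.a i j = 2 * T.w i := by omega
    have eajk : T.a j k = 6 * T.w i := by omega
    exfalso
    rw [eaij, eajk, ewi, ewj, ewk] at E
    have h3 : 0 < T.w i ^ 3 := pow_pos hW 3
    first | linarith | nlinarith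
  · -- L3 S
    have hW := T.w_pos j
    have ewi : T.w i = 3 * T.w j := by omega
    have ewj : T.w j = 1 * T.w j := by omega
    have ewk : T.w k = 1 * T.w j := by omega
    have eaij : T.a i j = 3 * T.w j := by omega
    have eajk : T.a j k = 1 * T.w j := by omega
    have eaji : T.a j i = 3 * T.w j := by rw [a_symm T j i]; exact eaij
    have eakj : T.a k j = 1 * T.w j := by rw [a_symm T k j]; exact eajk
    have ekj0 : T.a k i = 0 := by rw [a_symm T k i]; exact hik0
    have aii := ti.2
    have ajj := tj.2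
    have akk := tk.2
    rw [ti.2, eaij, ewi] at ri
    rw [tk.2, eakj, ewk] at rk
    have mi : 3 * T.m j = 6 * T.m i := by
      have := mul_left_cancel₀ hW.ne' (show T.w j * (3 * T.m j - 6 * T.m i) = T.w j * 0 by linear_combination ri)
      linarith
    have mk : 1 * T.m j = 2 * T.m k := by
      have := mul_left_cancel₀ hW.ne' (show T.w j * (1 * T.m j - 2 * T.m k) = T.w j * 0 by linear_combination rk)
      linarith
    exact ⟨k, i, T.m k, T.w k, Or.inr ⟨rfl, rfl⟩, Or.inr (Or.inl ⟨(by first | omega | linarith : T.m k = T.m k), (by first | omega | linarith : T.m j = 2 * T.m k), (by first | omega | linarith : T.m i = T.m k), (by first | omega | linarith : T.a k k = -2 * T.w k), (by first | omega | linarith : T.a k j = T.w k), (by first | omega | linarith : T.a k i = 0), (by first | omega | linarith : T.a j j = -2 * T.w k), (by first | omega | linarith : T.a j i = 3 * T.w k), (by first | omega | linarith : T.a i i = -6 * T.w k), (by first | omega | linarith : T.w k = T.w k), (by first | omega | linarith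 : T.w j = T.w k), (by first | omega | linarith : T.w i = 3 * T.w k)⟩)⟩
  · -- L3 L
    have hW := T.w_pos k
    have ewi : T.w i = 6 * T.w k := by omega
    have ewj : T.w j = 2 * T.w k := by omega
    have ewk : T.w k = 1 * T.w k := by omega
    have eaij : T.a i j = 6 * T.w k := by omega
    have eajk : T.a j k = 2 * T.w k := by omega
    exfalso
    rw [eaij, eajk, ewi, ewj, ewk] at E
    have h3 : 0 < T.w k ^ 3 := pow_pos hW 3
    first | linarith | nlinarith
  · -- L3 R
    have hW := T.w_pos j
    have ewi : T.w i = 3 * T.w j := by omega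
    have ewj : T.w j = 1 * T.w j := by omega
    have ewk : T.w k = 2 * T.w j := by omega
    have eaij : T.a i j = 3 * T.w j := by omega
    have eajk : T.a j k = 2 * T.w j := by omega
    exfalso
    rw [eaij, eajk, ewi, ewj, ewk] at E
    have h3 : 0 < T.w j ^ 3 := pow_pos hW 3
    first | linarith | nlinarith
  · -- L3 L3
    have hW := T.w_pos k
    have ewi : T.w i = 9 * T.w k := by omega
    have ewj : T.w j = 3 * T.w k := by omega
    have ewk : T.w k = 1 * T.w k := by omega
    have eaij : T.a i j = 9 * T.w k := by omega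
    have eajk : T.a j k = 3 * T.w k := by omega
    exfalso
    rw [eaij, eajk, ewi, ewj, ewk] at E
    have h3 : 0 < T.w k ^ 3 := pow_pos hW 3
    first | linarith | nlinarith
  · -- L3 R3
    have hW := T.w_pos j
    have ewi : T.w i = 3 * T.w j := by omega
    have ewj : T.w j = 1 * T.w j := by omega
    have ewk : T.w k = 3 * T.w j := by omega
    have eaij : T.a i j = 3 * T.w j := by omega
    have eajk : T.a j k = 3 * T.w j := by omega
    exfalso
    rw [eaij, eajk, ewi, ewj, ewk] at E
    have h3 : 0 < T.w j ^ 3 := pow_pos hW 3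
    first | linarith | nlinarith
  · -- R3 S
    have hW := T.w_pos i
    have ewi : T.w i = 1 * T.w i := by omega
    have ewj : T.w j = 3 * T.w i := by omega
    have ewk : T.w k = 3 * T.w i := by omega
    have eaij : T.a i j = 3 * T.w i := by omega
    have eajk : T.a j k = 3 * T.w i := by omega
    have eaji : T.a j i = 3 * T.w i := by rw [a_symm T j i]; exact eaij
    have eakj : T.a k j = 3 * T.w i := by rw [a_symm T k j]; exact eajk
    have ekj0 : T.a k i = 0 := by rw [a_symm T k i]; exact hik0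
    have aii := ti.2
    have ajj := tj.2
    have akk := tk.2
    rw [ti.2, eaij, ewi] at ri
    rw [tk.2, eakj, ewk] at rk
    have mi : 3 * T.m j = 2 * T.m i := by
      have := mul_left_cancel₀ hW.ne' (show T.w i * (3 * T.m j - 2 * T.m i) = T.w i * 0 by linear_combination ri)
      linarith
    have mk : 3 * T.m j = 6 * T.m k := by
      have := mul_left_cancel₀ hW.ne' (show T.w i * (3 * T.m j - 6 * T.m k) = T.w i * 0 by linear_combination rk)
      linarith
    exact ⟨k, i, T.m k, T.w i, Or.inr ⟨rfl, rfl⟩, Or.inr (Or.inr (Or.inl ⟨(by first | omega | linarith : T.m k = T.m k), (by first | omega | linarith : T.m j = 2 * T.m k), (by first | omega | linarith : T.m i = 3 * T.m k), (by first | omega | linarith : T.a k k = -6 * T.w i), (by first | omega | linarith : T.a k j = 3 * T.w i), (by first | omega | linarith : T.a k i = 0), (by first | omega | linarith : T.a j j = -6 * T.w i), (by first | omega | linarith : T.a j i = 3 * T.w i), (by first | omega | linarith : T.a i i = -2 * T.w i), (by first |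 omega | linarith : T.w k = 3 * T.w i), (by first | omega | linarith : T.w j = 3 * T.w i), (by first | omega | linarith : T.w i = T.w i)⟩))⟩
  · -- R3 L
    obtain ⟨u, hu⟩ : ∃ u : ℤ, u = -4 * T.w i + -1 * T.w j + 5 * T.w k := ⟨_, rfl⟩
    have hW : 0 < u := by have := T.w_pos i; have := T.w_pos j; have := T.w_pos k; omega
    have ewi : T.w i = 2 * u := by omega
    have ewj : T.w j = 6 * u := by omega
    have ewk : T.w k = 3 * u := by omega
    have eaij : T.a i j = 6 * u := by omega
    have eajk : T.a j k = 6 * u := by omega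
    exfalso
    rw [eaij, eajk, ewi, ewj, ewk] at E
    have h3 : 0 < u ^ 3 := pow_pos hW 3
    first | linarith | nlinarith
  · -- R3 R
    have hW := T.w_pos i
    have ewi : T.w i = 1 * T.w i := by omega
    have ewj : T.w j = 3 * T.w i := by omega
    have ewk : T.w k = 6 * T.w i := by omega
    have eaij : T.a i j = 3 * T.w i := by omega
    have eajk : T.a j k = 6 * T.w i := by omega
    exfalso
    rw [eaij, eajk, ewi, ewj, ewk] at E
    have h3 : 0 < T.w i ^ 3 := pow_pos hW 3
    first | linarith | nlinarith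
  · -- R3 L3
    have hW := T.w_pos i
    have ewi : T.w i = 1 * T.w i := by omega
    have ewj : T.w j = 3 * T.w i := by omega
    have ewk : T.w k = 1 * T.w i := by omega
    have eaij : T.a i j = 3 * T.w i := by omega
    have eajk : T.a j k = 3 * T.w i := by omega
    exfalso
    rw [eaij, eajk, ewi, ewj, ewk] at E
    have h3 : 0 < T.w i ^ 3 := pow_pos hW 3
    first | linarith | nlinarith
  · -- R3 R3
    have hW := T.w_pos i
    have ewi : T.w i = 1 * T.w i := by omega
    have ewj : T.w j = 3 * T.w i := by omega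
    have ewk : T.w k = 9 * T.w i := by omega
    have eaij : T.a i j = 3 * T.w i := by omega
    have eajk : T.a j k = 9 * T.w i := by omega
    exfalso
    rw [eaij, eajk, ewi, ewj, ewk] at E
    have h3 : 0 < T.w i ^ 3 := pow_pos hW 3
    first | linarith | nlinarith

set_option maxHeartbeats 1000000 in
/-- Genus one classification: case n = 3: let T be a minimal numerical type of genus 1 on three indices.
Then all g = 0 and, for some ordering i, j, k of the indices and some integers m, w, the data (m; a;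
w) is one of: (m,m,m; a_ii = a_jj = a_kk = -2w, a_ij = a_ik = a_jk = w; w,w,w); (m,2m,m; a_ii = -2w,
a_ij = w, a_ik = 0, a_jj = -2w, a_jk = 3w, a_kk = -6w; w,w,3w); (m,2m,3m; a_ii = -6w, a_ij = 3w,
a_ik = 0, a_jj = -6w, a_jk = 3w, a_kk = -2w; 3w,3w,w); (2m,2m,m; a_ii = -2w, a_ij = 2w, a_ik = 0,
a_jj = -4w, a_jk = 4w, a_kk = -8w; w,2w,4w); (m,m,m; a_ii = -2w, a_ij = 2w, a_ik = 0, a_jj = -4w,
a_jk = 2w, a_kk = -2w; w,2w,w); (m,2m,m; a_ii = -4w, a_ij = 2w, a_ik = 0, a_jj = -2w, a_jk = 2w,
a_kk = -4w; 2w,w,2w). Only the classification direction is stated. -/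
theorem result (T : Models.NumericalType 3) (hmin : T.IsMinimal) (hg : T.genus = 1) :
    ∃ (i j k : Fin 3) (m w : ℤ), i ≠ j ∧ j ≠ k ∧ i ≠ k ∧ T.g i = 0 ∧ T.g j = 0 ∧ T.g k = 0 ∧
      ((T.m i = m ∧ T.m j = m ∧ T.m k = m ∧ T.a i i = -2 * w ∧ T.a j j = -2 * w ∧ T.a k k = -2 * w ∧
          T.a i j = w ∧ T.a i k = w ∧ T.a j k = w ∧ T.w i = w ∧ T.w j = w ∧ T.w k = w) ∨
        (T.m i = m ∧ T.m j = 2 * m ∧ T.m k = m ∧ T.a i i = -2 * w ∧ T.a i j = w ∧ T.a i k = 0 ∧ T.a j j = -2 * w ∧
          T.a j k = 3 * w ∧ T.a k k = -6 * w ∧ T.w i = w ∧ T.w j = w ∧ T.w k = 3 * w) ∨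
        (T.m i = m ∧ T.m j = 2 * m ∧ T.m k = 3 * m ∧ T.a i i = -6 * w ∧ T.a i j = 3 * w ∧ T.a i k = 0 ∧ T.a j j = -6 * w ∧
          T.a j k = 3 * w ∧ T.a k k = -2 * w ∧ T.w i = 3 * w ∧ T.w j = 3 * w ∧ T.w k = w) ∨
        (T.m i = 2 * m ∧ T.m j = 2 * m ∧ T.m k = m ∧ T.a i i = -2 * w ∧ T.a i j = 2 * w ∧ T.a i k = 0 ∧ T.a j j = -4 * w ∧
          T.a j k = 4 * w ∧ T.a k k = -8 * w ∧ T.w i = w ∧ T.w j = 2 * w ∧ T.w k = 4 * w) ∨
        (T.m i = m ∧ T.m j = m ∧ T.m k = m ∧ T.a i i = -2 * w ∧ T.a i j = 2 * w ∧ T.a i k = 0 ∧ T.a j j = -4 * w ∧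
          T.a j k = 2 * w ∧ T.a k k = -2 * w ∧ T.w i = w ∧ T.w j = 2 * w ∧ T.w k = w) ∨
        (T.m i = m ∧ T.m j = 2 * m ∧ T.m k = m ∧ T.a i i = -4 * w ∧ T.a i j = 2 * w ∧ T.a i k = 0 ∧ T.a j j = -2 * w ∧
          T.a j k = 2 * w ∧ T.a k k = -4 * w ∧ T.w i = 2 * w ∧ T.w j = w ∧ T.w k = 2 * w)) := by
  have hn : 1 < 3 := by norm_num
  have h2g := two_mul_genus T
  rw [hg] at h2g
  have hsum0 : ∑ i, T.m i * (2 * T.w i * (T.g i - 1) - T.a i i) = 0 := by linarith
  have hterm : ∀ i ∈ (Finset.univ : Finset (Fin 3)), T.m i * (2 * T.w i * (T.g i - 1) - T.a i i) = 0 :=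
    (Finset.sum_eq_zero_iff_of_nonneg (fun i _ => contribution_nonneg T hmin hn i)).1 hsum0
  have t0 := isMinusTwo_of_contribution_zero T hn 0 (hterm 0 (Finset.mem_univ _))
  have t1 := isMinusTwo_of_contribution_zero T hn 1 (hterm 1 (Finset.mem_univ _))
  have t2 := isMinusTwo_of_contribution_zero T hn 2 (hterm 2 (Finset.mem_univ _))
  have r0 := row_sum T 0
  have r1 := row_sum T 1
  have r2 := row_sum T 2
  simp only [Fin.sum_univ_three] at r0 r1 r2
  have s10 : T.a 1 0 = T.a 0 1 := a_symm T 1 0
  have s20 : T.a 2 0 = T.a 0 2 := a_symm T 2 0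
  have s21 : T.a 2 1 = T.a 1 2 := a_symm T 2 1
  have hfin : ∀ j : Fin 3, j = 0 ∨ j = 1 ∨ j = 2 := by decide
  have n0 := exists_neighbor T hn 0
  have n1 := exists_neighbor T hn 1
  have n2 := exists_neighbor T hn 2
  by_cases h01 : T.a 0 1 = 0
  · -- path 0 - 2 - 1
    have h02 : T.a 0 2 ≠ 0 := by
      intro h02
      obtain ⟨j, hj, hj'⟩ := n0
      rcases hfin j with rfl | rfl | rfl
      · exact hj rfl
      · exact hj' h01
      · exact hj' h02
    have h12 : T.a 1 2 ≠ 0 := by
      intro h12
      obtain ⟨j, hj, hj'⟩ := n1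
      rcases hfin j with rfl | rfl | rfl
      · exact hj' (by rw [s10]; exact h01)
      · exact hj rfl
      · exact hj' h12
    obtain ⟨x, z, m, w, hor, hd⟩ := path3 T (i := 0) (j := 2) (k := 1) (by decide) (by decide) (by decide)
      t0 t2 t1 h01 h02 (by rw [s21]; exact h12)
      (by rw [h01] at r0; linarith) (by linarith) (by rw [s10, h01] at r1; linarith)
    rcases hor with ⟨rfl, rfl⟩ | ⟨rfl, rfl⟩
    · exact ⟨0, 2, 1, m, w, by decide, by decide, by decide, t0.1, t2.1, t1.1, hd⟩
    · exact ⟨1, 2, 0, m, w, by decide, by decide, by decide, t1.1, t2.1, t0.1, hd⟩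
  by_cases h02 : T.a 0 2 = 0
  · -- path 0 - 1 - 2
    have h12 : T.a 1 2 ≠ 0 := by
      intro h12
      obtain ⟨j, hj, hj'⟩ := n2
      rcases hfin j with rfl | rfl | rfl
      · exact hj' (by rw [s20]; exact h02)
      · exact hj' (by rw [s21]; exact h12)
      · exact hj rfl
    obtain ⟨x, z, m, w, hor, hd⟩ := path3 T (i := 0) (j := 1) (k := 2) (by decide) (by decide) (by decide)
      t0 t1 t2 h02 h01 h12
      (by rw [h02] at r0; linarith) (by linarith) (by rw [s20, h02] at r2; linarith)
    rcases hor with ⟨rfl, rfl⟩ | ⟨rfl, rfl⟩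
    · exact ⟨0, 1, 2, m, w, by decide, by decide, by decide, t0.1, t1.1, t2.1, hd⟩
    · exact ⟨2, 1, 0, m, w, by decide, by decide, by decide, t2.1, t1.1, t0.1, hd⟩
  by_cases h12 : T.a 1 2 = 0
  · -- path 1 - 0 - 2
    obtain ⟨x, z, m, w, hor, hd⟩ := path3 T (i := 1) (j := 0) (k := 2) (by decide) (by decide) (by decide)
      t1 t0 t2 h12 (by rw [s10]; exact h01) h02
      (by rw [h12] at r1; linarith) (by linarith) (by rw [s21, h12] at r2; linarith)
    rcases hor with ⟨rfl, rfl⟩ | ⟨rfl, rfl⟩
    · exact ⟨1, 0, 2, m, w, by decide, by decide, by decide, t1.1, t0.1, t2.1, hd⟩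
    · exact ⟨2, 0, 1, m, w, by decide, by decide, by decide, t2.1, t0.1, t1.1, hd⟩
  -- triangle
  have h10 : T.a 1 0 ≠ 0 := by rw [s10]; exact h01
  have h20 : T.a 2 0 ≠ 0 := by rw [s20]; exact h02
  have h21 : T.a 2 1 ≠ 0 := by rw [s21]; exact h12
  have m0 := T.m_pos 0
  have m1 := T.m_pos 1
  have m2 := T.m_pos 2
  have w0 := T.w_pos 0
  have w1 := T.w_pos 1
  have w2 := T.w_pos 2
  have f01 := mul_le_mul_of_nonneg_right (w_le_of_ne_zero T (by decide : (0 : Fin 3) ≠ 1) h01) m1.le
  have f02 := mul_le_mul_of_nonneg_right (w_le_of_ne_zero T (by decide : (0 : Fin 3) ≠ 2) h02) m2.le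
  have f10 := mul_le_mul_of_nonneg_right (w_le_of_ne_zero T (by decide : (1 : Fin 3) ≠ 0) h10) m0.le
  have f12 := mul_le_mul_of_nonneg_right (w_le_of_ne_zero T (by decide : (1 : Fin 3) ≠ 2) h12) m2.le
  have f20 := mul_le_mul_of_nonneg_right (w_le_of_ne_zero T (by decide : (2 : Fin 3) ≠ 0) h20) m0.le
  have f21 := mul_le_mul_of_nonneg_right (w_le_of_ne_zero T (by decide : (2 : Fin 3) ≠ 1) h21) m1.le
  rw [t0.2] at r0
  rw [t1.2] at r1
  rw [t2.2] at r2
  have q0 : T.w 0 * (T.m 1 + T.m 2) ≤ T.w 0 * (2 * T.m 0) := by linarith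
  have q1 : T.w 1 * (T.m 0 + T.m 2) ≤ T.w 1 * (2 * T.m 1) := by linarith
  have q2 : T.w 2 * (T.m 0 + T.m 1) ≤ T.w 2 * (2 * T.m 2) := by linarith
  have q0' := le_of_mul_le_mul_left q0 w0
  have q1' := le_of_mul_le_mul_left q1 w1
  have q2' := le_of_mul_le_mul_left q2 w2
  have em1 : T.m 1 = T.m 0 := by linarith
  have em2 : T.m 2 = T.m 0 := by linarith
  rw [em1, em2] at r0 r1 r2
  rw [em1] at f01 f21
  rw [em2] at f02 f12
  have g01 : T.a 0 1 * T.m 0 = T.w 0 * T.m 0 := by linarith
  have g02 : T.a 0 2 * T.m 0 = T.w 0 * T.m 0 := by linarith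
  have g10 : T.a 1 0 * T.m 0 = T.w 1 * T.m 0 := by linarith
  have g12 : T.a 1 2 * T.m 0 = T.w 1 * T.m 0 := by linarith
  have g20 : T.a 2 0 * T.m 0 = T.w 2 * T.m 0 := by linarith
  have ea01 := mul_right_cancel₀ m0.ne' g01
  have ea02 := mul_right_cancel₀ m0.ne' g02
  have ea10 := mul_right_cancel₀ m0.ne' g10
  have ea12 := mul_right_cancel₀ m0.ne' g12
  have ea20 := mul_right_cancel₀ m0.ne' g20
  have ew1 : T.w 1 = T.w 0 := by rw [← ea10, s10, ea01]
  have ew2 : T.w 2 = T.w 0 := by rw [← ea20, s20, ea02]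
  refine ⟨0, 1, 2, T.m 0, T.w 0, by decide, by decide, by decide, t0.1, t1.1, t2.1,
    Or.inl ⟨rfl, em1, em2, t0.2, ?_, ?_, ea01, ea02, ?_, rfl, ew1, ew2⟩⟩
  · rw [t1.2, ew1]
  · rw [t2.2, ew2]
  · rw [ea12, ew1]

end Groth.Agent.S7363
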