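import Groth.Statements.S7364
import Groth.Agent.Lib.Helper11.NumTypeChain
import Groth.Agent.Lib.Helper11.NumTypeGenus

set_option autoImplicit false
open Finset
open Models Models.NumericalType
open Groth.Agent.Lib.Helper11.NumType

namespace Groth.Agent.S7364

/-- a permutation of `Fin 4` from an injective list of values -/
noncomputable def perm4 (y0 y1 y2 y3 : Fin 4) (h : Function.Injective ![y0, y1, y2, y3]) : Equiv.Perm (Fin 4) :=
  Equiv.ofBijective _ (Finite.injective_iff_bijective.mp h)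

theorem iso_contra (T : Models.NumericalType 4) (v a b c : Fin 4)
    (hcov : ∀ j : Fin 4, j = v ∨ j = a ∨ j = b ∨ j = c)
    (ha : T.a v a = 0) (hb : T.a v b = 0) (hc : T.a v c = 0) : False := by
  obtain ⟨j, hj, hj'⟩ := exists_neighbor T (by norm_num) v
  rcases hcov j with rfl | rfl | rfl | rfl
  · exact hj rfl
  · exact hj' ha
  · exact hj' hb
  · exact hj' hc

theorem split_contra (T : Models.NumericalType 4) (u v a b : Fin 4)
    (hcov : ∀ j : Fin 4, j = u ∨ j = v ∨ j = a ∨ j = b) (hau : a ≠ u) (hav : a ≠ v)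
    (h1 : T.a u a = 0) (h2 : T.a u b = 0) (h3 : T.a v a = 0) (h4 : T.a v b = 0) : False := by
  have hne : ({u, v} : Finset (Fin 4)) ≠ Finset.univ := by
    intro h
    have : a ∈ ({u, v} : Finset (Fin 4)) := by rw [h]; exact Finset.mem_univ _
    simp only [Finset.mem_insert, Finset.mem_singleton] at this
    rcases this with h' | h'
    · exact hau h'
    · exact hav h'
  obtain ⟨i, hi, j, hj, hij⟩ := T.connected {u, v} ⟨u, by simp⟩ hne
  simp only [Finset.mem_insert, Finset.mem_singleton, not_or] at hi hj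
  rcases hi with rfl | rfl
  · rcases hcov j with rfl | rfl | rfl | rfl
    · exact hj.1 rfl
    · exact hj.2 rfl
    · exact hij h1
    · exact hij h2
  · rcases hcov j with rfl | rfl | rfl | rfl
    · exact hj.1 rfl
    · exact hj.2 rfl
    · exact hij h3
    · exact hij h4
abbrev Pat (T : Models.NumericalType 4) (y0 y1 y2 y3 : Fin 4) (m w : ℤ) : Prop :=
  ((T.m y0 = m ∧ T.m y1 = m ∧ T.m y2 = m ∧ T.m y3 = m ∧ T.w y0 = w ∧ T.w y1 = w ∧ T.w y2 = w ∧ T.w y3 = w ∧ T.a y0 y0 = -2 * w ∧ T.a y0 y1 = w ∧ T.a y0 y2 = 0 ∧ T.a y0 y3 = w ∧ T.a y1 y1 = -2 * w ∧ T.a y1 y2 = w ∧ T.a y1 y3 = 0 ∧ T.a y2 y2 = -2 * w ∧ T.a y2 y3 = w ∧ T.a y3 y3 = -2 * w) ∨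
      (T.m y0 = 2 * m ∧ T.m y1 = 2 * m ∧ T.m y2 = 2 * m ∧ T.m y3 = m ∧ T.w y0 = w ∧ T.w y1 = 2 * w ∧ T.w y2 = 2 * w ∧ T.w y3 = 4 * w ∧ T.a y0 y0 = -2 * w ∧ T.a y0 y1 = 2 * w ∧ T.a y0 y2 = 0 ∧ T.a y0 y3 = 0 ∧ T.a y1 y1 = -4 * w ∧ T.a y1 y2 = 2 * w ∧ T.a y1 y3 = 0 ∧ T.a y2 y2 = -4 * w ∧ T.a y2 y3 = 4 * w ∧ T.a y3 y3 = -8 * w) ∨
      (T.m y0 = m ∧ T.m y1 = m ∧ T.m y2 = m ∧ T.m y3 = m ∧ T.w y0 = w ∧ T.w y1 = 2 * w ∧ T.w y2 = 2 * w ∧ T.w y3 = w ∧ T.a y0 y0 = -2 * w ∧ T.a y0 y1 = 2 * w ∧ T.a y0 y2 = 0 ∧ T.a y0 y3 = 0 ∧ T.a y1 y1 = -4 * w ∧ T.a y1 y2 = 2 * w ∧ T.a y1 y3 = 0 ∧ T.a y2 y2 = -4 * w ∧ T.a y2 y3 = 2 * w ∧ T.a y3 y3 = -2 * w) ∨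
      (T.m y0 = m ∧ T.m y1 = 2 * m ∧ T.m y2 = 2 * m ∧ T.m y3 = m ∧ T.w y0 = 2 * w ∧ T.w y1 = w ∧ T.w y2 = w ∧ T.w y3 = 2 * w ∧ T.a y0 y0 = -4 * w ∧ T.a y0 y1 = 2 * w ∧ T.a y0 y2 = 0 ∧ T.a y0 y3 = 0 ∧ T.a y1 y1 = -2 * w ∧ T.a y1 y2 = w ∧ T.a y1 y3 = 0 ∧ T.a y2 y2 = -2 * w ∧ T.a y2 y3 = 2 * w ∧ T.a y3 y3 = -4 * w) ∨
      (T.m y0 = 2 * m ∧ T.m y1 = m ∧ T.m y2 = m ∧ T.m y3 = m ∧ T.w y0 = w ∧ T.w y1 = w ∧ T.w y2 = w ∧ T.w y3 = 2 * w ∧ T.a y0 y0 = -2 * w ∧ T.a y0 y1 = w ∧ T.a y0 y2 = w ∧ T.a y0 y3 = 2 * w ∧ T.a y1 y1 = -2 * w ∧ T.a y1 y2 = 0 ∧ T.a y1 y3 = 0 ∧ T.a y2 y2 = -2 * w ∧ T.a y2 y3 = 0 ∧ T.a y3 y3 = -4 * w) ∨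
      (T.m y0 = 2 * m ∧ T.m y1 = m ∧ T.m y2 = m ∧ T.m y3 = 2 * m ∧ T.w y0 = 2 * w ∧ T.w y1 = 2 * w ∧ T.w y2 = 2 * w ∧ T.w y3 = w ∧ T.a y0 y0 = -4 * w ∧ T.a y0 y1 = 2 * w ∧ T.a y0 y2 = 2 * w ∧ T.a y0 y3 = 2 * w ∧ T.a y1 y1 = -4 * w ∧ T.a y1 y2 = 0 ∧ T.a y1 y3 = 0 ∧ T.a y2 y2 = -4 * w ∧ T.a y2 y3 = 0 ∧ T.a y3 y3 = -2 * w))

theorem shape_c4 (T : Models.NumericalType 4) {x0 x1 x2 x3 : Fin 4} (d01 : x0 ≠ x1) (d02 : x0 ≠ x2) (d03 : x0 ≠ x3) (d12 : x1 ≠ x2) (d13 : x1 ≠ x3) (d23 : x2 ≠ x3)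
    (t0 : T.IsMinusTwo x0) (t1 : T.IsMinusTwo x1) (t2 : T.IsMinusTwo x2) (t3 : T.IsMinusTwo x3)
    (e01 : T.a x0 x1 ≠ 0) (e12 : T.a x1 x2 ≠ 0) (e23 : T.a x2 x3 ≠ 0) (e30 : T.a x3 x0 ≠ 0) (z02 : T.a x0 x2 = 0) (z13 : T.a x1 x3 = 0)
    (r0 : T.a x0 x0 * T.m x0 + T.a x0 x1 * T.m x1 + T.a x0 x2 * T.m x2 + T.a x0 x3 * T.m x3 = 0)
    (r1 : T.a x1 x0 * T.m x0 + T.a x1 x1 * T.m x1 + T.a x1 x2 * T.m x2 + T.a x1 x3 * T.m x3 = 0)
    (r2 : T.a x2 x0 * T.m x0 + T.a x2 x1 * T.m x1 + T.a x2 x2 * T.m x2 + T.a x2 x3 * T.m x3 = 0)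
    (r3 : T.a x3 x0 * T.m x0 + T.a x3 x1 * T.m x1 + T.a x3 x2 * T.m x2 + T.a x3 x3 * T.m x3 = 0) :
    ∃ (y0 y1 y2 y3 : Fin 4) (m w : ℤ), Function.Injective ![y0, y1, y2, y3] ∧ Pat T y0 y1 y2 y3 m w := by
  have d10 := d01.symm
  have d20 := d02.symm
  have d30 := d03.symm
  have d21 := d12.symm
  have d31 := d13.symm
  have d32 := d23.symm
  have p0 := T.w_pos x0
  have q0 := T.m_pos x0
  have dd0 := t0.2
  have p1 := T.w_pos x1
  have q1 := T.m_pos x1
  have dd1 := t1.2
  have p2 := T.w_pos x2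
  have q2 := T.m_pos x2
  have dd2 := t2.2
  have p3 := T.w_pos x3
  have q3 := T.m_pos x3
  have dd3 := t3.2
  have z20 : T.a x2 x0 = 0 := by rw [a_symm T]; exact z02
  have z31 : T.a x3 x1 = 0 := by rw [a_symm T]; exact z13
  rcases chain3_types T (by norm_num) d01 d12 d02 t0 t1 t2 e01 e12 with ⟨_, ⟨⟨ua, ub⟩, ⟨uc, ud⟩⟩ | ⟨⟨ua, ub⟩, ⟨uc, ud⟩⟩ | ⟨⟨ua, ub⟩, ⟨uc, ud⟩⟩ | ⟨⟨ua, ub⟩, ⟨uc, ud⟩⟩ | ⟨⟨ua, ub⟩, ⟨uc, ud⟩⟩⟩ <;>
    rcases chain3_types T (by norm_num) d23 d30 d20 t2 t3 t0 e23 e30 with ⟨_, ⟨⟨va, vb⟩, ⟨vc, vd⟩⟩ | ⟨⟨va, vb⟩, ⟨vc, vd⟩⟩ | ⟨⟨va, vb⟩, ⟨vc, vd⟩⟩ | ⟨⟨va, vb⟩, ⟨vc, vd⟩⟩ | ⟨⟨va, vb⟩, ⟨vc, vd⟩⟩⟩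
  · -- ('S', 'S') ('S', 'S')
    have ew0 : T.w x0 = 1 * T.w x0 := by omega
    have ew1 : T.w x1 = 1 * T.w x0 := by omega
    have ew2 : T.w x2 = 1 * T.w x0 := by omega
    have ew3 : T.w x3 = 1 * T.w x0 := by omega
    have ea01 : T.a x0 x1 = 1 * T.w x0 := by omega
    have ea10 : T.a x1 x0 = 1 * T.w x0 := by rw [a_symm T]; omega
    have ea12 : T.a x1 x2 = 1 * T.w x0 := by omega
    have ea21 : T.a x2 x1 = 1 * T.w x0 := by rw [a_symm T]; omega
    have ea23 : T.a x2 x3 = 1 * T.w x0 := by omega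
    have ea32 : T.a x3 x2 = 1 * T.w x0 := by rw [a_symm T]; omega
    have ea30 : T.a x3 x0 = 1 * T.w x0 := by omega
    have ea03 : T.a x0 x3 = 1 * T.w x0 := by rw [a_symm T]; omega
    have ed0 : T.a x0 x0 = -2 * T.w x0 := by omega
    have ed1 : T.a x1 x1 = -2 * T.w x0 := by omega
    have ed2 : T.a x2 x2 = -2 * T.w x0 := by omega
    have ed3 : T.a x3 x3 = -2 * T.w x0 := by omega
    have R0 : T.w x0 * (-2 * T.m x0 + 1 * T.m x1 + 1 * T.m x3) = 0 := by linear_combination r0 - (T.m x0) * ed0 - (T.m x1) * ea01 - (T.m x2) * z02 - (T.m x3) * ea03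
    have S0 := (mul_eq_zero.1 R0).resolve_left (T.w_pos x0).ne'
    have R1 : T.w x0 * (1 * T.m x0 + -2 * T.m x1 + 1 * T.m x2) = 0 := by linear_combination r1 - (T.m x0) * ea10 - (T.m x1) * ed1 - (T.m x2) * ea12 - (T.m x3) * z13
    have S1 := (mul_eq_zero.1 R1).resolve_left (T.w_pos x0).ne'
    have R2 : T.w x0 * (1 * T.m x1 + -2 * T.m x2 + 1 * T.m x3) = 0 := by linear_combination r2 - (T.m x0) * z20 - (T.m x1) * ea21 - (T.m x2) * ed2 - (T.m x3) * ea23
    have S2 := (mul_eq_zero.1 R2).resolve_left (T.w_pos x0).ne'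
    have R3 : T.w x0 * (1 * T.m x0 + 1 * T.m x2 + -2 * T.m x3) = 0 := by linear_combination r3 - (T.m x0) * ea30 - (T.m x1) * z31 - (T.m x2) * ea32 - (T.m x3) * ed3
    have S3 := (mul_eq_zero.1 R3).resolve_left (T.w_pos x0).ne'
    exact ⟨x0, x1, x2, x3, T.m x0, T.w x0, inj4 d01 d02 d03 d12 d13 d23, Or.inl ⟨(by first | omega | linarith : T.m x0 = T.m x0), (by first | omega | linarith : T.m x1 = T.m x0), (by first | omega | linarith : T.m x2 = T.m x0), (by first | omega | linarith : T.m x3 = T.m x0), (by first | omega | linarith : T.w x0 = T.w x0), (by first | omega | linarith : T.w x1 = T.w x0), (by first | omega | linarith : T.w x2 = T.w x0), (by first | omega | linarith : T.w x3 = T.w x0), (by first | omega | linarith : T.a x0 x0 = -2 * T.w x0), (by first | omega | linarith : T.a x0 x1 = T.w x0), (by first | omega | linarith : T.a x0 x2 = 0), (by first | omega | linarith : T.a x0 x3 = T.w x0), (by first | omega | linarith : T.a x1 x1 = -2 *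 T.w x0), (by first | omega | linarith : T.a x1 x2 = T.w x0), (by first | omega | linarith : T.a x1 x3 = 0), (by first | omega | linarith : T.a x2 x2 = -2 * T.w x0), (by first | omega | linarith : T.a x2 x3 = T.w x0), (by first | omega | linarith : T.a x3 x3 = -2 * T.w x0)⟩⟩
    -- type 1 perm (0, 1, 2, 3)
  · -- ('S', 'S') ('S', 'L')
    exfalso; omega
  · -- ('S', 'S') ('S', 'R')
    exfalso; omega
  · -- ('S', 'S') ('L', 'S')
    exfalso; omega
  · -- ('S', 'S') ('R', 'S')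
    exfalso; omega
  · -- ('S', 'L') ('S', 'S')
    exfalso; omega
  · -- ('S', 'L') ('S', 'L')
    exfalso; omega
  · -- ('S', 'L') ('S', 'R')
    have ew0 : T.w x0 = 2 * T.w x2 := by omega
    have ew1 : T.w x1 = 2 * T.w x2 := by omega
    have ew2 : T.w x2 = 1 * T.w x2 := by omega
    have ew3 : T.w x3 = 1 * T.w x2 := by omega
    have ea01 : T.a x0 x1 = 2 * T.w x2 := by omega
    have ea10 : T.a x1 x0 = 2 * T.w x2 := by rw [a_symm T]; omega
    have ea12 : T.a x1 x2 = 2 * T.w x2 := by omega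
    have ea21 : T.a x2 x1 = 2 * T.w x2 := by rw [a_symm T]; omega
    have ea23 : T.a x2 x3 = 1 * T.w x2 := by omega
    have ea32 : T.a x3 x2 = 1 * T.w x2 := by rw [a_symm T]; omega
    have ea30 : T.a x3 x0 = 2 * T.w x2 := by omega
    have ea03 : T.a x0 x3 = 2 * T.w x2 := by rw [a_symm T]; omega
    have ed0 : T.a x0 x0 = -4 * T.w x2 := by omega
    have ed1 : T.a x1 x1 = -4 * T.w x2 := by omega
    have ed2 : T.a x2 x2 = -2 * T.w x2 := by omega
    have ed3 : T.a x3 x3 = -2 * T.w x2 := by omega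
    have R0 : T.w x2 * (-4 * T.m x0 + 2 * T.m x1 + 2 * T.m x3) = 0 := by linear_combination r0 - (T.m x0) * ed0 - (T.m x1) * ea01 - (T.m x2) * z02 - (T.m x3) * ea03
    have S0 := (mul_eq_zero.1 R0).resolve_left (T.w_pos x2).ne'
    have R1 : T.w x2 * (2 * T.m x0 + -4 * T.m x1 + 2 * T.m x2) = 0 := by linear_combination r1 - (T.m x0) * ea10 - (T.m x1) * ed1 - (T.m x2) * ea12 - (T.m x3) * z13
    have S1 := (mul_eq_zero.1 R1).resolve_left (T.w_pos x2).ne'
    have R2 : T.w x2 * (2 * T.m x1 + -2 * T.m x2 + 1 * T.m x3) = 0 := by linear_combination r2 - (T.m x0) * z20 - (T.m x1) * ea21 - (T.m x2) * ed2 - (T.m x3) * ea23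
    have S2 := (mul_eq_zero.1 R2).resolve_left (T.w_pos x2).ne'
    have R3 : T.w x2 * (2 * T.m x0 + 1 * T.m x2 + -2 * T.m x3) = 0 := by linear_combination r3 - (T.m x0) * ea30 - (T.m x1) * z31 - (T.m x2) * ea32 - (T.m x3) * ed3
    have S3 := (mul_eq_zero.1 R3).resolve_left (T.w_pos x2).ne'
    exfalso; linarith
  · -- ('S', 'L') ('L', 'S')
    exfalso; omega
  · -- ('S', 'L') ('R', 'S')
    have ew0 : T.w x0 = 2 * T.w x2 := by omega
    have ew1 : T.w x1 = 2 * T.w x2 := by omega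
    have ew2 : T.w x2 = 1 * T.w x2 := by omega
    have ew3 : T.w x3 = 2 * T.w x2 := by omega
    have ea01 : T.a x0 x1 = 2 * T.w x2 := by omega
    have ea10 : T.a x1 x0 = 2 * T.w x2 := by rw [a_symm T]; omega
    have ea12 : T.a x1 x2 = 2 * T.w x2 := by omega
    have ea21 : T.a x2 x1 = 2 * T.w x2 := by rw [a_symm T]; omega
    have ea23 : T.a x2 x3 = 2 * T.w x2 := by omega
    have ea32 : T.a x3 x2 = 2 * T.w x2 := by rw [a_symm T]; omega
    have ea30 : T.a x3 x0 = 2 * T.w x2 := by omega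
    have ea03 : T.a x0 x3 = 2 * T.w x2 := by rw [a_symm T]; omega
    have ed0 : T.a x0 x0 = -4 * T.w x2 := by omega
    have ed1 : T.a x1 x1 = -4 * T.w x2 := by omega
    have ed2 : T.a x2 x2 = -2 * T.w x2 := by omega
    have ed3 : T.a x3 x3 = -4 * T.w x2 := by omega
    have R0 : T.w x2 * (-4 * T.m x0 + 2 * T.m x1 + 2 * T.m x3) = 0 := by linear_combination r0 - (T.m x0) * ed0 - (T.m x1) * ea01 - (T.m x2) * z02 - (T.m x3) * ea03
    have S0 := (mul_eq_zero.1 R0).resolve_left (T.w_pos x2).ne'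
    have R1 : T.w x2 * (2 * T.m x0 + -4 * T.m x1 + 2 * T.m x2) = 0 := by linear_combination r1 - (T.m x0) * ea10 - (T.m x1) * ed1 - (T.m x2) * ea12 - (T.m x3) * z13
    have S1 := (mul_eq_zero.1 R1).resolve_left (T.w_pos x2).ne'
    have R2 : T.w x2 * (2 * T.m x1 + -2 * T.m x2 + 2 * T.m x3) = 0 := by linear_combination r2 - (T.m x0) * z20 - (T.m x1) * ea21 - (T.m x2) * ed2 - (T.m x3) * ea23
    have S2 := (mul_eq_zero.1 R2).resolve_left (T.w_pos x2).ne'
    have R3 : T.w x2 * (2 * T.m x0 + 2 * T.m x2 + -4 * T.m x3) = 0 := by linear_combination r3 - (T.m x0) * ea30 - (T.m x1) * z31 - (T.m x2) * ea32 - (T.m x3) * ed3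
    have S3 := (mul_eq_zero.1 R3).resolve_left (T.w_pos x2).ne'
    exfalso; linarith
  · -- ('S', 'R') ('S', 'S')
    exfalso; omega
  · -- ('S', 'R') ('S', 'L')
    have ew0 : T.w x0 = 1 * T.w x0 := by omega
    have ew1 : T.w x1 = 1 * T.w x0 := by omega
    have ew2 : T.w x2 = 2 * T.w x0 := by omega
    have ew3 : T.w x3 = 2 * T.w x0 := by omega
    have ea01 : T.a x0 x1 = 1 * T.w x0 := by omega
    have ea10 : T.a x1 x0 = 1 * T.w x0 := by rw [a_symm T]; omega
    have ea12 : T.a x1 x2 = 2 * T.w x0 := by omega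
    have ea21 : T.a x2 x1 = 2 * T.w x0 := by rw [a_symm T]; omega
    have ea23 : T.a x2 x3 = 2 * T.w x0 := by omega
    have ea32 : T.a x3 x2 = 2 * T.w x0 := by rw [a_symm T]; omega
    have ea30 : T.a x3 x0 = 2 * T.w x0 := by omega
    have ea03 : T.a x0 x3 = 2 * T.w x0 := by rw [a_symm T]; omega
    have ed0 : T.a x0 x0 = -2 * T.w x0 := by omega
    have ed1 : T.a x1 x1 = -2 * T.w x0 := by omega
    have ed2 : T.a x2 x2 = -4 * T.w x0 := by omega
    have ed3 : T.a x3 x3 = -4 * T.w x0 := by omega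
    have R0 : T.w x0 * (-2 * T.m x0 + 1 * T.m x1 + 2 * T.m x3) = 0 := by linear_combination r0 - (T.m x0) * ed0 - (T.m x1) * ea01 - (T.m x2) * z02 - (T.m x3) * ea03
    have S0 := (mul_eq_zero.1 R0).resolve_left (T.w_pos x0).ne'
    have R1 : T.w x0 * (1 * T.m x0 + -2 * T.m x1 + 2 * T.m x2) = 0 := by linear_combination r1 - (T.m x0) * ea10 - (T.m x1) * ed1 - (T.m x2) * ea12 - (T.m x3) * z13
    have S1 := (mul_eq_zero.1 R1).resolve_left (T.w_pos x0).ne'
    have R2 : T.w x0 * (2 * T.m x1 + -4 * T.m x2 + 2 * T.m x3) = 0 := by linear_combination r2 - (T.m x0) * z20 - (T.m x1) * ea21 - (T.m x2) * ed2 - (T.m x3) * ea23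
    have S2 := (mul_eq_zero.1 R2).resolve_left (T.w_pos x0).ne'
    have R3 : T.w x0 * (2 * T.m x0 + 2 * T.m x2 + -4 * T.m x3) = 0 := by linear_combination r3 - (T.m x0) * ea30 - (T.m x1) * z31 - (T.m x2) * ea32 - (T.m x3) * ed3
    have S3 := (mul_eq_zero.1 R3).resolve_left (T.w_pos x0).ne'
    exfalso; linarith
  · -- ('S', 'R') ('S', 'R')
    exfalso; omega
  · -- ('S', 'R') ('L', 'S')
    have ew0 : T.w x0 = 1 * T.w x0 := by omega
    have ew1 : T.w x1 = 1 * T.w x0 := by omega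
    have ew2 : T.w x2 = 2 * T.w x0 := by omega
    have ew3 : T.w x3 = 1 * T.w x0 := by omega
    have ea01 : T.a x0 x1 = 1 * T.w x0 := by omega
    have ea10 : T.a x1 x0 = 1 * T.w x0 := by rw [a_symm T]; omega
    have ea12 : T.a x1 x2 = 2 * T.w x0 := by omega
    have ea21 : T.a x2 x1 = 2 * T.w x0 := by rw [a_symm T]; omega
    have ea23 : T.a x2 x3 = 2 * T.w x0 := by omega
    have ea32 : T.a x3 x2 = 2 * T.w x0 := by rw [a_symm T]; omega
    have ea30 : T.a x3 x0 = 1 * T.w x0 := by omega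
    have ea03 : T.a x0 x3 = 1 * T.w x0 := by rw [a_symm T]; omega
    have ed0 : T.a x0 x0 = -2 * T.w x0 := by omega
    have ed1 : T.a x1 x1 = -2 * T.w x0 := by omega
    have ed2 : T.a x2 x2 = -4 * T.w x0 := by omega
    have ed3 : T.a x3 x3 = -2 * T.w x0 := by omega
    have R0 : T.w x0 * (-2 * T.m x0 + 1 * T.m x1 + 1 * T.m x3) = 0 := by linear_combination r0 - (T.m x0) * ed0 - (T.m x1) * ea01 - (T.m x2) * z02 - (T.m x3) * ea03
    have S0 := (mul_eq_zero.1 R0).resolve_left (T.w_pos x0).ne'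
    have R1 : T.w x0 * (1 * T.m x0 + -2 * T.m x1 + 2 * T.m x2) = 0 := by linear_combination r1 - (T.m x0) * ea10 - (T.m x1) * ed1 - (T.m x2) * ea12 - (T.m x3) * z13
    have S1 := (mul_eq_zero.1 R1).resolve_left (T.w_pos x0).ne'
    have R2 : T.w x0 * (2 * T.m x1 + -4 * T.m x2 + 2 * T.m x3) = 0 := by linear_combination r2 - (T.m x0) * z20 - (T.m x1) * ea21 - (T.m x2) * ed2 - (T.m x3) * ea23
    have S2 := (mul_eq_zero.1 R2).resolve_left (T.w_pos x0).ne'
    have R3 : T.w x0 * (1 * T.m x0 + 2 * T.m x2 + -2 * T.m x3) = 0 := by linear_combination r3 - (T.m x0) * ea30 - (T.m x1) * z31 - (T.m x2) * ea32 - (T.m x3) * ed3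
    have S3 := (mul_eq_zero.1 R3).resolve_left (T.w_pos x0).ne'
    exfalso; linarith
  · -- ('S', 'R') ('R', 'S')
    exfalso; omega
  · -- ('L', 'S') ('S', 'S')
    exfalso; omega
  · -- ('L', 'S') ('S', 'L')
    exfalso; omega
  · -- ('L', 'S') ('S', 'R')
    have ew0 : T.w x0 = 2 * T.w x1 := by omega
    have ew1 : T.w x1 = 1 * T.w x1 := by omega
    have ew2 : T.w x2 = 1 * T.w x1 := by omega
    have ew3 : T.w x3 = 1 * T.w x1 := by omega
    have ea01 : T.a x0 x1 = 2 * T.w x1 := by omega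
    have ea10 : T.a x1 x0 = 2 * T.w x1 := by rw [a_symm T]; omega
    have ea12 : T.a x1 x2 = 1 * T.w x1 := by omega
    have ea21 : T.a x2 x1 = 1 * T.w x1 := by rw [a_symm T]; omega
    have ea23 : T.a x2 x3 = 1 * T.w x1 := by omega
    have ea32 : T.a x3 x2 = 1 * T.w x1 := by rw [a_symm T]; omega
    have ea30 : T.a x3 x0 = 2 * T.w x1 := by omega
    have ea03 : T.a x0 x3 = 2 * T.w x1 := by rw [a_symm T]; omega
    have ed0 : T.a x0 x0 = -4 * T.w x1 := by omega
    have ed1 : T.a x1 x1 = -2 * T.w x1 := by omega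
    have ed2 : T.a x2 x2 = -2 * T.w x1 := by omega
    have ed3 : T.a x3 x3 = -2 * T.w x1 := by omega
    have R0 : T.w x1 * (-4 * T.m x0 + 2 * T.m x1 + 2 * T.m x3) = 0 := by linear_combination r0 - (T.m x0) * ed0 - (T.m x1) * ea01 - (T.m x2) * z02 - (T.m x3) * ea03
    have S0 := (mul_eq_zero.1 R0).resolve_left (T.w_pos x1).ne'
    have R1 : T.w x1 * (2 * T.m x0 + -2 * T.m x1 + 1 * T.m x2) = 0 := by linear_combination r1 - (T.m x0) * ea10 - (T.m x1) * ed1 - (T.m x2) * ea12 - (T.m x3) * z13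
    have S1 := (mul_eq_zero.1 R1).resolve_left (T.w_pos x1).ne'
    have R2 : T.w x1 * (1 * T.m x1 + -2 * T.m x2 + 1 * T.m x3) = 0 := by linear_combination r2 - (T.m x0) * z20 - (T.m x1) * ea21 - (T.m x2) * ed2 - (T.m x3) * ea23
    have S2 := (mul_eq_zero.1 R2).resolve_left (T.w_pos x1).ne'
    have R3 : T.w x1 * (2 * T.m x0 + 1 * T.m x2 + -2 * T.m x3) = 0 := by linear_combination r3 - (T.m x0) * ea30 - (T.m x1) * z31 - (T.m x2) * ea32 - (T.m x3) * ed3
    have S3 := (mul_eq_zero.1 R3).resolve_left (T.w_pos x1).ne'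
    exfalso; linarith
  · -- ('L', 'S') ('L', 'S')
    exfalso; omega
  · -- ('L', 'S') ('R', 'S')
    have ew0 : T.w x0 = 2 * T.w x1 := by omega
    have ew1 : T.w x1 = 1 * T.w x1 := by omega
    have ew2 : T.w x2 = 1 * T.w x1 := by omega
    have ew3 : T.w x3 = 2 * T.w x1 := by omega
    have ea01 : T.a x0 x1 = 2 * T.w x1 := by omega
    have ea10 : T.a x1 x0 = 2 * T.w x1 := by rw [a_symm T]; omega
    have ea12 : T.a x1 x2 = 1 * T.w x1 := by omega
    have ea21 : T.a x2 x1 = 1 * T.w x1 := by rw [a_symm T]; omega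
    have ea23 : T.a x2 x3 = 2 * T.w x1 := by omega
    have ea32 : T.a x3 x2 = 2 * T.w x1 := by rw [a_symm T]; omega
    have ea30 : T.a x3 x0 = 2 * T.w x1 := by omega
    have ea03 : T.a x0 x3 = 2 * T.w x1 := by rw [a_symm T]; omega
    have ed0 : T.a x0 x0 = -4 * T.w x1 := by omega
    have ed1 : T.a x1 x1 = -2 * T.w x1 := by omega
    have ed2 : T.a x2 x2 = -2 * T.w x1 := by omega
    have ed3 : T.a x3 x3 = -4 * T.w x1 := by omega
    have R0 : T.w x1 * (-4 * T.m x0 + 2 * T.m x1 + 2 * T.m x3) = 0 := by linear_combination r0 - (T.m x0) * ed0 - (T.m x1) * ea01 - (T.m x2) * z02 - (T.m x3) * ea03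
    have S0 := (mul_eq_zero.1 R0).resolve_left (T.w_pos x1).ne'
    have R1 : T.w x1 * (2 * T.m x0 + -2 * T.m x1 + 1 * T.m x2) = 0 := by linear_combination r1 - (T.m x0) * ea10 - (T.m x1) * ed1 - (T.m x2) * ea12 - (T.m x3) * z13
    have S1 := (mul_eq_zero.1 R1).resolve_left (T.w_pos x1).ne'
    have R2 : T.w x1 * (1 * T.m x1 + -2 * T.m x2 + 2 * T.m x3) = 0 := by linear_combination r2 - (T.m x0) * z20 - (T.m x1) * ea21 - (T.m x2) * ed2 - (T.m x3) * ea23
    have S2 := (mul_eq_zero.1 R2).resolve_left (T.w_pos x1).ne'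
    have R3 : T.w x1 * (2 * T.m x0 + 2 * T.m x2 + -4 * T.m x3) = 0 := by linear_combination r3 - (T.m x0) * ea30 - (T.m x1) * z31 - (T.m x2) * ea32 - (T.m x3) * ed3
    have S3 := (mul_eq_zero.1 R3).resolve_left (T.w_pos x1).ne'
    exfalso; linarith
  · -- ('R', 'S') ('S', 'S')
    exfalso; omega
  · -- ('R', 'S') ('S', 'L')
    have ew0 : T.w x0 = 1 * T.w x0 := by omega
    have ew1 : T.w x1 = 2 * T.w x0 := by omega
    have ew2 : T.w x2 = 2 * T.w x0 := by omega
    have ew3 : T.w x3 = 2 * T.w x0 := by omega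
    have ea01 : T.a x0 x1 = 2 * T.w x0 := by omega
    have ea10 : T.a x1 x0 = 2 * T.w x0 := by rw [a_symm T]; omega
    have ea12 : T.a x1 x2 = 2 * T.w x0 := by omega
    have ea21 : T.a x2 x1 = 2 * T.w x0 := by rw [a_symm T]; omega
    have ea23 : T.a x2 x3 = 2 * T.w x0 := by omega
    have ea32 : T.a x3 x2 = 2 * T.w x0 := by rw [a_symm T]; omega
    have ea30 : T.a x3 x0 = 2 * T.w x0 := by omega
    have ea03 : T.a x0 x3 = 2 * T.w x0 := by rw [a_symm T]; omega
    have ed0 : T.a x0 x0 = -2 * T.w x0 := by omega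
    have ed1 : T.a x1 x1 = -4 * T.w x0 := by omega
    have ed2 : T.a x2 x2 = -4 * T.w x0 := by omega
    have ed3 : T.a x3 x3 = -4 * T.w x0 := by omega
    have R0 : T.w x0 * (-2 * T.m x0 + 2 * T.m x1 + 2 * T.m x3) = 0 := by linear_combination r0 - (T.m x0) * ed0 - (T.m x1) * ea01 - (T.m x2) * z02 - (T.m x3) * ea03
    have S0 := (mul_eq_zero.1 R0).resolve_left (T.w_pos x0).ne'
    have R1 : T.w x0 * (2 * T.m x0 + -4 * T.m x1 + 2 * T.m x2) = 0 := by linear_combination r1 - (T.m x0) * ea10 - (T.m x1) * ed1 - (T.m x2) * ea12 - (T.m x3) * z13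
    have S1 := (mul_eq_zero.1 R1).resolve_left (T.w_pos x0).ne'
    have R2 : T.w x0 * (2 * T.m x1 + -4 * T.m x2 + 2 * T.m x3) = 0 := by linear_combination r2 - (T.m x0) * z20 - (T.m x1) * ea21 - (T.m x2) * ed2 - (T.m x3) * ea23
    have S2 := (mul_eq_zero.1 R2).resolve_left (T.w_pos x0).ne'
    have R3 : T.w x0 * (2 * T.m x0 + 2 * T.m x2 + -4 * T.m x3) = 0 := by linear_combination r3 - (T.m x0) * ea30 - (T.m x1) * z31 - (T.m x2) * ea32 - (T.m x3) * ed3
    have S3 := (mul_eq_zero.1 R3).resolve_left (T.w_pos x0).ne'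
    exfalso; linarith
  · -- ('R', 'S') ('S', 'R')
    exfalso; omega
  · -- ('R', 'S') ('L', 'S')
    have ew0 : T.w x0 = 1 * T.w x0 := by omega
    have ew1 : T.w x1 = 2 * T.w x0 := by omega
    have ew2 : T.w x2 = 2 * T.w x0 := by omega
    have ew3 : T.w x3 = 1 * T.w x0 := by omega
    have ea01 : T.a x0 x1 = 2 * T.w x0 := by omega
    have ea10 : T.a x1 x0 = 2 * T.w x0 := by rw [a_symm T]; omega
    have ea12 : T.a x1 x2 = 2 * T.w x0 := by omega
    have ea21 : T.a x2 x1 = 2 * T.w x0 := by rw [a_symm T]; omega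
    have ea23 : T.a x2 x3 = 2 * T.w x0 := by omega
    have ea32 : T.a x3 x2 = 2 * T.w x0 := by rw [a_symm T]; omega
    have ea30 : T.a x3 x0 = 1 * T.w x0 := by omega
    have ea03 : T.a x0 x3 = 1 * T.w x0 := by rw [a_symm T]; omega
    have ed0 : T.a x0 x0 = -2 * T.w x0 := by omega
    have ed1 : T.a x1 x1 = -4 * T.w x0 := by omega
    have ed2 : T.a x2 x2 = -4 * T.w x0 := by omega
    have ed3 : T.a x3 x3 = -2 * T.w x0 := by omega
    have R0 : T.w x0 * (-2 * T.m x0 + 2 * T.m x1 + 1 * T.m x3) = 0 := by linear_combination r0 - (T.m x0) * ed0 - (T.m x1) * ea01 - (T.m x2) * z02 - (T.m x3) * ea03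
    have S0 := (mul_eq_zero.1 R0).resolve_left (T.w_pos x0).ne'
    have R1 : T.w x0 * (2 * T.m x0 + -4 * T.m x1 + 2 * T.m x2) = 0 := by linear_combination r1 - (T.m x0) * ea10 - (T.m x1) * ed1 - (T.m x2) * ea12 - (T.m x3) * z13
    have S1 := (mul_eq_zero.1 R1).resolve_left (T.w_pos x0).ne'
    have R2 : T.w x0 * (2 * T.m x1 + -4 * T.m x2 + 2 * T.m x3) = 0 := by linear_combination r2 - (T.m x0) * z20 - (T.m x1) * ea21 - (T.m x2) * ed2 - (T.m x3) * ea23
    have S2 := (mul_eq_zero.1 R2).resolve_left (T.w_pos x0).ne'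
    have R3 : T.w x0 * (1 * T.m x0 + 2 * T.m x2 + -2 * T.m x3) = 0 := by linear_combination r3 - (T.m x0) * ea30 - (T.m x1) * z31 - (T.m x2) * ea32 - (T.m x3) * ed3
    have S3 := (mul_eq_zero.1 R3).resolve_left (T.w_pos x0).ne'
    exfalso; linarith
  · -- ('R', 'S') ('R', 'S')
    exfalso; omega

theorem shape_p4 (T : Models.NumericalType 4) {x0 x1 x2 x3 : Fin 4} (d01 : x0 ≠ x1) (d02 : x0 ≠ x2) (d03 : x0 ≠ x3) (d12 : x1 ≠ x2) (d13 : x1 ≠ x3) (d23 : x2 ≠ x3)
    (t0 : T.IsMinusTwo x0) (t1 : T.IsMinusTwo x1) (t2 : T.IsMinusTwo x2) (t3 : T.IsMinusTwo x3)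
    (e01 : T.a x0 x1 ≠ 0) (e12 : T.a x1 x2 ≠ 0) (e23 : T.a x2 x3 ≠ 0) (z02 : T.a x0 x2 = 0) (z03 : T.a x0 x3 = 0) (z13 : T.a x1 x3 = 0)
    (r0 : T.a x0 x0 * T.m x0 + T.a x0 x1 * T.m x1 + T.a x0 x2 * T.m x2 + T.a x0 x3 * T.m x3 = 0)
    (r1 : T.a x1 x0 * T.m x0 + T.a x1 x1 * T.m x1 + T.a x1 x2 * T.m x2 + T.a x1 x3 * T.m x3 = 0)
    (r2 : T.a x2 x0 * T.m x0 + T.a x2 x1 * T.m x1 + T.a x2 x2 * T.m x2 + T.a x2 x3 * T.m x3 = 0)
    (r3 : T.a x3 x0 * T.m x0 + T.a x3 x1 * T.m x1 + T.a x3 x2 * T.m x2 + T.a x3 x3 * T.m x3 = 0) :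
    ∃ (y0 y1 y2 y3 : Fin 4) (m w : ℤ), Function.Injective ![y0, y1, y2, y3] ∧ Pat T y0 y1 y2 y3 m w := by
  have d10 := d01.symm
  have d20 := d02.symm
  have d30 := d03.symm
  have d21 := d12.symm
  have d31 := d13.symm
  have d32 := d23.symm
  have p0 := T.w_pos x0
  have q0 := T.m_pos x0
  have dd0 := t0.2
  have p1 := T.w_pos x1
  have q1 := T.m_pos x1
  have dd1 := t1.2
  have p2 := T.w_pos x2
  have q2 := T.m_pos x2
  have dd2 := t2.2
  have p3 := T.w_pos x3
  have q3 := T.m_pos x3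
  have dd3 := t3.2
  have z20 : T.a x2 x0 = 0 := by rw [a_symm T]; exact z02
  have z30 : T.a x3 x0 = 0 := by rw [a_symm T]; exact z03
  have z31 : T.a x3 x1 = 0 := by rw [a_symm T]; exact z13
  rcases chain3_types T (by norm_num) d01 d12 d02 t0 t1 t2 e01 e12 with ⟨_, ⟨⟨ua, ub⟩, ⟨uc, ud⟩⟩ | ⟨⟨ua, ub⟩, ⟨uc, ud⟩⟩ | ⟨⟨ua, ub⟩, ⟨uc, ud⟩⟩ | ⟨⟨ua, ub⟩, ⟨uc, ud⟩⟩ | ⟨⟨ua, ub⟩, ⟨uc, ud⟩⟩⟩ <;>
    rcases chain3_types T (by norm_num) d12 d23 d13 t1 t2 t3 e12 e23 with ⟨_, ⟨⟨va, vb⟩, ⟨vc, vd⟩⟩ | ⟨⟨va, vb⟩, ⟨vc, vd⟩⟩ | ⟨⟨va, vb⟩, ⟨vc, vd⟩⟩ | ⟨⟨va, vb⟩, ⟨vc, vd⟩⟩ | ⟨⟨va, vb⟩, ⟨vc, vd⟩⟩⟩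
  · -- ('S', 'S') ('S', 'S')
    have ew0 : T.w x0 = 1 * T.w x0 := by omega
    have ew1 : T.w x1 = 1 * T.w x0 := by omega
    have ew2 : T.w x2 = 1 * T.w x0 := by omega
    have ew3 : T.w x3 = 1 * T.w x0 := by omega
    have ea01 : T.a x0 x1 = 1 * T.w x0 := by omega
    have ea10 : T.a x1 x0 = 1 * T.w x0 := by rw [a_symm T]; omega
    have ea12 : T.a x1 x2 = 1 * T.w x0 := by omega
    have ea21 : T.a x2 x1 = 1 * T.w x0 := by rw [a_symm T]; omega
    have ea23 : T.a x2 x3 = 1 * T.w x0 := by omega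
    have ea32 : T.a x3 x2 = 1 * T.w x0 := by rw [a_symm T]; omega
    have ed0 : T.a x0 x0 = -2 * T.w x0 := by omega
    have ed1 : T.a x1 x1 = -2 * T.w x0 := by omega
    have ed2 : T.a x2 x2 = -2 * T.w x0 := by omega
    have ed3 : T.a x3 x3 = -2 * T.w x0 := by omega
    have R0 : T.w x0 * (-2 * T.m x0 + 1 * T.m x1) = 0 := by linear_combination r0 - (T.m x0) * ed0 - (T.m x1) * ea01 - (T.m x2) * z02 - (T.m x3) * z03
    have S0 := (mul_eq_zero.1 R0).resolve_left (T.w_pos x0).ne'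
    have R1 : T.w x0 * (1 * T.m x0 + -2 * T.m x1 + 1 * T.m x2) = 0 := by linear_combination r1 - (T.m x0) * ea10 - (T.m x1) * ed1 - (T.m x2) * ea12 - (T.m x3) * z13
    have S1 := (mul_eq_zero.1 R1).resolve_left (T.w_pos x0).ne'
    have R2 : T.w x0 * (1 * T.m x1 + -2 * T.m x2 + 1 * T.m x3) = 0 := by linear_combination r2 - (T.m x0) * z20 - (T.m x1) * ea21 - (T.m x2) * ed2 - (T.m x3) * ea23
    have S2 := (mul_eq_zero.1 R2).resolve_left (T.w_pos x0).ne'
    have R3 : T.w x0 * (1 * T.m x2 + -2 * T.m x3) = 0 := by linear_combination r3 - (T.m x0) * z30 - (T.m x1) * z31 - (T.m x2) * ea32 - (T.m x3) * ed3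
    have S3 := (mul_eq_zero.1 R3).resolve_left (T.w_pos x0).ne'
    exfalso; linarith
  · -- ('S', 'S') ('S', 'L')
    have ew0 : T.w x0 = 2 * T.w x3 := by omega
    have ew1 : T.w x1 = 2 * T.w x3 := by omega
    have ew2 : T.w x2 = 2 * T.w x3 := by omega
    have ew3 : T.w x3 = 1 * T.w x3 := by omega
    have ea01 : T.a x0 x1 = 2 * T.w x3 := by omega
    have ea10 : T.a x1 x0 = 2 * T.w x3 := by rw [a_symm T]; omega
    have ea12 : T.a x1 x2 = 2 * T.w x3 := by omega
    have ea21 : T.a x2 x1 = 2 * T.w x3 := by rw [a_symm T]; omega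
    have ea23 : T.a x2 x3 = 2 * T.w x3 := by omega
    have ea32 : T.a x3 x2 = 2 * T.w x3 := by rw [a_symm T]; omega
    have ed0 : T.a x0 x0 = -4 * T.w x3 := by omega
    have ed1 : T.a x1 x1 = -4 * T.w x3 := by omega
    have ed2 : T.a x2 x2 = -4 * T.w x3 := by omega
    have ed3 : T.a x3 x3 = -2 * T.w x3 := by omega
    have R0 : T.w x3 * (-4 * T.m x0 + 2 * T.m x1) = 0 := by linear_combination r0 - (T.m x0) * ed0 - (T.m x1) * ea01 - (T.m x2) * z02 - (T.m x3) * z03
    have S0 := (mul_eq_zero.1 R0).resolve_left (T.w_pos x3).ne'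
    have R1 : T.w x3 * (2 * T.m x0 + -4 * T.m x1 + 2 * T.m x2) = 0 := by linear_combination r1 - (T.m x0) * ea10 - (T.m x1) * ed1 - (T.m x2) * ea12 - (T.m x3) * z13
    have S1 := (mul_eq_zero.1 R1).resolve_left (T.w_pos x3).ne'
    have R2 : T.w x3 * (2 * T.m x1 + -4 * T.m x2 + 2 * T.m x3) = 0 := by linear_combination r2 - (T.m x0) * z20 - (T.m x1) * ea21 - (T.m x2) * ed2 - (T.m x3) * ea23
    have S2 := (mul_eq_zero.1 R2).resolve_left (T.w_pos x3).ne'
    have R3 : T.w x3 * (2 * T.m x2 + -2 * T.m x3) = 0 := by linear_combination r3 - (T.m x0) * z30 - (T.m x1) * z31 - (T.m x2) * ea32 - (T.m x3) * ed3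
    have S3 := (mul_eq_zero.1 R3).resolve_left (T.w_pos x3).ne'
    exfalso; linarith
  · -- ('S', 'S') ('S', 'R')
    have ew0 : T.w x0 = 1 * T.w x0 := by omega
    have ew1 : T.w x1 = 1 * T.w x0 := by omega
    have ew2 : T.w x2 = 1 * T.w x0 := by omega
    have ew3 : T.w x3 = 2 * T.w x0 := by omega
    have ea01 : T.a x0 x1 = 1 * T.w x0 := by omega
    have ea10 : T.a x1 x0 = 1 * T.w x0 := by rw [a_symm T]; omega
    have ea12 : T.a x1 x2 = 1 * T.w x0 := by omega
    have ea21 : T.a x2 x1 = 1 * T.w x0 := by rw [a_symm T]; omega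
    have ea23 : T.a x2 x3 = 2 * T.w x0 := by omega
    have ea32 : T.a x3 x2 = 2 * T.w x0 := by rw [a_symm T]; omega
    have ed0 : T.a x0 x0 = -2 * T.w x0 := by omega
    have ed1 : T.a x1 x1 = -2 * T.w x0 := by omega
    have ed2 : T.a x2 x2 = -2 * T.w x0 := by omega
    have ed3 : T.a x3 x3 = -4 * T.w x0 := by omega
    have R0 : T.w x0 * (-2 * T.m x0 + 1 * T.m x1) = 0 := by linear_combination r0 - (T.m x0) * ed0 - (T.m x1) * ea01 - (T.m x2) * z02 - (T.m x3) * z03
    have S0 := (mul_eq_zero.1 R0).resolve_left (T.w_pos x0).ne'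
    have R1 : T.w x0 * (1 * T.m x0 + -2 * T.m x1 + 1 * T.m x2) = 0 := by linear_combination r1 - (T.m x0) * ea10 - (T.m x1) * ed1 - (T.m x2) * ea12 - (T.m x3) * z13
    have S1 := (mul_eq_zero.1 R1).resolve_left (T.w_pos x0).ne'
    have R2 : T.w x0 * (1 * T.m x1 + -2 * T.m x2 + 2 * T.m x3) = 0 := by linear_combination r2 - (T.m x0) * z20 - (T.m x1) * ea21 - (T.m x2) * ed2 - (T.m x3) * ea23
    have S2 := (mul_eq_zero.1 R2).resolve_left (T.w_pos x0).ne'
    have R3 : T.w x0 * (2 * T.m x2 + -4 * T.m x3) = 0 := by linear_combination r3 - (T.m x0) * z30 - (T.m x1) * z31 - (T.m x2) * ea32 - (T.m x3) * ed3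
    have S3 := (mul_eq_zero.1 R3).resolve_left (T.w_pos x0).ne'
    exfalso; linarith
  · -- ('S', 'S') ('L', 'S')
    exfalso; omega
  · -- ('S', 'S') ('R', 'S')
    exfalso; omega
  · -- ('S', 'L') ('S', 'S')
    exfalso; omega
  · -- ('S', 'L') ('S', 'L')
    exfalso; omega
  · -- ('S', 'L') ('S', 'R')
    exfalso; omega
  · -- ('S', 'L') ('L', 'S')
    have ew0 : T.w x0 = 2 * T.w x2 := by omega
    have ew1 : T.w x1 = 2 * T.w x2 := by omega
    have ew2 : T.w x2 = 1 * T.w x2 := by omega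
    have ew3 : T.w x3 = 1 * T.w x2 := by omega
    have ea01 : T.a x0 x1 = 2 * T.w x2 := by omega
    have ea10 : T.a x1 x0 = 2 * T.w x2 := by rw [a_symm T]; omega
    have ea12 : T.a x1 x2 = 2 * T.w x2 := by omega
    have ea21 : T.a x2 x1 = 2 * T.w x2 := by rw [a_symm T]; omega
    have ea23 : T.a x2 x3 = 1 * T.w x2 := by omega
    have ea32 : T.a x3 x2 = 1 * T.w x2 := by rw [a_symm T]; omega
    have ed0 : T.a x0 x0 = -4 * T.w x2 := by omega
    have ed1 : T.a x1 x1 = -4 * T.w x2 := by omega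
    have ed2 : T.a x2 x2 = -2 * T.w x2 := by omega
    have ed3 : T.a x3 x3 = -2 * T.w x2 := by omega
    have R0 : T.w x2 * (-4 * T.m x0 + 2 * T.m x1) = 0 := by linear_combination r0 - (T.m x0) * ed0 - (T.m x1) * ea01 - (T.m x2) * z02 - (T.m x3) * z03
    have S0 := (mul_eq_zero.1 R0).resolve_left (T.w_pos x2).ne'
    have R1 : T.w x2 * (2 * T.m x0 + -4 * T.m x1 + 2 * T.m x2) = 0 := by linear_combination r1 - (T.m x0) * ea10 - (T.m x1) * ed1 - (T.m x2) * ea12 - (T.m x3) * z13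
    have S1 := (mul_eq_zero.1 R1).resolve_left (T.w_pos x2).ne'
    have R2 : T.w x2 * (2 * T.m x1 + -2 * T.m x2 + 1 * T.m x3) = 0 := by linear_combination r2 - (T.m x0) * z20 - (T.m x1) * ea21 - (T.m x2) * ed2 - (T.m x3) * ea23
    have S2 := (mul_eq_zero.1 R2).resolve_left (T.w_pos x2).ne'
    have R3 : T.w x2 * (1 * T.m x2 + -2 * T.m x3) = 0 := by linear_combination r3 - (T.m x0) * z30 - (T.m x1) * z31 - (T.m x2) * ea32 - (T.m x3) * ed3
    have S3 := (mul_eq_zero.1 R3).resolve_left (T.w_pos x2).ne'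
    exfalso; linarith
  · -- ('S', 'L') ('R', 'S')
    exfalso; omega
  · -- ('S', 'R') ('S', 'S')
    exfalso; omega
  · -- ('S', 'R') ('S', 'L')
    exfalso; omega
  · -- ('S', 'R') ('S', 'R')
    exfalso; omega
  · -- ('S', 'R') ('L', 'S')
    exfalso; omega
  · -- ('S', 'R') ('R', 'S')
    have ew0 : T.w x0 = 1 * T.w x0 := by omega
    have ew1 : T.w x1 = 1 * T.w x0 := by omega
    have ew2 : T.w x2 = 2 * T.w x0 := by omega
    have ew3 : T.w x3 = 2 * T.w x0 := by omega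
    have ea01 : T.a x0 x1 = 1 * T.w x0 := by omega
    have ea10 : T.a x1 x0 = 1 * T.w x0 := by rw [a_symm T]; omega
    have ea12 : T.a x1 x2 = 2 * T.w x0 := by omega
    have ea21 : T.a x2 x1 = 2 * T.w x0 := by rw [a_symm T]; omega
    have ea23 : T.a x2 x3 = 2 * T.w x0 := by omega
    have ea32 : T.a x3 x2 = 2 * T.w x0 := by rw [a_symm T]; omega
    have ed0 : T.a x0 x0 = -2 * T.w x0 := by omega
    have ed1 : T.a x1 x1 = -2 * T.w x0 := by omega
    have ed2 : T.a x2 x2 = -4 * T.w x0 := by omega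
    have ed3 : T.a x3 x3 = -4 * T.w x0 := by omega
    have R0 : T.w x0 * (-2 * T.m x0 + 1 * T.m x1) = 0 := by linear_combination r0 - (T.m x0) * ed0 - (T.m x1) * ea01 - (T.m x2) * z02 - (T.m x3) * z03
    have S0 := (mul_eq_zero.1 R0).resolve_left (T.w_pos x0).ne'
    have R1 : T.w x0 * (1 * T.m x0 + -2 * T.m x1 + 2 * T.m x2) = 0 := by linear_combination r1 - (T.m x0) * ea10 - (T.m x1) * ed1 - (T.m x2) * ea12 - (T.m x3) * z13
    have S1 := (mul_eq_zero.1 R1).resolve_left (T.w_pos x0).ne'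
    have R2 : T.w x0 * (2 * T.m x1 + -4 * T.m x2 + 2 * T.m x3) = 0 := by linear_combination r2 - (T.m x0) * z20 - (T.m x1) * ea21 - (T.m x2) * ed2 - (T.m x3) * ea23
    have S2 := (mul_eq_zero.1 R2).resolve_left (T.w_pos x0).ne'
    have R3 : T.w x0 * (2 * T.m x2 + -4 * T.m x3) = 0 := by linear_combination r3 - (T.m x0) * z30 - (T.m x1) * z31 - (T.m x2) * ea32 - (T.m x3) * ed3
    have S3 := (mul_eq_zero.1 R3).resolve_left (T.w_pos x0).ne'
    exfalso; linarith
  · -- ('L', 'S') ('S', 'S')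
    have ew0 : T.w x0 = 2 * T.w x1 := by omega
    have ew1 : T.w x1 = 1 * T.w x1 := by omega
    have ew2 : T.w x2 = 1 * T.w x1 := by omega
    have ew3 : T.w x3 = 1 * T.w x1 := by omega
    have ea01 : T.a x0 x1 = 2 * T.w x1 := by omega
    have ea10 : T.a x1 x0 = 2 * T.w x1 := by rw [a_symm T]; omega
    have ea12 : T.a x1 x2 = 1 * T.w x1 := by omega
    have ea21 : T.a x2 x1 = 1 * T.w x1 := by rw [a_symm T]; omega
    have ea23 : T.a x2 x3 = 1 * T.w x1 := by omega
    have ea32 : T.a x3 x2 = 1 * T.w x1 := by rw [a_symm T]; omega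
    have ed0 : T.a x0 x0 = -4 * T.w x1 := by omega
    have ed1 : T.a x1 x1 = -2 * T.w x1 := by omega
    have ed2 : T.a x2 x2 = -2 * T.w x1 := by omega
    have ed3 : T.a x3 x3 = -2 * T.w x1 := by omega
    have R0 : T.w x1 * (-4 * T.m x0 + 2 * T.m x1) = 0 := by linear_combination r0 - (T.m x0) * ed0 - (T.m x1) * ea01 - (T.m x2) * z02 - (T.m x3) * z03
    have S0 := (mul_eq_zero.1 R0).resolve_left (T.w_pos x1).ne'
    have R1 : T.w x1 * (2 * T.m x0 + -2 * T.m x1 + 1 * T.m x2) = 0 := by linear_combination r1 - (T.m x0) * ea10 - (T.m x1) * ed1 - (T.m x2) * ea12 - (T.m x3) * z13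
    have S1 := (mul_eq_zero.1 R1).resolve_left (T.w_pos x1).ne'
    have R2 : T.w x1 * (1 * T.m x1 + -2 * T.m x2 + 1 * T.m x3) = 0 := by linear_combination r2 - (T.m x0) * z20 - (T.m x1) * ea21 - (T.m x2) * ed2 - (T.m x3) * ea23
    have S2 := (mul_eq_zero.1 R2).resolve_left (T.w_pos x1).ne'
    have R3 : T.w x1 * (1 * T.m x2 + -2 * T.m x3) = 0 := by linear_combination r3 - (T.m x0) * z30 - (T.m x1) * z31 - (T.m x2) * ea32 - (T.m x3) * ed3
    have S3 := (mul_eq_zero.1 R3).resolve_left (T.w_pos x1).ne'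
    exfalso; linarith
  · -- ('L', 'S') ('S', 'L')
    have ew0 : T.w x0 = 4 * T.w x3 := by omega
    have ew1 : T.w x1 = 2 * T.w x3 := by omega
    have ew2 : T.w x2 = 2 * T.w x3 := by omega
    have ew3 : T.w x3 = 1 * T.w x3 := by omega
    have ea01 : T.a x0 x1 = 4 * T.w x3 := by omega
    have ea10 : T.a x1 x0 = 4 * T.w x3 := by rw [a_symm T]; omega
    have ea12 : T.a x1 x2 = 2 * T.w x3 := by omega
    have ea21 : T.a x2 x1 = 2 * T.w x3 := by rw [a_symm T]; omega
    have ea23 : T.a x2 x3 = 2 * T.w x3 := by omega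
    have ea32 : T.a x3 x2 = 2 * T.w x3 := by rw [a_symm T]; omega
    have ed0 : T.a x0 x0 = -8 * T.w x3 := by omega
    have ed1 : T.a x1 x1 = -4 * T.w x3 := by omega
    have ed2 : T.a x2 x2 = -4 * T.w x3 := by omega
    have ed3 : T.a x3 x3 = -2 * T.w x3 := by omega
    have R0 : T.w x3 * (-8 * T.m x0 + 4 * T.m x1) = 0 := by linear_combination r0 - (T.m x0) * ed0 - (T.m x1) * ea01 - (T.m x2) * z02 - (T.m x3) * z03
    have S0 := (mul_eq_zero.1 R0).resolve_left (T.w_pos x3).ne'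
    have R1 : T.w x3 * (4 * T.m x0 + -4 * T.m x1 + 2 * T.m x2) = 0 := by linear_combination r1 - (T.m x0) * ea10 - (T.m x1) * ed1 - (T.m x2) * ea12 - (T.m x3) * z13
    have S1 := (mul_eq_zero.1 R1).resolve_left (T.w_pos x3).ne'
    have R2 : T.w x3 * (2 * T.m x1 + -4 * T.m x2 + 2 * T.m x3) = 0 := by linear_combination r2 - (T.m x0) * z20 - (T.m x1) * ea21 - (T.m x2) * ed2 - (T.m x3) * ea23
    have S2 := (mul_eq_zero.1 R2).resolve_left (T.w_pos x3).ne'
    have R3 : T.w x3 * (2 * T.m x2 + -2 * T.m x3) = 0 := by linear_combination r3 - (T.m x0) * z30 - (T.m x1) * z31 - (T.m x2) * ea32 - (T.m x3) * ed3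
    have S3 := (mul_eq_zero.1 R3).resolve_left (T.w_pos x3).ne'
    exact ⟨x3, x2, x1, x0, T.m x0, T.w x3, inj4 d32 d31 d30 d21 d20 d10, Or.inr (Or.inl ⟨(by first | omega | linarith : T.m x3 = 2 * T.m x0), (by first | omega | linarith : T.m x2 = 2 * T.m x0), (by first | omega | linarith : T.m x1 = 2 * T.m x0), (by first | omega | linarith : T.m x0 = T.m x0), (by first | omega | linarith : T.w x3 = T.w x3), (by first | omega | linarith : T.w x2 = 2 * T.w x3), (by first | omega | linarith : T.w x1 = 2 * T.w x3), (by first | omega | linarith : T.w x0 = 4 * T.w x3), (by first | omega | linarith : T.a x3 x3 = -2 * T.w x3), (by first | omega | linarith : T.a x3 x2 = 2 * T.w x3), (by first | omega | linarith : T.a x3 x1 = 0), (by first | omega | linarith : T.a x3 x0 = 0), (by first | omega | linarith : T.a x2 x2 = -4 * T.w x3), (by first | omega | linarith : T.a x2 x1 = 2 * T.w x3), (by first | omega | linarith : T.a x2 x0 = 0), (by first | omega | linarith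 : T.a x1 x1 = -4 * T.w x3), (by first | omega | linarith : T.a x1 x0 = 4 * T.w x3), (by first | omega | linarith : T.a x0 x0 = -8 * T.w x3)⟩)⟩
    -- type 2 perm (3, 2, 1, 0)
  · -- ('L', 'S') ('S', 'R')
    have ew0 : T.w x0 = 2 * T.w x1 := by omega
    have ew1 : T.w x1 = 1 * T.w x1 := by omega
    have ew2 : T.w x2 = 1 * T.w x1 := by omega
    have ew3 : T.w x3 = 2 * T.w x1 := by omega
    have ea01 : T.a x0 x1 = 2 * T.w x1 := by omega
    have ea10 : T.a x1 x0 = 2 * T.w x1 := by rw [a_symm T]; omega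
    have ea12 : T.a x1 x2 = 1 * T.w x1 := by omega
    have ea21 : T.a x2 x1 = 1 * T.w x1 := by rw [a_symm T]; omega
    have ea23 : T.a x2 x3 = 2 * T.w x1 := by omega
    have ea32 : T.a x3 x2 = 2 * T.w x1 := by rw [a_symm T]; omega
    have ed0 : T.a x0 x0 = -4 * T.w x1 := by omega
    have ed1 : T.a x1 x1 = -2 * T.w x1 := by omega
    have ed2 : T.a x2 x2 = -2 * T.w x1 := by omega
    have ed3 : T.a x3 x3 = -4 * T.w x1 := by omega
    have R0 : T.w x1 * (-4 * T.m x0 + 2 * T.m x1) = 0 := by linear_combination r0 - (T.m x0) * ed0 - (T.m x1) * ea01 - (T.m x2) * z02 - (T.m x3) * z03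
    have S0 := (mul_eq_zero.1 R0).resolve_left (T.w_pos x1).ne'
    have R1 : T.w x1 * (2 * T.m x0 + -2 * T.m x1 + 1 * T.m x2) = 0 := by linear_combination r1 - (T.m x0) * ea10 - (T.m x1) * ed1 - (T.m x2) * ea12 - (T.m x3) * z13
    have S1 := (mul_eq_zero.1 R1).resolve_left (T.w_pos x1).ne'
    have R2 : T.w x1 * (1 * T.m x1 + -2 * T.m x2 + 2 * T.m x3) = 0 := by linear_combination r2 - (T.m x0) * z20 - (T.m x1) * ea21 - (T.m x2) * ed2 - (T.m x3) * ea23
    have S2 := (mul_eq_zero.1 R2).resolve_left (T.w_pos x1).ne'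
    have R3 : T.w x1 * (2 * T.m x2 + -4 * T.m x3) = 0 := by linear_combination r3 - (T.m x0) * z30 - (T.m x1) * z31 - (T.m x2) * ea32 - (T.m x3) * ed3
    have S3 := (mul_eq_zero.1 R3).resolve_left (T.w_pos x1).ne'
    exact ⟨x0, x1, x2, x3, T.m x0, T.w x1, inj4 d01 d02 d03 d12 d13 d23, Or.inr (Or.inr (Or.inr (Or.inl ⟨(by first | omega | linarith : T.m x0 = T.m x0), (by first | omega | linarith : T.m x1 = 2 * T.m x0), (by first | omega | linarith : T.m x2 = 2 * T.m x0), (by first | omega | linarith : T.m x3 = T.m x0), (by first | omega | linarith : T.w x0 = 2 * T.w x1), (by first | omega | linarith : T.w x1 = T.w x1), (by first | omega | linarith : T.w x2 = T.w x1), (by first | omega | linarith : T.w x3 = 2 * T.w x1), (by first | omega | linarith : T.a x0 x0 = -4 * T.w x1), (by first | omega | linarith : T.a x0 x1 = 2 * T.w x1), (by first | omega | linarith : T.a x0 x2 = 0), (by first | omega | linarith : T.a x0 x3 = 0), (by first | omega | linarith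 : T.a x1 x1 = -2 * T.w x1), (by first | omega | linarith : T.a x1 x2 = T.w x1), (by first | omega | linarith : T.a x1 x3 = 0), (by first | omega | linarith : T.a x2 x2 = -2 * T.w x1), (by first | omega | linarith : T.a x2 x3 = 2 * T.w x1), (by first | omega | linarith : T.a x3 x3 = -4 * T.w x1)⟩)))⟩
    -- type 4 perm (0, 1, 2, 3)
  · -- ('L', 'S') ('L', 'S')
    exfalso; omega
  · -- ('L', 'S') ('R', 'S')
    exfalso; omega
  · -- ('R', 'S') ('S', 'S')
    have ew0 : T.w x0 = 1 * T.w x0 := by omega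
    have ew1 : T.w x1 = 2 * T.w x0 := by omega
    have ew2 : T.w x2 = 2 * T.w x0 := by omega
    have ew3 : T.w x3 = 2 * T.w x0 := by omega
    have ea01 : T.a x0 x1 = 2 * T.w x0 := by omega
    have ea10 : T.a x1 x0 = 2 * T.w x0 := by rw [a_symm T]; omega
    have ea12 : T.a x1 x2 = 2 * T.w x0 := by omega
    have ea21 : T.a x2 x1 = 2 * T.w x0 := by rw [a_symm T]; omega
    have ea23 : T.a x2 x3 = 2 * T.w x0 := by omega
    have ea32 : T.a x3 x2 = 2 * T.w x0 := by rw [a_symm T]; omega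
    have ed0 : T.a x0 x0 = -2 * T.w x0 := by omega
    have ed1 : T.a x1 x1 = -4 * T.w x0 := by omega
    have ed2 : T.a x2 x2 = -4 * T.w x0 := by omega
    have ed3 : T.a x3 x3 = -4 * T.w x0 := by omega
    have R0 : T.w x0 * (-2 * T.m x0 + 2 * T.m x1) = 0 := by linear_combination r0 - (T.m x0) * ed0 - (T.m x1) * ea01 - (T.m x2) * z02 - (T.m x3) * z03
    have S0 := (mul_eq_zero.1 R0).resolve_left (T.w_pos x0).ne'
    have R1 : T.w x0 * (2 * T.m x0 + -4 * T.m x1 + 2 * T.m x2) = 0 := by linear_combination r1 - (T.m x0) * ea10 - (T.m x1) * ed1 - (T.m x2) * ea12 - (T.m x3) * z13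
    have S1 := (mul_eq_zero.1 R1).resolve_left (T.w_pos x0).ne'
    have R2 : T.w x0 * (2 * T.m x1 + -4 * T.m x2 + 2 * T.m x3) = 0 := by linear_combination r2 - (T.m x0) * z20 - (T.m x1) * ea21 - (T.m x2) * ed2 - (T.m x3) * ea23
    have S2 := (mul_eq_zero.1 R2).resolve_left (T.w_pos x0).ne'
    have R3 : T.w x0 * (2 * T.m x2 + -4 * T.m x3) = 0 := by linear_combination r3 - (T.m x0) * z30 - (T.m x1) * z31 - (T.m x2) * ea32 - (T.m x3) * ed3
    have S3 := (mul_eq_zero.1 R3).resolve_left (T.w_pos x0).ne'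
    exfalso; linarith
  · -- ('R', 'S') ('S', 'L')
    have ew0 : T.w x0 = 1 * T.w x0 := by omega
    have ew1 : T.w x1 = 2 * T.w x0 := by omega
    have ew2 : T.w x2 = 2 * T.w x0 := by omega
    have ew3 : T.w x3 = 1 * T.w x0 := by omega
    have ea01 : T.a x0 x1 = 2 * T.w x0 := by omega
    have ea10 : T.a x1 x0 = 2 * T.w x0 := by rw [a_symm T]; omega
    have ea12 : T.a x1 x2 = 2 * T.w x0 := by omega
    have ea21 : T.a x2 x1 = 2 * T.w x0 := by rw [a_symm T]; omega
    have ea23 : T.a x2 x3 = 2 * T.w x0 := by omega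
    have ea32 : T.a x3 x2 = 2 * T.w x0 := by rw [a_symm T]; omega
    have ed0 : T.a x0 x0 = -2 * T.w x0 := by omega
    have ed1 : T.a x1 x1 = -4 * T.w x0 := by omega
    have ed2 : T.a x2 x2 = -4 * T.w x0 := by omega
    have ed3 : T.a x3 x3 = -2 * T.w x0 := by omega
    have R0 : T.w x0 * (-2 * T.m x0 + 2 * T.m x1) = 0 := by linear_combination r0 - (T.m x0) * ed0 - (T.m x1) * ea01 - (T.m x2) * z02 - (T.m x3) * z03
    have S0 := (mul_eq_zero.1 R0).resolve_left (T.w_pos x0).ne'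
    have R1 : T.w x0 * (2 * T.m x0 + -4 * T.m x1 + 2 * T.m x2) = 0 := by linear_combination r1 - (T.m x0) * ea10 - (T.m x1) * ed1 - (T.m x2) * ea12 - (T.m x3) * z13
    have S1 := (mul_eq_zero.1 R1).resolve_left (T.w_pos x0).ne'
    have R2 : T.w x0 * (2 * T.m x1 + -4 * T.m x2 + 2 * T.m x3) = 0 := by linear_combination r2 - (T.m x0) * z20 - (T.m x1) * ea21 - (T.m x2) * ed2 - (T.m x3) * ea23
    have S2 := (mul_eq_zero.1 R2).resolve_left (T.w_pos x0).ne'
    have R3 : T.w x0 * (2 * T.m x2 + -2 * T.m x3) = 0 := by linear_combination r3 - (T.m x0) * z30 - (T.m x1) * z31 - (T.m x2) * ea32 - (T.m x3) * ed3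
    have S3 := (mul_eq_zero.1 R3).resolve_left (T.w_pos x0).ne'
    exact ⟨x0, x1, x2, x3, T.m x0, T.w x0, inj4 d01 d02 d03 d12 d13 d23, Or.inr (Or.inr (Or.inl ⟨(by first | omega | linarith : T.m x0 = T.m x0), (by first | omega | linarith : T.m x1 = T.m x0), (by first | omega | linarith : T.m x2 = T.m x0), (by first | omega | linarith : T.m x3 = T.m x0), (by first | omega | linarith : T.w x0 = T.w x0), (by first | omega | linarith : T.w x1 = 2 * T.w x0), (by first | omega | linarith : T.w x2 = 2 * T.w x0), (by first | omega | linarith : T.w x3 = T.w x0), (by first | omega | linarith : T.a x0 x0 = -2 * T.w x0), (by first | omega | linarith : T.a x0 x1 = 2 * T.w x0), (by first | omega | linarith : T.a x0 x2 = 0), (by first | omega | linarith : T.a x0 x3 = 0), (by first | omega | linarith : T.a x1 x1 = -4 * T.w x0), (by first | omega | linarith : T.a x1 x2 = 2 * T.w x0), (by first | omega | linarith : T.a x1 x3 = 0), (by first | omega | linarith :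 T.a x2 x2 = -4 * T.w x0), (by first | omega | linarith : T.a x2 x3 = 2 * T.w x0), (by first | omega | linarith : T.a x3 x3 = -2 * T.w x0)⟩))⟩
    -- type 3 perm (0, 1, 2, 3)
  · -- ('R', 'S') ('S', 'R')
    have ew0 : T.w x0 = 1 * T.w x0 := by omega
    have ew1 : T.w x1 = 2 * T.w x0 := by omega
    have ew2 : T.w x2 = 2 * T.w x0 := by omega
    have ew3 : T.w x3 = 4 * T.w x0 := by omega
    have ea01 : T.a x0 x1 = 2 * T.w x0 := by omega
    have ea10 : T.a x1 x0 = 2 * T.w x0 := by rw [a_symm T]; omega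
    have ea12 : T.a x1 x2 = 2 * T.w x0 := by omega
    have ea21 : T.a x2 x1 = 2 * T.w x0 := by rw [a_symm T]; omega
    have ea23 : T.a x2 x3 = 4 * T.w x0 := by omega
    have ea32 : T.a x3 x2 = 4 * T.w x0 := by rw [a_symm T]; omega
    have ed0 : T.a x0 x0 = -2 * T.w x0 := by omega
    have ed1 : T.a x1 x1 = -4 * T.w x0 := by omega
    have ed2 : T.a x2 x2 = -4 * T.w x0 := by omega
    have ed3 : T.a x3 x3 = -8 * T.w x0 := by omega
    have R0 : T.w x0 * (-2 * T.m x0 + 2 * T.m x1) = 0 := by linear_combination r0 - (T.m x0) * ed0 - (T.m x1) * ea01 - (T.m x2) * z02 - (T.m x3) * z03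
    have S0 := (mul_eq_zero.1 R0).resolve_left (T.w_pos x0).ne'
    have R1 : T.w x0 * (2 * T.m x0 + -4 * T.m x1 + 2 * T.m x2) = 0 := by linear_combination r1 - (T.m x0) * ea10 - (T.m x1) * ed1 - (T.m x2) * ea12 - (T.m x3) * z13
    have S1 := (mul_eq_zero.1 R1).resolve_left (T.w_pos x0).ne'
    have R2 : T.w x0 * (2 * T.m x1 + -4 * T.m x2 + 4 * T.m x3) = 0 := by linear_combination r2 - (T.m x0) * z20 - (T.m x1) * ea21 - (T.m x2) * ed2 - (T.m x3) * ea23
    have S2 := (mul_eq_zero.1 R2).resolve_left (T.w_pos x0).ne'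
    have R3 : T.w x0 * (4 * T.m x2 + -8 * T.m x3) = 0 := by linear_combination r3 - (T.m x0) * z30 - (T.m x1) * z31 - (T.m x2) * ea32 - (T.m x3) * ed3
    have S3 := (mul_eq_zero.1 R3).resolve_left (T.w_pos x0).ne'
    exact ⟨x0, x1, x2, x3, T.m x3, T.w x0, inj4 d01 d02 d03 d12 d13 d23, Or.inr (Or.inl ⟨(by first | omega | linarith : T.m x0 = 2 * T.m x3), (by first | omega | linarith : T.m x1 = 2 * T.m x3), (by first | omega | linarith : T.m x2 = 2 * T.m x3), (by first | omega | linarith : T.m x3 = T.m x3), (by first | omega | linarith : T.w x0 = T.w x0), (by first | omega | linarith : T.w x1 = 2 * T.w x0), (by first | omega | linarith : T.w x2 = 2 * T.w x0), (by first | omega | linarith : T.w x3 = 4 * T.w x0), (by first | omega | linarith : T.a x0 x0 = -2 * T.w x0), (by first | omega | linarith : T.a x0 x1 = 2 * T.w x0), (by first | omega | linarith : T.a x0 x2 = 0), (by first | omega | linarith : T.a x0 x3 = 0), (by first | omega | linarith :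 T.a x1 x1 = -4 * T.w x0), (by first | omega | linarith : T.a x1 x2 = 2 * T.w x0), (by first | omega | linarith : T.a x1 x3 = 0), (by first | omega | linarith : T.a x2 x2 = -4 * T.w x0), (by first | omega | linarith : T.a x2 x3 = 4 * T.w x0), (by first | omega | linarith : T.a x3 x3 = -8 * T.w x0)⟩)⟩
    -- type 2 perm (0, 1, 2, 3)
  · -- ('R', 'S') ('L', 'S')
    exfalso; omega
  · -- ('R', 'S') ('R', 'S')
    exfalso; omega

theorem shape_star (T : Models.NumericalType 4) {x0 x1 x2 x3 : Fin 4} (d01 : x0 ≠ x1) (d02 : x0 ≠ x2) (d03 : x0 ≠ x3) (d12 : x1 ≠ x2) (d13 : x1 ≠ x3) (d23 : x2 ≠ x3)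
    (t0 : T.IsMinusTwo x0) (t1 : T.IsMinusTwo x1) (t2 : T.IsMinusTwo x2) (t3 : T.IsMinusTwo x3)
    (e10 : T.a x1 x0 ≠ 0) (e02 : T.a x0 x2 ≠ 0) (e03 : T.a x0 x3 ≠ 0) (z12 : T.a x1 x2 = 0) (z13 : T.a x1 x3 = 0) (z23 : T.a x2 x3 = 0)
    (r0 : T.a x0 x0 * T.m x0 + T.a x0 x1 * T.m x1 + T.a x0 x2 * T.m x2 + T.a x0 x3 * T.m x3 = 0)
    (r1 : T.a x1 x0 * T.m x0 + T.a x1 x1 * T.m x1 + T.a x1 x2 * T.m x2 + T.a x1 x3 * T.m x3 = 0)
    (r2 : T.a x2 x0 * T.m x0 + T.a x2 x1 * T.m x1 + T.a x2 x2 * T.m x2 + T.a x2 x3 * T.m x3 = 0)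
    (r3 : T.a x3 x0 * T.m x0 + T.a x3 x1 * T.m x1 + T.a x3 x2 * T.m x2 + T.a x3 x3 * T.m x3 = 0) :
    ∃ (y0 y1 y2 y3 : Fin 4) (m w : ℤ), Function.Injective ![y0, y1, y2, y3] ∧ Pat T y0 y1 y2 y3 m w := by
  have d10 := d01.symm
  have d20 := d02.symm
  have d30 := d03.symm
  have d21 := d12.symm
  have d31 := d13.symm
  have d32 := d23.symm
  have p0 := T.w_pos x0
  have q0 := T.m_pos x0
  have dd0 := t0.2
  have p1 := T.w_pos x1
  have q1 := T.m_pos x1
  have dd1 := t1.2
  have p2 := T.w_pos x2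
  have q2 := T.m_pos x2
  have dd2 := t2.2
  have p3 := T.w_pos x3
  have q3 := T.m_pos x3
  have dd3 := t3.2
  have z21 : T.a x2 x1 = 0 := by rw [a_symm T]; exact z12
  have z31 : T.a x3 x1 = 0 := by rw [a_symm T]; exact z13
  have z32 : T.a x3 x2 = 0 := by rw [a_symm T]; exact z23
  rcases chain3_types T (by norm_num) d10 d02 d12 t1 t0 t2 e10 e02 with ⟨_, ⟨⟨ua, ub⟩, ⟨uc, ud⟩⟩ | ⟨⟨ua, ub⟩, ⟨uc, ud⟩⟩ | ⟨⟨ua, ub⟩, ⟨uc, ud⟩⟩ | ⟨⟨ua, ub⟩, ⟨uc, ud⟩⟩ | ⟨⟨ua, ub⟩, ⟨uc, ud⟩⟩⟩ <;>
    rcases chain3_types T (by norm_num) d10 d03 d13 t1 t0 t3 e10 e03 with ⟨_, ⟨⟨va, vb⟩, ⟨vc, vd⟩⟩ | ⟨⟨va, vb⟩, ⟨vc, vd⟩⟩ | ⟨⟨va, vb⟩, ⟨vc, vd⟩⟩ | ⟨⟨va, vb⟩, ⟨vc, vd⟩⟩ | ⟨⟨va, vb⟩, ⟨vc, vd⟩⟩⟩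
  · -- ('S', 'S') ('S', 'S')
    have ew0 : T.w x0 = 1 * T.w x0 := by omega
    have ew1 : T.w x1 = 1 * T.w x0 := by omega
    have ew2 : T.w x2 = 1 * T.w x0 := by omega
    have ew3 : T.w x3 = 1 * T.w x0 := by omega
    have ea10 : T.a x1 x0 = 1 * T.w x0 := by omega
    have ea01 : T.a x0 x1 = 1 * T.w x0 := by rw [a_symm T]; omega
    have ea02 : T.a x0 x2 = 1 * T.w x0 := by omega
    have ea20 : T.a x2 x0 = 1 * T.w x0 := by rw [a_symm T]; omega
    have ea03 : T.a x0 x3 = 1 * T.w x0 := by omega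
    have ea30 : T.a x3 x0 = 1 * T.w x0 := by rw [a_symm T]; omega
    have ed0 : T.a x0 x0 = -2 * T.w x0 := by omega
    have ed1 : T.a x1 x1 = -2 * T.w x0 := by omega
    have ed2 : T.a x2 x2 = -2 * T.w x0 := by omega
    have ed3 : T.a x3 x3 = -2 * T.w x0 := by omega
    have R0 : T.w x0 * (-2 * T.m x0 + 1 * T.m x1 + 1 * T.m x2 + 1 * T.m x3) = 0 := by linear_combination r0 - (T.m x0) * ed0 - (T.m x1) * ea01 - (T.m x2) * ea02 - (T.m x3) * ea03
    have S0 := (mul_eq_zero.1 R0).resolve_left (T.w_pos x0).ne'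
    have R1 : T.w x0 * (1 * T.m x0 + -2 * T.m x1) = 0 := by linear_combination r1 - (T.m x0) * ea10 - (T.m x1) * ed1 - (T.m x2) * z12 - (T.m x3) * z13
    have S1 := (mul_eq_zero.1 R1).resolve_left (T.w_pos x0).ne'
    have R2 : T.w x0 * (1 * T.m x0 + -2 * T.m x2) = 0 := by linear_combination r2 - (T.m x0) * ea20 - (T.m x1) * z21 - (T.m x2) * ed2 - (T.m x3) * z23
    have S2 := (mul_eq_zero.1 R2).resolve_left (T.w_pos x0).ne'
    have R3 : T.w x0 * (1 * T.m x0 + -2 * T.m x3) = 0 := by linear_combination r3 - (T.m x0) * ea30 - (T.m x1) * z31 - (T.m x2) * z32 - (T.m x3) * ed3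
    have S3 := (mul_eq_zero.1 R3).resolve_left (T.w_pos x0).ne'
    exfalso; linarith
  · -- ('S', 'S') ('S', 'L')
    have ew0 : T.w x0 = 2 * T.w x3 := by omega
    have ew1 : T.w x1 = 2 * T.w x3 := by omega
    have ew2 : T.w x2 = 2 * T.w x3 := by omega
    have ew3 : T.w x3 = 1 * T.w x3 := by omega
    have ea10 : T.a x1 x0 = 2 * T.w x3 := by omega
    have ea01 : T.a x0 x1 = 2 * T.w x3 := by rw [a_symm T]; omega
    have ea02 : T.a x0 x2 = 2 * T.w x3 := by omega
    have ea20 : T.a x2 x0 = 2 * T.w x3 := by rw [a_symm T]; omega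
    have ea03 : T.a x0 x3 = 2 * T.w x3 := by omega
    have ea30 : T.a x3 x0 = 2 * T.w x3 := by rw [a_symm T]; omega
    have ed0 : T.a x0 x0 = -4 * T.w x3 := by omega
    have ed1 : T.a x1 x1 = -4 * T.w x3 := by omega
    have ed2 : T.a x2 x2 = -4 * T.w x3 := by omega
    have ed3 : T.a x3 x3 = -2 * T.w x3 := by omega
    have R0 : T.w x3 * (-4 * T.m x0 + 2 * T.m x1 + 2 * T.m x2 + 2 * T.m x3) = 0 := by linear_combination r0 - (T.m x0) * ed0 - (T.m x1) * ea01 - (T.m x2) * ea02 - (T.m x3) * ea03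
    have S0 := (mul_eq_zero.1 R0).resolve_left (T.w_pos x3).ne'
    have R1 : T.w x3 * (2 * T.m x0 + -4 * T.m x1) = 0 := by linear_combination r1 - (T.m x0) * ea10 - (T.m x1) * ed1 - (T.m x2) * z12 - (T.m x3) * z13
    have S1 := (mul_eq_zero.1 R1).resolve_left (T.w_pos x3).ne'
    have R2 : T.w x3 * (2 * T.m x0 + -4 * T.m x2) = 0 := by linear_combination r2 - (T.m x0) * ea20 - (T.m x1) * z21 - (T.m x2) * ed2 - (T.m x3) * z23
    have S2 := (mul_eq_zero.1 R2).resolve_left (T.w_pos x3).ne'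
    have R3 : T.w x3 * (2 * T.m x0 + -2 * T.m x3) = 0 := by linear_combination r3 - (T.m x0) * ea30 - (T.m x1) * z31 - (T.m x2) * z32 - (T.m x3) * ed3
    have S3 := (mul_eq_zero.1 R3).resolve_left (T.w_pos x3).ne'
    exact ⟨x0, x1, x2, x3, T.m x1, T.w x3, inj4 d01 d02 d03 d12 d13 d23, Or.inr (Or.inr (Or.inr (Or.inr (Or.inr (⟨(by first | omega | linarith : T.m x0 = 2 * T.m x1), (by first | omega | linarith : T.m x1 = T.m x1), (by first | omega | linarith : T.m x2 = T.m x1), (by first | omega | linarith : T.m x3 = 2 * T.m x1), (by first | omega | linarith : T.w x0 = 2 * T.w x3), (by first | omega | linarith : T.w x1 = 2 * T.w x3), (by first | omega | linarith : T.w x2 = 2 * T.w x3), (by first | omega | linarith : T.w x3 = T.w x3), (by first | omega | linarith : T.a x0 x0 = -4 * T.w x3), (by first | omega | linarith : T.a x0 x1 = 2 * T.w x3), (by first | omega | linarith : T.a x0 x2 = 2 * T.w x3), (by first | omega | linarith : T.a x0 x3 = 2 * T.w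 x3), (by first | omega | linarith : T.a x1 x1 = -4 * T.w x3), (by first | omega | linarith : T.a x1 x2 = 0), (by first | omega | linarith : T.a x1 x3 = 0), (by first | omega | linarith : T.a x2 x2 = -4 * T.w x3), (by first | omega | linarith : T.a x2 x3 = 0), (by first | omega | linarith : T.a x3 x3 = -2 * T.w x3)⟩)))))⟩
    -- type 6 perm (0, 1, 2, 3)
  · -- ('S', 'S') ('S', 'R')
    have ew0 : T.w x0 = 1 * T.w x0 := by omega
    have ew1 : T.w x1 = 1 * T.w x0 := by omega
    have ew2 : T.w x2 = 1 * T.w x0 := by omega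
    have ew3 : T.w x3 = 2 * T.w x0 := by omega
    have ea10 : T.a x1 x0 = 1 * T.w x0 := by omega
    have ea01 : T.a x0 x1 = 1 * T.w x0 := by rw [a_symm T]; omega
    have ea02 : T.a x0 x2 = 1 * T.w x0 := by omega
    have ea20 : T.a x2 x0 = 1 * T.w x0 := by rw [a_symm T]; omega
    have ea03 : T.a x0 x3 = 2 * T.w x0 := by omega
    have ea30 : T.a x3 x0 = 2 * T.w x0 := by rw [a_symm T]; omega
    have ed0 : T.a x0 x0 = -2 * T.w x0 := by omega
    have ed1 : T.a x1 x1 = -2 * T.w x0 := by omega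
    have ed2 : T.a x2 x2 = -2 * T.w x0 := by omega
    have ed3 : T.a x3 x3 = -4 * T.w x0 := by omega
    have R0 : T.w x0 * (-2 * T.m x0 + 1 * T.m x1 + 1 * T.m x2 + 2 * T.m x3) = 0 := by linear_combination r0 - (T.m x0) * ed0 - (T.m x1) * ea01 - (T.m x2) * ea02 - (T.m x3) * ea03
    have S0 := (mul_eq_zero.1 R0).resolve_left (T.w_pos x0).ne'
    have R1 : T.w x0 * (1 * T.m x0 + -2 * T.m x1) = 0 := by linear_combination r1 - (T.m x0) * ea10 - (T.m x1) * ed1 - (T.m x2) * z12 - (T.m x3) * z13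
    have S1 := (mul_eq_zero.1 R1).resolve_left (T.w_pos x0).ne'
    have R2 : T.w x0 * (1 * T.m x0 + -2 * T.m x2) = 0 := by linear_combination r2 - (T.m x0) * ea20 - (T.m x1) * z21 - (T.m x2) * ed2 - (T.m x3) * z23
    have S2 := (mul_eq_zero.1 R2).resolve_left (T.w_pos x0).ne'
    have R3 : T.w x0 * (2 * T.m x0 + -4 * T.m x3) = 0 := by linear_combination r3 - (T.m x0) * ea30 - (T.m x1) * z31 - (T.m x2) * z32 - (T.m x3) * ed3
    have S3 := (mul_eq_zero.1 R3).resolve_left (T.w_pos x0).ne'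
    exact ⟨x0, x1, x2, x3, T.m x1, T.w x0, inj4 d01 d02 d03 d12 d13 d23, Or.inr (Or.inr (Or.inr (Or.inr (Or.inl ⟨(by first | omega | linarith : T.m x0 = 2 * T.m x1), (by first | omega | linarith : T.m x1 = T.m x1), (by first | omega | linarith : T.m x2 = T.m x1), (by first | omega | linarith : T.m x3 = T.m x1), (by first | omega | linarith : T.w x0 = T.w x0), (by first | omega | linarith : T.w x1 = T.w x0), (by first | omega | linarith : T.w x2 = T.w x0), (by first | omega | linarith : T.w x3 = 2 * T.w x0), (by first | omega | linarith : T.a x0 x0 = -2 * T.w x0), (by first | omega | linarith : T.a x0 x1 = T.w x0), (by first | omega | linarith : T.a x0 x2 = T.w x0), (by first | omega | linarith : T.a x0 x3 = 2 * T.w x0), (by first | omega | linarith : T.a x1 x1 = -2 * T.w x0), (by first | omega | linarith : T.a x1 x2 = 0), (by first | omega | linarith : T.a x1 x3 = 0), (by first | omega | linarith : T.a x2 x2 = -2 * T.w x0), (by first | omega |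 linarith : T.a x2 x3 = 0), (by first | omega | linarith : T.a x3 x3 = -4 * T.w x0)⟩))))⟩
    -- type 5 perm (0, 1, 2, 3)
  · -- ('S', 'S') ('L', 'S')
    exfalso; omega
  · -- ('S', 'S') ('R', 'S')
    exfalso; omega
  · -- ('S', 'L') ('S', 'S')
    have ew0 : T.w x0 = 2 * T.w x2 := by omega
    have ew1 : T.w x1 = 2 * T.w x2 := by omega
    have ew2 : T.w x2 = 1 * T.w x2 := by omega
    have ew3 : T.w x3 = 2 * T.w x2 := by omega
    have ea10 : T.a x1 x0 = 2 * T.w x2 := by omega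
    have ea01 : T.a x0 x1 = 2 * T.w x2 := by rw [a_symm T]; omega
    have ea02 : T.a x0 x2 = 2 * T.w x2 := by omega
    have ea20 : T.a x2 x0 = 2 * T.w x2 := by rw [a_symm T]; omega
    have ea03 : T.a x0 x3 = 2 * T.w x2 := by omega
    have ea30 : T.a x3 x0 = 2 * T.w x2 := by rw [a_symm T]; omega
    have ed0 : T.a x0 x0 = -4 * T.w x2 := by omega
    have ed1 : T.a x1 x1 = -4 * T.w x2 := by omega
    have ed2 : T.a x2 x2 = -2 * T.w x2 := by omega
    have ed3 : T.a x3 x3 = -4 * T.w x2 := by omega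
    have R0 : T.w x2 * (-4 * T.m x0 + 2 * T.m x1 + 2 * T.m x2 + 2 * T.m x3) = 0 := by linear_combination r0 - (T.m x0) * ed0 - (T.m x1) * ea01 - (T.m x2) * ea02 - (T.m x3) * ea03
    have S0 := (mul_eq_zero.1 R0).resolve_left (T.w_pos x2).ne'
    have R1 : T.w x2 * (2 * T.m x0 + -4 * T.m x1) = 0 := by linear_combination r1 - (T.m x0) * ea10 - (T.m x1) * ed1 - (T.m x2) * z12 - (T.m x3) * z13
    have S1 := (mul_eq_zero.1 R1).resolve_left (T.w_pos x2).ne'
    have R2 : T.w x2 * (2 * T.m x0 + -2 * T.m x2) = 0 := by linear_combination r2 - (T.m x0) * ea20 - (T.m x1) * z21 - (T.m x2) * ed2 - (T.m x3) * z23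
    have S2 := (mul_eq_zero.1 R2).resolve_left (T.w_pos x2).ne'
    have R3 : T.w x2 * (2 * T.m x0 + -4 * T.m x3) = 0 := by linear_combination r3 - (T.m x0) * ea30 - (T.m x1) * z31 - (T.m x2) * z32 - (T.m x3) * ed3
    have S3 := (mul_eq_zero.1 R3).resolve_left (T.w_pos x2).ne'
    exact ⟨x0, x1, x3, x2, T.m x1, T.w x2, inj4 d01 d03 d02 d13 d12 d32, Or.inr (Or.inr (Or.inr (Or.inr (Or.inr (⟨(by first | omega | linarith : T.m x0 = 2 * T.m x1), (by first | omega | linarith : T.m x1 = T.m x1), (by first | omega | linarith : T.m x3 = T.m x1), (by first | omega | linarith : T.m x2 = 2 * T.m x1), (by first | omega | linarith : T.w x0 = 2 * T.w x2), (by first | omega | linarith : T.w x1 = 2 * T.w x2), (by first | omega | linarith : T.w x3 = 2 * T.w x2), (by first | omega | linarith : T.w x2 = T.w x2), (by first | omega | linarith : T.a x0 x0 = -4 * T.w x2), (by first | omega | linarith : T.a x0 x1 = 2 * T.w x2), (by first | omega | linarith : T.a x0 x3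 = 2 * T.w x2), (by first | omega | linarith : T.a x0 x2 = 2 * T.w x2), (by first | omega | linarith : T.a x1 x1 = -4 * T.w x2), (by first | omega | linarith : T.a x1 x3 = 0), (by first | omega | linarith : T.a x1 x2 = 0), (by first | omega | linarith : T.a x3 x3 = -4 * T.w x2), (by first | omega | linarith : T.a x3 x2 = 0), (by first | omega | linarith : T.a x2 x2 = -2 * T.w x2)⟩)))))⟩
    -- type 6 perm (0, 1, 3, 2)
  · -- ('S', 'L') ('S', 'L')
    have ew0 : T.w x0 = 2 * T.w x2 := by omega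
    have ew1 : T.w x1 = 2 * T.w x2 := by omega
    have ew2 : T.w x2 = 1 * T.w x2 := by omega
    have ew3 : T.w x3 = 1 * T.w x2 := by omega
    have ea10 : T.a x1 x0 = 2 * T.w x2 := by omega
    have ea01 : T.a x0 x1 = 2 * T.w x2 := by rw [a_symm T]; omega
    have ea02 : T.a x0 x2 = 2 * T.w x2 := by omega
    have ea20 : T.a x2 x0 = 2 * T.w x2 := by rw [a_symm T]; omega
    have ea03 : T.a x0 x3 = 2 * T.w x2 := by omega
    have ea30 : T.a x3 x0 = 2 * T.w x2 := by rw [a_symm T]; omega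
    have ed0 : T.a x0 x0 = -4 * T.w x2 := by omega
    have ed1 : T.a x1 x1 = -4 * T.w x2 := by omega
    have ed2 : T.a x2 x2 = -2 * T.w x2 := by omega
    have ed3 : T.a x3 x3 = -2 * T.w x2 := by omega
    have R0 : T.w x2 * (-4 * T.m x0 + 2 * T.m x1 + 2 * T.m x2 + 2 * T.m x3) = 0 := by linear_combination r0 - (T.m x0) * ed0 - (T.m x1) * ea01 - (T.m x2) * ea02 - (T.m x3) * ea03
    have S0 := (mul_eq_zero.1 R0).resolve_left (T.w_pos x2).ne'
    have R1 : T.w x2 * (2 * T.m x0 + -4 * T.m x1) = 0 := by linear_combination r1 - (T.m x0) * ea10 - (T.m x1) * ed1 - (T.m x2) * z12 - (T.m x3) * z13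
    have S1 := (mul_eq_zero.1 R1).resolve_left (T.w_pos x2).ne'
    have R2 : T.w x2 * (2 * T.m x0 + -2 * T.m x2) = 0 := by linear_combination r2 - (T.m x0) * ea20 - (T.m x1) * z21 - (T.m x2) * ed2 - (T.m x3) * z23
    have S2 := (mul_eq_zero.1 R2).resolve_left (T.w_pos x2).ne'
    have R3 : T.w x2 * (2 * T.m x0 + -2 * T.m x3) = 0 := by linear_combination r3 - (T.m x0) * ea30 - (T.m x1) * z31 - (T.m x2) * z32 - (T.m x3) * ed3
    have S3 := (mul_eq_zero.1 R3).resolve_left (T.w_pos x2).ne'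
    exfalso; linarith
  · -- ('S', 'L') ('S', 'R')
    have ew0 : T.w x0 = 2 * T.w x2 := by omega
    have ew1 : T.w x1 = 2 * T.w x2 := by omega
    have ew2 : T.w x2 = 1 * T.w x2 := by omega
    have ew3 : T.w x3 = 4 * T.w x2 := by omega
    have ea10 : T.a x1 x0 = 2 * T.w x2 := by omega
    have ea01 : T.a x0 x1 = 2 * T.w x2 := by rw [a_symm T]; omega
    have ea02 : T.a x0 x2 = 2 * T.w x2 := by omega
    have ea20 : T.a x2 x0 = 2 * T.w x2 := by rw [a_symm T]; omega
    have ea03 : T.a x0 x3 = 4 * T.w x2 := by omega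
    have ea30 : T.a x3 x0 = 4 * T.w x2 := by rw [a_symm T]; omega
    have ed0 : T.a x0 x0 = -4 * T.w x2 := by omega
    have ed1 : T.a x1 x1 = -4 * T.w x2 := by omega
    have ed2 : T.a x2 x2 = -2 * T.w x2 := by omega
    have ed3 : T.a x3 x3 = -8 * T.w x2 := by omega
    have R0 : T.w x2 * (-4 * T.m x0 + 2 * T.m x1 + 2 * T.m x2 + 4 * T.m x3) = 0 := by linear_combination r0 - (T.m x0) * ed0 - (T.m x1) * ea01 - (T.m x2) * ea02 - (T.m x3) * ea03
    have S0 := (mul_eq_zero.1 R0).resolve_left (T.w_pos x2).ne'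
    have R1 : T.w x2 * (2 * T.m x0 + -4 * T.m x1) = 0 := by linear_combination r1 - (T.m x0) * ea10 - (T.m x1) * ed1 - (T.m x2) * z12 - (T.m x3) * z13
    have S1 := (mul_eq_zero.1 R1).resolve_left (T.w_pos x2).ne'
    have R2 : T.w x2 * (2 * T.m x0 + -2 * T.m x2) = 0 := by linear_combination r2 - (T.m x0) * ea20 - (T.m x1) * z21 - (T.m x2) * ed2 - (T.m x3) * z23
    have S2 := (mul_eq_zero.1 R2).resolve_left (T.w_pos x2).ne'
    have R3 : T.w x2 * (4 * T.m x0 + -8 * T.m x3) = 0 := by linear_combination r3 - (T.m x0) * ea30 - (T.m x1) * z31 - (T.m x2) * z32 - (T.m x3) * ed3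
    have S3 := (mul_eq_zero.1 R3).resolve_left (T.w_pos x2).ne'
    exfalso; linarith
  · -- ('S', 'L') ('L', 'S')
    exfalso; omega
  · -- ('S', 'L') ('R', 'S')
    exfalso; omega
  · -- ('S', 'R') ('S', 'S')
    have ew0 : T.w x0 = 1 * T.w x0 := by omega
    have ew1 : T.w x1 = 1 * T.w x0 := by omega
    have ew2 : T.w x2 = 2 * T.w x0 := by omega
    have ew3 : T.w x3 = 1 * T.w x0 := by omega
    have ea10 : T.a x1 x0 = 1 * T.w x0 := by omega
    have ea01 : T.a x0 x1 = 1 * T.w x0 := by rw [a_symm T]; omega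
    have ea02 : T.a x0 x2 = 2 * T.w x0 := by omega
    have ea20 : T.a x2 x0 = 2 * T.w x0 := by rw [a_symm T]; omega
    have ea03 : T.a x0 x3 = 1 * T.w x0 := by omega
    have ea30 : T.a x3 x0 = 1 * T.w x0 := by rw [a_symm T]; omega
    have ed0 : T.a x0 x0 = -2 * T.w x0 := by omega
    have ed1 : T.a x1 x1 = -2 * T.w x0 := by omega
    have ed2 : T.a x2 x2 = -4 * T.w x0 := by omega
    have ed3 : T.a x3 x3 = -2 * T.w x0 := by omega
    have R0 : T.w x0 * (-2 * T.m x0 + 1 * T.m x1 + 2 * T.m x2 + 1 * T.m x3) = 0 := by linear_combination r0 - (T.m x0) * ed0 - (T.m x1) * ea01 - (T.m x2) * ea02 - (T.m x3) * ea03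
    have S0 := (mul_eq_zero.1 R0).resolve_left (T.w_pos x0).ne'
    have R1 : T.w x0 * (1 * T.m x0 + -2 * T.m x1) = 0 := by linear_combination r1 - (T.m x0) * ea10 - (T.m x1) * ed1 - (T.m x2) * z12 - (T.m x3) * z13
    have S1 := (mul_eq_zero.1 R1).resolve_left (T.w_pos x0).ne'
    have R2 : T.w x0 * (2 * T.m x0 + -4 * T.m x2) = 0 := by linear_combination r2 - (T.m x0) * ea20 - (T.m x1) * z21 - (T.m x2) * ed2 - (T.m x3) * z23
    have S2 := (mul_eq_zero.1 R2).resolve_left (T.w_pos x0).ne'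
    have R3 : T.w x0 * (1 * T.m x0 + -2 * T.m x3) = 0 := by linear_combination r3 - (T.m x0) * ea30 - (T.m x1) * z31 - (T.m x2) * z32 - (T.m x3) * ed3
    have S3 := (mul_eq_zero.1 R3).resolve_left (T.w_pos x0).ne'
    exact ⟨x0, x1, x3, x2, T.m x1, T.w x0, inj4 d01 d03 d02 d13 d12 d32, Or.inr (Or.inr (Or.inr (Or.inr (Or.inl ⟨(by first | omega | linarith : T.m x0 = 2 * T.m x1), (by first | omega | linarith : T.m x1 = T.m x1), (by first | omega | linarith : T.m x3 = T.m x1), (by first | omega | linarith : T.m x2 = T.m x1), (by first | omega | linarith : T.w x0 = T.w x0), (by first | omega | linarith : T.w x1 = T.w x0), (by first | omega | linarith : T.w x3 = T.w x0), (by first | omega | linarith : T.w x2 = 2 * T.w x0), (by first | omega | linarith : T.a x0 x0 = -2 * T.w x0), (by first | omega | linarith : T.a x0 x1 = T.w x0), (by first | omega | linarith : T.a x0 x3 = T.w x0), (by first | omega | linarith : T.a x0 x2 = 2 * T.w x0), (by first | omega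 | linarith : T.a x1 x1 = -2 * T.w x0), (by first | omega | linarith : T.a x1 x3 = 0), (by first | omega | linarith : T.a x1 x2 = 0), (by first | omega | linarith : T.a x3 x3 = -2 * T.w x0), (by first | omega | linarith : T.a x3 x2 = 0), (by first | omega | linarith : T.a x2 x2 = -4 * T.w x0)⟩))))⟩
    -- type 5 perm (0, 1, 3, 2)
  · -- ('S', 'R') ('S', 'L')
    have ew0 : T.w x0 = 2 * T.w x3 := by omega
    have ew1 : T.w x1 = 2 * T.w x3 := by omega
    have ew2 : T.w x2 = 4 * T.w x3 := by omega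
    have ew3 : T.w x3 = 1 * T.w x3 := by omega
    have ea10 : T.a x1 x0 = 2 * T.w x3 := by omega
    have ea01 : T.a x0 x1 = 2 * T.w x3 := by rw [a_symm T]; omega
    have ea02 : T.a x0 x2 = 4 * T.w x3 := by omega
    have ea20 : T.a x2 x0 = 4 * T.w x3 := by rw [a_symm T]; omega
    have ea03 : T.a x0 x3 = 2 * T.w x3 := by omega
    have ea30 : T.a x3 x0 = 2 * T.w x3 := by rw [a_symm T]; omega
    have ed0 : T.a x0 x0 = -4 * T.w x3 := by omega
    have ed1 : T.a x1 x1 = -4 * T.w x3 := by omega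
    have ed2 : T.a x2 x2 = -8 * T.w x3 := by omega
    have ed3 : T.a x3 x3 = -2 * T.w x3 := by omega
    have R0 : T.w x3 * (-4 * T.m x0 + 2 * T.m x1 + 4 * T.m x2 + 2 * T.m x3) = 0 := by linear_combination r0 - (T.m x0) * ed0 - (T.m x1) * ea01 - (T.m x2) * ea02 - (T.m x3) * ea03
    have S0 := (mul_eq_zero.1 R0).resolve_left (T.w_pos x3).ne'
    have R1 : T.w x3 * (2 * T.m x0 + -4 * T.m x1) = 0 := by linear_combination r1 - (T.m x0) * ea10 - (T.m x1) * ed1 - (T.m x2) * z12 - (T.m x3) * z13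
    have S1 := (mul_eq_zero.1 R1).resolve_left (T.w_pos x3).ne'
    have R2 : T.w x3 * (4 * T.m x0 + -8 * T.m x2) = 0 := by linear_combination r2 - (T.m x0) * ea20 - (T.m x1) * z21 - (T.m x2) * ed2 - (T.m x3) * z23
    have S2 := (mul_eq_zero.1 R2).resolve_left (T.w_pos x3).ne'
    have R3 : T.w x3 * (2 * T.m x0 + -2 * T.m x3) = 0 := by linear_combination r3 - (T.m x0) * ea30 - (T.m x1) * z31 - (T.m x2) * z32 - (T.m x3) * ed3
    have S3 := (mul_eq_zero.1 R3).resolve_left (T.w_pos x3).ne'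
    exfalso; linarith
  · -- ('S', 'R') ('S', 'R')
    have ew0 : T.w x0 = 1 * T.w x0 := by omega
    have ew1 : T.w x1 = 1 * T.w x0 := by omega
    have ew2 : T.w x2 = 2 * T.w x0 := by omega
    have ew3 : T.w x3 = 2 * T.w x0 := by omega
    have ea10 : T.a x1 x0 = 1 * T.w x0 := by omega
    have ea01 : T.a x0 x1 = 1 * T.w x0 := by rw [a_symm T]; omega
    have ea02 : T.a x0 x2 = 2 * T.w x0 := by omega
    have ea20 : T.a x2 x0 = 2 * T.w x0 := by rw [a_symm T]; omega
    have ea03 : T.a x0 x3 = 2 * T.w x0 := by omega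
    have ea30 : T.a x3 x0 = 2 * T.w x0 := by rw [a_symm T]; omega
    have ed0 : T.a x0 x0 = -2 * T.w x0 := by omega
    have ed1 : T.a x1 x1 = -2 * T.w x0 := by omega
    have ed2 : T.a x2 x2 = -4 * T.w x0 := by omega
    have ed3 : T.a x3 x3 = -4 * T.w x0 := by omega
    have R0 : T.w x0 * (-2 * T.m x0 + 1 * T.m x1 + 2 * T.m x2 + 2 * T.m x3) = 0 := by linear_combination r0 - (T.m x0) * ed0 - (T.m x1) * ea01 - (T.m x2) * ea02 - (T.m x3) * ea03
    have S0 := (mul_eq_zero.1 R0).resolve_left (T.w_pos x0).ne'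
    have R1 : T.w x0 * (1 * T.m x0 + -2 * T.m x1) = 0 := by linear_combination r1 - (T.m x0) * ea10 - (T.m x1) * ed1 - (T.m x2) * z12 - (T.m x3) * z13
    have S1 := (mul_eq_zero.1 R1).resolve_left (T.w_pos x0).ne'
    have R2 : T.w x0 * (2 * T.m x0 + -4 * T.m x2) = 0 := by linear_combination r2 - (T.m x0) * ea20 - (T.m x1) * z21 - (T.m x2) * ed2 - (T.m x3) * z23
    have S2 := (mul_eq_zero.1 R2).resolve_left (T.w_pos x0).ne'
    have R3 : T.w x0 * (2 * T.m x0 + -4 * T.m x3) = 0 := by linear_combination r3 - (T.m x0) * ea30 - (T.m x1) * z31 - (T.m x2) * z32 - (T.m x3) * ed3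
    have S3 := (mul_eq_zero.1 R3).resolve_left (T.w_pos x0).ne'
    exfalso; linarith
  · -- ('S', 'R') ('L', 'S')
    exfalso; omega
  · -- ('S', 'R') ('R', 'S')
    exfalso; omega
  · -- ('L', 'S') ('S', 'S')
    exfalso; omega
  · -- ('L', 'S') ('S', 'L')
    exfalso; omega
  · -- ('L', 'S') ('S', 'R')
    exfalso; omega
  · -- ('L', 'S') ('L', 'S')
    have ew0 : T.w x0 = 1 * T.w x0 := by omega
    have ew1 : T.w x1 = 2 * T.w x0 := by omega
    have ew2 : T.w x2 = 1 * T.w x0 := by omega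
    have ew3 : T.w x3 = 1 * T.w x0 := by omega
    have ea10 : T.a x1 x0 = 2 * T.w x0 := by omega
    have ea01 : T.a x0 x1 = 2 * T.w x0 := by rw [a_symm T]; omega
    have ea02 : T.a x0 x2 = 1 * T.w x0 := by omega
    have ea20 : T.a x2 x0 = 1 * T.w x0 := by rw [a_symm T]; omega
    have ea03 : T.a x0 x3 = 1 * T.w x0 := by omega
    have ea30 : T.a x3 x0 = 1 * T.w x0 := by rw [a_symm T]; omega
    have ed0 : T.a x0 x0 = -2 * T.w x0 := by omega
    have ed1 : T.a x1 x1 = -4 * T.w x0 := by omega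
    have ed2 : T.a x2 x2 = -2 * T.w x0 := by omega
    have ed3 : T.a x3 x3 = -2 * T.w x0 := by omega
    have R0 : T.w x0 * (-2 * T.m x0 + 2 * T.m x1 + 1 * T.m x2 + 1 * T.m x3) = 0 := by linear_combination r0 - (T.m x0) * ed0 - (T.m x1) * ea01 - (T.m x2) * ea02 - (T.m x3) * ea03
    have S0 := (mul_eq_zero.1 R0).resolve_left (T.w_pos x0).ne'
    have R1 : T.w x0 * (2 * T.m x0 + -4 * T.m x1) = 0 := by linear_combination r1 - (T.m x0) * ea10 - (T.m x1) * ed1 - (T.m x2) * z12 - (T.m x3) * z13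
    have S1 := (mul_eq_zero.1 R1).resolve_left (T.w_pos x0).ne'
    have R2 : T.w x0 * (1 * T.m x0 + -2 * T.m x2) = 0 := by linear_combination r2 - (T.m x0) * ea20 - (T.m x1) * z21 - (T.m x2) * ed2 - (T.m x3) * z23
    have S2 := (mul_eq_zero.1 R2).resolve_left (T.w_pos x0).ne'
    have R3 : T.w x0 * (1 * T.m x0 + -2 * T.m x3) = 0 := by linear_combination r3 - (T.m x0) * ea30 - (T.m x1) * z31 - (T.m x2) * z32 - (T.m x3) * ed3
    have S3 := (mul_eq_zero.1 R3).resolve_left (T.w_pos x0).ne'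
    exact ⟨x0, x2, x3, x1, T.m x2, T.w x0, inj4 d02 d03 d01 d23 d21 d31, Or.inr (Or.inr (Or.inr (Or.inr (Or.inl ⟨(by first | omega | linarith : T.m x0 = 2 * T.m x2), (by first | omega | linarith : T.m x2 = T.m x2), (by first | omega | linarith : T.m x3 = T.m x2), (by first | omega | linarith : T.m x1 = T.m x2), (by first | omega | linarith : T.w x0 = T.w x0), (by first | omega | linarith : T.w x2 = T.w x0), (by first | omega | linarith : T.w x3 = T.w x0), (by first | omega | linarith : T.w x1 = 2 * T.w x0), (by first | omega | linarith : T.a x0 x0 = -2 * T.w x0), (by first | omega | linarith : T.a x0 x2 = T.w x0), (by first | omega | linarith : T.a x0 x3 = T.w x0), (by first | omega | linarith : T.a x0 x1 = 2 * T.w x0), (by first | omega | linarith : T.a x2 x2 = -2 * T.w x0), (by first | omega | linarith : T.a x2 x3 = 0), (by first | omega | linarith : T.a x2 x1 = 0), (by first | omega | linarith : T.a x3 x3 = -2 * T.w x0), (by first | omega |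 linarith : T.a x3 x1 = 0), (by first | omega | linarith : T.a x1 x1 = -4 * T.w x0)⟩))))⟩
    -- type 5 perm (0, 2, 3, 1)
  · -- ('L', 'S') ('R', 'S')
    exfalso; omega
  · -- ('R', 'S') ('S', 'S')
    exfalso; omega
  · -- ('R', 'S') ('S', 'L')
    exfalso; omega
  · -- ('R', 'S') ('S', 'R')
    exfalso; omega
  · -- ('R', 'S') ('L', 'S')
    exfalso; omega
  · -- ('R', 'S') ('R', 'S')
    have ew0 : T.w x0 = 2 * T.w x1 := by omega
    have ew1 : T.w x1 = 1 * T.w x1 := by omega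
    have ew2 : T.w x2 = 2 * T.w x1 := by omega
    have ew3 : T.w x3 = 2 * T.w x1 := by omega
    have ea10 : T.a x1 x0 = 2 * T.w x1 := by omega
    have ea01 : T.a x0 x1 = 2 * T.w x1 := by rw [a_symm T]; omega
    have ea02 : T.a x0 x2 = 2 * T.w x1 := by omega
    have ea20 : T.a x2 x0 = 2 * T.w x1 := by rw [a_symm T]; omega
    have ea03 : T.a x0 x3 = 2 * T.w x1 := by omega
    have ea30 : T.a x3 x0 = 2 * T.w x1 := by rw [a_symm T]; omega
    have ed0 : T.a x0 x0 = -4 * T.w x1 := by omega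
    have ed1 : T.a x1 x1 = -2 * T.w x1 := by omega
    have ed2 : T.a x2 x2 = -4 * T.w x1 := by omega
    have ed3 : T.a x3 x3 = -4 * T.w x1 := by omega
    have R0 : T.w x1 * (-4 * T.m x0 + 2 * T.m x1 + 2 * T.m x2 + 2 * T.m x3) = 0 := by linear_combination r0 - (T.m x0) * ed0 - (T.m x1) * ea01 - (T.m x2) * ea02 - (T.m x3) * ea03
    have S0 := (mul_eq_zero.1 R0).resolve_left (T.w_pos x1).ne'
    have R1 : T.w x1 * (2 * T.m x0 + -2 * T.m x1) = 0 := by linear_combination r1 - (T.m x0) * ea10 - (T.m x1) * ed1 - (T.m x2) * z12 - (T.m x3) * z13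
    have S1 := (mul_eq_zero.1 R1).resolve_left (T.w_pos x1).ne'
    have R2 : T.w x1 * (2 * T.m x0 + -4 * T.m x2) = 0 := by linear_combination r2 - (T.m x0) * ea20 - (T.m x1) * z21 - (T.m x2) * ed2 - (T.m x3) * z23
    have S2 := (mul_eq_zero.1 R2).resolve_left (T.w_pos x1).ne'
    have R3 : T.w x1 * (2 * T.m x0 + -4 * T.m x3) = 0 := by linear_combination r3 - (T.m x0) * ea30 - (T.m x1) * z31 - (T.m x2) * z32 - (T.m x3) * ed3
    have S3 := (mul_eq_zero.1 R3).resolve_left (T.w_pos x1).ne'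
    exact ⟨x0, x2, x3, x1, T.m x2, T.w x1, inj4 d02 d03 d01 d23 d21 d31, Or.inr (Or.inr (Or.inr (Or.inr (Or.inr (⟨(by first | omega | linarith : T.m x0 = 2 * T.m x2), (by first | omega | linarith : T.m x2 = T.m x2), (by first | omega | linarith : T.m x3 = T.m x2), (by first | omega | linarith : T.m x1 = 2 * T.m x2), (by first | omega | linarith : T.w x0 = 2 * T.w x1), (by first | omega | linarith : T.w x2 = 2 * T.w x1), (by first | omega | linarith : T.w x3 = 2 * T.w x1), (by first | omega | linarith : T.w x1 = T.w x1), (by first | omega | linarith : T.a x0 x0 = -4 * T.w x1), (by first | omega | linarith : T.a x0 x2 = 2 * T.w x1), (by first | omega | linarith : T.a x0 x3 = 2 * T.w x1), (by first | omega | linarith : T.a x0 x1 = 2 * T.w x1), (by first | omega | linarith : T.a x2 x2 = -4 * T.w x1), (by first | omega | linarith : T.a x2 x3 = 0), (by first | omega | linarith : T.a x2 x1 = 0), (by first | omega | linarith : T.a x3 x3 = -4 * T.w x1),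 (by first | omega | linarith : T.a x3 x1 = 0), (by first | omega | linarith : T.a x1 x1 = -2 * T.w x1)⟩)))))⟩
    -- type 6 perm (0, 2, 3, 1)

set_option maxHeartbeats 4000000 in
/-- Genus one classification: case n = 4: let T be a minimal numerical type of genus 1 on 4 indices.
Then all g_i = 0 and, for some permutation σ of the indices and some integers m, w, the
multiplicities, weights and intersection matrix (m_{σ(i)}, w_{σ(i)}, a_{σ(i)σ(j)}) are those of one
of the following 6 types: [four cycle] m = (m, m, m, m), w = (w, w, w, w), a = (-2 * w w 0 w / w -2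
* w w 0 / 0 w -2 * w w / w 0 w -2 * w); [up equal up] m = (2 * m, 2 * m, 2 * m, m), w = (w, 2 * w, 2
* w, 4 * w), a = (-2 * w 2 * w 0 0 / 2 * w -4 * w 2 * w 0 / 0 2 * w -4 * w 4 * w / 0 0 4 * w -8 *
w); [up equal down] m = (m, m, m, m), w = (w, 2 * w, 2 * w, w), a = (-2 * w 2 * w 0 0 / 2 * w -4 * w
2 * w 0 / 0 2 * w -4 * w 2 * w / 0 0 2 * w -2 * w); [down equal up] m = (m, 2 * m, 2 * m, m), w = (2
* w, w, w, 2 * w), a = (-4 * w 2 * w 0 0 / 2 * w -2 * w w 0 / 0 w -2 * w 2 * w / 0 0 2 * w -4 * w);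
[triple with up] m = (2 * m, m, m, m), w = (w, w, w, 2 * w), a = (-2 * w w w 2 * w / w -2 * w 0 0 /
w 0 -2 * w 0 / 2 * w 0 0 -4 * w); [triple with down] m = (2 * m, m, m, 2 * m), w = (2 * w, 2 * w, 2
* w, w), a = (-4 * w 2 * w 2 * w 2 * w / 2 * w -4 * w 0 0 / 2 * w 0 -4 * w 0 / 2 * w 0 0 -2 * w).
Only the classification direction is stated. -/
theorem result (T : Models.NumericalType 4) (hmin : T.IsMinimal) (hg : T.genus = 1) :
    (∀ i, T.g i = 0) ∧ ∃ (σ : Equiv.Perm (Fin 4)) (m w : ℤ),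
      ((T.m (σ 0) = m ∧ T.m (σ 1) = m ∧ T.m (σ 2) = m ∧ T.m (σ 3) = m ∧ T.w (σ 0) = w ∧ T.w (σ 1) = w ∧ T.w (σ 2) = w ∧ T.w (σ 3) = w ∧ T.a (σ 0) (σ 0) = -2 * w ∧ T.a (σ 0) (σ 1) = w ∧ T.a (σ 0) (σ 2) = 0 ∧ T.a (σ 0) (σ 3) = w ∧ T.a (σ 1) (σ 1) = -2 * w ∧ T.a (σ 1) (σ 2) = w ∧ T.a (σ 1) (σ 3) = 0 ∧ T.a (σ 2) (σ 2) = -2 * w ∧ T.a (σ 2) (σ 3) = w ∧ T.a (σ 3) (σ 3) = -2 * w) ∨
      (T.m (σ 0) = 2 * m ∧ T.m (σ 1) = 2 * m ∧ T.m (σ 2) = 2 * m ∧ T.m (σ 3) = m ∧ T.w (σ 0) = w ∧ T.w (σ 1) = 2 * w ∧ T.w (σ 2) = 2 * w ∧ T.w (σ 3) = 4 * w ∧ T.a (σ 0) (σ 0) = -2 * w ∧ T.a (σ 0) (σ 1) = 2 * w ∧ T.a (σ 0) (σ 2) = 0 ∧ T.a (σ 0) (σ 3) = 0 ∧ T.a (σ 1) (σ 1) = -4 * w ∧ T.a (σ 1) (σ 2) = 2 * w ∧ T.a (σ 1) (σ 3) = 0 ∧ T.a (σ 2) (σ 2) = -4 * w ∧ T.a (σ 2) (σ 3) = 4 * w ∧ T.a (σ 3) (σ 3) = -8 * w) ∨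
      (T.m (σ 0) = m ∧ T.m (σ 1) = m ∧ T.m (σ 2) = m ∧ T.m (σ 3) = m ∧ T.w (σ 0) = w ∧ T.w (σ 1) = 2 * w ∧ T.w (σ 2) = 2 * w ∧ T.w (σ 3) = w ∧ T.a (σ 0) (σ 0) = -2 * w ∧ T.a (σ 0) (σ 1) = 2 * w ∧ T.a (σ 0) (σ 2) = 0 ∧ T.a (σ 0) (σ 3) = 0 ∧ T.a (σ 1) (σ 1) = -4 * w ∧ T.a (σ 1) (σ 2) = 2 * w ∧ T.a (σ 1) (σ 3) = 0 ∧ T.a (σ 2) (σ 2) = -4 * w ∧ T.a (σ 2) (σ 3) = 2 * w ∧ T.a (σ 3) (σ 3) = -2 * w) ∨
      (T.m (σ 0) = m ∧ T.m (σ 1) = 2 * m ∧ T.m (σ 2) = 2 * m ∧ T.m (σ 3) = m ∧ T.w (σ 0) = 2 * w ∧ T.w (σ 1) = w ∧ T.w (σ 2) = w ∧ T.w (σ 3) = 2 * w ∧ T.a (σ 0) (σ 0) = -4 * w ∧ T.a (σ 0) (σ 1) = 2 * w ∧ T.a (σ 0) (σ 2) = 0 ∧ T.a (σ 0) (σ 3) = 0 ∧ T.a (σ 1) (σ 1) = -2 * w ∧ T.a (σ 1) (σ 2) = w ∧ T.a (σ 1) (σ 3) = 0 ∧ T.a (σ 2) (σ 2) = -2 * w ∧ T.a (σ 2) (σ 3) = 2 * w ∧ T.a (σ 3) (σ 3) = -4 * w) ∨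
      (T.m (σ 0) = 2 * m ∧ T.m (σ 1) = m ∧ T.m (σ 2) = m ∧ T.m (σ 3) = m ∧ T.w (σ 0) = w ∧ T.w (σ 1) = w ∧ T.w (σ 2) = w ∧ T.w (σ 3) = 2 * w ∧ T.a (σ 0) (σ 0) = -2 * w ∧ T.a (σ 0) (σ 1) = w ∧ T.a (σ 0) (σ 2) = w ∧ T.a (σ 0) (σ 3) = 2 * w ∧ T.a (σ 1) (σ 1) = -2 * w ∧ T.a (σ 1) (σ 2) = 0 ∧ T.a (σ 1) (σ 3) = 0 ∧ T.a (σ 2) (σ 2) = -2 * w ∧ T.a (σ 2) (σ 3) = 0 ∧ T.a (σ 3) (σ 3) = -4 * w) ∨
      (T.m (σ 0) = 2 * m ∧ T.m (σ 1) = m ∧ T.m (σ 2) = m ∧ T.m (σ 3) = 2 * m ∧ T.w (σ 0) = 2 * w ∧ T.w (σ 1) = 2 * w ∧ T.w (σ 2) = 2 * w ∧ T.w (σ 3) = w ∧ T.a (σ 0) (σ 0) = -4 * w ∧ T.a (σ 0) (σ 1) = 2 * w ∧ T.a (σ 0) (σ 2) = 2 * w ∧ T.a (σ 0) (σ 3) = 2 * w ∧ T.a (σ 1) (σ 1) = -4 * w ∧ T.a (σ 1) (σ 2) = 0 ∧ T.a (σ 1) (σ 3) = 0 ∧ T.a (σ 2) (σ 2) = -4 * w ∧ T.a (σ 2) (σ 3) = 0 ∧ T.a (σ 3) (σ 3) = -2 * w)) := by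
  have hn : 1 < 4 := by norm_num
  have h2g := two_mul_genus T
  rw [hg] at h2g
  have hsum0 : ∑ i, T.m i * (2 * T.w i * (T.g i - 1) - T.a i i) = 0 := by linarith
  have hterm : ∀ i ∈ (Finset.univ : Finset (Fin 4)), T.m i * (2 * T.w i * (T.g i - 1) - T.a i i) = 0 :=
    (Finset.sum_eq_zero_iff_of_nonneg (fun i _ => contribution_nonneg T hmin hn i)).1 hsum0
  have t0 := isMinusTwo_of_contribution_zero T hn 0 (hterm 0 (Finset.mem_univ _))
  have t1 := isMinusTwo_of_contribution_zero T hn 1 (hterm 1 (Finset.mem_univ _))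
  have t2 := isMinusTwo_of_contribution_zero T hn 2 (hterm 2 (Finset.mem_univ _))
  have t3 := isMinusTwo_of_contribution_zero T hn 3 (hterm 3 (Finset.mem_univ _))
  have hfin : ∀ j : Fin 4, j = 0 ∨ j = 1 ∨ j = 2 ∨ j = 3 := by decide
  refine ⟨fun i => ?_, ?_⟩
  · rcases hfin i with rfl | rfl | rfl | rfl
    exacts [t0.1, t1.1, t2.1, t3.1]
  have r0 := row_sum T 0
  have r1 := row_sum T 1
  have r2 := row_sum T 2
  have r3 := row_sum T 3
  simp only [Fin.sum_univ_four] at r0 r1 r2 r3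
  by_cases h01 : T.a 0 1 = 0
  · -- zero
    by_cases h02 : T.a 0 2 = 0
    · -- zero
      by_cases h03 : T.a 0 3 = 0
      · -- zero
        by_cases h12 : T.a 1 2 = 0
        · -- zero
          by_cases h13 : T.a 1 3 = 0
          · -- zero
            by_cases h23 : T.a 2 3 = 0
            · -- zero
              exact (iso_contra T 0 1 2 3 (by decide) h01 h02 h03).elim
            · -- nonzero
              exact (iso_contra T 0 1 2 3 (by decide) h01 h02 h03).elim
          · -- nonzero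
            by_cases h23 : T.a 2 3 = 0
            · -- zero
              exact (iso_contra T 0 1 2 3 (by decide) h01 h02 h03).elim
            · -- nonzero
              exact (iso_contra T 0 1 2 3 (by decide) h01 h02 h03).elim
        · -- nonzero
          by_cases h13 : T.a 1 3 = 0
          · -- zero
            by_cases h23 : T.a 2 3 = 0
            · -- zero
              exact (iso_contra T 0 1 2 3 (by decide) h01 h02 h03).elim
            · -- nonzero
              exact (iso_contra T 0 1 2 3 (by decide) h01 h02 h03).elim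
          · -- nonzero
            by_cases h23 : T.a 2 3 = 0
            · -- zero
              exact (iso_contra T 0 1 2 3 (by decide) h01 h02 h03).elim
            · -- nonzero
              exact absurd (chain3_types T (by norm_num) (by decide) (by decide) (by decide) t1 t2 t3 h12 h23).1 h13
      · -- nonzero
        by_cases h12 : T.a 1 2 = 0
        · -- zero
          by_cases h13 : T.a 1 3 = 0
          · -- zero
            by_cases h23 : T.a 2 3 = 0
            · -- zero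
              exact (iso_contra T 1 0 2 3 (by decide) (by rw [a_symm T]; exact h01) h12 h13).elim
            · -- nonzero
              exact (iso_contra T 1 0 2 3 (by decide) (by rw [a_symm T]; exact h01) h12 h13).elim
          · -- nonzero
            by_cases h23 : T.a 2 3 = 0
            · -- zero
              exact (iso_contra T 2 0 1 3 (by decide) (by rw [a_symm T]; exact h02) (by rw [a_symm T]; exact h12) h23).elim
            · -- nonzero
              obtain ⟨y0, y1, y2, y3, m, w, hinj, hp⟩ := shape_star T (x0 := 3) (x1 := 0) (x2 := 1) (x3 := 2) (by decide) (by decide) (by decide) (by decide) (by decide) (by decide) t3 t0 t1 t2 h03 (by rw [a_symm T]; exact h13) (by rw [a_symm T]; exact h23) h01 h02 h12 (by linear_combination r3) (by linear_combination r0) (by linear_combination r1) (by linear_combination r2)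
              exact ⟨perm4 y0 y1 y2 y3 hinj, m, w, hp⟩
        · -- nonzero
          by_cases h13 : T.a 1 3 = 0
          · -- zero
            by_cases h23 : T.a 2 3 = 0
            · -- zero
              exact (split_contra T 0 3 1 2 (by decide) (by decide) (by decide) h01 h02 (by rw [a_symm T]; exact h13) (by rw [a_symm T]; exact h23)).elim
            · -- nonzero
              obtain ⟨y0, y1, y2, y3, m, w, hinj, hp⟩ := shape_p4 T (x0 := 0) (x1 := 3) (x2 := 2) (x3 := 1) (by decide) (by decide) (by decide) (by decide) (by decide) (by decide) t0 t3 t2 t1 h03 (by rw [a_symm T]; exact h23) (by rw [a_symm T]; exact h12) h02 h01 (by rw [a_symm T]; exact h13) (by linear_combination r0) (by linear_combination r3) (by linear_combination r2) (by linear_combination r1)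
              exact ⟨perm4 y0 y1 y2 y3 hinj, m, w, hp⟩
          · -- nonzero
            by_cases h23 : T.a 2 3 = 0
            · -- zero
              obtain ⟨y0, y1, y2, y3, m, w, hinj, hp⟩ := shape_p4 T (x0 := 0) (x1 := 3) (x2 := 1) (x3 := 2) (by decide) (by decide) (by decide) (by decide) (by decide) (by decide) t0 t3 t1 t2 h03 (by rw [a_symm T]; exact h13) h12 h01 h02 (by rw [a_symm T]; exact h23) (by linear_combination r0) (by linear_combination r3) (by linear_combination r1) (by linear_combination r2)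
              exact ⟨perm4 y0 y1 y2 y3 hinj, m, w, hp⟩
            · -- nonzero
              exact absurd (chain3_types T (by norm_num) (by decide) (by decide) (by decide) t1 t2 t3 h12 h23).1 h13
    · -- nonzero
      by_cases h03 : T.a 0 3 = 0
      · -- zero
        by_cases h12 : T.a 1 2 = 0
        · -- zero
          by_cases h13 : T.a 1 3 = 0
          · -- zero
            by_cases h23 : T.a 2 3 = 0
            · -- zero
              exact (iso_contra T 1 0 2 3 (by decide) (by rw [a_symm T]; exact h01) h12 h13).elim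
            · -- nonzero
              exact (iso_contra T 1 0 2 3 (by decide) (by rw [a_symm T]; exact h01) h12 h13).elim
          · -- nonzero
            by_cases h23 : T.a 2 3 = 0
            · -- zero
              exact (split_contra T 0 2 1 3 (by decide) (by decide) (by decide) h01 h03 (by rw [a_symm T]; exact h12) h23).elim
            · -- nonzero
              obtain ⟨y0, y1, y2, y3, m, w, hinj, hp⟩ := shape_p4 T (x0 := 0) (x1 := 2) (x2 := 3) (x3 := 1) (by decide) (by decide) (by decide) (by decide) (by decide) (by decide) t0 t2 t3 t1 h02 h23 (by rw [a_symm T]; exact h13) h03 h01 (by rw [a_symm T]; exact h12) (by linear_combination r0) (by linear_combination r2) (by linear_combination r3) (by linear_combination r1)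
              exact ⟨perm4 y0 y1 y2 y3 hinj, m, w, hp⟩
        · -- nonzero
          by_cases h13 : T.a 1 3 = 0
          · -- zero
            by_cases h23 : T.a 2 3 = 0
            · -- zero
              exact (iso_contra T 3 0 1 2 (by decide) (by rw [a_symm T]; exact h03) (by rw [a_symm T]; exact h13) (by rw [a_symm T]; exact h23)).elim
            · -- nonzero
              obtain ⟨y0, y1, y2, y3, m, w, hinj, hp⟩ := shape_star T (x0 := 2) (x1 := 0) (x2 := 1) (x3 := 3) (by decide) (by decide) (by decide) (by decide) (by decide) (by decide) t2 t0 t1 t3 h02 (by rw [a_symm T]; exact h12) h23 h01 h03 h13 (by linear_combination r2) (by linear_combination r0) (by linear_combination r1) (by linear_combination r3)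
              exact ⟨perm4 y0 y1 y2 y3 hinj, m, w, hp⟩
          · -- nonzero
            by_cases h23 : T.a 2 3 = 0
            · -- zero
              obtain ⟨y0, y1, y2, y3, m, w, hinj, hp⟩ := shape_p4 T (x0 := 0) (x1 := 2) (x2 := 1) (x3 := 3) (by decide) (by decide) (by decide) (by decide) (by decide) (by decide) t0 t2 t1 t3 h02 (by rw [a_symm T]; exact h12) h13 h01 h03 h23 (by linear_combination r0) (by linear_combination r2) (by linear_combination r1) (by linear_combination r3)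
              exact ⟨perm4 y0 y1 y2 y3 hinj, m, w, hp⟩
            · -- nonzero
              exact absurd (chain3_types T (by norm_num) (by decide) (by decide) (by decide) t1 t2 t3 h12 h23).1 h13
      · -- nonzero
        by_cases h12 : T.a 1 2 = 0
        · -- zero
          by_cases h13 : T.a 1 3 = 0
          · -- zero
            by_cases h23 : T.a 2 3 = 0
            · -- zero
              exact (iso_contra T 1 0 2 3 (by decide) (by rw [a_symm T]; exact h01) h12 h13).elim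
            · -- nonzero
              exact absurd (chain3_types T (by norm_num) (by decide) (by decide) (by decide) t0 t2 t3 h02 h23).1 h03
          · -- nonzero
            by_cases h23 : T.a 2 3 = 0
            · -- zero
              obtain ⟨y0, y1, y2, y3, m, w, hinj, hp⟩ := shape_p4 T (x0 := 1) (x1 := 3) (x2 := 0) (x3 := 2) (by decide) (by decide) (by decide) (by decide) (by decide) (by decide) t1 t3 t0 t2 h13 (by rw [a_symm T]; exact h03) h02 (by rw [a_symm T]; exact h01) h12 (by rw [a_symm T]; exact h23) (by linear_combination r1) (by linear_combination r3) (by linear_combination r0) (by linear_combination r2)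
              exact ⟨perm4 y0 y1 y2 y3 hinj, m, w, hp⟩
            · -- nonzero
              exact absurd (chain3_types T (by norm_num) (by decide) (by decide) (by decide) t0 t2 t3 h02 h23).1 h03
        · -- nonzero
          by_cases h13 : T.a 1 3 = 0
          · -- zero
            by_cases h23 : T.a 2 3 = 0
            · -- zero
              obtain ⟨y0, y1, y2, y3, m, w, hinj, hp⟩ := shape_p4 T (x0 := 1) (x1 := 2) (x2 := 0) (x3 := 3) (by decide) (by decide) (by decide) (by decide) (by decide) (by decide) t1 t2 t0 t3 h12 (by rw [a_symm T]; exact h02) h03 (by rw [a_symm T]; exact h01) h13 h23 (by linear_combination r1) (by linear_combination r2) (by linear_combination r0) (by linear_combination r3)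
              exact ⟨perm4 y0 y1 y2 y3 hinj, m, w, hp⟩
            · -- nonzero
              exact absurd (chain3_types T (by norm_num) (by decide) (by decide) (by decide) t0 t2 t3 h02 h23).1 h03
          · -- nonzero
            by_cases h23 : T.a 2 3 = 0
            · -- zero
              obtain ⟨y0, y1, y2, y3, m, w, hinj, hp⟩ := shape_c4 T (x0 := 0) (x1 := 2) (x2 := 1) (x3 := 3) (by decide) (by decide) (by decide) (by decide) (by decide) (by decide) t0 t2 t1 t3 h02 (by rw [a_symm T]; exact h12) h13 (by rw [a_symm T]; exact h03) h01 h23 (by linear_combination r0) (by linear_combination r2) (by linear_combination r1) (by linear_combination r3)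
              exact ⟨perm4 y0 y1 y2 y3 hinj, m, w, hp⟩
            · -- nonzero
              exact absurd (chain3_types T (by norm_num) (by decide) (by decide) (by decide) t0 t2 t3 h02 h23).1 h03
  · -- nonzero
    by_cases h02 : T.a 0 2 = 0
    · -- zero
      by_cases h03 : T.a 0 3 = 0
      · -- zero
        by_cases h12 : T.a 1 2 = 0
        · -- zero
          by_cases h13 : T.a 1 3 = 0
          · -- zero
            by_cases h23 : T.a 2 3 = 0
            · -- zero
              exact (iso_contra T 2 0 1 3 (by decide) (by rw [a_symm T]; exact h02) (by rw [a_symm T]; exact h12) h23).elim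
            · -- nonzero
              exact (split_contra T 0 1 2 3 (by decide) (by decide) (by decide) h02 h03 h12 h13).elim
          · -- nonzero
            by_cases h23 : T.a 2 3 = 0
            · -- zero
              exact (iso_contra T 2 0 1 3 (by decide) (by rw [a_symm T]; exact h02) (by rw [a_symm T]; exact h12) h23).elim
            · -- nonzero
              obtain ⟨y0, y1, y2, y3, m, w, hinj, hp⟩ := shape_p4 T (x0 := 0) (x1 := 1) (x2 := 3) (x3 := 2) (by decide) (by decide) (by decide) (by decide) (by decide) (by decide) t0 t1 t3 t2 h01 h13 (by rw [a_symm T]; exact h23) h03 h02 h12 (by linear_combination r0) (by linear_combination r1) (by linear_combination r3) (by linear_combination r2)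
              exact ⟨perm4 y0 y1 y2 y3 hinj, m, w, hp⟩
        · -- nonzero
          by_cases h13 : T.a 1 3 = 0
          · -- zero
            by_cases h23 : T.a 2 3 = 0
            · -- zero
              exact (iso_contra T 3 0 1 2 (by decide) (by rw [a_symm T]; exact h03) (by rw [a_symm T]; exact h13) (by rw [a_symm T]; exact h23)).elim
            · -- nonzero
              obtain ⟨y0, y1, y2, y3, m, w, hinj, hp⟩ := shape_p4 T (x0 := 0) (x1 := 1) (x2 := 2) (x3 := 3) (by decide) (by decide) (by decide) (by decide) (by decide) (by decide) t0 t1 t2 t3 h01 h12 h23 h02 h03 h13 (by linear_combination r0) (by linear_combination r1) (by linear_combination r2) (by linear_combination r3)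
              exact ⟨perm4 y0 y1 y2 y3 hinj, m, w, hp⟩
          · -- nonzero
            by_cases h23 : T.a 2 3 = 0
            · -- zero
              obtain ⟨y0, y1, y2, y3, m, w, hinj, hp⟩ := shape_star T (x0 := 1) (x1 := 0) (x2 := 2) (x3 := 3) (by decide) (by decide) (by decide) (by decide) (by decide) (by decide) t1 t0 t2 t3 h01 h12 h13 h02 h03 h23 (by linear_combination r1) (by linear_combination r0) (by linear_combination r2) (by linear_combination r3)
              exact ⟨perm4 y0 y1 y2 y3 hinj, m, w, hp⟩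
            · -- nonzero
              exact absurd (chain3_types T (by norm_num) (by decide) (by decide) (by decide) t1 t2 t3 h12 h23).1 h13
      · -- nonzero
        by_cases h12 : T.a 1 2 = 0
        · -- zero
          by_cases h13 : T.a 1 3 = 0
          · -- zero
            by_cases h23 : T.a 2 3 = 0
            · -- zero
              exact (iso_contra T 2 0 1 3 (by decide) (by rw [a_symm T]; exact h02) (by rw [a_symm T]; exact h12) h23).elim
            · -- nonzero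
              obtain ⟨y0, y1, y2, y3, m, w, hinj, hp⟩ := shape_p4 T (x0 := 1) (x1 := 0) (x2 := 3) (x3 := 2) (by decide) (by decide) (by decide) (by decide) (by decide) (by decide) t1 t0 t3 t2 (by rw [a_symm T]; exact h01) h03 (by rw [a_symm T]; exact h23) h13 h12 h02 (by linear_combination r1) (by linear_combination r0) (by linear_combination r3) (by linear_combination r2)
              exact ⟨perm4 y0 y1 y2 y3 hinj, m, w, hp⟩
          · -- nonzero
            by_cases h23 : T.a 2 3 = 0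
            · -- zero
              exact absurd (chain3_types T (by norm_num) (by decide) (by decide) (by decide) t0 t1 t3 h01 h13).1 h03
            · -- nonzero
              exact absurd (chain3_types T (by norm_num) (by decide) (by decide) (by decide) t0 t1 t3 h01 h13).1 h03
        · -- nonzero
          by_cases h13 : T.a 1 3 = 0
          · -- zero
            by_cases h23 : T.a 2 3 = 0
            · -- zero
              obtain ⟨y0, y1, y2, y3, m, w, hinj, hp⟩ := shape_p4 T (x0 := 2) (x1 := 1) (x2 := 0) (x3 := 3) (by decide) (by decide) (by decide) (by decide) (by decide) (by decide) t2 t1 t0 t3 (by rw [a_symm T]; exact h12) (by rw [a_symm T]; exact h01) h03 (by rw [a_symm T]; exact h02) h23 h13 (by linear_combination r2) (by linear_combination r1) (by linear_combination r0) (by linear_combination r3)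
              exact ⟨perm4 y0 y1 y2 y3 hinj, m, w, hp⟩
            · -- nonzero
              obtain ⟨y0, y1, y2, y3, m, w, hinj, hp⟩ := shape_c4 T (x0 := 0) (x1 := 1) (x2 := 2) (x3 := 3) (by decide) (by decide) (by decide) (by decide) (by decide) (by decide) t0 t1 t2 t3 h01 h12 h23 (by rw [a_symm T]; exact h03) h02 h13 (by linear_combination r0) (by linear_combination r1) (by linear_combination r2) (by linear_combination r3)
              exact ⟨perm4 y0 y1 y2 y3 hinj, m, w, hp⟩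
          · -- nonzero
            by_cases h23 : T.a 2 3 = 0
            · -- zero
              exact absurd (chain3_types T (by norm_num) (by decide) (by decide) (by decide) t0 t1 t3 h01 h13).1 h03
            · -- nonzero
              exact absurd (chain3_types T (by norm_num) (by decide) (by decide) (by decide) t0 t1 t3 h01 h13).1 h03
    · -- nonzero
      by_cases h03 : T.a 0 3 = 0
      · -- zero
        by_cases h12 : T.a 1 2 = 0
        · -- zero
          by_cases h13 : T.a 1 3 = 0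
          · -- zero
            by_cases h23 : T.a 2 3 = 0
            · -- zero
              exact (iso_contra T 3 0 1 2 (by decide) (by rw [a_symm T]; exact h03) (by rw [a_symm T]; exact h13) (by rw [a_symm T]; exact h23)).elim
            · -- nonzero
              obtain ⟨y0, y1, y2, y3, m, w, hinj, hp⟩ := shape_p4 T (x0 := 1) (x1 := 0) (x2 := 2) (x3 := 3) (by decide) (by decide) (by decide) (by decide) (by decide) (by decide) t1 t0 t2 t3 (by rw [a_symm T]; exact h01) h02 h23 h12 h13 h03 (by linear_combination r1) (by linear_combination r0) (by linear_combination r2) (by linear_combination r3)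
              exact ⟨perm4 y0 y1 y2 y3 hinj, m, w, hp⟩
          · -- nonzero
            by_cases h23 : T.a 2 3 = 0
            · -- zero
              obtain ⟨y0, y1, y2, y3, m, w, hinj, hp⟩ := shape_p4 T (x0 := 2) (x1 := 0) (x2 := 1) (x3 := 3) (by decide) (by decide) (by decide) (by decide) (by decide) (by decide) t2 t0 t1 t3 (by rw [a_symm T]; exact h02) h01 h13 (by rw [a_symm T]; exact h12) h23 h03 (by linear_combination r2) (by linear_combination r0) (by linear_combination r1) (by linear_combination r3)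
              exact ⟨perm4 y0 y1 y2 y3 hinj, m, w, hp⟩
            · -- nonzero
              obtain ⟨y0, y1, y2, y3, m, w, hinj, hp⟩ := shape_c4 T (x0 := 0) (x1 := 1) (x2 := 3) (x3 := 2) (by decide) (by decide) (by decide) (by decide) (by decide) (by decide) t0 t1 t3 t2 h01 h13 (by rw [a_symm T]; exact h23) (by rw [a_symm T]; exact h02) h03 h12 (by linear_combination r0) (by linear_combination r1) (by linear_combination r3) (by linear_combination r2)
              exact ⟨perm4 y0 y1 y2 y3 hinj, m, w, hp⟩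
        · -- nonzero
          by_cases h13 : T.a 1 3 = 0
          · -- zero
            by_cases h23 : T.a 2 3 = 0
            · -- zero
              exact absurd (chain3_types T (by norm_num) (by decide) (by decide) (by decide) t0 t1 t2 h01 h12).1 h02
            · -- nonzero
              exact absurd (chain3_types T (by norm_num) (by decide) (by decide) (by decide) t0 t1 t2 h01 h12).1 h02
          · -- nonzero
            by_cases h23 : T.a 2 3 = 0
            · -- zero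
              exact absurd (chain3_types T (by norm_num) (by decide) (by decide) (by decide) t0 t1 t2 h01 h12).1 h02
            · -- nonzero
              exact absurd (chain3_types T (by norm_num) (by decide) (by decide) (by decide) t0 t1 t2 h01 h12).1 h02
      · -- nonzero
        by_cases h12 : T.a 1 2 = 0
        · -- zero
          by_cases h13 : T.a 1 3 = 0
          · -- zero
            by_cases h23 : T.a 2 3 = 0
            · -- zero
              obtain ⟨y0, y1, y2, y3, m, w, hinj, hp⟩ := shape_star T (x0 := 0) (x1 := 1) (x2 := 2) (x3 := 3) (by decide) (by decide) (by decide) (by decide) (by decide) (by decide) t0 t1 t2 t3 (by rw [a_symm T]; exact h01) h02 h03 h12 h13 h23 (by linear_combination r0) (by linear_combination r1) (by linear_combination r2) (by linear_combination r3)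
              exact ⟨perm4 y0 y1 y2 y3 hinj, m, w, hp⟩
            · -- nonzero
              exact absurd (chain3_types T (by norm_num) (by decide) (by decide) (by decide) t0 t2 t3 h02 h23).1 h03
          · -- nonzero
            by_cases h23 : T.a 2 3 = 0
            · -- zero
              exact absurd (chain3_types T (by norm_num) (by decide) (by decide) (by decide) t0 t1 t3 h01 h13).1 h03
            · -- nonzero
              exact absurd (chain3_types T (by norm_num) (by decide) (by decide) (by decide) t0 t1 t3 h01 h13).1 h03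
        · -- nonzero
          by_cases h13 : T.a 1 3 = 0
          · -- zero
            by_cases h23 : T.a 2 3 = 0
            · -- zero
              exact absurd (chain3_types T (by norm_num) (by decide) (by decide) (by decide) t0 t1 t2 h01 h12).1 h02
            · -- nonzero
              exact absurd (chain3_types T (by norm_num) (by decide) (by decide) (by decide) t0 t1 t2 h01 h12).1 h02
          · -- nonzero
            by_cases h23 : T.a 2 3 = 0
            · -- zero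
              exact absurd (chain3_types T (by norm_num) (by decide) (by decide) (by decide) t0 t1 t2 h01 h12).1 h02
            · -- nonzero
              exact absurd (chain3_types T (by norm_num) (by decide) (by decide) (by decide) t0 t1 t2 h01 h12).1 h02

end Groth.Agent.S7364
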