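import Groth.Statements.S7365
import Groth.Agent.Lib.Helper11.NumTypeChain
import Groth.Agent.Lib.Helper11.NumTypeGenus

set_option autoImplicit false
open Finset
open Models Models.NumericalType
open Groth.Agent.Lib.Helper11.NumType

namespace Groth.Agent.S7365

set_option maxHeartbeats 4000000

/-- a permutation of `Fin 5` from an injective list of values -/
noncomputable def perm5 (y0 y1 y2 y3 y4 : Fin 5) (h : Function.Injective ![y0, y1, y2, y3, y4]) : Equiv.Perm (Fin 5) :=
  Equiv.ofBijective _ (Finite.injective_iff_bijective.mp h)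

theorem iso_contra (T : Models.NumericalType 5) (v a b c d : Fin 5)
    (hcov : ∀ j : Fin 5, j = v ∨ j = a ∨ j = b ∨ j = c ∨ j = d)
    (ha : T.a v a = 0) (hb : T.a v b = 0) (hc : T.a v c = 0) (hd : T.a v d = 0) : False := by
  obtain ⟨j, hj, hj'⟩ := exists_neighbor T (by norm_num) v
  rcases hcov j with rfl | rfl | rfl | rfl | rfl
  · exact hj rfl
  · exact hj' ha
  · exact hj' hb
  · exact hj' hc
  · exact hj' hd

theorem split_contra (T : Models.NumericalType 5) (u v a b c : Fin 5)
    (hcov : ∀ j : Fin 5, j = u ∨ j = v ∨ j = a ∨ j = b ∨ j = c) (hau : a ≠ u) (hav : a ≠ v)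
    (h1 : T.a u a = 0) (h2 : T.a u b = 0) (h3 : T.a u c = 0) (h4 : T.a v a = 0) (h5 : T.a v b = 0)
    (h6 : T.a v c = 0) : False := by
  have hne : ({u, v} : Finset (Fin 5)) ≠ Finset.univ := by
    intro h
    have : a ∈ ({u, v} : Finset (Fin 5)) := by rw [h]; exact Finset.mem_univ _
    simp only [Finset.mem_insert, Finset.mem_singleton] at this
    rcases this with h' | h'
    · exact hau h'
    · exact hav h'
  obtain ⟨i, hi, j, hj, hij⟩ := T.connected {u, v} ⟨u, by simp⟩ hne
  simp only [Finset.mem_insert, Finset.mem_singleton, not_or] at hi hj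
  rcases hi with rfl | rfl
  · rcases hcov j with rfl | rfl | rfl | rfl | rfl
    · exact hj.1 rfl
    · exact hj.2 rfl
    · exact hij h1
    · exact hij h2
    · exact hij h3
  · rcases hcov j with rfl | rfl | rfl | rfl | rfl
    · exact hj.1 rfl
    · exact hj.2 rfl
    · exact hij h4
    · exact hij h5
    · exact hij h6

theorem no_c4 (T : Models.NumericalType 5) {x0 x1 x2 x3 : Fin 5} (d01 : x0 ≠ x1) (d02 : x0 ≠ x2)
    (d03 : x0 ≠ x3) (d12 : x1 ≠ x2) (d13 : x1 ≠ x3) (d23 : x2 ≠ x3)
    (t0 : T.IsMinusTwo x0) (t1 : T.IsMinusTwo x1) (t2 : T.IsMinusTwo x2) (t3 : T.IsMinusTwo x3)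
    (e01 : T.a x0 x1 ≠ 0) (e12 : T.a x1 x2 ≠ 0) (e23 : T.a x2 x3 ≠ 0) (e30 : T.a x3 x0 ≠ 0) : False := by
  refine no_cycle T ![x0, x1, x2, x3] (inj4 d01 d02 d03 d12 d13 d23) (by norm_num) (by norm_num)
    (fun p => by fin_cases p <;> assumption) ?_
  intro p q h
  fin_cases p <;> fin_cases q <;> simp at h ⊢ <;> assumption

abbrev Pat (T : Models.NumericalType 5) (y0 y1 y2 y3 y4 : Fin 5) (m w : ℤ) : Prop :=
  ((T.m y0 = m ∧ T.m y1 = m ∧ T.m y2 = m ∧ T.m y3 = m ∧ T.m y4 = m ∧ T.w y0 = w ∧ T.w y1 = w ∧ T.w y2 = w ∧ T.w y3 = w ∧ T.w y4 = w ∧ T.a y0 y0 = -2 * w ∧ T.a y0 y1 = w ∧ T.a y0 y2 = 0 ∧ T.a y0 y3 = 0 ∧ T.a y0 y4 = w ∧ T.a y1 y1 = -2 * w ∧ T.a y1 y2 = w ∧ T.a y1 y3 = 0 ∧ T.a y1 y4 = 0 ∧ T.a y2 y2 = -2 * w ∧ T.a y2 y3 = w ∧ T.a y2 y4 = 0 ∧ T.a y3 y3 = -2 * w ∧ T.a y3 y4 = w ∧ T.a y4 y4 = -2 * w) ∨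
      (T.m y0 = m ∧ T.m y1 = 2 * m ∧ T.m y2 = 3 * m ∧ T.m y3 = 2 * m ∧ T.m y4 = m ∧ T.w y0 = w ∧ T.w y1 = w ∧ T.w y2 = w ∧ T.w y3 = 2 * w ∧ T.w y4 = 2 * w ∧ T.a y0 y0 = -2 * w ∧ T.a y0 y1 = w ∧ T.a y0 y2 = 0 ∧ T.a y0 y3 = 0 ∧ T.a y0 y4 = 0 ∧ T.a y1 y1 = -2 * w ∧ T.a y1 y2 = w ∧ T.a y1 y3 = 0 ∧ T.a y1 y4 = 0 ∧ T.a y2 y2 = -2 * w ∧ T.a y2 y3 = 2 * w ∧ T.a y2 y4 = 0 ∧ T.a y3 y3 = -4 * w ∧ T.a y3 y4 = 2 * w ∧ T.a y4 y4 = -4 * w) ∨
      (T.m y0 = m ∧ T.m y1 = 2 * m ∧ T.m y2 = 3 * m ∧ T.m y3 = 4 * m ∧ T.m y4 = 2 * m ∧ T.w y0 = 2 * w ∧ T.w y1 = 2 * w ∧ T.w y2 = 2 * w ∧ T.w y3 = w ∧ T.w y4 = w ∧ T.a y0 y0 = -4 * w ∧ T.a y0 y1 = 2 * w ∧ T.a y0 y2 = 0 ∧ T.a y0 y3 = 0 ∧ T.a y0 y4 = 0 ∧ T.a y1 y1 = -4 * w ∧ T.a y1 y2 = 2 * w ∧ T.a y1 y3 = 0 ∧ T.a y1 y4 = 0 ∧ T.a y2 y2 = -4 * w ∧ T.a y2 y3 = 2 * w ∧ T.a y2 y4 = 0 ∧ T.a y3 y3 = -2 * w ∧ T.a y3 y4 = w ∧ T.a y4 y4 = -2 * w) ∨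
      (T.m y0 = 2 * m ∧ T.m y1 = 2 * m ∧ T.m y2 = 2 * m ∧ T.m y3 = 2 * m ∧ T.m y4 = m ∧ T.w y0 = w ∧ T.w y1 = 2 * w ∧ T.w y2 = 2 * w ∧ T.w y3 = 2 * w ∧ T.w y4 = 4 * w ∧ T.a y0 y0 = -2 * w ∧ T.a y0 y1 = 2 * w ∧ T.a y0 y2 = 0 ∧ T.a y0 y3 = 0 ∧ T.a y0 y4 = 0 ∧ T.a y1 y1 = -4 * w ∧ T.a y1 y2 = 2 * w ∧ T.a y1 y3 = 0 ∧ T.a y1 y4 = 0 ∧ T.a y2 y2 = -4 * w ∧ T.a y2 y3 = 2 * w ∧ T.a y2 y4 = 0 ∧ T.a y3 y3 = -4 * w ∧ T.a y3 y4 = 4 * w ∧ T.a y4 y4 = -8 * w) ∨
      (T.m y0 = m ∧ T.m y1 = m ∧ T.m y2 = m ∧ T.m y3 = m ∧ T.m y4 = m ∧ T.w y0 = w ∧ T.w y1 = 2 * w ∧ T.w y2 = 2 * w ∧ T.w y3 = 2 * w ∧ T.w y4 = w ∧ T.a y0 y0 = -2 * w ∧ T.a y0 y1 = 2 * w ∧ T.a y0 y2 = 0 ∧ T.a y0 y3 = 0 ∧ T.a y0 y4 = 0 ∧ T.a y1 y1 = -4 * w ∧ T.a y1 y2 = 2 * w ∧ T.a y1 y3 = 0 ∧ T.a y1 y4 = 0 ∧ T.a y2 y2 = -4 * w ∧ T.a y2 y3 = 2 * w ∧ T.a y2 y4 = 0 ∧ T.a y3 y3 = -4 * w ∧ T.a y3 y4 = 2 * w ∧ T.a y4 y4 = -2 * w) ∨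
      (T.m y0 = m ∧ T.m y1 = 2 * m ∧ T.m y2 = 2 * m ∧ T.m y3 = 2 * m ∧ T.m y4 = m ∧ T.w y0 = 2 * w ∧ T.w y1 = w ∧ T.w y2 = w ∧ T.w y3 = w ∧ T.w y4 = 2 * w ∧ T.a y0 y0 = -4 * w ∧ T.a y0 y1 = 2 * w ∧ T.a y0 y2 = 0 ∧ T.a y0 y3 = 0 ∧ T.a y0 y4 = 0 ∧ T.a y1 y1 = -2 * w ∧ T.a y1 y2 = w ∧ T.a y1 y3 = 0 ∧ T.a y1 y4 = 0 ∧ T.a y2 y2 = -2 * w ∧ T.a y2 y3 = w ∧ T.a y2 y4 = 0 ∧ T.a y3 y3 = -2 * w ∧ T.a y3 y4 = 2 * w ∧ T.a y4 y4 = -4 * w) ∨
      (T.m y0 = 2 * m ∧ T.m y1 = m ∧ T.m y2 = m ∧ T.m y3 = m ∧ T.m y4 = m ∧ T.w y0 = w ∧ T.w y1 = w ∧ T.w y2 = w ∧ T.w y3 = w ∧ T.w y4 = w ∧ T.a y0 y0 = -2 * w ∧ T.a y0 y1 = w ∧ T.a y0 y2 = w ∧ T.a y0 y3 = w ∧ T.a y0 y4 = w ∧ T.a y1 y1 = -2 * w ∧ T.a y1 y2 = 0 ∧ T.a y1 y3 = 0 ∧ T.a y1 y4 = 0 ∧ T.a y2 y2 = -2 * w ∧ T.a y2 y3 = 0 ∧ T.a y2 y4 = 0 ∧ T.a y3 y3 = -2 * w ∧ T.a y3 y4 = 0 ∧ T.a y4 y4 = -2 * w) ∨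
      (T.m y0 = m ∧ T.m y1 = 2 * m ∧ T.m y2 = 2 * m ∧ T.m y3 = m ∧ T.m y4 = m ∧ T.w y0 = 2 * w ∧ T.w y1 = w ∧ T.w y2 = w ∧ T.w y3 = w ∧ T.w y4 = w ∧ T.a y0 y0 = -4 * w ∧ T.a y0 y1 = 2 * w ∧ T.a y0 y2 = 0 ∧ T.a y0 y3 = 0 ∧ T.a y0 y4 = 0 ∧ T.a y1 y1 = -2 * w ∧ T.a y1 y2 = w ∧ T.a y1 y3 = 0 ∧ T.a y1 y4 = 0 ∧ T.a y2 y2 = -2 * w ∧ T.a y2 y3 = w ∧ T.a y2 y4 = w ∧ T.a y3 y3 = -2 * w ∧ T.a y3 y4 = 0 ∧ T.a y4 y4 = -2 * w) ∨
      (T.m y0 = 2 * m ∧ T.m y1 = 2 * m ∧ T.m y2 = 2 * m ∧ T.m y3 = m ∧ T.m y4 = m ∧ T.w y0 = w ∧ T.w y1 = 2 * w ∧ T.w y2 = 2 * w ∧ T.w y3 = 2 * w ∧ T.w y4 = 2 * w ∧ T.a y0 y0 = -2 * w ∧ T.a y0 y1 = 2 * w ∧ T.a y0 y2 = 0 ∧ T.a y0 y3 = 0 ∧ T.a y0 y4 = 0 ∧ T.a y1 y1 = -4 * w ∧ T.a y1 y2 = 2 * w ∧ T.a y1 y3 = 0 ∧ T.a y1 y4 = 0 ∧ T.a y2 y2 = -4 * w ∧ T.a y2 y3 = 2 * w ∧ T.a y2 y4 = 2 * w ∧ T.a y3 y3 = -4 * w ∧ T.a y3 y4 = 0 ∧ T.a y4 y4 = -4 * w))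


theorem shape_p5 (T : Models.NumericalType 5) {x0 x1 x2 x3 x4 : Fin 5} (d01 : x0 ≠ x1) (d02 : x0 ≠ x2) (d03 : x0 ≠ x3) (d04 : x0 ≠ x4) (d12 : x1 ≠ x2) (d13 : x1 ≠ x3) (d14 : x1 ≠ x4) (d23 : x2 ≠ x3) (d24 : x2 ≠ x4) (d34 : x3 ≠ x4)
    (t0 : T.IsMinusTwo x0) (t1 : T.IsMinusTwo x1) (t2 : T.IsMinusTwo x2) (t3 : T.IsMinusTwo x3) (t4 : T.IsMinusTwo x4)
    (e01 : T.a x0 x1 ≠ 0) (e12 : T.a x1 x2 ≠ 0) (e23 : T.a x2 x3 ≠ 0) (e34 : T.a x3 x4 ≠ 0) (z02 : T.a x0 x2 = 0) (z03 : T.a x0 x3 = 0) (z04 : T.a x0 x4 = 0) (z13 : T.a x1 x3 = 0) (z14 : T.a x1 x4 = 0) (z24 : T.a x2 x4 = 0)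
    (r0 : T.a x0 x0 * T.m x0 + T.a x0 x1 * T.m x1 + T.a x0 x2 * T.m x2 + T.a x0 x3 * T.m x3 + T.a x0 x4 * T.m x4 = 0)
    (r1 : T.a x1 x0 * T.m x0 + T.a x1 x1 * T.m x1 + T.a x1 x2 * T.m x2 + T.a x1 x3 * T.m x3 + T.a x1 x4 * T.m x4 = 0)
    (r2 : T.a x2 x0 * T.m x0 + T.a x2 x1 * T.m x1 + T.a x2 x2 * T.m x2 + T.a x2 x3 * T.m x3 + T.a x2 x4 * T.m x4 = 0)
    (r3 : T.a x3 x0 * T.m x0 + T.a x3 x1 * T.m x1 + T.a x3 x2 * T.m x2 + T.a x3 x3 * T.m x3 + T.a x3 x4 * T.m x4 = 0)
    (r4 : T.a x4 x0 * T.m x0 + T.a x4 x1 * T.m x1 + T.a x4 x2 * T.m x2 + T.a x4 x3 * T.m x3 + T.a x4 x4 * T.m x4 = 0) :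
    ∃ (y0 y1 y2 y3 y4 : Fin 5) (m w : ℤ), Function.Injective ![y0, y1, y2, y3, y4] ∧ Pat T y0 y1 y2 y3 y4 m w := by
  have d10 := d01.symm
  have d20 := d02.symm
  have d30 := d03.symm
  have d40 := d04.symm
  have d21 := d12.symm
  have d31 := d13.symm
  have d41 := d14.symm
  have d32 := d23.symm
  have d42 := d24.symm
  have d43 := d34.symm
  have p0 := T.w_pos x0
  have q0 := T.m_pos x0
  have dd0 := t0.2
  have p1 := T.w_pos x1
  have q1 := T.m_pos x1
  have dd1 := t1.2
  have p2 := T.w_pos x2
  have q2 := T.m_pos x2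
  have dd2 := t2.2
  have p3 := T.w_pos x3
  have q3 := T.m_pos x3
  have dd3 := t3.2
  have p4 := T.w_pos x4
  have q4 := T.m_pos x4
  have dd4 := t4.2
  have z20 : T.a x2 x0 = 0 := by rw [a_symm T]; exact z02
  have z30 : T.a x3 x0 = 0 := by rw [a_symm T]; exact z03
  have z40 : T.a x4 x0 = 0 := by rw [a_symm T]; exact z04
  have z31 : T.a x3 x1 = 0 := by rw [a_symm T]; exact z13
  have z41 : T.a x4 x1 = 0 := by rw [a_symm T]; exact z14
  have z42 : T.a x4 x2 = 0 := by rw [a_symm T]; exact z24
  rcases chain3_types T (by norm_num) d01 d12 d02 t0 t1 t2 e01 e12 with ⟨_, ⟨⟨ua, ub⟩, ⟨uc, ud⟩⟩ | ⟨⟨ua, ub⟩, ⟨uc, ud⟩⟩ | ⟨⟨ua, ub⟩, ⟨uc, ud⟩⟩ | ⟨⟨ua, ub⟩, ⟨uc, ud⟩⟩ | ⟨⟨ua, ub⟩, ⟨uc, ud⟩⟩⟩ <;>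
    rcases chain3_types T (by norm_num) d23 d34 d24 t2 t3 t4 e23 e34 with ⟨_, ⟨⟨va, vb⟩, ⟨vc, vd⟩⟩ | ⟨⟨va, vb⟩, ⟨vc, vd⟩⟩ | ⟨⟨va, vb⟩, ⟨vc, vd⟩⟩ | ⟨⟨va, vb⟩, ⟨vc, vd⟩⟩ | ⟨⟨va, vb⟩, ⟨vc, vd⟩⟩⟩
  · -- (('S', 'S'), ('S', 'S'))
    have ew0 : T.w x0 = 1 * T.w x0 := by omega
    have ew1 : T.w x1 = 1 * T.w x0 := by omega
    have ew2 : T.w x2 = 1 * T.w x0 := by omega
    have ew3 : T.w x3 = 1 * T.w x0 := by omega
    have ew4 : T.w x4 = 1 * T.w x0 := by omega
    have ea01 : T.a x0 x1 = 1 * T.w x0 := by omega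
    have ea10 : T.a x1 x0 = 1 * T.w x0 := by rw [a_symm T]; omega
    have ea12 : T.a x1 x2 = 1 * T.w x0 := by omega
    have ea21 : T.a x2 x1 = 1 * T.w x0 := by rw [a_symm T]; omega
    have ea23 : T.a x2 x3 = 1 * T.w x0 := by omega
    have ea32 : T.a x3 x2 = 1 * T.w x0 := by rw [a_symm T]; omega
    have ea34 : T.a x3 x4 = 1 * T.w x0 := by omega
    have ea43 : T.a x4 x3 = 1 * T.w x0 := by rw [a_symm T]; omega
    have ed0 : T.a x0 x0 = -2 * T.w x0 := by omega
    have ed1 : T.a x1 x1 = -2 * T.w x0 := by omega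
    have ed2 : T.a x2 x2 = -2 * T.w x0 := by omega
    have ed3 : T.a x3 x3 = -2 * T.w x0 := by omega
    have ed4 : T.a x4 x4 = -2 * T.w x0 := by omega
    have R0 : T.w x0 * (-2 * T.m x0 + 1 * T.m x1) = 0 := by linear_combination r0 - (T.m x0) * ed0 - (T.m x1) * ea01 - (T.m x2) * z02 - (T.m x3) * z03 - (T.m x4) * z04
    have S0 := (mul_eq_zero.1 R0).resolve_left (T.w_pos x0).ne'
    have R1 : T.w x0 * (1 * T.m x0 + -2 * T.m x1 + 1 * T.m x2) = 0 := by linear_combination r1 - (T.m x0) * ea10 - (T.m x1) * ed1 - (T.m x2) * ea12 - (T.m x3) * z13 - (T.m x4) * z14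
    have S1 := (mul_eq_zero.1 R1).resolve_left (T.w_pos x0).ne'
    have R2 : T.w x0 * (1 * T.m x1 + -2 * T.m x2 + 1 * T.m x3) = 0 := by linear_combination r2 - (T.m x0) * z20 - (T.m x1) * ea21 - (T.m x2) * ed2 - (T.m x3) * ea23 - (T.m x4) * z24
    have S2 := (mul_eq_zero.1 R2).resolve_left (T.w_pos x0).ne'
    have R3 : T.w x0 * (1 * T.m x2 + -2 * T.m x3 + 1 * T.m x4) = 0 := by linear_combination r3 - (T.m x0) * z30 - (T.m x1) * z31 - (T.m x2) * ea32 - (T.m x3) * ed3 - (T.m x4) * ea34
    have S3 := (mul_eq_zero.1 R3).resolve_left (T.w_pos x0).ne'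
    have R4 : T.w x0 * (1 * T.m x3 + -2 * T.m x4) = 0 := by linear_combination r4 - (T.m x0) * z40 - (T.m x1) * z41 - (T.m x2) * z42 - (T.m x3) * ea43 - (T.m x4) * ed4
    have S4 := (mul_eq_zero.1 R4).resolve_left (T.w_pos x0).ne'
    exfalso; linarith
  · -- (('S', 'S'), ('S', 'L'))
    have ew0 : T.w x0 = 2 * T.w x4 := by omega
    have ew1 : T.w x1 = 2 * T.w x4 := by omega
    have ew2 : T.w x2 = 2 * T.w x4 := by omega
    have ew3 : T.w x3 = 2 * T.w x4 := by omega
    have ew4 : T.w x4 = 1 * T.w x4 := by omega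
    have ea01 : T.a x0 x1 = 2 * T.w x4 := by omega
    have ea10 : T.a x1 x0 = 2 * T.w x4 := by rw [a_symm T]; omega
    have ea12 : T.a x1 x2 = 2 * T.w x4 := by omega
    have ea21 : T.a x2 x1 = 2 * T.w x4 := by rw [a_symm T]; omega
    have ea23 : T.a x2 x3 = 2 * T.w x4 := by omega
    have ea32 : T.a x3 x2 = 2 * T.w x4 := by rw [a_symm T]; omega
    have ea34 : T.a x3 x4 = 2 * T.w x4 := by omega
    have ea43 : T.a x4 x3 = 2 * T.w x4 := by rw [a_symm T]; omega
    have ed0 : T.a x0 x0 = -4 * T.w x4 := by omega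
    have ed1 : T.a x1 x1 = -4 * T.w x4 := by omega
    have ed2 : T.a x2 x2 = -4 * T.w x4 := by omega
    have ed3 : T.a x3 x3 = -4 * T.w x4 := by omega
    have ed4 : T.a x4 x4 = -2 * T.w x4 := by omega
    have R0 : T.w x4 * (-4 * T.m x0 + 2 * T.m x1) = 0 := by linear_combination r0 - (T.m x0) * ed0 - (T.m x1) * ea01 - (T.m x2) * z02 - (T.m x3) * z03 - (T.m x4) * z04
    have S0 := (mul_eq_zero.1 R0).resolve_left (T.w_pos x4).ne'
    have R1 : T.w x4 * (2 * T.m x0 + -4 * T.m x1 + 2 * T.m x2) = 0 := by linear_combination r1 - (T.m x0) * ea10 - (T.m x1) * ed1 - (T.m x2) * ea12 - (T.m x3) * z13 - (T.m x4) * z14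
    have S1 := (mul_eq_zero.1 R1).resolve_left (T.w_pos x4).ne'
    have R2 : T.w x4 * (2 * T.m x1 + -4 * T.m x2 + 2 * T.m x3) = 0 := by linear_combination r2 - (T.m x0) * z20 - (T.m x1) * ea21 - (T.m x2) * ed2 - (T.m x3) * ea23 - (T.m x4) * z24
    have S2 := (mul_eq_zero.1 R2).resolve_left (T.w_pos x4).ne'
    have R3 : T.w x4 * (2 * T.m x2 + -4 * T.m x3 + 2 * T.m x4) = 0 := by linear_combination r3 - (T.m x0) * z30 - (T.m x1) * z31 - (T.m x2) * ea32 - (T.m x3) * ed3 - (T.m x4) * ea34
    have S3 := (mul_eq_zero.1 R3).resolve_left (T.w_pos x4).ne'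
    have R4 : T.w x4 * (2 * T.m x3 + -2 * T.m x4) = 0 := by linear_combination r4 - (T.m x0) * z40 - (T.m x1) * z41 - (T.m x2) * z42 - (T.m x3) * ea43 - (T.m x4) * ed4
    have S4 := (mul_eq_zero.1 R4).resolve_left (T.w_pos x4).ne'
    exfalso; linarith
  · -- (('S', 'S'), ('S', 'R'))
    have ew0 : T.w x0 = 1 * T.w x0 := by omega
    have ew1 : T.w x1 = 1 * T.w x0 := by omega
    have ew2 : T.w x2 = 1 * T.w x0 := by omega
    have ew3 : T.w x3 = 1 * T.w x0 := by omega
    have ew4 : T.w x4 = 2 * T.w x0 := by omega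
    have ea01 : T.a x0 x1 = 1 * T.w x0 := by omega
    have ea10 : T.a x1 x0 = 1 * T.w x0 := by rw [a_symm T]; omega
    have ea12 : T.a x1 x2 = 1 * T.w x0 := by omega
    have ea21 : T.a x2 x1 = 1 * T.w x0 := by rw [a_symm T]; omega
    have ea23 : T.a x2 x3 = 1 * T.w x0 := by omega
    have ea32 : T.a x3 x2 = 1 * T.w x0 := by rw [a_symm T]; omega
    have ea34 : T.a x3 x4 = 2 * T.w x0 := by omega
    have ea43 : T.a x4 x3 = 2 * T.w x0 := by rw [a_symm T]; omega
    have ed0 : T.a x0 x0 = -2 * T.w x0 := by omega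
    have ed1 : T.a x1 x1 = -2 * T.w x0 := by omega
    have ed2 : T.a x2 x2 = -2 * T.w x0 := by omega
    have ed3 : T.a x3 x3 = -2 * T.w x0 := by omega
    have ed4 : T.a x4 x4 = -4 * T.w x0 := by omega
    have R0 : T.w x0 * (-2 * T.m x0 + 1 * T.m x1) = 0 := by linear_combination r0 - (T.m x0) * ed0 - (T.m x1) * ea01 - (T.m x2) * z02 - (T.m x3) * z03 - (T.m x4) * z04
    have S0 := (mul_eq_zero.1 R0).resolve_left (T.w_pos x0).ne'
    have R1 : T.w x0 * (1 * T.m x0 + -2 * T.m x1 + 1 * T.m x2) = 0 := by linear_combination r1 - (T.m x0) * ea10 - (T.m x1) * ed1 - (T.m x2) * ea12 - (T.m x3) * z13 - (T.m x4) * z14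
    have S1 := (mul_eq_zero.1 R1).resolve_left (T.w_pos x0).ne'
    have R2 : T.w x0 * (1 * T.m x1 + -2 * T.m x2 + 1 * T.m x3) = 0 := by linear_combination r2 - (T.m x0) * z20 - (T.m x1) * ea21 - (T.m x2) * ed2 - (T.m x3) * ea23 - (T.m x4) * z24
    have S2 := (mul_eq_zero.1 R2).resolve_left (T.w_pos x0).ne'
    have R3 : T.w x0 * (1 * T.m x2 + -2 * T.m x3 + 2 * T.m x4) = 0 := by linear_combination r3 - (T.m x0) * z30 - (T.m x1) * z31 - (T.m x2) * ea32 - (T.m x3) * ed3 - (T.m x4) * ea34
    have S3 := (mul_eq_zero.1 R3).resolve_left (T.w_pos x0).ne'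
    have R4 : T.w x0 * (2 * T.m x3 + -4 * T.m x4) = 0 := by linear_combination r4 - (T.m x0) * z40 - (T.m x1) * z41 - (T.m x2) * z42 - (T.m x3) * ea43 - (T.m x4) * ed4
    have S4 := (mul_eq_zero.1 R4).resolve_left (T.w_pos x0).ne'
    exfalso; linarith
  · -- (('S', 'S'), ('L', 'S'))
    have ew0 : T.w x0 = 2 * T.w x3 := by omega
    have ew1 : T.w x1 = 2 * T.w x3 := by omega
    have ew2 : T.w x2 = 2 * T.w x3 := by omega
    have ew3 : T.w x3 = 1 * T.w x3 := by omega
    have ew4 : T.w x4 = 1 * T.w x3 := by omega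
    have ea01 : T.a x0 x1 = 2 * T.w x3 := by omega
    have ea10 : T.a x1 x0 = 2 * T.w x3 := by rw [a_symm T]; omega
    have ea12 : T.a x1 x2 = 2 * T.w x3 := by omega
    have ea21 : T.a x2 x1 = 2 * T.w x3 := by rw [a_symm T]; omega
    have ea23 : T.a x2 x3 = 2 * T.w x3 := by omega
    have ea32 : T.a x3 x2 = 2 * T.w x3 := by rw [a_symm T]; omega
    have ea34 : T.a x3 x4 = 1 * T.w x3 := by omega
    have ea43 : T.a x4 x3 = 1 * T.w x3 := by rw [a_symm T]; omega
    have ed0 : T.a x0 x0 = -4 * T.w x3 := by omega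
    have ed1 : T.a x1 x1 = -4 * T.w x3 := by omega
    have ed2 : T.a x2 x2 = -4 * T.w x3 := by omega
    have ed3 : T.a x3 x3 = -2 * T.w x3 := by omega
    have ed4 : T.a x4 x4 = -2 * T.w x3 := by omega
    have R0 : T.w x3 * (-4 * T.m x0 + 2 * T.m x1) = 0 := by linear_combination r0 - (T.m x0) * ed0 - (T.m x1) * ea01 - (T.m x2) * z02 - (T.m x3) * z03 - (T.m x4) * z04
    have S0 := (mul_eq_zero.1 R0).resolve_left (T.w_pos x3).ne'
    have R1 : T.w x3 * (2 * T.m x0 + -4 * T.m x1 + 2 * T.m x2) = 0 := by linear_combination r1 - (T.m x0) * ea10 - (T.m x1) * ed1 - (T.m x2) * ea12 - (T.m x3) * z13 - (T.m x4) * z14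
    have S1 := (mul_eq_zero.1 R1).resolve_left (T.w_pos x3).ne'
    have R2 : T.w x3 * (2 * T.m x1 + -4 * T.m x2 + 2 * T.m x3) = 0 := by linear_combination r2 - (T.m x0) * z20 - (T.m x1) * ea21 - (T.m x2) * ed2 - (T.m x3) * ea23 - (T.m x4) * z24
    have S2 := (mul_eq_zero.1 R2).resolve_left (T.w_pos x3).ne'
    have R3 : T.w x3 * (2 * T.m x2 + -2 * T.m x3 + 1 * T.m x4) = 0 := by linear_combination r3 - (T.m x0) * z30 - (T.m x1) * z31 - (T.m x2) * ea32 - (T.m x3) * ed3 - (T.m x4) * ea34
    have S3 := (mul_eq_zero.1 R3).resolve_left (T.w_pos x3).ne'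
    have R4 : T.w x3 * (1 * T.m x3 + -2 * T.m x4) = 0 := by linear_combination r4 - (T.m x0) * z40 - (T.m x1) * z41 - (T.m x2) * z42 - (T.m x3) * ea43 - (T.m x4) * ed4
    have S4 := (mul_eq_zero.1 R4).resolve_left (T.w_pos x3).ne'
    exact ⟨x0, x1, x2, x3, x4, T.m x0, T.w x3, inj5 d01 d02 d03 d04 d12 d13 d14 d23 d24 d34, Or.inr (Or.inr (Or.inl ⟨(by first | omega | linarith : T.m x0 = T.m x0), (by first | omega | linarith : T.m x1 = 2 * T.m x0), (by first | omega | linarith : T.m x2 = 3 * T.m x0), (by first | omega | linarith : T.m x3 = 4 * T.m x0), (by first | omega | linarith : T.m x4 = 2 * T.m x0), (by first | omega | linarith : T.w x0 = 2 * T.w x3), (by first | omega | linarith : T.w x1 = 2 * T.w x3), (by first | omega | linarith : T.w x2 = 2 * T.w x3), (by first | omega | linarith : T.w x3 = T.w x3), (by first | omega | linarith : T.w x4 = T.w x3), (by first | omega | linarith : T.a x0 x0 = -4 * T.w x3), (by first | omega | linarith : T.a x0 x1 = 2 * T.w x3), (by first | omega | linarith : T.a x0 x2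 = 0), (by first | omega | linarith : T.a x0 x3 = 0), (by first | omega | linarith : T.a x0 x4 = 0), (by first | omega | linarith : T.a x1 x1 = -4 * T.w x3), (by first | omega | linarith : T.a x1 x2 = 2 * T.w x3), (by first | omega | linarith : T.a x1 x3 = 0), (by first | omega | linarith : T.a x1 x4 = 0), (by first | omega | linarith : T.a x2 x2 = -4 * T.w x3), (by first | omega | linarith : T.a x2 x3 = 2 * T.w x3), (by first | omega | linarith : T.a x2 x4 = 0), (by first | omega | linarith : T.a x3 x3 = -2 * T.w x3), (by first | omega | linarith : T.a x3 x4 = T.w x3), (by first | omega | linarith : T.a x4 x4 = -2 * T.w x3)⟩))⟩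
    -- type 3 perm (0, 1, 2, 3, 4)
  · -- (('S', 'S'), ('R', 'S'))
    have ew0 : T.w x0 = 1 * T.w x0 := by omega
    have ew1 : T.w x1 = 1 * T.w x0 := by omega
    have ew2 : T.w x2 = 1 * T.w x0 := by omega
    have ew3 : T.w x3 = 2 * T.w x0 := by omega
    have ew4 : T.w x4 = 2 * T.w x0 := by omega
    have ea01 : T.a x0 x1 = 1 * T.w x0 := by omega
    have ea10 : T.a x1 x0 = 1 * T.w x0 := by rw [a_symm T]; omega
    have ea12 : T.a x1 x2 = 1 * T.w x0 := by omega
    have ea21 : T.a x2 x1 = 1 * T.w x0 := by rw [a_symm T]; omega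
    have ea23 : T.a x2 x3 = 2 * T.w x0 := by omega
    have ea32 : T.a x3 x2 = 2 * T.w x0 := by rw [a_symm T]; omega
    have ea34 : T.a x3 x4 = 2 * T.w x0 := by omega
    have ea43 : T.a x4 x3 = 2 * T.w x0 := by rw [a_symm T]; omega
    have ed0 : T.a x0 x0 = -2 * T.w x0 := by omega
    have ed1 : T.a x1 x1 = -2 * T.w x0 := by omega
    have ed2 : T.a x2 x2 = -2 * T.w x0 := by omega
    have ed3 : T.a x3 x3 = -4 * T.w x0 := by omega
    have ed4 : T.a x4 x4 = -4 * T.w x0 := by omega
    have R0 : T.w x0 * (-2 * T.m x0 + 1 * T.m x1) = 0 := by linear_combination r0 - (T.m x0) * ed0 - (T.m x1) * ea01 - (T.m x2) * z02 - (T.m x3) * z03 - (T.m x4) * z04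
    have S0 := (mul_eq_zero.1 R0).resolve_left (T.w_pos x0).ne'
    have R1 : T.w x0 * (1 * T.m x0 + -2 * T.m x1 + 1 * T.m x2) = 0 := by linear_combination r1 - (T.m x0) * ea10 - (T.m x1) * ed1 - (T.m x2) * ea12 - (T.m x3) * z13 - (T.m x4) * z14
    have S1 := (mul_eq_zero.1 R1).resolve_left (T.w_pos x0).ne'
    have R2 : T.w x0 * (1 * T.m x1 + -2 * T.m x2 + 2 * T.m x3) = 0 := by linear_combination r2 - (T.m x0) * z20 - (T.m x1) * ea21 - (T.m x2) * ed2 - (T.m x3) * ea23 - (T.m x4) * z24
    have S2 := (mul_eq_zero.1 R2).resolve_left (T.w_pos x0).ne'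
    have R3 : T.w x0 * (2 * T.m x2 + -4 * T.m x3 + 2 * T.m x4) = 0 := by linear_combination r3 - (T.m x0) * z30 - (T.m x1) * z31 - (T.m x2) * ea32 - (T.m x3) * ed3 - (T.m x4) * ea34
    have S3 := (mul_eq_zero.1 R3).resolve_left (T.w_pos x0).ne'
    have R4 : T.w x0 * (2 * T.m x3 + -4 * T.m x4) = 0 := by linear_combination r4 - (T.m x0) * z40 - (T.m x1) * z41 - (T.m x2) * z42 - (T.m x3) * ea43 - (T.m x4) * ed4
    have S4 := (mul_eq_zero.1 R4).resolve_left (T.w_pos x0).ne'
    exact ⟨x0, x1, x2, x3, x4, T.m x0, T.w x0, inj5 d01 d02 d03 d04 d12 d13 d14 d23 d24 d34, Or.inr (Or.inl ⟨(by first | omega | linarith : T.m x0 = T.m x0), (by first | omega | linarith : T.m x1 = 2 * T.m x0), (by first | omega | linarith : T.m x2 = 3 * T.m x0), (by first | omega | linarith : T.m x3 = 2 * T.m x0), (by first | omega | linarith : T.m x4 = T.m x0), (by first | omega | linarith : T.w x0 = T.w x0), (by first | omega | linarith : T.w x1 = T.w x0), (by first | omega | linarith : T.w x2 = T.w x0), (by first | omega | linarith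 : T.w x3 = 2 * T.w x0), (by first | omega | linarith : T.w x4 = 2 * T.w x0), (by first | omega | linarith : T.a x0 x0 = -2 * T.w x0), (by first | omega | linarith : T.a x0 x1 = T.w x0), (by first | omega | linarith : T.a x0 x2 = 0), (by first | omega | linarith : T.a x0 x3 = 0), (by first | omega | linarith : T.a x0 x4 = 0), (by first | omega | linarith : T.a x1 x1 = -2 * T.w x0), (by first | omega | linarith : T.a x1 x2 = T.w x0), (by first | omega | linarith : T.a x1 x3 = 0), (by first | omega | linarith : T.a x1 x4 = 0), (by first | omega | linarith : T.a x2 x2 = -2 * T.w x0), (by first | omega | linarith : T.a x2 x3 = 2 * T.w x0), (by first | omega | linarith : T.a x2 x4 = 0), (by first | omega | linarith : T.a x3 x3 = -4 * T.w x0), (by first | omega | linarith : T.a x3 x4 = 2 * T.w x0), (by first | omega | linarith : T.a x4 x4 = -4 * T.w x0)⟩)⟩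
    -- type 2 perm (0, 1, 2, 3, 4)
  · -- (('S', 'L'), ('S', 'S'))
    have ew0 : T.w x0 = 2 * T.w x2 := by omega
    have ew1 : T.w x1 = 2 * T.w x2 := by omega
    have ew2 : T.w x2 = 1 * T.w x2 := by omega
    have ew3 : T.w x3 = 1 * T.w x2 := by omega
    have ew4 : T.w x4 = 1 * T.w x2 := by omega
    have ea01 : T.a x0 x1 = 2 * T.w x2 := by omega
    have ea10 : T.a x1 x0 = 2 * T.w x2 := by rw [a_symm T]; omega
    have ea12 : T.a x1 x2 = 2 * T.w x2 := by omega
    have ea21 : T.a x2 x1 = 2 * T.w x2 := by rw [a_symm T]; omega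
    have ea23 : T.a x2 x3 = 1 * T.w x2 := by omega
    have ea32 : T.a x3 x2 = 1 * T.w x2 := by rw [a_symm T]; omega
    have ea34 : T.a x3 x4 = 1 * T.w x2 := by omega
    have ea43 : T.a x4 x3 = 1 * T.w x2 := by rw [a_symm T]; omega
    have ed0 : T.a x0 x0 = -4 * T.w x2 := by omega
    have ed1 : T.a x1 x1 = -4 * T.w x2 := by omega
    have ed2 : T.a x2 x2 = -2 * T.w x2 := by omega
    have ed3 : T.a x3 x3 = -2 * T.w x2 := by omega
    have ed4 : T.a x4 x4 = -2 * T.w x2 := by omega
    have R0 : T.w x2 * (-4 * T.m x0 + 2 * T.m x1) = 0 := by linear_combination r0 - (T.m x0) * ed0 - (T.m x1) * ea01 - (T.m x2) * z02 - (T.m x3) * z03 - (T.m x4) * z04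
    have S0 := (mul_eq_zero.1 R0).resolve_left (T.w_pos x2).ne'
    have R1 : T.w x2 * (2 * T.m x0 + -4 * T.m x1 + 2 * T.m x2) = 0 := by linear_combination r1 - (T.m x0) * ea10 - (T.m x1) * ed1 - (T.m x2) * ea12 - (T.m x3) * z13 - (T.m x4) * z14
    have S1 := (mul_eq_zero.1 R1).resolve_left (T.w_pos x2).ne'
    have R2 : T.w x2 * (2 * T.m x1 + -2 * T.m x2 + 1 * T.m x3) = 0 := by linear_combination r2 - (T.m x0) * z20 - (T.m x1) * ea21 - (T.m x2) * ed2 - (T.m x3) * ea23 - (T.m x4) * z24
    have S2 := (mul_eq_zero.1 R2).resolve_left (T.w_pos x2).ne'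
    have R3 : T.w x2 * (1 * T.m x2 + -2 * T.m x3 + 1 * T.m x4) = 0 := by linear_combination r3 - (T.m x0) * z30 - (T.m x1) * z31 - (T.m x2) * ea32 - (T.m x3) * ed3 - (T.m x4) * ea34
    have S3 := (mul_eq_zero.1 R3).resolve_left (T.w_pos x2).ne'
    have R4 : T.w x2 * (1 * T.m x3 + -2 * T.m x4) = 0 := by linear_combination r4 - (T.m x0) * z40 - (T.m x1) * z41 - (T.m x2) * z42 - (T.m x3) * ea43 - (T.m x4) * ed4
    have S4 := (mul_eq_zero.1 R4).resolve_left (T.w_pos x2).ne'
    exact ⟨x4, x3, x2, x1, x0, T.m x4, T.w x4, inj5 d43 d42 d41 d40 d32 d31 d30 d21 d20 d10, Or.inr (Or.inl ⟨(by first | omega | linarith : T.m x4 = T.m x4), (by first | omega | linarith : T.m x3 = 2 * T.m x4), (by first | omega | linarith : T.m x2 = 3 * T.m x4), (by first | omega | linarith : T.m x1 = 2 * T.m x4), (by first | omega | linarith : T.m x0 = T.m x4), (by first | omega | linarith : T.w x4 = T.w x4), (by first | omega | linarith : T.w x3 = T.w x4), (by first | omega | linarith : T.w x2 = T.w x4), (by first | omega | linarith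 : T.w x1 = 2 * T.w x4), (by first | omega | linarith : T.w x0 = 2 * T.w x4), (by first | omega | linarith : T.a x4 x4 = -2 * T.w x4), (by first | omega | linarith : T.a x4 x3 = T.w x4), (by first | omega | linarith : T.a x4 x2 = 0), (by first | omega | linarith : T.a x4 x1 = 0), (by first | omega | linarith : T.a x4 x0 = 0), (by first | omega | linarith : T.a x3 x3 = -2 * T.w x4), (by first | omega | linarith : T.a x3 x2 = T.w x4), (by first | omega | linarith : T.a x3 x1 = 0), (by first | omega | linarith : T.a x3 x0 = 0), (by first | omega | linarith : T.a x2 x2 = -2 * T.w x4), (by first | omega | linarith : T.a x2 x1 = 2 * T.w x4), (by first | omega | linarith : T.a x2 x0 = 0), (by first | omega | linarith : T.a x1 x1 = -4 * T.w x4), (by first | omega | linarith : T.a x1 x0 = 2 * T.w x4), (by first | omega | linarith : T.a x0 x0 = -4 * T.w x4)⟩)⟩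
    -- type 2 perm (4, 3, 2, 1, 0)
  · -- (('S', 'L'), ('S', 'L'))
    have ew0 : T.w x0 = 4 * T.w x4 := by omega
    have ew1 : T.w x1 = 4 * T.w x4 := by omega
    have ew2 : T.w x2 = 2 * T.w x4 := by omega
    have ew3 : T.w x3 = 2 * T.w x4 := by omega
    have ew4 : T.w x4 = 1 * T.w x4 := by omega
    have ea01 : T.a x0 x1 = 4 * T.w x4 := by omega
    have ea10 : T.a x1 x0 = 4 * T.w x4 := by rw [a_symm T]; omega
    have ea12 : T.a x1 x2 = 4 * T.w x4 := by omega
    have ea21 : T.a x2 x1 = 4 * T.w x4 := by rw [a_symm T]; omega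
    have ea23 : T.a x2 x3 = 2 * T.w x4 := by omega
    have ea32 : T.a x3 x2 = 2 * T.w x4 := by rw [a_symm T]; omega
    have ea34 : T.a x3 x4 = 2 * T.w x4 := by omega
    have ea43 : T.a x4 x3 = 2 * T.w x4 := by rw [a_symm T]; omega
    have ed0 : T.a x0 x0 = -8 * T.w x4 := by omega
    have ed1 : T.a x1 x1 = -8 * T.w x4 := by omega
    have ed2 : T.a x2 x2 = -4 * T.w x4 := by omega
    have ed3 : T.a x3 x3 = -4 * T.w x4 := by omega
    have ed4 : T.a x4 x4 = -2 * T.w x4 := by omega
    have R0 : T.w x4 * (-8 * T.m x0 + 4 * T.m x1) = 0 := by linear_combination r0 - (T.m x0) * ed0 - (T.m x1) * ea01 - (T.m x2) * z02 - (T.m x3) * z03 - (T.m x4) * z04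
    have S0 := (mul_eq_zero.1 R0).resolve_left (T.w_pos x4).ne'
    have R1 : T.w x4 * (4 * T.m x0 + -8 * T.m x1 + 4 * T.m x2) = 0 := by linear_combination r1 - (T.m x0) * ea10 - (T.m x1) * ed1 - (T.m x2) * ea12 - (T.m x3) * z13 - (T.m x4) * z14
    have S1 := (mul_eq_zero.1 R1).resolve_left (T.w_pos x4).ne'
    have R2 : T.w x4 * (4 * T.m x1 + -4 * T.m x2 + 2 * T.m x3) = 0 := by linear_combination r2 - (T.m x0) * z20 - (T.m x1) * ea21 - (T.m x2) * ed2 - (T.m x3) * ea23 - (T.m x4) * z24
    have S2 := (mul_eq_zero.1 R2).resolve_left (T.w_pos x4).ne'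
    have R3 : T.w x4 * (2 * T.m x2 + -4 * T.m x3 + 2 * T.m x4) = 0 := by linear_combination r3 - (T.m x0) * z30 - (T.m x1) * z31 - (T.m x2) * ea32 - (T.m x3) * ed3 - (T.m x4) * ea34
    have S3 := (mul_eq_zero.1 R3).resolve_left (T.w_pos x4).ne'
    have R4 : T.w x4 * (2 * T.m x3 + -2 * T.m x4) = 0 := by linear_combination r4 - (T.m x0) * z40 - (T.m x1) * z41 - (T.m x2) * z42 - (T.m x3) * ea43 - (T.m x4) * ed4
    have S4 := (mul_eq_zero.1 R4).resolve_left (T.w_pos x4).ne'
    exfalso; linarith
  · -- (('S', 'L'), ('S', 'R'))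
    have ew0 : T.w x0 = 2 * T.w x2 := by omega
    have ew1 : T.w x1 = 2 * T.w x2 := by omega
    have ew2 : T.w x2 = 1 * T.w x2 := by omega
    have ew3 : T.w x3 = 1 * T.w x2 := by omega
    have ew4 : T.w x4 = 2 * T.w x2 := by omega
    have ea01 : T.a x0 x1 = 2 * T.w x2 := by omega
    have ea10 : T.a x1 x0 = 2 * T.w x2 := by rw [a_symm T]; omega
    have ea12 : T.a x1 x2 = 2 * T.w x2 := by omega
    have ea21 : T.a x2 x1 = 2 * T.w x2 := by rw [a_symm T]; omega
    have ea23 : T.a x2 x3 = 1 * T.w x2 := by omega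
    have ea32 : T.a x3 x2 = 1 * T.w x2 := by rw [a_symm T]; omega
    have ea34 : T.a x3 x4 = 2 * T.w x2 := by omega
    have ea43 : T.a x4 x3 = 2 * T.w x2 := by rw [a_symm T]; omega
    have ed0 : T.a x0 x0 = -4 * T.w x2 := by omega
    have ed1 : T.a x1 x1 = -4 * T.w x2 := by omega
    have ed2 : T.a x2 x2 = -2 * T.w x2 := by omega
    have ed3 : T.a x3 x3 = -2 * T.w x2 := by omega
    have ed4 : T.a x4 x4 = -4 * T.w x2 := by omega
    have R0 : T.w x2 * (-4 * T.m x0 + 2 * T.m x1) = 0 := by linear_combination r0 - (T.m x0) * ed0 - (T.m x1) * ea01 - (T.m x2) * z02 - (T.m x3) * z03 - (T.m x4) * z04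
    have S0 := (mul_eq_zero.1 R0).resolve_left (T.w_pos x2).ne'
    have R1 : T.w x2 * (2 * T.m x0 + -4 * T.m x1 + 2 * T.m x2) = 0 := by linear_combination r1 - (T.m x0) * ea10 - (T.m x1) * ed1 - (T.m x2) * ea12 - (T.m x3) * z13 - (T.m x4) * z14
    have S1 := (mul_eq_zero.1 R1).resolve_left (T.w_pos x2).ne'
    have R2 : T.w x2 * (2 * T.m x1 + -2 * T.m x2 + 1 * T.m x3) = 0 := by linear_combination r2 - (T.m x0) * z20 - (T.m x1) * ea21 - (T.m x2) * ed2 - (T.m x3) * ea23 - (T.m x4) * z24
    have S2 := (mul_eq_zero.1 R2).resolve_left (T.w_pos x2).ne'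
    have R3 : T.w x2 * (1 * T.m x2 + -2 * T.m x3 + 2 * T.m x4) = 0 := by linear_combination r3 - (T.m x0) * z30 - (T.m x1) * z31 - (T.m x2) * ea32 - (T.m x3) * ed3 - (T.m x4) * ea34
    have S3 := (mul_eq_zero.1 R3).resolve_left (T.w_pos x2).ne'
    have R4 : T.w x2 * (2 * T.m x3 + -4 * T.m x4) = 0 := by linear_combination r4 - (T.m x0) * z40 - (T.m x1) * z41 - (T.m x2) * z42 - (T.m x3) * ea43 - (T.m x4) * ed4
    have S4 := (mul_eq_zero.1 R4).resolve_left (T.w_pos x2).ne'
    exfalso; linarith
  · -- (('S', 'L'), ('L', 'S'))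
    have ew0 : T.w x0 = 4 * T.w x3 := by omega
    have ew1 : T.w x1 = 4 * T.w x3 := by omega
    have ew2 : T.w x2 = 2 * T.w x3 := by omega
    have ew3 : T.w x3 = 1 * T.w x3 := by omega
    have ew4 : T.w x4 = 1 * T.w x3 := by omega
    have ea01 : T.a x0 x1 = 4 * T.w x3 := by omega
    have ea10 : T.a x1 x0 = 4 * T.w x3 := by rw [a_symm T]; omega
    have ea12 : T.a x1 x2 = 4 * T.w x3 := by omega
    have ea21 : T.a x2 x1 = 4 * T.w x3 := by rw [a_symm T]; omega
    have ea23 : T.a x2 x3 = 2 * T.w x3 := by omega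
    have ea32 : T.a x3 x2 = 2 * T.w x3 := by rw [a_symm T]; omega
    have ea34 : T.a x3 x4 = 1 * T.w x3 := by omega
    have ea43 : T.a x4 x3 = 1 * T.w x3 := by rw [a_symm T]; omega
    have ed0 : T.a x0 x0 = -8 * T.w x3 := by omega
    have ed1 : T.a x1 x1 = -8 * T.w x3 := by omega
    have ed2 : T.a x2 x2 = -4 * T.w x3 := by omega
    have ed3 : T.a x3 x3 = -2 * T.w x3 := by omega
    have ed4 : T.a x4 x4 = -2 * T.w x3 := by omega
    have R0 : T.w x3 * (-8 * T.m x0 + 4 * T.m x1) = 0 := by linear_combination r0 - (T.m x0) * ed0 - (T.m x1) * ea01 - (T.m x2) * z02 - (T.m x3) * z03 - (T.m x4) * z04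
    have S0 := (mul_eq_zero.1 R0).resolve_left (T.w_pos x3).ne'
    have R1 : T.w x3 * (4 * T.m x0 + -8 * T.m x1 + 4 * T.m x2) = 0 := by linear_combination r1 - (T.m x0) * ea10 - (T.m x1) * ed1 - (T.m x2) * ea12 - (T.m x3) * z13 - (T.m x4) * z14
    have S1 := (mul_eq_zero.1 R1).resolve_left (T.w_pos x3).ne'
    have R2 : T.w x3 * (4 * T.m x1 + -4 * T.m x2 + 2 * T.m x3) = 0 := by linear_combination r2 - (T.m x0) * z20 - (T.m x1) * ea21 - (T.m x2) * ed2 - (T.m x3) * ea23 - (T.m x4) * z24
    have S2 := (mul_eq_zero.1 R2).resolve_left (T.w_pos x3).ne'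
    have R3 : T.w x3 * (2 * T.m x2 + -2 * T.m x3 + 1 * T.m x4) = 0 := by linear_combination r3 - (T.m x0) * z30 - (T.m x1) * z31 - (T.m x2) * ea32 - (T.m x3) * ed3 - (T.m x4) * ea34
    have S3 := (mul_eq_zero.1 R3).resolve_left (T.w_pos x3).ne'
    have R4 : T.w x3 * (1 * T.m x3 + -2 * T.m x4) = 0 := by linear_combination r4 - (T.m x0) * z40 - (T.m x1) * z41 - (T.m x2) * z42 - (T.m x3) * ea43 - (T.m x4) * ed4
    have S4 := (mul_eq_zero.1 R4).resolve_left (T.w_pos x3).ne'
    exfalso; linarith
  · -- (('S', 'L'), ('R', 'S'))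
    have ew0 : T.w x0 = 2 * T.w x2 := by omega
    have ew1 : T.w x1 = 2 * T.w x2 := by omega
    have ew2 : T.w x2 = 1 * T.w x2 := by omega
    have ew3 : T.w x3 = 2 * T.w x2 := by omega
    have ew4 : T.w x4 = 2 * T.w x2 := by omega
    have ea01 : T.a x0 x1 = 2 * T.w x2 := by omega
    have ea10 : T.a x1 x0 = 2 * T.w x2 := by rw [a_symm T]; omega
    have ea12 : T.a x1 x2 = 2 * T.w x2 := by omega
    have ea21 : T.a x2 x1 = 2 * T.w x2 := by rw [a_symm T]; omega
    have ea23 : T.a x2 x3 = 2 * T.w x2 := by omega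
    have ea32 : T.a x3 x2 = 2 * T.w x2 := by rw [a_symm T]; omega
    have ea34 : T.a x3 x4 = 2 * T.w x2 := by omega
    have ea43 : T.a x4 x3 = 2 * T.w x2 := by rw [a_symm T]; omega
    have ed0 : T.a x0 x0 = -4 * T.w x2 := by omega
    have ed1 : T.a x1 x1 = -4 * T.w x2 := by omega
    have ed2 : T.a x2 x2 = -2 * T.w x2 := by omega
    have ed3 : T.a x3 x3 = -4 * T.w x2 := by omega
    have ed4 : T.a x4 x4 = -4 * T.w x2 := by omega
    have R0 : T.w x2 * (-4 * T.m x0 + 2 * T.m x1) = 0 := by linear_combination r0 - (T.m x0) * ed0 - (T.m x1) * ea01 - (T.m x2) * z02 - (T.m x3) * z03 - (T.m x4) * z04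
    have S0 := (mul_eq_zero.1 R0).resolve_left (T.w_pos x2).ne'
    have R1 : T.w x2 * (2 * T.m x0 + -4 * T.m x1 + 2 * T.m x2) = 0 := by linear_combination r1 - (T.m x0) * ea10 - (T.m x1) * ed1 - (T.m x2) * ea12 - (T.m x3) * z13 - (T.m x4) * z14
    have S1 := (mul_eq_zero.1 R1).resolve_left (T.w_pos x2).ne'
    have R2 : T.w x2 * (2 * T.m x1 + -2 * T.m x2 + 2 * T.m x3) = 0 := by linear_combination r2 - (T.m x0) * z20 - (T.m x1) * ea21 - (T.m x2) * ed2 - (T.m x3) * ea23 - (T.m x4) * z24
    have S2 := (mul_eq_zero.1 R2).resolve_left (T.w_pos x2).ne'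
    have R3 : T.w x2 * (2 * T.m x2 + -4 * T.m x3 + 2 * T.m x4) = 0 := by linear_combination r3 - (T.m x0) * z30 - (T.m x1) * z31 - (T.m x2) * ea32 - (T.m x3) * ed3 - (T.m x4) * ea34
    have S3 := (mul_eq_zero.1 R3).resolve_left (T.w_pos x2).ne'
    have R4 : T.w x2 * (2 * T.m x3 + -4 * T.m x4) = 0 := by linear_combination r4 - (T.m x0) * z40 - (T.m x1) * z41 - (T.m x2) * z42 - (T.m x3) * ea43 - (T.m x4) * ed4
    have S4 := (mul_eq_zero.1 R4).resolve_left (T.w_pos x2).ne'
    exfalso; linarith
  · -- (('S', 'R'), ('S', 'S'))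
    have ew0 : T.w x0 = 1 * T.w x0 := by omega
    have ew1 : T.w x1 = 1 * T.w x0 := by omega
    have ew2 : T.w x2 = 2 * T.w x0 := by omega
    have ew3 : T.w x3 = 2 * T.w x0 := by omega
    have ew4 : T.w x4 = 2 * T.w x0 := by omega
    have ea01 : T.a x0 x1 = 1 * T.w x0 := by omega
    have ea10 : T.a x1 x0 = 1 * T.w x0 := by rw [a_symm T]; omega
    have ea12 : T.a x1 x2 = 2 * T.w x0 := by omega
    have ea21 : T.a x2 x1 = 2 * T.w x0 := by rw [a_symm T]; omega
    have ea23 : T.a x2 x3 = 2 * T.w x0 := by omega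
    have ea32 : T.a x3 x2 = 2 * T.w x0 := by rw [a_symm T]; omega
    have ea34 : T.a x3 x4 = 2 * T.w x0 := by omega
    have ea43 : T.a x4 x3 = 2 * T.w x0 := by rw [a_symm T]; omega
    have ed0 : T.a x0 x0 = -2 * T.w x0 := by omega
    have ed1 : T.a x1 x1 = -2 * T.w x0 := by omega
    have ed2 : T.a x2 x2 = -4 * T.w x0 := by omega
    have ed3 : T.a x3 x3 = -4 * T.w x0 := by omega
    have ed4 : T.a x4 x4 = -4 * T.w x0 := by omega
    have R0 : T.w x0 * (-2 * T.m x0 + 1 * T.m x1) = 0 := by linear_combination r0 - (T.m x0) * ed0 - (T.m x1) * ea01 - (T.m x2) * z02 - (T.m x3) * z03 - (T.m x4) * z04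
    have S0 := (mul_eq_zero.1 R0).resolve_left (T.w_pos x0).ne'
    have R1 : T.w x0 * (1 * T.m x0 + -2 * T.m x1 + 2 * T.m x2) = 0 := by linear_combination r1 - (T.m x0) * ea10 - (T.m x1) * ed1 - (T.m x2) * ea12 - (T.m x3) * z13 - (T.m x4) * z14
    have S1 := (mul_eq_zero.1 R1).resolve_left (T.w_pos x0).ne'
    have R2 : T.w x0 * (2 * T.m x1 + -4 * T.m x2 + 2 * T.m x3) = 0 := by linear_combination r2 - (T.m x0) * z20 - (T.m x1) * ea21 - (T.m x2) * ed2 - (T.m x3) * ea23 - (T.m x4) * z24
    have S2 := (mul_eq_zero.1 R2).resolve_left (T.w_pos x0).ne'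
    have R3 : T.w x0 * (2 * T.m x2 + -4 * T.m x3 + 2 * T.m x4) = 0 := by linear_combination r3 - (T.m x0) * z30 - (T.m x1) * z31 - (T.m x2) * ea32 - (T.m x3) * ed3 - (T.m x4) * ea34
    have S3 := (mul_eq_zero.1 R3).resolve_left (T.w_pos x0).ne'
    have R4 : T.w x0 * (2 * T.m x3 + -4 * T.m x4) = 0 := by linear_combination r4 - (T.m x0) * z40 - (T.m x1) * z41 - (T.m x2) * z42 - (T.m x3) * ea43 - (T.m x4) * ed4
    have S4 := (mul_eq_zero.1 R4).resolve_left (T.w_pos x0).ne'
    exact ⟨x4, x3, x2, x1, x0, T.m x4, T.w x1, inj5 d43 d42 d41 d40 d32 d31 d30 d21 d20 d10, Or.inr (Or.inr (Or.inl ⟨(by first | omega | linarith : T.m x4 = T.m x4), (by first | omega | linarith : T.m x3 = 2 * T.m x4), (by first | omega | linarith : T.m x2 = 3 * T.m x4), (by first | omega | linarith : T.m x1 = 4 * T.m x4), (by first | omega | linarith : T.m x0 = 2 * T.m x4), (by first | omega | linarith : T.w x4 = 2 * T.w x1), (by first | omega | linarith : T.w x3 = 2 * T.w x1), (by first | omega | linarith : T.w x2 = 2 * T.w x1), (by first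 | omega | linarith : T.w x1 = T.w x1), (by first | omega | linarith : T.w x0 = T.w x1), (by first | omega | linarith : T.a x4 x4 = -4 * T.w x1), (by first | omega | linarith : T.a x4 x3 = 2 * T.w x1), (by first | omega | linarith : T.a x4 x2 = 0), (by first | omega | linarith : T.a x4 x1 = 0), (by first | omega | linarith : T.a x4 x0 = 0), (by first | omega | linarith : T.a x3 x3 = -4 * T.w x1), (by first | omega | linarith : T.a x3 x2 = 2 * T.w x1), (by first | omega | linarith : T.a x3 x1 = 0), (by first | omega | linarith : T.a x3 x0 = 0), (by first | omega | linarith : T.a x2 x2 = -4 * T.w x1), (by first | omega | linarith : T.a x2 x1 = 2 * T.w x1), (by first | omega | linarith : T.a x2 x0 = 0), (by first | omega | linarith : T.a x1 x1 = -2 * T.w x1), (by first | omega | linarith : T.a x1 x0 = T.w x1), (by first | omega | linarith : T.a x0 x0 = -2 * T.w x1)⟩))⟩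
    -- type 3 perm (4, 3, 2, 1, 0)
  · -- (('S', 'R'), ('S', 'L'))
    have ew0 : T.w x0 = 1 * T.w x0 := by omega
    have ew1 : T.w x1 = 1 * T.w x0 := by omega
    have ew2 : T.w x2 = 2 * T.w x0 := by omega
    have ew3 : T.w x3 = 2 * T.w x0 := by omega
    have ew4 : T.w x4 = 1 * T.w x0 := by omega
    have ea01 : T.a x0 x1 = 1 * T.w x0 := by omega
    have ea10 : T.a x1 x0 = 1 * T.w x0 := by rw [a_symm T]; omega
    have ea12 : T.a x1 x2 = 2 * T.w x0 := by omega
    have ea21 : T.a x2 x1 = 2 * T.w x0 := by rw [a_symm T]; omega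
    have ea23 : T.a x2 x3 = 2 * T.w x0 := by omega
    have ea32 : T.a x3 x2 = 2 * T.w x0 := by rw [a_symm T]; omega
    have ea34 : T.a x3 x4 = 2 * T.w x0 := by omega
    have ea43 : T.a x4 x3 = 2 * T.w x0 := by rw [a_symm T]; omega
    have ed0 : T.a x0 x0 = -2 * T.w x0 := by omega
    have ed1 : T.a x1 x1 = -2 * T.w x0 := by omega
    have ed2 : T.a x2 x2 = -4 * T.w x0 := by omega
    have ed3 : T.a x3 x3 = -4 * T.w x0 := by omega
    have ed4 : T.a x4 x4 = -2 * T.w x0 := by omega
    have R0 : T.w x0 * (-2 * T.m x0 + 1 * T.m x1) = 0 := by linear_combination r0 - (T.m x0) * ed0 - (T.m x1) * ea01 - (T.m x2) * z02 - (T.m x3) * z03 - (T.m x4) * z04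
    have S0 := (mul_eq_zero.1 R0).resolve_left (T.w_pos x0).ne'
    have R1 : T.w x0 * (1 * T.m x0 + -2 * T.m x1 + 2 * T.m x2) = 0 := by linear_combination r1 - (T.m x0) * ea10 - (T.m x1) * ed1 - (T.m x2) * ea12 - (T.m x3) * z13 - (T.m x4) * z14
    have S1 := (mul_eq_zero.1 R1).resolve_left (T.w_pos x0).ne'
    have R2 : T.w x0 * (2 * T.m x1 + -4 * T.m x2 + 2 * T.m x3) = 0 := by linear_combination r2 - (T.m x0) * z20 - (T.m x1) * ea21 - (T.m x2) * ed2 - (T.m x3) * ea23 - (T.m x4) * z24
    have S2 := (mul_eq_zero.1 R2).resolve_left (T.w_pos x0).ne'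
    have R3 : T.w x0 * (2 * T.m x2 + -4 * T.m x3 + 2 * T.m x4) = 0 := by linear_combination r3 - (T.m x0) * z30 - (T.m x1) * z31 - (T.m x2) * ea32 - (T.m x3) * ed3 - (T.m x4) * ea34
    have S3 := (mul_eq_zero.1 R3).resolve_left (T.w_pos x0).ne'
    have R4 : T.w x0 * (2 * T.m x3 + -2 * T.m x4) = 0 := by linear_combination r4 - (T.m x0) * z40 - (T.m x1) * z41 - (T.m x2) * z42 - (T.m x3) * ea43 - (T.m x4) * ed4
    have S4 := (mul_eq_zero.1 R4).resolve_left (T.w_pos x0).ne'
    exfalso; linarith
  · -- (('S', 'R'), ('S', 'R'))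
    have ew0 : T.w x0 = 1 * T.w x0 := by omega
    have ew1 : T.w x1 = 1 * T.w x0 := by omega
    have ew2 : T.w x2 = 2 * T.w x0 := by omega
    have ew3 : T.w x3 = 2 * T.w x0 := by omega
    have ew4 : T.w x4 = 4 * T.w x0 := by omega
    have ea01 : T.a x0 x1 = 1 * T.w x0 := by omega
    have ea10 : T.a x1 x0 = 1 * T.w x0 := by rw [a_symm T]; omega
    have ea12 : T.a x1 x2 = 2 * T.w x0 := by omega
    have ea21 : T.a x2 x1 = 2 * T.w x0 := by rw [a_symm T]; omega
    have ea23 : T.a x2 x3 = 2 * T.w x0 := by omega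
    have ea32 : T.a x3 x2 = 2 * T.w x0 := by rw [a_symm T]; omega
    have ea34 : T.a x3 x4 = 4 * T.w x0 := by omega
    have ea43 : T.a x4 x3 = 4 * T.w x0 := by rw [a_symm T]; omega
    have ed0 : T.a x0 x0 = -2 * T.w x0 := by omega
    have ed1 : T.a x1 x1 = -2 * T.w x0 := by omega
    have ed2 : T.a x2 x2 = -4 * T.w x0 := by omega
    have ed3 : T.a x3 x3 = -4 * T.w x0 := by omega
    have ed4 : T.a x4 x4 = -8 * T.w x0 := by omega
    have R0 : T.w x0 * (-2 * T.m x0 + 1 * T.m x1) = 0 := by linear_combination r0 - (T.m x0) * ed0 - (T.m x1) * ea01 - (T.m x2) * z02 - (T.m x3) * z03 - (T.m x4) * z04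
    have S0 := (mul_eq_zero.1 R0).resolve_left (T.w_pos x0).ne'
    have R1 : T.w x0 * (1 * T.m x0 + -2 * T.m x1 + 2 * T.m x2) = 0 := by linear_combination r1 - (T.m x0) * ea10 - (T.m x1) * ed1 - (T.m x2) * ea12 - (T.m x3) * z13 - (T.m x4) * z14
    have S1 := (mul_eq_zero.1 R1).resolve_left (T.w_pos x0).ne'
    have R2 : T.w x0 * (2 * T.m x1 + -4 * T.m x2 + 2 * T.m x3) = 0 := by linear_combination r2 - (T.m x0) * z20 - (T.m x1) * ea21 - (T.m x2) * ed2 - (T.m x3) * ea23 - (T.m x4) * z24
    have S2 := (mul_eq_zero.1 R2).resolve_left (T.w_pos x0).ne'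
    have R3 : T.w x0 * (2 * T.m x2 + -4 * T.m x3 + 4 * T.m x4) = 0 := by linear_combination r3 - (T.m x0) * z30 - (T.m x1) * z31 - (T.m x2) * ea32 - (T.m x3) * ed3 - (T.m x4) * ea34
    have S3 := (mul_eq_zero.1 R3).resolve_left (T.w_pos x0).ne'
    have R4 : T.w x0 * (4 * T.m x3 + -8 * T.m x4) = 0 := by linear_combination r4 - (T.m x0) * z40 - (T.m x1) * z41 - (T.m x2) * z42 - (T.m x3) * ea43 - (T.m x4) * ed4
    have S4 := (mul_eq_zero.1 R4).resolve_left (T.w_pos x0).ne'
    exfalso; linarith
  · -- (('S', 'R'), ('L', 'S'))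
    have ew0 : T.w x0 = 1 * T.w x0 := by omega
    have ew1 : T.w x1 = 1 * T.w x0 := by omega
    have ew2 : T.w x2 = 2 * T.w x0 := by omega
    have ew3 : T.w x3 = 1 * T.w x0 := by omega
    have ew4 : T.w x4 = 1 * T.w x0 := by omega
    have ea01 : T.a x0 x1 = 1 * T.w x0 := by omega
    have ea10 : T.a x1 x0 = 1 * T.w x0 := by rw [a_symm T]; omega
    have ea12 : T.a x1 x2 = 2 * T.w x0 := by omega
    have ea21 : T.a x2 x1 = 2 * T.w x0 := by rw [a_symm T]; omega
    have ea23 : T.a x2 x3 = 2 * T.w x0 := by omega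
    have ea32 : T.a x3 x2 = 2 * T.w x0 := by rw [a_symm T]; omega
    have ea34 : T.a x3 x4 = 1 * T.w x0 := by omega
    have ea43 : T.a x4 x3 = 1 * T.w x0 := by rw [a_symm T]; omega
    have ed0 : T.a x0 x0 = -2 * T.w x0 := by omega
    have ed1 : T.a x1 x1 = -2 * T.w x0 := by omega
    have ed2 : T.a x2 x2 = -4 * T.w x0 := by omega
    have ed3 : T.a x3 x3 = -2 * T.w x0 := by omega
    have ed4 : T.a x4 x4 = -2 * T.w x0 := by omega
    have R0 : T.w x0 * (-2 * T.m x0 + 1 * T.m x1) = 0 := by linear_combination r0 - (T.m x0) * ed0 - (T.m x1) * ea01 - (T.m x2) * z02 - (T.m x3) * z03 - (T.m x4) * z04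
    have S0 := (mul_eq_zero.1 R0).resolve_left (T.w_pos x0).ne'
    have R1 : T.w x0 * (1 * T.m x0 + -2 * T.m x1 + 2 * T.m x2) = 0 := by linear_combination r1 - (T.m x0) * ea10 - (T.m x1) * ed1 - (T.m x2) * ea12 - (T.m x3) * z13 - (T.m x4) * z14
    have S1 := (mul_eq_zero.1 R1).resolve_left (T.w_pos x0).ne'
    have R2 : T.w x0 * (2 * T.m x1 + -4 * T.m x2 + 2 * T.m x3) = 0 := by linear_combination r2 - (T.m x0) * z20 - (T.m x1) * ea21 - (T.m x2) * ed2 - (T.m x3) * ea23 - (T.m x4) * z24
    have S2 := (mul_eq_zero.1 R2).resolve_left (T.w_pos x0).ne'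
    have R3 : T.w x0 * (2 * T.m x2 + -2 * T.m x3 + 1 * T.m x4) = 0 := by linear_combination r3 - (T.m x0) * z30 - (T.m x1) * z31 - (T.m x2) * ea32 - (T.m x3) * ed3 - (T.m x4) * ea34
    have S3 := (mul_eq_zero.1 R3).resolve_left (T.w_pos x0).ne'
    have R4 : T.w x0 * (1 * T.m x3 + -2 * T.m x4) = 0 := by linear_combination r4 - (T.m x0) * z40 - (T.m x1) * z41 - (T.m x2) * z42 - (T.m x3) * ea43 - (T.m x4) * ed4
    have S4 := (mul_eq_zero.1 R4).resolve_left (T.w_pos x0).ne'
    exfalso; linarith
  · -- (('S', 'R'), ('R', 'S'))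
    have ew0 : T.w x0 = 1 * T.w x0 := by omega
    have ew1 : T.w x1 = 1 * T.w x0 := by omega
    have ew2 : T.w x2 = 2 * T.w x0 := by omega
    have ew3 : T.w x3 = 4 * T.w x0 := by omega
    have ew4 : T.w x4 = 4 * T.w x0 := by omega
    have ea01 : T.a x0 x1 = 1 * T.w x0 := by omega
    have ea10 : T.a x1 x0 = 1 * T.w x0 := by rw [a_symm T]; omega
    have ea12 : T.a x1 x2 = 2 * T.w x0 := by omega
    have ea21 : T.a x2 x1 = 2 * T.w x0 := by rw [a_symm T]; omega
    have ea23 : T.a x2 x3 = 4 * T.w x0 := by omega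
    have ea32 : T.a x3 x2 = 4 * T.w x0 := by rw [a_symm T]; omega
    have ea34 : T.a x3 x4 = 4 * T.w x0 := by omega
    have ea43 : T.a x4 x3 = 4 * T.w x0 := by rw [a_symm T]; omega
    have ed0 : T.a x0 x0 = -2 * T.w x0 := by omega
    have ed1 : T.a x1 x1 = -2 * T.w x0 := by omega
    have ed2 : T.a x2 x2 = -4 * T.w x0 := by omega
    have ed3 : T.a x3 x3 = -8 * T.w x0 := by omega
    have ed4 : T.a x4 x4 = -8 * T.w x0 := by omega
    have R0 : T.w x0 * (-2 * T.m x0 + 1 * T.m x1) = 0 := by linear_combination r0 - (T.m x0) * ed0 - (T.m x1) * ea01 - (T.m x2) * z02 - (T.m x3) * z03 - (T.m x4) * z04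
    have S0 := (mul_eq_zero.1 R0).resolve_left (T.w_pos x0).ne'
    have R1 : T.w x0 * (1 * T.m x0 + -2 * T.m x1 + 2 * T.m x2) = 0 := by linear_combination r1 - (T.m x0) * ea10 - (T.m x1) * ed1 - (T.m x2) * ea12 - (T.m x3) * z13 - (T.m x4) * z14
    have S1 := (mul_eq_zero.1 R1).resolve_left (T.w_pos x0).ne'
    have R2 : T.w x0 * (2 * T.m x1 + -4 * T.m x2 + 4 * T.m x3) = 0 := by linear_combination r2 - (T.m x0) * z20 - (T.m x1) * ea21 - (T.m x2) * ed2 - (T.m x3) * ea23 - (T.m x4) * z24
    have S2 := (mul_eq_zero.1 R2).resolve_left (T.w_pos x0).ne'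
    have R3 : T.w x0 * (4 * T.m x2 + -8 * T.m x3 + 4 * T.m x4) = 0 := by linear_combination r3 - (T.m x0) * z30 - (T.m x1) * z31 - (T.m x2) * ea32 - (T.m x3) * ed3 - (T.m x4) * ea34
    have S3 := (mul_eq_zero.1 R3).resolve_left (T.w_pos x0).ne'
    have R4 : T.w x0 * (4 * T.m x3 + -8 * T.m x4) = 0 := by linear_combination r4 - (T.m x0) * z40 - (T.m x1) * z41 - (T.m x2) * z42 - (T.m x3) * ea43 - (T.m x4) * ed4
    have S4 := (mul_eq_zero.1 R4).resolve_left (T.w_pos x0).ne'
    exfalso; linarith
  · -- (('L', 'S'), ('S', 'S'))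
    have ew0 : T.w x0 = 2 * T.w x1 := by omega
    have ew1 : T.w x1 = 1 * T.w x1 := by omega
    have ew2 : T.w x2 = 1 * T.w x1 := by omega
    have ew3 : T.w x3 = 1 * T.w x1 := by omega
    have ew4 : T.w x4 = 1 * T.w x1 := by omega
    have ea01 : T.a x0 x1 = 2 * T.w x1 := by omega
    have ea10 : T.a x1 x0 = 2 * T.w x1 := by rw [a_symm T]; omega
    have ea12 : T.a x1 x2 = 1 * T.w x1 := by omega
    have ea21 : T.a x2 x1 = 1 * T.w x1 := by rw [a_symm T]; omega
    have ea23 : T.a x2 x3 = 1 * T.w x1 := by omega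
    have ea32 : T.a x3 x2 = 1 * T.w x1 := by rw [a_symm T]; omega
    have ea34 : T.a x3 x4 = 1 * T.w x1 := by omega
    have ea43 : T.a x4 x3 = 1 * T.w x1 := by rw [a_symm T]; omega
    have ed0 : T.a x0 x0 = -4 * T.w x1 := by omega
    have ed1 : T.a x1 x1 = -2 * T.w x1 := by omega
    have ed2 : T.a x2 x2 = -2 * T.w x1 := by omega
    have ed3 : T.a x3 x3 = -2 * T.w x1 := by omega
    have ed4 : T.a x4 x4 = -2 * T.w x1 := by omega
    have R0 : T.w x1 * (-4 * T.m x0 + 2 * T.m x1) = 0 := by linear_combination r0 - (T.m x0) * ed0 - (T.m x1) * ea01 - (T.m x2) * z02 - (T.m x3) * z03 - (T.m x4) * z04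
    have S0 := (mul_eq_zero.1 R0).resolve_left (T.w_pos x1).ne'
    have R1 : T.w x1 * (2 * T.m x0 + -2 * T.m x1 + 1 * T.m x2) = 0 := by linear_combination r1 - (T.m x0) * ea10 - (T.m x1) * ed1 - (T.m x2) * ea12 - (T.m x3) * z13 - (T.m x4) * z14
    have S1 := (mul_eq_zero.1 R1).resolve_left (T.w_pos x1).ne'
    have R2 : T.w x1 * (1 * T.m x1 + -2 * T.m x2 + 1 * T.m x3) = 0 := by linear_combination r2 - (T.m x0) * z20 - (T.m x1) * ea21 - (T.m x2) * ed2 - (T.m x3) * ea23 - (T.m x4) * z24
    have S2 := (mul_eq_zero.1 R2).resolve_left (T.w_pos x1).ne'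
    have R3 : T.w x1 * (1 * T.m x2 + -2 * T.m x3 + 1 * T.m x4) = 0 := by linear_combination r3 - (T.m x0) * z30 - (T.m x1) * z31 - (T.m x2) * ea32 - (T.m x3) * ed3 - (T.m x4) * ea34
    have S3 := (mul_eq_zero.1 R3).resolve_left (T.w_pos x1).ne'
    have R4 : T.w x1 * (1 * T.m x3 + -2 * T.m x4) = 0 := by linear_combination r4 - (T.m x0) * z40 - (T.m x1) * z41 - (T.m x2) * z42 - (T.m x3) * ea43 - (T.m x4) * ed4
    have S4 := (mul_eq_zero.1 R4).resolve_left (T.w_pos x1).ne'
    exfalso; linarith
  · -- (('L', 'S'), ('S', 'L'))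
    have ew0 : T.w x0 = 4 * T.w x4 := by omega
    have ew1 : T.w x1 = 2 * T.w x4 := by omega
    have ew2 : T.w x2 = 2 * T.w x4 := by omega
    have ew3 : T.w x3 = 2 * T.w x4 := by omega
    have ew4 : T.w x4 = 1 * T.w x4 := by omega
    have ea01 : T.a x0 x1 = 4 * T.w x4 := by omega
    have ea10 : T.a x1 x0 = 4 * T.w x4 := by rw [a_symm T]; omega
    have ea12 : T.a x1 x2 = 2 * T.w x4 := by omega
    have ea21 : T.a x2 x1 = 2 * T.w x4 := by rw [a_symm T]; omega
    have ea23 : T.a x2 x3 = 2 * T.w x4 := by omega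
    have ea32 : T.a x3 x2 = 2 * T.w x4 := by rw [a_symm T]; omega
    have ea34 : T.a x3 x4 = 2 * T.w x4 := by omega
    have ea43 : T.a x4 x3 = 2 * T.w x4 := by rw [a_symm T]; omega
    have ed0 : T.a x0 x0 = -8 * T.w x4 := by omega
    have ed1 : T.a x1 x1 = -4 * T.w x4 := by omega
    have ed2 : T.a x2 x2 = -4 * T.w x4 := by omega
    have ed3 : T.a x3 x3 = -4 * T.w x4 := by omega
    have ed4 : T.a x4 x4 = -2 * T.w x4 := by omega
    have R0 : T.w x4 * (-8 * T.m x0 + 4 * T.m x1) = 0 := by linear_combination r0 - (T.m x0) * ed0 - (T.m x1) * ea01 - (T.m x2) * z02 - (T.m x3) * z03 - (T.m x4) * z04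
    have S0 := (mul_eq_zero.1 R0).resolve_left (T.w_pos x4).ne'
    have R1 : T.w x4 * (4 * T.m x0 + -4 * T.m x1 + 2 * T.m x2) = 0 := by linear_combination r1 - (T.m x0) * ea10 - (T.m x1) * ed1 - (T.m x2) * ea12 - (T.m x3) * z13 - (T.m x4) * z14
    have S1 := (mul_eq_zero.1 R1).resolve_left (T.w_pos x4).ne'
    have R2 : T.w x4 * (2 * T.m x1 + -4 * T.m x2 + 2 * T.m x3) = 0 := by linear_combination r2 - (T.m x0) * z20 - (T.m x1) * ea21 - (T.m x2) * ed2 - (T.m x3) * ea23 - (T.m x4) * z24
    have S2 := (mul_eq_zero.1 R2).resolve_left (T.w_pos x4).ne'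
    have R3 : T.w x4 * (2 * T.m x2 + -4 * T.m x3 + 2 * T.m x4) = 0 := by linear_combination r3 - (T.m x0) * z30 - (T.m x1) * z31 - (T.m x2) * ea32 - (T.m x3) * ed3 - (T.m x4) * ea34
    have S3 := (mul_eq_zero.1 R3).resolve_left (T.w_pos x4).ne'
    have R4 : T.w x4 * (2 * T.m x3 + -2 * T.m x4) = 0 := by linear_combination r4 - (T.m x0) * z40 - (T.m x1) * z41 - (T.m x2) * z42 - (T.m x3) * ea43 - (T.m x4) * ed4
    have S4 := (mul_eq_zero.1 R4).resolve_left (T.w_pos x4).ne'
    exact ⟨x4, x3, x2, x1, x0, T.m x0, T.w x4, inj5 d43 d42 d41 d40 d32 d31 d30 d21 d20 d10, Or.inr (Or.inr (Or.inr (Or.inl ⟨(by first | omega | linarith : T.m x4 = 2 * T.m x0), (by first | omega | linarith : T.m x3 = 2 * T.m x0), (by first | omega | linarith : T.m x2 = 2 * T.m x0), (by first | omega | linarith : T.m x1 = 2 * T.m x0), (by first | omega | linarith : T.m x0 = T.m x0), (by first | omega | linarith : T.w x4 = T.w x4), (by first | omega | linarith : T.w x3 = 2 * T.w x4), (by first | omega | linarith : T.w x2 = 2 * T.w x4), (by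 first | omega | linarith : T.w x1 = 2 * T.w x4), (by first | omega | linarith : T.w x0 = 4 * T.w x4), (by first | omega | linarith : T.a x4 x4 = -2 * T.w x4), (by first | omega | linarith : T.a x4 x3 = 2 * T.w x4), (by first | omega | linarith : T.a x4 x2 = 0), (by first | omega | linarith : T.a x4 x1 = 0), (by first | omega | linarith : T.a x4 x0 = 0), (by first | omega | linarith : T.a x3 x3 = -4 * T.w x4), (by first | omega | linarith : T.a x3 x2 = 2 * T.w x4), (by first | omega | linarith : T.a x3 x1 = 0), (by first | omega | linarith : T.a x3 x0 = 0), (by first | omega | linarith : T.a x2 x2 = -4 * T.w x4), (by first | omega | linarith : T.a x2 x1 = 2 * T.w x4), (by first | omega | linarith : T.a x2 x0 = 0), (by first | omega | linarith : T.a x1 x1 = -4 * T.w x4), (by first | omega | linarith : T.a x1 x0 = 4 * T.w x4), (by first | omega | linarith : T.a x0 x0 = -8 * T.w x4)⟩)))⟩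
    -- type 4 perm (4, 3, 2, 1, 0)
  · -- (('L', 'S'), ('S', 'R'))
    have ew0 : T.w x0 = 2 * T.w x1 := by omega
    have ew1 : T.w x1 = 1 * T.w x1 := by omega
    have ew2 : T.w x2 = 1 * T.w x1 := by omega
    have ew3 : T.w x3 = 1 * T.w x1 := by omega
    have ew4 : T.w x4 = 2 * T.w x1 := by omega
    have ea01 : T.a x0 x1 = 2 * T.w x1 := by omega
    have ea10 : T.a x1 x0 = 2 * T.w x1 := by rw [a_symm T]; omega
    have ea12 : T.a x1 x2 = 1 * T.w x1 := by omega
    have ea21 : T.a x2 x1 = 1 * T.w x1 := by rw [a_symm T]; omega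
    have ea23 : T.a x2 x3 = 1 * T.w x1 := by omega
    have ea32 : T.a x3 x2 = 1 * T.w x1 := by rw [a_symm T]; omega
    have ea34 : T.a x3 x4 = 2 * T.w x1 := by omega
    have ea43 : T.a x4 x3 = 2 * T.w x1 := by rw [a_symm T]; omega
    have ed0 : T.a x0 x0 = -4 * T.w x1 := by omega
    have ed1 : T.a x1 x1 = -2 * T.w x1 := by omega
    have ed2 : T.a x2 x2 = -2 * T.w x1 := by omega
    have ed3 : T.a x3 x3 = -2 * T.w x1 := by omega
    have ed4 : T.a x4 x4 = -4 * T.w x1 := by omega
    have R0 : T.w x1 * (-4 * T.m x0 + 2 * T.m x1) = 0 := by linear_combination r0 - (T.m x0) * ed0 - (T.m x1) * ea01 - (T.m x2) * z02 - (T.m x3) * z03 - (T.m x4) * z04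
    have S0 := (mul_eq_zero.1 R0).resolve_left (T.w_pos x1).ne'
    have R1 : T.w x1 * (2 * T.m x0 + -2 * T.m x1 + 1 * T.m x2) = 0 := by linear_combination r1 - (T.m x0) * ea10 - (T.m x1) * ed1 - (T.m x2) * ea12 - (T.m x3) * z13 - (T.m x4) * z14
    have S1 := (mul_eq_zero.1 R1).resolve_left (T.w_pos x1).ne'
    have R2 : T.w x1 * (1 * T.m x1 + -2 * T.m x2 + 1 * T.m x3) = 0 := by linear_combination r2 - (T.m x0) * z20 - (T.m x1) * ea21 - (T.m x2) * ed2 - (T.m x3) * ea23 - (T.m x4) * z24
    have S2 := (mul_eq_zero.1 R2).resolve_left (T.w_pos x1).ne'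
    have R3 : T.w x1 * (1 * T.m x2 + -2 * T.m x3 + 2 * T.m x4) = 0 := by linear_combination r3 - (T.m x0) * z30 - (T.m x1) * z31 - (T.m x2) * ea32 - (T.m x3) * ed3 - (T.m x4) * ea34
    have S3 := (mul_eq_zero.1 R3).resolve_left (T.w_pos x1).ne'
    have R4 : T.w x1 * (2 * T.m x3 + -4 * T.m x4) = 0 := by linear_combination r4 - (T.m x0) * z40 - (T.m x1) * z41 - (T.m x2) * z42 - (T.m x3) * ea43 - (T.m x4) * ed4
    have S4 := (mul_eq_zero.1 R4).resolve_left (T.w_pos x1).ne'
    exact ⟨x0, x1, x2, x3, x4, T.m x0, T.w x1, inj5 d01 d02 d03 d04 d12 d13 d14 d23 d24 d34, Or.inr (Or.inr (Or.inr (Or.inr (Or.inr (Or.inl ⟨(by first | omega | linarith : T.m x0 = T.m x0), (by first | omega | linarith : T.m x1 = 2 * T.m x0), (by first | omega | linarith : T.m x2 = 2 * T.m x0), (by first | omega | linarith : T.m x3 = 2 * T.m x0), (by first | omega | linarith : T.m x4 = T.m x0), (by first | omega | linarith : T.w x0 = 2 * T.w x1), (by first | omega | linarith : T.w x1 = T.w x1), (by first | omega | linarith : T.w x2 = T.w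 x1), (by first | omega | linarith : T.w x3 = T.w x1), (by first | omega | linarith : T.w x4 = 2 * T.w x1), (by first | omega | linarith : T.a x0 x0 = -4 * T.w x1), (by first | omega | linarith : T.a x0 x1 = 2 * T.w x1), (by first | omega | linarith : T.a x0 x2 = 0), (by first | omega | linarith : T.a x0 x3 = 0), (by first | omega | linarith : T.a x0 x4 = 0), (by first | omega | linarith : T.a x1 x1 = -2 * T.w x1), (by first | omega | linarith : T.a x1 x2 = T.w x1), (by first | omega | linarith : T.a x1 x3 = 0), (by first | omega | linarith : T.a x1 x4 = 0), (by first | omega | linarith : T.a x2 x2 = -2 * T.w x1), (by first | omega | linarith : T.a x2 x3 = T.w x1), (by first | omega | linarith : T.a x2 x4 = 0), (by first | omega | linarith : T.a x3 x3 = -2 * T.w x1), (by first | omega | linarith : T.a x3 x4 = 2 * T.w x1), (by first | omega | linarith : T.a x4 x4 = -4 * T.w x1)⟩)))))⟩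
    -- type 6 perm (0, 1, 2, 3, 4)
  · -- (('L', 'S'), ('L', 'S'))
    have ew0 : T.w x0 = 4 * T.w x3 := by omega
    have ew1 : T.w x1 = 2 * T.w x3 := by omega
    have ew2 : T.w x2 = 2 * T.w x3 := by omega
    have ew3 : T.w x3 = 1 * T.w x3 := by omega
    have ew4 : T.w x4 = 1 * T.w x3 := by omega
    have ea01 : T.a x0 x1 = 4 * T.w x3 := by omega
    have ea10 : T.a x1 x0 = 4 * T.w x3 := by rw [a_symm T]; omega
    have ea12 : T.a x1 x2 = 2 * T.w x3 := by omega
    have ea21 : T.a x2 x1 = 2 * T.w x3 := by rw [a_symm T]; omega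
    have ea23 : T.a x2 x3 = 2 * T.w x3 := by omega
    have ea32 : T.a x3 x2 = 2 * T.w x3 := by rw [a_symm T]; omega
    have ea34 : T.a x3 x4 = 1 * T.w x3 := by omega
    have ea43 : T.a x4 x3 = 1 * T.w x3 := by rw [a_symm T]; omega
    have ed0 : T.a x0 x0 = -8 * T.w x3 := by omega
    have ed1 : T.a x1 x1 = -4 * T.w x3 := by omega
    have ed2 : T.a x2 x2 = -4 * T.w x3 := by omega
    have ed3 : T.a x3 x3 = -2 * T.w x3 := by omega
    have ed4 : T.a x4 x4 = -2 * T.w x3 := by omega
    have R0 : T.w x3 * (-8 * T.m x0 + 4 * T.m x1) = 0 := by linear_combination r0 - (T.m x0) * ed0 - (T.m x1) * ea01 - (T.m x2) * z02 - (T.m x3) * z03 - (T.m x4) * z04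
    have S0 := (mul_eq_zero.1 R0).resolve_left (T.w_pos x3).ne'
    have R1 : T.w x3 * (4 * T.m x0 + -4 * T.m x1 + 2 * T.m x2) = 0 := by linear_combination r1 - (T.m x0) * ea10 - (T.m x1) * ed1 - (T.m x2) * ea12 - (T.m x3) * z13 - (T.m x4) * z14
    have S1 := (mul_eq_zero.1 R1).resolve_left (T.w_pos x3).ne'
    have R2 : T.w x3 * (2 * T.m x1 + -4 * T.m x2 + 2 * T.m x3) = 0 := by linear_combination r2 - (T.m x0) * z20 - (T.m x1) * ea21 - (T.m x2) * ed2 - (T.m x3) * ea23 - (T.m x4) * z24
    have S2 := (mul_eq_zero.1 R2).resolve_left (T.w_pos x3).ne'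
    have R3 : T.w x3 * (2 * T.m x2 + -2 * T.m x3 + 1 * T.m x4) = 0 := by linear_combination r3 - (T.m x0) * z30 - (T.m x1) * z31 - (T.m x2) * ea32 - (T.m x3) * ed3 - (T.m x4) * ea34
    have S3 := (mul_eq_zero.1 R3).resolve_left (T.w_pos x3).ne'
    have R4 : T.w x3 * (1 * T.m x3 + -2 * T.m x4) = 0 := by linear_combination r4 - (T.m x0) * z40 - (T.m x1) * z41 - (T.m x2) * z42 - (T.m x3) * ea43 - (T.m x4) * ed4
    have S4 := (mul_eq_zero.1 R4).resolve_left (T.w_pos x3).ne'
    exfalso; linarith
  · -- (('L', 'S'), ('R', 'S'))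
    have ew0 : T.w x0 = 2 * T.w x1 := by omega
    have ew1 : T.w x1 = 1 * T.w x1 := by omega
    have ew2 : T.w x2 = 1 * T.w x1 := by omega
    have ew3 : T.w x3 = 2 * T.w x1 := by omega
    have ew4 : T.w x4 = 2 * T.w x1 := by omega
    have ea01 : T.a x0 x1 = 2 * T.w x1 := by omega
    have ea10 : T.a x1 x0 = 2 * T.w x1 := by rw [a_symm T]; omega
    have ea12 : T.a x1 x2 = 1 * T.w x1 := by omega
    have ea21 : T.a x2 x1 = 1 * T.w x1 := by rw [a_symm T]; omega
    have ea23 : T.a x2 x3 = 2 * T.w x1 := by omega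
    have ea32 : T.a x3 x2 = 2 * T.w x1 := by rw [a_symm T]; omega
    have ea34 : T.a x3 x4 = 2 * T.w x1 := by omega
    have ea43 : T.a x4 x3 = 2 * T.w x1 := by rw [a_symm T]; omega
    have ed0 : T.a x0 x0 = -4 * T.w x1 := by omega
    have ed1 : T.a x1 x1 = -2 * T.w x1 := by omega
    have ed2 : T.a x2 x2 = -2 * T.w x1 := by omega
    have ed3 : T.a x3 x3 = -4 * T.w x1 := by omega
    have ed4 : T.a x4 x4 = -4 * T.w x1 := by omega
    have R0 : T.w x1 * (-4 * T.m x0 + 2 * T.m x1) = 0 := by linear_combination r0 - (T.m x0) * ed0 - (T.m x1) * ea01 - (T.m x2) * z02 - (T.m x3) * z03 - (T.m x4) * z04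
    have S0 := (mul_eq_zero.1 R0).resolve_left (T.w_pos x1).ne'
    have R1 : T.w x1 * (2 * T.m x0 + -2 * T.m x1 + 1 * T.m x2) = 0 := by linear_combination r1 - (T.m x0) * ea10 - (T.m x1) * ed1 - (T.m x2) * ea12 - (T.m x3) * z13 - (T.m x4) * z14
    have S1 := (mul_eq_zero.1 R1).resolve_left (T.w_pos x1).ne'
    have R2 : T.w x1 * (1 * T.m x1 + -2 * T.m x2 + 2 * T.m x3) = 0 := by linear_combination r2 - (T.m x0) * z20 - (T.m x1) * ea21 - (T.m x2) * ed2 - (T.m x3) * ea23 - (T.m x4) * z24
    have S2 := (mul_eq_zero.1 R2).resolve_left (T.w_pos x1).ne'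
    have R3 : T.w x1 * (2 * T.m x2 + -4 * T.m x3 + 2 * T.m x4) = 0 := by linear_combination r3 - (T.m x0) * z30 - (T.m x1) * z31 - (T.m x2) * ea32 - (T.m x3) * ed3 - (T.m x4) * ea34
    have S3 := (mul_eq_zero.1 R3).resolve_left (T.w_pos x1).ne'
    have R4 : T.w x1 * (2 * T.m x3 + -4 * T.m x4) = 0 := by linear_combination r4 - (T.m x0) * z40 - (T.m x1) * z41 - (T.m x2) * z42 - (T.m x3) * ea43 - (T.m x4) * ed4
    have S4 := (mul_eq_zero.1 R4).resolve_left (T.w_pos x1).ne'
    exfalso; linarith
  · -- (('R', 'S'), ('S', 'S'))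
    have ew0 : T.w x0 = 1 * T.w x0 := by omega
    have ew1 : T.w x1 = 2 * T.w x0 := by omega
    have ew2 : T.w x2 = 2 * T.w x0 := by omega
    have ew3 : T.w x3 = 2 * T.w x0 := by omega
    have ew4 : T.w x4 = 2 * T.w x0 := by omega
    have ea01 : T.a x0 x1 = 2 * T.w x0 := by omega
    have ea10 : T.a x1 x0 = 2 * T.w x0 := by rw [a_symm T]; omega
    have ea12 : T.a x1 x2 = 2 * T.w x0 := by omega
    have ea21 : T.a x2 x1 = 2 * T.w x0 := by rw [a_symm T]; omega
    have ea23 : T.a x2 x3 = 2 * T.w x0 := by omega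
    have ea32 : T.a x3 x2 = 2 * T.w x0 := by rw [a_symm T]; omega
    have ea34 : T.a x3 x4 = 2 * T.w x0 := by omega
    have ea43 : T.a x4 x3 = 2 * T.w x0 := by rw [a_symm T]; omega
    have ed0 : T.a x0 x0 = -2 * T.w x0 := by omega
    have ed1 : T.a x1 x1 = -4 * T.w x0 := by omega
    have ed2 : T.a x2 x2 = -4 * T.w x0 := by omega
    have ed3 : T.a x3 x3 = -4 * T.w x0 := by omega
    have ed4 : T.a x4 x4 = -4 * T.w x0 := by omega
    have R0 : T.w x0 * (-2 * T.m x0 + 2 * T.m x1) = 0 := by linear_combination r0 - (T.m x0) * ed0 - (T.m x1) * ea01 - (T.m x2) * z02 - (T.m x3) * z03 - (T.m x4) * z04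
    have S0 := (mul_eq_zero.1 R0).resolve_left (T.w_pos x0).ne'
    have R1 : T.w x0 * (2 * T.m x0 + -4 * T.m x1 + 2 * T.m x2) = 0 := by linear_combination r1 - (T.m x0) * ea10 - (T.m x1) * ed1 - (T.m x2) * ea12 - (T.m x3) * z13 - (T.m x4) * z14
    have S1 := (mul_eq_zero.1 R1).resolve_left (T.w_pos x0).ne'
    have R2 : T.w x0 * (2 * T.m x1 + -4 * T.m x2 + 2 * T.m x3) = 0 := by linear_combination r2 - (T.m x0) * z20 - (T.m x1) * ea21 - (T.m x2) * ed2 - (T.m x3) * ea23 - (T.m x4) * z24
    have S2 := (mul_eq_zero.1 R2).resolve_left (T.w_pos x0).ne'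
    have R3 : T.w x0 * (2 * T.m x2 + -4 * T.m x3 + 2 * T.m x4) = 0 := by linear_combination r3 - (T.m x0) * z30 - (T.m x1) * z31 - (T.m x2) * ea32 - (T.m x3) * ed3 - (T.m x4) * ea34
    have S3 := (mul_eq_zero.1 R3).resolve_left (T.w_pos x0).ne'
    have R4 : T.w x0 * (2 * T.m x3 + -4 * T.m x4) = 0 := by linear_combination r4 - (T.m x0) * z40 - (T.m x1) * z41 - (T.m x2) * z42 - (T.m x3) * ea43 - (T.m x4) * ed4
    have S4 := (mul_eq_zero.1 R4).resolve_left (T.w_pos x0).ne'
    exfalso; linarith
  · -- (('R', 'S'), ('S', 'L'))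
    have ew0 : T.w x0 = 1 * T.w x0 := by omega
    have ew1 : T.w x1 = 2 * T.w x0 := by omega
    have ew2 : T.w x2 = 2 * T.w x0 := by omega
    have ew3 : T.w x3 = 2 * T.w x0 := by omega
    have ew4 : T.w x4 = 1 * T.w x0 := by omega
    have ea01 : T.a x0 x1 = 2 * T.w x0 := by omega
    have ea10 : T.a x1 x0 = 2 * T.w x0 := by rw [a_symm T]; omega
    have ea12 : T.a x1 x2 = 2 * T.w x0 := by omega
    have ea21 : T.a x2 x1 = 2 * T.w x0 := by rw [a_symm T]; omega
    have ea23 : T.a x2 x3 = 2 * T.w x0 := by omega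
    have ea32 : T.a x3 x2 = 2 * T.w x0 := by rw [a_symm T]; omega
    have ea34 : T.a x3 x4 = 2 * T.w x0 := by omega
    have ea43 : T.a x4 x3 = 2 * T.w x0 := by rw [a_symm T]; omega
    have ed0 : T.a x0 x0 = -2 * T.w x0 := by omega
    have ed1 : T.a x1 x1 = -4 * T.w x0 := by omega
    have ed2 : T.a x2 x2 = -4 * T.w x0 := by omega
    have ed3 : T.a x3 x3 = -4 * T.w x0 := by omega
    have ed4 : T.a x4 x4 = -2 * T.w x0 := by omega
    have R0 : T.w x0 * (-2 * T.m x0 + 2 * T.m x1) = 0 := by linear_combination r0 - (T.m x0) * ed0 - (T.m x1) * ea01 - (T.m x2) * z02 - (T.m x3) * z03 - (T.m x4) * z04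
    have S0 := (mul_eq_zero.1 R0).resolve_left (T.w_pos x0).ne'
    have R1 : T.w x0 * (2 * T.m x0 + -4 * T.m x1 + 2 * T.m x2) = 0 := by linear_combination r1 - (T.m x0) * ea10 - (T.m x1) * ed1 - (T.m x2) * ea12 - (T.m x3) * z13 - (T.m x4) * z14
    have S1 := (mul_eq_zero.1 R1).resolve_left (T.w_pos x0).ne'
    have R2 : T.w x0 * (2 * T.m x1 + -4 * T.m x2 + 2 * T.m x3) = 0 := by linear_combination r2 - (T.m x0) * z20 - (T.m x1) * ea21 - (T.m x2) * ed2 - (T.m x3) * ea23 - (T.m x4) * z24
    have S2 := (mul_eq_zero.1 R2).resolve_left (T.w_pos x0).ne'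
    have R3 : T.w x0 * (2 * T.m x2 + -4 * T.m x3 + 2 * T.m x4) = 0 := by linear_combination r3 - (T.m x0) * z30 - (T.m x1) * z31 - (T.m x2) * ea32 - (T.m x3) * ed3 - (T.m x4) * ea34
    have S3 := (mul_eq_zero.1 R3).resolve_left (T.w_pos x0).ne'
    have R4 : T.w x0 * (2 * T.m x3 + -2 * T.m x4) = 0 := by linear_combination r4 - (T.m x0) * z40 - (T.m x1) * z41 - (T.m x2) * z42 - (T.m x3) * ea43 - (T.m x4) * ed4
    have S4 := (mul_eq_zero.1 R4).resolve_left (T.w_pos x0).ne'
    exact ⟨x0, x1, x2, x3, x4, T.m x0, T.w x0, inj5 d01 d02 d03 d04 d12 d13 d14 d23 d24 d34, Or.inr (Or.inr (Or.inr (Or.inr (Or.inl ⟨(by first | omega | linarith : T.m x0 = T.m x0), (by first | omega | linarith : T.m x1 = T.m x0), (by first | omega | linarith : T.m x2 = T.m x0), (by first | omega | linarith : T.m x3 = T.m x0), (by first | omega | linarith : T.m x4 = T.m x0), (by first | omega | linarith : T.w x0 = T.w x0), (by first | omega | linarith : T.w x1 = 2 * T.w x0), (by first | omega | linarith : T.w x2 = 2 * T.w x0), (by first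 | omega | linarith : T.w x3 = 2 * T.w x0), (by first | omega | linarith : T.w x4 = T.w x0), (by first | omega | linarith : T.a x0 x0 = -2 * T.w x0), (by first | omega | linarith : T.a x0 x1 = 2 * T.w x0), (by first | omega | linarith : T.a x0 x2 = 0), (by first | omega | linarith : T.a x0 x3 = 0), (by first | omega | linarith : T.a x0 x4 = 0), (by first | omega | linarith : T.a x1 x1 = -4 * T.w x0), (by first | omega | linarith : T.a x1 x2 = 2 * T.w x0), (by first | omega | linarith : T.a x1 x3 = 0), (by first | omega | linarith : T.a x1 x4 = 0), (by first | omega | linarith : T.a x2 x2 = -4 * T.w x0), (by first | omega | linarith : T.a x2 x3 = 2 * T.w x0), (by first | omega | linarith : T.a x2 x4 = 0), (by first | omega | linarith : T.a x3 x3 = -4 * T.w x0), (by first | omega | linarith : T.a x3 x4 = 2 * T.w x0), (by first | omega | linarith : T.a x4 x4 = -2 * T.w x0)⟩))))⟩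
    -- type 5 perm (0, 1, 2, 3, 4)
  · -- (('R', 'S'), ('S', 'R'))
    have ew0 : T.w x0 = 1 * T.w x0 := by omega
    have ew1 : T.w x1 = 2 * T.w x0 := by omega
    have ew2 : T.w x2 = 2 * T.w x0 := by omega
    have ew3 : T.w x3 = 2 * T.w x0 := by omega
    have ew4 : T.w x4 = 4 * T.w x0 := by omega
    have ea01 : T.a x0 x1 = 2 * T.w x0 := by omega
    have ea10 : T.a x1 x0 = 2 * T.w x0 := by rw [a_symm T]; omega
    have ea12 : T.a x1 x2 = 2 * T.w x0 := by omega
    have ea21 : T.a x2 x1 = 2 * T.w x0 := by rw [a_symm T]; omega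
    have ea23 : T.a x2 x3 = 2 * T.w x0 := by omega
    have ea32 : T.a x3 x2 = 2 * T.w x0 := by rw [a_symm T]; omega
    have ea34 : T.a x3 x4 = 4 * T.w x0 := by omega
    have ea43 : T.a x4 x3 = 4 * T.w x0 := by rw [a_symm T]; omega
    have ed0 : T.a x0 x0 = -2 * T.w x0 := by omega
    have ed1 : T.a x1 x1 = -4 * T.w x0 := by omega
    have ed2 : T.a x2 x2 = -4 * T.w x0 := by omega
    have ed3 : T.a x3 x3 = -4 * T.w x0 := by omega
    have ed4 : T.a x4 x4 = -8 * T.w x0 := by omega
    have R0 : T.w x0 * (-2 * T.m x0 + 2 * T.m x1) = 0 := by linear_combination r0 - (T.m x0) * ed0 - (T.m x1) * ea01 - (T.m x2) * z02 - (T.m x3) * z03 - (T.m x4) * z04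
    have S0 := (mul_eq_zero.1 R0).resolve_left (T.w_pos x0).ne'
    have R1 : T.w x0 * (2 * T.m x0 + -4 * T.m x1 + 2 * T.m x2) = 0 := by linear_combination r1 - (T.m x0) * ea10 - (T.m x1) * ed1 - (T.m x2) * ea12 - (T.m x3) * z13 - (T.m x4) * z14
    have S1 := (mul_eq_zero.1 R1).resolve_left (T.w_pos x0).ne'
    have R2 : T.w x0 * (2 * T.m x1 + -4 * T.m x2 + 2 * T.m x3) = 0 := by linear_combination r2 - (T.m x0) * z20 - (T.m x1) * ea21 - (T.m x2) * ed2 - (T.m x3) * ea23 - (T.m x4) * z24
    have S2 := (mul_eq_zero.1 R2).resolve_left (T.w_pos x0).ne'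
    have R3 : T.w x0 * (2 * T.m x2 + -4 * T.m x3 + 4 * T.m x4) = 0 := by linear_combination r3 - (T.m x0) * z30 - (T.m x1) * z31 - (T.m x2) * ea32 - (T.m x3) * ed3 - (T.m x4) * ea34
    have S3 := (mul_eq_zero.1 R3).resolve_left (T.w_pos x0).ne'
    have R4 : T.w x0 * (4 * T.m x3 + -8 * T.m x4) = 0 := by linear_combination r4 - (T.m x0) * z40 - (T.m x1) * z41 - (T.m x2) * z42 - (T.m x3) * ea43 - (T.m x4) * ed4
    have S4 := (mul_eq_zero.1 R4).resolve_left (T.w_pos x0).ne'
    exact ⟨x0, x1, x2, x3, x4, T.m x4, T.w x0, inj5 d01 d02 d03 d04 d12 d13 d14 d23 d24 d34, Or.inr (Or.inr (Or.inr (Or.inl ⟨(by first | omega | linarith : T.m x0 = 2 * T.m x4), (by first | omega | linarith : T.m x1 = 2 * T.m x4), (by first | omega | linarith : T.m x2 = 2 * T.m x4), (by first | omega | linarith : T.m x3 = 2 * T.m x4), (by first | omega | linarith : T.m x4 = T.m x4), (by first | omega | linarith : T.w x0 = T.w x0), (by first | omega | linarith : T.w x1 = 2 * T.w x0), (by first | omega | linarith : T.w x2 = 2 * T.w x0), (by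 first | omega | linarith : T.w x3 = 2 * T.w x0), (by first | omega | linarith : T.w x4 = 4 * T.w x0), (by first | omega | linarith : T.a x0 x0 = -2 * T.w x0), (by first | omega | linarith : T.a x0 x1 = 2 * T.w x0), (by first | omega | linarith : T.a x0 x2 = 0), (by first | omega | linarith : T.a x0 x3 = 0), (by first | omega | linarith : T.a x0 x4 = 0), (by first | omega | linarith : T.a x1 x1 = -4 * T.w x0), (by first | omega | linarith : T.a x1 x2 = 2 * T.w x0), (by first | omega | linarith : T.a x1 x3 = 0), (by first | omega | linarith : T.a x1 x4 = 0), (by first | omega | linarith : T.a x2 x2 = -4 * T.w x0), (by first | omega | linarith : T.a x2 x3 = 2 * T.w x0), (by first | omega | linarith : T.a x2 x4 = 0), (by first | omega | linarith : T.a x3 x3 = -4 * T.w x0), (by first | omega | linarith : T.a x3 x4 = 4 * T.w x0), (by first | omega | linarith : T.a x4 x4 = -8 * T.w x0)⟩)))⟩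
    -- type 4 perm (0, 1, 2, 3, 4)
  · -- (('R', 'S'), ('L', 'S'))
    have ew0 : T.w x0 = 1 * T.w x0 := by omega
    have ew1 : T.w x1 = 2 * T.w x0 := by omega
    have ew2 : T.w x2 = 2 * T.w x0 := by omega
    have ew3 : T.w x3 = 1 * T.w x0 := by omega
    have ew4 : T.w x4 = 1 * T.w x0 := by omega
    have ea01 : T.a x0 x1 = 2 * T.w x0 := by omega
    have ea10 : T.a x1 x0 = 2 * T.w x0 := by rw [a_symm T]; omega
    have ea12 : T.a x1 x2 = 2 * T.w x0 := by omega
    have ea21 : T.a x2 x1 = 2 * T.w x0 := by rw [a_symm T]; omega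
    have ea23 : T.a x2 x3 = 2 * T.w x0 := by omega
    have ea32 : T.a x3 x2 = 2 * T.w x0 := by rw [a_symm T]; omega
    have ea34 : T.a x3 x4 = 1 * T.w x0 := by omega
    have ea43 : T.a x4 x3 = 1 * T.w x0 := by rw [a_symm T]; omega
    have ed0 : T.a x0 x0 = -2 * T.w x0 := by omega
    have ed1 : T.a x1 x1 = -4 * T.w x0 := by omega
    have ed2 : T.a x2 x2 = -4 * T.w x0 := by omega
    have ed3 : T.a x3 x3 = -2 * T.w x0 := by omega
    have ed4 : T.a x4 x4 = -2 * T.w x0 := by omega
    have R0 : T.w x0 * (-2 * T.m x0 + 2 * T.m x1) = 0 := by linear_combination r0 - (T.m x0) * ed0 - (T.m x1) * ea01 - (T.m x2) * z02 - (T.m x3) * z03 - (T.m x4) * z04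
    have S0 := (mul_eq_zero.1 R0).resolve_left (T.w_pos x0).ne'
    have R1 : T.w x0 * (2 * T.m x0 + -4 * T.m x1 + 2 * T.m x2) = 0 := by linear_combination r1 - (T.m x0) * ea10 - (T.m x1) * ed1 - (T.m x2) * ea12 - (T.m x3) * z13 - (T.m x4) * z14
    have S1 := (mul_eq_zero.1 R1).resolve_left (T.w_pos x0).ne'
    have R2 : T.w x0 * (2 * T.m x1 + -4 * T.m x2 + 2 * T.m x3) = 0 := by linear_combination r2 - (T.m x0) * z20 - (T.m x1) * ea21 - (T.m x2) * ed2 - (T.m x3) * ea23 - (T.m x4) * z24
    have S2 := (mul_eq_zero.1 R2).resolve_left (T.w_pos x0).ne'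
    have R3 : T.w x0 * (2 * T.m x2 + -2 * T.m x3 + 1 * T.m x4) = 0 := by linear_combination r3 - (T.m x0) * z30 - (T.m x1) * z31 - (T.m x2) * ea32 - (T.m x3) * ed3 - (T.m x4) * ea34
    have S3 := (mul_eq_zero.1 R3).resolve_left (T.w_pos x0).ne'
    have R4 : T.w x0 * (1 * T.m x3 + -2 * T.m x4) = 0 := by linear_combination r4 - (T.m x0) * z40 - (T.m x1) * z41 - (T.m x2) * z42 - (T.m x3) * ea43 - (T.m x4) * ed4
    have S4 := (mul_eq_zero.1 R4).resolve_left (T.w_pos x0).ne'
    exfalso; linarith
  · -- (('R', 'S'), ('R', 'S'))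
    have ew0 : T.w x0 = 1 * T.w x0 := by omega
    have ew1 : T.w x1 = 2 * T.w x0 := by omega
    have ew2 : T.w x2 = 2 * T.w x0 := by omega
    have ew3 : T.w x3 = 4 * T.w x0 := by omega
    have ew4 : T.w x4 = 4 * T.w x0 := by omega
    have ea01 : T.a x0 x1 = 2 * T.w x0 := by omega
    have ea10 : T.a x1 x0 = 2 * T.w x0 := by rw [a_symm T]; omega
    have ea12 : T.a x1 x2 = 2 * T.w x0 := by omega
    have ea21 : T.a x2 x1 = 2 * T.w x0 := by rw [a_symm T]; omega
    have ea23 : T.a x2 x3 = 4 * T.w x0 := by omega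
    have ea32 : T.a x3 x2 = 4 * T.w x0 := by rw [a_symm T]; omega
    have ea34 : T.a x3 x4 = 4 * T.w x0 := by omega
    have ea43 : T.a x4 x3 = 4 * T.w x0 := by rw [a_symm T]; omega
    have ed0 : T.a x0 x0 = -2 * T.w x0 := by omega
    have ed1 : T.a x1 x1 = -4 * T.w x0 := by omega
    have ed2 : T.a x2 x2 = -4 * T.w x0 := by omega
    have ed3 : T.a x3 x3 = -8 * T.w x0 := by omega
    have ed4 : T.a x4 x4 = -8 * T.w x0 := by omega
    have R0 : T.w x0 * (-2 * T.m x0 + 2 * T.m x1) = 0 := by linear_combination r0 - (T.m x0) * ed0 - (T.m x1) * ea01 - (T.m x2) * z02 - (T.m x3) * z03 - (T.m x4) * z04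
    have S0 := (mul_eq_zero.1 R0).resolve_left (T.w_pos x0).ne'
    have R1 : T.w x0 * (2 * T.m x0 + -4 * T.m x1 + 2 * T.m x2) = 0 := by linear_combination r1 - (T.m x0) * ea10 - (T.m x1) * ed1 - (T.m x2) * ea12 - (T.m x3) * z13 - (T.m x4) * z14
    have S1 := (mul_eq_zero.1 R1).resolve_left (T.w_pos x0).ne'
    have R2 : T.w x0 * (2 * T.m x1 + -4 * T.m x2 + 4 * T.m x3) = 0 := by linear_combination r2 - (T.m x0) * z20 - (T.m x1) * ea21 - (T.m x2) * ed2 - (T.m x3) * ea23 - (T.m x4) * z24
    have S2 := (mul_eq_zero.1 R2).resolve_left (T.w_pos x0).ne'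
    have R3 : T.w x0 * (4 * T.m x2 + -8 * T.m x3 + 4 * T.m x4) = 0 := by linear_combination r3 - (T.m x0) * z30 - (T.m x1) * z31 - (T.m x2) * ea32 - (T.m x3) * ed3 - (T.m x4) * ea34
    have S3 := (mul_eq_zero.1 R3).resolve_left (T.w_pos x0).ne'
    have R4 : T.w x0 * (4 * T.m x3 + -8 * T.m x4) = 0 := by linear_combination r4 - (T.m x0) * z40 - (T.m x1) * z41 - (T.m x2) * z42 - (T.m x3) * ea43 - (T.m x4) * ed4
    have S4 := (mul_eq_zero.1 R4).resolve_left (T.w_pos x0).ne'
    exfalso; linarith

theorem shape_fork (T : Models.NumericalType 5) {x0 x1 x2 x3 x4 : Fin 5} (d01 : x0 ≠ x1) (d02 : x0 ≠ x2) (d03 : x0 ≠ x3) (d04 : x0 ≠ x4) (d12 : x1 ≠ x2) (d13 : x1 ≠ x3) (d14 : x1 ≠ x4) (d23 : x2 ≠ x3) (d24 : x2 ≠ x4) (d34 : x3 ≠ x4)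
    (t0 : T.IsMinusTwo x0) (t1 : T.IsMinusTwo x1) (t2 : T.IsMinusTwo x2) (t3 : T.IsMinusTwo x3) (t4 : T.IsMinusTwo x4)
    (e10 : T.a x1 x0 ≠ 0) (e02 : T.a x0 x2 ≠ 0) (e03 : T.a x0 x3 ≠ 0) (e34 : T.a x3 x4 ≠ 0) (z04 : T.a x0 x4 = 0) (z12 : T.a x1 x2 = 0) (z13 : T.a x1 x3 = 0) (z14 : T.a x1 x4 = 0) (z23 : T.a x2 x3 = 0) (z24 : T.a x2 x4 = 0)
    (r0 : T.a x0 x0 * T.m x0 + T.a x0 x1 * T.m x1 + T.a x0 x2 * T.m x2 + T.a x0 x3 * T.m x3 + T.a x0 x4 * T.m x4 = 0)
    (r1 : T.a x1 x0 * T.m x0 + T.a x1 x1 * T.m x1 + T.a x1 x2 * T.m x2 + T.a x1 x3 * T.m x3 + T.a x1 x4 * T.m x4 = 0)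
    (r2 : T.a x2 x0 * T.m x0 + T.a x2 x1 * T.m x1 + T.a x2 x2 * T.m x2 + T.a x2 x3 * T.m x3 + T.a x2 x4 * T.m x4 = 0)
    (r3 : T.a x3 x0 * T.m x0 + T.a x3 x1 * T.m x1 + T.a x3 x2 * T.m x2 + T.a x3 x3 * T.m x3 + T.a x3 x4 * T.m x4 = 0)
    (r4 : T.a x4 x0 * T.m x0 + T.a x4 x1 * T.m x1 + T.a x4 x2 * T.m x2 + T.a x4 x3 * T.m x3 + T.a x4 x4 * T.m x4 = 0) :
    ∃ (y0 y1 y2 y3 y4 : Fin 5) (m w : ℤ), Function.Injective ![y0, y1, y2, y3, y4] ∧ Pat T y0 y1 y2 y3 y4 m w := by
  have d10 := d01.symm
  have d20 := d02.symm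
  have d30 := d03.symm
  have d40 := d04.symm
  have d21 := d12.symm
  have d31 := d13.symm
  have d41 := d14.symm
  have d32 := d23.symm
  have d42 := d24.symm
  have d43 := d34.symm
  have p0 := T.w_pos x0
  have q0 := T.m_pos x0
  have dd0 := t0.2
  have p1 := T.w_pos x1
  have q1 := T.m_pos x1
  have dd1 := t1.2
  have p2 := T.w_pos x2
  have q2 := T.m_pos x2
  have dd2 := t2.2
  have p3 := T.w_pos x3
  have q3 := T.m_pos x3
  have dd3 := t3.2
  have p4 := T.w_pos x4
  have q4 := T.m_pos x4
  have dd4 := t4.2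
  have z40 : T.a x4 x0 = 0 := by rw [a_symm T]; exact z04
  have z21 : T.a x2 x1 = 0 := by rw [a_symm T]; exact z12
  have z31 : T.a x3 x1 = 0 := by rw [a_symm T]; exact z13
  have z41 : T.a x4 x1 = 0 := by rw [a_symm T]; exact z14
  have z32 : T.a x3 x2 = 0 := by rw [a_symm T]; exact z23
  have z42 : T.a x4 x2 = 0 := by rw [a_symm T]; exact z24
  rcases chain3_types T (by norm_num) d10 d02 d12 t1 t0 t2 e10 e02 with ⟨_, ⟨⟨ua, ub⟩, ⟨uc, ud⟩⟩ | ⟨⟨ua, ub⟩, ⟨uc, ud⟩⟩ | ⟨⟨ua, ub⟩, ⟨uc, ud⟩⟩ | ⟨⟨ua, ub⟩, ⟨uc, ud⟩⟩ | ⟨⟨ua, ub⟩, ⟨uc, ud⟩⟩⟩ <;>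
    rcases chain3_types T (by norm_num) d03 d34 d04 t0 t3 t4 e03 e34 with ⟨_, ⟨⟨va, vb⟩, ⟨vc, vd⟩⟩ | ⟨⟨va, vb⟩, ⟨vc, vd⟩⟩ | ⟨⟨va, vb⟩, ⟨vc, vd⟩⟩ | ⟨⟨va, vb⟩, ⟨vc, vd⟩⟩ | ⟨⟨va, vb⟩, ⟨vc, vd⟩⟩⟩
  · -- (('S', 'S'), ('S', 'S'))
    have ew0 : T.w x0 = 1 * T.w x0 := by omega
    have ew1 : T.w x1 = 1 * T.w x0 := by omega
    have ew2 : T.w x2 = 1 * T.w x0 := by omega
    have ew3 : T.w x3 = 1 * T.w x0 := by omega
    have ew4 : T.w x4 = 1 * T.w x0 := by omega
    have ea10 : T.a x1 x0 = 1 * T.w x0 := by omega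
    have ea01 : T.a x0 x1 = 1 * T.w x0 := by rw [a_symm T]; omega
    have ea02 : T.a x0 x2 = 1 * T.w x0 := by omega
    have ea20 : T.a x2 x0 = 1 * T.w x0 := by rw [a_symm T]; omega
    have ea03 : T.a x0 x3 = 1 * T.w x0 := by omega
    have ea30 : T.a x3 x0 = 1 * T.w x0 := by rw [a_symm T]; omega
    have ea34 : T.a x3 x4 = 1 * T.w x0 := by omega
    have ea43 : T.a x4 x3 = 1 * T.w x0 := by rw [a_symm T]; omega
    have ed0 : T.a x0 x0 = -2 * T.w x0 := by omega
    have ed1 : T.a x1 x1 = -2 * T.w x0 := by omega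
    have ed2 : T.a x2 x2 = -2 * T.w x0 := by omega
    have ed3 : T.a x3 x3 = -2 * T.w x0 := by omega
    have ed4 : T.a x4 x4 = -2 * T.w x0 := by omega
    have R0 : T.w x0 * (-2 * T.m x0 + 1 * T.m x1 + 1 * T.m x2 + 1 * T.m x3) = 0 := by linear_combination r0 - (T.m x0) * ed0 - (T.m x1) * ea01 - (T.m x2) * ea02 - (T.m x3) * ea03 - (T.m x4) * z04
    have S0 := (mul_eq_zero.1 R0).resolve_left (T.w_pos x0).ne'
    have R1 : T.w x0 * (1 * T.m x0 + -2 * T.m x1) = 0 := by linear_combination r1 - (T.m x0) * ea10 - (T.m x1) * ed1 - (T.m x2) * z12 - (T.m x3) * z13 - (T.m x4) * z14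
    have S1 := (mul_eq_zero.1 R1).resolve_left (T.w_pos x0).ne'
    have R2 : T.w x0 * (1 * T.m x0 + -2 * T.m x2) = 0 := by linear_combination r2 - (T.m x0) * ea20 - (T.m x1) * z21 - (T.m x2) * ed2 - (T.m x3) * z23 - (T.m x4) * z24
    have S2 := (mul_eq_zero.1 R2).resolve_left (T.w_pos x0).ne'
    have R3 : T.w x0 * (1 * T.m x0 + -2 * T.m x3 + 1 * T.m x4) = 0 := by linear_combination r3 - (T.m x0) * ea30 - (T.m x1) * z31 - (T.m x2) * z32 - (T.m x3) * ed3 - (T.m x4) * ea34
    have S3 := (mul_eq_zero.1 R3).resolve_left (T.w_pos x0).ne'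
    have R4 : T.w x0 * (1 * T.m x3 + -2 * T.m x4) = 0 := by linear_combination r4 - (T.m x0) * z40 - (T.m x1) * z41 - (T.m x2) * z42 - (T.m x3) * ea43 - (T.m x4) * ed4
    have S4 := (mul_eq_zero.1 R4).resolve_left (T.w_pos x0).ne'
    exfalso; linarith
  · -- (('S', 'S'), ('S', 'L'))
    have ew0 : T.w x0 = 2 * T.w x4 := by omega
    have ew1 : T.w x1 = 2 * T.w x4 := by omega
    have ew2 : T.w x2 = 2 * T.w x4 := by omega
    have ew3 : T.w x3 = 2 * T.w x4 := by omega
    have ew4 : T.w x4 = 1 * T.w x4 := by omega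
    have ea10 : T.a x1 x0 = 2 * T.w x4 := by omega
    have ea01 : T.a x0 x1 = 2 * T.w x4 := by rw [a_symm T]; omega
    have ea02 : T.a x0 x2 = 2 * T.w x4 := by omega
    have ea20 : T.a x2 x0 = 2 * T.w x4 := by rw [a_symm T]; omega
    have ea03 : T.a x0 x3 = 2 * T.w x4 := by omega
    have ea30 : T.a x3 x0 = 2 * T.w x4 := by rw [a_symm T]; omega
    have ea34 : T.a x3 x4 = 2 * T.w x4 := by omega
    have ea43 : T.a x4 x3 = 2 * T.w x4 := by rw [a_symm T]; omega
    have ed0 : T.a x0 x0 = -4 * T.w x4 := by omega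
    have ed1 : T.a x1 x1 = -4 * T.w x4 := by omega
    have ed2 : T.a x2 x2 = -4 * T.w x4 := by omega
    have ed3 : T.a x3 x3 = -4 * T.w x4 := by omega
    have ed4 : T.a x4 x4 = -2 * T.w x4 := by omega
    have R0 : T.w x4 * (-4 * T.m x0 + 2 * T.m x1 + 2 * T.m x2 + 2 * T.m x3) = 0 := by linear_combination r0 - (T.m x0) * ed0 - (T.m x1) * ea01 - (T.m x2) * ea02 - (T.m x3) * ea03 - (T.m x4) * z04
    have S0 := (mul_eq_zero.1 R0).resolve_left (T.w_pos x4).ne'
    have R1 : T.w x4 * (2 * T.m x0 + -4 * T.m x1) = 0 := by linear_combination r1 - (T.m x0) * ea10 - (T.m x1) * ed1 - (T.m x2) * z12 - (T.m x3) * z13 - (T.m x4) * z14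
    have S1 := (mul_eq_zero.1 R1).resolve_left (T.w_pos x4).ne'
    have R2 : T.w x4 * (2 * T.m x0 + -4 * T.m x2) = 0 := by linear_combination r2 - (T.m x0) * ea20 - (T.m x1) * z21 - (T.m x2) * ed2 - (T.m x3) * z23 - (T.m x4) * z24
    have S2 := (mul_eq_zero.1 R2).resolve_left (T.w_pos x4).ne'
    have R3 : T.w x4 * (2 * T.m x0 + -4 * T.m x3 + 2 * T.m x4) = 0 := by linear_combination r3 - (T.m x0) * ea30 - (T.m x1) * z31 - (T.m x2) * z32 - (T.m x3) * ed3 - (T.m x4) * ea34
    have S3 := (mul_eq_zero.1 R3).resolve_left (T.w_pos x4).ne'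
    have R4 : T.w x4 * (2 * T.m x3 + -2 * T.m x4) = 0 := by linear_combination r4 - (T.m x0) * z40 - (T.m x1) * z41 - (T.m x2) * z42 - (T.m x3) * ea43 - (T.m x4) * ed4
    have S4 := (mul_eq_zero.1 R4).resolve_left (T.w_pos x4).ne'
    exact ⟨x4, x3, x0, x1, x2, T.m x1, T.w x4, inj5 d43 d40 d41 d42 d30 d31 d32 d01 d02 d12, Or.inr (Or.inr (Or.inr (Or.inr (Or.inr (Or.inr (Or.inr (Or.inr (⟨(by first | omega | linarith : T.m x4 = 2 * T.m x1), (by first | omega | linarith : T.m x3 = 2 * T.m x1), (by first | omega | linarith : T.m x0 = 2 * T.m x1), (by first | omega | linarith : T.m x1 = T.m x1), (by first | omega | linarith : T.m x2 = T.m x1), (by first | omega | linarith : T.w x4 = T.w x4), (by first | omega | linarith : T.w x3 = 2 * T.w x4), (by first | omega | linarith : T.w x0 = 2 * T.w x4), (by first | omega | linarith : T.w x1 = 2 * T.w x4), (by first | omega | linarith : T.w x2 = 2 * T.w x4), (by first | omega | linarith : T.a x4 x4 = -2 * T.w x4), (by first | omega | linarith : T.a x4 x3 = 2 * T.w x4),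 (by first | omega | linarith : T.a x4 x0 = 0), (by first | omega | linarith : T.a x4 x1 = 0), (by first | omega | linarith : T.a x4 x2 = 0), (by first | omega | linarith : T.a x3 x3 = -4 * T.w x4), (by first | omega | linarith : T.a x3 x0 = 2 * T.w x4), (by first | omega | linarith : T.a x3 x1 = 0), (by first | omega | linarith : T.a x3 x2 = 0), (by first | omega | linarith : T.a x0 x0 = -4 * T.w x4), (by first | omega | linarith : T.a x0 x1 = 2 * T.w x4), (by first | omega | linarith : T.a x0 x2 = 2 * T.w x4), (by first | omega | linarith : T.a x1 x1 = -4 * T.w x4), (by first | omega | linarith : T.a x1 x2 = 0), (by first | omega | linarith : T.a x2 x2 = -4 * T.w x4)⟩))))))))⟩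
    -- type 9 perm (4, 3, 0, 1, 2)
  · -- (('S', 'S'), ('S', 'R'))
    have ew0 : T.w x0 = 1 * T.w x0 := by omega
    have ew1 : T.w x1 = 1 * T.w x0 := by omega
    have ew2 : T.w x2 = 1 * T.w x0 := by omega
    have ew3 : T.w x3 = 1 * T.w x0 := by omega
    have ew4 : T.w x4 = 2 * T.w x0 := by omega
    have ea10 : T.a x1 x0 = 1 * T.w x0 := by omega
    have ea01 : T.a x0 x1 = 1 * T.w x0 := by rw [a_symm T]; omega
    have ea02 : T.a x0 x2 = 1 * T.w x0 := by omega
    have ea20 : T.a x2 x0 = 1 * T.w x0 := by rw [a_symm T]; omega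
    have ea03 : T.a x0 x3 = 1 * T.w x0 := by omega
    have ea30 : T.a x3 x0 = 1 * T.w x0 := by rw [a_symm T]; omega
    have ea34 : T.a x3 x4 = 2 * T.w x0 := by omega
    have ea43 : T.a x4 x3 = 2 * T.w x0 := by rw [a_symm T]; omega
    have ed0 : T.a x0 x0 = -2 * T.w x0 := by omega
    have ed1 : T.a x1 x1 = -2 * T.w x0 := by omega
    have ed2 : T.a x2 x2 = -2 * T.w x0 := by omega
    have ed3 : T.a x3 x3 = -2 * T.w x0 := by omega
    have ed4 : T.a x4 x4 = -4 * T.w x0 := by omega
    have R0 : T.w x0 * (-2 * T.m x0 + 1 * T.m x1 + 1 * T.m x2 + 1 * T.m x3) = 0 := by linear_combination r0 - (T.m x0) * ed0 - (T.m x1) * ea01 - (T.m x2) * ea02 - (T.m x3) * ea03 - (T.m x4) * z04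
    have S0 := (mul_eq_zero.1 R0).resolve_left (T.w_pos x0).ne'
    have R1 : T.w x0 * (1 * T.m x0 + -2 * T.m x1) = 0 := by linear_combination r1 - (T.m x0) * ea10 - (T.m x1) * ed1 - (T.m x2) * z12 - (T.m x3) * z13 - (T.m x4) * z14
    have S1 := (mul_eq_zero.1 R1).resolve_left (T.w_pos x0).ne'
    have R2 : T.w x0 * (1 * T.m x0 + -2 * T.m x2) = 0 := by linear_combination r2 - (T.m x0) * ea20 - (T.m x1) * z21 - (T.m x2) * ed2 - (T.m x3) * z23 - (T.m x4) * z24
    have S2 := (mul_eq_zero.1 R2).resolve_left (T.w_pos x0).ne'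
    have R3 : T.w x0 * (1 * T.m x0 + -2 * T.m x3 + 2 * T.m x4) = 0 := by linear_combination r3 - (T.m x0) * ea30 - (T.m x1) * z31 - (T.m x2) * z32 - (T.m x3) * ed3 - (T.m x4) * ea34
    have S3 := (mul_eq_zero.1 R3).resolve_left (T.w_pos x0).ne'
    have R4 : T.w x0 * (2 * T.m x3 + -4 * T.m x4) = 0 := by linear_combination r4 - (T.m x0) * z40 - (T.m x1) * z41 - (T.m x2) * z42 - (T.m x3) * ea43 - (T.m x4) * ed4
    have S4 := (mul_eq_zero.1 R4).resolve_left (T.w_pos x0).ne'
    exact ⟨x4, x3, x0, x1, x2, T.m x4, T.w x3, inj5 d43 d40 d41 d42 d30 d31 d32 d01 d02 d12, Or.inr (Or.inr (Or.inr (Or.inr (Or.inr (Or.inr (Or.inr (Or.inl ⟨(by first | omega | linarith : T.m x4 = T.m x4), (by first | omega | linarith : T.m x3 = 2 * T.m x4), (by first | omega | linarith : T.m x0 = 2 * T.m x4), (by first | omega | linarith : T.m x1 = T.m x4), (by first | omega | linarith : T.m x2 = T.m x4), (by first | omega | linarith : T.w x4 = 2 * T.w x3), (by first | omega | linarith : T.w x3 = T.w x3), (by first | omega | linarith :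 T.w x0 = T.w x3), (by first | omega | linarith : T.w x1 = T.w x3), (by first | omega | linarith : T.w x2 = T.w x3), (by first | omega | linarith : T.a x4 x4 = -4 * T.w x3), (by first | omega | linarith : T.a x4 x3 = 2 * T.w x3), (by first | omega | linarith : T.a x4 x0 = 0), (by first | omega | linarith : T.a x4 x1 = 0), (by first | omega | linarith : T.a x4 x2 = 0), (by first | omega | linarith : T.a x3 x3 = -2 * T.w x3), (by first | omega | linarith : T.a x3 x0 = T.w x3), (by first | omega | linarith : T.a x3 x1 = 0), (by first | omega | linarith : T.a x3 x2 = 0), (by first | omega | linarith : T.a x0 x0 = -2 * T.w x3), (by first | omega | linarith : T.a x0 x1 = T.w x3), (by first | omega | linarith : T.a x0 x2 = T.w x3), (by first | omega | linarith : T.a x1 x1 = -2 * T.w x3), (by first | omega | linarith : T.a x1 x2 = 0), (by first | omega | linarith : T.a x2 x2 = -2 * T.w x3)⟩)))))))⟩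
    -- type 8 perm (4, 3, 0, 1, 2)
  · -- (('S', 'S'), ('L', 'S'))
    have ew0 : T.w x0 = 2 * T.w x3 := by omega
    have ew1 : T.w x1 = 2 * T.w x3 := by omega
    have ew2 : T.w x2 = 2 * T.w x3 := by omega
    have ew3 : T.w x3 = 1 * T.w x3 := by omega
    have ew4 : T.w x4 = 1 * T.w x3 := by omega
    have ea10 : T.a x1 x0 = 2 * T.w x3 := by omega
    have ea01 : T.a x0 x1 = 2 * T.w x3 := by rw [a_symm T]; omega
    have ea02 : T.a x0 x2 = 2 * T.w x3 := by omega
    have ea20 : T.a x2 x0 = 2 * T.w x3 := by rw [a_symm T]; omega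
    have ea03 : T.a x0 x3 = 2 * T.w x3 := by omega
    have ea30 : T.a x3 x0 = 2 * T.w x3 := by rw [a_symm T]; omega
    have ea34 : T.a x3 x4 = 1 * T.w x3 := by omega
    have ea43 : T.a x4 x3 = 1 * T.w x3 := by rw [a_symm T]; omega
    have ed0 : T.a x0 x0 = -4 * T.w x3 := by omega
    have ed1 : T.a x1 x1 = -4 * T.w x3 := by omega
    have ed2 : T.a x2 x2 = -4 * T.w x3 := by omega
    have ed3 : T.a x3 x3 = -2 * T.w x3 := by omega
    have ed4 : T.a x4 x4 = -2 * T.w x3 := by omega
    have R0 : T.w x3 * (-4 * T.m x0 + 2 * T.m x1 + 2 * T.m x2 + 2 * T.m x3) = 0 := by linear_combination r0 - (T.m x0) * ed0 - (T.m x1) * ea01 - (T.m x2) * ea02 - (T.m x3) * ea03 - (T.m x4) * z04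
    have S0 := (mul_eq_zero.1 R0).resolve_left (T.w_pos x3).ne'
    have R1 : T.w x3 * (2 * T.m x0 + -4 * T.m x1) = 0 := by linear_combination r1 - (T.m x0) * ea10 - (T.m x1) * ed1 - (T.m x2) * z12 - (T.m x3) * z13 - (T.m x4) * z14
    have S1 := (mul_eq_zero.1 R1).resolve_left (T.w_pos x3).ne'
    have R2 : T.w x3 * (2 * T.m x0 + -4 * T.m x2) = 0 := by linear_combination r2 - (T.m x0) * ea20 - (T.m x1) * z21 - (T.m x2) * ed2 - (T.m x3) * z23 - (T.m x4) * z24
    have S2 := (mul_eq_zero.1 R2).resolve_left (T.w_pos x3).ne'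
    have R3 : T.w x3 * (2 * T.m x0 + -2 * T.m x3 + 1 * T.m x4) = 0 := by linear_combination r3 - (T.m x0) * ea30 - (T.m x1) * z31 - (T.m x2) * z32 - (T.m x3) * ed3 - (T.m x4) * ea34
    have S3 := (mul_eq_zero.1 R3).resolve_left (T.w_pos x3).ne'
    have R4 : T.w x3 * (1 * T.m x3 + -2 * T.m x4) = 0 := by linear_combination r4 - (T.m x0) * z40 - (T.m x1) * z41 - (T.m x2) * z42 - (T.m x3) * ea43 - (T.m x4) * ed4
    have S4 := (mul_eq_zero.1 R4).resolve_left (T.w_pos x3).ne'
    exfalso; linarith
  · -- (('S', 'S'), ('R', 'S'))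
    have ew0 : T.w x0 = 1 * T.w x0 := by omega
    have ew1 : T.w x1 = 1 * T.w x0 := by omega
    have ew2 : T.w x2 = 1 * T.w x0 := by omega
    have ew3 : T.w x3 = 2 * T.w x0 := by omega
    have ew4 : T.w x4 = 2 * T.w x0 := by omega
    have ea10 : T.a x1 x0 = 1 * T.w x0 := by omega
    have ea01 : T.a x0 x1 = 1 * T.w x0 := by rw [a_symm T]; omega
    have ea02 : T.a x0 x2 = 1 * T.w x0 := by omega
    have ea20 : T.a x2 x0 = 1 * T.w x0 := by rw [a_symm T]; omega
    have ea03 : T.a x0 x3 = 2 * T.w x0 := by omega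
    have ea30 : T.a x3 x0 = 2 * T.w x0 := by rw [a_symm T]; omega
    have ea34 : T.a x3 x4 = 2 * T.w x0 := by omega
    have ea43 : T.a x4 x3 = 2 * T.w x0 := by rw [a_symm T]; omega
    have ed0 : T.a x0 x0 = -2 * T.w x0 := by omega
    have ed1 : T.a x1 x1 = -2 * T.w x0 := by omega
    have ed2 : T.a x2 x2 = -2 * T.w x0 := by omega
    have ed3 : T.a x3 x3 = -4 * T.w x0 := by omega
    have ed4 : T.a x4 x4 = -4 * T.w x0 := by omega
    have R0 : T.w x0 * (-2 * T.m x0 + 1 * T.m x1 + 1 * T.m x2 + 2 * T.m x3) = 0 := by linear_combination r0 - (T.m x0) * ed0 - (T.m x1) * ea01 - (T.m x2) * ea02 - (T.m x3) * ea03 - (T.m x4) * z04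
    have S0 := (mul_eq_zero.1 R0).resolve_left (T.w_pos x0).ne'
    have R1 : T.w x0 * (1 * T.m x0 + -2 * T.m x1) = 0 := by linear_combination r1 - (T.m x0) * ea10 - (T.m x1) * ed1 - (T.m x2) * z12 - (T.m x3) * z13 - (T.m x4) * z14
    have S1 := (mul_eq_zero.1 R1).resolve_left (T.w_pos x0).ne'
    have R2 : T.w x0 * (1 * T.m x0 + -2 * T.m x2) = 0 := by linear_combination r2 - (T.m x0) * ea20 - (T.m x1) * z21 - (T.m x2) * ed2 - (T.m x3) * z23 - (T.m x4) * z24
    have S2 := (mul_eq_zero.1 R2).resolve_left (T.w_pos x0).ne'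
    have R3 : T.w x0 * (2 * T.m x0 + -4 * T.m x3 + 2 * T.m x4) = 0 := by linear_combination r3 - (T.m x0) * ea30 - (T.m x1) * z31 - (T.m x2) * z32 - (T.m x3) * ed3 - (T.m x4) * ea34
    have S3 := (mul_eq_zero.1 R3).resolve_left (T.w_pos x0).ne'
    have R4 : T.w x0 * (2 * T.m x3 + -4 * T.m x4) = 0 := by linear_combination r4 - (T.m x0) * z40 - (T.m x1) * z41 - (T.m x2) * z42 - (T.m x3) * ea43 - (T.m x4) * ed4
    have S4 := (mul_eq_zero.1 R4).resolve_left (T.w_pos x0).ne'
    exfalso; linarith
  · -- (('S', 'L'), ('S', 'S'))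
    have ew0 : T.w x0 = 2 * T.w x2 := by omega
    have ew1 : T.w x1 = 2 * T.w x2 := by omega
    have ew2 : T.w x2 = 1 * T.w x2 := by omega
    have ew3 : T.w x3 = 2 * T.w x2 := by omega
    have ew4 : T.w x4 = 2 * T.w x2 := by omega
    have ea10 : T.a x1 x0 = 2 * T.w x2 := by omega
    have ea01 : T.a x0 x1 = 2 * T.w x2 := by rw [a_symm T]; omega
    have ea02 : T.a x0 x2 = 2 * T.w x2 := by omega
    have ea20 : T.a x2 x0 = 2 * T.w x2 := by rw [a_symm T]; omega
    have ea03 : T.a x0 x3 = 2 * T.w x2 := by omega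
    have ea30 : T.a x3 x0 = 2 * T.w x2 := by rw [a_symm T]; omega
    have ea34 : T.a x3 x4 = 2 * T.w x2 := by omega
    have ea43 : T.a x4 x3 = 2 * T.w x2 := by rw [a_symm T]; omega
    have ed0 : T.a x0 x0 = -4 * T.w x2 := by omega
    have ed1 : T.a x1 x1 = -4 * T.w x2 := by omega
    have ed2 : T.a x2 x2 = -2 * T.w x2 := by omega
    have ed3 : T.a x3 x3 = -4 * T.w x2 := by omega
    have ed4 : T.a x4 x4 = -4 * T.w x2 := by omega
    have R0 : T.w x2 * (-4 * T.m x0 + 2 * T.m x1 + 2 * T.m x2 + 2 * T.m x3) = 0 := by linear_combination r0 - (T.m x0) * ed0 - (T.m x1) * ea01 - (T.m x2) * ea02 - (T.m x3) * ea03 - (T.m x4) * z04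
    have S0 := (mul_eq_zero.1 R0).resolve_left (T.w_pos x2).ne'
    have R1 : T.w x2 * (2 * T.m x0 + -4 * T.m x1) = 0 := by linear_combination r1 - (T.m x0) * ea10 - (T.m x1) * ed1 - (T.m x2) * z12 - (T.m x3) * z13 - (T.m x4) * z14
    have S1 := (mul_eq_zero.1 R1).resolve_left (T.w_pos x2).ne'
    have R2 : T.w x2 * (2 * T.m x0 + -2 * T.m x2) = 0 := by linear_combination r2 - (T.m x0) * ea20 - (T.m x1) * z21 - (T.m x2) * ed2 - (T.m x3) * z23 - (T.m x4) * z24
    have S2 := (mul_eq_zero.1 R2).resolve_left (T.w_pos x2).ne'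
    have R3 : T.w x2 * (2 * T.m x0 + -4 * T.m x3 + 2 * T.m x4) = 0 := by linear_combination r3 - (T.m x0) * ea30 - (T.m x1) * z31 - (T.m x2) * z32 - (T.m x3) * ed3 - (T.m x4) * ea34
    have S3 := (mul_eq_zero.1 R3).resolve_left (T.w_pos x2).ne'
    have R4 : T.w x2 * (2 * T.m x3 + -4 * T.m x4) = 0 := by linear_combination r4 - (T.m x0) * z40 - (T.m x1) * z41 - (T.m x2) * z42 - (T.m x3) * ea43 - (T.m x4) * ed4
    have S4 := (mul_eq_zero.1 R4).resolve_left (T.w_pos x2).ne'
    exfalso; linarith
  · -- (('S', 'L'), ('S', 'L'))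
    have ew0 : T.w x0 = 2 * T.w x2 := by omega
    have ew1 : T.w x1 = 2 * T.w x2 := by omega
    have ew2 : T.w x2 = 1 * T.w x2 := by omega
    have ew3 : T.w x3 = 2 * T.w x2 := by omega
    have ew4 : T.w x4 = 1 * T.w x2 := by omega
    have ea10 : T.a x1 x0 = 2 * T.w x2 := by omega
    have ea01 : T.a x0 x1 = 2 * T.w x2 := by rw [a_symm T]; omega
    have ea02 : T.a x0 x2 = 2 * T.w x2 := by omega
    have ea20 : T.a x2 x0 = 2 * T.w x2 := by rw [a_symm T]; omega
    have ea03 : T.a x0 x3 = 2 * T.w x2 := by omega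
    have ea30 : T.a x3 x0 = 2 * T.w x2 := by rw [a_symm T]; omega
    have ea34 : T.a x3 x4 = 2 * T.w x2 := by omega
    have ea43 : T.a x4 x3 = 2 * T.w x2 := by rw [a_symm T]; omega
    have ed0 : T.a x0 x0 = -4 * T.w x2 := by omega
    have ed1 : T.a x1 x1 = -4 * T.w x2 := by omega
    have ed2 : T.a x2 x2 = -2 * T.w x2 := by omega
    have ed3 : T.a x3 x3 = -4 * T.w x2 := by omega
    have ed4 : T.a x4 x4 = -2 * T.w x2 := by omega
    have R0 : T.w x2 * (-4 * T.m x0 + 2 * T.m x1 + 2 * T.m x2 + 2 * T.m x3) = 0 := by linear_combination r0 - (T.m x0) * ed0 - (T.m x1) * ea01 - (T.m x2) * ea02 - (T.m x3) * ea03 - (T.m x4) * z04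
    have S0 := (mul_eq_zero.1 R0).resolve_left (T.w_pos x2).ne'
    have R1 : T.w x2 * (2 * T.m x0 + -4 * T.m x1) = 0 := by linear_combination r1 - (T.m x0) * ea10 - (T.m x1) * ed1 - (T.m x2) * z12 - (T.m x3) * z13 - (T.m x4) * z14
    have S1 := (mul_eq_zero.1 R1).resolve_left (T.w_pos x2).ne'
    have R2 : T.w x2 * (2 * T.m x0 + -2 * T.m x2) = 0 := by linear_combination r2 - (T.m x0) * ea20 - (T.m x1) * z21 - (T.m x2) * ed2 - (T.m x3) * z23 - (T.m x4) * z24
    have S2 := (mul_eq_zero.1 R2).resolve_left (T.w_pos x2).ne'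
    have R3 : T.w x2 * (2 * T.m x0 + -4 * T.m x3 + 2 * T.m x4) = 0 := by linear_combination r3 - (T.m x0) * ea30 - (T.m x1) * z31 - (T.m x2) * z32 - (T.m x3) * ed3 - (T.m x4) * ea34
    have S3 := (mul_eq_zero.1 R3).resolve_left (T.w_pos x2).ne'
    have R4 : T.w x2 * (2 * T.m x3 + -2 * T.m x4) = 0 := by linear_combination r4 - (T.m x0) * z40 - (T.m x1) * z41 - (T.m x2) * z42 - (T.m x3) * ea43 - (T.m x4) * ed4
    have S4 := (mul_eq_zero.1 R4).resolve_left (T.w_pos x2).ne'
    exfalso; linarith
  · -- (('S', 'L'), ('S', 'R'))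
    have ew0 : T.w x0 = 2 * T.w x2 := by omega
    have ew1 : T.w x1 = 2 * T.w x2 := by omega
    have ew2 : T.w x2 = 1 * T.w x2 := by omega
    have ew3 : T.w x3 = 2 * T.w x2 := by omega
    have ew4 : T.w x4 = 4 * T.w x2 := by omega
    have ea10 : T.a x1 x0 = 2 * T.w x2 := by omega
    have ea01 : T.a x0 x1 = 2 * T.w x2 := by rw [a_symm T]; omega
    have ea02 : T.a x0 x2 = 2 * T.w x2 := by omega
    have ea20 : T.a x2 x0 = 2 * T.w x2 := by rw [a_symm T]; omega
    have ea03 : T.a x0 x3 = 2 * T.w x2 := by omega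
    have ea30 : T.a x3 x0 = 2 * T.w x2 := by rw [a_symm T]; omega
    have ea34 : T.a x3 x4 = 4 * T.w x2 := by omega
    have ea43 : T.a x4 x3 = 4 * T.w x2 := by rw [a_symm T]; omega
    have ed0 : T.a x0 x0 = -4 * T.w x2 := by omega
    have ed1 : T.a x1 x1 = -4 * T.w x2 := by omega
    have ed2 : T.a x2 x2 = -2 * T.w x2 := by omega
    have ed3 : T.a x3 x3 = -4 * T.w x2 := by omega
    have ed4 : T.a x4 x4 = -8 * T.w x2 := by omega
    have R0 : T.w x2 * (-4 * T.m x0 + 2 * T.m x1 + 2 * T.m x2 + 2 * T.m x3) = 0 := by linear_combination r0 - (T.m x0) * ed0 - (T.m x1) * ea01 - (T.m x2) * ea02 - (T.m x3) * ea03 - (T.m x4) * z04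
    have S0 := (mul_eq_zero.1 R0).resolve_left (T.w_pos x2).ne'
    have R1 : T.w x2 * (2 * T.m x0 + -4 * T.m x1) = 0 := by linear_combination r1 - (T.m x0) * ea10 - (T.m x1) * ed1 - (T.m x2) * z12 - (T.m x3) * z13 - (T.m x4) * z14
    have S1 := (mul_eq_zero.1 R1).resolve_left (T.w_pos x2).ne'
    have R2 : T.w x2 * (2 * T.m x0 + -2 * T.m x2) = 0 := by linear_combination r2 - (T.m x0) * ea20 - (T.m x1) * z21 - (T.m x2) * ed2 - (T.m x3) * z23 - (T.m x4) * z24
    have S2 := (mul_eq_zero.1 R2).resolve_left (T.w_pos x2).ne'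
    have R3 : T.w x2 * (2 * T.m x0 + -4 * T.m x3 + 4 * T.m x4) = 0 := by linear_combination r3 - (T.m x0) * ea30 - (T.m x1) * z31 - (T.m x2) * z32 - (T.m x3) * ed3 - (T.m x4) * ea34
    have S3 := (mul_eq_zero.1 R3).resolve_left (T.w_pos x2).ne'
    have R4 : T.w x2 * (4 * T.m x3 + -8 * T.m x4) = 0 := by linear_combination r4 - (T.m x0) * z40 - (T.m x1) * z41 - (T.m x2) * z42 - (T.m x3) * ea43 - (T.m x4) * ed4
    have S4 := (mul_eq_zero.1 R4).resolve_left (T.w_pos x2).ne'
    exfalso; linarith
  · -- (('S', 'L'), ('L', 'S'))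
    have ew0 : T.w x0 = 2 * T.w x2 := by omega
    have ew1 : T.w x1 = 2 * T.w x2 := by omega
    have ew2 : T.w x2 = 1 * T.w x2 := by omega
    have ew3 : T.w x3 = 1 * T.w x2 := by omega
    have ew4 : T.w x4 = 1 * T.w x2 := by omega
    have ea10 : T.a x1 x0 = 2 * T.w x2 := by omega
    have ea01 : T.a x0 x1 = 2 * T.w x2 := by rw [a_symm T]; omega
    have ea02 : T.a x0 x2 = 2 * T.w x2 := by omega
    have ea20 : T.a x2 x0 = 2 * T.w x2 := by rw [a_symm T]; omega
    have ea03 : T.a x0 x3 = 2 * T.w x2 := by omega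
    have ea30 : T.a x3 x0 = 2 * T.w x2 := by rw [a_symm T]; omega
    have ea34 : T.a x3 x4 = 1 * T.w x2 := by omega
    have ea43 : T.a x4 x3 = 1 * T.w x2 := by rw [a_symm T]; omega
    have ed0 : T.a x0 x0 = -4 * T.w x2 := by omega
    have ed1 : T.a x1 x1 = -4 * T.w x2 := by omega
    have ed2 : T.a x2 x2 = -2 * T.w x2 := by omega
    have ed3 : T.a x3 x3 = -2 * T.w x2 := by omega
    have ed4 : T.a x4 x4 = -2 * T.w x2 := by omega
    have R0 : T.w x2 * (-4 * T.m x0 + 2 * T.m x1 + 2 * T.m x2 + 2 * T.m x3) = 0 := by linear_combination r0 - (T.m x0) * ed0 - (T.m x1) * ea01 - (T.m x2) * ea02 - (T.m x3) * ea03 - (T.m x4) * z04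
    have S0 := (mul_eq_zero.1 R0).resolve_left (T.w_pos x2).ne'
    have R1 : T.w x2 * (2 * T.m x0 + -4 * T.m x1) = 0 := by linear_combination r1 - (T.m x0) * ea10 - (T.m x1) * ed1 - (T.m x2) * z12 - (T.m x3) * z13 - (T.m x4) * z14
    have S1 := (mul_eq_zero.1 R1).resolve_left (T.w_pos x2).ne'
    have R2 : T.w x2 * (2 * T.m x0 + -2 * T.m x2) = 0 := by linear_combination r2 - (T.m x0) * ea20 - (T.m x1) * z21 - (T.m x2) * ed2 - (T.m x3) * z23 - (T.m x4) * z24
    have S2 := (mul_eq_zero.1 R2).resolve_left (T.w_pos x2).ne'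
    have R3 : T.w x2 * (2 * T.m x0 + -2 * T.m x3 + 1 * T.m x4) = 0 := by linear_combination r3 - (T.m x0) * ea30 - (T.m x1) * z31 - (T.m x2) * z32 - (T.m x3) * ed3 - (T.m x4) * ea34
    have S3 := (mul_eq_zero.1 R3).resolve_left (T.w_pos x2).ne'
    have R4 : T.w x2 * (1 * T.m x3 + -2 * T.m x4) = 0 := by linear_combination r4 - (T.m x0) * z40 - (T.m x1) * z41 - (T.m x2) * z42 - (T.m x3) * ea43 - (T.m x4) * ed4
    have S4 := (mul_eq_zero.1 R4).resolve_left (T.w_pos x2).ne'
    exfalso; linarith
  · -- (('S', 'L'), ('R', 'S'))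
    have ew0 : T.w x0 = 2 * T.w x2 := by omega
    have ew1 : T.w x1 = 2 * T.w x2 := by omega
    have ew2 : T.w x2 = 1 * T.w x2 := by omega
    have ew3 : T.w x3 = 4 * T.w x2 := by omega
    have ew4 : T.w x4 = 4 * T.w x2 := by omega
    have ea10 : T.a x1 x0 = 2 * T.w x2 := by omega
    have ea01 : T.a x0 x1 = 2 * T.w x2 := by rw [a_symm T]; omega
    have ea02 : T.a x0 x2 = 2 * T.w x2 := by omega
    have ea20 : T.a x2 x0 = 2 * T.w x2 := by rw [a_symm T]; omega
    have ea03 : T.a x0 x3 = 4 * T.w x2 := by omega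
    have ea30 : T.a x3 x0 = 4 * T.w x2 := by rw [a_symm T]; omega
    have ea34 : T.a x3 x4 = 4 * T.w x2 := by omega
    have ea43 : T.a x4 x3 = 4 * T.w x2 := by rw [a_symm T]; omega
    have ed0 : T.a x0 x0 = -4 * T.w x2 := by omega
    have ed1 : T.a x1 x1 = -4 * T.w x2 := by omega
    have ed2 : T.a x2 x2 = -2 * T.w x2 := by omega
    have ed3 : T.a x3 x3 = -8 * T.w x2 := by omega
    have ed4 : T.a x4 x4 = -8 * T.w x2 := by omega
    have R0 : T.w x2 * (-4 * T.m x0 + 2 * T.m x1 + 2 * T.m x2 + 4 * T.m x3) = 0 := by linear_combination r0 - (T.m x0) * ed0 - (T.m x1) * ea01 - (T.m x2) * ea02 - (T.m x3) * ea03 - (T.m x4) * z04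
    have S0 := (mul_eq_zero.1 R0).resolve_left (T.w_pos x2).ne'
    have R1 : T.w x2 * (2 * T.m x0 + -4 * T.m x1) = 0 := by linear_combination r1 - (T.m x0) * ea10 - (T.m x1) * ed1 - (T.m x2) * z12 - (T.m x3) * z13 - (T.m x4) * z14
    have S1 := (mul_eq_zero.1 R1).resolve_left (T.w_pos x2).ne'
    have R2 : T.w x2 * (2 * T.m x0 + -2 * T.m x2) = 0 := by linear_combination r2 - (T.m x0) * ea20 - (T.m x1) * z21 - (T.m x2) * ed2 - (T.m x3) * z23 - (T.m x4) * z24
    have S2 := (mul_eq_zero.1 R2).resolve_left (T.w_pos x2).ne'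
    have R3 : T.w x2 * (4 * T.m x0 + -8 * T.m x3 + 4 * T.m x4) = 0 := by linear_combination r3 - (T.m x0) * ea30 - (T.m x1) * z31 - (T.m x2) * z32 - (T.m x3) * ed3 - (T.m x4) * ea34
    have S3 := (mul_eq_zero.1 R3).resolve_left (T.w_pos x2).ne'
    have R4 : T.w x2 * (4 * T.m x3 + -8 * T.m x4) = 0 := by linear_combination r4 - (T.m x0) * z40 - (T.m x1) * z41 - (T.m x2) * z42 - (T.m x3) * ea43 - (T.m x4) * ed4
    have S4 := (mul_eq_zero.1 R4).resolve_left (T.w_pos x2).ne'
    exfalso; linarith
  · -- (('S', 'R'), ('S', 'S'))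
    have ew0 : T.w x0 = 1 * T.w x0 := by omega
    have ew1 : T.w x1 = 1 * T.w x0 := by omega
    have ew2 : T.w x2 = 2 * T.w x0 := by omega
    have ew3 : T.w x3 = 1 * T.w x0 := by omega
    have ew4 : T.w x4 = 1 * T.w x0 := by omega
    have ea10 : T.a x1 x0 = 1 * T.w x0 := by omega
    have ea01 : T.a x0 x1 = 1 * T.w x0 := by rw [a_symm T]; omega
    have ea02 : T.a x0 x2 = 2 * T.w x0 := by omega
    have ea20 : T.a x2 x0 = 2 * T.w x0 := by rw [a_symm T]; omega
    have ea03 : T.a x0 x3 = 1 * T.w x0 := by omega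
    have ea30 : T.a x3 x0 = 1 * T.w x0 := by rw [a_symm T]; omega
    have ea34 : T.a x3 x4 = 1 * T.w x0 := by omega
    have ea43 : T.a x4 x3 = 1 * T.w x0 := by rw [a_symm T]; omega
    have ed0 : T.a x0 x0 = -2 * T.w x0 := by omega
    have ed1 : T.a x1 x1 = -2 * T.w x0 := by omega
    have ed2 : T.a x2 x2 = -4 * T.w x0 := by omega
    have ed3 : T.a x3 x3 = -2 * T.w x0 := by omega
    have ed4 : T.a x4 x4 = -2 * T.w x0 := by omega
    have R0 : T.w x0 * (-2 * T.m x0 + 1 * T.m x1 + 2 * T.m x2 + 1 * T.m x3) = 0 := by linear_combination r0 - (T.m x0) * ed0 - (T.m x1) * ea01 - (T.m x2) * ea02 - (T.m x3) * ea03 - (T.m x4) * z04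
    have S0 := (mul_eq_zero.1 R0).resolve_left (T.w_pos x0).ne'
    have R1 : T.w x0 * (1 * T.m x0 + -2 * T.m x1) = 0 := by linear_combination r1 - (T.m x0) * ea10 - (T.m x1) * ed1 - (T.m x2) * z12 - (T.m x3) * z13 - (T.m x4) * z14
    have S1 := (mul_eq_zero.1 R1).resolve_left (T.w_pos x0).ne'
    have R2 : T.w x0 * (2 * T.m x0 + -4 * T.m x2) = 0 := by linear_combination r2 - (T.m x0) * ea20 - (T.m x1) * z21 - (T.m x2) * ed2 - (T.m x3) * z23 - (T.m x4) * z24
    have S2 := (mul_eq_zero.1 R2).resolve_left (T.w_pos x0).ne'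
    have R3 : T.w x0 * (1 * T.m x0 + -2 * T.m x3 + 1 * T.m x4) = 0 := by linear_combination r3 - (T.m x0) * ea30 - (T.m x1) * z31 - (T.m x2) * z32 - (T.m x3) * ed3 - (T.m x4) * ea34
    have S3 := (mul_eq_zero.1 R3).resolve_left (T.w_pos x0).ne'
    have R4 : T.w x0 * (1 * T.m x3 + -2 * T.m x4) = 0 := by linear_combination r4 - (T.m x0) * z40 - (T.m x1) * z41 - (T.m x2) * z42 - (T.m x3) * ea43 - (T.m x4) * ed4
    have S4 := (mul_eq_zero.1 R4).resolve_left (T.w_pos x0).ne'
    exfalso; linarith
  · -- (('S', 'R'), ('S', 'L'))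
    have ew0 : T.w x0 = 2 * T.w x4 := by omega
    have ew1 : T.w x1 = 2 * T.w x4 := by omega
    have ew2 : T.w x2 = 4 * T.w x4 := by omega
    have ew3 : T.w x3 = 2 * T.w x4 := by omega
    have ew4 : T.w x4 = 1 * T.w x4 := by omega
    have ea10 : T.a x1 x0 = 2 * T.w x4 := by omega
    have ea01 : T.a x0 x1 = 2 * T.w x4 := by rw [a_symm T]; omega
    have ea02 : T.a x0 x2 = 4 * T.w x4 := by omega
    have ea20 : T.a x2 x0 = 4 * T.w x4 := by rw [a_symm T]; omega
    have ea03 : T.a x0 x3 = 2 * T.w x4 := by omega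
    have ea30 : T.a x3 x0 = 2 * T.w x4 := by rw [a_symm T]; omega
    have ea34 : T.a x3 x4 = 2 * T.w x4 := by omega
    have ea43 : T.a x4 x3 = 2 * T.w x4 := by rw [a_symm T]; omega
    have ed0 : T.a x0 x0 = -4 * T.w x4 := by omega
    have ed1 : T.a x1 x1 = -4 * T.w x4 := by omega
    have ed2 : T.a x2 x2 = -8 * T.w x4 := by omega
    have ed3 : T.a x3 x3 = -4 * T.w x4 := by omega
    have ed4 : T.a x4 x4 = -2 * T.w x4 := by omega
    have R0 : T.w x4 * (-4 * T.m x0 + 2 * T.m x1 + 4 * T.m x2 + 2 * T.m x3) = 0 := by linear_combination r0 - (T.m x0) * ed0 - (T.m x1) * ea01 - (T.m x2) * ea02 - (T.m x3) * ea03 - (T.m x4) * z04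
    have S0 := (mul_eq_zero.1 R0).resolve_left (T.w_pos x4).ne'
    have R1 : T.w x4 * (2 * T.m x0 + -4 * T.m x1) = 0 := by linear_combination r1 - (T.m x0) * ea10 - (T.m x1) * ed1 - (T.m x2) * z12 - (T.m x3) * z13 - (T.m x4) * z14
    have S1 := (mul_eq_zero.1 R1).resolve_left (T.w_pos x4).ne'
    have R2 : T.w x4 * (4 * T.m x0 + -8 * T.m x2) = 0 := by linear_combination r2 - (T.m x0) * ea20 - (T.m x1) * z21 - (T.m x2) * ed2 - (T.m x3) * z23 - (T.m x4) * z24
    have S2 := (mul_eq_zero.1 R2).resolve_left (T.w_pos x4).ne'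
    have R3 : T.w x4 * (2 * T.m x0 + -4 * T.m x3 + 2 * T.m x4) = 0 := by linear_combination r3 - (T.m x0) * ea30 - (T.m x1) * z31 - (T.m x2) * z32 - (T.m x3) * ed3 - (T.m x4) * ea34
    have S3 := (mul_eq_zero.1 R3).resolve_left (T.w_pos x4).ne'
    have R4 : T.w x4 * (2 * T.m x3 + -2 * T.m x4) = 0 := by linear_combination r4 - (T.m x0) * z40 - (T.m x1) * z41 - (T.m x2) * z42 - (T.m x3) * ea43 - (T.m x4) * ed4
    have S4 := (mul_eq_zero.1 R4).resolve_left (T.w_pos x4).ne'
    exfalso; linarith
  · -- (('S', 'R'), ('S', 'R'))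
    have ew0 : T.w x0 = 1 * T.w x0 := by omega
    have ew1 : T.w x1 = 1 * T.w x0 := by omega
    have ew2 : T.w x2 = 2 * T.w x0 := by omega
    have ew3 : T.w x3 = 1 * T.w x0 := by omega
    have ew4 : T.w x4 = 2 * T.w x0 := by omega
    have ea10 : T.a x1 x0 = 1 * T.w x0 := by omega
    have ea01 : T.a x0 x1 = 1 * T.w x0 := by rw [a_symm T]; omega
    have ea02 : T.a x0 x2 = 2 * T.w x0 := by omega
    have ea20 : T.a x2 x0 = 2 * T.w x0 := by rw [a_symm T]; omega
    have ea03 : T.a x0 x3 = 1 * T.w x0 := by omega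
    have ea30 : T.a x3 x0 = 1 * T.w x0 := by rw [a_symm T]; omega
    have ea34 : T.a x3 x4 = 2 * T.w x0 := by omega
    have ea43 : T.a x4 x3 = 2 * T.w x0 := by rw [a_symm T]; omega
    have ed0 : T.a x0 x0 = -2 * T.w x0 := by omega
    have ed1 : T.a x1 x1 = -2 * T.w x0 := by omega
    have ed2 : T.a x2 x2 = -4 * T.w x0 := by omega
    have ed3 : T.a x3 x3 = -2 * T.w x0 := by omega
    have ed4 : T.a x4 x4 = -4 * T.w x0 := by omega
    have R0 : T.w x0 * (-2 * T.m x0 + 1 * T.m x1 + 2 * T.m x2 + 1 * T.m x3) = 0 := by linear_combination r0 - (T.m x0) * ed0 - (T.m x1) * ea01 - (T.m x2) * ea02 - (T.m x3) * ea03 - (T.m x4) * z04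
    have S0 := (mul_eq_zero.1 R0).resolve_left (T.w_pos x0).ne'
    have R1 : T.w x0 * (1 * T.m x0 + -2 * T.m x1) = 0 := by linear_combination r1 - (T.m x0) * ea10 - (T.m x1) * ed1 - (T.m x2) * z12 - (T.m x3) * z13 - (T.m x4) * z14
    have S1 := (mul_eq_zero.1 R1).resolve_left (T.w_pos x0).ne'
    have R2 : T.w x0 * (2 * T.m x0 + -4 * T.m x2) = 0 := by linear_combination r2 - (T.m x0) * ea20 - (T.m x1) * z21 - (T.m x2) * ed2 - (T.m x3) * z23 - (T.m x4) * z24
    have S2 := (mul_eq_zero.1 R2).resolve_left (T.w_pos x0).ne'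
    have R3 : T.w x0 * (1 * T.m x0 + -2 * T.m x3 + 2 * T.m x4) = 0 := by linear_combination r3 - (T.m x0) * ea30 - (T.m x1) * z31 - (T.m x2) * z32 - (T.m x3) * ed3 - (T.m x4) * ea34
    have S3 := (mul_eq_zero.1 R3).resolve_left (T.w_pos x0).ne'
    have R4 : T.w x0 * (2 * T.m x3 + -4 * T.m x4) = 0 := by linear_combination r4 - (T.m x0) * z40 - (T.m x1) * z41 - (T.m x2) * z42 - (T.m x3) * ea43 - (T.m x4) * ed4
    have S4 := (mul_eq_zero.1 R4).resolve_left (T.w_pos x0).ne'
    exfalso; linarith
  · -- (('S', 'R'), ('L', 'S'))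
    have ew0 : T.w x0 = 2 * T.w x3 := by omega
    have ew1 : T.w x1 = 2 * T.w x3 := by omega
    have ew2 : T.w x2 = 4 * T.w x3 := by omega
    have ew3 : T.w x3 = 1 * T.w x3 := by omega
    have ew4 : T.w x4 = 1 * T.w x3 := by omega
    have ea10 : T.a x1 x0 = 2 * T.w x3 := by omega
    have ea01 : T.a x0 x1 = 2 * T.w x3 := by rw [a_symm T]; omega
    have ea02 : T.a x0 x2 = 4 * T.w x3 := by omega
    have ea20 : T.a x2 x0 = 4 * T.w x3 := by rw [a_symm T]; omega
    have ea03 : T.a x0 x3 = 2 * T.w x3 := by omega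
    have ea30 : T.a x3 x0 = 2 * T.w x3 := by rw [a_symm T]; omega
    have ea34 : T.a x3 x4 = 1 * T.w x3 := by omega
    have ea43 : T.a x4 x3 = 1 * T.w x3 := by rw [a_symm T]; omega
    have ed0 : T.a x0 x0 = -4 * T.w x3 := by omega
    have ed1 : T.a x1 x1 = -4 * T.w x3 := by omega
    have ed2 : T.a x2 x2 = -8 * T.w x3 := by omega
    have ed3 : T.a x3 x3 = -2 * T.w x3 := by omega
    have ed4 : T.a x4 x4 = -2 * T.w x3 := by omega
    have R0 : T.w x3 * (-4 * T.m x0 + 2 * T.m x1 + 4 * T.m x2 + 2 * T.m x3) = 0 := by linear_combination r0 - (T.m x0) * ed0 - (T.m x1) * ea01 - (T.m x2) * ea02 - (T.m x3) * ea03 - (T.m x4) * z04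
    have S0 := (mul_eq_zero.1 R0).resolve_left (T.w_pos x3).ne'
    have R1 : T.w x3 * (2 * T.m x0 + -4 * T.m x1) = 0 := by linear_combination r1 - (T.m x0) * ea10 - (T.m x1) * ed1 - (T.m x2) * z12 - (T.m x3) * z13 - (T.m x4) * z14
    have S1 := (mul_eq_zero.1 R1).resolve_left (T.w_pos x3).ne'
    have R2 : T.w x3 * (4 * T.m x0 + -8 * T.m x2) = 0 := by linear_combination r2 - (T.m x0) * ea20 - (T.m x1) * z21 - (T.m x2) * ed2 - (T.m x3) * z23 - (T.m x4) * z24
    have S2 := (mul_eq_zero.1 R2).resolve_left (T.w_pos x3).ne'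
    have R3 : T.w x3 * (2 * T.m x0 + -2 * T.m x3 + 1 * T.m x4) = 0 := by linear_combination r3 - (T.m x0) * ea30 - (T.m x1) * z31 - (T.m x2) * z32 - (T.m x3) * ed3 - (T.m x4) * ea34
    have S3 := (mul_eq_zero.1 R3).resolve_left (T.w_pos x3).ne'
    have R4 : T.w x3 * (1 * T.m x3 + -2 * T.m x4) = 0 := by linear_combination r4 - (T.m x0) * z40 - (T.m x1) * z41 - (T.m x2) * z42 - (T.m x3) * ea43 - (T.m x4) * ed4
    have S4 := (mul_eq_zero.1 R4).resolve_left (T.w_pos x3).ne'
    exfalso; linarith
  · -- (('S', 'R'), ('R', 'S'))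
    have ew0 : T.w x0 = 1 * T.w x0 := by omega
    have ew1 : T.w x1 = 1 * T.w x0 := by omega
    have ew2 : T.w x2 = 2 * T.w x0 := by omega
    have ew3 : T.w x3 = 2 * T.w x0 := by omega
    have ew4 : T.w x4 = 2 * T.w x0 := by omega
    have ea10 : T.a x1 x0 = 1 * T.w x0 := by omega
    have ea01 : T.a x0 x1 = 1 * T.w x0 := by rw [a_symm T]; omega
    have ea02 : T.a x0 x2 = 2 * T.w x0 := by omega
    have ea20 : T.a x2 x0 = 2 * T.w x0 := by rw [a_symm T]; omega
    have ea03 : T.a x0 x3 = 2 * T.w x0 := by omega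
    have ea30 : T.a x3 x0 = 2 * T.w x0 := by rw [a_symm T]; omega
    have ea34 : T.a x3 x4 = 2 * T.w x0 := by omega
    have ea43 : T.a x4 x3 = 2 * T.w x0 := by rw [a_symm T]; omega
    have ed0 : T.a x0 x0 = -2 * T.w x0 := by omega
    have ed1 : T.a x1 x1 = -2 * T.w x0 := by omega
    have ed2 : T.a x2 x2 = -4 * T.w x0 := by omega
    have ed3 : T.a x3 x3 = -4 * T.w x0 := by omega
    have ed4 : T.a x4 x4 = -4 * T.w x0 := by omega
    have R0 : T.w x0 * (-2 * T.m x0 + 1 * T.m x1 + 2 * T.m x2 + 2 * T.m x3) = 0 := by linear_combination r0 - (T.m x0) * ed0 - (T.m x1) * ea01 - (T.m x2) * ea02 - (T.m x3) * ea03 - (T.m x4) * z04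
    have S0 := (mul_eq_zero.1 R0).resolve_left (T.w_pos x0).ne'
    have R1 : T.w x0 * (1 * T.m x0 + -2 * T.m x1) = 0 := by linear_combination r1 - (T.m x0) * ea10 - (T.m x1) * ed1 - (T.m x2) * z12 - (T.m x3) * z13 - (T.m x4) * z14
    have S1 := (mul_eq_zero.1 R1).resolve_left (T.w_pos x0).ne'
    have R2 : T.w x0 * (2 * T.m x0 + -4 * T.m x2) = 0 := by linear_combination r2 - (T.m x0) * ea20 - (T.m x1) * z21 - (T.m x2) * ed2 - (T.m x3) * z23 - (T.m x4) * z24
    have S2 := (mul_eq_zero.1 R2).resolve_left (T.w_pos x0).ne'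
    have R3 : T.w x0 * (2 * T.m x0 + -4 * T.m x3 + 2 * T.m x4) = 0 := by linear_combination r3 - (T.m x0) * ea30 - (T.m x1) * z31 - (T.m x2) * z32 - (T.m x3) * ed3 - (T.m x4) * ea34
    have S3 := (mul_eq_zero.1 R3).resolve_left (T.w_pos x0).ne'
    have R4 : T.w x0 * (2 * T.m x3 + -4 * T.m x4) = 0 := by linear_combination r4 - (T.m x0) * z40 - (T.m x1) * z41 - (T.m x2) * z42 - (T.m x3) * ea43 - (T.m x4) * ed4
    have S4 := (mul_eq_zero.1 R4).resolve_left (T.w_pos x0).ne'
    exfalso; linarith
  · -- (('L', 'S'), ('S', 'S'))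
    have ew0 : T.w x0 = 1 * T.w x0 := by omega
    have ew1 : T.w x1 = 2 * T.w x0 := by omega
    have ew2 : T.w x2 = 1 * T.w x0 := by omega
    have ew3 : T.w x3 = 1 * T.w x0 := by omega
    have ew4 : T.w x4 = 1 * T.w x0 := by omega
    have ea10 : T.a x1 x0 = 2 * T.w x0 := by omega
    have ea01 : T.a x0 x1 = 2 * T.w x0 := by rw [a_symm T]; omega
    have ea02 : T.a x0 x2 = 1 * T.w x0 := by omega
    have ea20 : T.a x2 x0 = 1 * T.w x0 := by rw [a_symm T]; omega
    have ea03 : T.a x0 x3 = 1 * T.w x0 := by omega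
    have ea30 : T.a x3 x0 = 1 * T.w x0 := by rw [a_symm T]; omega
    have ea34 : T.a x3 x4 = 1 * T.w x0 := by omega
    have ea43 : T.a x4 x3 = 1 * T.w x0 := by rw [a_symm T]; omega
    have ed0 : T.a x0 x0 = -2 * T.w x0 := by omega
    have ed1 : T.a x1 x1 = -4 * T.w x0 := by omega
    have ed2 : T.a x2 x2 = -2 * T.w x0 := by omega
    have ed3 : T.a x3 x3 = -2 * T.w x0 := by omega
    have ed4 : T.a x4 x4 = -2 * T.w x0 := by omega
    have R0 : T.w x0 * (-2 * T.m x0 + 2 * T.m x1 + 1 * T.m x2 + 1 * T.m x3) = 0 := by linear_combination r0 - (T.m x0) * ed0 - (T.m x1) * ea01 - (T.m x2) * ea02 - (T.m x3) * ea03 - (T.m x4) * z04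
    have S0 := (mul_eq_zero.1 R0).resolve_left (T.w_pos x0).ne'
    have R1 : T.w x0 * (2 * T.m x0 + -4 * T.m x1) = 0 := by linear_combination r1 - (T.m x0) * ea10 - (T.m x1) * ed1 - (T.m x2) * z12 - (T.m x3) * z13 - (T.m x4) * z14
    have S1 := (mul_eq_zero.1 R1).resolve_left (T.w_pos x0).ne'
    have R2 : T.w x0 * (1 * T.m x0 + -2 * T.m x2) = 0 := by linear_combination r2 - (T.m x0) * ea20 - (T.m x1) * z21 - (T.m x2) * ed2 - (T.m x3) * z23 - (T.m x4) * z24
    have S2 := (mul_eq_zero.1 R2).resolve_left (T.w_pos x0).ne'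
    have R3 : T.w x0 * (1 * T.m x0 + -2 * T.m x3 + 1 * T.m x4) = 0 := by linear_combination r3 - (T.m x0) * ea30 - (T.m x1) * z31 - (T.m x2) * z32 - (T.m x3) * ed3 - (T.m x4) * ea34
    have S3 := (mul_eq_zero.1 R3).resolve_left (T.w_pos x0).ne'
    have R4 : T.w x0 * (1 * T.m x3 + -2 * T.m x4) = 0 := by linear_combination r4 - (T.m x0) * z40 - (T.m x1) * z41 - (T.m x2) * z42 - (T.m x3) * ea43 - (T.m x4) * ed4
    have S4 := (mul_eq_zero.1 R4).resolve_left (T.w_pos x0).ne'
    exfalso; linarith
  · -- (('L', 'S'), ('S', 'L'))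
    have ew0 : T.w x0 = 2 * T.w x4 := by omega
    have ew1 : T.w x1 = 4 * T.w x4 := by omega
    have ew2 : T.w x2 = 2 * T.w x4 := by omega
    have ew3 : T.w x3 = 2 * T.w x4 := by omega
    have ew4 : T.w x4 = 1 * T.w x4 := by omega
    have ea10 : T.a x1 x0 = 4 * T.w x4 := by omega
    have ea01 : T.a x0 x1 = 4 * T.w x4 := by rw [a_symm T]; omega
    have ea02 : T.a x0 x2 = 2 * T.w x4 := by omega
    have ea20 : T.a x2 x0 = 2 * T.w x4 := by rw [a_symm T]; omega
    have ea03 : T.a x0 x3 = 2 * T.w x4 := by omega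
    have ea30 : T.a x3 x0 = 2 * T.w x4 := by rw [a_symm T]; omega
    have ea34 : T.a x3 x4 = 2 * T.w x4 := by omega
    have ea43 : T.a x4 x3 = 2 * T.w x4 := by rw [a_symm T]; omega
    have ed0 : T.a x0 x0 = -4 * T.w x4 := by omega
    have ed1 : T.a x1 x1 = -8 * T.w x4 := by omega
    have ed2 : T.a x2 x2 = -4 * T.w x4 := by omega
    have ed3 : T.a x3 x3 = -4 * T.w x4 := by omega
    have ed4 : T.a x4 x4 = -2 * T.w x4 := by omega
    have R0 : T.w x4 * (-4 * T.m x0 + 4 * T.m x1 + 2 * T.m x2 + 2 * T.m x3) = 0 := by linear_combination r0 - (T.m x0) * ed0 - (T.m x1) * ea01 - (T.m x2) * ea02 - (T.m x3) * ea03 - (T.m x4) * z04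
    have S0 := (mul_eq_zero.1 R0).resolve_left (T.w_pos x4).ne'
    have R1 : T.w x4 * (4 * T.m x0 + -8 * T.m x1) = 0 := by linear_combination r1 - (T.m x0) * ea10 - (T.m x1) * ed1 - (T.m x2) * z12 - (T.m x3) * z13 - (T.m x4) * z14
    have S1 := (mul_eq_zero.1 R1).resolve_left (T.w_pos x4).ne'
    have R2 : T.w x4 * (2 * T.m x0 + -4 * T.m x2) = 0 := by linear_combination r2 - (T.m x0) * ea20 - (T.m x1) * z21 - (T.m x2) * ed2 - (T.m x3) * z23 - (T.m x4) * z24
    have S2 := (mul_eq_zero.1 R2).resolve_left (T.w_pos x4).ne'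
    have R3 : T.w x4 * (2 * T.m x0 + -4 * T.m x3 + 2 * T.m x4) = 0 := by linear_combination r3 - (T.m x0) * ea30 - (T.m x1) * z31 - (T.m x2) * z32 - (T.m x3) * ed3 - (T.m x4) * ea34
    have S3 := (mul_eq_zero.1 R3).resolve_left (T.w_pos x4).ne'
    have R4 : T.w x4 * (2 * T.m x3 + -2 * T.m x4) = 0 := by linear_combination r4 - (T.m x0) * z40 - (T.m x1) * z41 - (T.m x2) * z42 - (T.m x3) * ea43 - (T.m x4) * ed4
    have S4 := (mul_eq_zero.1 R4).resolve_left (T.w_pos x4).ne'
    exfalso; linarith
  · -- (('L', 'S'), ('S', 'R'))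
    have ew0 : T.w x0 = 1 * T.w x0 := by omega
    have ew1 : T.w x1 = 2 * T.w x0 := by omega
    have ew2 : T.w x2 = 1 * T.w x0 := by omega
    have ew3 : T.w x3 = 1 * T.w x0 := by omega
    have ew4 : T.w x4 = 2 * T.w x0 := by omega
    have ea10 : T.a x1 x0 = 2 * T.w x0 := by omega
    have ea01 : T.a x0 x1 = 2 * T.w x0 := by rw [a_symm T]; omega
    have ea02 : T.a x0 x2 = 1 * T.w x0 := by omega
    have ea20 : T.a x2 x0 = 1 * T.w x0 := by rw [a_symm T]; omega
    have ea03 : T.a x0 x3 = 1 * T.w x0 := by omega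
    have ea30 : T.a x3 x0 = 1 * T.w x0 := by rw [a_symm T]; omega
    have ea34 : T.a x3 x4 = 2 * T.w x0 := by omega
    have ea43 : T.a x4 x3 = 2 * T.w x0 := by rw [a_symm T]; omega
    have ed0 : T.a x0 x0 = -2 * T.w x0 := by omega
    have ed1 : T.a x1 x1 = -4 * T.w x0 := by omega
    have ed2 : T.a x2 x2 = -2 * T.w x0 := by omega
    have ed3 : T.a x3 x3 = -2 * T.w x0 := by omega
    have ed4 : T.a x4 x4 = -4 * T.w x0 := by omega
    have R0 : T.w x0 * (-2 * T.m x0 + 2 * T.m x1 + 1 * T.m x2 + 1 * T.m x3) = 0 := by linear_combination r0 - (T.m x0) * ed0 - (T.m x1) * ea01 - (T.m x2) * ea02 - (T.m x3) * ea03 - (T.m x4) * z04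
    have S0 := (mul_eq_zero.1 R0).resolve_left (T.w_pos x0).ne'
    have R1 : T.w x0 * (2 * T.m x0 + -4 * T.m x1) = 0 := by linear_combination r1 - (T.m x0) * ea10 - (T.m x1) * ed1 - (T.m x2) * z12 - (T.m x3) * z13 - (T.m x4) * z14
    have S1 := (mul_eq_zero.1 R1).resolve_left (T.w_pos x0).ne'
    have R2 : T.w x0 * (1 * T.m x0 + -2 * T.m x2) = 0 := by linear_combination r2 - (T.m x0) * ea20 - (T.m x1) * z21 - (T.m x2) * ed2 - (T.m x3) * z23 - (T.m x4) * z24
    have S2 := (mul_eq_zero.1 R2).resolve_left (T.w_pos x0).ne'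
    have R3 : T.w x0 * (1 * T.m x0 + -2 * T.m x3 + 2 * T.m x4) = 0 := by linear_combination r3 - (T.m x0) * ea30 - (T.m x1) * z31 - (T.m x2) * z32 - (T.m x3) * ed3 - (T.m x4) * ea34
    have S3 := (mul_eq_zero.1 R3).resolve_left (T.w_pos x0).ne'
    have R4 : T.w x0 * (2 * T.m x3 + -4 * T.m x4) = 0 := by linear_combination r4 - (T.m x0) * z40 - (T.m x1) * z41 - (T.m x2) * z42 - (T.m x3) * ea43 - (T.m x4) * ed4
    have S4 := (mul_eq_zero.1 R4).resolve_left (T.w_pos x0).ne'
    exfalso; linarith
  · -- (('L', 'S'), ('L', 'S'))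
    have ew0 : T.w x0 = 2 * T.w x3 := by omega
    have ew1 : T.w x1 = 4 * T.w x3 := by omega
    have ew2 : T.w x2 = 2 * T.w x3 := by omega
    have ew3 : T.w x3 = 1 * T.w x3 := by omega
    have ew4 : T.w x4 = 1 * T.w x3 := by omega
    have ea10 : T.a x1 x0 = 4 * T.w x3 := by omega
    have ea01 : T.a x0 x1 = 4 * T.w x3 := by rw [a_symm T]; omega
    have ea02 : T.a x0 x2 = 2 * T.w x3 := by omega
    have ea20 : T.a x2 x0 = 2 * T.w x3 := by rw [a_symm T]; omega
    have ea03 : T.a x0 x3 = 2 * T.w x3 := by omega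
    have ea30 : T.a x3 x0 = 2 * T.w x3 := by rw [a_symm T]; omega
    have ea34 : T.a x3 x4 = 1 * T.w x3 := by omega
    have ea43 : T.a x4 x3 = 1 * T.w x3 := by rw [a_symm T]; omega
    have ed0 : T.a x0 x0 = -4 * T.w x3 := by omega
    have ed1 : T.a x1 x1 = -8 * T.w x3 := by omega
    have ed2 : T.a x2 x2 = -4 * T.w x3 := by omega
    have ed3 : T.a x3 x3 = -2 * T.w x3 := by omega
    have ed4 : T.a x4 x4 = -2 * T.w x3 := by omega
    have R0 : T.w x3 * (-4 * T.m x0 + 4 * T.m x1 + 2 * T.m x2 + 2 * T.m x3) = 0 := by linear_combination r0 - (T.m x0) * ed0 - (T.m x1) * ea01 - (T.m x2) * ea02 - (T.m x3) * ea03 - (T.m x4) * z04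
    have S0 := (mul_eq_zero.1 R0).resolve_left (T.w_pos x3).ne'
    have R1 : T.w x3 * (4 * T.m x0 + -8 * T.m x1) = 0 := by linear_combination r1 - (T.m x0) * ea10 - (T.m x1) * ed1 - (T.m x2) * z12 - (T.m x3) * z13 - (T.m x4) * z14
    have S1 := (mul_eq_zero.1 R1).resolve_left (T.w_pos x3).ne'
    have R2 : T.w x3 * (2 * T.m x0 + -4 * T.m x2) = 0 := by linear_combination r2 - (T.m x0) * ea20 - (T.m x1) * z21 - (T.m x2) * ed2 - (T.m x3) * z23 - (T.m x4) * z24
    have S2 := (mul_eq_zero.1 R2).resolve_left (T.w_pos x3).ne'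
    have R3 : T.w x3 * (2 * T.m x0 + -2 * T.m x3 + 1 * T.m x4) = 0 := by linear_combination r3 - (T.m x0) * ea30 - (T.m x1) * z31 - (T.m x2) * z32 - (T.m x3) * ed3 - (T.m x4) * ea34
    have S3 := (mul_eq_zero.1 R3).resolve_left (T.w_pos x3).ne'
    have R4 : T.w x3 * (1 * T.m x3 + -2 * T.m x4) = 0 := by linear_combination r4 - (T.m x0) * z40 - (T.m x1) * z41 - (T.m x2) * z42 - (T.m x3) * ea43 - (T.m x4) * ed4
    have S4 := (mul_eq_zero.1 R4).resolve_left (T.w_pos x3).ne'
    exfalso; linarith
  · -- (('L', 'S'), ('R', 'S'))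
    have ew0 : T.w x0 = 1 * T.w x0 := by omega
    have ew1 : T.w x1 = 2 * T.w x0 := by omega
    have ew2 : T.w x2 = 1 * T.w x0 := by omega
    have ew3 : T.w x3 = 2 * T.w x0 := by omega
    have ew4 : T.w x4 = 2 * T.w x0 := by omega
    have ea10 : T.a x1 x0 = 2 * T.w x0 := by omega
    have ea01 : T.a x0 x1 = 2 * T.w x0 := by rw [a_symm T]; omega
    have ea02 : T.a x0 x2 = 1 * T.w x0 := by omega
    have ea20 : T.a x2 x0 = 1 * T.w x0 := by rw [a_symm T]; omega
    have ea03 : T.a x0 x3 = 2 * T.w x0 := by omega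
    have ea30 : T.a x3 x0 = 2 * T.w x0 := by rw [a_symm T]; omega
    have ea34 : T.a x3 x4 = 2 * T.w x0 := by omega
    have ea43 : T.a x4 x3 = 2 * T.w x0 := by rw [a_symm T]; omega
    have ed0 : T.a x0 x0 = -2 * T.w x0 := by omega
    have ed1 : T.a x1 x1 = -4 * T.w x0 := by omega
    have ed2 : T.a x2 x2 = -2 * T.w x0 := by omega
    have ed3 : T.a x3 x3 = -4 * T.w x0 := by omega
    have ed4 : T.a x4 x4 = -4 * T.w x0 := by omega
    have R0 : T.w x0 * (-2 * T.m x0 + 2 * T.m x1 + 1 * T.m x2 + 2 * T.m x3) = 0 := by linear_combination r0 - (T.m x0) * ed0 - (T.m x1) * ea01 - (T.m x2) * ea02 - (T.m x3) * ea03 - (T.m x4) * z04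
    have S0 := (mul_eq_zero.1 R0).resolve_left (T.w_pos x0).ne'
    have R1 : T.w x0 * (2 * T.m x0 + -4 * T.m x1) = 0 := by linear_combination r1 - (T.m x0) * ea10 - (T.m x1) * ed1 - (T.m x2) * z12 - (T.m x3) * z13 - (T.m x4) * z14
    have S1 := (mul_eq_zero.1 R1).resolve_left (T.w_pos x0).ne'
    have R2 : T.w x0 * (1 * T.m x0 + -2 * T.m x2) = 0 := by linear_combination r2 - (T.m x0) * ea20 - (T.m x1) * z21 - (T.m x2) * ed2 - (T.m x3) * z23 - (T.m x4) * z24
    have S2 := (mul_eq_zero.1 R2).resolve_left (T.w_pos x0).ne'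
    have R3 : T.w x0 * (2 * T.m x0 + -4 * T.m x3 + 2 * T.m x4) = 0 := by linear_combination r3 - (T.m x0) * ea30 - (T.m x1) * z31 - (T.m x2) * z32 - (T.m x3) * ed3 - (T.m x4) * ea34
    have S3 := (mul_eq_zero.1 R3).resolve_left (T.w_pos x0).ne'
    have R4 : T.w x0 * (2 * T.m x3 + -4 * T.m x4) = 0 := by linear_combination r4 - (T.m x0) * z40 - (T.m x1) * z41 - (T.m x2) * z42 - (T.m x3) * ea43 - (T.m x4) * ed4
    have S4 := (mul_eq_zero.1 R4).resolve_left (T.w_pos x0).ne'
    exfalso; linarith
  · -- (('R', 'S'), ('S', 'S'))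
    have ew0 : T.w x0 = 2 * T.w x1 := by omega
    have ew1 : T.w x1 = 1 * T.w x1 := by omega
    have ew2 : T.w x2 = 2 * T.w x1 := by omega
    have ew3 : T.w x3 = 2 * T.w x1 := by omega
    have ew4 : T.w x4 = 2 * T.w x1 := by omega
    have ea10 : T.a x1 x0 = 2 * T.w x1 := by omega
    have ea01 : T.a x0 x1 = 2 * T.w x1 := by rw [a_symm T]; omega
    have ea02 : T.a x0 x2 = 2 * T.w x1 := by omega
    have ea20 : T.a x2 x0 = 2 * T.w x1 := by rw [a_symm T]; omega
    have ea03 : T.a x0 x3 = 2 * T.w x1 := by omega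
    have ea30 : T.a x3 x0 = 2 * T.w x1 := by rw [a_symm T]; omega
    have ea34 : T.a x3 x4 = 2 * T.w x1 := by omega
    have ea43 : T.a x4 x3 = 2 * T.w x1 := by rw [a_symm T]; omega
    have ed0 : T.a x0 x0 = -4 * T.w x1 := by omega
    have ed1 : T.a x1 x1 = -2 * T.w x1 := by omega
    have ed2 : T.a x2 x2 = -4 * T.w x1 := by omega
    have ed3 : T.a x3 x3 = -4 * T.w x1 := by omega
    have ed4 : T.a x4 x4 = -4 * T.w x1 := by omega
    have R0 : T.w x1 * (-4 * T.m x0 + 2 * T.m x1 + 2 * T.m x2 + 2 * T.m x3) = 0 := by linear_combination r0 - (T.m x0) * ed0 - (T.m x1) * ea01 - (T.m x2) * ea02 - (T.m x3) * ea03 - (T.m x4) * z04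
    have S0 := (mul_eq_zero.1 R0).resolve_left (T.w_pos x1).ne'
    have R1 : T.w x1 * (2 * T.m x0 + -2 * T.m x1) = 0 := by linear_combination r1 - (T.m x0) * ea10 - (T.m x1) * ed1 - (T.m x2) * z12 - (T.m x3) * z13 - (T.m x4) * z14
    have S1 := (mul_eq_zero.1 R1).resolve_left (T.w_pos x1).ne'
    have R2 : T.w x1 * (2 * T.m x0 + -4 * T.m x2) = 0 := by linear_combination r2 - (T.m x0) * ea20 - (T.m x1) * z21 - (T.m x2) * ed2 - (T.m x3) * z23 - (T.m x4) * z24
    have S2 := (mul_eq_zero.1 R2).resolve_left (T.w_pos x1).ne'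
    have R3 : T.w x1 * (2 * T.m x0 + -4 * T.m x3 + 2 * T.m x4) = 0 := by linear_combination r3 - (T.m x0) * ea30 - (T.m x1) * z31 - (T.m x2) * z32 - (T.m x3) * ed3 - (T.m x4) * ea34
    have S3 := (mul_eq_zero.1 R3).resolve_left (T.w_pos x1).ne'
    have R4 : T.w x1 * (2 * T.m x3 + -4 * T.m x4) = 0 := by linear_combination r4 - (T.m x0) * z40 - (T.m x1) * z41 - (T.m x2) * z42 - (T.m x3) * ea43 - (T.m x4) * ed4
    have S4 := (mul_eq_zero.1 R4).resolve_left (T.w_pos x1).ne'
    exfalso; linarith
  · -- (('R', 'S'), ('S', 'L'))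
    have ew0 : T.w x0 = 2 * T.w x1 := by omega
    have ew1 : T.w x1 = 1 * T.w x1 := by omega
    have ew2 : T.w x2 = 2 * T.w x1 := by omega
    have ew3 : T.w x3 = 2 * T.w x1 := by omega
    have ew4 : T.w x4 = 1 * T.w x1 := by omega
    have ea10 : T.a x1 x0 = 2 * T.w x1 := by omega
    have ea01 : T.a x0 x1 = 2 * T.w x1 := by rw [a_symm T]; omega
    have ea02 : T.a x0 x2 = 2 * T.w x1 := by omega
    have ea20 : T.a x2 x0 = 2 * T.w x1 := by rw [a_symm T]; omega
    have ea03 : T.a x0 x3 = 2 * T.w x1 := by omega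
    have ea30 : T.a x3 x0 = 2 * T.w x1 := by rw [a_symm T]; omega
    have ea34 : T.a x3 x4 = 2 * T.w x1 := by omega
    have ea43 : T.a x4 x3 = 2 * T.w x1 := by rw [a_symm T]; omega
    have ed0 : T.a x0 x0 = -4 * T.w x1 := by omega
    have ed1 : T.a x1 x1 = -2 * T.w x1 := by omega
    have ed2 : T.a x2 x2 = -4 * T.w x1 := by omega
    have ed3 : T.a x3 x3 = -4 * T.w x1 := by omega
    have ed4 : T.a x4 x4 = -2 * T.w x1 := by omega
    have R0 : T.w x1 * (-4 * T.m x0 + 2 * T.m x1 + 2 * T.m x2 + 2 * T.m x3) = 0 := by linear_combination r0 - (T.m x0) * ed0 - (T.m x1) * ea01 - (T.m x2) * ea02 - (T.m x3) * ea03 - (T.m x4) * z04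
    have S0 := (mul_eq_zero.1 R0).resolve_left (T.w_pos x1).ne'
    have R1 : T.w x1 * (2 * T.m x0 + -2 * T.m x1) = 0 := by linear_combination r1 - (T.m x0) * ea10 - (T.m x1) * ed1 - (T.m x2) * z12 - (T.m x3) * z13 - (T.m x4) * z14
    have S1 := (mul_eq_zero.1 R1).resolve_left (T.w_pos x1).ne'
    have R2 : T.w x1 * (2 * T.m x0 + -4 * T.m x2) = 0 := by linear_combination r2 - (T.m x0) * ea20 - (T.m x1) * z21 - (T.m x2) * ed2 - (T.m x3) * z23 - (T.m x4) * z24
    have S2 := (mul_eq_zero.1 R2).resolve_left (T.w_pos x1).ne'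
    have R3 : T.w x1 * (2 * T.m x0 + -4 * T.m x3 + 2 * T.m x4) = 0 := by linear_combination r3 - (T.m x0) * ea30 - (T.m x1) * z31 - (T.m x2) * z32 - (T.m x3) * ed3 - (T.m x4) * ea34
    have S3 := (mul_eq_zero.1 R3).resolve_left (T.w_pos x1).ne'
    have R4 : T.w x1 * (2 * T.m x3 + -2 * T.m x4) = 0 := by linear_combination r4 - (T.m x0) * z40 - (T.m x1) * z41 - (T.m x2) * z42 - (T.m x3) * ea43 - (T.m x4) * ed4
    have S4 := (mul_eq_zero.1 R4).resolve_left (T.w_pos x1).ne'
    exfalso; linarith
  · -- (('R', 'S'), ('S', 'R'))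
    have ew0 : T.w x0 = 2 * T.w x1 := by omega
    have ew1 : T.w x1 = 1 * T.w x1 := by omega
    have ew2 : T.w x2 = 2 * T.w x1 := by omega
    have ew3 : T.w x3 = 2 * T.w x1 := by omega
    have ew4 : T.w x4 = 4 * T.w x1 := by omega
    have ea10 : T.a x1 x0 = 2 * T.w x1 := by omega
    have ea01 : T.a x0 x1 = 2 * T.w x1 := by rw [a_symm T]; omega
    have ea02 : T.a x0 x2 = 2 * T.w x1 := by omega
    have ea20 : T.a x2 x0 = 2 * T.w x1 := by rw [a_symm T]; omega
    have ea03 : T.a x0 x3 = 2 * T.w x1 := by omega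
    have ea30 : T.a x3 x0 = 2 * T.w x1 := by rw [a_symm T]; omega
    have ea34 : T.a x3 x4 = 4 * T.w x1 := by omega
    have ea43 : T.a x4 x3 = 4 * T.w x1 := by rw [a_symm T]; omega
    have ed0 : T.a x0 x0 = -4 * T.w x1 := by omega
    have ed1 : T.a x1 x1 = -2 * T.w x1 := by omega
    have ed2 : T.a x2 x2 = -4 * T.w x1 := by omega
    have ed3 : T.a x3 x3 = -4 * T.w x1 := by omega
    have ed4 : T.a x4 x4 = -8 * T.w x1 := by omega
    have R0 : T.w x1 * (-4 * T.m x0 + 2 * T.m x1 + 2 * T.m x2 + 2 * T.m x3) = 0 := by linear_combination r0 - (T.m x0) * ed0 - (T.m x1) * ea01 - (T.m x2) * ea02 - (T.m x3) * ea03 - (T.m x4) * z04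
    have S0 := (mul_eq_zero.1 R0).resolve_left (T.w_pos x1).ne'
    have R1 : T.w x1 * (2 * T.m x0 + -2 * T.m x1) = 0 := by linear_combination r1 - (T.m x0) * ea10 - (T.m x1) * ed1 - (T.m x2) * z12 - (T.m x3) * z13 - (T.m x4) * z14
    have S1 := (mul_eq_zero.1 R1).resolve_left (T.w_pos x1).ne'
    have R2 : T.w x1 * (2 * T.m x0 + -4 * T.m x2) = 0 := by linear_combination r2 - (T.m x0) * ea20 - (T.m x1) * z21 - (T.m x2) * ed2 - (T.m x3) * z23 - (T.m x4) * z24
    have S2 := (mul_eq_zero.1 R2).resolve_left (T.w_pos x1).ne'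
    have R3 : T.w x1 * (2 * T.m x0 + -4 * T.m x3 + 4 * T.m x4) = 0 := by linear_combination r3 - (T.m x0) * ea30 - (T.m x1) * z31 - (T.m x2) * z32 - (T.m x3) * ed3 - (T.m x4) * ea34
    have S3 := (mul_eq_zero.1 R3).resolve_left (T.w_pos x1).ne'
    have R4 : T.w x1 * (4 * T.m x3 + -8 * T.m x4) = 0 := by linear_combination r4 - (T.m x0) * z40 - (T.m x1) * z41 - (T.m x2) * z42 - (T.m x3) * ea43 - (T.m x4) * ed4
    have S4 := (mul_eq_zero.1 R4).resolve_left (T.w_pos x1).ne'
    exfalso; linarith
  · -- (('R', 'S'), ('L', 'S'))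
    have ew0 : T.w x0 = 2 * T.w x1 := by omega
    have ew1 : T.w x1 = 1 * T.w x1 := by omega
    have ew2 : T.w x2 = 2 * T.w x1 := by omega
    have ew3 : T.w x3 = 1 * T.w x1 := by omega
    have ew4 : T.w x4 = 1 * T.w x1 := by omega
    have ea10 : T.a x1 x0 = 2 * T.w x1 := by omega
    have ea01 : T.a x0 x1 = 2 * T.w x1 := by rw [a_symm T]; omega
    have ea02 : T.a x0 x2 = 2 * T.w x1 := by omega
    have ea20 : T.a x2 x0 = 2 * T.w x1 := by rw [a_symm T]; omega
    have ea03 : T.a x0 x3 = 2 * T.w x1 := by omega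
    have ea30 : T.a x3 x0 = 2 * T.w x1 := by rw [a_symm T]; omega
    have ea34 : T.a x3 x4 = 1 * T.w x1 := by omega
    have ea43 : T.a x4 x3 = 1 * T.w x1 := by rw [a_symm T]; omega
    have ed0 : T.a x0 x0 = -4 * T.w x1 := by omega
    have ed1 : T.a x1 x1 = -2 * T.w x1 := by omega
    have ed2 : T.a x2 x2 = -4 * T.w x1 := by omega
    have ed3 : T.a x3 x3 = -2 * T.w x1 := by omega
    have ed4 : T.a x4 x4 = -2 * T.w x1 := by omega
    have R0 : T.w x1 * (-4 * T.m x0 + 2 * T.m x1 + 2 * T.m x2 + 2 * T.m x3) = 0 := by linear_combination r0 - (T.m x0) * ed0 - (T.m x1) * ea01 - (T.m x2) * ea02 - (T.m x3) * ea03 - (T.m x4) * z04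
    have S0 := (mul_eq_zero.1 R0).resolve_left (T.w_pos x1).ne'
    have R1 : T.w x1 * (2 * T.m x0 + -2 * T.m x1) = 0 := by linear_combination r1 - (T.m x0) * ea10 - (T.m x1) * ed1 - (T.m x2) * z12 - (T.m x3) * z13 - (T.m x4) * z14
    have S1 := (mul_eq_zero.1 R1).resolve_left (T.w_pos x1).ne'
    have R2 : T.w x1 * (2 * T.m x0 + -4 * T.m x2) = 0 := by linear_combination r2 - (T.m x0) * ea20 - (T.m x1) * z21 - (T.m x2) * ed2 - (T.m x3) * z23 - (T.m x4) * z24
    have S2 := (mul_eq_zero.1 R2).resolve_left (T.w_pos x1).ne'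
    have R3 : T.w x1 * (2 * T.m x0 + -2 * T.m x3 + 1 * T.m x4) = 0 := by linear_combination r3 - (T.m x0) * ea30 - (T.m x1) * z31 - (T.m x2) * z32 - (T.m x3) * ed3 - (T.m x4) * ea34
    have S3 := (mul_eq_zero.1 R3).resolve_left (T.w_pos x1).ne'
    have R4 : T.w x1 * (1 * T.m x3 + -2 * T.m x4) = 0 := by linear_combination r4 - (T.m x0) * z40 - (T.m x1) * z41 - (T.m x2) * z42 - (T.m x3) * ea43 - (T.m x4) * ed4
    have S4 := (mul_eq_zero.1 R4).resolve_left (T.w_pos x1).ne'
    exfalso; linarith
  · -- (('R', 'S'), ('R', 'S'))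
    have ew0 : T.w x0 = 2 * T.w x1 := by omega
    have ew1 : T.w x1 = 1 * T.w x1 := by omega
    have ew2 : T.w x2 = 2 * T.w x1 := by omega
    have ew3 : T.w x3 = 4 * T.w x1 := by omega
    have ew4 : T.w x4 = 4 * T.w x1 := by omega
    have ea10 : T.a x1 x0 = 2 * T.w x1 := by omega
    have ea01 : T.a x0 x1 = 2 * T.w x1 := by rw [a_symm T]; omega
    have ea02 : T.a x0 x2 = 2 * T.w x1 := by omega
    have ea20 : T.a x2 x0 = 2 * T.w x1 := by rw [a_symm T]; omega
    have ea03 : T.a x0 x3 = 4 * T.w x1 := by omega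
    have ea30 : T.a x3 x0 = 4 * T.w x1 := by rw [a_symm T]; omega
    have ea34 : T.a x3 x4 = 4 * T.w x1 := by omega
    have ea43 : T.a x4 x3 = 4 * T.w x1 := by rw [a_symm T]; omega
    have ed0 : T.a x0 x0 = -4 * T.w x1 := by omega
    have ed1 : T.a x1 x1 = -2 * T.w x1 := by omega
    have ed2 : T.a x2 x2 = -4 * T.w x1 := by omega
    have ed3 : T.a x3 x3 = -8 * T.w x1 := by omega
    have ed4 : T.a x4 x4 = -8 * T.w x1 := by omega
    have R0 : T.w x1 * (-4 * T.m x0 + 2 * T.m x1 + 2 * T.m x2 + 4 * T.m x3) = 0 := by linear_combination r0 - (T.m x0) * ed0 - (T.m x1) * ea01 - (T.m x2) * ea02 - (T.m x3) * ea03 - (T.m x4) * z04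
    have S0 := (mul_eq_zero.1 R0).resolve_left (T.w_pos x1).ne'
    have R1 : T.w x1 * (2 * T.m x0 + -2 * T.m x1) = 0 := by linear_combination r1 - (T.m x0) * ea10 - (T.m x1) * ed1 - (T.m x2) * z12 - (T.m x3) * z13 - (T.m x4) * z14
    have S1 := (mul_eq_zero.1 R1).resolve_left (T.w_pos x1).ne'
    have R2 : T.w x1 * (2 * T.m x0 + -4 * T.m x2) = 0 := by linear_combination r2 - (T.m x0) * ea20 - (T.m x1) * z21 - (T.m x2) * ed2 - (T.m x3) * z23 - (T.m x4) * z24
    have S2 := (mul_eq_zero.1 R2).resolve_left (T.w_pos x1).ne'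
    have R3 : T.w x1 * (4 * T.m x0 + -8 * T.m x3 + 4 * T.m x4) = 0 := by linear_combination r3 - (T.m x0) * ea30 - (T.m x1) * z31 - (T.m x2) * z32 - (T.m x3) * ed3 - (T.m x4) * ea34
    have S3 := (mul_eq_zero.1 R3).resolve_left (T.w_pos x1).ne'
    have R4 : T.w x1 * (4 * T.m x3 + -8 * T.m x4) = 0 := by linear_combination r4 - (T.m x0) * z40 - (T.m x1) * z41 - (T.m x2) * z42 - (T.m x3) * ea43 - (T.m x4) * ed4
    have S4 := (mul_eq_zero.1 R4).resolve_left (T.w_pos x1).ne'
    exfalso; linarith

theorem shape_star (T : Models.NumericalType 5) {x0 x1 x2 x3 x4 : Fin 5} (d01 : x0 ≠ x1) (d02 : x0 ≠ x2) (d03 : x0 ≠ x3) (d04 : x0 ≠ x4) (d12 : x1 ≠ x2) (d13 : x1 ≠ x3) (d14 : x1 ≠ x4) (d23 : x2 ≠ x3) (d24 : x2 ≠ x4) (d34 : x3 ≠ x4)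
    (t0 : T.IsMinusTwo x0) (t1 : T.IsMinusTwo x1) (t2 : T.IsMinusTwo x2) (t3 : T.IsMinusTwo x3) (t4 : T.IsMinusTwo x4)
    (e10 : T.a x1 x0 ≠ 0) (e02 : T.a x0 x2 ≠ 0) (e30 : T.a x3 x0 ≠ 0) (e04 : T.a x0 x4 ≠ 0) (z12 : T.a x1 x2 = 0) (z13 : T.a x1 x3 = 0) (z14 : T.a x1 x4 = 0) (z23 : T.a x2 x3 = 0) (z24 : T.a x2 x4 = 0) (z34 : T.a x3 x4 = 0)
    (r0 : T.a x0 x0 * T.m x0 + T.a x0 x1 * T.m x1 + T.a x0 x2 * T.m x2 + T.a x0 x3 * T.m x3 + T.a x0 x4 * T.m x4 = 0)
    (r1 : T.a x1 x0 * T.m x0 + T.a x1 x1 * T.m x1 + T.a x1 x2 * T.m x2 + T.a x1 x3 * T.m x3 + T.a x1 x4 * T.m x4 = 0)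
    (r2 : T.a x2 x0 * T.m x0 + T.a x2 x1 * T.m x1 + T.a x2 x2 * T.m x2 + T.a x2 x3 * T.m x3 + T.a x2 x4 * T.m x4 = 0)
    (r3 : T.a x3 x0 * T.m x0 + T.a x3 x1 * T.m x1 + T.a x3 x2 * T.m x2 + T.a x3 x3 * T.m x3 + T.a x3 x4 * T.m x4 = 0)
    (r4 : T.a x4 x0 * T.m x0 + T.a x4 x1 * T.m x1 + T.a x4 x2 * T.m x2 + T.a x4 x3 * T.m x3 + T.a x4 x4 * T.m x4 = 0) :
    ∃ (y0 y1 y2 y3 y4 : Fin 5) (m w : ℤ), Function.Injective ![y0, y1, y2, y3, y4] ∧ Pat T y0 y1 y2 y3 y4 m w := by
  have d10 := d01.symm
  have d20 := d02.symm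
  have d30 := d03.symm
  have d40 := d04.symm
  have d21 := d12.symm
  have d31 := d13.symm
  have d41 := d14.symm
  have d32 := d23.symm
  have d42 := d24.symm
  have d43 := d34.symm
  have p0 := T.w_pos x0
  have q0 := T.m_pos x0
  have dd0 := t0.2
  have p1 := T.w_pos x1
  have q1 := T.m_pos x1
  have dd1 := t1.2
  have p2 := T.w_pos x2
  have q2 := T.m_pos x2
  have dd2 := t2.2
  have p3 := T.w_pos x3
  have q3 := T.m_pos x3
  have dd3 := t3.2
  have p4 := T.w_pos x4
  have q4 := T.m_pos x4
  have dd4 := t4.2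
  have z21 : T.a x2 x1 = 0 := by rw [a_symm T]; exact z12
  have z31 : T.a x3 x1 = 0 := by rw [a_symm T]; exact z13
  have z41 : T.a x4 x1 = 0 := by rw [a_symm T]; exact z14
  have z32 : T.a x3 x2 = 0 := by rw [a_symm T]; exact z23
  have z42 : T.a x4 x2 = 0 := by rw [a_symm T]; exact z24
  have z43 : T.a x4 x3 = 0 := by rw [a_symm T]; exact z34
  rcases chain3_types T (by norm_num) d10 d02 d12 t1 t0 t2 e10 e02 with ⟨_, ⟨⟨ua, ub⟩, ⟨uc, ud⟩⟩ | ⟨⟨ua, ub⟩, ⟨uc, ud⟩⟩ | ⟨⟨ua, ub⟩, ⟨uc, ud⟩⟩ | ⟨⟨ua, ub⟩, ⟨uc, ud⟩⟩ | ⟨⟨ua, ub⟩, ⟨uc, ud⟩⟩⟩ <;>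
    rcases chain3_types T (by norm_num) d30 d04 d34 t3 t0 t4 e30 e04 with ⟨_, ⟨⟨va, vb⟩, ⟨vc, vd⟩⟩ | ⟨⟨va, vb⟩, ⟨vc, vd⟩⟩ | ⟨⟨va, vb⟩, ⟨vc, vd⟩⟩ | ⟨⟨va, vb⟩, ⟨vc, vd⟩⟩ | ⟨⟨va, vb⟩, ⟨vc, vd⟩⟩⟩
  · -- (('S', 'S'), ('S', 'S'))
    have ew0 : T.w x0 = 1 * T.w x0 := by omega
    have ew1 : T.w x1 = 1 * T.w x0 := by omega
    have ew2 : T.w x2 = 1 * T.w x0 := by omega
    have ew3 : T.w x3 = 1 * T.w x0 := by omega
    have ew4 : T.w x4 = 1 * T.w x0 := by omega
    have ea10 : T.a x1 x0 = 1 * T.w x0 := by omega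
    have ea01 : T.a x0 x1 = 1 * T.w x0 := by rw [a_symm T]; omega
    have ea02 : T.a x0 x2 = 1 * T.w x0 := by omega
    have ea20 : T.a x2 x0 = 1 * T.w x0 := by rw [a_symm T]; omega
    have ea30 : T.a x3 x0 = 1 * T.w x0 := by omega
    have ea03 : T.a x0 x3 = 1 * T.w x0 := by rw [a_symm T]; omega
    have ea04 : T.a x0 x4 = 1 * T.w x0 := by omega
    have ea40 : T.a x4 x0 = 1 * T.w x0 := by rw [a_symm T]; omega
    have ed0 : T.a x0 x0 = -2 * T.w x0 := by omega
    have ed1 : T.a x1 x1 = -2 * T.w x0 := by omega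
    have ed2 : T.a x2 x2 = -2 * T.w x0 := by omega
    have ed3 : T.a x3 x3 = -2 * T.w x0 := by omega
    have ed4 : T.a x4 x4 = -2 * T.w x0 := by omega
    have R0 : T.w x0 * (-2 * T.m x0 + 1 * T.m x1 + 1 * T.m x2 + 1 * T.m x3 + 1 * T.m x4) = 0 := by linear_combination r0 - (T.m x0) * ed0 - (T.m x1) * ea01 - (T.m x2) * ea02 - (T.m x3) * ea03 - (T.m x4) * ea04
    have S0 := (mul_eq_zero.1 R0).resolve_left (T.w_pos x0).ne'
    have R1 : T.w x0 * (1 * T.m x0 + -2 * T.m x1) = 0 := by linear_combination r1 - (T.m x0) * ea10 - (T.m x1) * ed1 - (T.m x2) * z12 - (T.m x3) * z13 - (T.m x4) * z14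
    have S1 := (mul_eq_zero.1 R1).resolve_left (T.w_pos x0).ne'
    have R2 : T.w x0 * (1 * T.m x0 + -2 * T.m x2) = 0 := by linear_combination r2 - (T.m x0) * ea20 - (T.m x1) * z21 - (T.m x2) * ed2 - (T.m x3) * z23 - (T.m x4) * z24
    have S2 := (mul_eq_zero.1 R2).resolve_left (T.w_pos x0).ne'
    have R3 : T.w x0 * (1 * T.m x0 + -2 * T.m x3) = 0 := by linear_combination r3 - (T.m x0) * ea30 - (T.m x1) * z31 - (T.m x2) * z32 - (T.m x3) * ed3 - (T.m x4) * z34
    have S3 := (mul_eq_zero.1 R3).resolve_left (T.w_pos x0).ne'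
    have R4 : T.w x0 * (1 * T.m x0 + -2 * T.m x4) = 0 := by linear_combination r4 - (T.m x0) * ea40 - (T.m x1) * z41 - (T.m x2) * z42 - (T.m x3) * z43 - (T.m x4) * ed4
    have S4 := (mul_eq_zero.1 R4).resolve_left (T.w_pos x0).ne'
    exact ⟨x0, x1, x2, x3, x4, T.m x1, T.w x0, inj5 d01 d02 d03 d04 d12 d13 d14 d23 d24 d34, Or.inr (Or.inr (Or.inr (Or.inr (Or.inr (Or.inr (Or.inl ⟨(by first | omega | linarith : T.m x0 = 2 * T.m x1), (by first | omega | linarith : T.m x1 = T.m x1), (by first | omega | linarith : T.m x2 = T.m x1), (by first | omega | linarith : T.m x3 = T.m x1), (by first | omega | linarith : T.m x4 = T.m x1), (by first | omega | linarith : T.w x0 = T.w x0), (by first | omega | linarith : T.w x1 = T.w x0), (by first | omega | linarith : T.w x2 = T.w x0), (by first | omega | linarith : T.w x3 = T.w x0), (by first | omega | linarith : T.w x4 = T.w x0), (by first | omega | linarith : T.a x0 x0 = -2 * T.w x0), (by first | omega | linarith : T.a x0 x1 = T.w x0), (by first | omega | linarith : T.a x0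 x2 = T.w x0), (by first | omega | linarith : T.a x0 x3 = T.w x0), (by first | omega | linarith : T.a x0 x4 = T.w x0), (by first | omega | linarith : T.a x1 x1 = -2 * T.w x0), (by first | omega | linarith : T.a x1 x2 = 0), (by first | omega | linarith : T.a x1 x3 = 0), (by first | omega | linarith : T.a x1 x4 = 0), (by first | omega | linarith : T.a x2 x2 = -2 * T.w x0), (by first | omega | linarith : T.a x2 x3 = 0), (by first | omega | linarith : T.a x2 x4 = 0), (by first | omega | linarith : T.a x3 x3 = -2 * T.w x0), (by first | omega | linarith : T.a x3 x4 = 0), (by first | omega | linarith : T.a x4 x4 = -2 * T.w x0)⟩))))))⟩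
    -- type 7 perm (0, 1, 2, 3, 4)
  · -- (('S', 'S'), ('S', 'L'))
    have ew0 : T.w x0 = 2 * T.w x4 := by omega
    have ew1 : T.w x1 = 2 * T.w x4 := by omega
    have ew2 : T.w x2 = 2 * T.w x4 := by omega
    have ew3 : T.w x3 = 2 * T.w x4 := by omega
    have ew4 : T.w x4 = 1 * T.w x4 := by omega
    have ea10 : T.a x1 x0 = 2 * T.w x4 := by omega
    have ea01 : T.a x0 x1 = 2 * T.w x4 := by rw [a_symm T]; omega
    have ea02 : T.a x0 x2 = 2 * T.w x4 := by omega
    have ea20 : T.a x2 x0 = 2 * T.w x4 := by rw [a_symm T]; omega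
    have ea30 : T.a x3 x0 = 2 * T.w x4 := by omega
    have ea03 : T.a x0 x3 = 2 * T.w x4 := by rw [a_symm T]; omega
    have ea04 : T.a x0 x4 = 2 * T.w x4 := by omega
    have ea40 : T.a x4 x0 = 2 * T.w x4 := by rw [a_symm T]; omega
    have ed0 : T.a x0 x0 = -4 * T.w x4 := by omega
    have ed1 : T.a x1 x1 = -4 * T.w x4 := by omega
    have ed2 : T.a x2 x2 = -4 * T.w x4 := by omega
    have ed3 : T.a x3 x3 = -4 * T.w x4 := by omega
    have ed4 : T.a x4 x4 = -2 * T.w x4 := by omega
    have R0 : T.w x4 * (-4 * T.m x0 + 2 * T.m x1 + 2 * T.m x2 + 2 * T.m x3 + 2 * T.m x4) = 0 := by linear_combination r0 - (T.m x0) * ed0 - (T.m x1) * ea01 - (T.m x2) * ea02 - (T.m x3) * ea03 - (T.m x4) * ea04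
    have S0 := (mul_eq_zero.1 R0).resolve_left (T.w_pos x4).ne'
    have R1 : T.w x4 * (2 * T.m x0 + -4 * T.m x1) = 0 := by linear_combination r1 - (T.m x0) * ea10 - (T.m x1) * ed1 - (T.m x2) * z12 - (T.m x3) * z13 - (T.m x4) * z14
    have S1 := (mul_eq_zero.1 R1).resolve_left (T.w_pos x4).ne'
    have R2 : T.w x4 * (2 * T.m x0 + -4 * T.m x2) = 0 := by linear_combination r2 - (T.m x0) * ea20 - (T.m x1) * z21 - (T.m x2) * ed2 - (T.m x3) * z23 - (T.m x4) * z24
    have S2 := (mul_eq_zero.1 R2).resolve_left (T.w_pos x4).ne'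
    have R3 : T.w x4 * (2 * T.m x0 + -4 * T.m x3) = 0 := by linear_combination r3 - (T.m x0) * ea30 - (T.m x1) * z31 - (T.m x2) * z32 - (T.m x3) * ed3 - (T.m x4) * z34
    have S3 := (mul_eq_zero.1 R3).resolve_left (T.w_pos x4).ne'
    have R4 : T.w x4 * (2 * T.m x0 + -2 * T.m x4) = 0 := by linear_combination r4 - (T.m x0) * ea40 - (T.m x1) * z41 - (T.m x2) * z42 - (T.m x3) * z43 - (T.m x4) * ed4
    have S4 := (mul_eq_zero.1 R4).resolve_left (T.w_pos x4).ne'
    exfalso; linarith
  · -- (('S', 'S'), ('S', 'R'))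
    have ew0 : T.w x0 = 1 * T.w x0 := by omega
    have ew1 : T.w x1 = 1 * T.w x0 := by omega
    have ew2 : T.w x2 = 1 * T.w x0 := by omega
    have ew3 : T.w x3 = 1 * T.w x0 := by omega
    have ew4 : T.w x4 = 2 * T.w x0 := by omega
    have ea10 : T.a x1 x0 = 1 * T.w x0 := by omega
    have ea01 : T.a x0 x1 = 1 * T.w x0 := by rw [a_symm T]; omega
    have ea02 : T.a x0 x2 = 1 * T.w x0 := by omega
    have ea20 : T.a x2 x0 = 1 * T.w x0 := by rw [a_symm T]; omega
    have ea30 : T.a x3 x0 = 1 * T.w x0 := by omega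
    have ea03 : T.a x0 x3 = 1 * T.w x0 := by rw [a_symm T]; omega
    have ea04 : T.a x0 x4 = 2 * T.w x0 := by omega
    have ea40 : T.a x4 x0 = 2 * T.w x0 := by rw [a_symm T]; omega
    have ed0 : T.a x0 x0 = -2 * T.w x0 := by omega
    have ed1 : T.a x1 x1 = -2 * T.w x0 := by omega
    have ed2 : T.a x2 x2 = -2 * T.w x0 := by omega
    have ed3 : T.a x3 x3 = -2 * T.w x0 := by omega
    have ed4 : T.a x4 x4 = -4 * T.w x0 := by omega
    have R0 : T.w x0 * (-2 * T.m x0 + 1 * T.m x1 + 1 * T.m x2 + 1 * T.m x3 + 2 * T.m x4) = 0 := by linear_combination r0 - (T.m x0) * ed0 - (T.m x1) * ea01 - (T.m x2) * ea02 - (T.m x3) * ea03 - (T.m x4) * ea04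
    have S0 := (mul_eq_zero.1 R0).resolve_left (T.w_pos x0).ne'
    have R1 : T.w x0 * (1 * T.m x0 + -2 * T.m x1) = 0 := by linear_combination r1 - (T.m x0) * ea10 - (T.m x1) * ed1 - (T.m x2) * z12 - (T.m x3) * z13 - (T.m x4) * z14
    have S1 := (mul_eq_zero.1 R1).resolve_left (T.w_pos x0).ne'
    have R2 : T.w x0 * (1 * T.m x0 + -2 * T.m x2) = 0 := by linear_combination r2 - (T.m x0) * ea20 - (T.m x1) * z21 - (T.m x2) * ed2 - (T.m x3) * z23 - (T.m x4) * z24
    have S2 := (mul_eq_zero.1 R2).resolve_left (T.w_pos x0).ne'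
    have R3 : T.w x0 * (1 * T.m x0 + -2 * T.m x3) = 0 := by linear_combination r3 - (T.m x0) * ea30 - (T.m x1) * z31 - (T.m x2) * z32 - (T.m x3) * ed3 - (T.m x4) * z34
    have S3 := (mul_eq_zero.1 R3).resolve_left (T.w_pos x0).ne'
    have R4 : T.w x0 * (2 * T.m x0 + -4 * T.m x4) = 0 := by linear_combination r4 - (T.m x0) * ea40 - (T.m x1) * z41 - (T.m x2) * z42 - (T.m x3) * z43 - (T.m x4) * ed4
    have S4 := (mul_eq_zero.1 R4).resolve_left (T.w_pos x0).ne'
    exfalso; linarith
  · -- (('S', 'S'), ('L', 'S'))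
    have ew0 : T.w x0 = 1 * T.w x0 := by omega
    have ew1 : T.w x1 = 1 * T.w x0 := by omega
    have ew2 : T.w x2 = 1 * T.w x0 := by omega
    have ew3 : T.w x3 = 2 * T.w x0 := by omega
    have ew4 : T.w x4 = 1 * T.w x0 := by omega
    have ea10 : T.a x1 x0 = 1 * T.w x0 := by omega
    have ea01 : T.a x0 x1 = 1 * T.w x0 := by rw [a_symm T]; omega
    have ea02 : T.a x0 x2 = 1 * T.w x0 := by omega
    have ea20 : T.a x2 x0 = 1 * T.w x0 := by rw [a_symm T]; omega
    have ea30 : T.a x3 x0 = 2 * T.w x0 := by omega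
    have ea03 : T.a x0 x3 = 2 * T.w x0 := by rw [a_symm T]; omega
    have ea04 : T.a x0 x4 = 1 * T.w x0 := by omega
    have ea40 : T.a x4 x0 = 1 * T.w x0 := by rw [a_symm T]; omega
    have ed0 : T.a x0 x0 = -2 * T.w x0 := by omega
    have ed1 : T.a x1 x1 = -2 * T.w x0 := by omega
    have ed2 : T.a x2 x2 = -2 * T.w x0 := by omega
    have ed3 : T.a x3 x3 = -4 * T.w x0 := by omega
    have ed4 : T.a x4 x4 = -2 * T.w x0 := by omega
    have R0 : T.w x0 * (-2 * T.m x0 + 1 * T.m x1 + 1 * T.m x2 + 2 * T.m x3 + 1 * T.m x4) = 0 := by linear_combination r0 - (T.m x0) * ed0 - (T.m x1) * ea01 - (T.m x2) * ea02 - (T.m x3) * ea03 - (T.m x4) * ea04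
    have S0 := (mul_eq_zero.1 R0).resolve_left (T.w_pos x0).ne'
    have R1 : T.w x0 * (1 * T.m x0 + -2 * T.m x1) = 0 := by linear_combination r1 - (T.m x0) * ea10 - (T.m x1) * ed1 - (T.m x2) * z12 - (T.m x3) * z13 - (T.m x4) * z14
    have S1 := (mul_eq_zero.1 R1).resolve_left (T.w_pos x0).ne'
    have R2 : T.w x0 * (1 * T.m x0 + -2 * T.m x2) = 0 := by linear_combination r2 - (T.m x0) * ea20 - (T.m x1) * z21 - (T.m x2) * ed2 - (T.m x3) * z23 - (T.m x4) * z24
    have S2 := (mul_eq_zero.1 R2).resolve_left (T.w_pos x0).ne'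
    have R3 : T.w x0 * (2 * T.m x0 + -4 * T.m x3) = 0 := by linear_combination r3 - (T.m x0) * ea30 - (T.m x1) * z31 - (T.m x2) * z32 - (T.m x3) * ed3 - (T.m x4) * z34
    have S3 := (mul_eq_zero.1 R3).resolve_left (T.w_pos x0).ne'
    have R4 : T.w x0 * (1 * T.m x0 + -2 * T.m x4) = 0 := by linear_combination r4 - (T.m x0) * ea40 - (T.m x1) * z41 - (T.m x2) * z42 - (T.m x3) * z43 - (T.m x4) * ed4
    have S4 := (mul_eq_zero.1 R4).resolve_left (T.w_pos x0).ne'
    exfalso; linarith
  · -- (('S', 'S'), ('R', 'S'))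
    have ew0 : T.w x0 = 2 * T.w x3 := by omega
    have ew1 : T.w x1 = 2 * T.w x3 := by omega
    have ew2 : T.w x2 = 2 * T.w x3 := by omega
    have ew3 : T.w x3 = 1 * T.w x3 := by omega
    have ew4 : T.w x4 = 2 * T.w x3 := by omega
    have ea10 : T.a x1 x0 = 2 * T.w x3 := by omega
    have ea01 : T.a x0 x1 = 2 * T.w x3 := by rw [a_symm T]; omega
    have ea02 : T.a x0 x2 = 2 * T.w x3 := by omega
    have ea20 : T.a x2 x0 = 2 * T.w x3 := by rw [a_symm T]; omega
    have ea30 : T.a x3 x0 = 2 * T.w x3 := by omega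
    have ea03 : T.a x0 x3 = 2 * T.w x3 := by rw [a_symm T]; omega
    have ea04 : T.a x0 x4 = 2 * T.w x3 := by omega
    have ea40 : T.a x4 x0 = 2 * T.w x3 := by rw [a_symm T]; omega
    have ed0 : T.a x0 x0 = -4 * T.w x3 := by omega
    have ed1 : T.a x1 x1 = -4 * T.w x3 := by omega
    have ed2 : T.a x2 x2 = -4 * T.w x3 := by omega
    have ed3 : T.a x3 x3 = -2 * T.w x3 := by omega
    have ed4 : T.a x4 x4 = -4 * T.w x3 := by omega
    have R0 : T.w x3 * (-4 * T.m x0 + 2 * T.m x1 + 2 * T.m x2 + 2 * T.m x3 + 2 * T.m x4) = 0 := by linear_combination r0 - (T.m x0) * ed0 - (T.m x1) * ea01 - (T.m x2) * ea02 - (T.m x3) * ea03 - (T.m x4) * ea04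
    have S0 := (mul_eq_zero.1 R0).resolve_left (T.w_pos x3).ne'
    have R1 : T.w x3 * (2 * T.m x0 + -4 * T.m x1) = 0 := by linear_combination r1 - (T.m x0) * ea10 - (T.m x1) * ed1 - (T.m x2) * z12 - (T.m x3) * z13 - (T.m x4) * z14
    have S1 := (mul_eq_zero.1 R1).resolve_left (T.w_pos x3).ne'
    have R2 : T.w x3 * (2 * T.m x0 + -4 * T.m x2) = 0 := by linear_combination r2 - (T.m x0) * ea20 - (T.m x1) * z21 - (T.m x2) * ed2 - (T.m x3) * z23 - (T.m x4) * z24
    have S2 := (mul_eq_zero.1 R2).resolve_left (T.w_pos x3).ne'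
    have R3 : T.w x3 * (2 * T.m x0 + -2 * T.m x3) = 0 := by linear_combination r3 - (T.m x0) * ea30 - (T.m x1) * z31 - (T.m x2) * z32 - (T.m x3) * ed3 - (T.m x4) * z34
    have S3 := (mul_eq_zero.1 R3).resolve_left (T.w_pos x3).ne'
    have R4 : T.w x3 * (2 * T.m x0 + -4 * T.m x4) = 0 := by linear_combination r4 - (T.m x0) * ea40 - (T.m x1) * z41 - (T.m x2) * z42 - (T.m x3) * z43 - (T.m x4) * ed4
    have S4 := (mul_eq_zero.1 R4).resolve_left (T.w_pos x3).ne'
    exfalso; linarith
  · -- (('S', 'L'), ('S', 'S'))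
    have ew0 : T.w x0 = 2 * T.w x2 := by omega
    have ew1 : T.w x1 = 2 * T.w x2 := by omega
    have ew2 : T.w x2 = 1 * T.w x2 := by omega
    have ew3 : T.w x3 = 2 * T.w x2 := by omega
    have ew4 : T.w x4 = 2 * T.w x2 := by omega
    have ea10 : T.a x1 x0 = 2 * T.w x2 := by omega
    have ea01 : T.a x0 x1 = 2 * T.w x2 := by rw [a_symm T]; omega
    have ea02 : T.a x0 x2 = 2 * T.w x2 := by omega
    have ea20 : T.a x2 x0 = 2 * T.w x2 := by rw [a_symm T]; omega
    have ea30 : T.a x3 x0 = 2 * T.w x2 := by omega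
    have ea03 : T.a x0 x3 = 2 * T.w x2 := by rw [a_symm T]; omega
    have ea04 : T.a x0 x4 = 2 * T.w x2 := by omega
    have ea40 : T.a x4 x0 = 2 * T.w x2 := by rw [a_symm T]; omega
    have ed0 : T.a x0 x0 = -4 * T.w x2 := by omega
    have ed1 : T.a x1 x1 = -4 * T.w x2 := by omega
    have ed2 : T.a x2 x2 = -2 * T.w x2 := by omega
    have ed3 : T.a x3 x3 = -4 * T.w x2 := by omega
    have ed4 : T.a x4 x4 = -4 * T.w x2 := by omega
    have R0 : T.w x2 * (-4 * T.m x0 + 2 * T.m x1 + 2 * T.m x2 + 2 * T.m x3 + 2 * T.m x4) = 0 := by linear_combination r0 - (T.m x0) * ed0 - (T.m x1) * ea01 - (T.m x2) * ea02 - (T.m x3) * ea03 - (T.m x4) * ea04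
    have S0 := (mul_eq_zero.1 R0).resolve_left (T.w_pos x2).ne'
    have R1 : T.w x2 * (2 * T.m x0 + -4 * T.m x1) = 0 := by linear_combination r1 - (T.m x0) * ea10 - (T.m x1) * ed1 - (T.m x2) * z12 - (T.m x3) * z13 - (T.m x4) * z14
    have S1 := (mul_eq_zero.1 R1).resolve_left (T.w_pos x2).ne'
    have R2 : T.w x2 * (2 * T.m x0 + -2 * T.m x2) = 0 := by linear_combination r2 - (T.m x0) * ea20 - (T.m x1) * z21 - (T.m x2) * ed2 - (T.m x3) * z23 - (T.m x4) * z24
    have S2 := (mul_eq_zero.1 R2).resolve_left (T.w_pos x2).ne'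
    have R3 : T.w x2 * (2 * T.m x0 + -4 * T.m x3) = 0 := by linear_combination r3 - (T.m x0) * ea30 - (T.m x1) * z31 - (T.m x2) * z32 - (T.m x3) * ed3 - (T.m x4) * z34
    have S3 := (mul_eq_zero.1 R3).resolve_left (T.w_pos x2).ne'
    have R4 : T.w x2 * (2 * T.m x0 + -4 * T.m x4) = 0 := by linear_combination r4 - (T.m x0) * ea40 - (T.m x1) * z41 - (T.m x2) * z42 - (T.m x3) * z43 - (T.m x4) * ed4
    have S4 := (mul_eq_zero.1 R4).resolve_left (T.w_pos x2).ne'
    exfalso; linarith
  · -- (('S', 'L'), ('S', 'L'))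
    have ew0 : T.w x0 = 2 * T.w x2 := by omega
    have ew1 : T.w x1 = 2 * T.w x2 := by omega
    have ew2 : T.w x2 = 1 * T.w x2 := by omega
    have ew3 : T.w x3 = 2 * T.w x2 := by omega
    have ew4 : T.w x4 = 1 * T.w x2 := by omega
    have ea10 : T.a x1 x0 = 2 * T.w x2 := by omega
    have ea01 : T.a x0 x1 = 2 * T.w x2 := by rw [a_symm T]; omega
    have ea02 : T.a x0 x2 = 2 * T.w x2 := by omega
    have ea20 : T.a x2 x0 = 2 * T.w x2 := by rw [a_symm T]; omega
    have ea30 : T.a x3 x0 = 2 * T.w x2 := by omega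
    have ea03 : T.a x0 x3 = 2 * T.w x2 := by rw [a_symm T]; omega
    have ea04 : T.a x0 x4 = 2 * T.w x2 := by omega
    have ea40 : T.a x4 x0 = 2 * T.w x2 := by rw [a_symm T]; omega
    have ed0 : T.a x0 x0 = -4 * T.w x2 := by omega
    have ed1 : T.a x1 x1 = -4 * T.w x2 := by omega
    have ed2 : T.a x2 x2 = -2 * T.w x2 := by omega
    have ed3 : T.a x3 x3 = -4 * T.w x2 := by omega
    have ed4 : T.a x4 x4 = -2 * T.w x2 := by omega
    have R0 : T.w x2 * (-4 * T.m x0 + 2 * T.m x1 + 2 * T.m x2 + 2 * T.m x3 + 2 * T.m x4) = 0 := by linear_combination r0 - (T.m x0) * ed0 - (T.m x1) * ea01 - (T.m x2) * ea02 - (T.m x3) * ea03 - (T.m x4) * ea04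
    have S0 := (mul_eq_zero.1 R0).resolve_left (T.w_pos x2).ne'
    have R1 : T.w x2 * (2 * T.m x0 + -4 * T.m x1) = 0 := by linear_combination r1 - (T.m x0) * ea10 - (T.m x1) * ed1 - (T.m x2) * z12 - (T.m x3) * z13 - (T.m x4) * z14
    have S1 := (mul_eq_zero.1 R1).resolve_left (T.w_pos x2).ne'
    have R2 : T.w x2 * (2 * T.m x0 + -2 * T.m x2) = 0 := by linear_combination r2 - (T.m x0) * ea20 - (T.m x1) * z21 - (T.m x2) * ed2 - (T.m x3) * z23 - (T.m x4) * z24
    have S2 := (mul_eq_zero.1 R2).resolve_left (T.w_pos x2).ne'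
    have R3 : T.w x2 * (2 * T.m x0 + -4 * T.m x3) = 0 := by linear_combination r3 - (T.m x0) * ea30 - (T.m x1) * z31 - (T.m x2) * z32 - (T.m x3) * ed3 - (T.m x4) * z34
    have S3 := (mul_eq_zero.1 R3).resolve_left (T.w_pos x2).ne'
    have R4 : T.w x2 * (2 * T.m x0 + -2 * T.m x4) = 0 := by linear_combination r4 - (T.m x0) * ea40 - (T.m x1) * z41 - (T.m x2) * z42 - (T.m x3) * z43 - (T.m x4) * ed4
    have S4 := (mul_eq_zero.1 R4).resolve_left (T.w_pos x2).ne'
    exfalso; linarith
  · -- (('S', 'L'), ('S', 'R'))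
    have ew0 : T.w x0 = 2 * T.w x2 := by omega
    have ew1 : T.w x1 = 2 * T.w x2 := by omega
    have ew2 : T.w x2 = 1 * T.w x2 := by omega
    have ew3 : T.w x3 = 2 * T.w x2 := by omega
    have ew4 : T.w x4 = 4 * T.w x2 := by omega
    have ea10 : T.a x1 x0 = 2 * T.w x2 := by omega
    have ea01 : T.a x0 x1 = 2 * T.w x2 := by rw [a_symm T]; omega
    have ea02 : T.a x0 x2 = 2 * T.w x2 := by omega
    have ea20 : T.a x2 x0 = 2 * T.w x2 := by rw [a_symm T]; omega
    have ea30 : T.a x3 x0 = 2 * T.w x2 := by omega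
    have ea03 : T.a x0 x3 = 2 * T.w x2 := by rw [a_symm T]; omega
    have ea04 : T.a x0 x4 = 4 * T.w x2 := by omega
    have ea40 : T.a x4 x0 = 4 * T.w x2 := by rw [a_symm T]; omega
    have ed0 : T.a x0 x0 = -4 * T.w x2 := by omega
    have ed1 : T.a x1 x1 = -4 * T.w x2 := by omega
    have ed2 : T.a x2 x2 = -2 * T.w x2 := by omega
    have ed3 : T.a x3 x3 = -4 * T.w x2 := by omega
    have ed4 : T.a x4 x4 = -8 * T.w x2 := by omega
    have R0 : T.w x2 * (-4 * T.m x0 + 2 * T.m x1 + 2 * T.m x2 + 2 * T.m x3 + 4 * T.m x4) = 0 := by linear_combination r0 - (T.m x0) * ed0 - (T.m x1) * ea01 - (T.m x2) * ea02 - (T.m x3) * ea03 - (T.m x4) * ea04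
    have S0 := (mul_eq_zero.1 R0).resolve_left (T.w_pos x2).ne'
    have R1 : T.w x2 * (2 * T.m x0 + -4 * T.m x1) = 0 := by linear_combination r1 - (T.m x0) * ea10 - (T.m x1) * ed1 - (T.m x2) * z12 - (T.m x3) * z13 - (T.m x4) * z14
    have S1 := (mul_eq_zero.1 R1).resolve_left (T.w_pos x2).ne'
    have R2 : T.w x2 * (2 * T.m x0 + -2 * T.m x2) = 0 := by linear_combination r2 - (T.m x0) * ea20 - (T.m x1) * z21 - (T.m x2) * ed2 - (T.m x3) * z23 - (T.m x4) * z24
    have S2 := (mul_eq_zero.1 R2).resolve_left (T.w_pos x2).ne'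
    have R3 : T.w x2 * (2 * T.m x0 + -4 * T.m x3) = 0 := by linear_combination r3 - (T.m x0) * ea30 - (T.m x1) * z31 - (T.m x2) * z32 - (T.m x3) * ed3 - (T.m x4) * z34
    have S3 := (mul_eq_zero.1 R3).resolve_left (T.w_pos x2).ne'
    have R4 : T.w x2 * (4 * T.m x0 + -8 * T.m x4) = 0 := by linear_combination r4 - (T.m x0) * ea40 - (T.m x1) * z41 - (T.m x2) * z42 - (T.m x3) * z43 - (T.m x4) * ed4
    have S4 := (mul_eq_zero.1 R4).resolve_left (T.w_pos x2).ne'
    exfalso; linarith
  · -- (('S', 'L'), ('L', 'S'))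
    have ew0 : T.w x0 = 2 * T.w x2 := by omega
    have ew1 : T.w x1 = 2 * T.w x2 := by omega
    have ew2 : T.w x2 = 1 * T.w x2 := by omega
    have ew3 : T.w x3 = 4 * T.w x2 := by omega
    have ew4 : T.w x4 = 2 * T.w x2 := by omega
    have ea10 : T.a x1 x0 = 2 * T.w x2 := by omega
    have ea01 : T.a x0 x1 = 2 * T.w x2 := by rw [a_symm T]; omega
    have ea02 : T.a x0 x2 = 2 * T.w x2 := by omega
    have ea20 : T.a x2 x0 = 2 * T.w x2 := by rw [a_symm T]; omega
    have ea30 : T.a x3 x0 = 4 * T.w x2 := by omega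
    have ea03 : T.a x0 x3 = 4 * T.w x2 := by rw [a_symm T]; omega
    have ea04 : T.a x0 x4 = 2 * T.w x2 := by omega
    have ea40 : T.a x4 x0 = 2 * T.w x2 := by rw [a_symm T]; omega
    have ed0 : T.a x0 x0 = -4 * T.w x2 := by omega
    have ed1 : T.a x1 x1 = -4 * T.w x2 := by omega
    have ed2 : T.a x2 x2 = -2 * T.w x2 := by omega
    have ed3 : T.a x3 x3 = -8 * T.w x2 := by omega
    have ed4 : T.a x4 x4 = -4 * T.w x2 := by omega
    have R0 : T.w x2 * (-4 * T.m x0 + 2 * T.m x1 + 2 * T.m x2 + 4 * T.m x3 + 2 * T.m x4) = 0 := by linear_combination r0 - (T.m x0) * ed0 - (T.m x1) * ea01 - (T.m x2) * ea02 - (T.m x3) * ea03 - (T.m x4) * ea04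
    have S0 := (mul_eq_zero.1 R0).resolve_left (T.w_pos x2).ne'
    have R1 : T.w x2 * (2 * T.m x0 + -4 * T.m x1) = 0 := by linear_combination r1 - (T.m x0) * ea10 - (T.m x1) * ed1 - (T.m x2) * z12 - (T.m x3) * z13 - (T.m x4) * z14
    have S1 := (mul_eq_zero.1 R1).resolve_left (T.w_pos x2).ne'
    have R2 : T.w x2 * (2 * T.m x0 + -2 * T.m x2) = 0 := by linear_combination r2 - (T.m x0) * ea20 - (T.m x1) * z21 - (T.m x2) * ed2 - (T.m x3) * z23 - (T.m x4) * z24
    have S2 := (mul_eq_zero.1 R2).resolve_left (T.w_pos x2).ne'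
    have R3 : T.w x2 * (4 * T.m x0 + -8 * T.m x3) = 0 := by linear_combination r3 - (T.m x0) * ea30 - (T.m x1) * z31 - (T.m x2) * z32 - (T.m x3) * ed3 - (T.m x4) * z34
    have S3 := (mul_eq_zero.1 R3).resolve_left (T.w_pos x2).ne'
    have R4 : T.w x2 * (2 * T.m x0 + -4 * T.m x4) = 0 := by linear_combination r4 - (T.m x0) * ea40 - (T.m x1) * z41 - (T.m x2) * z42 - (T.m x3) * z43 - (T.m x4) * ed4
    have S4 := (mul_eq_zero.1 R4).resolve_left (T.w_pos x2).ne'
    exfalso; linarith
  · -- (('S', 'L'), ('R', 'S'))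
    have ew0 : T.w x0 = 2 * T.w x2 := by omega
    have ew1 : T.w x1 = 2 * T.w x2 := by omega
    have ew2 : T.w x2 = 1 * T.w x2 := by omega
    have ew3 : T.w x3 = 1 * T.w x2 := by omega
    have ew4 : T.w x4 = 2 * T.w x2 := by omega
    have ea10 : T.a x1 x0 = 2 * T.w x2 := by omega
    have ea01 : T.a x0 x1 = 2 * T.w x2 := by rw [a_symm T]; omega
    have ea02 : T.a x0 x2 = 2 * T.w x2 := by omega
    have ea20 : T.a x2 x0 = 2 * T.w x2 := by rw [a_symm T]; omega
    have ea30 : T.a x3 x0 = 2 * T.w x2 := by omega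
    have ea03 : T.a x0 x3 = 2 * T.w x2 := by rw [a_symm T]; omega
    have ea04 : T.a x0 x4 = 2 * T.w x2 := by omega
    have ea40 : T.a x4 x0 = 2 * T.w x2 := by rw [a_symm T]; omega
    have ed0 : T.a x0 x0 = -4 * T.w x2 := by omega
    have ed1 : T.a x1 x1 = -4 * T.w x2 := by omega
    have ed2 : T.a x2 x2 = -2 * T.w x2 := by omega
    have ed3 : T.a x3 x3 = -2 * T.w x2 := by omega
    have ed4 : T.a x4 x4 = -4 * T.w x2 := by omega
    have R0 : T.w x2 * (-4 * T.m x0 + 2 * T.m x1 + 2 * T.m x2 + 2 * T.m x3 + 2 * T.m x4) = 0 := by linear_combination r0 - (T.m x0) * ed0 - (T.m x1) * ea01 - (T.m x2) * ea02 - (T.m x3) * ea03 - (T.m x4) * ea04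
    have S0 := (mul_eq_zero.1 R0).resolve_left (T.w_pos x2).ne'
    have R1 : T.w x2 * (2 * T.m x0 + -4 * T.m x1) = 0 := by linear_combination r1 - (T.m x0) * ea10 - (T.m x1) * ed1 - (T.m x2) * z12 - (T.m x3) * z13 - (T.m x4) * z14
    have S1 := (mul_eq_zero.1 R1).resolve_left (T.w_pos x2).ne'
    have R2 : T.w x2 * (2 * T.m x0 + -2 * T.m x2) = 0 := by linear_combination r2 - (T.m x0) * ea20 - (T.m x1) * z21 - (T.m x2) * ed2 - (T.m x3) * z23 - (T.m x4) * z24
    have S2 := (mul_eq_zero.1 R2).resolve_left (T.w_pos x2).ne'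
    have R3 : T.w x2 * (2 * T.m x0 + -2 * T.m x3) = 0 := by linear_combination r3 - (T.m x0) * ea30 - (T.m x1) * z31 - (T.m x2) * z32 - (T.m x3) * ed3 - (T.m x4) * z34
    have S3 := (mul_eq_zero.1 R3).resolve_left (T.w_pos x2).ne'
    have R4 : T.w x2 * (2 * T.m x0 + -4 * T.m x4) = 0 := by linear_combination r4 - (T.m x0) * ea40 - (T.m x1) * z41 - (T.m x2) * z42 - (T.m x3) * z43 - (T.m x4) * ed4
    have S4 := (mul_eq_zero.1 R4).resolve_left (T.w_pos x2).ne'
    exfalso; linarith
  · -- (('S', 'R'), ('S', 'S'))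
    have ew0 : T.w x0 = 1 * T.w x0 := by omega
    have ew1 : T.w x1 = 1 * T.w x0 := by omega
    have ew2 : T.w x2 = 2 * T.w x0 := by omega
    have ew3 : T.w x3 = 1 * T.w x0 := by omega
    have ew4 : T.w x4 = 1 * T.w x0 := by omega
    have ea10 : T.a x1 x0 = 1 * T.w x0 := by omega
    have ea01 : T.a x0 x1 = 1 * T.w x0 := by rw [a_symm T]; omega
    have ea02 : T.a x0 x2 = 2 * T.w x0 := by omega
    have ea20 : T.a x2 x0 = 2 * T.w x0 := by rw [a_symm T]; omega
    have ea30 : T.a x3 x0 = 1 * T.w x0 := by omega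
    have ea03 : T.a x0 x3 = 1 * T.w x0 := by rw [a_symm T]; omega
    have ea04 : T.a x0 x4 = 1 * T.w x0 := by omega
    have ea40 : T.a x4 x0 = 1 * T.w x0 := by rw [a_symm T]; omega
    have ed0 : T.a x0 x0 = -2 * T.w x0 := by omega
    have ed1 : T.a x1 x1 = -2 * T.w x0 := by omega
    have ed2 : T.a x2 x2 = -4 * T.w x0 := by omega
    have ed3 : T.a x3 x3 = -2 * T.w x0 := by omega
    have ed4 : T.a x4 x4 = -2 * T.w x0 := by omega
    have R0 : T.w x0 * (-2 * T.m x0 + 1 * T.m x1 + 2 * T.m x2 + 1 * T.m x3 + 1 * T.m x4) = 0 := by linear_combination r0 - (T.m x0) * ed0 - (T.m x1) * ea01 - (T.m x2) * ea02 - (T.m x3) * ea03 - (T.m x4) * ea04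
    have S0 := (mul_eq_zero.1 R0).resolve_left (T.w_pos x0).ne'
    have R1 : T.w x0 * (1 * T.m x0 + -2 * T.m x1) = 0 := by linear_combination r1 - (T.m x0) * ea10 - (T.m x1) * ed1 - (T.m x2) * z12 - (T.m x3) * z13 - (T.m x4) * z14
    have S1 := (mul_eq_zero.1 R1).resolve_left (T.w_pos x0).ne'
    have R2 : T.w x0 * (2 * T.m x0 + -4 * T.m x2) = 0 := by linear_combination r2 - (T.m x0) * ea20 - (T.m x1) * z21 - (T.m x2) * ed2 - (T.m x3) * z23 - (T.m x4) * z24
    have S2 := (mul_eq_zero.1 R2).resolve_left (T.w_pos x0).ne'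
    have R3 : T.w x0 * (1 * T.m x0 + -2 * T.m x3) = 0 := by linear_combination r3 - (T.m x0) * ea30 - (T.m x1) * z31 - (T.m x2) * z32 - (T.m x3) * ed3 - (T.m x4) * z34
    have S3 := (mul_eq_zero.1 R3).resolve_left (T.w_pos x0).ne'
    have R4 : T.w x0 * (1 * T.m x0 + -2 * T.m x4) = 0 := by linear_combination r4 - (T.m x0) * ea40 - (T.m x1) * z41 - (T.m x2) * z42 - (T.m x3) * z43 - (T.m x4) * ed4
    have S4 := (mul_eq_zero.1 R4).resolve_left (T.w_pos x0).ne'
    exfalso; linarith
  · -- (('S', 'R'), ('S', 'L'))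
    have ew0 : T.w x0 = 2 * T.w x4 := by omega
    have ew1 : T.w x1 = 2 * T.w x4 := by omega
    have ew2 : T.w x2 = 4 * T.w x4 := by omega
    have ew3 : T.w x3 = 2 * T.w x4 := by omega
    have ew4 : T.w x4 = 1 * T.w x4 := by omega
    have ea10 : T.a x1 x0 = 2 * T.w x4 := by omega
    have ea01 : T.a x0 x1 = 2 * T.w x4 := by rw [a_symm T]; omega
    have ea02 : T.a x0 x2 = 4 * T.w x4 := by omega
    have ea20 : T.a x2 x0 = 4 * T.w x4 := by rw [a_symm T]; omega
    have ea30 : T.a x3 x0 = 2 * T.w x4 := by omega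
    have ea03 : T.a x0 x3 = 2 * T.w x4 := by rw [a_symm T]; omega
    have ea04 : T.a x0 x4 = 2 * T.w x4 := by omega
    have ea40 : T.a x4 x0 = 2 * T.w x4 := by rw [a_symm T]; omega
    have ed0 : T.a x0 x0 = -4 * T.w x4 := by omega
    have ed1 : T.a x1 x1 = -4 * T.w x4 := by omega
    have ed2 : T.a x2 x2 = -8 * T.w x4 := by omega
    have ed3 : T.a x3 x3 = -4 * T.w x4 := by omega
    have ed4 : T.a x4 x4 = -2 * T.w x4 := by omega
    have R0 : T.w x4 * (-4 * T.m x0 + 2 * T.m x1 + 4 * T.m x2 + 2 * T.m x3 + 2 * T.m x4) = 0 := by linear_combination r0 - (T.m x0) * ed0 - (T.m x1) * ea01 - (T.m x2) * ea02 - (T.m x3) * ea03 - (T.m x4) * ea04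
    have S0 := (mul_eq_zero.1 R0).resolve_left (T.w_pos x4).ne'
    have R1 : T.w x4 * (2 * T.m x0 + -4 * T.m x1) = 0 := by linear_combination r1 - (T.m x0) * ea10 - (T.m x1) * ed1 - (T.m x2) * z12 - (T.m x3) * z13 - (T.m x4) * z14
    have S1 := (mul_eq_zero.1 R1).resolve_left (T.w_pos x4).ne'
    have R2 : T.w x4 * (4 * T.m x0 + -8 * T.m x2) = 0 := by linear_combination r2 - (T.m x0) * ea20 - (T.m x1) * z21 - (T.m x2) * ed2 - (T.m x3) * z23 - (T.m x4) * z24
    have S2 := (mul_eq_zero.1 R2).resolve_left (T.w_pos x4).ne'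
    have R3 : T.w x4 * (2 * T.m x0 + -4 * T.m x3) = 0 := by linear_combination r3 - (T.m x0) * ea30 - (T.m x1) * z31 - (T.m x2) * z32 - (T.m x3) * ed3 - (T.m x4) * z34
    have S3 := (mul_eq_zero.1 R3).resolve_left (T.w_pos x4).ne'
    have R4 : T.w x4 * (2 * T.m x0 + -2 * T.m x4) = 0 := by linear_combination r4 - (T.m x0) * ea40 - (T.m x1) * z41 - (T.m x2) * z42 - (T.m x3) * z43 - (T.m x4) * ed4
    have S4 := (mul_eq_zero.1 R4).resolve_left (T.w_pos x4).ne'
    exfalso; linarith
  · -- (('S', 'R'), ('S', 'R'))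
    have ew0 : T.w x0 = 1 * T.w x0 := by omega
    have ew1 : T.w x1 = 1 * T.w x0 := by omega
    have ew2 : T.w x2 = 2 * T.w x0 := by omega
    have ew3 : T.w x3 = 1 * T.w x0 := by omega
    have ew4 : T.w x4 = 2 * T.w x0 := by omega
    have ea10 : T.a x1 x0 = 1 * T.w x0 := by omega
    have ea01 : T.a x0 x1 = 1 * T.w x0 := by rw [a_symm T]; omega
    have ea02 : T.a x0 x2 = 2 * T.w x0 := by omega
    have ea20 : T.a x2 x0 = 2 * T.w x0 := by rw [a_symm T]; omega
    have ea30 : T.a x3 x0 = 1 * T.w x0 := by omega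
    have ea03 : T.a x0 x3 = 1 * T.w x0 := by rw [a_symm T]; omega
    have ea04 : T.a x0 x4 = 2 * T.w x0 := by omega
    have ea40 : T.a x4 x0 = 2 * T.w x0 := by rw [a_symm T]; omega
    have ed0 : T.a x0 x0 = -2 * T.w x0 := by omega
    have ed1 : T.a x1 x1 = -2 * T.w x0 := by omega
    have ed2 : T.a x2 x2 = -4 * T.w x0 := by omega
    have ed3 : T.a x3 x3 = -2 * T.w x0 := by omega
    have ed4 : T.a x4 x4 = -4 * T.w x0 := by omega
    have R0 : T.w x0 * (-2 * T.m x0 + 1 * T.m x1 + 2 * T.m x2 + 1 * T.m x3 + 2 * T.m x4) = 0 := by linear_combination r0 - (T.m x0) * ed0 - (T.m x1) * ea01 - (T.m x2) * ea02 - (T.m x3) * ea03 - (T.m x4) * ea04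
    have S0 := (mul_eq_zero.1 R0).resolve_left (T.w_pos x0).ne'
    have R1 : T.w x0 * (1 * T.m x0 + -2 * T.m x1) = 0 := by linear_combination r1 - (T.m x0) * ea10 - (T.m x1) * ed1 - (T.m x2) * z12 - (T.m x3) * z13 - (T.m x4) * z14
    have S1 := (mul_eq_zero.1 R1).resolve_left (T.w_pos x0).ne'
    have R2 : T.w x0 * (2 * T.m x0 + -4 * T.m x2) = 0 := by linear_combination r2 - (T.m x0) * ea20 - (T.m x1) * z21 - (T.m x2) * ed2 - (T.m x3) * z23 - (T.m x4) * z24
    have S2 := (mul_eq_zero.1 R2).resolve_left (T.w_pos x0).ne'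
    have R3 : T.w x0 * (1 * T.m x0 + -2 * T.m x3) = 0 := by linear_combination r3 - (T.m x0) * ea30 - (T.m x1) * z31 - (T.m x2) * z32 - (T.m x3) * ed3 - (T.m x4) * z34
    have S3 := (mul_eq_zero.1 R3).resolve_left (T.w_pos x0).ne'
    have R4 : T.w x0 * (2 * T.m x0 + -4 * T.m x4) = 0 := by linear_combination r4 - (T.m x0) * ea40 - (T.m x1) * z41 - (T.m x2) * z42 - (T.m x3) * z43 - (T.m x4) * ed4
    have S4 := (mul_eq_zero.1 R4).resolve_left (T.w_pos x0).ne'
    exfalso; linarith
  · -- (('S', 'R'), ('L', 'S'))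
    have ew0 : T.w x0 = 1 * T.w x0 := by omega
    have ew1 : T.w x1 = 1 * T.w x0 := by omega
    have ew2 : T.w x2 = 2 * T.w x0 := by omega
    have ew3 : T.w x3 = 2 * T.w x0 := by omega
    have ew4 : T.w x4 = 1 * T.w x0 := by omega
    have ea10 : T.a x1 x0 = 1 * T.w x0 := by omega
    have ea01 : T.a x0 x1 = 1 * T.w x0 := by rw [a_symm T]; omega
    have ea02 : T.a x0 x2 = 2 * T.w x0 := by omega
    have ea20 : T.a x2 x0 = 2 * T.w x0 := by rw [a_symm T]; omega
    have ea30 : T.a x3 x0 = 2 * T.w x0 := by omega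
    have ea03 : T.a x0 x3 = 2 * T.w x0 := by rw [a_symm T]; omega
    have ea04 : T.a x0 x4 = 1 * T.w x0 := by omega
    have ea40 : T.a x4 x0 = 1 * T.w x0 := by rw [a_symm T]; omega
    have ed0 : T.a x0 x0 = -2 * T.w x0 := by omega
    have ed1 : T.a x1 x1 = -2 * T.w x0 := by omega
    have ed2 : T.a x2 x2 = -4 * T.w x0 := by omega
    have ed3 : T.a x3 x3 = -4 * T.w x0 := by omega
    have ed4 : T.a x4 x4 = -2 * T.w x0 := by omega
    have R0 : T.w x0 * (-2 * T.m x0 + 1 * T.m x1 + 2 * T.m x2 + 2 * T.m x3 + 1 * T.m x4) = 0 := by linear_combination r0 - (T.m x0) * ed0 - (T.m x1) * ea01 - (T.m x2) * ea02 - (T.m x3) * ea03 - (T.m x4) * ea04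
    have S0 := (mul_eq_zero.1 R0).resolve_left (T.w_pos x0).ne'
    have R1 : T.w x0 * (1 * T.m x0 + -2 * T.m x1) = 0 := by linear_combination r1 - (T.m x0) * ea10 - (T.m x1) * ed1 - (T.m x2) * z12 - (T.m x3) * z13 - (T.m x4) * z14
    have S1 := (mul_eq_zero.1 R1).resolve_left (T.w_pos x0).ne'
    have R2 : T.w x0 * (2 * T.m x0 + -4 * T.m x2) = 0 := by linear_combination r2 - (T.m x0) * ea20 - (T.m x1) * z21 - (T.m x2) * ed2 - (T.m x3) * z23 - (T.m x4) * z24
    have S2 := (mul_eq_zero.1 R2).resolve_left (T.w_pos x0).ne'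
    have R3 : T.w x0 * (2 * T.m x0 + -4 * T.m x3) = 0 := by linear_combination r3 - (T.m x0) * ea30 - (T.m x1) * z31 - (T.m x2) * z32 - (T.m x3) * ed3 - (T.m x4) * z34
    have S3 := (mul_eq_zero.1 R3).resolve_left (T.w_pos x0).ne'
    have R4 : T.w x0 * (1 * T.m x0 + -2 * T.m x4) = 0 := by linear_combination r4 - (T.m x0) * ea40 - (T.m x1) * z41 - (T.m x2) * z42 - (T.m x3) * z43 - (T.m x4) * ed4
    have S4 := (mul_eq_zero.1 R4).resolve_left (T.w_pos x0).ne'
    exfalso; linarith
  · -- (('S', 'R'), ('R', 'S'))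
    have ew0 : T.w x0 = 2 * T.w x3 := by omega
    have ew1 : T.w x1 = 2 * T.w x3 := by omega
    have ew2 : T.w x2 = 4 * T.w x3 := by omega
    have ew3 : T.w x3 = 1 * T.w x3 := by omega
    have ew4 : T.w x4 = 2 * T.w x3 := by omega
    have ea10 : T.a x1 x0 = 2 * T.w x3 := by omega
    have ea01 : T.a x0 x1 = 2 * T.w x3 := by rw [a_symm T]; omega
    have ea02 : T.a x0 x2 = 4 * T.w x3 := by omega
    have ea20 : T.a x2 x0 = 4 * T.w x3 := by rw [a_symm T]; omega
    have ea30 : T.a x3 x0 = 2 * T.w x3 := by omega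
    have ea03 : T.a x0 x3 = 2 * T.w x3 := by rw [a_symm T]; omega
    have ea04 : T.a x0 x4 = 2 * T.w x3 := by omega
    have ea40 : T.a x4 x0 = 2 * T.w x3 := by rw [a_symm T]; omega
    have ed0 : T.a x0 x0 = -4 * T.w x3 := by omega
    have ed1 : T.a x1 x1 = -4 * T.w x3 := by omega
    have ed2 : T.a x2 x2 = -8 * T.w x3 := by omega
    have ed3 : T.a x3 x3 = -2 * T.w x3 := by omega
    have ed4 : T.a x4 x4 = -4 * T.w x3 := by omega
    have R0 : T.w x3 * (-4 * T.m x0 + 2 * T.m x1 + 4 * T.m x2 + 2 * T.m x3 + 2 * T.m x4) = 0 := by linear_combination r0 - (T.m x0) * ed0 - (T.m x1) * ea01 - (T.m x2) * ea02 - (T.m x3) * ea03 - (T.m x4) * ea04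
    have S0 := (mul_eq_zero.1 R0).resolve_left (T.w_pos x3).ne'
    have R1 : T.w x3 * (2 * T.m x0 + -4 * T.m x1) = 0 := by linear_combination r1 - (T.m x0) * ea10 - (T.m x1) * ed1 - (T.m x2) * z12 - (T.m x3) * z13 - (T.m x4) * z14
    have S1 := (mul_eq_zero.1 R1).resolve_left (T.w_pos x3).ne'
    have R2 : T.w x3 * (4 * T.m x0 + -8 * T.m x2) = 0 := by linear_combination r2 - (T.m x0) * ea20 - (T.m x1) * z21 - (T.m x2) * ed2 - (T.m x3) * z23 - (T.m x4) * z24
    have S2 := (mul_eq_zero.1 R2).resolve_left (T.w_pos x3).ne'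
    have R3 : T.w x3 * (2 * T.m x0 + -2 * T.m x3) = 0 := by linear_combination r3 - (T.m x0) * ea30 - (T.m x1) * z31 - (T.m x2) * z32 - (T.m x3) * ed3 - (T.m x4) * z34
    have S3 := (mul_eq_zero.1 R3).resolve_left (T.w_pos x3).ne'
    have R4 : T.w x3 * (2 * T.m x0 + -4 * T.m x4) = 0 := by linear_combination r4 - (T.m x0) * ea40 - (T.m x1) * z41 - (T.m x2) * z42 - (T.m x3) * z43 - (T.m x4) * ed4
    have S4 := (mul_eq_zero.1 R4).resolve_left (T.w_pos x3).ne'
    exfalso; linarith
  · -- (('L', 'S'), ('S', 'S'))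
    have ew0 : T.w x0 = 1 * T.w x0 := by omega
    have ew1 : T.w x1 = 2 * T.w x0 := by omega
    have ew2 : T.w x2 = 1 * T.w x0 := by omega
    have ew3 : T.w x3 = 1 * T.w x0 := by omega
    have ew4 : T.w x4 = 1 * T.w x0 := by omega
    have ea10 : T.a x1 x0 = 2 * T.w x0 := by omega
    have ea01 : T.a x0 x1 = 2 * T.w x0 := by rw [a_symm T]; omega
    have ea02 : T.a x0 x2 = 1 * T.w x0 := by omega
    have ea20 : T.a x2 x0 = 1 * T.w x0 := by rw [a_symm T]; omega
    have ea30 : T.a x3 x0 = 1 * T.w x0 := by omega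
    have ea03 : T.a x0 x3 = 1 * T.w x0 := by rw [a_symm T]; omega
    have ea04 : T.a x0 x4 = 1 * T.w x0 := by omega
    have ea40 : T.a x4 x0 = 1 * T.w x0 := by rw [a_symm T]; omega
    have ed0 : T.a x0 x0 = -2 * T.w x0 := by omega
    have ed1 : T.a x1 x1 = -4 * T.w x0 := by omega
    have ed2 : T.a x2 x2 = -2 * T.w x0 := by omega
    have ed3 : T.a x3 x3 = -2 * T.w x0 := by omega
    have ed4 : T.a x4 x4 = -2 * T.w x0 := by omega
    have R0 : T.w x0 * (-2 * T.m x0 + 2 * T.m x1 + 1 * T.m x2 + 1 * T.m x3 + 1 * T.m x4) = 0 := by linear_combination r0 - (T.m x0) * ed0 - (T.m x1) * ea01 - (T.m x2) * ea02 - (T.m x3) * ea03 - (T.m x4) * ea04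
    have S0 := (mul_eq_zero.1 R0).resolve_left (T.w_pos x0).ne'
    have R1 : T.w x0 * (2 * T.m x0 + -4 * T.m x1) = 0 := by linear_combination r1 - (T.m x0) * ea10 - (T.m x1) * ed1 - (T.m x2) * z12 - (T.m x3) * z13 - (T.m x4) * z14
    have S1 := (mul_eq_zero.1 R1).resolve_left (T.w_pos x0).ne'
    have R2 : T.w x0 * (1 * T.m x0 + -2 * T.m x2) = 0 := by linear_combination r2 - (T.m x0) * ea20 - (T.m x1) * z21 - (T.m x2) * ed2 - (T.m x3) * z23 - (T.m x4) * z24
    have S2 := (mul_eq_zero.1 R2).resolve_left (T.w_pos x0).ne'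
    have R3 : T.w x0 * (1 * T.m x0 + -2 * T.m x3) = 0 := by linear_combination r3 - (T.m x0) * ea30 - (T.m x1) * z31 - (T.m x2) * z32 - (T.m x3) * ed3 - (T.m x4) * z34
    have S3 := (mul_eq_zero.1 R3).resolve_left (T.w_pos x0).ne'
    have R4 : T.w x0 * (1 * T.m x0 + -2 * T.m x4) = 0 := by linear_combination r4 - (T.m x0) * ea40 - (T.m x1) * z41 - (T.m x2) * z42 - (T.m x3) * z43 - (T.m x4) * ed4
    have S4 := (mul_eq_zero.1 R4).resolve_left (T.w_pos x0).ne'
    exfalso; linarith
  · -- (('L', 'S'), ('S', 'L'))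
    have ew0 : T.w x0 = 2 * T.w x4 := by omega
    have ew1 : T.w x1 = 4 * T.w x4 := by omega
    have ew2 : T.w x2 = 2 * T.w x4 := by omega
    have ew3 : T.w x3 = 2 * T.w x4 := by omega
    have ew4 : T.w x4 = 1 * T.w x4 := by omega
    have ea10 : T.a x1 x0 = 4 * T.w x4 := by omega
    have ea01 : T.a x0 x1 = 4 * T.w x4 := by rw [a_symm T]; omega
    have ea02 : T.a x0 x2 = 2 * T.w x4 := by omega
    have ea20 : T.a x2 x0 = 2 * T.w x4 := by rw [a_symm T]; omega
    have ea30 : T.a x3 x0 = 2 * T.w x4 := by omega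
    have ea03 : T.a x0 x3 = 2 * T.w x4 := by rw [a_symm T]; omega
    have ea04 : T.a x0 x4 = 2 * T.w x4 := by omega
    have ea40 : T.a x4 x0 = 2 * T.w x4 := by rw [a_symm T]; omega
    have ed0 : T.a x0 x0 = -4 * T.w x4 := by omega
    have ed1 : T.a x1 x1 = -8 * T.w x4 := by omega
    have ed2 : T.a x2 x2 = -4 * T.w x4 := by omega
    have ed3 : T.a x3 x3 = -4 * T.w x4 := by omega
    have ed4 : T.a x4 x4 = -2 * T.w x4 := by omega
    have R0 : T.w x4 * (-4 * T.m x0 + 4 * T.m x1 + 2 * T.m x2 + 2 * T.m x3 + 2 * T.m x4) = 0 := by linear_combination r0 - (T.m x0) * ed0 - (T.m x1) * ea01 - (T.m x2) * ea02 - (T.m x3) * ea03 - (T.m x4) * ea04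
    have S0 := (mul_eq_zero.1 R0).resolve_left (T.w_pos x4).ne'
    have R1 : T.w x4 * (4 * T.m x0 + -8 * T.m x1) = 0 := by linear_combination r1 - (T.m x0) * ea10 - (T.m x1) * ed1 - (T.m x2) * z12 - (T.m x3) * z13 - (T.m x4) * z14
    have S1 := (mul_eq_zero.1 R1).resolve_left (T.w_pos x4).ne'
    have R2 : T.w x4 * (2 * T.m x0 + -4 * T.m x2) = 0 := by linear_combination r2 - (T.m x0) * ea20 - (T.m x1) * z21 - (T.m x2) * ed2 - (T.m x3) * z23 - (T.m x4) * z24
    have S2 := (mul_eq_zero.1 R2).resolve_left (T.w_pos x4).ne'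
    have R3 : T.w x4 * (2 * T.m x0 + -4 * T.m x3) = 0 := by linear_combination r3 - (T.m x0) * ea30 - (T.m x1) * z31 - (T.m x2) * z32 - (T.m x3) * ed3 - (T.m x4) * z34
    have S3 := (mul_eq_zero.1 R3).resolve_left (T.w_pos x4).ne'
    have R4 : T.w x4 * (2 * T.m x0 + -2 * T.m x4) = 0 := by linear_combination r4 - (T.m x0) * ea40 - (T.m x1) * z41 - (T.m x2) * z42 - (T.m x3) * z43 - (T.m x4) * ed4
    have S4 := (mul_eq_zero.1 R4).resolve_left (T.w_pos x4).ne'
    exfalso; linarith
  · -- (('L', 'S'), ('S', 'R'))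
    have ew0 : T.w x0 = 1 * T.w x0 := by omega
    have ew1 : T.w x1 = 2 * T.w x0 := by omega
    have ew2 : T.w x2 = 1 * T.w x0 := by omega
    have ew3 : T.w x3 = 1 * T.w x0 := by omega
    have ew4 : T.w x4 = 2 * T.w x0 := by omega
    have ea10 : T.a x1 x0 = 2 * T.w x0 := by omega
    have ea01 : T.a x0 x1 = 2 * T.w x0 := by rw [a_symm T]; omega
    have ea02 : T.a x0 x2 = 1 * T.w x0 := by omega
    have ea20 : T.a x2 x0 = 1 * T.w x0 := by rw [a_symm T]; omega
    have ea30 : T.a x3 x0 = 1 * T.w x0 := by omega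
    have ea03 : T.a x0 x3 = 1 * T.w x0 := by rw [a_symm T]; omega
    have ea04 : T.a x0 x4 = 2 * T.w x0 := by omega
    have ea40 : T.a x4 x0 = 2 * T.w x0 := by rw [a_symm T]; omega
    have ed0 : T.a x0 x0 = -2 * T.w x0 := by omega
    have ed1 : T.a x1 x1 = -4 * T.w x0 := by omega
    have ed2 : T.a x2 x2 = -2 * T.w x0 := by omega
    have ed3 : T.a x3 x3 = -2 * T.w x0 := by omega
    have ed4 : T.a x4 x4 = -4 * T.w x0 := by omega
    have R0 : T.w x0 * (-2 * T.m x0 + 2 * T.m x1 + 1 * T.m x2 + 1 * T.m x3 + 2 * T.m x4) = 0 := by linear_combination r0 - (T.m x0) * ed0 - (T.m x1) * ea01 - (T.m x2) * ea02 - (T.m x3) * ea03 - (T.m x4) * ea04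
    have S0 := (mul_eq_zero.1 R0).resolve_left (T.w_pos x0).ne'
    have R1 : T.w x0 * (2 * T.m x0 + -4 * T.m x1) = 0 := by linear_combination r1 - (T.m x0) * ea10 - (T.m x1) * ed1 - (T.m x2) * z12 - (T.m x3) * z13 - (T.m x4) * z14
    have S1 := (mul_eq_zero.1 R1).resolve_left (T.w_pos x0).ne'
    have R2 : T.w x0 * (1 * T.m x0 + -2 * T.m x2) = 0 := by linear_combination r2 - (T.m x0) * ea20 - (T.m x1) * z21 - (T.m x2) * ed2 - (T.m x3) * z23 - (T.m x4) * z24
    have S2 := (mul_eq_zero.1 R2).resolve_left (T.w_pos x0).ne'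
    have R3 : T.w x0 * (1 * T.m x0 + -2 * T.m x3) = 0 := by linear_combination r3 - (T.m x0) * ea30 - (T.m x1) * z31 - (T.m x2) * z32 - (T.m x3) * ed3 - (T.m x4) * z34
    have S3 := (mul_eq_zero.1 R3).resolve_left (T.w_pos x0).ne'
    have R4 : T.w x0 * (2 * T.m x0 + -4 * T.m x4) = 0 := by linear_combination r4 - (T.m x0) * ea40 - (T.m x1) * z41 - (T.m x2) * z42 - (T.m x3) * z43 - (T.m x4) * ed4
    have S4 := (mul_eq_zero.1 R4).resolve_left (T.w_pos x0).ne'
    exfalso; linarith
  · -- (('L', 'S'), ('L', 'S'))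
    have ew0 : T.w x0 = 1 * T.w x0 := by omega
    have ew1 : T.w x1 = 2 * T.w x0 := by omega
    have ew2 : T.w x2 = 1 * T.w x0 := by omega
    have ew3 : T.w x3 = 2 * T.w x0 := by omega
    have ew4 : T.w x4 = 1 * T.w x0 := by omega
    have ea10 : T.a x1 x0 = 2 * T.w x0 := by omega
    have ea01 : T.a x0 x1 = 2 * T.w x0 := by rw [a_symm T]; omega
    have ea02 : T.a x0 x2 = 1 * T.w x0 := by omega
    have ea20 : T.a x2 x0 = 1 * T.w x0 := by rw [a_symm T]; omega
    have ea30 : T.a x3 x0 = 2 * T.w x0 := by omega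
    have ea03 : T.a x0 x3 = 2 * T.w x0 := by rw [a_symm T]; omega
    have ea04 : T.a x0 x4 = 1 * T.w x0 := by omega
    have ea40 : T.a x4 x0 = 1 * T.w x0 := by rw [a_symm T]; omega
    have ed0 : T.a x0 x0 = -2 * T.w x0 := by omega
    have ed1 : T.a x1 x1 = -4 * T.w x0 := by omega
    have ed2 : T.a x2 x2 = -2 * T.w x0 := by omega
    have ed3 : T.a x3 x3 = -4 * T.w x0 := by omega
    have ed4 : T.a x4 x4 = -2 * T.w x0 := by omega
    have R0 : T.w x0 * (-2 * T.m x0 + 2 * T.m x1 + 1 * T.m x2 + 2 * T.m x3 + 1 * T.m x4) = 0 := by linear_combination r0 - (T.m x0) * ed0 - (T.m x1) * ea01 - (T.m x2) * ea02 - (T.m x3) * ea03 - (T.m x4) * ea04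
    have S0 := (mul_eq_zero.1 R0).resolve_left (T.w_pos x0).ne'
    have R1 : T.w x0 * (2 * T.m x0 + -4 * T.m x1) = 0 := by linear_combination r1 - (T.m x0) * ea10 - (T.m x1) * ed1 - (T.m x2) * z12 - (T.m x3) * z13 - (T.m x4) * z14
    have S1 := (mul_eq_zero.1 R1).resolve_left (T.w_pos x0).ne'
    have R2 : T.w x0 * (1 * T.m x0 + -2 * T.m x2) = 0 := by linear_combination r2 - (T.m x0) * ea20 - (T.m x1) * z21 - (T.m x2) * ed2 - (T.m x3) * z23 - (T.m x4) * z24
    have S2 := (mul_eq_zero.1 R2).resolve_left (T.w_pos x0).ne'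
    have R3 : T.w x0 * (2 * T.m x0 + -4 * T.m x3) = 0 := by linear_combination r3 - (T.m x0) * ea30 - (T.m x1) * z31 - (T.m x2) * z32 - (T.m x3) * ed3 - (T.m x4) * z34
    have S3 := (mul_eq_zero.1 R3).resolve_left (T.w_pos x0).ne'
    have R4 : T.w x0 * (1 * T.m x0 + -2 * T.m x4) = 0 := by linear_combination r4 - (T.m x0) * ea40 - (T.m x1) * z41 - (T.m x2) * z42 - (T.m x3) * z43 - (T.m x4) * ed4
    have S4 := (mul_eq_zero.1 R4).resolve_left (T.w_pos x0).ne'
    exfalso; linarith
  · -- (('L', 'S'), ('R', 'S'))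
    have ew0 : T.w x0 = 2 * T.w x3 := by omega
    have ew1 : T.w x1 = 4 * T.w x3 := by omega
    have ew2 : T.w x2 = 2 * T.w x3 := by omega
    have ew3 : T.w x3 = 1 * T.w x3 := by omega
    have ew4 : T.w x4 = 2 * T.w x3 := by omega
    have ea10 : T.a x1 x0 = 4 * T.w x3 := by omega
    have ea01 : T.a x0 x1 = 4 * T.w x3 := by rw [a_symm T]; omega
    have ea02 : T.a x0 x2 = 2 * T.w x3 := by omega
    have ea20 : T.a x2 x0 = 2 * T.w x3 := by rw [a_symm T]; omega
    have ea30 : T.a x3 x0 = 2 * T.w x3 := by omega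
    have ea03 : T.a x0 x3 = 2 * T.w x3 := by rw [a_symm T]; omega
    have ea04 : T.a x0 x4 = 2 * T.w x3 := by omega
    have ea40 : T.a x4 x0 = 2 * T.w x3 := by rw [a_symm T]; omega
    have ed0 : T.a x0 x0 = -4 * T.w x3 := by omega
    have ed1 : T.a x1 x1 = -8 * T.w x3 := by omega
    have ed2 : T.a x2 x2 = -4 * T.w x3 := by omega
    have ed3 : T.a x3 x3 = -2 * T.w x3 := by omega
    have ed4 : T.a x4 x4 = -4 * T.w x3 := by omega
    have R0 : T.w x3 * (-4 * T.m x0 + 4 * T.m x1 + 2 * T.m x2 + 2 * T.m x3 + 2 * T.m x4) = 0 := by linear_combination r0 - (T.m x0) * ed0 - (T.m x1) * ea01 - (T.m x2) * ea02 - (T.m x3) * ea03 - (T.m x4) * ea04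
    have S0 := (mul_eq_zero.1 R0).resolve_left (T.w_pos x3).ne'
    have R1 : T.w x3 * (4 * T.m x0 + -8 * T.m x1) = 0 := by linear_combination r1 - (T.m x0) * ea10 - (T.m x1) * ed1 - (T.m x2) * z12 - (T.m x3) * z13 - (T.m x4) * z14
    have S1 := (mul_eq_zero.1 R1).resolve_left (T.w_pos x3).ne'
    have R2 : T.w x3 * (2 * T.m x0 + -4 * T.m x2) = 0 := by linear_combination r2 - (T.m x0) * ea20 - (T.m x1) * z21 - (T.m x2) * ed2 - (T.m x3) * z23 - (T.m x4) * z24
    have S2 := (mul_eq_zero.1 R2).resolve_left (T.w_pos x3).ne'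
    have R3 : T.w x3 * (2 * T.m x0 + -2 * T.m x3) = 0 := by linear_combination r3 - (T.m x0) * ea30 - (T.m x1) * z31 - (T.m x2) * z32 - (T.m x3) * ed3 - (T.m x4) * z34
    have S3 := (mul_eq_zero.1 R3).resolve_left (T.w_pos x3).ne'
    have R4 : T.w x3 * (2 * T.m x0 + -4 * T.m x4) = 0 := by linear_combination r4 - (T.m x0) * ea40 - (T.m x1) * z41 - (T.m x2) * z42 - (T.m x3) * z43 - (T.m x4) * ed4
    have S4 := (mul_eq_zero.1 R4).resolve_left (T.w_pos x3).ne'
    exfalso; linarith
  · -- (('R', 'S'), ('S', 'S'))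
    have ew0 : T.w x0 = 2 * T.w x1 := by omega
    have ew1 : T.w x1 = 1 * T.w x1 := by omega
    have ew2 : T.w x2 = 2 * T.w x1 := by omega
    have ew3 : T.w x3 = 2 * T.w x1 := by omega
    have ew4 : T.w x4 = 2 * T.w x1 := by omega
    have ea10 : T.a x1 x0 = 2 * T.w x1 := by omega
    have ea01 : T.a x0 x1 = 2 * T.w x1 := by rw [a_symm T]; omega
    have ea02 : T.a x0 x2 = 2 * T.w x1 := by omega
    have ea20 : T.a x2 x0 = 2 * T.w x1 := by rw [a_symm T]; omega
    have ea30 : T.a x3 x0 = 2 * T.w x1 := by omega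
    have ea03 : T.a x0 x3 = 2 * T.w x1 := by rw [a_symm T]; omega
    have ea04 : T.a x0 x4 = 2 * T.w x1 := by omega
    have ea40 : T.a x4 x0 = 2 * T.w x1 := by rw [a_symm T]; omega
    have ed0 : T.a x0 x0 = -4 * T.w x1 := by omega
    have ed1 : T.a x1 x1 = -2 * T.w x1 := by omega
    have ed2 : T.a x2 x2 = -4 * T.w x1 := by omega
    have ed3 : T.a x3 x3 = -4 * T.w x1 := by omega
    have ed4 : T.a x4 x4 = -4 * T.w x1 := by omega
    have R0 : T.w x1 * (-4 * T.m x0 + 2 * T.m x1 + 2 * T.m x2 + 2 * T.m x3 + 2 * T.m x4) = 0 := by linear_combination r0 - (T.m x0) * ed0 - (T.m x1) * ea01 - (T.m x2) * ea02 - (T.m x3) * ea03 - (T.m x4) * ea04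
    have S0 := (mul_eq_zero.1 R0).resolve_left (T.w_pos x1).ne'
    have R1 : T.w x1 * (2 * T.m x0 + -2 * T.m x1) = 0 := by linear_combination r1 - (T.m x0) * ea10 - (T.m x1) * ed1 - (T.m x2) * z12 - (T.m x3) * z13 - (T.m x4) * z14
    have S1 := (mul_eq_zero.1 R1).resolve_left (T.w_pos x1).ne'
    have R2 : T.w x1 * (2 * T.m x0 + -4 * T.m x2) = 0 := by linear_combination r2 - (T.m x0) * ea20 - (T.m x1) * z21 - (T.m x2) * ed2 - (T.m x3) * z23 - (T.m x4) * z24
    have S2 := (mul_eq_zero.1 R2).resolve_left (T.w_pos x1).ne'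
    have R3 : T.w x1 * (2 * T.m x0 + -4 * T.m x3) = 0 := by linear_combination r3 - (T.m x0) * ea30 - (T.m x1) * z31 - (T.m x2) * z32 - (T.m x3) * ed3 - (T.m x4) * z34
    have S3 := (mul_eq_zero.1 R3).resolve_left (T.w_pos x1).ne'
    have R4 : T.w x1 * (2 * T.m x0 + -4 * T.m x4) = 0 := by linear_combination r4 - (T.m x0) * ea40 - (T.m x1) * z41 - (T.m x2) * z42 - (T.m x3) * z43 - (T.m x4) * ed4
    have S4 := (mul_eq_zero.1 R4).resolve_left (T.w_pos x1).ne'
    exfalso; linarith
  · -- (('R', 'S'), ('S', 'L'))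
    have ew0 : T.w x0 = 2 * T.w x1 := by omega
    have ew1 : T.w x1 = 1 * T.w x1 := by omega
    have ew2 : T.w x2 = 2 * T.w x1 := by omega
    have ew3 : T.w x3 = 2 * T.w x1 := by omega
    have ew4 : T.w x4 = 1 * T.w x1 := by omega
    have ea10 : T.a x1 x0 = 2 * T.w x1 := by omega
    have ea01 : T.a x0 x1 = 2 * T.w x1 := by rw [a_symm T]; omega
    have ea02 : T.a x0 x2 = 2 * T.w x1 := by omega
    have ea20 : T.a x2 x0 = 2 * T.w x1 := by rw [a_symm T]; omega
    have ea30 : T.a x3 x0 = 2 * T.w x1 := by omega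
    have ea03 : T.a x0 x3 = 2 * T.w x1 := by rw [a_symm T]; omega
    have ea04 : T.a x0 x4 = 2 * T.w x1 := by omega
    have ea40 : T.a x4 x0 = 2 * T.w x1 := by rw [a_symm T]; omega
    have ed0 : T.a x0 x0 = -4 * T.w x1 := by omega
    have ed1 : T.a x1 x1 = -2 * T.w x1 := by omega
    have ed2 : T.a x2 x2 = -4 * T.w x1 := by omega
    have ed3 : T.a x3 x3 = -4 * T.w x1 := by omega
    have ed4 : T.a x4 x4 = -2 * T.w x1 := by omega
    have R0 : T.w x1 * (-4 * T.m x0 + 2 * T.m x1 + 2 * T.m x2 + 2 * T.m x3 + 2 * T.m x4) = 0 := by linear_combination r0 - (T.m x0) * ed0 - (T.m x1) * ea01 - (T.m x2) * ea02 - (T.m x3) * ea03 - (T.m x4) * ea04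
    have S0 := (mul_eq_zero.1 R0).resolve_left (T.w_pos x1).ne'
    have R1 : T.w x1 * (2 * T.m x0 + -2 * T.m x1) = 0 := by linear_combination r1 - (T.m x0) * ea10 - (T.m x1) * ed1 - (T.m x2) * z12 - (T.m x3) * z13 - (T.m x4) * z14
    have S1 := (mul_eq_zero.1 R1).resolve_left (T.w_pos x1).ne'
    have R2 : T.w x1 * (2 * T.m x0 + -4 * T.m x2) = 0 := by linear_combination r2 - (T.m x0) * ea20 - (T.m x1) * z21 - (T.m x2) * ed2 - (T.m x3) * z23 - (T.m x4) * z24
    have S2 := (mul_eq_zero.1 R2).resolve_left (T.w_pos x1).ne'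
    have R3 : T.w x1 * (2 * T.m x0 + -4 * T.m x3) = 0 := by linear_combination r3 - (T.m x0) * ea30 - (T.m x1) * z31 - (T.m x2) * z32 - (T.m x3) * ed3 - (T.m x4) * z34
    have S3 := (mul_eq_zero.1 R3).resolve_left (T.w_pos x1).ne'
    have R4 : T.w x1 * (2 * T.m x0 + -2 * T.m x4) = 0 := by linear_combination r4 - (T.m x0) * ea40 - (T.m x1) * z41 - (T.m x2) * z42 - (T.m x3) * z43 - (T.m x4) * ed4
    have S4 := (mul_eq_zero.1 R4).resolve_left (T.w_pos x1).ne'
    exfalso; linarith
  · -- (('R', 'S'), ('S', 'R'))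
    have ew0 : T.w x0 = 2 * T.w x1 := by omega
    have ew1 : T.w x1 = 1 * T.w x1 := by omega
    have ew2 : T.w x2 = 2 * T.w x1 := by omega
    have ew3 : T.w x3 = 2 * T.w x1 := by omega
    have ew4 : T.w x4 = 4 * T.w x1 := by omega
    have ea10 : T.a x1 x0 = 2 * T.w x1 := by omega
    have ea01 : T.a x0 x1 = 2 * T.w x1 := by rw [a_symm T]; omega
    have ea02 : T.a x0 x2 = 2 * T.w x1 := by omega
    have ea20 : T.a x2 x0 = 2 * T.w x1 := by rw [a_symm T]; omega
    have ea30 : T.a x3 x0 = 2 * T.w x1 := by omega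
    have ea03 : T.a x0 x3 = 2 * T.w x1 := by rw [a_symm T]; omega
    have ea04 : T.a x0 x4 = 4 * T.w x1 := by omega
    have ea40 : T.a x4 x0 = 4 * T.w x1 := by rw [a_symm T]; omega
    have ed0 : T.a x0 x0 = -4 * T.w x1 := by omega
    have ed1 : T.a x1 x1 = -2 * T.w x1 := by omega
    have ed2 : T.a x2 x2 = -4 * T.w x1 := by omega
    have ed3 : T.a x3 x3 = -4 * T.w x1 := by omega
    have ed4 : T.a x4 x4 = -8 * T.w x1 := by omega
    have R0 : T.w x1 * (-4 * T.m x0 + 2 * T.m x1 + 2 * T.m x2 + 2 * T.m x3 + 4 * T.m x4) = 0 := by linear_combination r0 - (T.m x0) * ed0 - (T.m x1) * ea01 - (T.m x2) * ea02 - (T.m x3) * ea03 - (T.m x4) * ea04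
    have S0 := (mul_eq_zero.1 R0).resolve_left (T.w_pos x1).ne'
    have R1 : T.w x1 * (2 * T.m x0 + -2 * T.m x1) = 0 := by linear_combination r1 - (T.m x0) * ea10 - (T.m x1) * ed1 - (T.m x2) * z12 - (T.m x3) * z13 - (T.m x4) * z14
    have S1 := (mul_eq_zero.1 R1).resolve_left (T.w_pos x1).ne'
    have R2 : T.w x1 * (2 * T.m x0 + -4 * T.m x2) = 0 := by linear_combination r2 - (T.m x0) * ea20 - (T.m x1) * z21 - (T.m x2) * ed2 - (T.m x3) * z23 - (T.m x4) * z24
    have S2 := (mul_eq_zero.1 R2).resolve_left (T.w_pos x1).ne'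
    have R3 : T.w x1 * (2 * T.m x0 + -4 * T.m x3) = 0 := by linear_combination r3 - (T.m x0) * ea30 - (T.m x1) * z31 - (T.m x2) * z32 - (T.m x3) * ed3 - (T.m x4) * z34
    have S3 := (mul_eq_zero.1 R3).resolve_left (T.w_pos x1).ne'
    have R4 : T.w x1 * (4 * T.m x0 + -8 * T.m x4) = 0 := by linear_combination r4 - (T.m x0) * ea40 - (T.m x1) * z41 - (T.m x2) * z42 - (T.m x3) * z43 - (T.m x4) * ed4
    have S4 := (mul_eq_zero.1 R4).resolve_left (T.w_pos x1).ne'
    exfalso; linarith
  · -- (('R', 'S'), ('L', 'S'))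
    have ew0 : T.w x0 = 2 * T.w x1 := by omega
    have ew1 : T.w x1 = 1 * T.w x1 := by omega
    have ew2 : T.w x2 = 2 * T.w x1 := by omega
    have ew3 : T.w x3 = 4 * T.w x1 := by omega
    have ew4 : T.w x4 = 2 * T.w x1 := by omega
    have ea10 : T.a x1 x0 = 2 * T.w x1 := by omega
    have ea01 : T.a x0 x1 = 2 * T.w x1 := by rw [a_symm T]; omega
    have ea02 : T.a x0 x2 = 2 * T.w x1 := by omega
    have ea20 : T.a x2 x0 = 2 * T.w x1 := by rw [a_symm T]; omega
    have ea30 : T.a x3 x0 = 4 * T.w x1 := by omega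
    have ea03 : T.a x0 x3 = 4 * T.w x1 := by rw [a_symm T]; omega
    have ea04 : T.a x0 x4 = 2 * T.w x1 := by omega
    have ea40 : T.a x4 x0 = 2 * T.w x1 := by rw [a_symm T]; omega
    have ed0 : T.a x0 x0 = -4 * T.w x1 := by omega
    have ed1 : T.a x1 x1 = -2 * T.w x1 := by omega
    have ed2 : T.a x2 x2 = -4 * T.w x1 := by omega
    have ed3 : T.a x3 x3 = -8 * T.w x1 := by omega
    have ed4 : T.a x4 x4 = -4 * T.w x1 := by omega
    have R0 : T.w x1 * (-4 * T.m x0 + 2 * T.m x1 + 2 * T.m x2 + 4 * T.m x3 + 2 * T.m x4) = 0 := by linear_combination r0 - (T.m x0) * ed0 - (T.m x1) * ea01 - (T.m x2) * ea02 - (T.m x3) * ea03 - (T.m x4) * ea04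
    have S0 := (mul_eq_zero.1 R0).resolve_left (T.w_pos x1).ne'
    have R1 : T.w x1 * (2 * T.m x0 + -2 * T.m x1) = 0 := by linear_combination r1 - (T.m x0) * ea10 - (T.m x1) * ed1 - (T.m x2) * z12 - (T.m x3) * z13 - (T.m x4) * z14
    have S1 := (mul_eq_zero.1 R1).resolve_left (T.w_pos x1).ne'
    have R2 : T.w x1 * (2 * T.m x0 + -4 * T.m x2) = 0 := by linear_combination r2 - (T.m x0) * ea20 - (T.m x1) * z21 - (T.m x2) * ed2 - (T.m x3) * z23 - (T.m x4) * z24
    have S2 := (mul_eq_zero.1 R2).resolve_left (T.w_pos x1).ne'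
    have R3 : T.w x1 * (4 * T.m x0 + -8 * T.m x3) = 0 := by linear_combination r3 - (T.m x0) * ea30 - (T.m x1) * z31 - (T.m x2) * z32 - (T.m x3) * ed3 - (T.m x4) * z34
    have S3 := (mul_eq_zero.1 R3).resolve_left (T.w_pos x1).ne'
    have R4 : T.w x1 * (2 * T.m x0 + -4 * T.m x4) = 0 := by linear_combination r4 - (T.m x0) * ea40 - (T.m x1) * z41 - (T.m x2) * z42 - (T.m x3) * z43 - (T.m x4) * ed4
    have S4 := (mul_eq_zero.1 R4).resolve_left (T.w_pos x1).ne'
    exfalso; linarith
  · -- (('R', 'S'), ('R', 'S'))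
    have ew0 : T.w x0 = 2 * T.w x1 := by omega
    have ew1 : T.w x1 = 1 * T.w x1 := by omega
    have ew2 : T.w x2 = 2 * T.w x1 := by omega
    have ew3 : T.w x3 = 1 * T.w x1 := by omega
    have ew4 : T.w x4 = 2 * T.w x1 := by omega
    have ea10 : T.a x1 x0 = 2 * T.w x1 := by omega
    have ea01 : T.a x0 x1 = 2 * T.w x1 := by rw [a_symm T]; omega
    have ea02 : T.a x0 x2 = 2 * T.w x1 := by omega
    have ea20 : T.a x2 x0 = 2 * T.w x1 := by rw [a_symm T]; omega
    have ea30 : T.a x3 x0 = 2 * T.w x1 := by omega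
    have ea03 : T.a x0 x3 = 2 * T.w x1 := by rw [a_symm T]; omega
    have ea04 : T.a x0 x4 = 2 * T.w x1 := by omega
    have ea40 : T.a x4 x0 = 2 * T.w x1 := by rw [a_symm T]; omega
    have ed0 : T.a x0 x0 = -4 * T.w x1 := by omega
    have ed1 : T.a x1 x1 = -2 * T.w x1 := by omega
    have ed2 : T.a x2 x2 = -4 * T.w x1 := by omega
    have ed3 : T.a x3 x3 = -2 * T.w x1 := by omega
    have ed4 : T.a x4 x4 = -4 * T.w x1 := by omega
    have R0 : T.w x1 * (-4 * T.m x0 + 2 * T.m x1 + 2 * T.m x2 + 2 * T.m x3 + 2 * T.m x4) = 0 := by linear_combination r0 - (T.m x0) * ed0 - (T.m x1) * ea01 - (T.m x2) * ea02 - (T.m x3) * ea03 - (T.m x4) * ea04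
    have S0 := (mul_eq_zero.1 R0).resolve_left (T.w_pos x1).ne'
    have R1 : T.w x1 * (2 * T.m x0 + -2 * T.m x1) = 0 := by linear_combination r1 - (T.m x0) * ea10 - (T.m x1) * ed1 - (T.m x2) * z12 - (T.m x3) * z13 - (T.m x4) * z14
    have S1 := (mul_eq_zero.1 R1).resolve_left (T.w_pos x1).ne'
    have R2 : T.w x1 * (2 * T.m x0 + -4 * T.m x2) = 0 := by linear_combination r2 - (T.m x0) * ea20 - (T.m x1) * z21 - (T.m x2) * ed2 - (T.m x3) * z23 - (T.m x4) * z24
    have S2 := (mul_eq_zero.1 R2).resolve_left (T.w_pos x1).ne'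
    have R3 : T.w x1 * (2 * T.m x0 + -2 * T.m x3) = 0 := by linear_combination r3 - (T.m x0) * ea30 - (T.m x1) * z31 - (T.m x2) * z32 - (T.m x3) * ed3 - (T.m x4) * z34
    have S3 := (mul_eq_zero.1 R3).resolve_left (T.w_pos x1).ne'
    have R4 : T.w x1 * (2 * T.m x0 + -4 * T.m x4) = 0 := by linear_combination r4 - (T.m x0) * ea40 - (T.m x1) * z41 - (T.m x2) * z42 - (T.m x3) * z43 - (T.m x4) * ed4
    have S4 := (mul_eq_zero.1 R4).resolve_left (T.w_pos x1).ne'
    exfalso; linarith

theorem shape_c5 (T : Models.NumericalType 5) {x0 x1 x2 x3 x4 : Fin 5} (d01 : x0 ≠ x1) (d02 : x0 ≠ x2) (d03 : x0 ≠ x3) (d04 : x0 ≠ x4) (d12 : x1 ≠ x2) (d13 : x1 ≠ x3) (d14 : x1 ≠ x4) (d23 : x2 ≠ x3) (d24 : x2 ≠ x4) (d34 : x3 ≠ x4)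
    (t0 : T.IsMinusTwo x0) (t1 : T.IsMinusTwo x1) (t2 : T.IsMinusTwo x2) (t3 : T.IsMinusTwo x3) (t4 : T.IsMinusTwo x4)
    (e01 : T.a x0 x1 ≠ 0) (e12 : T.a x1 x2 ≠ 0) (e23 : T.a x2 x3 ≠ 0) (e34 : T.a x3 x4 ≠ 0) (e40 : T.a x4 x0 ≠ 0) (z02 : T.a x0 x2 = 0) (z03 : T.a x0 x3 = 0) (z13 : T.a x1 x3 = 0) (z14 : T.a x1 x4 = 0) (z24 : T.a x2 x4 = 0)
    (r0 : T.a x0 x0 * T.m x0 + T.a x0 x1 * T.m x1 + T.a x0 x2 * T.m x2 + T.a x0 x3 * T.m x3 + T.a x0 x4 * T.m x4 = 0)
    (r1 : T.a x1 x0 * T.m x0 + T.a x1 x1 * T.m x1 + T.a x1 x2 * T.m x2 + T.a x1 x3 * T.m x3 + T.a x1 x4 * T.m x4 = 0)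
    (r2 : T.a x2 x0 * T.m x0 + T.a x2 x1 * T.m x1 + T.a x2 x2 * T.m x2 + T.a x2 x3 * T.m x3 + T.a x2 x4 * T.m x4 = 0)
    (r3 : T.a x3 x0 * T.m x0 + T.a x3 x1 * T.m x1 + T.a x3 x2 * T.m x2 + T.a x3 x3 * T.m x3 + T.a x3 x4 * T.m x4 = 0)
    (r4 : T.a x4 x0 * T.m x0 + T.a x4 x1 * T.m x1 + T.a x4 x2 * T.m x2 + T.a x4 x3 * T.m x3 + T.a x4 x4 * T.m x4 = 0) :
    ∃ (y0 y1 y2 y3 y4 : Fin 5) (m w : ℤ), Function.Injective ![y0, y1, y2, y3, y4] ∧ Pat T y0 y1 y2 y3 y4 m w := by
  have d10 := d01.symm
  have d20 := d02.symm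
  have d30 := d03.symm
  have d40 := d04.symm
  have d21 := d12.symm
  have d31 := d13.symm
  have d41 := d14.symm
  have d32 := d23.symm
  have d42 := d24.symm
  have d43 := d34.symm
  have p0 := T.w_pos x0
  have q0 := T.m_pos x0
  have dd0 := t0.2
  have p1 := T.w_pos x1
  have q1 := T.m_pos x1
  have dd1 := t1.2
  have p2 := T.w_pos x2
  have q2 := T.m_pos x2
  have dd2 := t2.2
  have p3 := T.w_pos x3
  have q3 := T.m_pos x3
  have dd3 := t3.2
  have p4 := T.w_pos x4
  have q4 := T.m_pos x4
  have dd4 := t4.2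
  have z20 : T.a x2 x0 = 0 := by rw [a_symm T]; exact z02
  have z30 : T.a x3 x0 = 0 := by rw [a_symm T]; exact z03
  have z31 : T.a x3 x1 = 0 := by rw [a_symm T]; exact z13
  have z41 : T.a x4 x1 = 0 := by rw [a_symm T]; exact z14
  have z42 : T.a x4 x2 = 0 := by rw [a_symm T]; exact z24
  rcases chain3_types T (by norm_num) d01 d12 d02 t0 t1 t2 e01 e12 with ⟨_, ⟨⟨ua, ub⟩, ⟨uc, ud⟩⟩ | ⟨⟨ua, ub⟩, ⟨uc, ud⟩⟩ | ⟨⟨ua, ub⟩, ⟨uc, ud⟩⟩ | ⟨⟨ua, ub⟩, ⟨uc, ud⟩⟩ | ⟨⟨ua, ub⟩, ⟨uc, ud⟩⟩⟩ <;>
    rcases chain3_types T (by norm_num) d23 d34 d24 t2 t3 t4 e23 e34 with ⟨_, ⟨⟨va, vb⟩, ⟨vc, vd⟩⟩ | ⟨⟨va, vb⟩, ⟨vc, vd⟩⟩ | ⟨⟨va, vb⟩, ⟨vc, vd⟩⟩ | ⟨⟨va, vb⟩, ⟨vc, vd⟩⟩ | ⟨⟨va, vb⟩, ⟨vc, vd⟩⟩⟩ <;>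
    rcases chain3_types T (by norm_num) d34 d40 d30 t3 t4 t0 e34 e40 with ⟨_, ⟨⟨xa, xb⟩, ⟨xc, xd⟩⟩ | ⟨⟨xa, xb⟩, ⟨xc, xd⟩⟩ | ⟨⟨xa, xb⟩, ⟨xc, xd⟩⟩ | ⟨⟨xa, xb⟩, ⟨xc, xd⟩⟩ | ⟨⟨xa, xb⟩, ⟨xc, xd⟩⟩⟩
  · -- (('S', 'S'), ('S', 'S'), ('S', 'S'))
    have ew0 : T.w x0 = 1 * T.w x0 := by omega
    have ew1 : T.w x1 = 1 * T.w x0 := by omega
    have ew2 : T.w x2 = 1 * T.w x0 := by omega
    have ew3 : T.w x3 = 1 * T.w x0 := by omega
    have ew4 : T.w x4 = 1 * T.w x0 := by omega
    have ea01 : T.a x0 x1 = 1 * T.w x0 := by omega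
    have ea10 : T.a x1 x0 = 1 * T.w x0 := by rw [a_symm T]; omega
    have ea12 : T.a x1 x2 = 1 * T.w x0 := by omega
    have ea21 : T.a x2 x1 = 1 * T.w x0 := by rw [a_symm T]; omega
    have ea23 : T.a x2 x3 = 1 * T.w x0 := by omega
    have ea32 : T.a x3 x2 = 1 * T.w x0 := by rw [a_symm T]; omega
    have ea34 : T.a x3 x4 = 1 * T.w x0 := by omega
    have ea43 : T.a x4 x3 = 1 * T.w x0 := by rw [a_symm T]; omega
    have ea40 : T.a x4 x0 = 1 * T.w x0 := by omega
    have ea04 : T.a x0 x4 = 1 * T.w x0 := by rw [a_symm T]; omega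
    have ed0 : T.a x0 x0 = -2 * T.w x0 := by omega
    have ed1 : T.a x1 x1 = -2 * T.w x0 := by omega
    have ed2 : T.a x2 x2 = -2 * T.w x0 := by omega
    have ed3 : T.a x3 x3 = -2 * T.w x0 := by omega
    have ed4 : T.a x4 x4 = -2 * T.w x0 := by omega
    have R0 : T.w x0 * (-2 * T.m x0 + 1 * T.m x1 + 1 * T.m x4) = 0 := by linear_combination r0 - (T.m x0) * ed0 - (T.m x1) * ea01 - (T.m x2) * z02 - (T.m x3) * z03 - (T.m x4) * ea04
    have S0 := (mul_eq_zero.1 R0).resolve_left (T.w_pos x0).ne'
    have R1 : T.w x0 * (1 * T.m x0 + -2 * T.m x1 + 1 * T.m x2) = 0 := by linear_combination r1 - (T.m x0) * ea10 - (T.m x1) * ed1 - (T.m x2) * ea12 - (T.m x3) * z13 - (T.m x4) * z14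
    have S1 := (mul_eq_zero.1 R1).resolve_left (T.w_pos x0).ne'
    have R2 : T.w x0 * (1 * T.m x1 + -2 * T.m x2 + 1 * T.m x3) = 0 := by linear_combination r2 - (T.m x0) * z20 - (T.m x1) * ea21 - (T.m x2) * ed2 - (T.m x3) * ea23 - (T.m x4) * z24
    have S2 := (mul_eq_zero.1 R2).resolve_left (T.w_pos x0).ne'
    have R3 : T.w x0 * (1 * T.m x2 + -2 * T.m x3 + 1 * T.m x4) = 0 := by linear_combination r3 - (T.m x0) * z30 - (T.m x1) * z31 - (T.m x2) * ea32 - (T.m x3) * ed3 - (T.m x4) * ea34
    have S3 := (mul_eq_zero.1 R3).resolve_left (T.w_pos x0).ne'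
    have R4 : T.w x0 * (1 * T.m x0 + 1 * T.m x3 + -2 * T.m x4) = 0 := by linear_combination r4 - (T.m x0) * ea40 - (T.m x1) * z41 - (T.m x2) * z42 - (T.m x3) * ea43 - (T.m x4) * ed4
    have S4 := (mul_eq_zero.1 R4).resolve_left (T.w_pos x0).ne'
    exact ⟨x0, x1, x2, x3, x4, T.m x0, T.w x0, inj5 d01 d02 d03 d04 d12 d13 d14 d23 d24 d34, Or.inl ⟨(by first | omega | linarith : T.m x0 = T.m x0), (by first | omega | linarith : T.m x1 = T.m x0), (by first | omega | linarith : T.m x2 = T.m x0), (by first | omega | linarith : T.m x3 = T.m x0), (by first | omega | linarith : T.m x4 = T.m x0), (by first | omega | linarith : T.w x0 = T.w x0), (by first | omega | linarith : T.w x1 = T.w x0), (by first | omega | linarith : T.w x2 = T.w x0), (by first | omega | linarith : T.w x3 = T.w x0), (by first | omega | linarith : T.w x4 = T.w x0), (by first | omega | linarith : T.a x0 x0 = -2 * T.w x0), (by first | omega | linarith : T.a x0 x1 = T.w x0), (by first | omega | linarith : T.a x0 x2 = 0), (by first | omega | linarith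 : T.a x0 x3 = 0), (by first | omega | linarith : T.a x0 x4 = T.w x0), (by first | omega | linarith : T.a x1 x1 = -2 * T.w x0), (by first | omega | linarith : T.a x1 x2 = T.w x0), (by first | omega | linarith : T.a x1 x3 = 0), (by first | omega | linarith : T.a x1 x4 = 0), (by first | omega | linarith : T.a x2 x2 = -2 * T.w x0), (by first | omega | linarith : T.a x2 x3 = T.w x0), (by first | omega | linarith : T.a x2 x4 = 0), (by first | omega | linarith : T.a x3 x3 = -2 * T.w x0), (by first | omega | linarith : T.a x3 x4 = T.w x0), (by first | omega | linarith : T.a x4 x4 = -2 * T.w x0)⟩⟩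
    -- type 1 perm (0, 1, 2, 3, 4)
  · -- (('S', 'S'), ('S', 'S'), ('S', 'L'))
    exfalso; omega
  · -- (('S', 'S'), ('S', 'S'), ('S', 'R'))
    exfalso; omega
  · -- (('S', 'S'), ('S', 'S'), ('L', 'S'))
    exfalso; omega
  · -- (('S', 'S'), ('S', 'S'), ('R', 'S'))
    exfalso; omega
  · -- (('S', 'S'), ('S', 'L'), ('S', 'S'))
    exfalso; omega
  · -- (('S', 'S'), ('S', 'L'), ('S', 'L'))
    exfalso; omega
  · -- (('S', 'S'), ('S', 'L'), ('S', 'R'))
    exfalso; omega
  · -- (('S', 'S'), ('S', 'L'), ('L', 'S'))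
    exfalso; omega
  · -- (('S', 'S'), ('S', 'L'), ('R', 'S'))
    exfalso; omega
  · -- (('S', 'S'), ('S', 'R'), ('S', 'S'))
    exfalso; omega
  · -- (('S', 'S'), ('S', 'R'), ('S', 'L'))
    exfalso; omega
  · -- (('S', 'S'), ('S', 'R'), ('S', 'R'))
    exfalso; omega
  · -- (('S', 'S'), ('S', 'R'), ('L', 'S'))
    exfalso; omega
  · -- (('S', 'S'), ('S', 'R'), ('R', 'S'))
    exfalso; omega
  · -- (('S', 'S'), ('L', 'S'), ('S', 'S'))
    exfalso; omega
  · -- (('S', 'S'), ('L', 'S'), ('S', 'L'))
    exfalso; omega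
  · -- (('S', 'S'), ('L', 'S'), ('S', 'R'))
    have ew0 : T.w x0 = 2 * T.w x3 := by omega
    have ew1 : T.w x1 = 2 * T.w x3 := by omega
    have ew2 : T.w x2 = 2 * T.w x3 := by omega
    have ew3 : T.w x3 = 1 * T.w x3 := by omega
    have ew4 : T.w x4 = 1 * T.w x3 := by omega
    have ea01 : T.a x0 x1 = 2 * T.w x3 := by omega
    have ea10 : T.a x1 x0 = 2 * T.w x3 := by rw [a_symm T]; omega
    have ea12 : T.a x1 x2 = 2 * T.w x3 := by omega
    have ea21 : T.a x2 x1 = 2 * T.w x3 := by rw [a_symm T]; omega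
    have ea23 : T.a x2 x3 = 2 * T.w x3 := by omega
    have ea32 : T.a x3 x2 = 2 * T.w x3 := by rw [a_symm T]; omega
    have ea34 : T.a x3 x4 = 1 * T.w x3 := by omega
    have ea43 : T.a x4 x3 = 1 * T.w x3 := by rw [a_symm T]; omega
    have ea40 : T.a x4 x0 = 2 * T.w x3 := by omega
    have ea04 : T.a x0 x4 = 2 * T.w x3 := by rw [a_symm T]; omega
    have ed0 : T.a x0 x0 = -4 * T.w x3 := by omega
    have ed1 : T.a x1 x1 = -4 * T.w x3 := by omega
    have ed2 : T.a x2 x2 = -4 * T.w x3 := by omega
    have ed3 : T.a x3 x3 = -2 * T.w x3 := by omega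
    have ed4 : T.a x4 x4 = -2 * T.w x3 := by omega
    have R0 : T.w x3 * (-4 * T.m x0 + 2 * T.m x1 + 2 * T.m x4) = 0 := by linear_combination r0 - (T.m x0) * ed0 - (T.m x1) * ea01 - (T.m x2) * z02 - (T.m x3) * z03 - (T.m x4) * ea04
    have S0 := (mul_eq_zero.1 R0).resolve_left (T.w_pos x3).ne'
    have R1 : T.w x3 * (2 * T.m x0 + -4 * T.m x1 + 2 * T.m x2) = 0 := by linear_combination r1 - (T.m x0) * ea10 - (T.m x1) * ed1 - (T.m x2) * ea12 - (T.m x3) * z13 - (T.m x4) * z14
    have S1 := (mul_eq_zero.1 R1).resolve_left (T.w_pos x3).ne'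
    have R2 : T.w x3 * (2 * T.m x1 + -4 * T.m x2 + 2 * T.m x3) = 0 := by linear_combination r2 - (T.m x0) * z20 - (T.m x1) * ea21 - (T.m x2) * ed2 - (T.m x3) * ea23 - (T.m x4) * z24
    have S2 := (mul_eq_zero.1 R2).resolve_left (T.w_pos x3).ne'
    have R3 : T.w x3 * (2 * T.m x2 + -2 * T.m x3 + 1 * T.m x4) = 0 := by linear_combination r3 - (T.m x0) * z30 - (T.m x1) * z31 - (T.m x2) * ea32 - (T.m x3) * ed3 - (T.m x4) * ea34
    have S3 := (mul_eq_zero.1 R3).resolve_left (T.w_pos x3).ne'
    have R4 : T.w x3 * (2 * T.m x0 + 1 * T.m x3 + -2 * T.m x4) = 0 := by linear_combination r4 - (T.m x0) * ea40 - (T.m x1) * z41 - (T.m x2) * z42 - (T.m x3) * ea43 - (T.m x4) * ed4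
    have S4 := (mul_eq_zero.1 R4).resolve_left (T.w_pos x3).ne'
    exfalso; linarith
  · -- (('S', 'S'), ('L', 'S'), ('L', 'S'))
    exfalso; omega
  · -- (('S', 'S'), ('L', 'S'), ('R', 'S'))
    exfalso; omega
  · -- (('S', 'S'), ('R', 'S'), ('S', 'S'))
    exfalso; omega
  · -- (('S', 'S'), ('R', 'S'), ('S', 'L'))
    have ew0 : T.w x0 = 1 * T.w x0 := by omega
    have ew1 : T.w x1 = 1 * T.w x0 := by omega
    have ew2 : T.w x2 = 1 * T.w x0 := by omega
    have ew3 : T.w x3 = 2 * T.w x0 := by omega
    have ew4 : T.w x4 = 2 * T.w x0 := by omega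
    have ea01 : T.a x0 x1 = 1 * T.w x0 := by omega
    have ea10 : T.a x1 x0 = 1 * T.w x0 := by rw [a_symm T]; omega
    have ea12 : T.a x1 x2 = 1 * T.w x0 := by omega
    have ea21 : T.a x2 x1 = 1 * T.w x0 := by rw [a_symm T]; omega
    have ea23 : T.a x2 x3 = 2 * T.w x0 := by omega
    have ea32 : T.a x3 x2 = 2 * T.w x0 := by rw [a_symm T]; omega
    have ea34 : T.a x3 x4 = 2 * T.w x0 := by omega
    have ea43 : T.a x4 x3 = 2 * T.w x0 := by rw [a_symm T]; omega
    have ea40 : T.a x4 x0 = 2 * T.w x0 := by omega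
    have ea04 : T.a x0 x4 = 2 * T.w x0 := by rw [a_symm T]; omega
    have ed0 : T.a x0 x0 = -2 * T.w x0 := by omega
    have ed1 : T.a x1 x1 = -2 * T.w x0 := by omega
    have ed2 : T.a x2 x2 = -2 * T.w x0 := by omega
    have ed3 : T.a x3 x3 = -4 * T.w x0 := by omega
    have ed4 : T.a x4 x4 = -4 * T.w x0 := by omega
    have R0 : T.w x0 * (-2 * T.m x0 + 1 * T.m x1 + 2 * T.m x4) = 0 := by linear_combination r0 - (T.m x0) * ed0 - (T.m x1) * ea01 - (T.m x2) * z02 - (T.m x3) * z03 - (T.m x4) * ea04
    have S0 := (mul_eq_zero.1 R0).resolve_left (T.w_pos x0).ne'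
    have R1 : T.w x0 * (1 * T.m x0 + -2 * T.m x1 + 1 * T.m x2) = 0 := by linear_combination r1 - (T.m x0) * ea10 - (T.m x1) * ed1 - (T.m x2) * ea12 - (T.m x3) * z13 - (T.m x4) * z14
    have S1 := (mul_eq_zero.1 R1).resolve_left (T.w_pos x0).ne'
    have R2 : T.w x0 * (1 * T.m x1 + -2 * T.m x2 + 2 * T.m x3) = 0 := by linear_combination r2 - (T.m x0) * z20 - (T.m x1) * ea21 - (T.m x2) * ed2 - (T.m x3) * ea23 - (T.m x4) * z24
    have S2 := (mul_eq_zero.1 R2).resolve_left (T.w_pos x0).ne'
    have R3 : T.w x0 * (2 * T.m x2 + -4 * T.m x3 + 2 * T.m x4) = 0 := by linear_combination r3 - (T.m x0) * z30 - (T.m x1) * z31 - (T.m x2) * ea32 - (T.m x3) * ed3 - (T.m x4) * ea34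
    have S3 := (mul_eq_zero.1 R3).resolve_left (T.w_pos x0).ne'
    have R4 : T.w x0 * (2 * T.m x0 + 2 * T.m x3 + -4 * T.m x4) = 0 := by linear_combination r4 - (T.m x0) * ea40 - (T.m x1) * z41 - (T.m x2) * z42 - (T.m x3) * ea43 - (T.m x4) * ed4
    have S4 := (mul_eq_zero.1 R4).resolve_left (T.w_pos x0).ne'
    exfalso; linarith
  · -- (('S', 'S'), ('R', 'S'), ('S', 'R'))
    exfalso; omega
  · -- (('S', 'S'), ('R', 'S'), ('L', 'S'))
    exfalso; omega
  · -- (('S', 'S'), ('R', 'S'), ('R', 'S'))
    exfalso; omega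
  · -- (('S', 'L'), ('S', 'S'), ('S', 'S'))
    exfalso; omega
  · -- (('S', 'L'), ('S', 'S'), ('S', 'L'))
    exfalso; omega
  · -- (('S', 'L'), ('S', 'S'), ('S', 'R'))
    have ew0 : T.w x0 = 2 * T.w x2 := by omega
    have ew1 : T.w x1 = 2 * T.w x2 := by omega
    have ew2 : T.w x2 = 1 * T.w x2 := by omega
    have ew3 : T.w x3 = 1 * T.w x2 := by omega
    have ew4 : T.w x4 = 1 * T.w x2 := by omega
    have ea01 : T.a x0 x1 = 2 * T.w x2 := by omega
    have ea10 : T.a x1 x0 = 2 * T.w x2 := by rw [a_symm T]; omega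
    have ea12 : T.a x1 x2 = 2 * T.w x2 := by omega
    have ea21 : T.a x2 x1 = 2 * T.w x2 := by rw [a_symm T]; omega
    have ea23 : T.a x2 x3 = 1 * T.w x2 := by omega
    have ea32 : T.a x3 x2 = 1 * T.w x2 := by rw [a_symm T]; omega
    have ea34 : T.a x3 x4 = 1 * T.w x2 := by omega
    have ea43 : T.a x4 x3 = 1 * T.w x2 := by rw [a_symm T]; omega
    have ea40 : T.a x4 x0 = 2 * T.w x2 := by omega
    have ea04 : T.a x0 x4 = 2 * T.w x2 := by rw [a_symm T]; omega
    have ed0 : T.a x0 x0 = -4 * T.w x2 := by omega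
    have ed1 : T.a x1 x1 = -4 * T.w x2 := by omega
    have ed2 : T.a x2 x2 = -2 * T.w x2 := by omega
    have ed3 : T.a x3 x3 = -2 * T.w x2 := by omega
    have ed4 : T.a x4 x4 = -2 * T.w x2 := by omega
    have R0 : T.w x2 * (-4 * T.m x0 + 2 * T.m x1 + 2 * T.m x4) = 0 := by linear_combination r0 - (T.m x0) * ed0 - (T.m x1) * ea01 - (T.m x2) * z02 - (T.m x3) * z03 - (T.m x4) * ea04
    have S0 := (mul_eq_zero.1 R0).resolve_left (T.w_pos x2).ne'
    have R1 : T.w x2 * (2 * T.m x0 + -4 * T.m x1 + 2 * T.m x2) = 0 := by linear_combination r1 - (T.m x0) * ea10 - (T.m x1) * ed1 - (T.m x2) * ea12 - (T.m x3) * z13 - (T.m x4) * z14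
    have S1 := (mul_eq_zero.1 R1).resolve_left (T.w_pos x2).ne'
    have R2 : T.w x2 * (2 * T.m x1 + -2 * T.m x2 + 1 * T.m x3) = 0 := by linear_combination r2 - (T.m x0) * z20 - (T.m x1) * ea21 - (T.m x2) * ed2 - (T.m x3) * ea23 - (T.m x4) * z24
    have S2 := (mul_eq_zero.1 R2).resolve_left (T.w_pos x2).ne'
    have R3 : T.w x2 * (1 * T.m x2 + -2 * T.m x3 + 1 * T.m x4) = 0 := by linear_combination r3 - (T.m x0) * z30 - (T.m x1) * z31 - (T.m x2) * ea32 - (T.m x3) * ed3 - (T.m x4) * ea34
    have S3 := (mul_eq_zero.1 R3).resolve_left (T.w_pos x2).ne'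
    have R4 : T.w x2 * (2 * T.m x0 + 1 * T.m x3 + -2 * T.m x4) = 0 := by linear_combination r4 - (T.m x0) * ea40 - (T.m x1) * z41 - (T.m x2) * z42 - (T.m x3) * ea43 - (T.m x4) * ed4
    have S4 := (mul_eq_zero.1 R4).resolve_left (T.w_pos x2).ne'
    exfalso; linarith
  · -- (('S', 'L'), ('S', 'S'), ('L', 'S'))
    exfalso; omega
  · -- (('S', 'L'), ('S', 'S'), ('R', 'S'))
    exfalso; omega
  · -- (('S', 'L'), ('S', 'L'), ('S', 'S'))
    exfalso; omega
  · -- (('S', 'L'), ('S', 'L'), ('S', 'L'))
    exfalso; omega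
  · -- (('S', 'L'), ('S', 'L'), ('S', 'R'))
    exfalso; omega
  · -- (('S', 'L'), ('S', 'L'), ('L', 'S'))
    exfalso; omega
  · -- (('S', 'L'), ('S', 'L'), ('R', 'S'))
    exfalso; omega
  · -- (('S', 'L'), ('S', 'R'), ('S', 'S'))
    exfalso; omega
  · -- (('S', 'L'), ('S', 'R'), ('S', 'L'))
    exfalso; omega
  · -- (('S', 'L'), ('S', 'R'), ('S', 'R'))
    exfalso; omega
  · -- (('S', 'L'), ('S', 'R'), ('L', 'S'))
    exfalso; omega
  · -- (('S', 'L'), ('S', 'R'), ('R', 'S'))
    have ew0 : T.w x0 = 2 * T.w x2 := by omega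
    have ew1 : T.w x1 = 2 * T.w x2 := by omega
    have ew2 : T.w x2 = 1 * T.w x2 := by omega
    have ew3 : T.w x3 = 1 * T.w x2 := by omega
    have ew4 : T.w x4 = 2 * T.w x2 := by omega
    have ea01 : T.a x0 x1 = 2 * T.w x2 := by omega
    have ea10 : T.a x1 x0 = 2 * T.w x2 := by rw [a_symm T]; omega
    have ea12 : T.a x1 x2 = 2 * T.w x2 := by omega
    have ea21 : T.a x2 x1 = 2 * T.w x2 := by rw [a_symm T]; omega
    have ea23 : T.a x2 x3 = 1 * T.w x2 := by omega
    have ea32 : T.a x3 x2 = 1 * T.w x2 := by rw [a_symm T]; omega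
    have ea34 : T.a x3 x4 = 2 * T.w x2 := by omega
    have ea43 : T.a x4 x3 = 2 * T.w x2 := by rw [a_symm T]; omega
    have ea40 : T.a x4 x0 = 2 * T.w x2 := by omega
    have ea04 : T.a x0 x4 = 2 * T.w x2 := by rw [a_symm T]; omega
    have ed0 : T.a x0 x0 = -4 * T.w x2 := by omega
    have ed1 : T.a x1 x1 = -4 * T.w x2 := by omega
    have ed2 : T.a x2 x2 = -2 * T.w x2 := by omega
    have ed3 : T.a x3 x3 = -2 * T.w x2 := by omega
    have ed4 : T.a x4 x4 = -4 * T.w x2 := by omega
    have R0 : T.w x2 * (-4 * T.m x0 + 2 * T.m x1 + 2 * T.m x4) = 0 := by linear_combination r0 - (T.m x0) * ed0 - (T.m x1) * ea01 - (T.m x2) * z02 - (T.m x3) * z03 - (T.m x4) * ea04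
    have S0 := (mul_eq_zero.1 R0).resolve_left (T.w_pos x2).ne'
    have R1 : T.w x2 * (2 * T.m x0 + -4 * T.m x1 + 2 * T.m x2) = 0 := by linear_combination r1 - (T.m x0) * ea10 - (T.m x1) * ed1 - (T.m x2) * ea12 - (T.m x3) * z13 - (T.m x4) * z14
    have S1 := (mul_eq_zero.1 R1).resolve_left (T.w_pos x2).ne'
    have R2 : T.w x2 * (2 * T.m x1 + -2 * T.m x2 + 1 * T.m x3) = 0 := by linear_combination r2 - (T.m x0) * z20 - (T.m x1) * ea21 - (T.m x2) * ed2 - (T.m x3) * ea23 - (T.m x4) * z24
    have S2 := (mul_eq_zero.1 R2).resolve_left (T.w_pos x2).ne'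
    have R3 : T.w x2 * (1 * T.m x2 + -2 * T.m x3 + 2 * T.m x4) = 0 := by linear_combination r3 - (T.m x0) * z30 - (T.m x1) * z31 - (T.m x2) * ea32 - (T.m x3) * ed3 - (T.m x4) * ea34
    have S3 := (mul_eq_zero.1 R3).resolve_left (T.w_pos x2).ne'
    have R4 : T.w x2 * (2 * T.m x0 + 2 * T.m x3 + -4 * T.m x4) = 0 := by linear_combination r4 - (T.m x0) * ea40 - (T.m x1) * z41 - (T.m x2) * z42 - (T.m x3) * ea43 - (T.m x4) * ed4
    have S4 := (mul_eq_zero.1 R4).resolve_left (T.w_pos x2).ne'
    exfalso; linarith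
  · -- (('S', 'L'), ('L', 'S'), ('S', 'S'))
    exfalso; omega
  · -- (('S', 'L'), ('L', 'S'), ('S', 'L'))
    exfalso; omega
  · -- (('S', 'L'), ('L', 'S'), ('S', 'R'))
    exfalso; omega
  · -- (('S', 'L'), ('L', 'S'), ('L', 'S'))
    exfalso; omega
  · -- (('S', 'L'), ('L', 'S'), ('R', 'S'))
    exfalso; omega
  · -- (('S', 'L'), ('R', 'S'), ('S', 'S'))
    have ew0 : T.w x0 = 2 * T.w x2 := by omega
    have ew1 : T.w x1 = 2 * T.w x2 := by omega
    have ew2 : T.w x2 = 1 * T.w x2 := by omega
    have ew3 : T.w x3 = 2 * T.w x2 := by omega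
    have ew4 : T.w x4 = 2 * T.w x2 := by omega
    have ea01 : T.a x0 x1 = 2 * T.w x2 := by omega
    have ea10 : T.a x1 x0 = 2 * T.w x2 := by rw [a_symm T]; omega
    have ea12 : T.a x1 x2 = 2 * T.w x2 := by omega
    have ea21 : T.a x2 x1 = 2 * T.w x2 := by rw [a_symm T]; omega
    have ea23 : T.a x2 x3 = 2 * T.w x2 := by omega
    have ea32 : T.a x3 x2 = 2 * T.w x2 := by rw [a_symm T]; omega
    have ea34 : T.a x3 x4 = 2 * T.w x2 := by omega
    have ea43 : T.a x4 x3 = 2 * T.w x2 := by rw [a_symm T]; omega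
    have ea40 : T.a x4 x0 = 2 * T.w x2 := by omega
    have ea04 : T.a x0 x4 = 2 * T.w x2 := by rw [a_symm T]; omega
    have ed0 : T.a x0 x0 = -4 * T.w x2 := by omega
    have ed1 : T.a x1 x1 = -4 * T.w x2 := by omega
    have ed2 : T.a x2 x2 = -2 * T.w x2 := by omega
    have ed3 : T.a x3 x3 = -4 * T.w x2 := by omega
    have ed4 : T.a x4 x4 = -4 * T.w x2 := by omega
    have R0 : T.w x2 * (-4 * T.m x0 + 2 * T.m x1 + 2 * T.m x4) = 0 := by linear_combination r0 - (T.m x0) * ed0 - (T.m x1) * ea01 - (T.m x2) * z02 - (T.m x3) * z03 - (T.m x4) * ea04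
    have S0 := (mul_eq_zero.1 R0).resolve_left (T.w_pos x2).ne'
    have R1 : T.w x2 * (2 * T.m x0 + -4 * T.m x1 + 2 * T.m x2) = 0 := by linear_combination r1 - (T.m x0) * ea10 - (T.m x1) * ed1 - (T.m x2) * ea12 - (T.m x3) * z13 - (T.m x4) * z14
    have S1 := (mul_eq_zero.1 R1).resolve_left (T.w_pos x2).ne'
    have R2 : T.w x2 * (2 * T.m x1 + -2 * T.m x2 + 2 * T.m x3) = 0 := by linear_combination r2 - (T.m x0) * z20 - (T.m x1) * ea21 - (T.m x2) * ed2 - (T.m x3) * ea23 - (T.m x4) * z24
    have S2 := (mul_eq_zero.1 R2).resolve_left (T.w_pos x2).ne'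
    have R3 : T.w x2 * (2 * T.m x2 + -4 * T.m x3 + 2 * T.m x4) = 0 := by linear_combination r3 - (T.m x0) * z30 - (T.m x1) * z31 - (T.m x2) * ea32 - (T.m x3) * ed3 - (T.m x4) * ea34
    have S3 := (mul_eq_zero.1 R3).resolve_left (T.w_pos x2).ne'
    have R4 : T.w x2 * (2 * T.m x0 + 2 * T.m x3 + -4 * T.m x4) = 0 := by linear_combination r4 - (T.m x0) * ea40 - (T.m x1) * z41 - (T.m x2) * z42 - (T.m x3) * ea43 - (T.m x4) * ed4
    have S4 := (mul_eq_zero.1 R4).resolve_left (T.w_pos x2).ne'
    exfalso; linarith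
  · -- (('S', 'L'), ('R', 'S'), ('S', 'L'))
    exfalso; omega
  · -- (('S', 'L'), ('R', 'S'), ('S', 'R'))
    exfalso; omega
  · -- (('S', 'L'), ('R', 'S'), ('L', 'S'))
    exfalso; omega
  · -- (('S', 'L'), ('R', 'S'), ('R', 'S'))
    exfalso; omega
  · -- (('S', 'R'), ('S', 'S'), ('S', 'S'))
    exfalso; omega
  · -- (('S', 'R'), ('S', 'S'), ('S', 'L'))
    have ew0 : T.w x0 = 1 * T.w x0 := by omega
    have ew1 : T.w x1 = 1 * T.w x0 := by omega
    have ew2 : T.w x2 = 2 * T.w x0 := by omega
    have ew3 : T.w x3 = 2 * T.w x0 := by omega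
    have ew4 : T.w x4 = 2 * T.w x0 := by omega
    have ea01 : T.a x0 x1 = 1 * T.w x0 := by omega
    have ea10 : T.a x1 x0 = 1 * T.w x0 := by rw [a_symm T]; omega
    have ea12 : T.a x1 x2 = 2 * T.w x0 := by omega
    have ea21 : T.a x2 x1 = 2 * T.w x0 := by rw [a_symm T]; omega
    have ea23 : T.a x2 x3 = 2 * T.w x0 := by omega
    have ea32 : T.a x3 x2 = 2 * T.w x0 := by rw [a_symm T]; omega
    have ea34 : T.a x3 x4 = 2 * T.w x0 := by omega
    have ea43 : T.a x4 x3 = 2 * T.w x0 := by rw [a_symm T]; omega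
    have ea40 : T.a x4 x0 = 2 * T.w x0 := by omega
    have ea04 : T.a x0 x4 = 2 * T.w x0 := by rw [a_symm T]; omega
    have ed0 : T.a x0 x0 = -2 * T.w x0 := by omega
    have ed1 : T.a x1 x1 = -2 * T.w x0 := by omega
    have ed2 : T.a x2 x2 = -4 * T.w x0 := by omega
    have ed3 : T.a x3 x3 = -4 * T.w x0 := by omega
    have ed4 : T.a x4 x4 = -4 * T.w x0 := by omega
    have R0 : T.w x0 * (-2 * T.m x0 + 1 * T.m x1 + 2 * T.m x4) = 0 := by linear_combination r0 - (T.m x0) * ed0 - (T.m x1) * ea01 - (T.m x2) * z02 - (T.m x3) * z03 - (T.m x4) * ea04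
    have S0 := (mul_eq_zero.1 R0).resolve_left (T.w_pos x0).ne'
    have R1 : T.w x0 * (1 * T.m x0 + -2 * T.m x1 + 2 * T.m x2) = 0 := by linear_combination r1 - (T.m x0) * ea10 - (T.m x1) * ed1 - (T.m x2) * ea12 - (T.m x3) * z13 - (T.m x4) * z14
    have S1 := (mul_eq_zero.1 R1).resolve_left (T.w_pos x0).ne'
    have R2 : T.w x0 * (2 * T.m x1 + -4 * T.m x2 + 2 * T.m x3) = 0 := by linear_combination r2 - (T.m x0) * z20 - (T.m x1) * ea21 - (T.m x2) * ed2 - (T.m x3) * ea23 - (T.m x4) * z24
    have S2 := (mul_eq_zero.1 R2).resolve_left (T.w_pos x0).ne'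
    have R3 : T.w x0 * (2 * T.m x2 + -4 * T.m x3 + 2 * T.m x4) = 0 := by linear_combination r3 - (T.m x0) * z30 - (T.m x1) * z31 - (T.m x2) * ea32 - (T.m x3) * ed3 - (T.m x4) * ea34
    have S3 := (mul_eq_zero.1 R3).resolve_left (T.w_pos x0).ne'
    have R4 : T.w x0 * (2 * T.m x0 + 2 * T.m x3 + -4 * T.m x4) = 0 := by linear_combination r4 - (T.m x0) * ea40 - (T.m x1) * z41 - (T.m x2) * z42 - (T.m x3) * ea43 - (T.m x4) * ed4
    have S4 := (mul_eq_zero.1 R4).resolve_left (T.w_pos x0).ne'
    exfalso; linarith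
  · -- (('S', 'R'), ('S', 'S'), ('S', 'R'))
    exfalso; omega
  · -- (('S', 'R'), ('S', 'S'), ('L', 'S'))
    exfalso; omega
  · -- (('S', 'R'), ('S', 'S'), ('R', 'S'))
    exfalso; omega
  · -- (('S', 'R'), ('S', 'L'), ('S', 'S'))
    exfalso; omega
  · -- (('S', 'R'), ('S', 'L'), ('S', 'L'))
    exfalso; omega
  · -- (('S', 'R'), ('S', 'L'), ('S', 'R'))
    exfalso; omega
  · -- (('S', 'R'), ('S', 'L'), ('L', 'S'))
    have ew0 : T.w x0 = 1 * T.w x0 := by omega
    have ew1 : T.w x1 = 1 * T.w x0 := by omega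
    have ew2 : T.w x2 = 2 * T.w x0 := by omega
    have ew3 : T.w x3 = 2 * T.w x0 := by omega
    have ew4 : T.w x4 = 1 * T.w x0 := by omega
    have ea01 : T.a x0 x1 = 1 * T.w x0 := by omega
    have ea10 : T.a x1 x0 = 1 * T.w x0 := by rw [a_symm T]; omega
    have ea12 : T.a x1 x2 = 2 * T.w x0 := by omega
    have ea21 : T.a x2 x1 = 2 * T.w x0 := by rw [a_symm T]; omega
    have ea23 : T.a x2 x3 = 2 * T.w x0 := by omega
    have ea32 : T.a x3 x2 = 2 * T.w x0 := by rw [a_symm T]; omega
    have ea34 : T.a x3 x4 = 2 * T.w x0 := by omega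
    have ea43 : T.a x4 x3 = 2 * T.w x0 := by rw [a_symm T]; omega
    have ea40 : T.a x4 x0 = 1 * T.w x0 := by omega
    have ea04 : T.a x0 x4 = 1 * T.w x0 := by rw [a_symm T]; omega
    have ed0 : T.a x0 x0 = -2 * T.w x0 := by omega
    have ed1 : T.a x1 x1 = -2 * T.w x0 := by omega
    have ed2 : T.a x2 x2 = -4 * T.w x0 := by omega
    have ed3 : T.a x3 x3 = -4 * T.w x0 := by omega
    have ed4 : T.a x4 x4 = -2 * T.w x0 := by omega
    have R0 : T.w x0 * (-2 * T.m x0 + 1 * T.m x1 + 1 * T.m x4) = 0 := by linear_combination r0 - (T.m x0) * ed0 - (T.m x1) * ea01 - (T.m x2) * z02 - (T.m x3) * z03 - (T.m x4) * ea04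
    have S0 := (mul_eq_zero.1 R0).resolve_left (T.w_pos x0).ne'
    have R1 : T.w x0 * (1 * T.m x0 + -2 * T.m x1 + 2 * T.m x2) = 0 := by linear_combination r1 - (T.m x0) * ea10 - (T.m x1) * ed1 - (T.m x2) * ea12 - (T.m x3) * z13 - (T.m x4) * z14
    have S1 := (mul_eq_zero.1 R1).resolve_left (T.w_pos x0).ne'
    have R2 : T.w x0 * (2 * T.m x1 + -4 * T.m x2 + 2 * T.m x3) = 0 := by linear_combination r2 - (T.m x0) * z20 - (T.m x1) * ea21 - (T.m x2) * ed2 - (T.m x3) * ea23 - (T.m x4) * z24
    have S2 := (mul_eq_zero.1 R2).resolve_left (T.w_pos x0).ne'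
    have R3 : T.w x0 * (2 * T.m x2 + -4 * T.m x3 + 2 * T.m x4) = 0 := by linear_combination r3 - (T.m x0) * z30 - (T.m x1) * z31 - (T.m x2) * ea32 - (T.m x3) * ed3 - (T.m x4) * ea34
    have S3 := (mul_eq_zero.1 R3).resolve_left (T.w_pos x0).ne'
    have R4 : T.w x0 * (1 * T.m x0 + 2 * T.m x3 + -2 * T.m x4) = 0 := by linear_combination r4 - (T.m x0) * ea40 - (T.m x1) * z41 - (T.m x2) * z42 - (T.m x3) * ea43 - (T.m x4) * ed4
    have S4 := (mul_eq_zero.1 R4).resolve_left (T.w_pos x0).ne'
    exfalso; linarith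
  · -- (('S', 'R'), ('S', 'L'), ('R', 'S'))
    exfalso; omega
  · -- (('S', 'R'), ('S', 'R'), ('S', 'S'))
    exfalso; omega
  · -- (('S', 'R'), ('S', 'R'), ('S', 'L'))
    exfalso; omega
  · -- (('S', 'R'), ('S', 'R'), ('S', 'R'))
    exfalso; omega
  · -- (('S', 'R'), ('S', 'R'), ('L', 'S'))
    exfalso; omega
  · -- (('S', 'R'), ('S', 'R'), ('R', 'S'))
    exfalso; omega
  · -- (('S', 'R'), ('L', 'S'), ('S', 'S'))
    have ew0 : T.w x0 = 1 * T.w x0 := by omega
    have ew1 : T.w x1 = 1 * T.w x0 := by omega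
    have ew2 : T.w x2 = 2 * T.w x0 := by omega
    have ew3 : T.w x3 = 1 * T.w x0 := by omega
    have ew4 : T.w x4 = 1 * T.w x0 := by omega
    have ea01 : T.a x0 x1 = 1 * T.w x0 := by omega
    have ea10 : T.a x1 x0 = 1 * T.w x0 := by rw [a_symm T]; omega
    have ea12 : T.a x1 x2 = 2 * T.w x0 := by omega
    have ea21 : T.a x2 x1 = 2 * T.w x0 := by rw [a_symm T]; omega
    have ea23 : T.a x2 x3 = 2 * T.w x0 := by omega
    have ea32 : T.a x3 x2 = 2 * T.w x0 := by rw [a_symm T]; omega
    have ea34 : T.a x3 x4 = 1 * T.w x0 := by omega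
    have ea43 : T.a x4 x3 = 1 * T.w x0 := by rw [a_symm T]; omega
    have ea40 : T.a x4 x0 = 1 * T.w x0 := by omega
    have ea04 : T.a x0 x4 = 1 * T.w x0 := by rw [a_symm T]; omega
    have ed0 : T.a x0 x0 = -2 * T.w x0 := by omega
    have ed1 : T.a x1 x1 = -2 * T.w x0 := by omega
    have ed2 : T.a x2 x2 = -4 * T.w x0 := by omega
    have ed3 : T.a x3 x3 = -2 * T.w x0 := by omega
    have ed4 : T.a x4 x4 = -2 * T.w x0 := by omega
    have R0 : T.w x0 * (-2 * T.m x0 + 1 * T.m x1 + 1 * T.m x4) = 0 := by linear_combination r0 - (T.m x0) * ed0 - (T.m x1) * ea01 - (T.m x2) * z02 - (T.m x3) * z03 - (T.m x4) * ea04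
    have S0 := (mul_eq_zero.1 R0).resolve_left (T.w_pos x0).ne'
    have R1 : T.w x0 * (1 * T.m x0 + -2 * T.m x1 + 2 * T.m x2) = 0 := by linear_combination r1 - (T.m x0) * ea10 - (T.m x1) * ed1 - (T.m x2) * ea12 - (T.m x3) * z13 - (T.m x4) * z14
    have S1 := (mul_eq_zero.1 R1).resolve_left (T.w_pos x0).ne'
    have R2 : T.w x0 * (2 * T.m x1 + -4 * T.m x2 + 2 * T.m x3) = 0 := by linear_combination r2 - (T.m x0) * z20 - (T.m x1) * ea21 - (T.m x2) * ed2 - (T.m x3) * ea23 - (T.m x4) * z24
    have S2 := (mul_eq_zero.1 R2).resolve_left (T.w_pos x0).ne'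
    have R3 : T.w x0 * (2 * T.m x2 + -2 * T.m x3 + 1 * T.m x4) = 0 := by linear_combination r3 - (T.m x0) * z30 - (T.m x1) * z31 - (T.m x2) * ea32 - (T.m x3) * ed3 - (T.m x4) * ea34
    have S3 := (mul_eq_zero.1 R3).resolve_left (T.w_pos x0).ne'
    have R4 : T.w x0 * (1 * T.m x0 + 1 * T.m x3 + -2 * T.m x4) = 0 := by linear_combination r4 - (T.m x0) * ea40 - (T.m x1) * z41 - (T.m x2) * z42 - (T.m x3) * ea43 - (T.m x4) * ed4
    have S4 := (mul_eq_zero.1 R4).resolve_left (T.w_pos x0).ne'
    exfalso; linarith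
  · -- (('S', 'R'), ('L', 'S'), ('S', 'L'))
    exfalso; omega
  · -- (('S', 'R'), ('L', 'S'), ('S', 'R'))
    exfalso; omega
  · -- (('S', 'R'), ('L', 'S'), ('L', 'S'))
    exfalso; omega
  · -- (('S', 'R'), ('L', 'S'), ('R', 'S'))
    exfalso; omega
  · -- (('S', 'R'), ('R', 'S'), ('S', 'S'))
    exfalso; omega
  · -- (('S', 'R'), ('R', 'S'), ('S', 'L'))
    exfalso; omega
  · -- (('S', 'R'), ('R', 'S'), ('S', 'R'))
    exfalso; omega
  · -- (('S', 'R'), ('R', 'S'), ('L', 'S'))
    exfalso; omega
  · -- (('S', 'R'), ('R', 'S'), ('R', 'S'))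
    exfalso; omega
  · -- (('L', 'S'), ('S', 'S'), ('S', 'S'))
    exfalso; omega
  · -- (('L', 'S'), ('S', 'S'), ('S', 'L'))
    exfalso; omega
  · -- (('L', 'S'), ('S', 'S'), ('S', 'R'))
    have ew0 : T.w x0 = 2 * T.w x1 := by omega
    have ew1 : T.w x1 = 1 * T.w x1 := by omega
    have ew2 : T.w x2 = 1 * T.w x1 := by omega
    have ew3 : T.w x3 = 1 * T.w x1 := by omega
    have ew4 : T.w x4 = 1 * T.w x1 := by omega
    have ea01 : T.a x0 x1 = 2 * T.w x1 := by omega
    have ea10 : T.a x1 x0 = 2 * T.w x1 := by rw [a_symm T]; omega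
    have ea12 : T.a x1 x2 = 1 * T.w x1 := by omega
    have ea21 : T.a x2 x1 = 1 * T.w x1 := by rw [a_symm T]; omega
    have ea23 : T.a x2 x3 = 1 * T.w x1 := by omega
    have ea32 : T.a x3 x2 = 1 * T.w x1 := by rw [a_symm T]; omega
    have ea34 : T.a x3 x4 = 1 * T.w x1 := by omega
    have ea43 : T.a x4 x3 = 1 * T.w x1 := by rw [a_symm T]; omega
    have ea40 : T.a x4 x0 = 2 * T.w x1 := by omega
    have ea04 : T.a x0 x4 = 2 * T.w x1 := by rw [a_symm T]; omega
    have ed0 : T.a x0 x0 = -4 * T.w x1 := by omega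
    have ed1 : T.a x1 x1 = -2 * T.w x1 := by omega
    have ed2 : T.a x2 x2 = -2 * T.w x1 := by omega
    have ed3 : T.a x3 x3 = -2 * T.w x1 := by omega
    have ed4 : T.a x4 x4 = -2 * T.w x1 := by omega
    have R0 : T.w x1 * (-4 * T.m x0 + 2 * T.m x1 + 2 * T.m x4) = 0 := by linear_combination r0 - (T.m x0) * ed0 - (T.m x1) * ea01 - (T.m x2) * z02 - (T.m x3) * z03 - (T.m x4) * ea04
    have S0 := (mul_eq_zero.1 R0).resolve_left (T.w_pos x1).ne'
    have R1 : T.w x1 * (2 * T.m x0 + -2 * T.m x1 + 1 * T.m x2) = 0 := by linear_combination r1 - (T.m x0) * ea10 - (T.m x1) * ed1 - (T.m x2) * ea12 - (T.m x3) * z13 - (T.m x4) * z14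
    have S1 := (mul_eq_zero.1 R1).resolve_left (T.w_pos x1).ne'
    have R2 : T.w x1 * (1 * T.m x1 + -2 * T.m x2 + 1 * T.m x3) = 0 := by linear_combination r2 - (T.m x0) * z20 - (T.m x1) * ea21 - (T.m x2) * ed2 - (T.m x3) * ea23 - (T.m x4) * z24
    have S2 := (mul_eq_zero.1 R2).resolve_left (T.w_pos x1).ne'
    have R3 : T.w x1 * (1 * T.m x2 + -2 * T.m x3 + 1 * T.m x4) = 0 := by linear_combination r3 - (T.m x0) * z30 - (T.m x1) * z31 - (T.m x2) * ea32 - (T.m x3) * ed3 - (T.m x4) * ea34
    have S3 := (mul_eq_zero.1 R3).resolve_left (T.w_pos x1).ne'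
    have R4 : T.w x1 * (2 * T.m x0 + 1 * T.m x3 + -2 * T.m x4) = 0 := by linear_combination r4 - (T.m x0) * ea40 - (T.m x1) * z41 - (T.m x2) * z42 - (T.m x3) * ea43 - (T.m x4) * ed4
    have S4 := (mul_eq_zero.1 R4).resolve_left (T.w_pos x1).ne'
    exfalso; linarith
  · -- (('L', 'S'), ('S', 'S'), ('L', 'S'))
    exfalso; omega
  · -- (('L', 'S'), ('S', 'S'), ('R', 'S'))
    exfalso; omega
  · -- (('L', 'S'), ('S', 'L'), ('S', 'S'))
    exfalso; omega
  · -- (('L', 'S'), ('S', 'L'), ('S', 'L'))
    exfalso; omega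
  · -- (('L', 'S'), ('S', 'L'), ('S', 'R'))
    exfalso; omega
  · -- (('L', 'S'), ('S', 'L'), ('L', 'S'))
    exfalso; omega
  · -- (('L', 'S'), ('S', 'L'), ('R', 'S'))
    exfalso; omega
  · -- (('L', 'S'), ('S', 'R'), ('S', 'S'))
    exfalso; omega
  · -- (('L', 'S'), ('S', 'R'), ('S', 'L'))
    exfalso; omega
  · -- (('L', 'S'), ('S', 'R'), ('S', 'R'))
    exfalso; omega
  · -- (('L', 'S'), ('S', 'R'), ('L', 'S'))
    exfalso; omega
  · -- (('L', 'S'), ('S', 'R'), ('R', 'S'))
    have ew0 : T.w x0 = 2 * T.w x1 := by omega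
    have ew1 : T.w x1 = 1 * T.w x1 := by omega
    have ew2 : T.w x2 = 1 * T.w x1 := by omega
    have ew3 : T.w x3 = 1 * T.w x1 := by omega
    have ew4 : T.w x4 = 2 * T.w x1 := by omega
    have ea01 : T.a x0 x1 = 2 * T.w x1 := by omega
    have ea10 : T.a x1 x0 = 2 * T.w x1 := by rw [a_symm T]; omega
    have ea12 : T.a x1 x2 = 1 * T.w x1 := by omega
    have ea21 : T.a x2 x1 = 1 * T.w x1 := by rw [a_symm T]; omega
    have ea23 : T.a x2 x3 = 1 * T.w x1 := by omega
    have ea32 : T.a x3 x2 = 1 * T.w x1 := by rw [a_symm T]; omega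
    have ea34 : T.a x3 x4 = 2 * T.w x1 := by omega
    have ea43 : T.a x4 x3 = 2 * T.w x1 := by rw [a_symm T]; omega
    have ea40 : T.a x4 x0 = 2 * T.w x1 := by omega
    have ea04 : T.a x0 x4 = 2 * T.w x1 := by rw [a_symm T]; omega
    have ed0 : T.a x0 x0 = -4 * T.w x1 := by omega
    have ed1 : T.a x1 x1 = -2 * T.w x1 := by omega
    have ed2 : T.a x2 x2 = -2 * T.w x1 := by omega
    have ed3 : T.a x3 x3 = -2 * T.w x1 := by omega
    have ed4 : T.a x4 x4 = -4 * T.w x1 := by omega
    have R0 : T.w x1 * (-4 * T.m x0 + 2 * T.m x1 + 2 * T.m x4) = 0 := by linear_combination r0 - (T.m x0) * ed0 - (T.m x1) * ea01 - (T.m x2) * z02 - (T.m x3) * z03 - (T.m x4) * ea04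
    have S0 := (mul_eq_zero.1 R0).resolve_left (T.w_pos x1).ne'
    have R1 : T.w x1 * (2 * T.m x0 + -2 * T.m x1 + 1 * T.m x2) = 0 := by linear_combination r1 - (T.m x0) * ea10 - (T.m x1) * ed1 - (T.m x2) * ea12 - (T.m x3) * z13 - (T.m x4) * z14
    have S1 := (mul_eq_zero.1 R1).resolve_left (T.w_pos x1).ne'
    have R2 : T.w x1 * (1 * T.m x1 + -2 * T.m x2 + 1 * T.m x3) = 0 := by linear_combination r2 - (T.m x0) * z20 - (T.m x1) * ea21 - (T.m x2) * ed2 - (T.m x3) * ea23 - (T.m x4) * z24
    have S2 := (mul_eq_zero.1 R2).resolve_left (T.w_pos x1).ne'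
    have R3 : T.w x1 * (1 * T.m x2 + -2 * T.m x3 + 2 * T.m x4) = 0 := by linear_combination r3 - (T.m x0) * z30 - (T.m x1) * z31 - (T.m x2) * ea32 - (T.m x3) * ed3 - (T.m x4) * ea34
    have S3 := (mul_eq_zero.1 R3).resolve_left (T.w_pos x1).ne'
    have R4 : T.w x1 * (2 * T.m x0 + 2 * T.m x3 + -4 * T.m x4) = 0 := by linear_combination r4 - (T.m x0) * ea40 - (T.m x1) * z41 - (T.m x2) * z42 - (T.m x3) * ea43 - (T.m x4) * ed4
    have S4 := (mul_eq_zero.1 R4).resolve_left (T.w_pos x1).ne'
    exfalso; linarith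
  · -- (('L', 'S'), ('L', 'S'), ('S', 'S'))
    exfalso; omega
  · -- (('L', 'S'), ('L', 'S'), ('S', 'L'))
    exfalso; omega
  · -- (('L', 'S'), ('L', 'S'), ('S', 'R'))
    exfalso; omega
  · -- (('L', 'S'), ('L', 'S'), ('L', 'S'))
    exfalso; omega
  · -- (('L', 'S'), ('L', 'S'), ('R', 'S'))
    exfalso; omega
  · -- (('L', 'S'), ('R', 'S'), ('S', 'S'))
    have ew0 : T.w x0 = 2 * T.w x1 := by omega
    have ew1 : T.w x1 = 1 * T.w x1 := by omega
    have ew2 : T.w x2 = 1 * T.w x1 := by omega
    have ew3 : T.w x3 = 2 * T.w x1 := by omega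
    have ew4 : T.w x4 = 2 * T.w x1 := by omega
    have ea01 : T.a x0 x1 = 2 * T.w x1 := by omega
    have ea10 : T.a x1 x0 = 2 * T.w x1 := by rw [a_symm T]; omega
    have ea12 : T.a x1 x2 = 1 * T.w x1 := by omega
    have ea21 : T.a x2 x1 = 1 * T.w x1 := by rw [a_symm T]; omega
    have ea23 : T.a x2 x3 = 2 * T.w x1 := by omega
    have ea32 : T.a x3 x2 = 2 * T.w x1 := by rw [a_symm T]; omega
    have ea34 : T.a x3 x4 = 2 * T.w x1 := by omega
    have ea43 : T.a x4 x3 = 2 * T.w x1 := by rw [a_symm T]; omega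
    have ea40 : T.a x4 x0 = 2 * T.w x1 := by omega
    have ea04 : T.a x0 x4 = 2 * T.w x1 := by rw [a_symm T]; omega
    have ed0 : T.a x0 x0 = -4 * T.w x1 := by omega
    have ed1 : T.a x1 x1 = -2 * T.w x1 := by omega
    have ed2 : T.a x2 x2 = -2 * T.w x1 := by omega
    have ed3 : T.a x3 x3 = -4 * T.w x1 := by omega
    have ed4 : T.a x4 x4 = -4 * T.w x1 := by omega
    have R0 : T.w x1 * (-4 * T.m x0 + 2 * T.m x1 + 2 * T.m x4) = 0 := by linear_combination r0 - (T.m x0) * ed0 - (T.m x1) * ea01 - (T.m x2) * z02 - (T.m x3) * z03 - (T.m x4) * ea04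
    have S0 := (mul_eq_zero.1 R0).resolve_left (T.w_pos x1).ne'
    have R1 : T.w x1 * (2 * T.m x0 + -2 * T.m x1 + 1 * T.m x2) = 0 := by linear_combination r1 - (T.m x0) * ea10 - (T.m x1) * ed1 - (T.m x2) * ea12 - (T.m x3) * z13 - (T.m x4) * z14
    have S1 := (mul_eq_zero.1 R1).resolve_left (T.w_pos x1).ne'
    have R2 : T.w x1 * (1 * T.m x1 + -2 * T.m x2 + 2 * T.m x3) = 0 := by linear_combination r2 - (T.m x0) * z20 - (T.m x1) * ea21 - (T.m x2) * ed2 - (T.m x3) * ea23 - (T.m x4) * z24
    have S2 := (mul_eq_zero.1 R2).resolve_left (T.w_pos x1).ne'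
    have R3 : T.w x1 * (2 * T.m x2 + -4 * T.m x3 + 2 * T.m x4) = 0 := by linear_combination r3 - (T.m x0) * z30 - (T.m x1) * z31 - (T.m x2) * ea32 - (T.m x3) * ed3 - (T.m x4) * ea34
    have S3 := (mul_eq_zero.1 R3).resolve_left (T.w_pos x1).ne'
    have R4 : T.w x1 * (2 * T.m x0 + 2 * T.m x3 + -4 * T.m x4) = 0 := by linear_combination r4 - (T.m x0) * ea40 - (T.m x1) * z41 - (T.m x2) * z42 - (T.m x3) * ea43 - (T.m x4) * ed4
    have S4 := (mul_eq_zero.1 R4).resolve_left (T.w_pos x1).ne'
    exfalso; linarith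
  · -- (('L', 'S'), ('R', 'S'), ('S', 'L'))
    exfalso; omega
  · -- (('L', 'S'), ('R', 'S'), ('S', 'R'))
    exfalso; omega
  · -- (('L', 'S'), ('R', 'S'), ('L', 'S'))
    exfalso; omega
  · -- (('L', 'S'), ('R', 'S'), ('R', 'S'))
    exfalso; omega
  · -- (('R', 'S'), ('S', 'S'), ('S', 'S'))
    exfalso; omega
  · -- (('R', 'S'), ('S', 'S'), ('S', 'L'))
    have ew0 : T.w x0 = 1 * T.w x0 := by omega
    have ew1 : T.w x1 = 2 * T.w x0 := by omega
    have ew2 : T.w x2 = 2 * T.w x0 := by omega
    have ew3 : T.w x3 = 2 * T.w x0 := by omega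
    have ew4 : T.w x4 = 2 * T.w x0 := by omega
    have ea01 : T.a x0 x1 = 2 * T.w x0 := by omega
    have ea10 : T.a x1 x0 = 2 * T.w x0 := by rw [a_symm T]; omega
    have ea12 : T.a x1 x2 = 2 * T.w x0 := by omega
    have ea21 : T.a x2 x1 = 2 * T.w x0 := by rw [a_symm T]; omega
    have ea23 : T.a x2 x3 = 2 * T.w x0 := by omega
    have ea32 : T.a x3 x2 = 2 * T.w x0 := by rw [a_symm T]; omega
    have ea34 : T.a x3 x4 = 2 * T.w x0 := by omega
    have ea43 : T.a x4 x3 = 2 * T.w x0 := by rw [a_symm T]; omega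
    have ea40 : T.a x4 x0 = 2 * T.w x0 := by omega
    have ea04 : T.a x0 x4 = 2 * T.w x0 := by rw [a_symm T]; omega
    have ed0 : T.a x0 x0 = -2 * T.w x0 := by omega
    have ed1 : T.a x1 x1 = -4 * T.w x0 := by omega
    have ed2 : T.a x2 x2 = -4 * T.w x0 := by omega
    have ed3 : T.a x3 x3 = -4 * T.w x0 := by omega
    have ed4 : T.a x4 x4 = -4 * T.w x0 := by omega
    have R0 : T.w x0 * (-2 * T.m x0 + 2 * T.m x1 + 2 * T.m x4) = 0 := by linear_combination r0 - (T.m x0) * ed0 - (T.m x1) * ea01 - (T.m x2) * z02 - (T.m x3) * z03 - (T.m x4) * ea04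
    have S0 := (mul_eq_zero.1 R0).resolve_left (T.w_pos x0).ne'
    have R1 : T.w x0 * (2 * T.m x0 + -4 * T.m x1 + 2 * T.m x2) = 0 := by linear_combination r1 - (T.m x0) * ea10 - (T.m x1) * ed1 - (T.m x2) * ea12 - (T.m x3) * z13 - (T.m x4) * z14
    have S1 := (mul_eq_zero.1 R1).resolve_left (T.w_pos x0).ne'
    have R2 : T.w x0 * (2 * T.m x1 + -4 * T.m x2 + 2 * T.m x3) = 0 := by linear_combination r2 - (T.m x0) * z20 - (T.m x1) * ea21 - (T.m x2) * ed2 - (T.m x3) * ea23 - (T.m x4) * z24
    have S2 := (mul_eq_zero.1 R2).resolve_left (T.w_pos x0).ne'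
    have R3 : T.w x0 * (2 * T.m x2 + -4 * T.m x3 + 2 * T.m x4) = 0 := by linear_combination r3 - (T.m x0) * z30 - (T.m x1) * z31 - (T.m x2) * ea32 - (T.m x3) * ed3 - (T.m x4) * ea34
    have S3 := (mul_eq_zero.1 R3).resolve_left (T.w_pos x0).ne'
    have R4 : T.w x0 * (2 * T.m x0 + 2 * T.m x3 + -4 * T.m x4) = 0 := by linear_combination r4 - (T.m x0) * ea40 - (T.m x1) * z41 - (T.m x2) * z42 - (T.m x3) * ea43 - (T.m x4) * ed4
    have S4 := (mul_eq_zero.1 R4).resolve_left (T.w_pos x0).ne'
    exfalso; linarith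
  · -- (('R', 'S'), ('S', 'S'), ('S', 'R'))
    exfalso; omega
  · -- (('R', 'S'), ('S', 'S'), ('L', 'S'))
    exfalso; omega
  · -- (('R', 'S'), ('S', 'S'), ('R', 'S'))
    exfalso; omega
  · -- (('R', 'S'), ('S', 'L'), ('S', 'S'))
    exfalso; omega
  · -- (('R', 'S'), ('S', 'L'), ('S', 'L'))
    exfalso; omega
  · -- (('R', 'S'), ('S', 'L'), ('S', 'R'))
    exfalso; omega
  · -- (('R', 'S'), ('S', 'L'), ('L', 'S'))
    have ew0 : T.w x0 = 1 * T.w x0 := by omega
    have ew1 : T.w x1 = 2 * T.w x0 := by omega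
    have ew2 : T.w x2 = 2 * T.w x0 := by omega
    have ew3 : T.w x3 = 2 * T.w x0 := by omega
    have ew4 : T.w x4 = 1 * T.w x0 := by omega
    have ea01 : T.a x0 x1 = 2 * T.w x0 := by omega
    have ea10 : T.a x1 x0 = 2 * T.w x0 := by rw [a_symm T]; omega
    have ea12 : T.a x1 x2 = 2 * T.w x0 := by omega
    have ea21 : T.a x2 x1 = 2 * T.w x0 := by rw [a_symm T]; omega
    have ea23 : T.a x2 x3 = 2 * T.w x0 := by omega
    have ea32 : T.a x3 x2 = 2 * T.w x0 := by rw [a_symm T]; omega
    have ea34 : T.a x3 x4 = 2 * T.w x0 := by omega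
    have ea43 : T.a x4 x3 = 2 * T.w x0 := by rw [a_symm T]; omega
    have ea40 : T.a x4 x0 = 1 * T.w x0 := by omega
    have ea04 : T.a x0 x4 = 1 * T.w x0 := by rw [a_symm T]; omega
    have ed0 : T.a x0 x0 = -2 * T.w x0 := by omega
    have ed1 : T.a x1 x1 = -4 * T.w x0 := by omega
    have ed2 : T.a x2 x2 = -4 * T.w x0 := by omega
    have ed3 : T.a x3 x3 = -4 * T.w x0 := by omega
    have ed4 : T.a x4 x4 = -2 * T.w x0 := by omega
    have R0 : T.w x0 * (-2 * T.m x0 + 2 * T.m x1 + 1 * T.m x4) = 0 := by linear_combination r0 - (T.m x0) * ed0 - (T.m x1) * ea01 - (T.m x2) * z02 - (T.m x3) * z03 - (T.m x4) * ea04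
    have S0 := (mul_eq_zero.1 R0).resolve_left (T.w_pos x0).ne'
    have R1 : T.w x0 * (2 * T.m x0 + -4 * T.m x1 + 2 * T.m x2) = 0 := by linear_combination r1 - (T.m x0) * ea10 - (T.m x1) * ed1 - (T.m x2) * ea12 - (T.m x3) * z13 - (T.m x4) * z14
    have S1 := (mul_eq_zero.1 R1).resolve_left (T.w_pos x0).ne'
    have R2 : T.w x0 * (2 * T.m x1 + -4 * T.m x2 + 2 * T.m x3) = 0 := by linear_combination r2 - (T.m x0) * z20 - (T.m x1) * ea21 - (T.m x2) * ed2 - (T.m x3) * ea23 - (T.m x4) * z24
    have S2 := (mul_eq_zero.1 R2).resolve_left (T.w_pos x0).ne'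
    have R3 : T.w x0 * (2 * T.m x2 + -4 * T.m x3 + 2 * T.m x4) = 0 := by linear_combination r3 - (T.m x0) * z30 - (T.m x1) * z31 - (T.m x2) * ea32 - (T.m x3) * ed3 - (T.m x4) * ea34
    have S3 := (mul_eq_zero.1 R3).resolve_left (T.w_pos x0).ne'
    have R4 : T.w x0 * (1 * T.m x0 + 2 * T.m x3 + -2 * T.m x4) = 0 := by linear_combination r4 - (T.m x0) * ea40 - (T.m x1) * z41 - (T.m x2) * z42 - (T.m x3) * ea43 - (T.m x4) * ed4
    have S4 := (mul_eq_zero.1 R4).resolve_left (T.w_pos x0).ne'
    exfalso; linarith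
  · -- (('R', 'S'), ('S', 'L'), ('R', 'S'))
    exfalso; omega
  · -- (('R', 'S'), ('S', 'R'), ('S', 'S'))
    exfalso; omega
  · -- (('R', 'S'), ('S', 'R'), ('S', 'L'))
    exfalso; omega
  · -- (('R', 'S'), ('S', 'R'), ('S', 'R'))
    exfalso; omega
  · -- (('R', 'S'), ('S', 'R'), ('L', 'S'))
    exfalso; omega
  · -- (('R', 'S'), ('S', 'R'), ('R', 'S'))
    exfalso; omega
  · -- (('R', 'S'), ('L', 'S'), ('S', 'S'))
    have ew0 : T.w x0 = 1 * T.w x0 := by omega
    have ew1 : T.w x1 = 2 * T.w x0 := by omega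
    have ew2 : T.w x2 = 2 * T.w x0 := by omega
    have ew3 : T.w x3 = 1 * T.w x0 := by omega
    have ew4 : T.w x4 = 1 * T.w x0 := by omega
    have ea01 : T.a x0 x1 = 2 * T.w x0 := by omega
    have ea10 : T.a x1 x0 = 2 * T.w x0 := by rw [a_symm T]; omega
    have ea12 : T.a x1 x2 = 2 * T.w x0 := by omega
    have ea21 : T.a x2 x1 = 2 * T.w x0 := by rw [a_symm T]; omega
    have ea23 : T.a x2 x3 = 2 * T.w x0 := by omega
    have ea32 : T.a x3 x2 = 2 * T.w x0 := by rw [a_symm T]; omega
    have ea34 : T.a x3 x4 = 1 * T.w x0 := by omega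
    have ea43 : T.a x4 x3 = 1 * T.w x0 := by rw [a_symm T]; omega
    have ea40 : T.a x4 x0 = 1 * T.w x0 := by omega
    have ea04 : T.a x0 x4 = 1 * T.w x0 := by rw [a_symm T]; omega
    have ed0 : T.a x0 x0 = -2 * T.w x0 := by omega
    have ed1 : T.a x1 x1 = -4 * T.w x0 := by omega
    have ed2 : T.a x2 x2 = -4 * T.w x0 := by omega
    have ed3 : T.a x3 x3 = -2 * T.w x0 := by omega
    have ed4 : T.a x4 x4 = -2 * T.w x0 := by omega
    have R0 : T.w x0 * (-2 * T.m x0 + 2 * T.m x1 + 1 * T.m x4) = 0 := by linear_combination r0 - (T.m x0) * ed0 - (T.m x1) * ea01 - (T.m x2) * z02 - (T.m x3) * z03 - (T.m x4) * ea04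
    have S0 := (mul_eq_zero.1 R0).resolve_left (T.w_pos x0).ne'
    have R1 : T.w x0 * (2 * T.m x0 + -4 * T.m x1 + 2 * T.m x2) = 0 := by linear_combination r1 - (T.m x0) * ea10 - (T.m x1) * ed1 - (T.m x2) * ea12 - (T.m x3) * z13 - (T.m x4) * z14
    have S1 := (mul_eq_zero.1 R1).resolve_left (T.w_pos x0).ne'
    have R2 : T.w x0 * (2 * T.m x1 + -4 * T.m x2 + 2 * T.m x3) = 0 := by linear_combination r2 - (T.m x0) * z20 - (T.m x1) * ea21 - (T.m x2) * ed2 - (T.m x3) * ea23 - (T.m x4) * z24
    have S2 := (mul_eq_zero.1 R2).resolve_left (T.w_pos x0).ne'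
    have R3 : T.w x0 * (2 * T.m x2 + -2 * T.m x3 + 1 * T.m x4) = 0 := by linear_combination r3 - (T.m x0) * z30 - (T.m x1) * z31 - (T.m x2) * ea32 - (T.m x3) * ed3 - (T.m x4) * ea34
    have S3 := (mul_eq_zero.1 R3).resolve_left (T.w_pos x0).ne'
    have R4 : T.w x0 * (1 * T.m x0 + 1 * T.m x3 + -2 * T.m x4) = 0 := by linear_combination r4 - (T.m x0) * ea40 - (T.m x1) * z41 - (T.m x2) * z42 - (T.m x3) * ea43 - (T.m x4) * ed4
    have S4 := (mul_eq_zero.1 R4).resolve_left (T.w_pos x0).ne'
    exfalso; linarith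
  · -- (('R', 'S'), ('L', 'S'), ('S', 'L'))
    exfalso; omega
  · -- (('R', 'S'), ('L', 'S'), ('S', 'R'))
    exfalso; omega
  · -- (('R', 'S'), ('L', 'S'), ('L', 'S'))
    exfalso; omega
  · -- (('R', 'S'), ('L', 'S'), ('R', 'S'))
    exfalso; omega
  · -- (('R', 'S'), ('R', 'S'), ('S', 'S'))
    exfalso; omega
  · -- (('R', 'S'), ('R', 'S'), ('S', 'L'))
    exfalso; omega
  · -- (('R', 'S'), ('R', 'S'), ('S', 'R'))
    exfalso; omega
  · -- (('R', 'S'), ('R', 'S'), ('L', 'S'))
    exfalso; omega
  · -- (('R', 'S'), ('R', 'S'), ('R', 'S'))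
    exfalso; omega

set_option maxHeartbeats 4000000 in
/-- Genus one classification: case n = 5: let T be a minimal numerical type of genus 1 on 5 indices.
Then all g_i = 0 and, for some permutation σ of the indices and some integers m, w, the
multiplicities, weights and intersection matrix (m_{σ(i)}, w_{σ(i)}, a_{σ(i)σ(j)}) are those of one
of the following 9 types: [five cycle] m = (m, m, m, m, m), w = (w, w, w, w, w), a = (-2 * w w 0 0 w
/ w -2 * w w 0 0 / 0 w -2 * w w 0 / 0 0 w -2 * w w / w 0 0 w -2 * w); [equal equal up equal] m = (m,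
2 * m, 3 * m, 2 * m, m), w = (w, w, w, 2 * w, 2 * w), a = (-2 * w w 0 0 0 / w -2 * w w 0 0 / 0 w -2
* w 2 * w 0 / 0 0 2 * w -4 * w 2 * w / 0 0 0 2 * w -4 * w); [equal equal down equal] m = (m, 2 * m,
3 * m, 4 * m, 2 * m), w = (2 * w, 2 * w, 2 * w, w, w), a = (-4 * w 2 * w 0 0 0 / 2 * w -4 * w 2 * w
0 0 / 0 2 * w -4 * w 2 * w 0 / 0 0 2 * w -2 * w w / 0 0 0 w -2 * w); [up equal equal up] m = (2 * m,
2 * m, 2 * m, 2 * m, m), w = (w, 2 * w, 2 * w, 2 * w, 4 * w), a = (-2 * w 2 * w 0 0 0 / 2 * w -4 * w
2 * w 0 0 / 0 2 * w -4 * w 2 * w 0 / 0 0 2 * w -4 * w 4 * w / 0 0 0 4 * w -8 * w); [up equal equal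
down] m = (m, m, m, m, m), w = (w, 2 * w, 2 * w, 2 * w, w), a = (-2 * w 2 * w 0 0 0 / 2 * w -4 * w 2
* w 0 0 / 0 2 * w -4 * w 2 * w 0 / 0 0 2 * w -4 * w 2 * w / 0 0 0 2 * w -2 * w); [down equal equal
up] m = (m, 2 * m, 2 * m, 2 * m, m), w = (2 * w, w, w, w, 2 * w), a = (-4 * w 2 * w 0 0 0 / 2 * w -2
* w w 0 0 / 0 w -2 * w w 0 / 0 0 w -2 * w 2 * w / 0 0 0 2 * w -4 * w); [quadruple] m = (2 * m, m, m,
m, m), w = (w, w, w, w, w), a = (-2 * w w w w w / w -2 * w 0 0 0 / w 0 -2 * w 0 0 / w 0 0 -2 * w 0 /
w 0 0 0 -2 * w); [triple extended up] m = (m, 2 * m, 2 * m, m, m), w = (2 * w, w, w, w, w), a = (-4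
* w 2 * w 0 0 0 / 2 * w -2 * w w 0 0 / 0 w -2 * w w w / 0 0 w -2 * w 0 / 0 0 w 0 -2 * w); [triple
extended down] m = (2 * m, 2 * m, 2 * m, m, m), w = (w, 2 * w, 2 * w, 2 * w, 2 * w), a = (-2 * w 2 *
w 0 0 0 / 2 * w -4 * w 2 * w 0 0 / 0 2 * w -4 * w 2 * w 2 * w / 0 0 2 * w -4 * w 0 / 0 0 2 * w 0 -4
* w). Only the classification direction is stated. -/
theorem result (T : Models.NumericalType 5) (hmin : T.IsMinimal) (hg : T.genus = 1) :
    (∀ i, T.g i = 0) ∧ ∃ (σ : Equiv.Perm (Fin 5)) (m w : ℤ),
      ((T.m (σ 0) = m ∧ T.m (σ 1) = m ∧ T.m (σ 2) = m ∧ T.m (σ 3) = m ∧ T.m (σ 4) = m ∧ T.w (σ 0) = w ∧ T.w (σ 1) = w ∧ T.w (σ 2) = w ∧ T.w (σ 3) = w ∧ T.w (σ 4) = w ∧ T.a (σ 0) (σ 0) = -2 * w ∧ T.a (σ 0) (σ 1) = w ∧ T.a (σ 0) (σ 2) = 0 ∧ T.a (σ 0) (σ 3) = 0 ∧ T.a (σ 0) (σ 4) = w ∧ T.a (σ 1) (σ 1) = -2 * w ∧ T.a (σ 1) (σ 2) = w ∧ T.a (σ 1) (σ 3) = 0 ∧ T.a (σ 1) (σ 4) = 0 ∧ T.a (σ 2) (σ 2) = -2 * w ∧ T.a (σ 2) (σ 3) = w ∧ T.a (σ 2) (σ 4) = 0 ∧ T.a (σ 3) (σ 3) = -2 * w ∧ T.a (σ 3) (σ 4) = w ∧ T.a (σ 4) (σ 4) = -2 * w)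 ∨
      (T.m (σ 0) = m ∧ T.m (σ 1) = 2 * m ∧ T.m (σ 2) = 3 * m ∧ T.m (σ 3) = 2 * m ∧ T.m (σ 4) = m ∧ T.w (σ 0) = w ∧ T.w (σ 1) = w ∧ T.w (σ 2) = w ∧ T.w (σ 3) = 2 * w ∧ T.w (σ 4) = 2 * w ∧ T.a (σ 0) (σ 0) = -2 * w ∧ T.a (σ 0) (σ 1) = w ∧ T.a (σ 0) (σ 2) = 0 ∧ T.a (σ 0) (σ 3) = 0 ∧ T.a (σ 0) (σ 4) = 0 ∧ T.a (σ 1) (σ 1) = -2 * w ∧ T.a (σ 1) (σ 2) = w ∧ T.a (σ 1) (σ 3) = 0 ∧ T.a (σ 1) (σ 4) = 0 ∧ T.a (σ 2) (σ 2) = -2 * w ∧ T.a (σ 2) (σ 3) = 2 * w ∧ T.a (σ 2) (σ 4) = 0 ∧ T.a (σ 3) (σ 3) = -4 * w ∧ T.a (σ 3) (σ 4) = 2 * w ∧ T.a (σ 4) (σ 4) = -4 * w) ∨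
      (T.m (σ 0) = m ∧ T.m (σ 1) = 2 * m ∧ T.m (σ 2) = 3 * m ∧ T.m (σ 3) = 4 * m ∧ T.m (σ 4) = 2 * m ∧ T.w (σ 0) = 2 * w ∧ T.w (σ 1) = 2 * w ∧ T.w (σ 2) = 2 * w ∧ T.w (σ 3) = w ∧ T.w (σ 4) = w ∧ T.a (σ 0) (σ 0) = -4 * w ∧ T.a (σ 0) (σ 1) = 2 * w ∧ T.a (σ 0) (σ 2) = 0 ∧ T.a (σ 0) (σ 3) = 0 ∧ T.a (σ 0) (σ 4) = 0 ∧ T.a (σ 1) (σ 1) = -4 * w ∧ T.a (σ 1) (σ 2) = 2 * w ∧ T.a (σ 1) (σ 3) = 0 ∧ T.a (σ 1) (σ 4) = 0 ∧ T.a (σ 2) (σ 2) = -4 * w ∧ T.a (σ 2) (σ 3) = 2 * w ∧ T.a (σ 2) (σ 4) = 0 ∧ T.a (σ 3) (σ 3) = -2 * w ∧ T.a (σ 3) (σ 4) = w ∧ T.a (σ 4) (σ 4) = -2 * w) ∨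
      (T.m (σ 0) = 2 * m ∧ T.m (σ 1) = 2 * m ∧ T.m (σ 2) = 2 * m ∧ T.m (σ 3) = 2 * m ∧ T.m (σ 4) = m ∧ T.w (σ 0) = w ∧ T.w (σ 1) = 2 * w ∧ T.w (σ 2) = 2 * w ∧ T.w (σ 3) = 2 * w ∧ T.w (σ 4) = 4 * w ∧ T.a (σ 0) (σ 0) = -2 * w ∧ T.a (σ 0) (σ 1) = 2 * w ∧ T.a (σ 0) (σ 2) = 0 ∧ T.a (σ 0) (σ 3) = 0 ∧ T.a (σ 0) (σ 4) = 0 ∧ T.a (σ 1) (σ 1) = -4 * w ∧ T.a (σ 1) (σ 2) = 2 * w ∧ T.a (σ 1) (σ 3) = 0 ∧ T.a (σ 1) (σ 4) = 0 ∧ T.a (σ 2) (σ 2) = -4 * w ∧ T.a (σ 2) (σ 3) = 2 * w ∧ T.a (σ 2) (σ 4) = 0 ∧ T.a (σ 3) (σ 3) = -4 * w ∧ T.a (σ 3) (σ 4) = 4 * w ∧ T.a (σ 4) (σ 4) = -8 * w) ∨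
      (T.m (σ 0) = m ∧ T.m (σ 1) = m ∧ T.m (σ 2) = m ∧ T.m (σ 3) = m ∧ T.m (σ 4) = m ∧ T.w (σ 0) = w ∧ T.w (σ 1) = 2 * w ∧ T.w (σ 2) = 2 * w ∧ T.w (σ 3) = 2 * w ∧ T.w (σ 4) = w ∧ T.a (σ 0) (σ 0) = -2 * w ∧ T.a (σ 0) (σ 1) = 2 * w ∧ T.a (σ 0) (σ 2) = 0 ∧ T.a (σ 0) (σ 3) = 0 ∧ T.a (σ 0) (σ 4) = 0 ∧ T.a (σ 1) (σ 1) = -4 * w ∧ T.a (σ 1) (σ 2) = 2 * w ∧ T.a (σ 1) (σ 3) = 0 ∧ T.a (σ 1) (σ 4) = 0 ∧ T.a (σ 2) (σ 2) = -4 * w ∧ T.a (σ 2) (σ 3) = 2 * w ∧ T.a (σ 2) (σ 4) = 0 ∧ T.a (σ 3) (σ 3) = -4 * w ∧ T.a (σ 3) (σ 4) = 2 * w ∧ T.a (σ 4) (σ 4) = -2 * w) ∨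
      (T.m (σ 0) = m ∧ T.m (σ 1) = 2 * m ∧ T.m (σ 2) = 2 * m ∧ T.m (σ 3) = 2 * m ∧ T.m (σ 4) = m ∧ T.w (σ 0) = 2 * w ∧ T.w (σ 1) = w ∧ T.w (σ 2) = w ∧ T.w (σ 3) = w ∧ T.w (σ 4) = 2 * w ∧ T.a (σ 0) (σ 0) = -4 * w ∧ T.a (σ 0) (σ 1) = 2 * w ∧ T.a (σ 0) (σ 2) = 0 ∧ T.a (σ 0) (σ 3) = 0 ∧ T.a (σ 0) (σ 4) = 0 ∧ T.a (σ 1) (σ 1) = -2 * w ∧ T.a (σ 1) (σ 2) = w ∧ T.a (σ 1) (σ 3) = 0 ∧ T.a (σ 1) (σ 4) = 0 ∧ T.a (σ 2) (σ 2) = -2 * w ∧ T.a (σ 2) (σ 3) = w ∧ T.a (σ 2) (σ 4) = 0 ∧ T.a (σ 3) (σ 3) = -2 * w ∧ T.a (σ 3) (σ 4) = 2 * w ∧ T.a (σ 4) (σ 4) = -4 * w) ∨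
      (T.m (σ 0) = 2 * m ∧ T.m (σ 1) = m ∧ T.m (σ 2) = m ∧ T.m (σ 3) = m ∧ T.m (σ 4) = m ∧ T.w (σ 0) = w ∧ T.w (σ 1) = w ∧ T.w (σ 2) = w ∧ T.w (σ 3) = w ∧ T.w (σ 4) = w ∧ T.a (σ 0) (σ 0) = -2 * w ∧ T.a (σ 0) (σ 1) = w ∧ T.a (σ 0) (σ 2) = w ∧ T.a (σ 0) (σ 3) = w ∧ T.a (σ 0) (σ 4) = w ∧ T.a (σ 1) (σ 1) = -2 * w ∧ T.a (σ 1) (σ 2) = 0 ∧ T.a (σ 1) (σ 3) = 0 ∧ T.a (σ 1) (σ 4) = 0 ∧ T.a (σ 2) (σ 2) = -2 * w ∧ T.a (σ 2) (σ 3) = 0 ∧ T.a (σ 2) (σ 4) = 0 ∧ T.a (σ 3) (σ 3) = -2 * w ∧ T.a (σ 3) (σ 4) = 0 ∧ T.a (σ 4) (σ 4) = -2 * w) ∨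
      (T.m (σ 0) = m ∧ T.m (σ 1) = 2 * m ∧ T.m (σ 2) = 2 * m ∧ T.m (σ 3) = m ∧ T.m (σ 4) = m ∧ T.w (σ 0) = 2 * w ∧ T.w (σ 1) = w ∧ T.w (σ 2) = w ∧ T.w (σ 3) = w ∧ T.w (σ 4) = w ∧ T.a (σ 0) (σ 0) = -4 * w ∧ T.a (σ 0) (σ 1) = 2 * w ∧ T.a (σ 0) (σ 2) = 0 ∧ T.a (σ 0) (σ 3) = 0 ∧ T.a (σ 0) (σ 4) = 0 ∧ T.a (σ 1) (σ 1) = -2 * w ∧ T.a (σ 1) (σ 2) = w ∧ T.a (σ 1) (σ 3) = 0 ∧ T.a (σ 1) (σ 4) = 0 ∧ T.a (σ 2) (σ 2) = -2 * w ∧ T.a (σ 2) (σ 3) = w ∧ T.a (σ 2) (σ 4) = w ∧ T.a (σ 3) (σ 3) = -2 * w ∧ T.a (σ 3) (σ 4) = 0 ∧ T.a (σ 4) (σ 4) = -2 * w) ∨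
      (T.m (σ 0) = 2 * m ∧ T.m (σ 1) = 2 * m ∧ T.m (σ 2) = 2 * m ∧ T.m (σ 3) = m ∧ T.m (σ 4) = m ∧ T.w (σ 0) = w ∧ T.w (σ 1) = 2 * w ∧ T.w (σ 2) = 2 * w ∧ T.w (σ 3) = 2 * w ∧ T.w (σ 4) = 2 * w ∧ T.a (σ 0) (σ 0) = -2 * w ∧ T.a (σ 0) (σ 1) = 2 * w ∧ T.a (σ 0) (σ 2) = 0 ∧ T.a (σ 0) (σ 3) = 0 ∧ T.a (σ 0) (σ 4) = 0 ∧ T.a (σ 1) (σ 1) = -4 * w ∧ T.a (σ 1) (σ 2) = 2 * w ∧ T.a (σ 1) (σ 3) = 0 ∧ T.a (σ 1) (σ 4) = 0 ∧ T.a (σ 2) (σ 2) = -4 * w ∧ T.a (σ 2) (σ 3) = 2 * w ∧ T.a (σ 2) (σ 4) = 2 * w ∧ T.a (σ 3) (σ 3) = -4 * w ∧ T.a (σ 3) (σ 4) = 0 ∧ T.a (σ 4) (σ 4) = -4 * w)) := by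
  have hn : 1 < 5 := by norm_num
  have h2g := two_mul_genus T
  rw [hg] at h2g
  have hsum0 : ∑ i, T.m i * (2 * T.w i * (T.g i - 1) - T.a i i) = 0 := by linarith
  have hterm : ∀ i ∈ (Finset.univ : Finset (Fin 5)), T.m i * (2 * T.w i * (T.g i - 1) - T.a i i) = 0 :=
    (Finset.sum_eq_zero_iff_of_nonneg (fun i _ => contribution_nonneg T hmin hn i)).1 hsum0
  have t0 := isMinusTwo_of_contribution_zero T hn 0 (hterm 0 (Finset.mem_univ _))
  have t1 := isMinusTwo_of_contribution_zero T hn 1 (hterm 1 (Finset.mem_univ _))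
  have t2 := isMinusTwo_of_contribution_zero T hn 2 (hterm 2 (Finset.mem_univ _))
  have t3 := isMinusTwo_of_contribution_zero T hn 3 (hterm 3 (Finset.mem_univ _))
  have t4 := isMinusTwo_of_contribution_zero T hn 4 (hterm 4 (Finset.mem_univ _))
  have hfin : ∀ j : Fin 5, j = 0 ∨ j = 1 ∨ j = 2 ∨ j = 3 ∨ j = 4 := by decide
  refine ⟨fun i => ?_, ?_⟩
  · rcases hfin i with rfl | rfl | rfl | rfl | rfl
    exacts [t0.1, t1.1, t2.1, t3.1, t4.1]
  have r0 := row_sum T 0
  have r1 := row_sum T 1
  have r2 := row_sum T 2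
  have r3 := row_sum T 3
  have r4 := row_sum T 4
  simp only [Fin.sum_univ_five] at r0 r1 r2 r3 r4
  by_cases h01 : T.a 0 1 = 0
  · -- zero
    by_cases h02 : T.a 0 2 = 0
    · -- zero
      by_cases h03 : T.a 0 3 = 0
      · -- zero
        by_cases h04 : T.a 0 4 = 0
        · -- zero
          exact (iso_contra T 0 1 2 3 4 (by decide) h01 h02 h03 h04).elim
        · -- nonzero
          by_cases h12 : T.a 1 2 = 0
          · -- zero
            by_cases h13 : T.a 1 3 = 0
            · -- zero
              by_cases h14 : T.a 1 4 = 0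
              · -- zero
                exact (iso_contra T 1 0 2 3 4 (by decide) (by rw [a_symm T]; exact h01) h12 h13 h14).elim
              · -- nonzero
                by_cases h23 : T.a 2 3 = 0
                · -- zero
                  by_cases h24 : T.a 2 4 = 0
                  · -- zero
                    exact (iso_contra T 2 0 1 3 4 (by decide) (by rw [a_symm T]; exact h02) (by rw [a_symm T]; exact h12) h23 h24).elim
                  · -- nonzero
                    by_cases h34 : T.a 3 4 = 0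
                    · -- zero
                      exact (iso_contra T 3 0 1 2 4 (by decide) (by rw [a_symm T]; exact h03) (by rw [a_symm T]; exact h13) (by rw [a_symm T]; exact h23) h34).elim
                    · -- nonzero
                      obtain ⟨y0, y1, y2, y3, y4, m, w, hinj, hp⟩ := shape_star T (x0 := 4) (x1 := 0) (x2 := 1) (x3 := 2) (x4 := 3) (by decide) (by decide) (by decide) (by decide) (by decide) (by decide) (by decide) (by decide) (by decide) (by decide) t4 t0 t1 t2 t3 h04 (by rw [a_symm T]; exact h14) h24 (by rw [a_symm T]; exact h34) h01 h02 h03 h12 h13 h23 (by linear_combination r4) (by linear_combination r0) (by linear_combination r1) (by linear_combination r2) (by linear_combination r3)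
                      exact ⟨perm5 y0 y1 y2 y3 y4 hinj, m, w, hp⟩
                · -- nonzero
                  by_cases h24 : T.a 2 4 = 0
                  · -- zero
                    by_cases h34 : T.a 3 4 = 0
                    · -- zero
                      exact (split_contra T 2 3 0 1 4 (by decide) (by decide) (by decide) (by rw [a_symm T]; exact h02) (by rw [a_symm T]; exact h12) h24 (by rw [a_symm T]; exact h03) (by rw [a_symm T]; exact h13) h34).elim
                    · -- nonzero
                      obtain ⟨y0, y1, y2, y3, y4, m, w, hinj, hp⟩ := shape_fork T (x0 := 4) (x1 := 0) (x2 := 1) (x3 := 3) (x4 := 2) (by decide) (by decide) (by decide) (by decide) (by decide) (by decide) (by decide) (by decide) (by decide) (by decide) t4 t0 t1 t3 t2 h04 (by rw [a_symm T]; exact h14) (by rw [a_symm T]; exact h34) (by rw [a_symm T]; exact h23) (by rw [a_symm T]; exact h24) h01 h03 h02 h13 h12 (by linear_combination r4) (by linear_combination r0) (by linear_combination r1) (by linear_combination r3)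 (by linear_combination r2)
                      exact ⟨perm5 y0 y1 y2 y3 y4 hinj, m, w, hp⟩
                  · -- nonzero
                    by_cases h34 : T.a 3 4 = 0
                    · -- zero
                      obtain ⟨y0, y1, y2, y3, y4, m, w, hinj, hp⟩ := shape_fork T (x0 := 4) (x1 := 0) (x2 := 1) (x3 := 2) (x4 := 3) (by decide) (by decide) (by decide) (by decide) (by decide) (by decide) (by decide) (by decide) (by decide) (by decide) t4 t0 t1 t2 t3 h04 (by rw [a_symm T]; exact h14) (by rw [a_symm T]; exact h24) h23 (by rw [a_symm T]; exact h34) h01 h02 h03 h12 h13 (by linear_combination r4) (by linear_combination r0) (by linear_combination r1) (by linear_combination r2) (by linear_combination r3)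
                      exact ⟨perm5 y0 y1 y2 y3 y4 hinj, m, w, hp⟩
                    · -- nonzero
                      exact absurd (chain3_types T (by norm_num) (by decide) (by decide) (by decide) t2 t3 t4 h23 h34).1 h24
            · -- nonzero
              by_cases h14 : T.a 1 4 = 0
              · -- zero
                by_cases h23 : T.a 2 3 = 0
                · -- zero
                  by_cases h24 : T.a 2 4 = 0
                  · -- zero
                    exact (iso_contra T 2 0 1 3 4 (by decide) (by rw [a_symm T]; exact h02) (by rw [a_symm T]; exact h12) h23 h24).elim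
                  · -- nonzero
                    by_cases h34 : T.a 3 4 = 0
                    · -- zero
                      exact (split_contra T 1 3 0 2 4 (by decide) (by decide) (by decide) (by rw [a_symm T]; exact h01) h12 h14 (by rw [a_symm T]; exact h03) (by rw [a_symm T]; exact h23) h34).elim
                    · -- nonzero
                      obtain ⟨y0, y1, y2, y3, y4, m, w, hinj, hp⟩ := shape_fork T (x0 := 4) (x1 := 0) (x2 := 2) (x3 := 3) (x4 := 1) (by decide) (by decide) (by decide) (by decide) (by decide) (by decide) (by decide) (by decide) (by decide) (by decide) t4 t0 t2 t3 t1 h04 (by rw [a_symm T]; exact h24) (by rw [a_symm T]; exact h34) (by rw [a_symm T]; exact h13) (by rw [a_symm T]; exact h14) h02 h03 h01 h23 (by rw [a_symm T]; exact h12) (by linear_combination r4) (by linear_combination r0) (by linear_combination r2) (by linear_combination r3) (by linear_combination r1)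
                      exact ⟨perm5 y0 y1 y2 y3 y4 hinj, m, w, hp⟩
                · -- nonzero
                  by_cases h24 : T.a 2 4 = 0
                  · -- zero
                    by_cases h34 : T.a 3 4 = 0
                    · -- zero
                      exact (split_contra T 0 4 1 2 3 (by decide) (by decide) (by decide) h01 h02 h03 (by rw [a_symm T]; exact h14) (by rw [a_symm T]; exact h24) (by rw [a_symm T]; exact h34)).elim
                    · -- nonzero
                      obtain ⟨y0, y1, y2, y3, y4, m, w, hinj, hp⟩ := shape_fork T (x0 := 3) (x1 := 1) (x2 := 2) (x3 := 4) (x4 := 0) (by decide) (by decide) (by decide) (by decide) (by decide) (by decide) (by decide) (by decide) (by decide) (by decide) t3 t1 t2 t4 t0 h13 (by rw [a_symm T]; exact h23) h34 (by rw [a_symm T]; exact h04) (by rw [a_symm T]; exact h03) h12 h14 (by rw [a_symm T]; exact h01) h24 (by rw [a_symm T]; exact h02) (by linear_combination r3) (by linear_combination r1) (by linear_combination r2) (by linear_combination r4)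 (by linear_combination r0)
                      exact ⟨perm5 y0 y1 y2 y3 y4 hinj, m, w, hp⟩
                  · -- nonzero
                    by_cases h34 : T.a 3 4 = 0
                    · -- zero
                      obtain ⟨y0, y1, y2, y3, y4, m, w, hinj, hp⟩ := shape_p5 T (x0 := 0) (x1 := 4) (x2 := 2) (x3 := 3) (x4 := 1) (by decide) (by decide) (by decide) (by decide) (by decide) (by decide) (by decide) (by decide) (by decide) (by decide) t0 t4 t2 t3 t1 h04 (by rw [a_symm T]; exact h24) h23 (by rw [a_symm T]; exact h13) h02 h03 h01 (by rw [a_symm T]; exact h34) (by rw [a_symm T]; exact h14) (by rw [a_symm T]; exact h12) (by linear_combination r0) (by linear_combination r4) (by linear_combination r2) (by linear_combination r3) (by linear_combination r1)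
                      exact ⟨perm5 y0 y1 y2 y3 y4 hinj, m, w, hp⟩
                    · -- nonzero
                      exact absurd (chain3_types T (by norm_num) (by decide) (by decide) (by decide) t2 t3 t4 h23 h34).1 h24
              · -- nonzero
                by_cases h23 : T.a 2 3 = 0
                · -- zero
                  by_cases h24 : T.a 2 4 = 0
                  · -- zero
                    exact (iso_contra T 2 0 1 3 4 (by decide) (by rw [a_symm T]; exact h02) (by rw [a_symm T]; exact h12) h23 h24).elim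
                  · -- nonzero
                    by_cases h34 : T.a 3 4 = 0
                    · -- zero
                      obtain ⟨y0, y1, y2, y3, y4, m, w, hinj, hp⟩ := shape_fork T (x0 := 4) (x1 := 0) (x2 := 2) (x3 := 1) (x4 := 3) (by decide) (by decide) (by decide) (by decide) (by decide) (by decide) (by decide) (by decide) (by decide) (by decide) t4 t0 t2 t1 t3 h04 (by rw [a_symm T]; exact h24) (by rw [a_symm T]; exact h14) h13 (by rw [a_symm T]; exact h34) h02 h01 h03 (by rw [a_symm T]; exact h12) h23 (by linear_combination r4) (by linear_combination r0) (by linear_combination r2) (by linear_combination r1) (by linear_combination r3)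
                      exact ⟨perm5 y0 y1 y2 y3 y4 hinj, m, w, hp⟩
                    · -- nonzero
                      exact absurd (chain3_types T (by norm_num) (by decide) (by decide) (by decide) t1 t3 t4 h13 h34).1 h14
                · -- nonzero
                  by_cases h24 : T.a 2 4 = 0
                  · -- zero
                    by_cases h34 : T.a 3 4 = 0
                    · -- zero
                      obtain ⟨y0, y1, y2, y3, y4, m, w, hinj, hp⟩ := shape_p5 T (x0 := 0) (x1 := 4) (x2 := 1) (x3 := 3) (x4 := 2) (by decide) (by decide) (by decide) (by decide) (by decide) (by decide) (by decide) (by decide) (by decide) (by decide) t0 t4 t1 t3 t2 h04 (by rw [a_symm T]; exact h14) h13 (by rw [a_symm T]; exact h23) h01 h03 h02 (by rw [a_symm T]; exact h34) (by rw [a_symm T]; exact h24) h12 (by linear_combination r0) (by linear_combination r4) (by linear_combination r1) (by linear_combination r3) (by linear_combination r2)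
                      exact ⟨perm5 y0 y1 y2 y3 y4 hinj, m, w, hp⟩
                    · -- nonzero
                      exact absurd (chain3_types T (by norm_num) (by decide) (by decide) (by decide) t1 t3 t4 h13 h34).1 h14
                  · -- nonzero
                    exact (no_c4 T (x0 := 1) (x1 := 3) (x2 := 2) (x3 := 4) (by decide) (by decide) (by decide) (by decide) (by decide) (by decide) t1 t3 t2 t4 h13 (by rw [a_symm T]; exact h23) h24 (by rw [a_symm T]; exact h14)).elim
          · -- nonzero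
            by_cases h13 : T.a 1 3 = 0
            · -- zero
              by_cases h14 : T.a 1 4 = 0
              · -- zero
                by_cases h23 : T.a 2 3 = 0
                · -- zero
                  by_cases h24 : T.a 2 4 = 0
                  · -- zero
                    by_cases h34 : T.a 3 4 = 0
                    · -- zero
                      exact (iso_contra T 3 0 1 2 4 (by decide) (by rw [a_symm T]; exact h03) (by rw [a_symm T]; exact h13) (by rw [a_symm T]; exact h23) h34).elim
                    · -- nonzero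
                      exact (split_contra T 1 2 0 3 4 (by decide) (by decide) (by decide) (by rw [a_symm T]; exact h01) h13 h14 (by rw [a_symm T]; exact h02) h23 h24).elim
                  · -- nonzero
                    by_cases h34 : T.a 3 4 = 0
                    · -- zero
                      exact (iso_contra T 3 0 1 2 4 (by decide) (by rw [a_symm T]; exact h03) (by rw [a_symm T]; exact h13) (by rw [a_symm T]; exact h23) h34).elim
                    · -- nonzero
                      obtain ⟨y0, y1, y2, y3, y4, m, w, hinj, hp⟩ := shape_fork T (x0 := 4) (x1 := 0) (x2 := 3) (x3 := 2) (x4 := 1) (by decide) (by decide) (by decide) (by decide) (by decide) (by decide) (by decide) (by decide) (by decide) (by decide) t4 t0 t3 t2 t1 h04 (by rw [a_symm T]; exact h34) (by rw [a_symm T]; exact h24) (by rw [a_symm T]; exact h12) (by rw [a_symm T]; exact h14) h03 h02 h01 (by rw [a_symm T]; exact h23) (by rw [a_symm T]; exact h13) (by linear_combination r4) (by linear_combination r0) (by linear_combination r3)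 (by linear_combination r2) (by linear_combination r1)
                      exact ⟨perm5 y0 y1 y2 y3 y4 hinj, m, w, hp⟩
                · -- nonzero
                  by_cases h24 : T.a 2 4 = 0
                  · -- zero
                    by_cases h34 : T.a 3 4 = 0
                    · -- zero
                      exact (split_contra T 0 4 1 2 3 (by decide) (by decide) (by decide) h01 h02 h03 (by rw [a_symm T]; exact h14) (by rw [a_symm T]; exact h24) (by rw [a_symm T]; exact h34)).elim
                    · -- nonzero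
                      obtain ⟨y0, y1, y2, y3, y4, m, w, hinj, hp⟩ := shape_p5 T (x0 := 0) (x1 := 4) (x2 := 3) (x3 := 2) (x4 := 1) (by decide) (by decide) (by decide) (by decide) (by decide) (by decide) (by decide) (by decide) (by decide) (by decide) t0 t4 t3 t2 t1 h04 (by rw [a_symm T]; exact h34) (by rw [a_symm T]; exact h23) (by rw [a_symm T]; exact h12) h03 h02 h01 (by rw [a_symm T]; exact h24) (by rw [a_symm T]; exact h14) (by rw [a_symm T]; exact h13) (by linear_combination r0) (by linear_combination r4) (by linear_combination r3) (by linear_combination r2) (by linear_combination r1)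
                      exact ⟨perm5 y0 y1 y2 y3 y4 hinj, m, w, hp⟩
                  · -- nonzero
                    by_cases h34 : T.a 3 4 = 0
                    · -- zero
                      obtain ⟨y0, y1, y2, y3, y4, m, w, hinj, hp⟩ := shape_fork T (x0 := 2) (x1 := 1) (x2 := 3) (x3 := 4) (x4 := 0) (by decide) (by decide) (by decide) (by decide) (by decide) (by decide) (by decide) (by decide) (by decide) (by decide) t2 t1 t3 t4 t0 h12 h23 h24 (by rw [a_symm T]; exact h04) (by rw [a_symm T]; exact h02) h13 h14 (by rw [a_symm T]; exact h01) h34 (by rw [a_symm T]; exact h03) (by linear_combination r2) (by linear_combination r1) (by linear_combination r3) (by linear_combination r4) (by linear_combination r0)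
                      exact ⟨perm5 y0 y1 y2 y3 y4 hinj, m, w, hp⟩
                    · -- nonzero
                      exact absurd (chain3_types T (by norm_num) (by decide) (by decide) (by decide) t2 t3 t4 h23 h34).1 h24
              · -- nonzero
                by_cases h23 : T.a 2 3 = 0
                · -- zero
                  by_cases h24 : T.a 2 4 = 0
                  · -- zero
                    by_cases h34 : T.a 3 4 = 0
                    · -- zero
                      exact (iso_contra T 3 0 1 2 4 (by decide) (by rw [a_symm T]; exact h03) (by rw [a_symm T]; exact h13) (by rw [a_symm T]; exact h23) h34).elim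
                    · -- nonzero
                      obtain ⟨y0, y1, y2, y3, y4, m, w, hinj, hp⟩ := shape_fork T (x0 := 4) (x1 := 0) (x2 := 3) (x3 := 1) (x4 := 2) (by decide) (by decide) (by decide) (by decide) (by decide) (by decide) (by decide) (by decide) (by decide) (by decide) t4 t0 t3 t1 t2 h04 (by rw [a_symm T]; exact h34) (by rw [a_symm T]; exact h14) h12 (by rw [a_symm T]; exact h24) h03 h01 h02 (by rw [a_symm T]; exact h13) (by rw [a_symm T]; exact h23) (by linear_combination r4) (by linear_combination r0) (by linear_combination r3) (by linear_combination r1) (by linear_combination r2)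
                      exact ⟨perm5 y0 y1 y2 y3 y4 hinj, m, w, hp⟩
                  · -- nonzero
                    exact absurd (chain3_types T (by norm_num) (by decide) (by decide) (by decide) t1 t2 t4 h12 h24).1 h14
                · -- nonzero
                  by_cases h24 : T.a 2 4 = 0
                  · -- zero
                    by_cases h34 : T.a 3 4 = 0
                    · -- zero
                      obtain ⟨y0, y1, y2, y3, y4, m, w, hinj, hp⟩ := shape_p5 T (x0 := 0) (x1 := 4) (x2 := 1) (x3 := 2) (x4 := 3) (by decide) (by decide) (by decide) (by decide) (by decide) (by decide) (by decide) (by decide) (by decide) (by decide) t0 t4 t1 t2 t3 h04 (by rw [a_symm T]; exact h14) h12 h23 h01 h02 h03 (by rw [a_symm T]; exact h24) (by rw [a_symm T]; exact h34) h13 (by linear_combination r0) (by linear_combination r4) (by linear_combination r1) (by linear_combination r2) (by linear_combination r3)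
                      exact ⟨perm5 y0 y1 y2 y3 y4 hinj, m, w, hp⟩
                    · -- nonzero
                      exact (no_c4 T (x0 := 1) (x1 := 2) (x2 := 3) (x3 := 4) (by decide) (by decide) (by decide) (by decide) (by decide) (by decide) t1 t2 t3 t4 h12 h23 h34 (by rw [a_symm T]; exact h14)).elim
                  · -- nonzero
                    exact absurd (chain3_types T (by norm_num) (by decide) (by decide) (by decide) t1 t2 t4 h12 h24).1 h14
            · -- nonzero
              by_cases h14 : T.a 1 4 = 0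
              · -- zero
                by_cases h23 : T.a 2 3 = 0
                · -- zero
                  by_cases h24 : T.a 2 4 = 0
                  · -- zero
                    by_cases h34 : T.a 3 4 = 0
                    · -- zero
                      exact (split_contra T 0 4 1 2 3 (by decide) (by decide) (by decide) h01 h02 h03 (by rw [a_symm T]; exact h14) (by rw [a_symm T]; exact h24) (by rw [a_symm T]; exact h34)).elim
                    · -- nonzero
                      obtain ⟨y0, y1, y2, y3, y4, m, w, hinj, hp⟩ := shape_p5 T (x0 := 0) (x1 := 4) (x2 := 3) (x3 := 1) (x4 := 2) (by decide) (by decide) (by decide) (by decide) (by decide) (by decide) (by decide) (by decide) (by decide) (by decide) t0 t4 t3 t1 t2 h04 (by rw [a_symm T]; exact h34) (by rw [a_symm T]; exact h13) h12 h03 h01 h02 (by rw [a_symm T]; exact h14) (by rw [a_symm T]; exact h24) (by rw [a_symm T]; exact h23) (by linear_combination r0) (by linear_combination r4) (by linear_combination r3) (by linear_combination r1) (by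 linear_combination r2)
                      exact ⟨perm5 y0 y1 y2 y3 y4 hinj, m, w, hp⟩
                  · -- nonzero
                    by_cases h34 : T.a 3 4 = 0
                    · -- zero
                      obtain ⟨y0, y1, y2, y3, y4, m, w, hinj, hp⟩ := shape_p5 T (x0 := 0) (x1 := 4) (x2 := 2) (x3 := 1) (x4 := 3) (by decide) (by decide) (by decide) (by decide) (by decide) (by decide) (by decide) (by decide) (by decide) (by decide) t0 t4 t2 t1 t3 h04 (by rw [a_symm T]; exact h24) (by rw [a_symm T]; exact h12) h13 h02 h01 h03 (by rw [a_symm T]; exact h14) (by rw [a_symm T]; exact h34) h23 (by linear_combination r0) (by linear_combination r4) (by linear_combination r2) (by linear_combination r1) (by linear_combination r3)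
                      exact ⟨perm5 y0 y1 y2 y3 y4 hinj, m, w, hp⟩
                    · -- nonzero
                      exact (no_c4 T (x0 := 1) (x1 := 2) (x2 := 4) (x3 := 3) (by decide) (by decide) (by decide) (by decide) (by decide) (by decide) t1 t2 t4 t3 h12 h24 (by rw [a_symm T]; exact h34) (by rw [a_symm T]; exact h13)).elim
                · -- nonzero
                  exact absurd (chain3_types T (by norm_num) (by decide) (by decide) (by decide) t1 t2 t3 h12 h23).1 h13
              · -- nonzero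
                by_cases h23 : T.a 2 3 = 0
                · -- zero
                  by_cases h24 : T.a 2 4 = 0
                  · -- zero
                    by_cases h34 : T.a 3 4 = 0
                    · -- zero
                      obtain ⟨y0, y1, y2, y3, y4, m, w, hinj, hp⟩ := shape_fork T (x0 := 1) (x1 := 2) (x2 := 3) (x3 := 4) (x4 := 0) (by decide) (by decide) (by decide) (by decide) (by decide) (by decide) (by decide) (by decide) (by decide) (by decide) t1 t2 t3 t4 t0 (by rw [a_symm T]; exact h12) h13 h14 (by rw [a_symm T]; exact h04) (by rw [a_symm T]; exact h01) h23 h24 (by rw [a_symm T]; exact h02) h34 (by rw [a_symm T]; exact h03) (by linear_combination r1) (by linear_combination r2) (by linear_combination r3) (by linear_combination r4) (by linear_combination r0)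
                      exact ⟨perm5 y0 y1 y2 y3 y4 hinj, m, w, hp⟩
                    · -- nonzero
                      exact absurd (chain3_types T (by norm_num) (by decide) (by decide) (by decide) t1 t3 t4 h13 h34).1 h14
                  · -- nonzero
                    exact absurd (chain3_types T (by norm_num) (by decide) (by decide) (by decide) t1 t2 t4 h12 h24).1 h14
                · -- nonzero
                  exact absurd (chain3_types T (by norm_num) (by decide) (by decide) (by decide) t1 t2 t3 h12 h23).1 h13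
      · -- nonzero
        by_cases h04 : T.a 0 4 = 0
        · -- zero
          by_cases h12 : T.a 1 2 = 0
          · -- zero
            by_cases h13 : T.a 1 3 = 0
            · -- zero
              by_cases h14 : T.a 1 4 = 0
              · -- zero
                exact (iso_contra T 1 0 2 3 4 (by decide) (by rw [a_symm T]; exact h01) h12 h13 h14).elim
              · -- nonzero
                by_cases h23 : T.a 2 3 = 0
                · -- zero
                  by_cases h24 : T.a 2 4 = 0
                  · -- zero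
                    exact (iso_contra T 2 0 1 3 4 (by decide) (by rw [a_symm T]; exact h02) (by rw [a_symm T]; exact h12) h23 h24).elim
                  · -- nonzero
                    by_cases h34 : T.a 3 4 = 0
                    · -- zero
                      exact (split_contra T 0 3 1 2 4 (by decide) (by decide) (by decide) h01 h02 h04 (by rw [a_symm T]; exact h13) (by rw [a_symm T]; exact h23) h34).elim
                    · -- nonzero
                      obtain ⟨y0, y1, y2, y3, y4, m, w, hinj, hp⟩ := shape_fork T (x0 := 4) (x1 := 1) (x2 := 2) (x3 := 3) (x4 := 0) (by decide) (by decide) (by decide) (by decide) (by decide) (by decide) (by decide) (by decide) (by decide) (by decide) t4 t1 t2 t3 t0 h14 (by rw [a_symm T]; exact h24) (by rw [a_symm T]; exact h34) (by rw [a_symm T]; exact h03) (by rw [a_symm T]; exact h04) h12 h13 (by rw [a_symm T]; exact h01) h23 (by rw [a_symm T]; exact h02) (by linear_combination r4) (by linear_combination r1) (by linear_combination r2) (by linear_combination r3)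 (by linear_combination r0)
                      exact ⟨perm5 y0 y1 y2 y3 y4 hinj, m, w, hp⟩
                · -- nonzero
                  by_cases h24 : T.a 2 4 = 0
                  · -- zero
                    by_cases h34 : T.a 3 4 = 0
                    · -- zero
                      exact (split_contra T 1 4 0 2 3 (by decide) (by decide) (by decide) (by rw [a_symm T]; exact h01) h12 h13 (by rw [a_symm T]; exact h04) (by rw [a_symm T]; exact h24) (by rw [a_symm T]; exact h34)).elim
                    · -- nonzero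
                      obtain ⟨y0, y1, y2, y3, y4, m, w, hinj, hp⟩ := shape_fork T (x0 := 3) (x1 := 0) (x2 := 2) (x3 := 4) (x4 := 1) (by decide) (by decide) (by decide) (by decide) (by decide) (by decide) (by decide) (by decide) (by decide) (by decide) t3 t0 t2 t4 t1 h03 (by rw [a_symm T]; exact h23) h34 (by rw [a_symm T]; exact h14) (by rw [a_symm T]; exact h13) h02 h04 h01 h24 (by rw [a_symm T]; exact h12) (by linear_combination r3) (by linear_combination r0) (by linear_combination r2) (by linear_combination r4) (by linear_combination r1)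
                      exact ⟨perm5 y0 y1 y2 y3 y4 hinj, m, w, hp⟩
                  · -- nonzero
                    by_cases h34 : T.a 3 4 = 0
                    · -- zero
                      obtain ⟨y0, y1, y2, y3, y4, m, w, hinj, hp⟩ := shape_p5 T (x0 := 0) (x1 := 3) (x2 := 2) (x3 := 4) (x4 := 1) (by decide) (by decide) (by decide) (by decide) (by decide) (by decide) (by decide) (by decide) (by decide) (by decide) t0 t3 t2 t4 t1 h03 (by rw [a_symm T]; exact h23) h24 (by rw [a_symm T]; exact h14) h02 h04 h01 h34 (by rw [a_symm T]; exact h13) (by rw [a_symm T]; exact h12) (by linear_combination r0) (by linear_combination r3) (by linear_combination r2) (by linear_combination r4) (by linear_combination r1)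
                      exact ⟨perm5 y0 y1 y2 y3 y4 hinj, m, w, hp⟩
                    · -- nonzero
                      exact absurd (chain3_types T (by norm_num) (by decide) (by decide) (by decide) t2 t3 t4 h23 h34).1 h24
            · -- nonzero
              by_cases h14 : T.a 1 4 = 0
              · -- zero
                by_cases h23 : T.a 2 3 = 0
                · -- zero
                  by_cases h24 : T.a 2 4 = 0
                  · -- zero
                    exact (iso_contra T 2 0 1 3 4 (by decide) (by rw [a_symm T]; exact h02) (by rw [a_symm T]; exact h12) h23 h24).elim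
                  · -- nonzero
                    by_cases h34 : T.a 3 4 = 0
                    · -- zero
                      exact (split_contra T 2 4 0 1 3 (by decide) (by decide) (by decide) (by rw [a_symm T]; exact h02) (by rw [a_symm T]; exact h12) h23 (by rw [a_symm T]; exact h04) (by rw [a_symm T]; exact h14) (by rw [a_symm T]; exact h34)).elim
                    · -- nonzero
                      obtain ⟨y0, y1, y2, y3, y4, m, w, hinj, hp⟩ := shape_fork T (x0 := 3) (x1 := 0) (x2 := 1) (x3 := 4) (x4 := 2) (by decide) (by decide) (by decide) (by decide) (by decide) (by decide) (by decide) (by decide) (by decide) (by decide) t3 t0 t1 t4 t2 h03 (by rw [a_symm T]; exact h13) h34 (by rw [a_symm T]; exact h24) (by rw [a_symm T]; exact h23) h01 h04 h02 h14 h12 (by linear_combination r3) (by linear_combination r0) (by linear_combination r1) (by linear_combination r4) (by linear_combination r2)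
                      exact ⟨perm5 y0 y1 y2 y3 y4 hinj, m, w, hp⟩
                · -- nonzero
                  by_cases h24 : T.a 2 4 = 0
                  · -- zero
                    by_cases h34 : T.a 3 4 = 0
                    · -- zero
                      exact (iso_contra T 4 0 1 2 3 (by decide) (by rw [a_symm T]; exact h04) (by rw [a_symm T]; exact h14) (by rw [a_symm T]; exact h24) (by rw [a_symm T]; exact h34)).elim
                    · -- nonzero
                      obtain ⟨y0, y1, y2, y3, y4, m, w, hinj, hp⟩ := shape_star T (x0 := 3) (x1 := 0) (x2 := 1) (x3 := 2) (x4 := 4) (by decide) (by decide) (by decide) (by decide) (by decide) (by decide) (by decide) (by decide) (by decide) (by decide) t3 t0 t1 t2 t4 h03 (by rw [a_symm T]; exact h13) h23 h34 h01 h02 h04 h12 h14 h24 (by linear_combination r3) (by linear_combination r0) (by linear_combination r1) (by linear_combination r2) (by linear_combination r4)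
                      exact ⟨perm5 y0 y1 y2 y3 y4 hinj, m, w, hp⟩
                  · -- nonzero
                    by_cases h34 : T.a 3 4 = 0
                    · -- zero
                      obtain ⟨y0, y1, y2, y3, y4, m, w, hinj, hp⟩ := shape_fork T (x0 := 3) (x1 := 0) (x2 := 1) (x3 := 2) (x4 := 4) (by decide) (by decide) (by decide) (by decide) (by decide) (by decide) (by decide) (by decide) (by decide) (by decide) t3 t0 t1 t2 t4 h03 (by rw [a_symm T]; exact h13) (by rw [a_symm T]; exact h23) h24 h34 h01 h02 h04 h12 h14 (by linear_combination r3) (by linear_combination r0) (by linear_combination r1) (by linear_combination r2) (by linear_combination r4)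
                      exact ⟨perm5 y0 y1 y2 y3 y4 hinj, m, w, hp⟩
                    · -- nonzero
                      exact absurd (chain3_types T (by norm_num) (by decide) (by decide) (by decide) t2 t3 t4 h23 h34).1 h24
              · -- nonzero
                by_cases h23 : T.a 2 3 = 0
                · -- zero
                  by_cases h24 : T.a 2 4 = 0
                  · -- zero
                    exact (iso_contra T 2 0 1 3 4 (by decide) (by rw [a_symm T]; exact h02) (by rw [a_symm T]; exact h12) h23 h24).elim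
                  · -- nonzero
                    by_cases h34 : T.a 3 4 = 0
                    · -- zero
                      obtain ⟨y0, y1, y2, y3, y4, m, w, hinj, hp⟩ := shape_p5 T (x0 := 0) (x1 := 3) (x2 := 1) (x3 := 4) (x4 := 2) (by decide) (by decide) (by decide) (by decide) (by decide) (by decide) (by decide) (by decide) (by decide) (by decide) t0 t3 t1 t4 t2 h03 (by rw [a_symm T]; exact h13) h14 (by rw [a_symm T]; exact h24) h01 h04 h02 h34 (by rw [a_symm T]; exact h23) h12 (by linear_combination r0) (by linear_combination r3) (by linear_combination r1) (by linear_combination r4) (by linear_combination r2)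
                      exact ⟨perm5 y0 y1 y2 y3 y4 hinj, m, w, hp⟩
                    · -- nonzero
                      exact absurd (chain3_types T (by norm_num) (by decide) (by decide) (by decide) t1 t3 t4 h13 h34).1 h14
                · -- nonzero
                  by_cases h24 : T.a 2 4 = 0
                  · -- zero
                    by_cases h34 : T.a 3 4 = 0
                    · -- zero
                      obtain ⟨y0, y1, y2, y3, y4, m, w, hinj, hp⟩ := shape_fork T (x0 := 3) (x1 := 0) (x2 := 2) (x3 := 1) (x4 := 4) (by decide) (by decide) (by decide) (by decide) (by decide) (by decide) (by decide) (by decide) (by decide) (by decide) t3 t0 t2 t1 t4 h03 (by rw [a_symm T]; exact h23) (by rw [a_symm T]; exact h13) h14 h34 h02 h01 h04 (by rw [a_symm T]; exact h12) h24 (by linear_combination r3) (by linear_combination r0) (by linear_combination r2) (by linear_combination r1) (by linear_combination r4)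
                      exact ⟨perm5 y0 y1 y2 y3 y4 hinj, m, w, hp⟩
                    · -- nonzero
                      exact absurd (chain3_types T (by norm_num) (by decide) (by decide) (by decide) t1 t3 t4 h13 h34).1 h14
                  · -- nonzero
                    exact (no_c4 T (x0 := 1) (x1 := 3) (x2 := 2) (x3 := 4) (by decide) (by decide) (by decide) (by decide) (by decide) (by decide) t1 t3 t2 t4 h13 (by rw [a_symm T]; exact h23) h24 (by rw [a_symm T]; exact h14)).elim
          · -- nonzero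
            by_cases h13 : T.a 1 3 = 0
            · -- zero
              by_cases h14 : T.a 1 4 = 0
              · -- zero
                by_cases h23 : T.a 2 3 = 0
                · -- zero
                  by_cases h24 : T.a 2 4 = 0
                  · -- zero
                    by_cases h34 : T.a 3 4 = 0
                    · -- zero
                      exact (iso_contra T 4 0 1 2 3 (by decide) (by rw [a_symm T]; exact h04) (by rw [a_symm T]; exact h14) (by rw [a_symm T]; exact h24) (by rw [a_symm T]; exact h34)).elim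
                    · -- nonzero
                      exact (split_contra T 1 2 0 3 4 (by decide) (by decide) (by decide) (by rw [a_symm T]; exact h01) h13 h14 (by rw [a_symm T]; exact h02) h23 h24).elim
                  · -- nonzero
                    by_cases h34 : T.a 3 4 = 0
                    · -- zero
                      exact (split_contra T 0 3 1 2 4 (by decide) (by decide) (by decide) h01 h02 h04 (by rw [a_symm T]; exact h13) (by rw [a_symm T]; exact h23) h34).elim
                    · -- nonzero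
                      obtain ⟨y0, y1, y2, y3, y4, m, w, hinj, hp⟩ := shape_p5 T (x0 := 0) (x1 := 3) (x2 := 4) (x3 := 2) (x4 := 1) (by decide) (by decide) (by decide) (by decide) (by decide) (by decide) (by decide) (by decide) (by decide) (by decide) t0 t3 t4 t2 t1 h03 h34 (by rw [a_symm T]; exact h24) (by rw [a_symm T]; exact h12) h04 h02 h01 (by rw [a_symm T]; exact h23) (by rw [a_symm T]; exact h13) (by rw [a_symm T]; exact h14) (by linear_combination r0) (by linear_combination r3) (by linear_combination r4) (by linear_combination r2) (by linear_combination r1)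
                      exact ⟨perm5 y0 y1 y2 y3 y4 hinj, m, w, hp⟩
                · -- nonzero
                  by_cases h24 : T.a 2 4 = 0
                  · -- zero
                    by_cases h34 : T.a 3 4 = 0
                    · -- zero
                      exact (iso_contra T 4 0 1 2 3 (by decide) (by rw [a_symm T]; exact h04) (by rw [a_symm T]; exact h14) (by rw [a_symm T]; exact h24) (by rw [a_symm T]; exact h34)).elim
                    · -- nonzero
                      obtain ⟨y0, y1, y2, y3, y4, m, w, hinj, hp⟩ := shape_fork T (x0 := 3) (x1 := 0) (x2 := 4) (x3 := 2) (x4 := 1) (by decide) (by decide) (by decide) (by decide) (by decide) (by decide) (by decide) (by decide) (by decide) (by decide) t3 t0 t4 t2 t1 h03 h34 (by rw [a_symm T]; exact h23) (by rw [a_symm T]; exact h12) (by rw [a_symm T]; exact h13) h04 h02 h01 (by rw [a_symm T]; exact h24) (by rw [a_symm T]; exact h14) (by linear_combination r3) (by linear_combination r0) (by linear_combination r4) (by linear_combination r2) (by linear_combination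 r1)
                      exact ⟨perm5 y0 y1 y2 y3 y4 hinj, m, w, hp⟩
                  · -- nonzero
                    by_cases h34 : T.a 3 4 = 0
                    · -- zero
                      obtain ⟨y0, y1, y2, y3, y4, m, w, hinj, hp⟩ := shape_fork T (x0 := 2) (x1 := 1) (x2 := 4) (x3 := 3) (x4 := 0) (by decide) (by decide) (by decide) (by decide) (by decide) (by decide) (by decide) (by decide) (by decide) (by decide) t2 t1 t4 t3 t0 h12 h24 h23 (by rw [a_symm T]; exact h03) (by rw [a_symm T]; exact h02) h14 h13 (by rw [a_symm T]; exact h01) (by rw [a_symm T]; exact h34) (by rw [a_symm T]; exact h04) (by linear_combination r2) (by linear_combination r1) (by linear_combination r4) (by linear_combination r3) (by linear_combination r0)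
                      exact ⟨perm5 y0 y1 y2 y3 y4 hinj, m, w, hp⟩
                    · -- nonzero
                      exact absurd (chain3_types T (by norm_num) (by decide) (by decide) (by decide) t2 t3 t4 h23 h34).1 h24
              · -- nonzero
                by_cases h23 : T.a 2 3 = 0
                · -- zero
                  by_cases h24 : T.a 2 4 = 0
                  · -- zero
                    by_cases h34 : T.a 3 4 = 0
                    · -- zero
                      exact (split_contra T 0 3 1 2 4 (by decide) (by decide) (by decide) h01 h02 h04 (by rw [a_symm T]; exact h13) (by rw [a_symm T]; exact h23) h34).elim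
                    · -- nonzero
                      obtain ⟨y0, y1, y2, y3, y4, m, w, hinj, hp⟩ := shape_p5 T (x0 := 0) (x1 := 3) (x2 := 4) (x3 := 1) (x4 := 2) (by decide) (by decide) (by decide) (by decide) (by decide) (by decide) (by decide) (by decide) (by decide) (by decide) t0 t3 t4 t1 t2 h03 h34 (by rw [a_symm T]; exact h14) h12 h04 h01 h02 (by rw [a_symm T]; exact h13) (by rw [a_symm T]; exact h23) (by rw [a_symm T]; exact h24) (by linear_combination r0) (by linear_combination r3) (by linear_combination r4) (by linear_combination r1) (by linear_combination r2)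
                      exact ⟨perm5 y0 y1 y2 y3 y4 hinj, m, w, hp⟩
                  · -- nonzero
                    exact absurd (chain3_types T (by norm_num) (by decide) (by decide) (by decide) t1 t2 t4 h12 h24).1 h14
                · -- nonzero
                  by_cases h24 : T.a 2 4 = 0
                  · -- zero
                    by_cases h34 : T.a 3 4 = 0
                    · -- zero
                      obtain ⟨y0, y1, y2, y3, y4, m, w, hinj, hp⟩ := shape_p5 T (x0 := 0) (x1 := 3) (x2 := 2) (x3 := 1) (x4 := 4) (by decide) (by decide) (by decide) (by decide) (by decide) (by decide) (by decide) (by decide) (by decide) (by decide) t0 t3 t2 t1 t4 h03 (by rw [a_symm T]; exact h23) (by rw [a_symm T]; exact h12) h14 h02 h01 h04 (by rw [a_symm T]; exact h13) h34 h24 (by linear_combination r0) (by linear_combination r3) (by linear_combination r2) (by linear_combination r1) (by linear_combination r4)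
                      exact ⟨perm5 y0 y1 y2 y3 y4 hinj, m, w, hp⟩
                    · -- nonzero
                      exact (no_c4 T (x0 := 1) (x1 := 2) (x2 := 3) (x3 := 4) (by decide) (by decide) (by decide) (by decide) (by decide) (by decide) t1 t2 t3 t4 h12 h23 h34 (by rw [a_symm T]; exact h14)).elim
                  · -- nonzero
                    exact absurd (chain3_types T (by norm_num) (by decide) (by decide) (by decide) t1 t2 t4 h12 h24).1 h14
            · -- nonzero
              by_cases h14 : T.a 1 4 = 0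
              · -- zero
                by_cases h23 : T.a 2 3 = 0
                · -- zero
                  by_cases h24 : T.a 2 4 = 0
                  · -- zero
                    by_cases h34 : T.a 3 4 = 0
                    · -- zero
                      exact (iso_contra T 4 0 1 2 3 (by decide) (by rw [a_symm T]; exact h04) (by rw [a_symm T]; exact h14) (by rw [a_symm T]; exact h24) (by rw [a_symm T]; exact h34)).elim
                    · -- nonzero
                      obtain ⟨y0, y1, y2, y3, y4, m, w, hinj, hp⟩ := shape_fork T (x0 := 3) (x1 := 0) (x2 := 4) (x3 := 1) (x4 := 2) (by decide) (by decide) (by decide) (by decide) (by decide) (by decide) (by decide) (by decide) (by decide) (by decide) t3 t0 t4 t1 t2 h03 h34 (by rw [a_symm T]; exact h13) h12 (by rw [a_symm T]; exact h23) h04 h01 h02 (by rw [a_symm T]; exact h14) (by rw [a_symm T]; exact h24) (by linear_combination r3) (by linear_combination r0) (by linear_combination r4) (by linear_combination r1) (by linear_combination r2)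
                      exact ⟨perm5 y0 y1 y2 y3 y4 hinj, m, w, hp⟩
                  · -- nonzero
                    by_cases h34 : T.a 3 4 = 0
                    · -- zero
                      obtain ⟨y0, y1, y2, y3, y4, m, w, hinj, hp⟩ := shape_p5 T (x0 := 0) (x1 := 3) (x2 := 1) (x3 := 2) (x4 := 4) (by decide) (by decide) (by decide) (by decide) (by decide) (by decide) (by decide) (by decide) (by decide) (by decide) t0 t3 t1 t2 t4 h03 (by rw [a_symm T]; exact h13) h12 h24 h01 h02 h04 (by rw [a_symm T]; exact h23) h34 h14 (by linear_combination r0) (by linear_combination r3) (by linear_combination r1) (by linear_combination r2) (by linear_combination r4)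
                      exact ⟨perm5 y0 y1 y2 y3 y4 hinj, m, w, hp⟩
                    · -- nonzero
                      exact (no_c4 T (x0 := 1) (x1 := 2) (x2 := 4) (x3 := 3) (by decide) (by decide) (by decide) (by decide) (by decide) (by decide) t1 t2 t4 t3 h12 h24 (by rw [a_symm T]; exact h34) (by rw [a_symm T]; exact h13)).elim
                · -- nonzero
                  exact absurd (chain3_types T (by norm_num) (by decide) (by decide) (by decide) t1 t2 t3 h12 h23).1 h13
              · -- nonzero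
                by_cases h23 : T.a 2 3 = 0
                · -- zero
                  by_cases h24 : T.a 2 4 = 0
                  · -- zero
                    by_cases h34 : T.a 3 4 = 0
                    · -- zero
                      obtain ⟨y0, y1, y2, y3, y4, m, w, hinj, hp⟩ := shape_fork T (x0 := 1) (x1 := 2) (x2 := 4) (x3 := 3) (x4 := 0) (by decide) (by decide) (by decide) (by decide) (by decide) (by decide) (by decide) (by decide) (by decide) (by decide) t1 t2 t4 t3 t0 (by rw [a_symm T]; exact h12) h14 h13 (by rw [a_symm T]; exact h03) (by rw [a_symm T]; exact h01) h24 h23 (by rw [a_symm T]; exact h02) (by rw [a_symm T]; exact h34) (by rw [a_symm T]; exact h04) (by linear_combination r1) (by linear_combination r2) (by linear_combination r4) (by linear_combination r3) (by linear_combination r0)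
                      exact ⟨perm5 y0 y1 y2 y3 y4 hinj, m, w, hp⟩
                    · -- nonzero
                      exact absurd (chain3_types T (by norm_num) (by decide) (by decide) (by decide) t1 t3 t4 h13 h34).1 h14
                  · -- nonzero
                    exact absurd (chain3_types T (by norm_num) (by decide) (by decide) (by decide) t1 t2 t4 h12 h24).1 h14
                · -- nonzero
                  exact absurd (chain3_types T (by norm_num) (by decide) (by decide) (by decide) t1 t2 t3 h12 h23).1 h13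
        · -- nonzero
          by_cases h12 : T.a 1 2 = 0
          · -- zero
            by_cases h13 : T.a 1 3 = 0
            · -- zero
              by_cases h14 : T.a 1 4 = 0
              · -- zero
                exact (iso_contra T 1 0 2 3 4 (by decide) (by rw [a_symm T]; exact h01) h12 h13 h14).elim
              · -- nonzero
                by_cases h23 : T.a 2 3 = 0
                · -- zero
                  by_cases h24 : T.a 2 4 = 0
                  · -- zero
                    exact (iso_contra T 2 0 1 3 4 (by decide) (by rw [a_symm T]; exact h02) (by rw [a_symm T]; exact h12) h23 h24).elim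
                  · -- nonzero
                    by_cases h34 : T.a 3 4 = 0
                    · -- zero
                      obtain ⟨y0, y1, y2, y3, y4, m, w, hinj, hp⟩ := shape_fork T (x0 := 4) (x1 := 1) (x2 := 2) (x3 := 0) (x4 := 3) (by decide) (by decide) (by decide) (by decide) (by decide) (by decide) (by decide) (by decide) (by decide) (by decide) t4 t1 t2 t0 t3 h14 (by rw [a_symm T]; exact h24) (by rw [a_symm T]; exact h04) h03 (by rw [a_symm T]; exact h34) h12 (by rw [a_symm T]; exact h01) h13 (by rw [a_symm T]; exact h02) h23 (by linear_combination r4) (by linear_combination r1) (by linear_combination r2) (by linear_combination r0) (by linear_combination r3)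
                      exact ⟨perm5 y0 y1 y2 y3 y4 hinj, m, w, hp⟩
                    · -- nonzero
                      exact absurd (chain3_types T (by norm_num) (by decide) (by decide) (by decide) t0 t3 t4 h03 h34).1 h04
                · -- nonzero
                  by_cases h24 : T.a 2 4 = 0
                  · -- zero
                    by_cases h34 : T.a 3 4 = 0
                    · -- zero
                      obtain ⟨y0, y1, y2, y3, y4, m, w, hinj, hp⟩ := shape_p5 T (x0 := 1) (x1 := 4) (x2 := 0) (x3 := 3) (x4 := 2) (by decide) (by decide) (by decide) (by decide) (by decide) (by decide) (by decide) (by decide) (by decide) (by decide) t1 t4 t0 t3 t2 h14 (by rw [a_symm T]; exact h04) h03 (by rw [a_symm T]; exact h23) (by rw [a_symm T]; exact h01) h13 h12 (by rw [a_symm T]; exact h34) (by rw [a_symm T]; exact h24) h02 (by linear_combination r1) (by linear_combination r4) (by linear_combination r0) (by linear_combination r3) (by linear_combination r2)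
                      exact ⟨perm5 y0 y1 y2 y3 y4 hinj, m, w, hp⟩
                    · -- nonzero
                      exact absurd (chain3_types T (by norm_num) (by decide) (by decide) (by decide) t0 t3 t4 h03 h34).1 h04
                  · -- nonzero
                    exact (no_c4 T (x0 := 0) (x1 := 3) (x2 := 2) (x3 := 4) (by decide) (by decide) (by decide) (by decide) (by decide) (by decide) t0 t3 t2 t4 h03 (by rw [a_symm T]; exact h23) h24 (by rw [a_symm T]; exact h04)).elim
            · -- nonzero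
              by_cases h14 : T.a 1 4 = 0
              · -- zero
                by_cases h23 : T.a 2 3 = 0
                · -- zero
                  by_cases h24 : T.a 2 4 = 0
                  · -- zero
                    exact (iso_contra T 2 0 1 3 4 (by decide) (by rw [a_symm T]; exact h02) (by rw [a_symm T]; exact h12) h23 h24).elim
                  · -- nonzero
                    by_cases h34 : T.a 3 4 = 0
                    · -- zero
                      obtain ⟨y0, y1, y2, y3, y4, m, w, hinj, hp⟩ := shape_p5 T (x0 := 1) (x1 := 3) (x2 := 0) (x3 := 4) (x4 := 2) (by decide) (by decide) (by decide) (by decide) (by decide) (by decide) (by decide) (by decide) (by decide) (by decide) t1 t3 t0 t4 t2 h13 (by rw [a_symm T]; exact h03) h04 (by rw [a_symm T]; exact h24) (by rw [a_symm T]; exact h01) h14 h12 h34 (by rw [a_symm T]; exact h23) h02 (by linear_combination r1) (by linear_combination r3) (by linear_combination r0) (by linear_combination r4) (by linear_combination r2)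
                      exact ⟨perm5 y0 y1 y2 y3 y4 hinj, m, w, hp⟩
                    · -- nonzero
                      exact absurd (chain3_types T (by norm_num) (by decide) (by decide) (by decide) t0 t3 t4 h03 h34).1 h04
                · -- nonzero
                  by_cases h24 : T.a 2 4 = 0
                  · -- zero
                    by_cases h34 : T.a 3 4 = 0
                    · -- zero
                      obtain ⟨y0, y1, y2, y3, y4, m, w, hinj, hp⟩ := shape_fork T (x0 := 3) (x1 := 1) (x2 := 2) (x3 := 0) (x4 := 4) (by decide) (by decide) (by decide) (by decide) (by decide) (by decide) (by decide) (by decide) (by decide) (by decide) t3 t1 t2 t0 t4 h13 (by rw [a_symm T]; exact h23) (by rw [a_symm T]; exact h03) h04 h34 h12 (by rw [a_symm T]; exact h01) h14 (by rw [a_symm T]; exact h02) h24 (by linear_combination r3) (by linear_combination r1) (by linear_combination r2) (by linear_combination r0) (by linear_combination r4)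
                      exact ⟨perm5 y0 y1 y2 y3 y4 hinj, m, w, hp⟩
                    · -- nonzero
                      exact absurd (chain3_types T (by norm_num) (by decide) (by decide) (by decide) t0 t3 t4 h03 h34).1 h04
                  · -- nonzero
                    exact (no_c4 T (x0 := 0) (x1 := 3) (x2 := 2) (x3 := 4) (by decide) (by decide) (by decide) (by decide) (by decide) (by decide) t0 t3 t2 t4 h03 (by rw [a_symm T]; exact h23) h24 (by rw [a_symm T]; exact h04)).elim
              · -- nonzero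
                exact (no_c4 T (x0 := 0) (x1 := 3) (x2 := 1) (x3 := 4) (by decide) (by decide) (by decide) (by decide) (by decide) (by decide) t0 t3 t1 t4 h03 (by rw [a_symm T]; exact h13) h14 (by rw [a_symm T]; exact h04)).elim
          · -- nonzero
            by_cases h13 : T.a 1 3 = 0
            · -- zero
              by_cases h14 : T.a 1 4 = 0
              · -- zero
                by_cases h23 : T.a 2 3 = 0
                · -- zero
                  by_cases h24 : T.a 2 4 = 0
                  · -- zero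
                    by_cases h34 : T.a 3 4 = 0
                    · -- zero
                      exact (split_contra T 1 2 0 3 4 (by decide) (by decide) (by decide) (by rw [a_symm T]; exact h01) h13 h14 (by rw [a_symm T]; exact h02) h23 h24).elim
                    · -- nonzero
                      exact absurd (chain3_types T (by norm_num) (by decide) (by decide) (by decide) t0 t3 t4 h03 h34).1 h04
                  · -- nonzero
                    by_cases h34 : T.a 3 4 = 0
                    · -- zero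
                      obtain ⟨y0, y1, y2, y3, y4, m, w, hinj, hp⟩ := shape_p5 T (x0 := 1) (x1 := 2) (x2 := 4) (x3 := 0) (x4 := 3) (by decide) (by decide) (by decide) (by decide) (by decide) (by decide) (by decide) (by decide) (by decide) (by decide) t1 t2 t4 t0 t3 h12 h24 (by rw [a_symm T]; exact h04) h03 h14 (by rw [a_symm T]; exact h01) h13 (by rw [a_symm T]; exact h02) h23 (by rw [a_symm T]; exact h34) (by linear_combination r1) (by linear_combination r2) (by linear_combination r4) (by linear_combination r0) (by linear_combination r3)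
                      exact ⟨perm5 y0 y1 y2 y3 y4 hinj, m, w, hp⟩
                    · -- nonzero
                      exact absurd (chain3_types T (by norm_num) (by decide) (by decide) (by decide) t0 t3 t4 h03 h34).1 h04
                · -- nonzero
                  by_cases h24 : T.a 2 4 = 0
                  · -- zero
                    by_cases h34 : T.a 3 4 = 0
                    · -- zero
                      obtain ⟨y0, y1, y2, y3, y4, m, w, hinj, hp⟩ := shape_p5 T (x0 := 1) (x1 := 2) (x2 := 3) (x3 := 0) (x4 := 4) (by decide) (by decide) (by decide) (by decide) (by decide) (by decide) (by decide) (by decide) (by decide) (by decide) t1 t2 t3 t0 t4 h12 h23 (by rw [a_symm T]; exact h03) h04 h13 (by rw [a_symm T]; exact h01) h14 (by rw [a_symm T]; exact h02) h24 h34 (by linear_combination r1) (by linear_combination r2) (by linear_combination r3) (by linear_combination r0) (by linear_combination r4)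
                      exact ⟨perm5 y0 y1 y2 y3 y4 hinj, m, w, hp⟩
                    · -- nonzero
                      exact absurd (chain3_types T (by norm_num) (by decide) (by decide) (by decide) t0 t3 t4 h03 h34).1 h04
                  · -- nonzero
                    exact (no_c4 T (x0 := 0) (x1 := 3) (x2 := 2) (x3 := 4) (by decide) (by decide) (by decide) (by decide) (by decide) (by decide) t0 t3 t2 t4 h03 (by rw [a_symm T]; exact h23) h24 (by rw [a_symm T]; exact h04)).elim
              · -- nonzero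
                by_cases h23 : T.a 2 3 = 0
                · -- zero
                  by_cases h24 : T.a 2 4 = 0
                  · -- zero
                    by_cases h34 : T.a 3 4 = 0
                    · -- zero
                      obtain ⟨y0, y1, y2, y3, y4, m, w, hinj, hp⟩ := shape_p5 T (x0 := 2) (x1 := 1) (x2 := 4) (x3 := 0) (x4 := 3) (by decide) (by decide) (by decide) (by decide) (by decide) (by decide) (by decide) (by decide) (by decide) (by decide) t2 t1 t4 t0 t3 (by rw [a_symm T]; exact h12) h14 (by rw [a_symm T]; exact h04) h03 h24 (by rw [a_symm T]; exact h02) h23 (by rw [a_symm T]; exact h01) h13 (by rw [a_symm T]; exact h34) (by linear_combination r2) (by linear_combination r1) (by linear_combination r4) (by linear_combination r0) (by linear_combination r3)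
                      exact ⟨perm5 y0 y1 y2 y3 y4 hinj, m, w, hp⟩
                    · -- nonzero
                      exact absurd (chain3_types T (by norm_num) (by decide) (by decide) (by decide) t0 t3 t4 h03 h34).1 h04
                  · -- nonzero
                    exact absurd (chain3_types T (by norm_num) (by decide) (by decide) (by decide) t1 t2 t4 h12 h24).1 h14
                · -- nonzero
                  by_cases h24 : T.a 2 4 = 0
                  · -- zero
                    by_cases h34 : T.a 3 4 = 0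
                    · -- zero
                      obtain ⟨y0, y1, y2, y3, y4, m, w, hinj, hp⟩ := shape_c5 T (x0 := 0) (x1 := 3) (x2 := 2) (x3 := 1) (x4 := 4) (by decide) (by decide) (by decide) (by decide) (by decide) (by decide) (by decide) (by decide) (by decide) (by decide) t0 t3 t2 t1 t4 h03 (by rw [a_symm T]; exact h23) (by rw [a_symm T]; exact h12) h14 (by rw [a_symm T]; exact h04) h02 h01 (by rw [a_symm T]; exact h13) h34 h24 (by linear_combination r0) (by linear_combination r3) (by linear_combination r2) (by linear_combination r1) (by linear_combination r4)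
                      exact ⟨perm5 y0 y1 y2 y3 y4 hinj, m, w, hp⟩
                    · -- nonzero
                      exact absurd (chain3_types T (by norm_num) (by decide) (by decide) (by decide) t0 t3 t4 h03 h34).1 h04
                  · -- nonzero
                    exact absurd (chain3_types T (by norm_num) (by decide) (by decide) (by decide) t1 t2 t4 h12 h24).1 h14
            · -- nonzero
              by_cases h14 : T.a 1 4 = 0
              · -- zero
                by_cases h23 : T.a 2 3 = 0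
                · -- zero
                  by_cases h24 : T.a 2 4 = 0
                  · -- zero
                    by_cases h34 : T.a 3 4 = 0
                    · -- zero
                      obtain ⟨y0, y1, y2, y3, y4, m, w, hinj, hp⟩ := shape_p5 T (x0 := 2) (x1 := 1) (x2 := 3) (x3 := 0) (x4 := 4) (by decide) (by decide) (by decide) (by decide) (by decide) (by decide) (by decide) (by decide) (by decide) (by decide) t2 t1 t3 t0 t4 (by rw [a_symm T]; exact h12) h13 (by rw [a_symm T]; exact h03) h04 h23 (by rw [a_symm T]; exact h02) h24 (by rw [a_symm T]; exact h01) h14 h34 (by linear_combination r2) (by linear_combination r1) (by linear_combination r3) (by linear_combination r0) (by linear_combination r4)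
                      exact ⟨perm5 y0 y1 y2 y3 y4 hinj, m, w, hp⟩
                    · -- nonzero
                      exact absurd (chain3_types T (by norm_num) (by decide) (by decide) (by decide) t0 t3 t4 h03 h34).1 h04
                  · -- nonzero
                    by_cases h34 : T.a 3 4 = 0
                    · -- zero
                      obtain ⟨y0, y1, y2, y3, y4, m, w, hinj, hp⟩ := shape_c5 T (x0 := 0) (x1 := 3) (x2 := 1) (x3 := 2) (x4 := 4) (by decide) (by decide) (by decide) (by decide) (by decide) (by decide) (by decide) (by decide) (by decide) (by decide) t0 t3 t1 t2 t4 h03 (by rw [a_symm T]; exact h13) h12 h24 (by rw [a_symm T]; exact h04) h01 h02 (by rw [a_symm T]; exact h23) h34 h14 (by linear_combination r0) (by linear_combination r3) (by linear_combination r1) (by linear_combination r2) (by linear_combination r4)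
                      exact ⟨perm5 y0 y1 y2 y3 y4 hinj, m, w, hp⟩
                    · -- nonzero
                      exact absurd (chain3_types T (by norm_num) (by decide) (by decide) (by decide) t0 t3 t4 h03 h34).1 h04
                · -- nonzero
                  exact absurd (chain3_types T (by norm_num) (by decide) (by decide) (by decide) t1 t2 t3 h12 h23).1 h13
              · -- nonzero
                exact (no_c4 T (x0 := 0) (x1 := 3) (x2 := 1) (x3 := 4) (by decide) (by decide) (by decide) (by decide) (by decide) (by decide) t0 t3 t1 t4 h03 (by rw [a_symm T]; exact h13) h14 (by rw [a_symm T]; exact h04)).elim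
    · -- nonzero
      by_cases h03 : T.a 0 3 = 0
      · -- zero
        by_cases h04 : T.a 0 4 = 0
        · -- zero
          by_cases h12 : T.a 1 2 = 0
          · -- zero
            by_cases h13 : T.a 1 3 = 0
            · -- zero
              by_cases h14 : T.a 1 4 = 0
              · -- zero
                exact (iso_contra T 1 0 2 3 4 (by decide) (by rw [a_symm T]; exact h01) h12 h13 h14).elim
              · -- nonzero
                by_cases h23 : T.a 2 3 = 0
                · -- zero
                  by_cases h24 : T.a 2 4 = 0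
                  · -- zero
                    by_cases h34 : T.a 3 4 = 0
                    · -- zero
                      exact (iso_contra T 3 0 1 2 4 (by decide) (by rw [a_symm T]; exact h03) (by rw [a_symm T]; exact h13) (by rw [a_symm T]; exact h23) h34).elim
                    · -- nonzero
                      exact (split_contra T 0 2 1 3 4 (by decide) (by decide) (by decide) h01 h03 h04 (by rw [a_symm T]; exact h12) h23 h24).elim
                  · -- nonzero
                    by_cases h34 : T.a 3 4 = 0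
                    · -- zero
                      exact (iso_contra T 3 0 1 2 4 (by decide) (by rw [a_symm T]; exact h03) (by rw [a_symm T]; exact h13) (by rw [a_symm T]; exact h23) h34).elim
                    · -- nonzero
                      obtain ⟨y0, y1, y2, y3, y4, m, w, hinj, hp⟩ := shape_fork T (x0 := 4) (x1 := 1) (x2 := 3) (x3 := 2) (x4 := 0) (by decide) (by decide) (by decide) (by decide) (by decide) (by decide) (by decide) (by decide) (by decide) (by decide) t4 t1 t3 t2 t0 h14 (by rw [a_symm T]; exact h34) (by rw [a_symm T]; exact h24) (by rw [a_symm T]; exact h02) (by rw [a_symm T]; exact h04) h13 h12 (by rw [a_symm T]; exact h01) (by rw [a_symm T]; exact h23) (by rw [a_symm T]; exact h03) (by linear_combination r4) (by linear_combination r1) (by linear_combination r3) (by linear_combination r2) (by linear_combination r0)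
                      exact ⟨perm5 y0 y1 y2 y3 y4 hinj, m, w, hp⟩
                · -- nonzero
                  by_cases h24 : T.a 2 4 = 0
                  · -- zero
                    by_cases h34 : T.a 3 4 = 0
                    · -- zero
                      exact (split_contra T 1 4 0 2 3 (by decide) (by decide) (by decide) (by rw [a_symm T]; exact h01) h12 h13 (by rw [a_symm T]; exact h04) (by rw [a_symm T]; exact h24) (by rw [a_symm T]; exact h34)).elim
                    · -- nonzero
                      obtain ⟨y0, y1, y2, y3, y4, m, w, hinj, hp⟩ := shape_p5 T (x0 := 0) (x1 := 2) (x2 := 3) (x3 := 4) (x4 := 1) (by decide) (by decide) (by decide) (by decide) (by decide) (by decide) (by decide) (by decide) (by decide) (by decide) t0 t2 t3 t4 t1 h02 h23 h34 (by rw [a_symm T]; exact h14) h03 h04 h01 h24 (by rw [a_symm T]; exact h12) (by rw [a_symm T]; exact h13) (by linear_combination r0) (by linear_combination r2) (by linear_combination r3) (by linear_combination r4) (by linear_combination r1)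
                      exact ⟨perm5 y0 y1 y2 y3 y4 hinj, m, w, hp⟩
                  · -- nonzero
                    by_cases h34 : T.a 3 4 = 0
                    · -- zero
                      obtain ⟨y0, y1, y2, y3, y4, m, w, hinj, hp⟩ := shape_fork T (x0 := 2) (x1 := 0) (x2 := 3) (x3 := 4) (x4 := 1) (by decide) (by decide) (by decide) (by decide) (by decide) (by decide) (by decide) (by decide) (by decide) (by decide) t2 t0 t3 t4 t1 h02 h23 h24 (by rw [a_symm T]; exact h14) (by rw [a_symm T]; exact h12) h03 h04 h01 h34 (by rw [a_symm T]; exact h13) (by linear_combination r2) (by linear_combination r0) (by linear_combination r3) (by linear_combination r4) (by linear_combination r1)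
                      exact ⟨perm5 y0 y1 y2 y3 y4 hinj, m, w, hp⟩
                    · -- nonzero
                      exact absurd (chain3_types T (by norm_num) (by decide) (by decide) (by decide) t2 t3 t4 h23 h34).1 h24
            · -- nonzero
              by_cases h14 : T.a 1 4 = 0
              · -- zero
                by_cases h23 : T.a 2 3 = 0
                · -- zero
                  by_cases h24 : T.a 2 4 = 0
                  · -- zero
                    by_cases h34 : T.a 3 4 = 0
                    · -- zero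
                      exact (iso_contra T 4 0 1 2 3 (by decide) (by rw [a_symm T]; exact h04) (by rw [a_symm T]; exact h14) (by rw [a_symm T]; exact h24) (by rw [a_symm T]; exact h34)).elim
                    · -- nonzero
                      exact (split_contra T 0 2 1 3 4 (by decide) (by decide) (by decide) h01 h03 h04 (by rw [a_symm T]; exact h12) h23 h24).elim
                  · -- nonzero
                    by_cases h34 : T.a 3 4 = 0
                    · -- zero
                      exact (split_contra T 1 3 0 2 4 (by decide) (by decide) (by decide) (by rw [a_symm T]; exact h01) h12 h14 (by rw [a_symm T]; exact h03) (by rw [a_symm T]; exact h23) h34).elim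
                    · -- nonzero
                      obtain ⟨y0, y1, y2, y3, y4, m, w, hinj, hp⟩ := shape_p5 T (x0 := 0) (x1 := 2) (x2 := 4) (x3 := 3) (x4 := 1) (by decide) (by decide) (by decide) (by decide) (by decide) (by decide) (by decide) (by decide) (by decide) (by decide) t0 t2 t4 t3 t1 h02 h24 (by rw [a_symm T]; exact h34) (by rw [a_symm T]; exact h13) h04 h03 h01 h23 (by rw [a_symm T]; exact h12) (by rw [a_symm T]; exact h14) (by linear_combination r0) (by linear_combination r2) (by linear_combination r4) (by linear_combination r3) (by linear_combination r1)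
                      exact ⟨perm5 y0 y1 y2 y3 y4 hinj, m, w, hp⟩
                · -- nonzero
                  by_cases h24 : T.a 2 4 = 0
                  · -- zero
                    by_cases h34 : T.a 3 4 = 0
                    · -- zero
                      exact (iso_contra T 4 0 1 2 3 (by decide) (by rw [a_symm T]; exact h04) (by rw [a_symm T]; exact h14) (by rw [a_symm T]; exact h24) (by rw [a_symm T]; exact h34)).elim
                    · -- nonzero
                      obtain ⟨y0, y1, y2, y3, y4, m, w, hinj, hp⟩ := shape_fork T (x0 := 3) (x1 := 1) (x2 := 4) (x3 := 2) (x4 := 0) (by decide) (by decide) (by decide) (by decide) (by decide) (by decide) (by decide) (by decide) (by decide) (by decide) t3 t1 t4 t2 t0 h13 h34 (by rw [a_symm T]; exact h23) (by rw [a_symm T]; exact h02) (by rw [a_symm T]; exact h03) h14 h12 (by rw [a_symm T]; exact h01) (by rw [a_symm T]; exact h24) (by rw [a_symm T]; exact h04) (by linear_combination r3) (by linear_combination r1) (by linear_combination r4) (by linear_combination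 r2) (by linear_combination r0)
                      exact ⟨perm5 y0 y1 y2 y3 y4 hinj, m, w, hp⟩
                  · -- nonzero
                    by_cases h34 : T.a 3 4 = 0
                    · -- zero
                      obtain ⟨y0, y1, y2, y3, y4, m, w, hinj, hp⟩ := shape_fork T (x0 := 2) (x1 := 0) (x2 := 4) (x3 := 3) (x4 := 1) (by decide) (by decide) (by decide) (by decide) (by decide) (by decide) (by decide) (by decide) (by decide) (by decide) t2 t0 t4 t3 t1 h02 h24 h23 (by rw [a_symm T]; exact h13) (by rw [a_symm T]; exact h12) h04 h03 h01 (by rw [a_symm T]; exact h34) (by rw [a_symm T]; exact h14) (by linear_combination r2) (by linear_combination r0) (by linear_combination r4) (by linear_combination r3) (by linear_combination r1)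
                      exact ⟨perm5 y0 y1 y2 y3 y4 hinj, m, w, hp⟩
                    · -- nonzero
                      exact absurd (chain3_types T (by norm_num) (by decide) (by decide) (by decide) t2 t3 t4 h23 h34).1 h24
              · -- nonzero
                by_cases h23 : T.a 2 3 = 0
                · -- zero
                  by_cases h24 : T.a 2 4 = 0
                  · -- zero
                    by_cases h34 : T.a 3 4 = 0
                    · -- zero
                      exact (split_contra T 0 2 1 3 4 (by decide) (by decide) (by decide) h01 h03 h04 (by rw [a_symm T]; exact h12) h23 h24).elim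
                    · -- nonzero
                      exact absurd (chain3_types T (by norm_num) (by decide) (by decide) (by decide) t1 t3 t4 h13 h34).1 h14
                  · -- nonzero
                    by_cases h34 : T.a 3 4 = 0
                    · -- zero
                      obtain ⟨y0, y1, y2, y3, y4, m, w, hinj, hp⟩ := shape_p5 T (x0 := 0) (x1 := 2) (x2 := 4) (x3 := 1) (x4 := 3) (by decide) (by decide) (by decide) (by decide) (by decide) (by decide) (by decide) (by decide) (by decide) (by decide) t0 t2 t4 t1 t3 h02 h24 (by rw [a_symm T]; exact h14) h13 h04 h01 h03 (by rw [a_symm T]; exact h12) h23 (by rw [a_symm T]; exact h34) (by linear_combination r0) (by linear_combination r2) (by linear_combination r4) (by linear_combination r1) (by linear_combination r3)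
                      exact ⟨perm5 y0 y1 y2 y3 y4 hinj, m, w, hp⟩
                    · -- nonzero
                      exact absurd (chain3_types T (by norm_num) (by decide) (by decide) (by decide) t1 t3 t4 h13 h34).1 h14
                · -- nonzero
                  by_cases h24 : T.a 2 4 = 0
                  · -- zero
                    by_cases h34 : T.a 3 4 = 0
                    · -- zero
                      obtain ⟨y0, y1, y2, y3, y4, m, w, hinj, hp⟩ := shape_p5 T (x0 := 0) (x1 := 2) (x2 := 3) (x3 := 1) (x4 := 4) (by decide) (by decide) (by decide) (by decide) (by decide) (by decide) (by decide) (by decide) (by decide) (by decide) t0 t2 t3 t1 t4 h02 h23 (by rw [a_symm T]; exact h13) h14 h03 h01 h04 (by rw [a_symm T]; exact h12) h24 h34 (by linear_combination r0) (by linear_combination r2) (by linear_combination r3) (by linear_combination r1) (by linear_combination r4)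
                      exact ⟨perm5 y0 y1 y2 y3 y4 hinj, m, w, hp⟩
                    · -- nonzero
                      exact absurd (chain3_types T (by norm_num) (by decide) (by decide) (by decide) t1 t3 t4 h13 h34).1 h14
                  · -- nonzero
                    exact (no_c4 T (x0 := 1) (x1 := 3) (x2 := 2) (x3 := 4) (by decide) (by decide) (by decide) (by decide) (by decide) (by decide) t1 t3 t2 t4 h13 (by rw [a_symm T]; exact h23) h24 (by rw [a_symm T]; exact h14)).elim
          · -- nonzero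
            by_cases h13 : T.a 1 3 = 0
            · -- zero
              by_cases h14 : T.a 1 4 = 0
              · -- zero
                by_cases h23 : T.a 2 3 = 0
                · -- zero
                  by_cases h24 : T.a 2 4 = 0
                  · -- zero
                    by_cases h34 : T.a 3 4 = 0
                    · -- zero
                      exact (iso_contra T 3 0 1 2 4 (by decide) (by rw [a_symm T]; exact h03) (by rw [a_symm T]; exact h13) (by rw [a_symm T]; exact h23) h34).elim
                    · -- nonzero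
                      exact (split_contra T 3 4 0 1 2 (by decide) (by decide) (by decide) (by rw [a_symm T]; exact h03) (by rw [a_symm T]; exact h13) (by rw [a_symm T]; exact h23) (by rw [a_symm T]; exact h04) (by rw [a_symm T]; exact h14) (by rw [a_symm T]; exact h24)).elim
                  · -- nonzero
                    by_cases h34 : T.a 3 4 = 0
                    · -- zero
                      exact (iso_contra T 3 0 1 2 4 (by decide) (by rw [a_symm T]; exact h03) (by rw [a_symm T]; exact h13) (by rw [a_symm T]; exact h23) h34).elim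
                    · -- nonzero
                      obtain ⟨y0, y1, y2, y3, y4, m, w, hinj, hp⟩ := shape_fork T (x0 := 2) (x1 := 0) (x2 := 1) (x3 := 4) (x4 := 3) (by decide) (by decide) (by decide) (by decide) (by decide) (by decide) (by decide) (by decide) (by decide) (by decide) t2 t0 t1 t4 t3 h02 (by rw [a_symm T]; exact h12) h24 (by rw [a_symm T]; exact h34) h23 h01 h04 h03 h14 h13 (by linear_combination r2) (by linear_combination r0) (by linear_combination r1) (by linear_combination r4) (by linear_combination r3)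
                      exact ⟨perm5 y0 y1 y2 y3 y4 hinj, m, w, hp⟩
                · -- nonzero
                  by_cases h24 : T.a 2 4 = 0
                  · -- zero
                    by_cases h34 : T.a 3 4 = 0
                    · -- zero
                      exact (iso_contra T 4 0 1 2 3 (by decide) (by rw [a_symm T]; exact h04) (by rw [a_symm T]; exact h14) (by rw [a_symm T]; exact h24) (by rw [a_symm T]; exact h34)).elim
                    · -- nonzero
                      obtain ⟨y0, y1, y2, y3, y4, m, w, hinj, hp⟩ := shape_fork T (x0 := 2) (x1 := 0) (x2 := 1) (x3 := 3) (x4 := 4) (by decide) (by decide) (by decide) (by decide) (by decide) (by decide) (by decide) (by decide) (by decide) (by decide) t2 t0 t1 t3 t4 h02 (by rw [a_symm T]; exact h12) h23 h34 h24 h01 h03 h04 h13 h14 (by linear_combination r2) (by linear_combination r0) (by linear_combination r1) (by linear_combination r3) (by linear_combination r4)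
                      exact ⟨perm5 y0 y1 y2 y3 y4 hinj, m, w, hp⟩
                  · -- nonzero
                    by_cases h34 : T.a 3 4 = 0
                    · -- zero
                      obtain ⟨y0, y1, y2, y3, y4, m, w, hinj, hp⟩ := shape_star T (x0 := 2) (x1 := 0) (x2 := 1) (x3 := 3) (x4 := 4) (by decide) (by decide) (by decide) (by decide) (by decide) (by decide) (by decide) (by decide) (by decide) (by decide) t2 t0 t1 t3 t4 h02 (by rw [a_symm T]; exact h12) (by rw [a_symm T]; exact h23) h24 h01 h03 h04 h13 h14 h34 (by linear_combination r2) (by linear_combination r0) (by linear_combination r1) (by linear_combination r3) (by linear_combination r4)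
                      exact ⟨perm5 y0 y1 y2 y3 y4 hinj, m, w, hp⟩
                    · -- nonzero
                      exact absurd (chain3_types T (by norm_num) (by decide) (by decide) (by decide) t2 t3 t4 h23 h34).1 h24
              · -- nonzero
                by_cases h23 : T.a 2 3 = 0
                · -- zero
                  by_cases h24 : T.a 2 4 = 0
                  · -- zero
                    by_cases h34 : T.a 3 4 = 0
                    · -- zero
                      exact (iso_contra T 3 0 1 2 4 (by decide) (by rw [a_symm T]; exact h03) (by rw [a_symm T]; exact h13) (by rw [a_symm T]; exact h23) h34).elim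
                    · -- nonzero
                      obtain ⟨y0, y1, y2, y3, y4, m, w, hinj, hp⟩ := shape_p5 T (x0 := 0) (x1 := 2) (x2 := 1) (x3 := 4) (x4 := 3) (by decide) (by decide) (by decide) (by decide) (by decide) (by decide) (by decide) (by decide) (by decide) (by decide) t0 t2 t1 t4 t3 h02 (by rw [a_symm T]; exact h12) h14 (by rw [a_symm T]; exact h34) h01 h04 h03 h24 h23 h13 (by linear_combination r0) (by linear_combination r2) (by linear_combination r1) (by linear_combination r4) (by linear_combination r3)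
                      exact ⟨perm5 y0 y1 y2 y3 y4 hinj, m, w, hp⟩
                  · -- nonzero
                    exact absurd (chain3_types T (by norm_num) (by decide) (by decide) (by decide) t1 t2 t4 h12 h24).1 h14
                · -- nonzero
                  by_cases h24 : T.a 2 4 = 0
                  · -- zero
                    by_cases h34 : T.a 3 4 = 0
                    · -- zero
                      obtain ⟨y0, y1, y2, y3, y4, m, w, hinj, hp⟩ := shape_fork T (x0 := 2) (x1 := 0) (x2 := 3) (x3 := 1) (x4 := 4) (by decide) (by decide) (by decide) (by decide) (by decide) (by decide) (by decide) (by decide) (by decide) (by decide) t2 t0 t3 t1 t4 h02 h23 (by rw [a_symm T]; exact h12) h14 h24 h03 h01 h04 (by rw [a_symm T]; exact h13) h34 (by linear_combination r2) (by linear_combination r0) (by linear_combination r3) (by linear_combination r1) (by linear_combination r4)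
                      exact ⟨perm5 y0 y1 y2 y3 y4 hinj, m, w, hp⟩
                    · -- nonzero
                      exact (no_c4 T (x0 := 1) (x1 := 2) (x2 := 3) (x3 := 4) (by decide) (by decide) (by decide) (by decide) (by decide) (by decide) t1 t2 t3 t4 h12 h23 h34 (by rw [a_symm T]; exact h14)).elim
                  · -- nonzero
                    exact absurd (chain3_types T (by norm_num) (by decide) (by decide) (by decide) t1 t2 t4 h12 h24).1 h14
            · -- nonzero
              by_cases h14 : T.a 1 4 = 0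
              · -- zero
                by_cases h23 : T.a 2 3 = 0
                · -- zero
                  by_cases h24 : T.a 2 4 = 0
                  · -- zero
                    by_cases h34 : T.a 3 4 = 0
                    · -- zero
                      exact (iso_contra T 4 0 1 2 3 (by decide) (by rw [a_symm T]; exact h04) (by rw [a_symm T]; exact h14) (by rw [a_symm T]; exact h24) (by rw [a_symm T]; exact h34)).elim
                    · -- nonzero
                      obtain ⟨y0, y1, y2, y3, y4, m, w, hinj, hp⟩ := shape_p5 T (x0 := 0) (x1 := 2) (x2 := 1) (x3 := 3) (x4 := 4) (by decide) (by decide) (by decide) (by decide) (by decide) (by decide) (by decide) (by decide) (by decide) (by decide) t0 t2 t1 t3 t4 h02 (by rw [a_symm T]; exact h12) h13 h34 h01 h03 h04 h23 h24 h14 (by linear_combination r0) (by linear_combination r2) (by linear_combination r1) (by linear_combination r3) (by linear_combination r4)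
                      exact ⟨perm5 y0 y1 y2 y3 y4 hinj, m, w, hp⟩
                  · -- nonzero
                    by_cases h34 : T.a 3 4 = 0
                    · -- zero
                      obtain ⟨y0, y1, y2, y3, y4, m, w, hinj, hp⟩ := shape_fork T (x0 := 2) (x1 := 0) (x2 := 4) (x3 := 1) (x4 := 3) (by decide) (by decide) (by decide) (by decide) (by decide) (by decide) (by decide) (by decide) (by decide) (by decide) t2 t0 t4 t1 t3 h02 h24 (by rw [a_symm T]; exact h12) h13 h23 h04 h01 h03 (by rw [a_symm T]; exact h14) (by rw [a_symm T]; exact h34) (by linear_combination r2) (by linear_combination r0) (by linear_combination r4) (by linear_combination r1) (by linear_combination r3)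
                      exact ⟨perm5 y0 y1 y2 y3 y4 hinj, m, w, hp⟩
                    · -- nonzero
                      exact (no_c4 T (x0 := 1) (x1 := 2) (x2 := 4) (x3 := 3) (by decide) (by decide) (by decide) (by decide) (by decide) (by decide) t1 t2 t4 t3 h12 h24 (by rw [a_symm T]; exact h34) (by rw [a_symm T]; exact h13)).elim
                · -- nonzero
                  exact absurd (chain3_types T (by norm_num) (by decide) (by decide) (by decide) t1 t2 t3 h12 h23).1 h13
              · -- nonzero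
                by_cases h23 : T.a 2 3 = 0
                · -- zero
                  by_cases h24 : T.a 2 4 = 0
                  · -- zero
                    by_cases h34 : T.a 3 4 = 0
                    · -- zero
                      obtain ⟨y0, y1, y2, y3, y4, m, w, hinj, hp⟩ := shape_fork T (x0 := 1) (x1 := 3) (x2 := 4) (x3 := 2) (x4 := 0) (by decide) (by decide) (by decide) (by decide) (by decide) (by decide) (by decide) (by decide) (by decide) (by decide) t1 t3 t4 t2 t0 (by rw [a_symm T]; exact h13) h14 h12 (by rw [a_symm T]; exact h02) (by rw [a_symm T]; exact h01) h34 (by rw [a_symm T]; exact h23) (by rw [a_symm T]; exact h03) (by rw [a_symm T]; exact h24) (by rw [a_symm T]; exact h04) (by linear_combination r1) (by linear_combination r3) (by linear_combination r4) (by linear_combination r2) (by linear_combination r0)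
                      exact ⟨perm5 y0 y1 y2 y3 y4 hinj, m, w, hp⟩
                    · -- nonzero
                      exact absurd (chain3_types T (by norm_num) (by decide) (by decide) (by decide) t1 t3 t4 h13 h34).1 h14
                  · -- nonzero
                    exact absurd (chain3_types T (by norm_num) (by decide) (by decide) (by decide) t1 t2 t4 h12 h24).1 h14
                · -- nonzero
                  exact absurd (chain3_types T (by norm_num) (by decide) (by decide) (by decide) t1 t2 t3 h12 h23).1 h13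
        · -- nonzero
          by_cases h12 : T.a 1 2 = 0
          · -- zero
            by_cases h13 : T.a 1 3 = 0
            · -- zero
              by_cases h14 : T.a 1 4 = 0
              · -- zero
                exact (iso_contra T 1 0 2 3 4 (by decide) (by rw [a_symm T]; exact h01) h12 h13 h14).elim
              · -- nonzero
                by_cases h23 : T.a 2 3 = 0
                · -- zero
                  by_cases h24 : T.a 2 4 = 0
                  · -- zero
                    by_cases h34 : T.a 3 4 = 0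
                    · -- zero
                      exact (iso_contra T 3 0 1 2 4 (by decide) (by rw [a_symm T]; exact h03) (by rw [a_symm T]; exact h13) (by rw [a_symm T]; exact h23) h34).elim
                    · -- nonzero
                      obtain ⟨y0, y1, y2, y3, y4, m, w, hinj, hp⟩ := shape_fork T (x0 := 4) (x1 := 1) (x2 := 3) (x3 := 0) (x4 := 2) (by decide) (by decide) (by decide) (by decide) (by decide) (by decide) (by decide) (by decide) (by decide) (by decide) t4 t1 t3 t0 t2 h14 (by rw [a_symm T]; exact h34) (by rw [a_symm T]; exact h04) h02 (by rw [a_symm T]; exact h24) h13 (by rw [a_symm T]; exact h01) h12 (by rw [a_symm T]; exact h03) (by rw [a_symm T]; exact h23) (by linear_combination r4) (by linear_combination r1) (by linear_combination r3) (by linear_combination r0) (by linear_combination r2)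
                      exact ⟨perm5 y0 y1 y2 y3 y4 hinj, m, w, hp⟩
                  · -- nonzero
                    exact absurd (chain3_types T (by norm_num) (by decide) (by decide) (by decide) t0 t2 t4 h02 h24).1 h04
                · -- nonzero
                  by_cases h24 : T.a 2 4 = 0
                  · -- zero
                    by_cases h34 : T.a 3 4 = 0
                    · -- zero
                      obtain ⟨y0, y1, y2, y3, y4, m, w, hinj, hp⟩ := shape_p5 T (x0 := 1) (x1 := 4) (x2 := 0) (x3 := 2) (x4 := 3) (by decide) (by decide) (by decide) (by decide) (by decide) (by decide) (by decide) (by decide) (by decide) (by decide) t1 t4 t0 t2 t3 h14 (by rw [a_symm T]; exact h04) h02 h23 (by rw [a_symm T]; exact h01) h12 h13 (by rw [a_symm T]; exact h24) (by rw [a_symm T]; exact h34) h03 (by linear_combination r1) (by linear_combination r4) (by linear_combination r0) (by linear_combination r2) (by linear_combination r3)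
                      exact ⟨perm5 y0 y1 y2 y3 y4 hinj, m, w, hp⟩
                    · -- nonzero
                      exact (no_c4 T (x0 := 0) (x1 := 2) (x2 := 3) (x3 := 4) (by decide) (by decide) (by decide) (by decide) (by decide) (by decide) t0 t2 t3 t4 h02 h23 h34 (by rw [a_symm T]; exact h04)).elim
                  · -- nonzero
                    exact absurd (chain3_types T (by norm_num) (by decide) (by decide) (by decide) t0 t2 t4 h02 h24).1 h04
            · -- nonzero
              by_cases h14 : T.a 1 4 = 0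
              · -- zero
                by_cases h23 : T.a 2 3 = 0
                · -- zero
                  by_cases h24 : T.a 2 4 = 0
                  · -- zero
                    by_cases h34 : T.a 3 4 = 0
                    · -- zero
                      exact (split_contra T 1 3 0 2 4 (by decide) (by decide) (by decide) (by rw [a_symm T]; exact h01) h12 h14 (by rw [a_symm T]; exact h03) (by rw [a_symm T]; exact h23) h34).elim
                    · -- nonzero
                      obtain ⟨y0, y1, y2, y3, y4, m, w, hinj, hp⟩ := shape_p5 T (x0 := 1) (x1 := 3) (x2 := 4) (x3 := 0) (x4 := 2) (by decide) (by decide) (by decide) (by decide) (by decide) (by decide) (by decide) (by decide) (by decide) (by decide) t1 t3 t4 t0 t2 h13 h34 (by rw [a_symm T]; exact h04) h02 h14 (by rw [a_symm T]; exact h01) h12 (by rw [a_symm T]; exact h03) (by rw [a_symm T]; exact h23) (by rw [a_symm T]; exact h24) (by linear_combination r1) (by linear_combination r3) (by linear_combination r4) (by linear_combination r0) (by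 linear_combination r2)
                      exact ⟨perm5 y0 y1 y2 y3 y4 hinj, m, w, hp⟩
                  · -- nonzero
                    exact absurd (chain3_types T (by norm_num) (by decide) (by decide) (by decide) t0 t2 t4 h02 h24).1 h04
                · -- nonzero
                  by_cases h24 : T.a 2 4 = 0
                  · -- zero
                    by_cases h34 : T.a 3 4 = 0
                    · -- zero
                      obtain ⟨y0, y1, y2, y3, y4, m, w, hinj, hp⟩ := shape_p5 T (x0 := 1) (x1 := 3) (x2 := 2) (x3 := 0) (x4 := 4) (by decide) (by decide) (by decide) (by decide) (by decide) (by decide) (by decide) (by decide) (by decide) (by decide) t1 t3 t2 t0 t4 h13 (by rw [a_symm T]; exact h23) (by rw [a_symm T]; exact h02) h04 h12 (by rw [a_symm T]; exact h01) h14 (by rw [a_symm T]; exact h03) h34 h24 (by linear_combination r1) (by linear_combination r3) (by linear_combination r2) (by linear_combination r0) (by linear_combination r4)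
                      exact ⟨perm5 y0 y1 y2 y3 y4 hinj, m, w, hp⟩
                    · -- nonzero
                      exact (no_c4 T (x0 := 0) (x1 := 2) (x2 := 3) (x3 := 4) (by decide) (by decide) (by decide) (by decide) (by decide) (by decide) t0 t2 t3 t4 h02 h23 h34 (by rw [a_symm T]; exact h04)).elim
                  · -- nonzero
                    exact absurd (chain3_types T (by norm_num) (by decide) (by decide) (by decide) t0 t2 t4 h02 h24).1 h04
              · -- nonzero
                by_cases h23 : T.a 2 3 = 0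
                · -- zero
                  by_cases h24 : T.a 2 4 = 0
                  · -- zero
                    by_cases h34 : T.a 3 4 = 0
                    · -- zero
                      obtain ⟨y0, y1, y2, y3, y4, m, w, hinj, hp⟩ := shape_p5 T (x0 := 2) (x1 := 0) (x2 := 4) (x3 := 1) (x4 := 3) (by decide) (by decide) (by decide) (by decide) (by decide) (by decide) (by decide) (by decide) (by decide) (by decide) t2 t0 t4 t1 t3 (by rw [a_symm T]; exact h02) h04 (by rw [a_symm T]; exact h14) h13 h24 (by rw [a_symm T]; exact h12) h23 h01 h03 (by rw [a_symm T]; exact h34) (by linear_combination r2) (by linear_combination r0) (by linear_combination r4) (by linear_combination r1) (by linear_combination r3)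
                      exact ⟨perm5 y0 y1 y2 y3 y4 hinj, m, w, hp⟩
                    · -- nonzero
                      exact absurd (chain3_types T (by norm_num) (by decide) (by decide) (by decide) t1 t3 t4 h13 h34).1 h14
                  · -- nonzero
                    exact absurd (chain3_types T (by norm_num) (by decide) (by decide) (by decide) t0 t2 t4 h02 h24).1 h04
                · -- nonzero
                  by_cases h24 : T.a 2 4 = 0
                  · -- zero
                    by_cases h34 : T.a 3 4 = 0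
                    · -- zero
                      obtain ⟨y0, y1, y2, y3, y4, m, w, hinj, hp⟩ := shape_c5 T (x0 := 0) (x1 := 2) (x2 := 3) (x3 := 1) (x4 := 4) (by decide) (by decide) (by decide) (by decide) (by decide) (by decide) (by decide) (by decide) (by decide) (by decide) t0 t2 t3 t1 t4 h02 h23 (by rw [a_symm T]; exact h13) h14 (by rw [a_symm T]; exact h04) h03 h01 (by rw [a_symm T]; exact h12) h24 h34 (by linear_combination r0) (by linear_combination r2) (by linear_combination r3) (by linear_combination r1) (by linear_combination r4)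
                      exact ⟨perm5 y0 y1 y2 y3 y4 hinj, m, w, hp⟩
                    · -- nonzero
                      exact absurd (chain3_types T (by norm_num) (by decide) (by decide) (by decide) t1 t3 t4 h13 h34).1 h14
                  · -- nonzero
                    exact absurd (chain3_types T (by norm_num) (by decide) (by decide) (by decide) t0 t2 t4 h02 h24).1 h04
          · -- nonzero
            by_cases h13 : T.a 1 3 = 0
            · -- zero
              by_cases h14 : T.a 1 4 = 0
              · -- zero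
                by_cases h23 : T.a 2 3 = 0
                · -- zero
                  by_cases h24 : T.a 2 4 = 0
                  · -- zero
                    by_cases h34 : T.a 3 4 = 0
                    · -- zero
                      exact (iso_contra T 3 0 1 2 4 (by decide) (by rw [a_symm T]; exact h03) (by rw [a_symm T]; exact h13) (by rw [a_symm T]; exact h23) h34).elim
                    · -- nonzero
                      obtain ⟨y0, y1, y2, y3, y4, m, w, hinj, hp⟩ := shape_p5 T (x0 := 1) (x1 := 2) (x2 := 0) (x3 := 4) (x4 := 3) (by decide) (by decide) (by decide) (by decide) (by decide) (by decide) (by decide) (by decide) (by decide) (by decide) t1 t2 t0 t4 t3 h12 (by rw [a_symm T]; exact h02) h04 (by rw [a_symm T]; exact h34) (by rw [a_symm T]; exact h01) h14 h13 h24 h23 h03 (by linear_combination r1) (by linear_combination r2) (by linear_combination r0) (by linear_combination r4) (by linear_combination r3)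
                      exact ⟨perm5 y0 y1 y2 y3 y4 hinj, m, w, hp⟩
                  · -- nonzero
                    exact absurd (chain3_types T (by norm_num) (by decide) (by decide) (by decide) t0 t2 t4 h02 h24).1 h04
                · -- nonzero
                  by_cases h24 : T.a 2 4 = 0
                  · -- zero
                    by_cases h34 : T.a 3 4 = 0
                    · -- zero
                      obtain ⟨y0, y1, y2, y3, y4, m, w, hinj, hp⟩ := shape_fork T (x0 := 2) (x1 := 1) (x2 := 3) (x3 := 0) (x4 := 4) (by decide) (by decide) (by decide) (by decide) (by decide) (by decide) (by decide) (by decide) (by decide) (by decide) t2 t1 t3 t0 t4 h12 h23 (by rw [a_symm T]; exact h02) h04 h24 h13 (by rw [a_symm T]; exact h01) h14 (by rw [a_symm T]; exact h03) h34 (by linear_combination r2) (by linear_combination r1) (by linear_combination r3) (by linear_combination r0) (by linear_combination r4)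
                      exact ⟨perm5 y0 y1 y2 y3 y4 hinj, m, w, hp⟩
                    · -- nonzero
                      exact (no_c4 T (x0 := 0) (x1 := 2) (x2 := 3) (x3 := 4) (by decide) (by decide) (by decide) (by decide) (by decide) (by decide) t0 t2 t3 t4 h02 h23 h34 (by rw [a_symm T]; exact h04)).elim
                  · -- nonzero
                    exact absurd (chain3_types T (by norm_num) (by decide) (by decide) (by decide) t0 t2 t4 h02 h24).1 h04
              · -- nonzero
                exact (no_c4 T (x0 := 0) (x1 := 2) (x2 := 1) (x3 := 4) (by decide) (by decide) (by decide) (by decide) (by decide) (by decide) t0 t2 t1 t4 h02 (by rw [a_symm T]; exact h12) h14 (by rw [a_symm T]; exact h04)).elim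
            · -- nonzero
              by_cases h14 : T.a 1 4 = 0
              · -- zero
                by_cases h23 : T.a 2 3 = 0
                · -- zero
                  by_cases h24 : T.a 2 4 = 0
                  · -- zero
                    by_cases h34 : T.a 3 4 = 0
                    · -- zero
                      obtain ⟨y0, y1, y2, y3, y4, m, w, hinj, hp⟩ := shape_p5 T (x0 := 3) (x1 := 1) (x2 := 2) (x3 := 0) (x4 := 4) (by decide) (by decide) (by decide) (by decide) (by decide) (by decide) (by decide) (by decide) (by decide) (by decide) t3 t1 t2 t0 t4 (by rw [a_symm T]; exact h13) h12 (by rw [a_symm T]; exact h02) h04 (by rw [a_symm T]; exact h23) (by rw [a_symm T]; exact h03) h34 (by rw [a_symm T]; exact h01) h14 h24 (by linear_combination r3) (by linear_combination r1) (by linear_combination r2) (by linear_combination r0) (by linear_combination r4)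
                      exact ⟨perm5 y0 y1 y2 y3 y4 hinj, m, w, hp⟩
                    · -- nonzero
                      obtain ⟨y0, y1, y2, y3, y4, m, w, hinj, hp⟩ := shape_c5 T (x0 := 0) (x1 := 2) (x2 := 1) (x3 := 3) (x4 := 4) (by decide) (by decide) (by decide) (by decide) (by decide) (by decide) (by decide) (by decide) (by decide) (by decide) t0 t2 t1 t3 t4 h02 (by rw [a_symm T]; exact h12) h13 h34 (by rw [a_symm T]; exact h04) h01 h03 h23 h24 h14 (by linear_combination r0) (by linear_combination r2) (by linear_combination r1) (by linear_combination r3) (by linear_combination r4)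
                      exact ⟨perm5 y0 y1 y2 y3 y4 hinj, m, w, hp⟩
                  · -- nonzero
                    exact absurd (chain3_types T (by norm_num) (by decide) (by decide) (by decide) t0 t2 t4 h02 h24).1 h04
                · -- nonzero
                  exact absurd (chain3_types T (by norm_num) (by decide) (by decide) (by decide) t1 t2 t3 h12 h23).1 h13
              · -- nonzero
                exact (no_c4 T (x0 := 0) (x1 := 2) (x2 := 1) (x3 := 4) (by decide) (by decide) (by decide) (by decide) (by decide) (by decide) t0 t2 t1 t4 h02 (by rw [a_symm T]; exact h12) h14 (by rw [a_symm T]; exact h04)).elim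
      · -- nonzero
        by_cases h04 : T.a 0 4 = 0
        · -- zero
          by_cases h12 : T.a 1 2 = 0
          · -- zero
            by_cases h13 : T.a 1 3 = 0
            · -- zero
              by_cases h14 : T.a 1 4 = 0
              · -- zero
                exact (iso_contra T 1 0 2 3 4 (by decide) (by rw [a_symm T]; exact h01) h12 h13 h14).elim
              · -- nonzero
                by_cases h23 : T.a 2 3 = 0
                · -- zero
                  by_cases h24 : T.a 2 4 = 0
                  · -- zero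
                    by_cases h34 : T.a 3 4 = 0
                    · -- zero
                      exact (split_contra T 1 4 0 2 3 (by decide) (by decide) (by decide) (by rw [a_symm T]; exact h01) h12 h13 (by rw [a_symm T]; exact h04) (by rw [a_symm T]; exact h24) (by rw [a_symm T]; exact h34)).elim
                    · -- nonzero
                      obtain ⟨y0, y1, y2, y3, y4, m, w, hinj, hp⟩ := shape_p5 T (x0 := 1) (x1 := 4) (x2 := 3) (x3 := 0) (x4 := 2) (by decide) (by decide) (by decide) (by decide) (by decide) (by decide) (by decide) (by decide) (by decide) (by decide) t1 t4 t3 t0 t2 h14 (by rw [a_symm T]; exact h34) (by rw [a_symm T]; exact h03) h02 h13 (by rw [a_symm T]; exact h01) h12 (by rw [a_symm T]; exact h04) (by rw [a_symm T]; exact h24) (by rw [a_symm T]; exact h23) (by linear_combination r1) (by linear_combination r4) (by linear_combination r3) (by linear_combination r0) (by linear_combination r2)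
                      exact ⟨perm5 y0 y1 y2 y3 y4 hinj, m, w, hp⟩
                  · -- nonzero
                    by_cases h34 : T.a 3 4 = 0
                    · -- zero
                      obtain ⟨y0, y1, y2, y3, y4, m, w, hinj, hp⟩ := shape_p5 T (x0 := 1) (x1 := 4) (x2 := 2) (x3 := 0) (x4 := 3) (by decide) (by decide) (by decide) (by decide) (by decide) (by decide) (by decide) (by decide) (by decide) (by decide) t1 t4 t2 t0 t3 h14 (by rw [a_symm T]; exact h24) (by rw [a_symm T]; exact h02) h03 h12 (by rw [a_symm T]; exact h01) h13 (by rw [a_symm T]; exact h04) (by rw [a_symm T]; exact h34) h23 (by linear_combination r1) (by linear_combination r4) (by linear_combination r2) (by linear_combination r0) (by linear_combination r3)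
                      exact ⟨perm5 y0 y1 y2 y3 y4 hinj, m, w, hp⟩
                    · -- nonzero
                      exact (no_c4 T (x0 := 0) (x1 := 2) (x2 := 4) (x3 := 3) (by decide) (by decide) (by decide) (by decide) (by decide) (by decide) t0 t2 t4 t3 h02 h24 (by rw [a_symm T]; exact h34) (by rw [a_symm T]; exact h03)).elim
                · -- nonzero
                  exact absurd (chain3_types T (by norm_num) (by decide) (by decide) (by decide) t0 t2 t3 h02 h23).1 h03
            · -- nonzero
              by_cases h14 : T.a 1 4 = 0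
              · -- zero
                by_cases h23 : T.a 2 3 = 0
                · -- zero
                  by_cases h24 : T.a 2 4 = 0
                  · -- zero
                    by_cases h34 : T.a 3 4 = 0
                    · -- zero
                      exact (iso_contra T 4 0 1 2 3 (by decide) (by rw [a_symm T]; exact h04) (by rw [a_symm T]; exact h14) (by rw [a_symm T]; exact h24) (by rw [a_symm T]; exact h34)).elim
                    · -- nonzero
                      obtain ⟨y0, y1, y2, y3, y4, m, w, hinj, hp⟩ := shape_fork T (x0 := 3) (x1 := 1) (x2 := 4) (x3 := 0) (x4 := 2) (by decide) (by decide) (by decide) (by decide) (by decide) (by decide) (by decide) (by decide) (by decide) (by decide) t3 t1 t4 t0 t2 h13 h34 (by rw [a_symm T]; exact h03) h02 (by rw [a_symm T]; exact h23) h14 (by rw [a_symm T]; exact h01) h12 (by rw [a_symm T]; exact h04) (by rw [a_symm T]; exact h24) (by linear_combination r3) (by linear_combination r1) (by linear_combination r4) (by linear_combination r0) (by linear_combination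 r2)
                      exact ⟨perm5 y0 y1 y2 y3 y4 hinj, m, w, hp⟩
                  · -- nonzero
                    by_cases h34 : T.a 3 4 = 0
                    · -- zero
                      obtain ⟨y0, y1, y2, y3, y4, m, w, hinj, hp⟩ := shape_p5 T (x0 := 1) (x1 := 3) (x2 := 0) (x3 := 2) (x4 := 4) (by decide) (by decide) (by decide) (by decide) (by decide) (by decide) (by decide) (by decide) (by decide) (by decide) t1 t3 t0 t2 t4 h13 (by rw [a_symm T]; exact h03) h02 h24 (by rw [a_symm T]; exact h01) h12 h14 (by rw [a_symm T]; exact h23) h34 h04 (by linear_combination r1) (by linear_combination r3) (by linear_combination r0) (by linear_combination r2) (by linear_combination r4)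
                      exact ⟨perm5 y0 y1 y2 y3 y4 hinj, m, w, hp⟩
                    · -- nonzero
                      exact (no_c4 T (x0 := 0) (x1 := 2) (x2 := 4) (x3 := 3) (by decide) (by decide) (by decide) (by decide) (by decide) (by decide) t0 t2 t4 t3 h02 h24 (by rw [a_symm T]; exact h34) (by rw [a_symm T]; exact h03)).elim
                · -- nonzero
                  exact absurd (chain3_types T (by norm_num) (by decide) (by decide) (by decide) t0 t2 t3 h02 h23).1 h03
              · -- nonzero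
                by_cases h23 : T.a 2 3 = 0
                · -- zero
                  by_cases h24 : T.a 2 4 = 0
                  · -- zero
                    by_cases h34 : T.a 3 4 = 0
                    · -- zero
                      obtain ⟨y0, y1, y2, y3, y4, m, w, hinj, hp⟩ := shape_p5 T (x0 := 2) (x1 := 0) (x2 := 3) (x3 := 1) (x4 := 4) (by decide) (by decide) (by decide) (by decide) (by decide) (by decide) (by decide) (by decide) (by decide) (by decide) t2 t0 t3 t1 t4 (by rw [a_symm T]; exact h02) h03 (by rw [a_symm T]; exact h13) h14 h23 (by rw [a_symm T]; exact h12) h24 h01 h04 h34 (by linear_combination r2) (by linear_combination r0) (by linear_combination r3) (by linear_combination r1) (by linear_combination r4)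
                      exact ⟨perm5 y0 y1 y2 y3 y4 hinj, m, w, hp⟩
                    · -- nonzero
                      exact absurd (chain3_types T (by norm_num) (by decide) (by decide) (by decide) t1 t3 t4 h13 h34).1 h14
                  · -- nonzero
                    by_cases h34 : T.a 3 4 = 0
                    · -- zero
                      obtain ⟨y0, y1, y2, y3, y4, m, w, hinj, hp⟩ := shape_c5 T (x0 := 0) (x1 := 2) (x2 := 4) (x3 := 1) (x4 := 3) (by decide) (by decide) (by decide) (by decide) (by decide) (by decide) (by decide) (by decide) (by decide) (by decide) t0 t2 t4 t1 t3 h02 h24 (by rw [a_symm T]; exact h14) h13 (by rw [a_symm T]; exact h03) h04 h01 (by rw [a_symm T]; exact h12) h23 (by rw [a_symm T]; exact h34) (by linear_combination r0) (by linear_combination r2) (by linear_combination r4) (by linear_combination r1) (by linear_combination r3)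
                      exact ⟨perm5 y0 y1 y2 y3 y4 hinj, m, w, hp⟩
                    · -- nonzero
                      exact absurd (chain3_types T (by norm_num) (by decide) (by decide) (by decide) t1 t3 t4 h13 h34).1 h14
                · -- nonzero
                  exact absurd (chain3_types T (by norm_num) (by decide) (by decide) (by decide) t0 t2 t3 h02 h23).1 h03
          · -- nonzero
            by_cases h13 : T.a 1 3 = 0
            · -- zero
              by_cases h14 : T.a 1 4 = 0
              · -- zero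
                by_cases h23 : T.a 2 3 = 0
                · -- zero
                  by_cases h24 : T.a 2 4 = 0
                  · -- zero
                    by_cases h34 : T.a 3 4 = 0
                    · -- zero
                      exact (iso_contra T 4 0 1 2 3 (by decide) (by rw [a_symm T]; exact h04) (by rw [a_symm T]; exact h14) (by rw [a_symm T]; exact h24) (by rw [a_symm T]; exact h34)).elim
                    · -- nonzero
                      obtain ⟨y0, y1, y2, y3, y4, m, w, hinj, hp⟩ := shape_p5 T (x0 := 1) (x1 := 2) (x2 := 0) (x3 := 3) (x4 := 4) (by decide) (by decide) (by decide) (by decide) (by decide) (by decide) (by decide) (by decide) (by decide) (by decide) t1 t2 t0 t3 t4 h12 (by rw [a_symm T]; exact h02) h03 h34 (by rw [a_symm T]; exact h01) h13 h14 h23 h24 h04 (by linear_combination r1) (by linear_combination r2) (by linear_combination r0) (by linear_combination r3) (by linear_combination r4)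
                      exact ⟨perm5 y0 y1 y2 y3 y4 hinj, m, w, hp⟩
                  · -- nonzero
                    by_cases h34 : T.a 3 4 = 0
                    · -- zero
                      obtain ⟨y0, y1, y2, y3, y4, m, w, hinj, hp⟩ := shape_fork T (x0 := 2) (x1 := 1) (x2 := 4) (x3 := 0) (x4 := 3) (by decide) (by decide) (by decide) (by decide) (by decide) (by decide) (by decide) (by decide) (by decide) (by decide) t2 t1 t4 t0 t3 h12 h24 (by rw [a_symm T]; exact h02) h03 h23 h14 (by rw [a_symm T]; exact h01) h13 (by rw [a_symm T]; exact h04) (by rw [a_symm T]; exact h34) (by linear_combination r2) (by linear_combination r1) (by linear_combination r4) (by linear_combination r0) (by linear_combination r3)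
                      exact ⟨perm5 y0 y1 y2 y3 y4 hinj, m, w, hp⟩
                    · -- nonzero
                      exact (no_c4 T (x0 := 0) (x1 := 2) (x2 := 4) (x3 := 3) (by decide) (by decide) (by decide) (by decide) (by decide) (by decide) t0 t2 t4 t3 h02 h24 (by rw [a_symm T]; exact h34) (by rw [a_symm T]; exact h03)).elim
                · -- nonzero
                  exact absurd (chain3_types T (by norm_num) (by decide) (by decide) (by decide) t0 t2 t3 h02 h23).1 h03
              · -- nonzero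
                by_cases h23 : T.a 2 3 = 0
                · -- zero
                  by_cases h24 : T.a 2 4 = 0
                  · -- zero
                    by_cases h34 : T.a 3 4 = 0
                    · -- zero
                      obtain ⟨y0, y1, y2, y3, y4, m, w, hinj, hp⟩ := shape_p5 T (x0 := 3) (x1 := 0) (x2 := 2) (x3 := 1) (x4 := 4) (by decide) (by decide) (by decide) (by decide) (by decide) (by decide) (by decide) (by decide) (by decide) (by decide) t3 t0 t2 t1 t4 (by rw [a_symm T]; exact h03) h02 (by rw [a_symm T]; exact h12) h14 (by rw [a_symm T]; exact h23) (by rw [a_symm T]; exact h13) h34 h01 h04 h24 (by linear_combination r3) (by linear_combination r0) (by linear_combination r2) (by linear_combination r1) (by linear_combination r4)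
                      exact ⟨perm5 y0 y1 y2 y3 y4 hinj, m, w, hp⟩
                    · -- nonzero
                      obtain ⟨y0, y1, y2, y3, y4, m, w, hinj, hp⟩ := shape_c5 T (x0 := 0) (x1 := 2) (x2 := 1) (x3 := 4) (x4 := 3) (by decide) (by decide) (by decide) (by decide) (by decide) (by decide) (by decide) (by decide) (by decide) (by decide) t0 t2 t1 t4 t3 h02 (by rw [a_symm T]; exact h12) h14 (by rw [a_symm T]; exact h34) (by rw [a_symm T]; exact h03) h01 h04 h24 h23 h13 (by linear_combination r0) (by linear_combination r2) (by linear_combination r1) (by linear_combination r4) (by linear_combination r3)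
                      exact ⟨perm5 y0 y1 y2 y3 y4 hinj, m, w, hp⟩
                  · -- nonzero
                    exact absurd (chain3_types T (by norm_num) (by decide) (by decide) (by decide) t1 t2 t4 h12 h24).1 h14
                · -- nonzero
                  exact absurd (chain3_types T (by norm_num) (by decide) (by decide) (by decide) t0 t2 t3 h02 h23).1 h03
            · -- nonzero
              exact (no_c4 T (x0 := 0) (x1 := 2) (x2 := 1) (x3 := 3) (by decide) (by decide) (by decide) (by decide) (by decide) (by decide) t0 t2 t1 t3 h02 (by rw [a_symm T]; exact h12) h13 (by rw [a_symm T]; exact h03)).elim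
        · -- nonzero
          by_cases h12 : T.a 1 2 = 0
          · -- zero
            by_cases h13 : T.a 1 3 = 0
            · -- zero
              by_cases h14 : T.a 1 4 = 0
              · -- zero
                exact (iso_contra T 1 0 2 3 4 (by decide) (by rw [a_symm T]; exact h01) h12 h13 h14).elim
              · -- nonzero
                by_cases h23 : T.a 2 3 = 0
                · -- zero
                  by_cases h24 : T.a 2 4 = 0
                  · -- zero
                    by_cases h34 : T.a 3 4 = 0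
                    · -- zero
                      obtain ⟨y0, y1, y2, y3, y4, m, w, hinj, hp⟩ := shape_fork T (x0 := 0) (x1 := 2) (x2 := 3) (x3 := 4) (x4 := 1) (by decide) (by decide) (by decide) (by decide) (by decide) (by decide) (by decide) (by decide) (by decide) (by decide) t0 t2 t3 t4 t1 (by rw [a_symm T]; exact h02) h03 h04 (by rw [a_symm T]; exact h14) h01 h23 h24 (by rw [a_symm T]; exact h12) h34 (by rw [a_symm T]; exact h13) (by linear_combination r0) (by linear_combination r2) (by linear_combination r3) (by linear_combination r4) (by linear_combination r1)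
                      exact ⟨perm5 y0 y1 y2 y3 y4 hinj, m, w, hp⟩
                    · -- nonzero
                      exact absurd (chain3_types T (by norm_num) (by decide) (by decide) (by decide) t0 t3 t4 h03 h34).1 h04
                  · -- nonzero
                    exact absurd (chain3_types T (by norm_num) (by decide) (by decide) (by decide) t0 t2 t4 h02 h24).1 h04
                · -- nonzero
                  exact absurd (chain3_types T (by norm_num) (by decide) (by decide) (by decide) t0 t2 t3 h02 h23).1 h03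
            · -- nonzero
              by_cases h14 : T.a 1 4 = 0
              · -- zero
                by_cases h23 : T.a 2 3 = 0
                · -- zero
                  by_cases h24 : T.a 2 4 = 0
                  · -- zero
                    by_cases h34 : T.a 3 4 = 0
                    · -- zero
                      obtain ⟨y0, y1, y2, y3, y4, m, w, hinj, hp⟩ := shape_fork T (x0 := 0) (x1 := 2) (x2 := 4) (x3 := 3) (x4 := 1) (by decide) (by decide) (by decide) (by decide) (by decide) (by decide) (by decide) (by decide) (by decide) (by decide) t0 t2 t4 t3 t1 (by rw [a_symm T]; exact h02) h04 h03 (by rw [a_symm T]; exact h13) h01 h24 h23 (by rw [a_symm T]; exact h12) (by rw [a_symm T]; exact h34) (by rw [a_symm T]; exact h14) (by linear_combination r0) (by linear_combination r2) (by linear_combination r4) (by linear_combination r3) (by linear_combination r1)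
                      exact ⟨perm5 y0 y1 y2 y3 y4 hinj, m, w, hp⟩
                    · -- nonzero
                      exact absurd (chain3_types T (by norm_num) (by decide) (by decide) (by decide) t0 t3 t4 h03 h34).1 h04
                  · -- nonzero
                    exact absurd (chain3_types T (by norm_num) (by decide) (by decide) (by decide) t0 t2 t4 h02 h24).1 h04
                · -- nonzero
                  exact absurd (chain3_types T (by norm_num) (by decide) (by decide) (by decide) t0 t2 t3 h02 h23).1 h03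
              · -- nonzero
                exact (no_c4 T (x0 := 0) (x1 := 3) (x2 := 1) (x3 := 4) (by decide) (by decide) (by decide) (by decide) (by decide) (by decide) t0 t3 t1 t4 h03 (by rw [a_symm T]; exact h13) h14 (by rw [a_symm T]; exact h04)).elim
          · -- nonzero
            by_cases h13 : T.a 1 3 = 0
            · -- zero
              by_cases h14 : T.a 1 4 = 0
              · -- zero
                by_cases h23 : T.a 2 3 = 0
                · -- zero
                  by_cases h24 : T.a 2 4 = 0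
                  · -- zero
                    by_cases h34 : T.a 3 4 = 0
                    · -- zero
                      obtain ⟨y0, y1, y2, y3, y4, m, w, hinj, hp⟩ := shape_fork T (x0 := 0) (x1 := 3) (x2 := 4) (x3 := 2) (x4 := 1) (by decide) (by decide) (by decide) (by decide) (by decide) (by decide) (by decide) (by decide) (by decide) (by decide) t0 t3 t4 t2 t1 (by rw [a_symm T]; exact h03) h04 h02 (by rw [a_symm T]; exact h12) h01 h34 (by rw [a_symm T]; exact h23) (by rw [a_symm T]; exact h13) (by rw [a_symm T]; exact h24) (by rw [a_symm T]; exact h14) (by linear_combination r0) (by linear_combination r3) (by linear_combination r4) (by linear_combination r2) (by linear_combination r1)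
                      exact ⟨perm5 y0 y1 y2 y3 y4 hinj, m, w, hp⟩
                    · -- nonzero
                      exact absurd (chain3_types T (by norm_num) (by decide) (by decide) (by decide) t0 t3 t4 h03 h34).1 h04
                  · -- nonzero
                    exact absurd (chain3_types T (by norm_num) (by decide) (by decide) (by decide) t0 t2 t4 h02 h24).1 h04
                · -- nonzero
                  exact absurd (chain3_types T (by norm_num) (by decide) (by decide) (by decide) t0 t2 t3 h02 h23).1 h03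
              · -- nonzero
                exact (no_c4 T (x0 := 0) (x1 := 2) (x2 := 1) (x3 := 4) (by decide) (by decide) (by decide) (by decide) (by decide) (by decide) t0 t2 t1 t4 h02 (by rw [a_symm T]; exact h12) h14 (by rw [a_symm T]; exact h04)).elim
            · -- nonzero
              exact (no_c4 T (x0 := 0) (x1 := 2) (x2 := 1) (x3 := 3) (by decide) (by decide) (by decide) (by decide) (by decide) (by decide) t0 t2 t1 t3 h02 (by rw [a_symm T]; exact h12) h13 (by rw [a_symm T]; exact h03)).elim
  · -- nonzero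
    by_cases h02 : T.a 0 2 = 0
    · -- zero
      by_cases h03 : T.a 0 3 = 0
      · -- zero
        by_cases h04 : T.a 0 4 = 0
        · -- zero
          by_cases h12 : T.a 1 2 = 0
          · -- zero
            by_cases h13 : T.a 1 3 = 0
            · -- zero
              by_cases h14 : T.a 1 4 = 0
              · -- zero
                by_cases h23 : T.a 2 3 = 0
                · -- zero
                  by_cases h24 : T.a 2 4 = 0
                  · -- zero
                    exact (iso_contra T 2 0 1 3 4 (by decide) (by rw [a_symm T]; exact h02) (by rw [a_symm T]; exact h12) h23 h24).elim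
                  · -- nonzero
                    by_cases h34 : T.a 3 4 = 0
                    · -- zero
                      exact (iso_contra T 3 0 1 2 4 (by decide) (by rw [a_symm T]; exact h03) (by rw [a_symm T]; exact h13) (by rw [a_symm T]; exact h23) h34).elim
                    · -- nonzero
                      exact (split_contra T 0 1 2 3 4 (by decide) (by decide) (by decide) h02 h03 h04 h12 h13 h14).elim
                · -- nonzero
                  by_cases h24 : T.a 2 4 = 0
                  · -- zero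
                    by_cases h34 : T.a 3 4 = 0
                    · -- zero
                      exact (iso_contra T 4 0 1 2 3 (by decide) (by rw [a_symm T]; exact h04) (by rw [a_symm T]; exact h14) (by rw [a_symm T]; exact h24) (by rw [a_symm T]; exact h34)).elim
                    · -- nonzero
                      exact (split_contra T 0 1 2 3 4 (by decide) (by decide) (by decide) h02 h03 h04 h12 h13 h14).elim
                  · -- nonzero
                    by_cases h34 : T.a 3 4 = 0
                    · -- zero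
                      exact (split_contra T 0 1 2 3 4 (by decide) (by decide) (by decide) h02 h03 h04 h12 h13 h14).elim
                    · -- nonzero
                      exact absurd (chain3_types T (by norm_num) (by decide) (by decide) (by decide) t2 t3 t4 h23 h34).1 h24
              · -- nonzero
                by_cases h23 : T.a 2 3 = 0
                · -- zero
                  by_cases h24 : T.a 2 4 = 0
                  · -- zero
                    exact (iso_contra T 2 0 1 3 4 (by decide) (by rw [a_symm T]; exact h02) (by rw [a_symm T]; exact h12) h23 h24).elim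
                  · -- nonzero
                    by_cases h34 : T.a 3 4 = 0
                    · -- zero
                      exact (iso_contra T 3 0 1 2 4 (by decide) (by rw [a_symm T]; exact h03) (by rw [a_symm T]; exact h13) (by rw [a_symm T]; exact h23) h34).elim
                    · -- nonzero
                      obtain ⟨y0, y1, y2, y3, y4, m, w, hinj, hp⟩ := shape_fork T (x0 := 4) (x1 := 2) (x2 := 3) (x3 := 1) (x4 := 0) (by decide) (by decide) (by decide) (by decide) (by decide) (by decide) (by decide) (by decide) (by decide) (by decide) t4 t2 t3 t1 t0 h24 (by rw [a_symm T]; exact h34) (by rw [a_symm T]; exact h14) (by rw [a_symm T]; exact h01) (by rw [a_symm T]; exact h04) h23 (by rw [a_symm T]; exact h12) (by rw [a_symm T]; exact h02) (by rw [a_symm T]; exact h13) (by rw [a_symm T]; exact h03) (by linear_combination r4) (by linear_combination r2) (by linear_combination r3) (by linear_combination r1) (by linear_combination r0)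
                      exact ⟨perm5 y0 y1 y2 y3 y4 hinj, m, w, hp⟩
                · -- nonzero
                  by_cases h24 : T.a 2 4 = 0
                  · -- zero
                    by_cases h34 : T.a 3 4 = 0
                    · -- zero
                      exact (split_contra T 2 3 0 1 4 (by decide) (by decide) (by decide) (by rw [a_symm T]; exact h02) (by rw [a_symm T]; exact h12) h24 (by rw [a_symm T]; exact h03) (by rw [a_symm T]; exact h13) h34).elim
                    · -- nonzero
                      obtain ⟨y0, y1, y2, y3, y4, m, w, hinj, hp⟩ := shape_p5 T (x0 := 0) (x1 := 1) (x2 := 4) (x3 := 3) (x4 := 2) (by decide) (by decide) (by decide) (by decide) (by decide) (by decide) (by decide) (by decide) (by decide) (by decide) t0 t1 t4 t3 t2 h01 h14 (by rw [a_symm T]; exact h34) (by rw [a_symm T]; exact h23) h04 h03 h02 h13 h12 (by rw [a_symm T]; exact h24) (by linear_combination r0) (by linear_combination r1) (by linear_combination r4) (by linear_combination r3) (by linear_combination r2)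
                      exact ⟨perm5 y0 y1 y2 y3 y4 hinj, m, w, hp⟩
                  · -- nonzero
                    by_cases h34 : T.a 3 4 = 0
                    · -- zero
                      obtain ⟨y0, y1, y2, y3, y4, m, w, hinj, hp⟩ := shape_p5 T (x0 := 0) (x1 := 1) (x2 := 4) (x3 := 2) (x4 := 3) (by decide) (by decide) (by decide) (by decide) (by decide) (by decide) (by decide) (by decide) (by decide) (by decide) t0 t1 t4 t2 t3 h01 h14 (by rw [a_symm T]; exact h24) h23 h04 h02 h03 h12 h13 (by rw [a_symm T]; exact h34) (by linear_combination r0) (by linear_combination r1) (by linear_combination r4) (by linear_combination r2) (by linear_combination r3)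
                      exact ⟨perm5 y0 y1 y2 y3 y4 hinj, m, w, hp⟩
                    · -- nonzero
                      exact absurd (chain3_types T (by norm_num) (by decide) (by decide) (by decide) t2 t3 t4 h23 h34).1 h24
            · -- nonzero
              by_cases h14 : T.a 1 4 = 0
              · -- zero
                by_cases h23 : T.a 2 3 = 0
                · -- zero
                  by_cases h24 : T.a 2 4 = 0
                  · -- zero
                    exact (iso_contra T 2 0 1 3 4 (by decide) (by rw [a_symm T]; exact h02) (by rw [a_symm T]; exact h12) h23 h24).elim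
                  · -- nonzero
                    by_cases h34 : T.a 3 4 = 0
                    · -- zero
                      exact (split_contra T 2 4 0 1 3 (by decide) (by decide) (by decide) (by rw [a_symm T]; exact h02) (by rw [a_symm T]; exact h12) h23 (by rw [a_symm T]; exact h04) (by rw [a_symm T]; exact h14) (by rw [a_symm T]; exact h34)).elim
                    · -- nonzero
                      obtain ⟨y0, y1, y2, y3, y4, m, w, hinj, hp⟩ := shape_p5 T (x0 := 0) (x1 := 1) (x2 := 3) (x3 := 4) (x4 := 2) (by decide) (by decide) (by decide) (by decide) (by decide) (by decide) (by decide) (by decide) (by decide) (by decide) t0 t1 t3 t4 t2 h01 h13 h34 (by rw [a_symm T]; exact h24) h03 h04 h02 h14 h12 (by rw [a_symm T]; exact h23) (by linear_combination r0) (by linear_combination r1) (by linear_combination r3) (by linear_combination r4) (by linear_combination r2)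
                      exact ⟨perm5 y0 y1 y2 y3 y4 hinj, m, w, hp⟩
                · -- nonzero
                  by_cases h24 : T.a 2 4 = 0
                  · -- zero
                    by_cases h34 : T.a 3 4 = 0
                    · -- zero
                      exact (iso_contra T 4 0 1 2 3 (by decide) (by rw [a_symm T]; exact h04) (by rw [a_symm T]; exact h14) (by rw [a_symm T]; exact h24) (by rw [a_symm T]; exact h34)).elim
                    · -- nonzero
                      obtain ⟨y0, y1, y2, y3, y4, m, w, hinj, hp⟩ := shape_fork T (x0 := 3) (x1 := 2) (x2 := 4) (x3 := 1) (x4 := 0) (by decide) (by decide) (by decide) (by decide) (by decide) (by decide) (by decide) (by decide) (by decide) (by decide) t3 t2 t4 t1 t0 h23 h34 (by rw [a_symm T]; exact h13) (by rw [a_symm T]; exact h01) (by rw [a_symm T]; exact h03) h24 (by rw [a_symm T]; exact h12) (by rw [a_symm T]; exact h02) (by rw [a_symm T]; exact h14) (by rw [a_symm T]; exact h04) (by linear_combination r3) (by linear_combination r2) (by linear_combination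 r4) (by linear_combination r1) (by linear_combination r0)
                      exact ⟨perm5 y0 y1 y2 y3 y4 hinj, m, w, hp⟩
                  · -- nonzero
                    by_cases h34 : T.a 3 4 = 0
                    · -- zero
                      obtain ⟨y0, y1, y2, y3, y4, m, w, hinj, hp⟩ := shape_p5 T (x0 := 0) (x1 := 1) (x2 := 3) (x3 := 2) (x4 := 4) (by decide) (by decide) (by decide) (by decide) (by decide) (by decide) (by decide) (by decide) (by decide) (by decide) t0 t1 t3 t2 t4 h01 h13 (by rw [a_symm T]; exact h23) h24 h03 h02 h04 h12 h14 h34 (by linear_combination r0) (by linear_combination r1) (by linear_combination r3) (by linear_combination r2) (by linear_combination r4)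
                      exact ⟨perm5 y0 y1 y2 y3 y4 hinj, m, w, hp⟩
                    · -- nonzero
                      exact absurd (chain3_types T (by norm_num) (by decide) (by decide) (by decide) t2 t3 t4 h23 h34).1 h24
              · -- nonzero
                by_cases h23 : T.a 2 3 = 0
                · -- zero
                  by_cases h24 : T.a 2 4 = 0
                  · -- zero
                    exact (iso_contra T 2 0 1 3 4 (by decide) (by rw [a_symm T]; exact h02) (by rw [a_symm T]; exact h12) h23 h24).elim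
                  · -- nonzero
                    by_cases h34 : T.a 3 4 = 0
                    · -- zero
                      obtain ⟨y0, y1, y2, y3, y4, m, w, hinj, hp⟩ := shape_fork T (x0 := 1) (x1 := 0) (x2 := 3) (x3 := 4) (x4 := 2) (by decide) (by decide) (by decide) (by decide) (by decide) (by decide) (by decide) (by decide) (by decide) (by decide) t1 t0 t3 t4 t2 h01 h13 h14 (by rw [a_symm T]; exact h24) h12 h03 h04 h02 h34 (by rw [a_symm T]; exact h23) (by linear_combination r1) (by linear_combination r0) (by linear_combination r3) (by linear_combination r4) (by linear_combination r2)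
                      exact ⟨perm5 y0 y1 y2 y3 y4 hinj, m, w, hp⟩
                    · -- nonzero
                      exact absurd (chain3_types T (by norm_num) (by decide) (by decide) (by decide) t1 t3 t4 h13 h34).1 h14
                · -- nonzero
                  by_cases h24 : T.a 2 4 = 0
                  · -- zero
                    by_cases h34 : T.a 3 4 = 0
                    · -- zero
                      obtain ⟨y0, y1, y2, y3, y4, m, w, hinj, hp⟩ := shape_fork T (x0 := 1) (x1 := 0) (x2 := 4) (x3 := 3) (x4 := 2) (by decide) (by decide) (by decide) (by decide) (by decide) (by decide) (by decide) (by decide) (by decide) (by decide) t1 t0 t4 t3 t2 h01 h14 h13 (by rw [a_symm T]; exact h23) h12 h04 h03 h02 (by rw [a_symm T]; exact h34) (by rw [a_symm T]; exact h24) (by linear_combination r1) (by linear_combination r0) (by linear_combination r4) (by linear_combination r3) (by linear_combination r2)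
                      exact ⟨perm5 y0 y1 y2 y3 y4 hinj, m, w, hp⟩
                    · -- nonzero
                      exact absurd (chain3_types T (by norm_num) (by decide) (by decide) (by decide) t1 t3 t4 h13 h34).1 h14
                  · -- nonzero
                    exact (no_c4 T (x0 := 1) (x1 := 3) (x2 := 2) (x3 := 4) (by decide) (by decide) (by decide) (by decide) (by decide) (by decide) t1 t3 t2 t4 h13 (by rw [a_symm T]; exact h23) h24 (by rw [a_symm T]; exact h14)).elim
          · -- nonzero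
            by_cases h13 : T.a 1 3 = 0
            · -- zero
              by_cases h14 : T.a 1 4 = 0
              · -- zero
                by_cases h23 : T.a 2 3 = 0
                · -- zero
                  by_cases h24 : T.a 2 4 = 0
                  · -- zero
                    by_cases h34 : T.a 3 4 = 0
                    · -- zero
                      exact (iso_contra T 3 0 1 2 4 (by decide) (by rw [a_symm T]; exact h03) (by rw [a_symm T]; exact h13) (by rw [a_symm T]; exact h23) h34).elim
                    · -- nonzero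
                      exact (split_contra T 3 4 0 1 2 (by decide) (by decide) (by decide) (by rw [a_symm T]; exact h03) (by rw [a_symm T]; exact h13) (by rw [a_symm T]; exact h23) (by rw [a_symm T]; exact h04) (by rw [a_symm T]; exact h14) (by rw [a_symm T]; exact h24)).elim
                  · -- nonzero
                    by_cases h34 : T.a 3 4 = 0
                    · -- zero
                      exact (iso_contra T 3 0 1 2 4 (by decide) (by rw [a_symm T]; exact h03) (by rw [a_symm T]; exact h13) (by rw [a_symm T]; exact h23) h34).elim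
                    · -- nonzero
                      obtain ⟨y0, y1, y2, y3, y4, m, w, hinj, hp⟩ := shape_p5 T (x0 := 0) (x1 := 1) (x2 := 2) (x3 := 4) (x4 := 3) (by decide) (by decide) (by decide) (by decide) (by decide) (by decide) (by decide) (by decide) (by decide) (by decide) t0 t1 t2 t4 t3 h01 h12 h24 (by rw [a_symm T]; exact h34) h02 h04 h03 h14 h13 h23 (by linear_combination r0) (by linear_combination r1) (by linear_combination r2) (by linear_combination r4) (by linear_combination r3)
                      exact ⟨perm5 y0 y1 y2 y3 y4 hinj, m, w, hp⟩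
                · -- nonzero
                  by_cases h24 : T.a 2 4 = 0
                  · -- zero
                    by_cases h34 : T.a 3 4 = 0
                    · -- zero
                      exact (iso_contra T 4 0 1 2 3 (by decide) (by rw [a_symm T]; exact h04) (by rw [a_symm T]; exact h14) (by rw [a_symm T]; exact h24) (by rw [a_symm T]; exact h34)).elim
                    · -- nonzero
                      obtain ⟨y0, y1, y2, y3, y4, m, w, hinj, hp⟩ := shape_p5 T (x0 := 0) (x1 := 1) (x2 := 2) (x3 := 3) (x4 := 4) (by decide) (by decide) (by decide) (by decide) (by decide) (by decide) (by decide) (by decide) (by decide) (by decide) t0 t1 t2 t3 t4 h01 h12 h23 h34 h02 h03 h04 h13 h14 h24 (by linear_combination r0) (by linear_combination r1) (by linear_combination r2) (by linear_combination r3) (by linear_combination r4)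
                      exact ⟨perm5 y0 y1 y2 y3 y4 hinj, m, w, hp⟩
                  · -- nonzero
                    by_cases h34 : T.a 3 4 = 0
                    · -- zero
                      obtain ⟨y0, y1, y2, y3, y4, m, w, hinj, hp⟩ := shape_fork T (x0 := 2) (x1 := 3) (x2 := 4) (x3 := 1) (x4 := 0) (by decide) (by decide) (by decide) (by decide) (by decide) (by decide) (by decide) (by decide) (by decide) (by decide) t2 t3 t4 t1 t0 (by rw [a_symm T]; exact h23) h24 (by rw [a_symm T]; exact h12) (by rw [a_symm T]; exact h01) (by rw [a_symm T]; exact h02) h34 (by rw [a_symm T]; exact h13) (by rw [a_symm T]; exact h03) (by rw [a_symm T]; exact h14) (by rw [a_symm T]; exact h04) (by linear_combination r2) (by linear_combination r3) (by linear_combination r4) (by linear_combination r1) (by linear_combination r0)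
                      exact ⟨perm5 y0 y1 y2 y3 y4 hinj, m, w, hp⟩
                    · -- nonzero
                      exact absurd (chain3_types T (by norm_num) (by decide) (by decide) (by decide) t2 t3 t4 h23 h34).1 h24
              · -- nonzero
                by_cases h23 : T.a 2 3 = 0
                · -- zero
                  by_cases h24 : T.a 2 4 = 0
                  · -- zero
                    by_cases h34 : T.a 3 4 = 0
                    · -- zero
                      exact (iso_contra T 3 0 1 2 4 (by decide) (by rw [a_symm T]; exact h03) (by rw [a_symm T]; exact h13) (by rw [a_symm T]; exact h23) h34).elim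
                    · -- nonzero
                      obtain ⟨y0, y1, y2, y3, y4, m, w, hinj, hp⟩ := shape_fork T (x0 := 1) (x1 := 0) (x2 := 2) (x3 := 4) (x4 := 3) (by decide) (by decide) (by decide) (by decide) (by decide) (by decide) (by decide) (by decide) (by decide) (by decide) t1 t0 t2 t4 t3 h01 h12 h14 (by rw [a_symm T]; exact h34) h13 h02 h04 h03 h24 h23 (by linear_combination r1) (by linear_combination r0) (by linear_combination r2) (by linear_combination r4) (by linear_combination r3)
                      exact ⟨perm5 y0 y1 y2 y3 y4 hinj, m, w, hp⟩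
                  · -- nonzero
                    exact absurd (chain3_types T (by norm_num) (by decide) (by decide) (by decide) t1 t2 t4 h12 h24).1 h14
                · -- nonzero
                  by_cases h24 : T.a 2 4 = 0
                  · -- zero
                    by_cases h34 : T.a 3 4 = 0
                    · -- zero
                      obtain ⟨y0, y1, y2, y3, y4, m, w, hinj, hp⟩ := shape_fork T (x0 := 1) (x1 := 0) (x2 := 4) (x3 := 2) (x4 := 3) (by decide) (by decide) (by decide) (by decide) (by decide) (by decide) (by decide) (by decide) (by decide) (by decide) t1 t0 t4 t2 t3 h01 h14 h12 h23 h13 h04 h02 h03 (by rw [a_symm T]; exact h24) (by rw [a_symm T]; exact h34) (by linear_combination r1) (by linear_combination r0) (by linear_combination r4) (by linear_combination r2) (by linear_combination r3)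
                      exact ⟨perm5 y0 y1 y2 y3 y4 hinj, m, w, hp⟩
                    · -- nonzero
                      exact (no_c4 T (x0 := 1) (x1 := 2) (x2 := 3) (x3 := 4) (by decide) (by decide) (by decide) (by decide) (by decide) (by decide) t1 t2 t3 t4 h12 h23 h34 (by rw [a_symm T]; exact h14)).elim
                  · -- nonzero
                    exact absurd (chain3_types T (by norm_num) (by decide) (by decide) (by decide) t1 t2 t4 h12 h24).1 h14
            · -- nonzero
              by_cases h14 : T.a 1 4 = 0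
              · -- zero
                by_cases h23 : T.a 2 3 = 0
                · -- zero
                  by_cases h24 : T.a 2 4 = 0
                  · -- zero
                    by_cases h34 : T.a 3 4 = 0
                    · -- zero
                      exact (iso_contra T 4 0 1 2 3 (by decide) (by rw [a_symm T]; exact h04) (by rw [a_symm T]; exact h14) (by rw [a_symm T]; exact h24) (by rw [a_symm T]; exact h34)).elim
                    · -- nonzero
                      obtain ⟨y0, y1, y2, y3, y4, m, w, hinj, hp⟩ := shape_fork T (x0 := 1) (x1 := 0) (x2 := 2) (x3 := 3) (x4 := 4) (by decide) (by decide) (by decide) (by decide) (by decide) (by decide) (by decide) (by decide) (by decide) (by decide) t1 t0 t2 t3 t4 h01 h12 h13 h34 h14 h02 h03 h04 h23 h24 (by linear_combination r1) (by linear_combination r0) (by linear_combination r2) (by linear_combination r3) (by linear_combination r4)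
                      exact ⟨perm5 y0 y1 y2 y3 y4 hinj, m, w, hp⟩
                  · -- nonzero
                    by_cases h34 : T.a 3 4 = 0
                    · -- zero
                      obtain ⟨y0, y1, y2, y3, y4, m, w, hinj, hp⟩ := shape_fork T (x0 := 1) (x1 := 0) (x2 := 3) (x3 := 2) (x4 := 4) (by decide) (by decide) (by decide) (by decide) (by decide) (by decide) (by decide) (by decide) (by decide) (by decide) t1 t0 t3 t2 t4 h01 h13 h12 h24 h14 h03 h02 h04 (by rw [a_symm T]; exact h23) h34 (by linear_combination r1) (by linear_combination r0) (by linear_combination r3) (by linear_combination r2) (by linear_combination r4)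
                      exact ⟨perm5 y0 y1 y2 y3 y4 hinj, m, w, hp⟩
                    · -- nonzero
                      exact (no_c4 T (x0 := 1) (x1 := 2) (x2 := 4) (x3 := 3) (by decide) (by decide) (by decide) (by decide) (by decide) (by decide) t1 t2 t4 t3 h12 h24 (by rw [a_symm T]; exact h34) (by rw [a_symm T]; exact h13)).elim
                · -- nonzero
                  exact absurd (chain3_types T (by norm_num) (by decide) (by decide) (by decide) t1 t2 t3 h12 h23).1 h13
              · -- nonzero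
                by_cases h23 : T.a 2 3 = 0
                · -- zero
                  by_cases h24 : T.a 2 4 = 0
                  · -- zero
                    by_cases h34 : T.a 3 4 = 0
                    · -- zero
                      obtain ⟨y0, y1, y2, y3, y4, m, w, hinj, hp⟩ := shape_star T (x0 := 1) (x1 := 0) (x2 := 2) (x3 := 3) (x4 := 4) (by decide) (by decide) (by decide) (by decide) (by decide) (by decide) (by decide) (by decide) (by decide) (by decide) t1 t0 t2 t3 t4 h01 h12 (by rw [a_symm T]; exact h13) h14 h02 h03 h04 h23 h24 h34 (by linear_combination r1) (by linear_combination r0) (by linear_combination r2) (by linear_combination r3) (by linear_combination r4)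
                      exact ⟨perm5 y0 y1 y2 y3 y4 hinj, m, w, hp⟩
                    · -- nonzero
                      exact absurd (chain3_types T (by norm_num) (by decide) (by decide) (by decide) t1 t3 t4 h13 h34).1 h14
                  · -- nonzero
                    exact absurd (chain3_types T (by norm_num) (by decide) (by decide) (by decide) t1 t2 t4 h12 h24).1 h14
                · -- nonzero
                  exact absurd (chain3_types T (by norm_num) (by decide) (by decide) (by decide) t1 t2 t3 h12 h23).1 h13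
        · -- nonzero
          by_cases h12 : T.a 1 2 = 0
          · -- zero
            by_cases h13 : T.a 1 3 = 0
            · -- zero
              by_cases h14 : T.a 1 4 = 0
              · -- zero
                by_cases h23 : T.a 2 3 = 0
                · -- zero
                  by_cases h24 : T.a 2 4 = 0
                  · -- zero
                    exact (iso_contra T 2 0 1 3 4 (by decide) (by rw [a_symm T]; exact h02) (by rw [a_symm T]; exact h12) h23 h24).elim
                  · -- nonzero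
                    by_cases h34 : T.a 3 4 = 0
                    · -- zero
                      exact (iso_contra T 3 0 1 2 4 (by decide) (by rw [a_symm T]; exact h03) (by rw [a_symm T]; exact h13) (by rw [a_symm T]; exact h23) h34).elim
                    · -- nonzero
                      obtain ⟨y0, y1, y2, y3, y4, m, w, hinj, hp⟩ := shape_fork T (x0 := 4) (x1 := 2) (x2 := 3) (x3 := 0) (x4 := 1) (by decide) (by decide) (by decide) (by decide) (by decide) (by decide) (by decide) (by decide) (by decide) (by decide) t4 t2 t3 t0 t1 h24 (by rw [a_symm T]; exact h34) (by rw [a_symm T]; exact h04) h01 (by rw [a_symm T]; exact h14) h23 (by rw [a_symm T]; exact h02) (by rw [a_symm T]; exact h12) (by rw [a_symm T]; exact h03) (by rw [a_symm T]; exact h13) (by linear_combination r4) (by linear_combination r2) (by linear_combination r3) (by linear_combination r0) (by linear_combination r1)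
                      exact ⟨perm5 y0 y1 y2 y3 y4 hinj, m, w, hp⟩
                · -- nonzero
                  by_cases h24 : T.a 2 4 = 0
                  · -- zero
                    by_cases h34 : T.a 3 4 = 0
                    · -- zero
                      exact (split_contra T 2 3 0 1 4 (by decide) (by decide) (by decide) (by rw [a_symm T]; exact h02) (by rw [a_symm T]; exact h12) h24 (by rw [a_symm T]; exact h03) (by rw [a_symm T]; exact h13) h34).elim
                    · -- nonzero
                      obtain ⟨y0, y1, y2, y3, y4, m, w, hinj, hp⟩ := shape_p5 T (x0 := 1) (x1 := 0) (x2 := 4) (x3 := 3) (x4 := 2) (by decide) (by decide) (by decide) (by decide) (by decide) (by decide) (by decide) (by decide) (by decide) (by decide) t1 t0 t4 t3 t2 (by rw [a_symm T]; exact h01) h04 (by rw [a_symm T]; exact h34) (by rw [a_symm T]; exact h23) h14 h13 h12 h03 h02 (by rw [a_symm T]; exact h24) (by linear_combination r1) (by linear_combination r0) (by linear_combination r4) (by linear_combination r3) (by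 linear_combination r2)
                      exact ⟨perm5 y0 y1 y2 y3 y4 hinj, m, w, hp⟩
                  · -- nonzero
                    by_cases h34 : T.a 3 4 = 0
                    · -- zero
                      obtain ⟨y0, y1, y2, y3, y4, m, w, hinj, hp⟩ := shape_p5 T (x0 := 1) (x1 := 0) (x2 := 4) (x3 := 2) (x4 := 3) (by decide) (by decide) (by decide) (by decide) (by decide) (by decide) (by decide) (by decide) (by decide) (by decide) t1 t0 t4 t2 t3 (by rw [a_symm T]; exact h01) h04 (by rw [a_symm T]; exact h24) h23 h14 h12 h13 h02 h03 (by rw [a_symm T]; exact h34) (by linear_combination r1) (by linear_combination r0) (by linear_combination r4) (by linear_combination r2) (by linear_combination r3)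
                      exact ⟨perm5 y0 y1 y2 y3 y4 hinj, m, w, hp⟩
                    · -- nonzero
                      exact absurd (chain3_types T (by norm_num) (by decide) (by decide) (by decide) t2 t3 t4 h23 h34).1 h24
              · -- nonzero
                exact absurd (chain3_types T (by norm_num) (by decide) (by decide) (by decide) t0 t1 t4 h01 h14).1 h04
            · -- nonzero
              by_cases h14 : T.a 1 4 = 0
              · -- zero
                by_cases h23 : T.a 2 3 = 0
                · -- zero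
                  by_cases h24 : T.a 2 4 = 0
                  · -- zero
                    exact (iso_contra T 2 0 1 3 4 (by decide) (by rw [a_symm T]; exact h02) (by rw [a_symm T]; exact h12) h23 h24).elim
                  · -- nonzero
                    by_cases h34 : T.a 3 4 = 0
                    · -- zero
                      obtain ⟨y0, y1, y2, y3, y4, m, w, hinj, hp⟩ := shape_p5 T (x0 := 2) (x1 := 4) (x2 := 0) (x3 := 1) (x4 := 3) (by decide) (by decide) (by decide) (by decide) (by decide) (by decide) (by decide) (by decide) (by decide) (by decide) t2 t4 t0 t1 t3 h24 (by rw [a_symm T]; exact h04) h01 h13 (by rw [a_symm T]; exact h02) (by rw [a_symm T]; exact h12) h23 (by rw [a_symm T]; exact h14) (by rw [a_symm T]; exact h34) h03 (by linear_combination r2) (by linear_combination r4) (by linear_combination r0) (by linear_combination r1) (by linear_combination r3)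
                      exact ⟨perm5 y0 y1 y2 y3 y4 hinj, m, w, hp⟩
                    · -- nonzero
                      exact (no_c4 T (x0 := 0) (x1 := 1) (x2 := 3) (x3 := 4) (by decide) (by decide) (by decide) (by decide) (by decide) (by decide) t0 t1 t3 t4 h01 h13 h34 (by rw [a_symm T]; exact h04)).elim
                · -- nonzero
                  by_cases h24 : T.a 2 4 = 0
                  · -- zero
                    by_cases h34 : T.a 3 4 = 0
                    · -- zero
                      obtain ⟨y0, y1, y2, y3, y4, m, w, hinj, hp⟩ := shape_p5 T (x0 := 2) (x1 := 3) (x2 := 1) (x3 := 0) (x4 := 4) (by decide) (by decide) (by decide) (by decide) (by decide) (by decide) (by decide) (by decide) (by decide) (by decide) t2 t3 t1 t0 t4 h23 (by rw [a_symm T]; exact h13) (by rw [a_symm T]; exact h01) h04 (by rw [a_symm T]; exact h12) (by rw [a_symm T]; exact h02) h24 (by rw [a_symm T]; exact h03) h34 h14 (by linear_combination r2) (by linear_combination r3) (by linear_combination r1) (by linear_combination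 r0) (by linear_combination r4)
                      exact ⟨perm5 y0 y1 y2 y3 y4 hinj, m, w, hp⟩
                    · -- nonzero
                      exact (no_c4 T (x0 := 0) (x1 := 1) (x2 := 3) (x3 := 4) (by decide) (by decide) (by decide) (by decide) (by decide) (by decide) t0 t1 t3 t4 h01 h13 h34 (by rw [a_symm T]; exact h04)).elim
                  · -- nonzero
                    by_cases h34 : T.a 3 4 = 0
                    · -- zero
                      obtain ⟨y0, y1, y2, y3, y4, m, w, hinj, hp⟩ := shape_c5 T (x0 := 0) (x1 := 1) (x2 := 3) (x3 := 2) (x4 := 4) (by decide) (by decide) (by decide) (by decide) (by decide) (by decide) (by decide) (by decide) (by decide) (by decide) t0 t1 t3 t2 t4 h01 h13 (by rw [a_symm T]; exact h23) h24 (by rw [a_symm T]; exact h04) h03 h02 h12 h14 h34 (by linear_combination r0) (by linear_combination r1) (by linear_combination r3) (by linear_combination r2) (by linear_combination r4)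
                      exact ⟨perm5 y0 y1 y2 y3 y4 hinj, m, w, hp⟩
                    · -- nonzero
                      exact absurd (chain3_types T (by norm_num) (by decide) (by decide) (by decide) t2 t3 t4 h23 h34).1 h24
              · -- nonzero
                exact absurd (chain3_types T (by norm_num) (by decide) (by decide) (by decide) t0 t1 t4 h01 h14).1 h04
          · -- nonzero
            by_cases h13 : T.a 1 3 = 0
            · -- zero
              by_cases h14 : T.a 1 4 = 0
              · -- zero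
                by_cases h23 : T.a 2 3 = 0
                · -- zero
                  by_cases h24 : T.a 2 4 = 0
                  · -- zero
                    by_cases h34 : T.a 3 4 = 0
                    · -- zero
                      exact (iso_contra T 3 0 1 2 4 (by decide) (by rw [a_symm T]; exact h03) (by rw [a_symm T]; exact h13) (by rw [a_symm T]; exact h23) h34).elim
                    · -- nonzero
                      obtain ⟨y0, y1, y2, y3, y4, m, w, hinj, hp⟩ := shape_p5 T (x0 := 2) (x1 := 1) (x2 := 0) (x3 := 4) (x4 := 3) (by decide) (by decide) (by decide) (by decide) (by decide) (by decide) (by decide) (by decide) (by decide) (by decide) t2 t1 t0 t4 t3 (by rw [a_symm T]; exact h12) (by rw [a_symm T]; exact h01) h04 (by rw [a_symm T]; exact h34) (by rw [a_symm T]; exact h02) h24 h23 h14 h13 h03 (by linear_combination r2) (by linear_combination r1) (by linear_combination r0) (by linear_combination r4) (by linear_combination r3)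
                      exact ⟨perm5 y0 y1 y2 y3 y4 hinj, m, w, hp⟩
                  · -- nonzero
                    exact (no_c4 T (x0 := 0) (x1 := 1) (x2 := 2) (x3 := 4) (by decide) (by decide) (by decide) (by decide) (by decide) (by decide) t0 t1 t2 t4 h01 h12 h24 (by rw [a_symm T]; exact h04)).elim
                · -- nonzero
                  by_cases h24 : T.a 2 4 = 0
                  · -- zero
                    by_cases h34 : T.a 3 4 = 0
                    · -- zero
                      obtain ⟨y0, y1, y2, y3, y4, m, w, hinj, hp⟩ := shape_p5 T (x0 := 3) (x1 := 2) (x2 := 1) (x3 := 0) (x4 := 4) (by decide) (by decide) (by decide) (by decide) (by decide) (by decide) (by decide) (by decide) (by decide) (by decide) t3 t2 t1 t0 t4 (by rw [a_symm T]; exact h23) (by rw [a_symm T]; exact h12) (by rw [a_symm T]; exact h01) h04 (by rw [a_symm T]; exact h13) (by rw [a_symm T]; exact h03) h34 (by rw [a_symm T]; exact h02) h24 h14 (by linear_combination r3) (by linear_combination r2) (by linear_combination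 r1) (by linear_combination r0) (by linear_combination r4)
                      exact ⟨perm5 y0 y1 y2 y3 y4 hinj, m, w, hp⟩
                    · -- nonzero
                      obtain ⟨y0, y1, y2, y3, y4, m, w, hinj, hp⟩ := shape_c5 T (x0 := 0) (x1 := 1) (x2 := 2) (x3 := 3) (x4 := 4) (by decide) (by decide) (by decide) (by decide) (by decide) (by decide) (by decide) (by decide) (by decide) (by decide) t0 t1 t2 t3 t4 h01 h12 h23 h34 (by rw [a_symm T]; exact h04) h02 h03 h13 h14 h24 (by linear_combination r0) (by linear_combination r1) (by linear_combination r2) (by linear_combination r3) (by linear_combination r4)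
                      exact ⟨perm5 y0 y1 y2 y3 y4 hinj, m, w, hp⟩
                  · -- nonzero
                    exact (no_c4 T (x0 := 0) (x1 := 1) (x2 := 2) (x3 := 4) (by decide) (by decide) (by decide) (by decide) (by decide) (by decide) t0 t1 t2 t4 h01 h12 h24 (by rw [a_symm T]; exact h04)).elim
              · -- nonzero
                exact absurd (chain3_types T (by norm_num) (by decide) (by decide) (by decide) t0 t1 t4 h01 h14).1 h04
            · -- nonzero
              by_cases h14 : T.a 1 4 = 0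
              · -- zero
                by_cases h23 : T.a 2 3 = 0
                · -- zero
                  by_cases h24 : T.a 2 4 = 0
                  · -- zero
                    by_cases h34 : T.a 3 4 = 0
                    · -- zero
                      obtain ⟨y0, y1, y2, y3, y4, m, w, hinj, hp⟩ := shape_fork T (x0 := 1) (x1 := 2) (x2 := 3) (x3 := 0) (x4 := 4) (by decide) (by decide) (by decide) (by decide) (by decide) (by decide) (by decide) (by decide) (by decide) (by decide) t1 t2 t3 t0 t4 (by rw [a_symm T]; exact h12) h13 (by rw [a_symm T]; exact h01) h04 h14 h23 (by rw [a_symm T]; exact h02) h24 (by rw [a_symm T]; exact h03) h34 (by linear_combination r1) (by linear_combination r2) (by linear_combination r3) (by linear_combination r0) (by linear_combination r4)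
                      exact ⟨perm5 y0 y1 y2 y3 y4 hinj, m, w, hp⟩
                    · -- nonzero
                      exact (no_c4 T (x0 := 0) (x1 := 1) (x2 := 3) (x3 := 4) (by decide) (by decide) (by decide) (by decide) (by decide) (by decide) t0 t1 t3 t4 h01 h13 h34 (by rw [a_symm T]; exact h04)).elim
                  · -- nonzero
                    exact (no_c4 T (x0 := 0) (x1 := 1) (x2 := 2) (x3 := 4) (by decide) (by decide) (by decide) (by decide) (by decide) (by decide) t0 t1 t2 t4 h01 h12 h24 (by rw [a_symm T]; exact h04)).elim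
                · -- nonzero
                  exact absurd (chain3_types T (by norm_num) (by decide) (by decide) (by decide) t1 t2 t3 h12 h23).1 h13
              · -- nonzero
                exact absurd (chain3_types T (by norm_num) (by decide) (by decide) (by decide) t0 t1 t4 h01 h14).1 h04
      · -- nonzero
        by_cases h04 : T.a 0 4 = 0
        · -- zero
          by_cases h12 : T.a 1 2 = 0
          · -- zero
            by_cases h13 : T.a 1 3 = 0
            · -- zero
              by_cases h14 : T.a 1 4 = 0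
              · -- zero
                by_cases h23 : T.a 2 3 = 0
                · -- zero
                  by_cases h24 : T.a 2 4 = 0
                  · -- zero
                    exact (iso_contra T 2 0 1 3 4 (by decide) (by rw [a_symm T]; exact h02) (by rw [a_symm T]; exact h12) h23 h24).elim
                  · -- nonzero
                    by_cases h34 : T.a 3 4 = 0
                    · -- zero
                      exact (split_contra T 2 4 0 1 3 (by decide) (by decide) (by decide) (by rw [a_symm T]; exact h02) (by rw [a_symm T]; exact h12) h23 (by rw [a_symm T]; exact h04) (by rw [a_symm T]; exact h14) (by rw [a_symm T]; exact h34)).elim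
                    · -- nonzero
                      obtain ⟨y0, y1, y2, y3, y4, m, w, hinj, hp⟩ := shape_p5 T (x0 := 1) (x1 := 0) (x2 := 3) (x3 := 4) (x4 := 2) (by decide) (by decide) (by decide) (by decide) (by decide) (by decide) (by decide) (by decide) (by decide) (by decide) t1 t0 t3 t4 t2 (by rw [a_symm T]; exact h01) h03 h34 (by rw [a_symm T]; exact h24) h13 h14 h12 h04 h02 (by rw [a_symm T]; exact h23) (by linear_combination r1) (by linear_combination r0) (by linear_combination r3) (by linear_combination r4) (by linear_combination r2)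
                      exact ⟨perm5 y0 y1 y2 y3 y4 hinj, m, w, hp⟩
                · -- nonzero
                  by_cases h24 : T.a 2 4 = 0
                  · -- zero
                    by_cases h34 : T.a 3 4 = 0
                    · -- zero
                      exact (iso_contra T 4 0 1 2 3 (by decide) (by rw [a_symm T]; exact h04) (by rw [a_symm T]; exact h14) (by rw [a_symm T]; exact h24) (by rw [a_symm T]; exact h34)).elim
                    · -- nonzero
                      obtain ⟨y0, y1, y2, y3, y4, m, w, hinj, hp⟩ := shape_fork T (x0 := 3) (x1 := 2) (x2 := 4) (x3 := 0) (x4 := 1) (by decide) (by decide) (by decide) (by decide) (by decide) (by decide) (by decide) (by decide) (by decide) (by decide) t3 t2 t4 t0 t1 h23 h34 (by rw [a_symm T]; exact h03) h01 (by rw [a_symm T]; exact h13) h24 (by rw [a_symm T]; exact h02) (by rw [a_symm T]; exact h12) (by rw [a_symm T]; exact h04) (by rw [a_symm T]; exact h14) (by linear_combination r3) (by linear_combination r2) (by linear_combination r4) (by linear_combination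 r0) (by linear_combination r1)
                      exact ⟨perm5 y0 y1 y2 y3 y4 hinj, m, w, hp⟩
                  · -- nonzero
                    by_cases h34 : T.a 3 4 = 0
                    · -- zero
                      obtain ⟨y0, y1, y2, y3, y4, m, w, hinj, hp⟩ := shape_p5 T (x0 := 1) (x1 := 0) (x2 := 3) (x3 := 2) (x4 := 4) (by decide) (by decide) (by decide) (by decide) (by decide) (by decide) (by decide) (by decide) (by decide) (by decide) t1 t0 t3 t2 t4 (by rw [a_symm T]; exact h01) h03 (by rw [a_symm T]; exact h23) h24 h13 h12 h14 h02 h04 h34 (by linear_combination r1) (by linear_combination r0) (by linear_combination r3) (by linear_combination r2) (by linear_combination r4)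
                      exact ⟨perm5 y0 y1 y2 y3 y4 hinj, m, w, hp⟩
                    · -- nonzero
                      exact absurd (chain3_types T (by norm_num) (by decide) (by decide) (by decide) t2 t3 t4 h23 h34).1 h24
              · -- nonzero
                by_cases h23 : T.a 2 3 = 0
                · -- zero
                  by_cases h24 : T.a 2 4 = 0
                  · -- zero
                    exact (iso_contra T 2 0 1 3 4 (by decide) (by rw [a_symm T]; exact h02) (by rw [a_symm T]; exact h12) h23 h24).elim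
                  · -- nonzero
                    by_cases h34 : T.a 3 4 = 0
                    · -- zero
                      obtain ⟨y0, y1, y2, y3, y4, m, w, hinj, hp⟩ := shape_p5 T (x0 := 2) (x1 := 4) (x2 := 1) (x3 := 0) (x4 := 3) (by decide) (by decide) (by decide) (by decide) (by decide) (by decide) (by decide) (by decide) (by decide) (by decide) t2 t4 t1 t0 t3 h24 (by rw [a_symm T]; exact h14) (by rw [a_symm T]; exact h01) h03 (by rw [a_symm T]; exact h12) (by rw [a_symm T]; exact h02) h23 (by rw [a_symm T]; exact h04) (by rw [a_symm T]; exact h34) h13 (by linear_combination r2) (by linear_combination r4) (by linear_combination r1) (by linear_combination r0) (by linear_combination r3)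
                      exact ⟨perm5 y0 y1 y2 y3 y4 hinj, m, w, hp⟩
                    · -- nonzero
                      exact (no_c4 T (x0 := 0) (x1 := 1) (x2 := 4) (x3 := 3) (by decide) (by decide) (by decide) (by decide) (by decide) (by decide) t0 t1 t4 t3 h01 h14 (by rw [a_symm T]; exact h34) (by rw [a_symm T]; exact h03)).elim
                · -- nonzero
                  by_cases h24 : T.a 2 4 = 0
                  · -- zero
                    by_cases h34 : T.a 3 4 = 0
                    · -- zero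
                      obtain ⟨y0, y1, y2, y3, y4, m, w, hinj, hp⟩ := shape_p5 T (x0 := 2) (x1 := 3) (x2 := 0) (x3 := 1) (x4 := 4) (by decide) (by decide) (by decide) (by decide) (by decide) (by decide) (by decide) (by decide) (by decide) (by decide) t2 t3 t0 t1 t4 h23 (by rw [a_symm T]; exact h03) h01 h14 (by rw [a_symm T]; exact h02) (by rw [a_symm T]; exact h12) h24 (by rw [a_symm T]; exact h13) h34 h04 (by linear_combination r2) (by linear_combination r3) (by linear_combination r0) (by linear_combination r1) (by linear_combination r4)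
                      exact ⟨perm5 y0 y1 y2 y3 y4 hinj, m, w, hp⟩
                    · -- nonzero
                      exact (no_c4 T (x0 := 0) (x1 := 1) (x2 := 4) (x3 := 3) (by decide) (by decide) (by decide) (by decide) (by decide) (by decide) t0 t1 t4 t3 h01 h14 (by rw [a_symm T]; exact h34) (by rw [a_symm T]; exact h03)).elim
                  · -- nonzero
                    by_cases h34 : T.a 3 4 = 0
                    · -- zero
                      obtain ⟨y0, y1, y2, y3, y4, m, w, hinj, hp⟩ := shape_c5 T (x0 := 0) (x1 := 1) (x2 := 4) (x3 := 2) (x4 := 3) (by decide) (by decide) (by decide) (by decide) (by decide) (by decide) (by decide) (by decide) (by decide) (by decide) t0 t1 t4 t2 t3 h01 h14 (by rw [a_symm T]; exact h24) h23 (by rw [a_symm T]; exact h03) h04 h02 h12 h13 (by rw [a_symm T]; exact h34) (by linear_combination r0) (by linear_combination r1) (by linear_combination r4) (by linear_combination r2) (by linear_combination r3)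
                      exact ⟨perm5 y0 y1 y2 y3 y4 hinj, m, w, hp⟩
                    · -- nonzero
                      exact absurd (chain3_types T (by norm_num) (by decide) (by decide) (by decide) t2 t3 t4 h23 h34).1 h24
            · -- nonzero
              exact absurd (chain3_types T (by norm_num) (by decide) (by decide) (by decide) t0 t1 t3 h01 h13).1 h03
          · -- nonzero
            by_cases h13 : T.a 1 3 = 0
            · -- zero
              by_cases h14 : T.a 1 4 = 0
              · -- zero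
                by_cases h23 : T.a 2 3 = 0
                · -- zero
                  by_cases h24 : T.a 2 4 = 0
                  · -- zero
                    by_cases h34 : T.a 3 4 = 0
                    · -- zero
                      exact (iso_contra T 4 0 1 2 3 (by decide) (by rw [a_symm T]; exact h04) (by rw [a_symm T]; exact h14) (by rw [a_symm T]; exact h24) (by rw [a_symm T]; exact h34)).elim
                    · -- nonzero
                      obtain ⟨y0, y1, y2, y3, y4, m, w, hinj, hp⟩ := shape_p5 T (x0 := 2) (x1 := 1) (x2 := 0) (x3 := 3) (x4 := 4) (by decide) (by decide) (by decide) (by decide) (by decide) (by decide) (by decide) (by decide) (by decide) (by decide) t2 t1 t0 t3 t4 (by rw [a_symm T]; exact h12) (by rw [a_symm T]; exact h01) h03 h34 (by rw [a_symm T]; exact h02) h23 h24 h13 h14 h04 (by linear_combination r2) (by linear_combination r1) (by linear_combination r0) (by linear_combination r3) (by linear_combination r4)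
                      exact ⟨perm5 y0 y1 y2 y3 y4 hinj, m, w, hp⟩
                  · -- nonzero
                    by_cases h34 : T.a 3 4 = 0
                    · -- zero
                      obtain ⟨y0, y1, y2, y3, y4, m, w, hinj, hp⟩ := shape_p5 T (x0 := 3) (x1 := 0) (x2 := 1) (x3 := 2) (x4 := 4) (by decide) (by decide) (by decide) (by decide) (by decide) (by decide) (by decide) (by decide) (by decide) (by decide) t3 t0 t1 t2 t4 (by rw [a_symm T]; exact h03) h01 h12 h24 (by rw [a_symm T]; exact h13) (by rw [a_symm T]; exact h23) h34 h02 h04 h14 (by linear_combination r3) (by linear_combination r0) (by linear_combination r1) (by linear_combination r2) (by linear_combination r4)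
                      exact ⟨perm5 y0 y1 y2 y3 y4 hinj, m, w, hp⟩
                    · -- nonzero
                      obtain ⟨y0, y1, y2, y3, y4, m, w, hinj, hp⟩ := shape_c5 T (x0 := 0) (x1 := 1) (x2 := 2) (x3 := 4) (x4 := 3) (by decide) (by decide) (by decide) (by decide) (by decide) (by decide) (by decide) (by decide) (by decide) (by decide) t0 t1 t2 t4 t3 h01 h12 h24 (by rw [a_symm T]; exact h34) (by rw [a_symm T]; exact h03) h02 h04 h14 h13 h23 (by linear_combination r0) (by linear_combination r1) (by linear_combination r2) (by linear_combination r4) (by linear_combination r3)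
                      exact ⟨perm5 y0 y1 y2 y3 y4 hinj, m, w, hp⟩
                · -- nonzero
                  exact (no_c4 T (x0 := 0) (x1 := 1) (x2 := 2) (x3 := 3) (by decide) (by decide) (by decide) (by decide) (by decide) (by decide) t0 t1 t2 t3 h01 h12 h23 (by rw [a_symm T]; exact h03)).elim
              · -- nonzero
                by_cases h23 : T.a 2 3 = 0
                · -- zero
                  by_cases h24 : T.a 2 4 = 0
                  · -- zero
                    by_cases h34 : T.a 3 4 = 0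
                    · -- zero
                      obtain ⟨y0, y1, y2, y3, y4, m, w, hinj, hp⟩ := shape_fork T (x0 := 1) (x1 := 2) (x2 := 4) (x3 := 0) (x4 := 3) (by decide) (by decide) (by decide) (by decide) (by decide) (by decide) (by decide) (by decide) (by decide) (by decide) t1 t2 t4 t0 t3 (by rw [a_symm T]; exact h12) h14 (by rw [a_symm T]; exact h01) h03 h13 h24 (by rw [a_symm T]; exact h02) h23 (by rw [a_symm T]; exact h04) (by rw [a_symm T]; exact h34) (by linear_combination r1) (by linear_combination r2) (by linear_combination r4) (by linear_combination r0) (by linear_combination r3)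
                      exact ⟨perm5 y0 y1 y2 y3 y4 hinj, m, w, hp⟩
                    · -- nonzero
                      exact (no_c4 T (x0 := 0) (x1 := 1) (x2 := 4) (x3 := 3) (by decide) (by decide) (by decide) (by decide) (by decide) (by decide) t0 t1 t4 t3 h01 h14 (by rw [a_symm T]; exact h34) (by rw [a_symm T]; exact h03)).elim
                  · -- nonzero
                    exact absurd (chain3_types T (by norm_num) (by decide) (by decide) (by decide) t1 t2 t4 h12 h24).1 h14
                · -- nonzero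
                  exact (no_c4 T (x0 := 0) (x1 := 1) (x2 := 2) (x3 := 3) (by decide) (by decide) (by decide) (by decide) (by decide) (by decide) t0 t1 t2 t3 h01 h12 h23 (by rw [a_symm T]; exact h03)).elim
            · -- nonzero
              exact absurd (chain3_types T (by norm_num) (by decide) (by decide) (by decide) t0 t1 t3 h01 h13).1 h03
        · -- nonzero
          by_cases h12 : T.a 1 2 = 0
          · -- zero
            by_cases h13 : T.a 1 3 = 0
            · -- zero
              by_cases h14 : T.a 1 4 = 0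
              · -- zero
                by_cases h23 : T.a 2 3 = 0
                · -- zero
                  by_cases h24 : T.a 2 4 = 0
                  · -- zero
                    exact (iso_contra T 2 0 1 3 4 (by decide) (by rw [a_symm T]; exact h02) (by rw [a_symm T]; exact h12) h23 h24).elim
                  · -- nonzero
                    by_cases h34 : T.a 3 4 = 0
                    · -- zero
                      obtain ⟨y0, y1, y2, y3, y4, m, w, hinj, hp⟩ := shape_fork T (x0 := 0) (x1 := 1) (x2 := 3) (x3 := 4) (x4 := 2) (by decide) (by decide) (by decide) (by decide) (by decide) (by decide) (by decide) (by decide) (by decide) (by decide) t0 t1 t3 t4 t2 (by rw [a_symm T]; exact h01) h03 h04 (by rw [a_symm T]; exact h24) h02 h13 h14 h12 h34 (by rw [a_symm T]; exact h23) (by linear_combination r0) (by linear_combination r1) (by linear_combination r3) (by linear_combination r4) (by linear_combination r2)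
                      exact ⟨perm5 y0 y1 y2 y3 y4 hinj, m, w, hp⟩
                    · -- nonzero
                      exact absurd (chain3_types T (by norm_num) (by decide) (by decide) (by decide) t0 t3 t4 h03 h34).1 h04
                · -- nonzero
                  by_cases h24 : T.a 2 4 = 0
                  · -- zero
                    by_cases h34 : T.a 3 4 = 0
                    · -- zero
                      obtain ⟨y0, y1, y2, y3, y4, m, w, hinj, hp⟩ := shape_fork T (x0 := 0) (x1 := 1) (x2 := 4) (x3 := 3) (x4 := 2) (by decide) (by decide) (by decide) (by decide) (by decide) (by decide) (by decide) (by decide) (by decide) (by decide) t0 t1 t4 t3 t2 (by rw [a_symm T]; exact h01) h04 h03 (by rw [a_symm T]; exact h23) h02 h14 h13 h12 (by rw [a_symm T]; exact h34) (by rw [a_symm T]; exact h24) (by linear_combination r0) (by linear_combination r1) (by linear_combination r4) (by linear_combination r3) (by linear_combination r2)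
                      exact ⟨perm5 y0 y1 y2 y3 y4 hinj, m, w, hp⟩
                    · -- nonzero
                      exact absurd (chain3_types T (by norm_num) (by decide) (by decide) (by decide) t0 t3 t4 h03 h34).1 h04
                  · -- nonzero
                    exact (no_c4 T (x0 := 0) (x1 := 3) (x2 := 2) (x3 := 4) (by decide) (by decide) (by decide) (by decide) (by decide) (by decide) t0 t3 t2 t4 h03 (by rw [a_symm T]; exact h23) h24 (by rw [a_symm T]; exact h04)).elim
              · -- nonzero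
                exact absurd (chain3_types T (by norm_num) (by decide) (by decide) (by decide) t0 t1 t4 h01 h14).1 h04
            · -- nonzero
              exact absurd (chain3_types T (by norm_num) (by decide) (by decide) (by decide) t0 t1 t3 h01 h13).1 h03
          · -- nonzero
            by_cases h13 : T.a 1 3 = 0
            · -- zero
              by_cases h14 : T.a 1 4 = 0
              · -- zero
                by_cases h23 : T.a 2 3 = 0
                · -- zero
                  by_cases h24 : T.a 2 4 = 0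
                  · -- zero
                    by_cases h34 : T.a 3 4 = 0
                    · -- zero
                      obtain ⟨y0, y1, y2, y3, y4, m, w, hinj, hp⟩ := shape_fork T (x0 := 0) (x1 := 3) (x2 := 4) (x3 := 1) (x4 := 2) (by decide) (by decide) (by decide) (by decide) (by decide) (by decide) (by decide) (by decide) (by decide) (by decide) t0 t3 t4 t1 t2 (by rw [a_symm T]; exact h03) h04 h01 h12 h02 h34 (by rw [a_symm T]; exact h13) (by rw [a_symm T]; exact h23) (by rw [a_symm T]; exact h14) (by rw [a_symm T]; exact h24) (by linear_combination r0) (by linear_combination r3) (by linear_combination r4) (by linear_combination r1) (by linear_combination r2)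
                      exact ⟨perm5 y0 y1 y2 y3 y4 hinj, m, w, hp⟩
                    · -- nonzero
                      exact absurd (chain3_types T (by norm_num) (by decide) (by decide) (by decide) t0 t3 t4 h03 h34).1 h04
                  · -- nonzero
                    exact (no_c4 T (x0 := 0) (x1 := 1) (x2 := 2) (x3 := 4) (by decide) (by decide) (by decide) (by decide) (by decide) (by decide) t0 t1 t2 t4 h01 h12 h24 (by rw [a_symm T]; exact h04)).elim
                · -- nonzero
                  exact (no_c4 T (x0 := 0) (x1 := 1) (x2 := 2) (x3 := 3) (by decide) (by decide) (by decide) (by decide) (by decide) (by decide) t0 t1 t2 t3 h01 h12 h23 (by rw [a_symm T]; exact h03)).elim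
              · -- nonzero
                exact absurd (chain3_types T (by norm_num) (by decide) (by decide) (by decide) t0 t1 t4 h01 h14).1 h04
            · -- nonzero
              exact absurd (chain3_types T (by norm_num) (by decide) (by decide) (by decide) t0 t1 t3 h01 h13).1 h03
    · -- nonzero
      by_cases h03 : T.a 0 3 = 0
      · -- zero
        by_cases h04 : T.a 0 4 = 0
        · -- zero
          by_cases h12 : T.a 1 2 = 0
          · -- zero
            by_cases h13 : T.a 1 3 = 0
            · -- zero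
              by_cases h14 : T.a 1 4 = 0
              · -- zero
                by_cases h23 : T.a 2 3 = 0
                · -- zero
                  by_cases h24 : T.a 2 4 = 0
                  · -- zero
                    by_cases h34 : T.a 3 4 = 0
                    · -- zero
                      exact (iso_contra T 3 0 1 2 4 (by decide) (by rw [a_symm T]; exact h03) (by rw [a_symm T]; exact h13) (by rw [a_symm T]; exact h23) h34).elim
                    · -- nonzero
                      exact (split_contra T 3 4 0 1 2 (by decide) (by decide) (by decide) (by rw [a_symm T]; exact h03) (by rw [a_symm T]; exact h13) (by rw [a_symm T]; exact h23) (by rw [a_symm T]; exact h04) (by rw [a_symm T]; exact h14) (by rw [a_symm T]; exact h24)).elim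
                  · -- nonzero
                    by_cases h34 : T.a 3 4 = 0
                    · -- zero
                      exact (iso_contra T 3 0 1 2 4 (by decide) (by rw [a_symm T]; exact h03) (by rw [a_symm T]; exact h13) (by rw [a_symm T]; exact h23) h34).elim
                    · -- nonzero
                      obtain ⟨y0, y1, y2, y3, y4, m, w, hinj, hp⟩ := shape_p5 T (x0 := 1) (x1 := 0) (x2 := 2) (x3 := 4) (x4 := 3) (by decide) (by decide) (by decide) (by decide) (by decide) (by decide) (by decide) (by decide) (by decide) (by decide) t1 t0 t2 t4 t3 (by rw [a_symm T]; exact h01) h02 h24 (by rw [a_symm T]; exact h34) h12 h14 h13 h04 h03 h23 (by linear_combination r1) (by linear_combination r0) (by linear_combination r2) (by linear_combination r4) (by linear_combination r3)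
                      exact ⟨perm5 y0 y1 y2 y3 y4 hinj, m, w, hp⟩
                · -- nonzero
                  by_cases h24 : T.a 2 4 = 0
                  · -- zero
                    by_cases h34 : T.a 3 4 = 0
                    · -- zero
                      exact (iso_contra T 4 0 1 2 3 (by decide) (by rw [a_symm T]; exact h04) (by rw [a_symm T]; exact h14) (by rw [a_symm T]; exact h24) (by rw [a_symm T]; exact h34)).elim
                    · -- nonzero
                      obtain ⟨y0, y1, y2, y3, y4, m, w, hinj, hp⟩ := shape_p5 T (x0 := 1) (x1 := 0) (x2 := 2) (x3 := 3) (x4 := 4) (by decide) (by decide) (by decide) (by decide) (by decide) (by decide) (by decide) (by decide) (by decide) (by decide) t1 t0 t2 t3 t4 (by rw [a_symm T]; exact h01) h02 h23 h34 h12 h13 h14 h03 h04 h24 (by linear_combination r1) (by linear_combination r0) (by linear_combination r2) (by linear_combination r3) (by linear_combination r4)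
                      exact ⟨perm5 y0 y1 y2 y3 y4 hinj, m, w, hp⟩
                  · -- nonzero
                    by_cases h34 : T.a 3 4 = 0
                    · -- zero
                      obtain ⟨y0, y1, y2, y3, y4, m, w, hinj, hp⟩ := shape_fork T (x0 := 2) (x1 := 3) (x2 := 4) (x3 := 0) (x4 := 1) (by decide) (by decide) (by decide) (by decide) (by decide) (by decide) (by decide) (by decide) (by decide) (by decide) t2 t3 t4 t0 t1 (by rw [a_symm T]; exact h23) h24 (by rw [a_symm T]; exact h02) h01 (by rw [a_symm T]; exact h12) h34 (by rw [a_symm T]; exact h03) (by rw [a_symm T]; exact h13) (by rw [a_symm T]; exact h04) (by rw [a_symm T]; exact h14) (by linear_combination r2) (by linear_combination r3) (by linear_combination r4) (by linear_combination r0) (by linear_combination r1)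
                      exact ⟨perm5 y0 y1 y2 y3 y4 hinj, m, w, hp⟩
                    · -- nonzero
                      exact absurd (chain3_types T (by norm_num) (by decide) (by decide) (by decide) t2 t3 t4 h23 h34).1 h24
              · -- nonzero
                by_cases h23 : T.a 2 3 = 0
                · -- zero
                  by_cases h24 : T.a 2 4 = 0
                  · -- zero
                    by_cases h34 : T.a 3 4 = 0
                    · -- zero
                      exact (iso_contra T 3 0 1 2 4 (by decide) (by rw [a_symm T]; exact h03) (by rw [a_symm T]; exact h13) (by rw [a_symm T]; exact h23) h34).elim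
                    · -- nonzero
                      obtain ⟨y0, y1, y2, y3, y4, m, w, hinj, hp⟩ := shape_p5 T (x0 := 2) (x1 := 0) (x2 := 1) (x3 := 4) (x4 := 3) (by decide) (by decide) (by decide) (by decide) (by decide) (by decide) (by decide) (by decide) (by decide) (by decide) t2 t0 t1 t4 t3 (by rw [a_symm T]; exact h02) h01 h14 (by rw [a_symm T]; exact h34) (by rw [a_symm T]; exact h12) h24 h23 h04 h03 h13 (by linear_combination r2) (by linear_combination r0) (by linear_combination r1) (by linear_combination r4) (by linear_combination r3)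
                      exact ⟨perm5 y0 y1 y2 y3 y4 hinj, m, w, hp⟩
                  · -- nonzero
                    exact (no_c4 T (x0 := 0) (x1 := 1) (x2 := 4) (x3 := 2) (by decide) (by decide) (by decide) (by decide) (by decide) (by decide) t0 t1 t4 t2 h01 h14 (by rw [a_symm T]; exact h24) (by rw [a_symm T]; exact h02)).elim
                · -- nonzero
                  by_cases h24 : T.a 2 4 = 0
                  · -- zero
                    by_cases h34 : T.a 3 4 = 0
                    · -- zero
                      obtain ⟨y0, y1, y2, y3, y4, m, w, hinj, hp⟩ := shape_p5 T (x0 := 3) (x1 := 2) (x2 := 0) (x3 := 1) (x4 := 4) (by decide) (by decide) (by decide) (by decide) (by decide) (by decide) (by decide) (by decide) (by decide) (by decide) t3 t2 t0 t1 t4 (by rw [a_symm T]; exact h23) (by rw [a_symm T]; exact h02) h01 h14 (by rw [a_symm T]; exact h03) (by rw [a_symm T]; exact h13) h34 (by rw [a_symm T]; exact h12) h24 h04 (by linear_combination r3) (by linear_combination r2) (by linear_combination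 r0) (by linear_combination r1) (by linear_combination r4)
                      exact ⟨perm5 y0 y1 y2 y3 y4 hinj, m, w, hp⟩
                    · -- nonzero
                      obtain ⟨y0, y1, y2, y3, y4, m, w, hinj, hp⟩ := shape_c5 T (x0 := 0) (x1 := 1) (x2 := 4) (x3 := 3) (x4 := 2) (by decide) (by decide) (by decide) (by decide) (by decide) (by decide) (by decide) (by decide) (by decide) (by decide) t0 t1 t4 t3 t2 h01 h14 (by rw [a_symm T]; exact h34) (by rw [a_symm T]; exact h23) (by rw [a_symm T]; exact h02) h04 h03 h13 h12 (by rw [a_symm T]; exact h24) (by linear_combination r0) (by linear_combination r1) (by linear_combination r4) (by linear_combination r3) (by linear_combination r2)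
                      exact ⟨perm5 y0 y1 y2 y3 y4 hinj, m, w, hp⟩
                  · -- nonzero
                    exact (no_c4 T (x0 := 0) (x1 := 1) (x2 := 4) (x3 := 2) (by decide) (by decide) (by decide) (by decide) (by decide) (by decide) t0 t1 t4 t2 h01 h14 (by rw [a_symm T]; exact h24) (by rw [a_symm T]; exact h02)).elim
            · -- nonzero
              by_cases h14 : T.a 1 4 = 0
              · -- zero
                by_cases h23 : T.a 2 3 = 0
                · -- zero
                  by_cases h24 : T.a 2 4 = 0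
                  · -- zero
                    by_cases h34 : T.a 3 4 = 0
                    · -- zero
                      exact (iso_contra T 4 0 1 2 3 (by decide) (by rw [a_symm T]; exact h04) (by rw [a_symm T]; exact h14) (by rw [a_symm T]; exact h24) (by rw [a_symm T]; exact h34)).elim
                    · -- nonzero
                      obtain ⟨y0, y1, y2, y3, y4, m, w, hinj, hp⟩ := shape_p5 T (x0 := 2) (x1 := 0) (x2 := 1) (x3 := 3) (x4 := 4) (by decide) (by decide) (by decide) (by decide) (by decide) (by decide) (by decide) (by decide) (by decide) (by decide) t2 t0 t1 t3 t4 (by rw [a_symm T]; exact h02) h01 h13 h34 (by rw [a_symm T]; exact h12) h23 h24 h03 h04 h14 (by linear_combination r2) (by linear_combination r0) (by linear_combination r1) (by linear_combination r3) (by linear_combination r4)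
                      exact ⟨perm5 y0 y1 y2 y3 y4 hinj, m, w, hp⟩
                  · -- nonzero
                    by_cases h34 : T.a 3 4 = 0
                    · -- zero
                      obtain ⟨y0, y1, y2, y3, y4, m, w, hinj, hp⟩ := shape_p5 T (x0 := 3) (x1 := 1) (x2 := 0) (x3 := 2) (x4 := 4) (by decide) (by decide) (by decide) (by decide) (by decide) (by decide) (by decide) (by decide) (by decide) (by decide) t3 t1 t0 t2 t4 (by rw [a_symm T]; exact h13) (by rw [a_symm T]; exact h01) h02 h24 (by rw [a_symm T]; exact h03) (by rw [a_symm T]; exact h23) h34 h12 h14 h04 (by linear_combination r3) (by linear_combination r1) (by linear_combination r0) (by linear_combination r2) (by linear_combination r4)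
                      exact ⟨perm5 y0 y1 y2 y3 y4 hinj, m, w, hp⟩
                    · -- nonzero
                      obtain ⟨y0, y1, y2, y3, y4, m, w, hinj, hp⟩ := shape_c5 T (x0 := 0) (x1 := 1) (x2 := 3) (x3 := 4) (x4 := 2) (by decide) (by decide) (by decide) (by decide) (by decide) (by decide) (by decide) (by decide) (by decide) (by decide) t0 t1 t3 t4 t2 h01 h13 h34 (by rw [a_symm T]; exact h24) (by rw [a_symm T]; exact h02) h03 h04 h14 h12 (by rw [a_symm T]; exact h23) (by linear_combination r0) (by linear_combination r1) (by linear_combination r3) (by linear_combination r4) (by linear_combination r2)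
                      exact ⟨perm5 y0 y1 y2 y3 y4 hinj, m, w, hp⟩
                · -- nonzero
                  exact (no_c4 T (x0 := 0) (x1 := 1) (x2 := 3) (x3 := 2) (by decide) (by decide) (by decide) (by decide) (by decide) (by decide) t0 t1 t3 t2 h01 h13 (by rw [a_symm T]; exact h23) (by rw [a_symm T]; exact h02)).elim
              · -- nonzero
                by_cases h23 : T.a 2 3 = 0
                · -- zero
                  by_cases h24 : T.a 2 4 = 0
                  · -- zero
                    by_cases h34 : T.a 3 4 = 0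
                    · -- zero
                      obtain ⟨y0, y1, y2, y3, y4, m, w, hinj, hp⟩ := shape_fork T (x0 := 1) (x1 := 3) (x2 := 4) (x3 := 0) (x4 := 2) (by decide) (by decide) (by decide) (by decide) (by decide) (by decide) (by decide) (by decide) (by decide) (by decide) t1 t3 t4 t0 t2 (by rw [a_symm T]; exact h13) h14 (by rw [a_symm T]; exact h01) h02 h12 h34 (by rw [a_symm T]; exact h03) (by rw [a_symm T]; exact h23) (by rw [a_symm T]; exact h04) (by rw [a_symm T]; exact h24) (by linear_combination r1) (by linear_combination r3) (by linear_combination r4) (by linear_combination r0) (by linear_combination r2)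
                      exact ⟨perm5 y0 y1 y2 y3 y4 hinj, m, w, hp⟩
                    · -- nonzero
                      exact absurd (chain3_types T (by norm_num) (by decide) (by decide) (by decide) t1 t3 t4 h13 h34).1 h14
                  · -- nonzero
                    exact (no_c4 T (x0 := 0) (x1 := 1) (x2 := 4) (x3 := 2) (by decide) (by decide) (by decide) (by decide) (by decide) (by decide) t0 t1 t4 t2 h01 h14 (by rw [a_symm T]; exact h24) (by rw [a_symm T]; exact h02)).elim
                · -- nonzero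
                  exact (no_c4 T (x0 := 0) (x1 := 1) (x2 := 3) (x3 := 2) (by decide) (by decide) (by decide) (by decide) (by decide) (by decide) t0 t1 t3 t2 h01 h13 (by rw [a_symm T]; exact h23) (by rw [a_symm T]; exact h02)).elim
          · -- nonzero
            exact absurd (chain3_types T (by norm_num) (by decide) (by decide) (by decide) t0 t1 t2 h01 h12).1 h02
        · -- nonzero
          by_cases h12 : T.a 1 2 = 0
          · -- zero
            by_cases h13 : T.a 1 3 = 0
            · -- zero
              by_cases h14 : T.a 1 4 = 0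
              · -- zero
                by_cases h23 : T.a 2 3 = 0
                · -- zero
                  by_cases h24 : T.a 2 4 = 0
                  · -- zero
                    by_cases h34 : T.a 3 4 = 0
                    · -- zero
                      exact (iso_contra T 3 0 1 2 4 (by decide) (by rw [a_symm T]; exact h03) (by rw [a_symm T]; exact h13) (by rw [a_symm T]; exact h23) h34).elim
                    · -- nonzero
                      obtain ⟨y0, y1, y2, y3, y4, m, w, hinj, hp⟩ := shape_fork T (x0 := 0) (x1 := 1) (x2 := 2) (x3 := 4) (x4 := 3) (by decide) (by decide) (by decide) (by decide) (by decide) (by decide) (by decide) (by decide) (by decide) (by decide) t0 t1 t2 t4 t3 (by rw [a_symm T]; exact h01) h02 h04 (by rw [a_symm T]; exact h34) h03 h12 h14 h13 h24 h23 (by linear_combination r0) (by linear_combination r1) (by linear_combination r2) (by linear_combination r4) (by linear_combination r3)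
                      exact ⟨perm5 y0 y1 y2 y3 y4 hinj, m, w, hp⟩
                  · -- nonzero
                    exact absurd (chain3_types T (by norm_num) (by decide) (by decide) (by decide) t0 t2 t4 h02 h24).1 h04
                · -- nonzero
                  by_cases h24 : T.a 2 4 = 0
                  · -- zero
                    by_cases h34 : T.a 3 4 = 0
                    · -- zero
                      obtain ⟨y0, y1, y2, y3, y4, m, w, hinj, hp⟩ := shape_fork T (x0 := 0) (x1 := 1) (x2 := 4) (x3 := 2) (x4 := 3) (by decide) (by decide) (by decide) (by decide) (by decide) (by decide) (by decide) (by decide) (by decide) (by decide) t0 t1 t4 t2 t3 (by rw [a_symm T]; exact h01) h04 h02 h23 h03 h14 h12 h13 (by rw [a_symm T]; exact h24) (by rw [a_symm T]; exact h34) (by linear_combination r0) (by linear_combination r1) (by linear_combination r4) (by linear_combination r2) (by linear_combination r3)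
                      exact ⟨perm5 y0 y1 y2 y3 y4 hinj, m, w, hp⟩
                    · -- nonzero
                      exact (no_c4 T (x0 := 0) (x1 := 2) (x2 := 3) (x3 := 4) (by decide) (by decide) (by decide) (by decide) (by decide) (by decide) t0 t2 t3 t4 h02 h23 h34 (by rw [a_symm T]; exact h04)).elim
                  · -- nonzero
                    exact absurd (chain3_types T (by norm_num) (by decide) (by decide) (by decide) t0 t2 t4 h02 h24).1 h04
              · -- nonzero
                exact absurd (chain3_types T (by norm_num) (by decide) (by decide) (by decide) t0 t1 t4 h01 h14).1 h04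
            · -- nonzero
              by_cases h14 : T.a 1 4 = 0
              · -- zero
                by_cases h23 : T.a 2 3 = 0
                · -- zero
                  by_cases h24 : T.a 2 4 = 0
                  · -- zero
                    by_cases h34 : T.a 3 4 = 0
                    · -- zero
                      obtain ⟨y0, y1, y2, y3, y4, m, w, hinj, hp⟩ := shape_fork T (x0 := 0) (x1 := 2) (x2 := 4) (x3 := 1) (x4 := 3) (by decide) (by decide) (by decide) (by decide) (by decide) (by decide) (by decide) (by decide) (by decide) (by decide) t0 t2 t4 t1 t3 (by rw [a_symm T]; exact h02) h04 h01 h13 h03 h24 (by rw [a_symm T]; exact h12) h23 (by rw [a_symm T]; exact h14) (by rw [a_symm T]; exact h34) (by linear_combination r0) (by linear_combination r2) (by linear_combination r4) (by linear_combination r1) (by linear_combination r3)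
                      exact ⟨perm5 y0 y1 y2 y3 y4 hinj, m, w, hp⟩
                    · -- nonzero
                      exact (no_c4 T (x0 := 0) (x1 := 1) (x2 := 3) (x3 := 4) (by decide) (by decide) (by decide) (by decide) (by decide) (by decide) t0 t1 t3 t4 h01 h13 h34 (by rw [a_symm T]; exact h04)).elim
                  · -- nonzero
                    exact absurd (chain3_types T (by norm_num) (by decide) (by decide) (by decide) t0 t2 t4 h02 h24).1 h04
                · -- nonzero
                  exact (no_c4 T (x0 := 0) (x1 := 1) (x2 := 3) (x3 := 2) (by decide) (by decide) (by decide) (by decide) (by decide) (by decide) t0 t1 t3 t2 h01 h13 (by rw [a_symm T]; exact h23) (by rw [a_symm T]; exact h02)).elim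
              · -- nonzero
                exact absurd (chain3_types T (by norm_num) (by decide) (by decide) (by decide) t0 t1 t4 h01 h14).1 h04
          · -- nonzero
            exact absurd (chain3_types T (by norm_num) (by decide) (by decide) (by decide) t0 t1 t2 h01 h12).1 h02
      · -- nonzero
        by_cases h04 : T.a 0 4 = 0
        · -- zero
          by_cases h12 : T.a 1 2 = 0
          · -- zero
            by_cases h13 : T.a 1 3 = 0
            · -- zero
              by_cases h14 : T.a 1 4 = 0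
              · -- zero
                by_cases h23 : T.a 2 3 = 0
                · -- zero
                  by_cases h24 : T.a 2 4 = 0
                  · -- zero
                    by_cases h34 : T.a 3 4 = 0
                    · -- zero
                      exact (iso_contra T 4 0 1 2 3 (by decide) (by rw [a_symm T]; exact h04) (by rw [a_symm T]; exact h14) (by rw [a_symm T]; exact h24) (by rw [a_symm T]; exact h34)).elim
                    · -- nonzero
                      obtain ⟨y0, y1, y2, y3, y4, m, w, hinj, hp⟩ := shape_fork T (x0 := 0) (x1 := 1) (x2 := 2) (x3 := 3) (x4 := 4) (by decide) (by decide) (by decide) (by decide) (by decide) (by decide) (by decide) (by decide) (by decide) (by decide) t0 t1 t2 t3 t4 (by rw [a_symm T]; exact h01) h02 h03 h34 h04 h12 h13 h14 h23 h24 (by linear_combination r0) (by linear_combination r1) (by linear_combination r2) (by linear_combination r3) (by linear_combination r4)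
                      exact ⟨perm5 y0 y1 y2 y3 y4 hinj, m, w, hp⟩
                  · -- nonzero
                    by_cases h34 : T.a 3 4 = 0
                    · -- zero
                      obtain ⟨y0, y1, y2, y3, y4, m, w, hinj, hp⟩ := shape_fork T (x0 := 0) (x1 := 1) (x2 := 3) (x3 := 2) (x4 := 4) (by decide) (by decide) (by decide) (by decide) (by decide) (by decide) (by decide) (by decide) (by decide) (by decide) t0 t1 t3 t2 t4 (by rw [a_symm T]; exact h01) h03 h02 h24 h04 h13 h12 h14 (by rw [a_symm T]; exact h23) h34 (by linear_combination r0) (by linear_combination r1) (by linear_combination r3) (by linear_combination r2) (by linear_combination r4)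
                      exact ⟨perm5 y0 y1 y2 y3 y4 hinj, m, w, hp⟩
                    · -- nonzero
                      exact (no_c4 T (x0 := 0) (x1 := 2) (x2 := 4) (x3 := 3) (by decide) (by decide) (by decide) (by decide) (by decide) (by decide) t0 t2 t4 t3 h02 h24 (by rw [a_symm T]; exact h34) (by rw [a_symm T]; exact h03)).elim
                · -- nonzero
                  exact absurd (chain3_types T (by norm_num) (by decide) (by decide) (by decide) t0 t2 t3 h02 h23).1 h03
              · -- nonzero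
                by_cases h23 : T.a 2 3 = 0
                · -- zero
                  by_cases h24 : T.a 2 4 = 0
                  · -- zero
                    by_cases h34 : T.a 3 4 = 0
                    · -- zero
                      obtain ⟨y0, y1, y2, y3, y4, m, w, hinj, hp⟩ := shape_fork T (x0 := 0) (x1 := 2) (x2 := 3) (x3 := 1) (x4 := 4) (by decide) (by decide) (by decide) (by decide) (by decide) (by decide) (by decide) (by decide) (by decide) (by decide) t0 t2 t3 t1 t4 (by rw [a_symm T]; exact h02) h03 h01 h14 h04 h23 (by rw [a_symm T]; exact h12) h24 (by rw [a_symm T]; exact h13) h34 (by linear_combination r0) (by linear_combination r2) (by linear_combination r3) (by linear_combination r1) (by linear_combination r4)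
                      exact ⟨perm5 y0 y1 y2 y3 y4 hinj, m, w, hp⟩
                    · -- nonzero
                      exact (no_c4 T (x0 := 0) (x1 := 1) (x2 := 4) (x3 := 3) (by decide) (by decide) (by decide) (by decide) (by decide) (by decide) t0 t1 t4 t3 h01 h14 (by rw [a_symm T]; exact h34) (by rw [a_symm T]; exact h03)).elim
                  · -- nonzero
                    exact (no_c4 T (x0 := 0) (x1 := 1) (x2 := 4) (x3 := 2) (by decide) (by decide) (by decide) (by decide) (by decide) (by decide) t0 t1 t4 t2 h01 h14 (by rw [a_symm T]; exact h24) (by rw [a_symm T]; exact h02)).elim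
                · -- nonzero
                  exact absurd (chain3_types T (by norm_num) (by decide) (by decide) (by decide) t0 t2 t3 h02 h23).1 h03
            · -- nonzero
              exact absurd (chain3_types T (by norm_num) (by decide) (by decide) (by decide) t0 t1 t3 h01 h13).1 h03
          · -- nonzero
            exact absurd (chain3_types T (by norm_num) (by decide) (by decide) (by decide) t0 t1 t2 h01 h12).1 h02
        · -- nonzero
          by_cases h12 : T.a 1 2 = 0
          · -- zero
            by_cases h13 : T.a 1 3 = 0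
            · -- zero
              by_cases h14 : T.a 1 4 = 0
              · -- zero
                by_cases h23 : T.a 2 3 = 0
                · -- zero
                  by_cases h24 : T.a 2 4 = 0
                  · -- zero
                    by_cases h34 : T.a 3 4 = 0
                    · -- zero
                      obtain ⟨y0, y1, y2, y3, y4, m, w, hinj, hp⟩ := shape_star T (x0 := 0) (x1 := 1) (x2 := 2) (x3 := 3) (x4 := 4) (by decide) (by decide) (by decide) (by decide) (by decide) (by decide) (by decide) (by decide) (by decide) (by decide) t0 t1 t2 t3 t4 (by rw [a_symm T]; exact h01) h02 (by rw [a_symm T]; exact h03) h04 h12 h13 h14 h23 h24 h34 (by linear_combination r0) (by linear_combination r1) (by linear_combination r2) (by linear_combination r3) (by linear_combination r4)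
                      exact ⟨perm5 y0 y1 y2 y3 y4 hinj, m, w, hp⟩
                    · -- nonzero
                      exact absurd (chain3_types T (by norm_num) (by decide) (by decide) (by decide) t0 t3 t4 h03 h34).1 h04
                  · -- nonzero
                    exact absurd (chain3_types T (by norm_num) (by decide) (by decide) (by decide) t0 t2 t4 h02 h24).1 h04
                · -- nonzero
                  exact absurd (chain3_types T (by norm_num) (by decide) (by decide) (by decide) t0 t2 t3 h02 h23).1 h03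
              · -- nonzero
                exact absurd (chain3_types T (by norm_num) (by decide) (by decide) (by decide) t0 t1 t4 h01 h14).1 h04
            · -- nonzero
              exact absurd (chain3_types T (by norm_num) (by decide) (by decide) (by decide) t0 t1 t3 h01 h13).1 h03
          · -- nonzero
            exact absurd (chain3_types T (by norm_num) (by decide) (by decide) (by decide) t0 t1 t2 h01 h12).1 h02

end Groth.Agent.S7365
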