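import Groth.Statements.S7397
-- import your own Groth.Agent.* helpers here
import Mathlib.Tactic.Ring

set_option autoImplicit false
universe u
open Mor

namespace Groth.Agent.S7397

/-- Let `A ⊆ B` be a ring extension and `b ∈ B`, `b ∉ A`, with `b^n, b^(n+1) ∈ A` for some `n ≥ 2`. Then
some `b' ∈ B` with `b' ∉ A` has `b'^2 ∈ A` and `b'^3 ∈ A`. -/
theorem result {B : Type u} [CommRing B] (A : Subring B) (b : B) (hb : b ∉ A)
    (n : ℕ) (hn : 2 ≤ n) (h1 : b ^ n ∈ A) (h2 : b ^ (n + 1) ∈ A) :
    ∃ b' : B, b' ∉ A ∧ b' ^ 2 ∈ A ∧ b' ^ 3 ∈ A := by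
  classical
  have hex : ∃ k : ℕ, ∀ m, k ≤ m → b ^ m ∈ A := by
    refine ⟨n * n, fun m hm => ?_⟩
    have hn0 : 0 < n := by omega
    set q := m / n
    set r := m % n
    have hr : r < n := Nat.mod_lt _ hn0
    have hqr : m = n * q + r := (Nat.div_add_mod m n).symm
    have hq : n ≤ q := by
      by_contra hlt
      rw [not_le] at hlt
      have : n * q + r < n * n := by
        calc n * q + r < n * q + n := by omega
          _ = n * (q + 1) := by ring
          _ ≤ n * n := Nat.mul_le_mul_left _ (by omega)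
      omega
    have hsplit : m = n * (q - r) + (n + 1) * r := by
      rw [hqr, Nat.mul_sub, add_mul, one_mul]
      have : n * r ≤ n * q := Nat.mul_le_mul_left _ (by omega)
      omega
    rw [hsplit, pow_add, pow_mul, pow_mul]
    exact A.mul_mem (A.pow_mem h1 _) (A.pow_mem h2 _)
  let k := Nat.find hex
  have hk : ∀ m, k ≤ m → b ^ m ∈ A := Nat.find_spec hex
  have hk2 : 2 ≤ k := by
    by_contra hlt
    rw [not_le] at hlt
    have : b ^ 1 ∈ A := hk 1 (by omega)
    rw [pow_one] at this
    exact hb this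
  have hmin : ¬ ∀ m, k - 1 ≤ m → b ^ m ∈ A := Nat.find_min hex (by omega)
  have hnot : b ^ (k - 1) ∉ A := by
    intro hmem
    apply hmin
    intro m hm
    rcases Nat.eq_or_lt_of_le hm with h | h
    · rw [← h]; exact hmem
    · exact hk m (by omega)
  refine ⟨b ^ (k - 1), hnot, ?_, ?_⟩
  · rw [← pow_mul]; exact hk _ (by omega)
  · rw [← pow_mul]; exact hk _ (by omega)

end Groth.Agent.S7397
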