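import Groth.Statements.S7529
-- import your own Groth.Agent.* helpers here

set_option autoImplicit false
universe u
open SpecSp

namespace Groth.Agent.S7529

open Topology TopologicalSpace in
theorem quasiSober_prod (X Y : Type u) [TopologicalSpace X] [TopologicalSpace Y]
    [QuasiSober X] [QuasiSober Y] : QuasiSober (X × Y) where
  sober {S} hS hSc := by
    have h1 : IsIrreducible (Prod.fst '' S) := hS.image _ continuous_fst.continuousOn
    have h2 : IsIrreducible (Prod.snd '' S) := hS.image _ continuous_snd.continuousOn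
    obtain ⟨x, hx⟩ := QuasiSober.sober h1.closure isClosed_closure
    obtain ⟨y, hy⟩ := QuasiSober.sober h2.closure isClosed_closure
    refine ⟨(x, y), ?_⟩
    change closure {(x, y)} = S
    rw [← Set.singleton_prod_singleton, closure_prod_eq, hx.def, hy.def]
    apply le_antisymm
    · intro p hp
      by_contra hpS
      obtain ⟨U, V, hU, hV, hpU, hpV, hUV⟩ := isOpen_prod_iff.mp hSc.isOpen_compl p.1 p.2 hpS
      obtain ⟨_, hs1U, ⟨s1, hs1, rfl⟩⟩ := mem_closure_iff.mp hp.1 U hU hpU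
      obtain ⟨_, hs2V, ⟨s2, hs2, rfl⟩⟩ := mem_closure_iff.mp hp.2 V hV hpV
      obtain ⟨s, hsS, hsU, hsV⟩ := hS.2 (U ×ˢ Set.univ) (Set.univ ×ˢ V)
        (hU.prod isOpen_univ) (isOpen_univ.prod hV)
        ⟨s1, hs1, hs1U, trivial⟩ ⟨s2, hs2, trivial, hs2V⟩
      exact hUV ⟨hsU.1, hsV.2⟩ hsS
    · intro p hp
      exact ⟨subset_closure ⟨p, hp, rfl⟩, subset_closure ⟨p, hp, rfl⟩⟩

/-- The product X × Y of two spectral spaces X and Y is a spectral space. -/
theorem result (X Y : Type u) [TopologicalSpace X] [TopologicalSpace Y]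
    [SpectralSpace X] [SpectralSpace Y] : SpectralSpace (X × Y) := by
  have hbX := (PrespectralSpace.isTopologicalBasis (X := X))
  have hbY := (PrespectralSpace.isTopologicalBasis (X := Y))
  have hb := hbX.prod hbY
  let ι := {p : Set X × Set Y // (IsOpen p.1 ∧ IsCompact p.1) ∧ (IsOpen p.2 ∧ IsCompact p.2)}
  let b : ι → Set (X × Y) := fun i => i.1.1 ×ˢ i.1.2
  have hrange : Set.range b = Set.image2 (· ×ˢ ·) {U : Set X | IsOpen U ∧ IsCompact U}
      {V : Set Y | IsOpen V ∧ IsCompact V} := by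
    ext W
    constructor
    · rintro ⟨⟨⟨U, V⟩, hU, hV⟩, rfl⟩
      exact ⟨U, hU, V, hV, rfl⟩
    · rintro ⟨U, hU, V, hV, rfl⟩
      exact ⟨⟨⟨U, V⟩, hU, hV⟩, rfl⟩
  have hb' : TopologicalSpace.IsTopologicalBasis (Set.range b) := hrange ▸ hb
  have : PrespectralSpace (X × Y) :=
    PrespectralSpace.of_isTopologicalBasis' hb' (fun i => i.2.1.2.prod i.2.2.2)
  have : QuasiSeparatedSpace (X × Y) := by
    apply QuasiSeparatedSpace.of_isTopologicalBasis hb'
    intro i j
    change IsCompact ((i.1.1 ×ˢ i.1.2) ∩ (j.1.1 ×ˢ j.1.2))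
    rw [Set.prod_inter_prod]
    exact (QuasiSeparatedSpace.inter_isCompact _ _ i.2.1.1 i.2.1.2 j.2.1.1 j.2.1.2).prod
      (QuasiSeparatedSpace.inter_isCompact _ _ i.2.2.1 i.2.2.2 j.2.2.1 j.2.2.2)
  have : QuasiSober (X × Y) := quasiSober_prod X Y
  exact {}

end Groth.Agent.S7529
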