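import Groth.Statements.S7546
import Groth.Agent.Lib.Helper22.TopDim
-- import your own Groth.Agent.* helpers here

set_option autoImplicit false
universe u
open ConstrTop

namespace Groth.Agent.S7546

/-- Let X be a topological space, Z ⊆ X irreducible and E ⊆ X a finite union of locally closed subsets
(for instance a constructible set). Then E ∩ Z is dense in Z if and only if E ∩ Z contains a subset
of the form U ∩ Z, U open in X, which is dense in Z. If moreover ξ ∈ Z is a generic point of Z,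
these conditions are equivalent to ξ ∈ E. -/
theorem result {X : Type u} [TopologicalSpace X] (Z : Set X) (hZ : IsIrreducible Z)
    {n : ℕ} (L : Fin n → Set X) (hL : ∀ i, IsLocallyClosed (L i)) (E : Set X) (hE : E = ⋃ i, L i) :
    (Z ⊆ closure (E ∩ Z) ↔ ∃ U : Set X, IsOpen U ∧ U ∩ Z ⊆ E ∧ Z ⊆ closure (U ∩ Z)) ∧
    (∀ ξ : X, ξ ∈ Z → Z ⊆ closure {ξ} → (Z ⊆ closure (E ∩ Z) ↔ ξ ∈ E)) := by
  classical
  have part1 : Z ⊆ closure (E ∩ Z) ↔
      ∃ U : Set X, IsOpen U ∧ U ∩ Z ⊆ E ∧ Z ⊆ closure (U ∩ Z) := by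
    constructor
    · intro h
      have h' : Z ⊆ ⋃ i ∈ (Finset.univ : Finset (Fin n)), closure (L i ∩ Z) := by
        intro z hz
        have := h hz
        rw [hE, Set.iUnion_inter, closure_iUnion_of_finite] at this
        obtain ⟨i, hi⟩ := Set.mem_iUnion.mp this
        exact Set.mem_iUnion₂.mpr ⟨i, Finset.mem_univ i, hi⟩
      obtain ⟨i, -, hi⟩ := Groth.Agent.Lib.Helper22.TopDim.exists_subset_of_finset
        (fun i => closure (L i ∩ Z)) (fun _ => isClosed_closure) Finset.univ Z hZ h'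
      obtain ⟨U, C, hU, hC, hUC⟩ := hL i
      have hZC : Z ⊆ C := by
        refine hi.trans (closure_minimal ?_ hC)
        rw [hUC]
        exact fun w hw => hw.1.2
      have hUZ : U ∩ Z = L i ∩ Z := by
        rw [hUC]
        ext w
        constructor
        · rintro ⟨hwU, hwZ⟩; exact ⟨⟨hwU, hZC hwZ⟩, hwZ⟩
        · rintro ⟨⟨hwU, -⟩, hwZ⟩; exact ⟨hwU, hwZ⟩
      refine ⟨U, hU, ?_, ?_⟩
      · rw [hUZ, hE]
        rintro w ⟨hw, -⟩
        exact Set.mem_iUnion.mpr ⟨i, hw⟩
      · rw [hUZ]; exact hi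
    · rintro ⟨U, -, hUE, hZU⟩
      refine hZU.trans (closure_mono ?_)
      intro w hw
      exact ⟨hUE hw, hw.2⟩
  refine ⟨part1, fun ξ hξZ hZξ => ⟨fun h => ?_, fun h => ?_⟩⟩
  · obtain ⟨U, hU, hUE, hZU⟩ := part1.mp h
    obtain ⟨z, hz⟩ := hZ.nonempty
    have hzU : (U ∩ Z).Nonempty := by
      by_contra hne
      rw [Set.not_nonempty_iff_eq_empty] at hne
      have := hZU hz
      rw [hne, closure_empty] at this
      exact this
    obtain ⟨w, hwU, hwZ⟩ := hzU
    have hξw : ξ ⤳ w := specializes_iff_mem_closure.mpr (hZξ hwZ)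
    exact hUE ⟨hξw.mem_open hU hwU, hξZ⟩
  · refine hZξ.trans (closure_mono ?_)
    rintro _ rfl
    exact ⟨h, hξZ⟩

end Groth.Agent.S7546
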