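import Groth.Statements.S7547
-- import your own Groth.Agent.* helpers here

set_option autoImplicit false
universe u
open PtTop

namespace Groth.Agent.S7547

/-- Let X be a Kolmogorov topological space whose quasi-compact opens form a basis for the topology. If
X is not Jacobson, there is a point x ∈ X which is not closed but such that {x} is locally closed. -/
theorem result {X : Type u} [TopologicalSpace X]
    [T0Space X] [PrespectralSpace X] (hX : ¬ JacobsonSpace X) :
    ∃ x : X, ¬ IsClosed ({x} : Set X) ∧ IsLocallyClosed ({x} : Set X) := by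
  rw [jacobsonSpace_iff_locallyClosed] at hX
  push Not at hX
  obtain ⟨Z, ⟨z, hz⟩, ⟨U, C, hU, hC, rfl⟩, hno⟩ := hX
  obtain ⟨V, ⟨hVo, hVc⟩, hzV, hVU⟩ :=
    (PrespectralSpace.isTopologicalBasis (X := X)).exists_subset_of_mem_open hz.1 hU
  -- the compact subspace V ∩ C
  have hKc : IsCompact (V ∩ C) := hVc.inter_right hC
  have : CompactSpace ↥(V ∩ C) := isCompact_iff_compactSpace.mp hKc
  obtain ⟨⟨x, hxV, hxC⟩, -, hxcl⟩ :=
    IsClosed.exists_closed_singleton (S := (Set.univ : Set ↥(V ∩ C))) isClosed_univ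
      ⟨⟨z, hzV, hz.2⟩, trivial⟩
  obtain ⟨D, hD, hDx⟩ := isClosed_induced_iff.mp hxcl
  have hsing : ({x} : Set X) = V ∩ (C ∩ D) := by
    ext w; constructor
    · intro hw
      rw [Set.mem_singleton_iff.mp hw]
      have : (⟨x, hxV, hxC⟩ : ↥(V ∩ C)) ∈ (Subtype.val ⁻¹' D : Set ↥(V ∩ C)) := by
        rw [hDx]; rfl
      exact ⟨hxV, hxC, this⟩
    · rintro ⟨hwV, hwC, hwD⟩
      have hmem : (⟨w, hwV, hwC⟩ : ↥(V ∩ C)) ∈ (Subtype.val ⁻¹' D : Set ↥(V ∩ C)) := hwD
      rw [hDx] at hmem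
      exact congrArg Subtype.val hmem
  refine ⟨x, ?_, ?_⟩
  · intro hxc
    have : x ∈ (U ∩ C) ∩ closedPoints X := ⟨⟨hVU hxV, hxC⟩, hxc⟩
    exact (Set.eq_empty_iff_forall_notMem.mp hno) x this
  · rw [hsing]
    exact hVo.isLocallyClosed.inter (hC.inter hD).isLocallyClosed

end Groth.Agent.S7547
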