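import Groth.Statements.S7548
-- import your own Groth.Agent.* helpers here

set_option autoImplicit false
universe u
open PtTop

namespace Groth.Agent.S7548

/-- Let X be a Jacobson space and let T = ⋃ T_i be a union of subsets T_i ⊆ X each locally closed in X
(open, closed, locally closed and constructible subsets are of this form). Then T is Jacobson and
every point of T closed in T is closed in X. -/
theorem result {X : Type u} [TopologicalSpace X] [JacobsonSpace X]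
    {ι : Type u} (T : ι → Set X) (hT : ∀ i, IsLocallyClosed (T i)) :
    JacobsonSpace ↥(⋃ i, T i) ∧
      closedPoints ↥(⋃ i, T i) ⊆ (Subtype.val : ↥(⋃ i, T i) → X) ⁻¹' closedPoints X := by
  have key : ∀ (z : X) (i : ι), z ∈ T i → ∀ U C : Set X, IsOpen U → IsClosed C → z ∈ U → z ∈ C →
      ∃ w ∈ T i, w ∈ U ∧ w ∈ C ∧ IsClosed ({w} : Set X) := by
    intro z i hz U C hU hC hzU hzC
    have hS : IsLocallyClosed (T i ∩ (U ∩ C)) :=
      (hT i).inter (hU.isLocallyClosed.inter hC.isLocallyClosed)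
    obtain ⟨w, ⟨hwT, hwU, hwC⟩, hw⟩ := nonempty_inter_closedPoints (Z := T i ∩ (U ∩ C)) ⟨z, hz, hzU, hzC⟩ hS
    exact ⟨w, hwT, hwU, hwC, hw⟩
  constructor
  · rw [jacobsonSpace_iff_locallyClosed]
    rintro Z ⟨z, hz⟩ ⟨U', C', hU', hC', rfl⟩
    obtain ⟨U, hU, rfl⟩ := isOpen_induced_iff.mp hU'
    obtain ⟨C, hC, rfl⟩ := isClosed_induced_iff.mp hC'
    obtain ⟨i, hi⟩ := Set.mem_iUnion.mp z.2
    obtain ⟨w, hwT, hwU, hwC, hw⟩ := key z.1 i hi U C hU hC hz.1 hz.2
    refine ⟨⟨w, Set.mem_iUnion.mpr ⟨i, hwT⟩⟩, ⟨hwU, hwC⟩, ?_⟩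
    have hset : ({⟨w, Set.mem_iUnion.mpr ⟨i, hwT⟩⟩} : Set ↥(⋃ i, T i)) =
        Subtype.val ⁻¹' {w} := by
      ext v; simp [Subtype.ext_iff]
    show IsClosed ({⟨w, Set.mem_iUnion.mpr ⟨i, hwT⟩⟩} : Set ↥(⋃ i, T i))
    rw [hset]; exact hw.preimage continuous_subtype_val
  · intro t ht
    obtain ⟨C, hC, hCt⟩ := isClosed_induced_iff.mp ht
    obtain ⟨i, hi⟩ := Set.mem_iUnion.mp t.2
    show IsClosed ({t.1} : Set X)
    apply isClosed_singleton_of_isLocallyClosed_singleton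
    have hset : ({t.1} : Set X) = T i ∩ C := by
      ext w; constructor
      · rintro rfl
        refine ⟨hi, ?_⟩
        have : t ∈ (Subtype.val ⁻¹' C : Set ↥(⋃ i, T i)) := by rw [hCt]; rfl
        exact this
      · rintro ⟨hwT, hwC⟩
        have hmem : (⟨w, Set.mem_iUnion.mpr ⟨i, hwT⟩⟩ : ↥(⋃ i, T i)) ∈
            (Subtype.val ⁻¹' C : Set ↥(⋃ i, T i)) := hwC
        rw [hCt] at hmem
        exact congrArg Subtype.val hmem
    rw [hset]; exact (hT i).inter hC.isLocallyClosed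

end Groth.Agent.S7548
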