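import Groth.Statements.S7550
-- import your own Groth.Agent.* helpers here

set_option autoImplicit false
universe u
open PtTop

namespace Groth.Agent.S7550

/-- Let f : X → Y be a continuous and open map of topological spaces, with X Noetherian, every
irreducible closed subset of X having a generic point, and Y Kolmogorov. Then generalizations lift
along f. (Part (1), closed maps are specializing, is a library fact.) -/
theorem result {X Y : Type u} [TopologicalSpace X] [TopologicalSpace Y]
    [TopologicalSpace.NoetherianSpace X] [QuasiSober X] [T0Space Y]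
    (f : X → Y) (hf : Continuous f) (hfo : IsOpenMap f) :
    GeneralizingMap f := by
  intro x y hy
  let S : Set X := f ⁻¹' {y}
  have hxS : x ∈ closure S := by
    rw [mem_closure_iff]
    intro U hU hxU
    have h1 : f x ∈ f '' U := ⟨x, hxU, rfl⟩
    have h2 : y ∈ f '' U := (specializes_iff_forall_open.mp hy) _ (hfo U hU) h1
    obtain ⟨z, hzU, hz⟩ := h2
    exact ⟨z, hzU, hz⟩
  have hfin := TopologicalSpace.NoetherianSpace.finite_irreducibleComponents (α := S)
  have hcovS : S = ⋃ C ∈ irreducibleComponents S, (Subtype.val '' C) := by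
    ext z; constructor
    · intro hz
      have : (⟨z, hz⟩ : S) ∈ ⋃₀ irreducibleComponents S := by
        rw [sUnion_irreducibleComponents]; trivial
      obtain ⟨C, hC, hzC⟩ := Set.mem_sUnion.mp this
      exact Set.mem_biUnion hC ⟨⟨z, hz⟩, hzC, rfl⟩
    · intro hz
      obtain ⟨C, hC, ⟨w, hwC, rfl⟩⟩ := Set.mem_iUnion₂.mp hz
      exact w.2
  have hxS' := hxS
  rw [hcovS, hfin.closure_biUnion] at hxS'
  obtain ⟨C, hC, hxC⟩ := Set.mem_iUnion₂.mp hxS'
  have hirr : IsIrreducible (closure (Subtype.val '' C)) :=
    (hC.1.image _ continuous_subtype_val.continuousOn).closure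
  obtain ⟨ξ, hξ⟩ := QuasiSober.sober hirr isClosed_closure
  refine ⟨ξ, hξ.specializes hxC, ?_⟩
  obtain ⟨⟨s, hs⟩, hsC⟩ := hC.1.nonempty
  have h1 : ξ ⤳ s := hξ.specializes (subset_closure ⟨⟨s, hs⟩, hsC, rfl⟩)
  have h2 : f ξ ⤳ y := by
    have := h1.map hf
    rwa [show f s = y from hs] at this
  have h3 : y ⤳ f ξ := by
    have hξS : ξ ∈ closure S := by
      refine closure_mono ?_ hξ.mem
      rintro _ ⟨w, -, rfl⟩
      exact w.2
    have h4 : f ξ ∈ closure (f '' S) := image_closure_subset_closure_image hf ⟨ξ, hξS, rfl⟩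
    have h5 : closure (f '' S) ⊆ closure {y} := closure_mono (Set.image_preimage_subset f {y})
    exact specializes_iff_mem_closure.mpr (h5 h4)
  exact (h2.antisymm h3).eq

end Groth.Agent.S7550
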