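import Groth.Statements.S7552
import Groth.Agent.Lib.Helper22.TopDim
-- import your own Groth.Agent.* helpers here

set_option autoImplicit false
universe u
open PtTop

namespace Groth.Agent.S7552

/-- Let f : X → Y be a continuous surjective map of topological spaces with Y sober, and assume that
specializations lift along f or that generalizations lift along f. Then dim X ≥ dim Y (Krull
dimensions as suprema of lengths of chains of irreducible closed subsets). -/
theorem result {X Y : Type u}
    [TopologicalSpace X] [TopologicalSpace Y] [QuasiSober Y] [T0Space Y]
    (f : X → Y) (hf : Continuous f) (hsurj : Function.Surjective f)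
    (hlift : SpecializingMap f ∨ GeneralizingMap f) :
    topologicalKrullDim Y ≤ topologicalKrullDim X := by
  exact Groth.Agent.Lib.Helper22.TopDim.dim_le_of_lifting f hf hsurj hlift

end Groth.Agent.S7552
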