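import Groth.Statements.S7554
-- import your own Groth.Agent.* helpers here

set_option autoImplicit false
universe u
open PtTop

namespace Groth.Agent.S7554

/-- Let X be a topological space with an open covering X = ⋃ U_i and let T ⊆ X. If T ∩ U_i is nowhere
dense in U_i (with the induced topology) for every i, then T is nowhere dense in X. -/
theorem result {X : Type u} [TopologicalSpace X] {ι : Type u}
    (U : ι → Set X) (hU : ∀ i, IsOpen (U i)) (hcov : ⋃ i, U i = Set.univ) (T : Set X)
    (hT : ∀ i, IsNowhereDense ((Subtype.val : U i → X) ⁻¹' T)) :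
    IsNowhereDense T := by
  rw [isNowhereDense_iff_forall_notMem_nhds]
  intro x hxT hnhds
  have hx : x ∈ ⋃ i, U i := hcov ▸ Set.mem_univ x
  obtain ⟨i, hi⟩ := Set.mem_iUnion.mp hx
  have h := (isNowhereDense_iff_forall_notMem_nhds.mp (hT i)) ⟨x, hi⟩ hxT
  apply h
  rw [Topology.IsInducing.subtypeVal.closure_eq_preimage_closure_image, Subtype.image_preimage_coe,
    Topology.IsInducing.subtypeVal.nhds_eq_comap]
  apply Filter.preimage_mem_comap
  have h1 : U i ∩ closure T ⊆ closure (U i ∩ T) := (hU i).inter_closure
  exact Filter.mem_of_superset (Filter.inter_mem ((hU i).mem_nhds hi) hnhds) h1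

end Groth.Agent.S7554
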