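import Groth.Statements.S7555
-- import your own Groth.Agent.* helpers here

set_option autoImplicit false
universe u
open PtTop

namespace Groth.Agent.S7555

/-- Let f : X → X be a surjective continuous self-map of a Hausdorff topological space with f ≠ id. Then
there is a closed subset E ⊊ X such that X = E ∪ f(E). -/
theorem result {X : Type u} [TopologicalSpace X] [T2Space X]
    (f : X → X) (hf : Continuous f) (hsurj : Function.Surjective f) (hne : f ≠ id) :
    ∃ E : Set X, IsClosed E ∧ E ≠ Set.univ ∧ E ∪ f '' E = Set.univ := by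
  obtain ⟨x, hx⟩ : ∃ x, f x ≠ x := by
    by_contra h
    push Not at h
    exact hne (funext h)
  obtain ⟨U, V, hUo, hVo, hxU, hfxV, hUV⟩ := t2_separation hx.symm
  let W := U ∩ f ⁻¹' V
  have hWo : IsOpen W := hUo.inter (hVo.preimage hf)
  refine ⟨Wᶜ, hWo.isClosed_compl, ?_, ?_⟩
  · intro h
    have : x ∈ Wᶜ := h ▸ Set.mem_univ x
    exact this ⟨hxU, hfxV⟩
  · apply Set.eq_univ_of_forall
    intro y
    by_cases hy : y ∈ W
    · right
      obtain ⟨z, rfl⟩ := hsurj y
      refine ⟨z, ?_, rfl⟩
      intro hz
      exact Set.disjoint_left.mp hUV hy.1 hz.2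
    · left; exact hy

end Groth.Agent.S7555
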