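import Groth.Statements.S7563
import Groth.Agent.Lib.Helper22.TopDim
-- import your own Groth.Agent.* helpers here

set_option autoImplicit false
universe u
open PtTop

namespace Groth.Agent.S7563

/-- Let X be a topological space and X = X_1 ∪ … ∪ X_n with each X_i irreducible and closed and no X_i
contained in the union of the others. Then the irreducible components of X are precisely the sets
X_1, …, X_n. -/
theorem result {X : Type u} [TopologicalSpace X]
    {n : ℕ} (Z : Fin n → Set X) (hZ : ∀ i, IsIrreducible (Z i) ∧ IsClosed (Z i))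
    (hcov : ⋃ i, Z i = Set.univ) (hirr : ∀ i, ¬ Z i ⊆ ⋃ j ∈ ({i}ᶜ : Set (Fin n)), Z j) :
    irreducibleComponents X = Set.range Z := by
  classical
  have hsub : ∀ W : Set X, IsIrreducible W → ∃ i, W ⊆ Z i := by
    intro W hW
    obtain ⟨i, -, hi⟩ := Groth.Agent.Lib.Helper22.TopDim.exists_subset_of_finset Z
      (fun i => (hZ i).2) Finset.univ W hW (by
        intro x _
        have hx : x ∈ ⋃ i, Z i := hcov ▸ Set.mem_univ x
        obtain ⟨i, hi⟩ := Set.mem_iUnion.mp hx
        exact Set.mem_iUnion₂.mpr ⟨i, Finset.mem_univ i, hi⟩)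
    exact ⟨i, hi⟩
  have hmax : ∀ i, Z i ∈ irreducibleComponents X := by
    intro i
    refine ⟨(hZ i).1, fun W hW hiW => ?_⟩
    obtain ⟨j, hj⟩ := hsub W hW
    by_cases hij : j = i
    · rw [← hij]; exact hj
    · exfalso
      apply hirr i
      intro x hx
      exact Set.mem_iUnion₂.mpr ⟨j, by simpa [eq_comm] using hij, hj (hiW hx)⟩
  ext C
  constructor
  · intro hC
    obtain ⟨i, hi⟩ := hsub C hC.1
    exact ⟨i, le_antisymm (hC.2 (hZ i).1 hi) hi⟩
  · rintro ⟨i, rfl⟩
    exact hmax i

end Groth.Agent.S7563
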