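import Groth.Statements.S7564
import Groth.Agent.Lib.Helper22.TopDim
-- import your own Groth.Agent.* helpers here

set_option autoImplicit false
universe u
open PtTop

namespace Groth.Agent.S7564

/-- For a continuous surjection f : X → Y, if X has finitely many irreducible components, say n of them,
then Y has at most n irreducible components. -/
theorem result {X Y : Type u} [TopologicalSpace X] [TopologicalSpace Y]
    (f : X → Y) (hf : Continuous f) (hs : Function.Surjective f) (hfin : (irreducibleComponents X).Finite) :
    (irreducibleComponents Y).Finite ∧ (irreducibleComponents Y).ncard ≤ (irreducibleComponents X).ncard := by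
  classical
  have hsub : irreducibleComponents Y ⊆
      (fun C => closure (f '' C)) '' irreducibleComponents X := by
    intro D hD
    obtain ⟨C, hC, hDC⟩ := Groth.Agent.Lib.Helper22.TopDim.exists_subset_of_finset
      (fun C => closure (f '' C)) (fun _ => isClosed_closure) hfin.toFinset D hD.1 (by
        intro y _
        obtain ⟨x, rfl⟩ := hs y
        have : x ∈ ⋃₀ irreducibleComponents X := by rw [sUnion_irreducibleComponents]; trivial
        obtain ⟨C, hC, hxC⟩ := Set.mem_sUnion.mp this
        exact Set.mem_iUnion₂.mpr ⟨C, hfin.mem_toFinset.mpr hC, subset_closure ⟨x, hxC, rfl⟩⟩)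
    have hC' : C ∈ irreducibleComponents X := hfin.mem_toFinset.mp hC
    refine ⟨C, hC', ?_⟩
    have hirr : IsIrreducible (closure (f '' C)) := (hC'.1.image f hf.continuousOn).closure
    exact le_antisymm (hD.2 hirr hDC) hDC
  refine ⟨(hfin.image _).subset hsub, ?_⟩
  calc (irreducibleComponents Y).ncard
      ≤ ((fun C => closure (f '' C)) '' irreducibleComponents X).ncard :=
        Set.ncard_le_ncard hsub (hfin.image _)
    _ ≤ (irreducibleComponents X).ncard := Set.ncard_image_le hfin

end Groth.Agent.S7564
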