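import Groth.Statements.S7565
-- import your own Groth.Agent.* helpers here

set_option autoImplicit false
universe u
open PtTop

namespace Groth.Agent.S7565

/-- Let f : X → Y be a continuous open map of topological spaces and assume every point of X has a
Noetherian neighbourhood. Then every point of f(X) (with the induced topology) has a Noetherian
neighbourhood. The published statement also asserts that a continuous image of a Noetherian space is
Noetherian; this row states the part about open maps and locally Noetherian spaces. -/
theorem result {X Y : Type u} [TopologicalSpace X] [TopologicalSpace Y]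
    (f : X → Y) (hf : Continuous f) (hfo : IsOpenMap f)
    (hX : ∀ x : X, ∃ E ∈ nhds x, TopologicalSpace.NoetherianSpace E) :
    ∀ y : Set.range f, ∃ E : Set (Set.range f), E ∈ nhds y ∧ TopologicalSpace.NoetherianSpace E := by
  rintro ⟨_, x, rfl⟩
  obtain ⟨E', hE', hN⟩ := hX x
  obtain ⟨V, hVE, hVo, hxV⟩ := mem_nhds_iff.mp hE'
  have hVc : ∀ t, t ⊆ V → IsCompact t := fun t ht =>
    (TopologicalSpace.noetherianSpace_set_iff E').mp hN t (ht.trans hVE)
  refine ⟨Subtype.val ⁻¹' (f '' V), ?_, ?_⟩
  · exact ((hfo V hVo).preimage continuous_subtype_val).mem_nhds ⟨x, hxV, rfl⟩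
  · rw [TopologicalSpace.noetherianSpace_set_iff]
    intro t ht
    rw [Topology.IsEmbedding.subtypeVal.isCompact_iff]
    have hsub : Subtype.val '' t ⊆ f '' V := by
      rintro _ ⟨w, hw, rfl⟩
      exact ht hw
    have heq : Subtype.val '' t = f '' (f ⁻¹' (Subtype.val '' t) ∩ V) := by
      ext z
      constructor
      · intro hz
        obtain ⟨v, hv, hvz⟩ := hsub hz
        exact ⟨v, ⟨by rw [Set.mem_preimage, hvz]; exact hz, hv⟩, hvz⟩
      · rintro ⟨v, ⟨hv1, -⟩, rfl⟩
        exact hv1
    rw [heq]
    exact (hVc _ Set.inter_subset_right).image hf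

end Groth.Agent.S7565
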