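import Groth.Statements.S7580
-- import your own Groth.Agent.* helpers here

set_option autoImplicit false
universe u
open PtTop

namespace Groth.Agent.S7580

/-- Let f : X → Y be a continuous map of topological spaces with f(X) dense in Y and Y Hausdorff. Then
the cardinality of Y is at most that of the double power set of X. -/
theorem result {X Y : Type u} [TopologicalSpace X] [TopologicalSpace Y] [T2Space Y]
    (f : X → Y) (hf : Continuous f) (hd : DenseRange f) :
    Cardinal.mk Y ≤ (2 : Cardinal.{u}) ^ ((2 : Cardinal.{u}) ^ Cardinal.mk X) := by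
  let φ : Y → Set (Set X) := fun y => {A | y ∈ closure (f '' A)}
  have hφ : Function.Injective φ := by
    intro y y' hyy'
    by_contra hne
    obtain ⟨u, v, huo, hvo, hyu, hy'v, huv⟩ := t2_separation hne
    have h1 : f ⁻¹' u ∈ φ y := by
      show y ∈ closure (f '' (f ⁻¹' u))
      rw [Set.image_preimage_eq_inter_range]
      exact hd.open_subset_closure_inter huo hyu
    rw [hyy'] at h1
    have h2 : closure (f '' (f ⁻¹' u)) ⊆ vᶜ := by
      refine (closure_mono (Set.image_preimage_subset f u)).trans ?_
      exact closure_minimal (Set.disjoint_left.mp huv) hvo.isClosed_compl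
    exact h2 h1 hy'v
  calc Cardinal.mk Y ≤ Cardinal.mk (Set (Set X)) := Cardinal.mk_le_of_injective hφ
    _ = (2 : Cardinal.{u}) ^ ((2 : Cardinal.{u}) ^ Cardinal.mk X) := by
      rw [Cardinal.mk_set, Cardinal.mk_set]

end Groth.Agent.S7580
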