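import Groth.Statements.S7661
-- import your own Groth.Agent.* helpers here

set_option autoImplicit false
universe u
open CategoryTheory CategoryTheory.Limits AlgebraicGeometry
open Variety

namespace Groth.Agent.S7661

theorem aux (A : Type u) [CommRing A] (I : Ideal A) (x : A) :
    ∀ (k : ℕ) (s : Finset (Ideal A)), s.card = k → (∀ p ∈ s, p.IsPrime) → (∀ p ∈ s, ¬ I ≤ p) →
      ∃ f : A, f - x ∈ I ∧ ∀ p ∈ s, f ∉ p := by
  intro k
  induction k with
  | zero =>
    intro s hs _ _
    rw [Finset.card_eq_zero] at hs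
    subst hs
    exact ⟨x, by simp, by simp⟩
  | succ k ih =>
    intro s hs hprime hI
    have hne : s.Nonempty := by rw [← Finset.card_pos, hs]; omega
    obtain ⟨p, hpmin⟩ := Finset.exists_minimal hne
    have hp : p ∈ s := hpmin.prop
    have hs' : (s.erase p).card = k := by rw [Finset.card_erase_of_mem hp, hs]; rfl
    obtain ⟨f', hf'I, hf'⟩ := ih (s.erase p) hs'
      (fun q hq => hprime q (Finset.mem_of_mem_erase hq))
      (fun q hq => hI q (Finset.mem_of_mem_erase hq))
    by_cases hfp : f' ∈ p
    · have hpp := hprime p hp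
      have hnotle : ¬ (I * ∏ q ∈ s.erase p, q) ≤ p := by
        rw [Ideal.IsPrime.mul_le hpp, Ideal.IsPrime.prod_le hpp]
        rintro (h | ⟨q, hq, hqp⟩)
        · exact hI p hp h
        have hqs : q ∈ s := Finset.mem_of_mem_erase hq
        have hqne : q ≠ p := Finset.ne_of_mem_erase hq
        exact hqne (le_antisymm hqp (hpmin.2 hqs hqp))
      obtain ⟨y, hy, hyp⟩ := SetLike.not_le_iff_exists.mp hnotle
      refine ⟨f' + y, ?_, ?_⟩
      · have hyI : y ∈ I := (Ideal.mul_le_left : I * (∏ q ∈ s.erase p, q) ≤ I) hy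
        have := I.add_mem hf'I hyI
        convert this using 1
        ring
      · intro q hq
        by_cases hqp : q = p
        · subst hqp
          intro h
          apply hyp
          have := q.sub_mem h hfp
          simpa using this
        · have hq' : q ∈ s.erase p := Finset.mem_erase.mpr ⟨hqp, hq⟩
          have hyq : y ∈ q := by
            have h1 : y ∈ ∏ q ∈ s.erase p, q :=
              (Ideal.mul_le_right : I * (∏ q ∈ s.erase p, q) ≤ ∏ q ∈ s.erase p, q) hy
            have h2 := Ideal.prod_le_inf h1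
            exact (Finset.inf_le (f := fun q : Ideal A => q) hq') h2
          intro h
          apply hf' q hq'
          have := q.sub_mem h hyq
          simpa using this
    · refine ⟨f', hf'I, fun q hq => ?_⟩
      by_cases hqp : q = p
      · subst hqp
        exact hfp
      · exact hf' q (Finset.mem_erase.mpr ⟨hqp, hq⟩)

/-- Let A be a ring, I an ideal, p_1, …, p_r prime ideals with I ⊄ p_i for all i, and let f̄ ∈ A/I. Then
f̄ lifts to an element f ∈ A with f ∉ p_i for all i. -/
theorem result (A : Type u) [CommRing A] (I : Ideal A)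
    (s : Finset (Ideal A)) (hs : ∀ p ∈ s, p.IsPrime) (hI : ∀ p ∈ s, ¬ I ≤ p) (fbar : A ⧸ I) :
    ∃ f : A, Ideal.Quotient.mk I f = fbar ∧ ∀ p ∈ s, f ∉ p := by
  obtain ⟨x, rfl⟩ := Ideal.Quotient.mk_surjective fbar
  obtain ⟨f, hf, hfs⟩ := aux A I x s.card s rfl hs hI
  exact ⟨f, Ideal.Quotient.eq.mpr hf, hfs⟩

end Groth.Agent.S7661
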