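import Groth.Statements.S7666
import Mathlib.RingTheory.Ideal.Height
-- import your own Groth.Agent.* helpers here

set_option autoImplicit false
universe u
open CategoryTheory CategoryTheory.Limits AlgebraicGeometry
open Variety

namespace Groth.Agent.S7666

theorem prime_eq_max {A : Type u} [CommRing A] [IsLocalRing A] [IsNoetherianRing A]
    (hdim : ringKrullDim A = 1) (q : Ideal A) [hq : q.IsPrime] (hqmin : q ∉ minimalPrimes A) :
    q = IsLocalRing.maximalIdeal A := by
  by_contra hne
  have hlt : q < IsLocalRing.maximalIdeal A :=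
    lt_of_le_of_ne (IsLocalRing.le_maximalIdeal hq.ne_top) hne
  have h0 : q.height ≠ 0 := fun h => hqmin (Ideal.height_eq_zero_iff.mp h)
  have h1 : q.height < (IsLocalRing.maximalIdeal A).height := Ideal.height_strict_mono_of_isPrime hlt
  have h2 : ((IsLocalRing.maximalIdeal A).height : WithBot ℕ∞) ≤ 1 :=
    hdim ▸ Ideal.height_le_ringKrullDim_of_isPrime
  have h3 : (IsLocalRing.maximalIdeal A).height ≤ 1 := by exact_mod_cast h2
  have h4 : 1 ≤ q.height := Order.one_le_iff_ne_zero.mpr h0
  exact absurd (lt_of_le_of_lt h4 h1) (not_lt.mpr h3)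

/-- Let A be a one-dimensional Noetherian local ring and L = ∏ A_p, the product over the minimal primes
of A. If a_1, a_2 ∈ m_A have the same image in L, then a_1 and a_2 have equal n-th powers for some
positive integer n. -/
theorem result (A : Type u) [CommRing A]
    [IsLocalRing A] [IsNoetherianRing A] (hdim : ringKrullDim A = 1)
    (a₁ a₂ : A) (h₁ : a₁ ∈ IsLocalRing.maximalIdeal A) (h₂ : a₂ ∈ IsLocalRing.maximalIdeal A)
    (heq : ∀ p : {p : PrimeSpectrum A // p.asIdeal ∈ minimalPrimes A},
      algebraMap A (Localization.AtPrime p.1.asIdeal) a₁ = algebraMap A (Localization.AtPrime p.1.asIdeal) a₂) :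
    ∃ n : ℕ, 0 < n ∧ a₁ ^ n = a₂ ^ n := by
  set d := a₁ - a₂ with hd
  have hann : ∀ P ∈ minimalPrimes A, ∃ s : A, s ∉ P ∧ s * d = 0 := by
    intro P hP
    have hPp : P.IsPrime := hP.1.1
    have := heq ⟨⟨P, hPp⟩, hP⟩
    obtain ⟨⟨c, hc⟩, hc'⟩ := (IsLocalization.eq_iff_exists P.primeCompl _).mp this
    refine ⟨c, hc, ?_⟩
    simp only at hc'
    rw [hd, mul_sub, hc', sub_self]
  have hnil : IsNilpotent d := by
    rw [nilpotent_iff_mem_prime]
    intro J hJ
    obtain ⟨P, hP, hPJ⟩ := Ideal.exists_minimalPrimes_le (bot_le : ⊥ ≤ J)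
    obtain ⟨s, hs, hsd⟩ := hann P hP
    apply hPJ
    have : s * d ∈ P := by rw [hsd]; exact P.zero_mem
    exact (hP.1.1.mem_or_mem this).resolve_left hs
  obtain ⟨M, hM⟩ := hnil
  set I : Ideal A := (Submodule.span A {d}).annihilator with hI
  have hrad : a₂ ∈ I.radical := by
    rw [Ideal.radical_eq_sInf, Submodule.mem_sInf]
    rintro J ⟨hIJ, hJ⟩
    have hJmin : J ∉ minimalPrimes A := by
      intro hJm
      obtain ⟨s, hs, hsd⟩ := hann J hJm
      apply hs
      apply hIJ
      rw [hI, Submodule.mem_annihilator_span_singleton, smul_eq_mul]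
      exact hsd
    rw [prime_eq_max hdim J hJmin]
    exact h₂
  obtain ⟨N, hN⟩ := hrad
  have hNd : a₂ ^ N * d = 0 := by
    rw [hI, Submodule.mem_annihilator_span_singleton, smul_eq_mul] at hN
    exact hN
  refine ⟨N + M + 1, by omega, ?_⟩
  have ha₁ : a₁ = a₂ + d := by rw [hd]; ring
  rw [ha₁, add_pow]
  rw [Finset.sum_eq_single (N + M + 1)]
  · simp
  · intro m hm hmn
    have hm' : m < N + M + 1 := by
      have := Finset.mem_range.mp hm
      omega
    by_cases hbig : M ≤ N + M + 1 - m
    · have : d ^ (N + M + 1 - m) = 0 := by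
        rw [show N + M + 1 - m = M + (N + M + 1 - m - M) by omega, pow_add, hM, zero_mul]
      rw [this, mul_zero, zero_mul]
    · have e1 : a₂ ^ m = a₂ ^ (m - N) * a₂ ^ N := by
        rw [← pow_add]; congr 1; omega
      have e2 : d ^ (N + M + 1 - m) = d * d ^ (N + M + 1 - m - 1) := by
        rw [← pow_succ']; congr 1; omega
      rw [e1, e2]
      have : a₂ ^ (m - N) * a₂ ^ N * (d * d ^ (N + M + 1 - m - 1)) =
          a₂ ^ (m - N) * (a₂ ^ N * d) * d ^ (N + M + 1 - m - 1) := by ring
      rw [this, hNd]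
      simp
  · intro h
    exact absurd (Finset.self_mem_range_succ _) h

end Groth.Agent.S7666
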