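import Groth.Statements.S7668
-- import your own Groth.Agent.* helpers here

set_option autoImplicit false
universe u
open CategoryTheory CategoryTheory.Limits AlgebraicGeometry
open Variety

namespace Groth.Agent.S7668

/-- Let A be a ring, p_1, …, p_r primes of A and S = A ∖ ⋃ p_i. Then S is a multiplicative subset, S⁻¹A
is semi-local, and contraction to A is a bijection from the maximal ideals of S⁻¹A onto the maximal
elements of {p_1, …, p_r}. -/
theorem result (A : Type u) [CommRing A]
    (r : ℕ) (p : Fin r → PrimeSpectrum A) :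
    Finite (MaximalSpectrum (Localization (⨅ i, (p i).asIdeal.primeCompl))) ∧
      Set.BijOn (fun m : Ideal (Localization (⨅ i, (p i).asIdeal.primeCompl)) =>
          m.comap (algebraMap A (Localization (⨅ i, (p i).asIdeal.primeCompl))))
        {m | m.IsMaximal}
        {q | q ∈ Set.range (fun i => (p i).asIdeal) ∧
          ∀ j, q ≤ (p j).asIdeal → q = (p j).asIdeal} := by
  set S : Submonoid A := ⨅ i, (p i).asIdeal.primeCompl with hSdef
  have hmemS : ∀ x : A, x ∈ S ↔ ∀ i, x ∉ (p i).asIdeal := by
    intro x
    rw [hSdef, Submonoid.mem_iInf]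
    exact forall_congr' fun i => Iff.rfl
  have hdisj_of_le : ∀ q : Ideal A, ∀ j, q ≤ (p j).asIdeal → Disjoint (S : Set A) (q : Set A) := by
    intro q j hq
    rw [Set.disjoint_left]
    intro x hxS hxq
    exact (hmemS x).mp hxS j (hq hxq)
  have hle_of_disj : ∀ q : Ideal A, q.IsPrime → Disjoint (S : Set A) (q : Set A) →
      ∃ j, q ≤ (p j).asIdeal := by
    intro q hq hd
    by_cases hr : r = 0
    · exfalso
      subst hr
      have h0 : (0 : A) ∈ S := (hmemS 0).mpr (fun i => Fin.elim0 i)
      exact Set.disjoint_left.mp hd h0 q.zero_mem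
    · obtain ⟨a⟩ : Nonempty (Fin r) := ⟨⟨0, by omega⟩⟩
      have key := (Ideal.subset_union_prime (s := Finset.univ) (f := fun i => (p i).asIdeal) a a
        (fun i _ _ _ => (p i).isPrime) (I := q)).mp
      obtain ⟨j, _, hj⟩ := key (by
        intro x hx
        have hxS : x ∉ S := fun hxS => Set.disjoint_left.mp hd hxS hx
        rw [hmemS] at hxS
        simp only [not_forall, not_not] at hxS
        obtain ⟨i, hi⟩ := hxS
        simp only [Finset.coe_univ, Set.mem_univ, Set.iUnion_true, Set.mem_iUnion]
        exact ⟨i, hi⟩)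
      exact ⟨j, hj⟩
  have hcomap_prime_disj : ∀ m : Ideal (Localization S), m.IsPrime →
      (m.comap (algebraMap A (Localization S))).IsPrime ∧
        Disjoint (S : Set A) (m.comap (algebraMap A (Localization S)) : Set A) := by
    intro m hm
    exact ⟨Ideal.comap_isPrime _ m, (IsLocalization.disjoint_comap_iff S (Localization S) m).mpr hm.ne_top⟩
  have hmap_comap : ∀ m : Ideal (Localization S),
      Ideal.map (algebraMap A (Localization S)) (m.comap (algebraMap A (Localization S))) = m :=
    IsLocalization.map_comap S (Localization S)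
  have hpj_prime : ∀ j, (Ideal.map (algebraMap A (Localization S)) (p j).asIdeal).IsPrime := fun j =>
    IsLocalization.isPrime_of_isPrime_disjoint S (Localization S) _ (p j).isPrime (hdisj_of_le _ j le_rfl)
  have hcomap_map : ∀ j, (Ideal.map (algebraMap A (Localization S)) (p j).asIdeal).comap
      (algebraMap A (Localization S)) = (p j).asIdeal := fun j =>
    IsLocalization.comap_map_of_isPrime_disjoint S (Localization S) (p j).isPrime (hdisj_of_le _ j le_rfl)
  have hmax : ∀ m : Ideal (Localization S), m.IsMaximal → ∀ j,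
      m.comap (algebraMap A (Localization S)) ≤ (p j).asIdeal →
        m = Ideal.map (algebraMap A (Localization S)) (p j).asIdeal := by
    intro m hm j hj
    have h1 : m ≤ Ideal.map (algebraMap A (Localization S)) (p j).asIdeal := by
      rw [← hmap_comap m]
      exact Ideal.map_mono hj
    exact hm.eq_of_le (hpj_prime j).ne_top h1
  have hmaps : Set.MapsTo (fun m : Ideal (Localization S) => m.comap (algebraMap A (Localization S)))
      {m | m.IsMaximal}
      {q | q ∈ Set.range (fun i => (p i).asIdeal) ∧ ∀ j, q ≤ (p j).asIdeal → q = (p j).asIdeal} := by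
    intro m hm
    have hm' : m.IsMaximal := hm
    obtain ⟨hpr, hd⟩ := hcomap_prime_disj m hm'.isPrime
    obtain ⟨j, hj⟩ := hle_of_disj _ hpr hd
    have hmj := hmax m hm' j hj
    refine ⟨⟨j, ?_⟩, fun l hl => ?_⟩
    · simp only
      rw [hmj, hcomap_map]
    · have hml := hmax m hm' l hl
      simp only at hl ⊢
      rw [hml, hcomap_map]
  have hinj : Set.InjOn (fun m : Ideal (Localization S) => m.comap (algebraMap A (Localization S)))
      {m | m.IsMaximal} := by
    intro m₁ _ m₂ _ h
    rw [← hmap_comap m₁, ← hmap_comap m₂]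
    simp only at h
    rw [h]
  have hsurj : Set.SurjOn (fun m : Ideal (Localization S) => m.comap (algebraMap A (Localization S)))
      {m | m.IsMaximal}
      {q | q ∈ Set.range (fun i => (p i).asIdeal) ∧ ∀ j, q ≤ (p j).asIdeal → q = (p j).asIdeal} := by
    rintro q ⟨⟨i, rfl⟩, hqmax⟩
    refine ⟨Ideal.map (algebraMap A (Localization S)) (p i).asIdeal, ?_, hcomap_map i⟩
    obtain ⟨m', hm', hle⟩ := Ideal.exists_le_maximal _ (hpj_prime i).ne_top
    obtain ⟨hpr, hd⟩ := hcomap_prime_disj m' hm'.isPrime
    obtain ⟨j, hj⟩ := hle_of_disj _ hpr hd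
    have h1 : (p i).asIdeal ≤ m'.comap (algebraMap A (Localization S)) := by
      rw [← hcomap_map i]
      exact Ideal.comap_mono hle
    have h2 : (p i).asIdeal = (p j).asIdeal := hqmax j (h1.trans hj)
    have h3 : m' = Ideal.map (algebraMap A (Localization S)) (p j).asIdeal := hmax m' hm' j hj
    rw [← h2] at h3
    show (Ideal.map (algebraMap A (Localization S)) (p i).asIdeal).IsMaximal
    rw [← h3]
    exact hm'
  refine ⟨?_, hmaps, hinj, hsurj⟩
  have hfr : (Set.range (fun i => (p i).asIdeal)).Finite := Set.finite_range _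
  have := hfr.to_subtype
  let f : MaximalSpectrum (Localization S) → Set.range (fun i => (p i).asIdeal) := fun m =>
    ⟨m.asIdeal.comap (algebraMap A (Localization S)), (hmaps m.isMaximal).1⟩
  have hf : Function.Injective f := by
    intro m₁ m₂ h
    have := hinj m₁.isMaximal m₂.isMaximal (congrArg Subtype.val h)
    exact MaximalSpectrum.ext this
  exact Finite.of_injective f hf

end Groth.Agent.S7668
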