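import Groth.Statements.S8312
-- import your own Groth.Agent.* helpers here

set_option autoImplicit false
universe u
open scoped HomogeneousIdeal
open EGA2

namespace Groth.Agent.S8312

/-- Let S be a positively graded ring (an ℕ-graded R-algebra) and S♮ the graded ring with S♮_n = S_[n] =
⊕_{m ≥ n} S_m, presented as a graded ring S' with an injective algebra homomorphism φ : S' → S[X]
carrying S'_n onto S_[n]·X^n; for a homogeneous f ∈ S_d write f♮ for the element of S' with φ(f♮) =
f·X^d (f placed in degree d of S♮). If (f_α) is a family of homogeneous elements of S of positive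
degrees such that every element of the irrelevant ideal S_+ has a positive power in the ideal
generated by the f_α (that is, S_+ is the radical in S_+ of that ideal), then every element of the
irrelevant ideal S'_+ has a positive power in the ideal of S' generated by the f_α♮. -/
theorem result {R A B : Type u} [CommRing R] [CommRing A] [Algebra R A]
    (𝒜 : ℕ → Submodule R A) [GradedAlgebra 𝒜] [CommRing B] [Algebra R B] (ℬ : ℕ → Submodule R B) [GradedAlgebra ℬ]
    (φ : B →ₐ[R] Polynomial A) (hφ : Function.Injective φ)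
    (hdeg : ∀ n : ℕ, Submodule.map φ.toLinearMap (ℬ n) =
      Submodule.map ((Polynomial.monomial n : A →ₗ[A] Polynomial A).restrictScalars R) (⨆ (m : ℕ) (_ : n ≤ m), 𝒜 m))
    {ι : Type u} (d : ι → ℕ) (hd : ∀ a, 0 < d a) (f : ι → A) (hf : ∀ a, f a ∈ 𝒜 (d a))
    (hrad : ∀ g ∈ (HomogeneousIdeal.irrelevant 𝒜).toIdeal, ∃ n : ℕ, 0 < n ∧ g ^ n ∈ Ideal.span (Set.range f))
    (fn : ι → B) (hfn : ∀ a, φ (fn a) = Polynomial.monomial (d a) (f a)) :
    ∀ g ∈ (HomogeneousIdeal.irrelevant ℬ).toIdeal, ∃ n : ℕ, 0 < n ∧ g ^ n ∈ Ideal.span (Set.range fn) := by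
  classical
  set J : Ideal B := Ideal.span (Set.range fn) with hJ
  -- preimages of monomials
  have hpre : ∀ (n : ℕ) (a : A), a ∈ (⨆ (m : ℕ) (_ : n ≤ m), 𝒜 m) →
      ∃ h : B, h ∈ ℬ n ∧ φ h = Polynomial.monomial n a := by
    intro n a ha
    have hmem : Polynomial.monomial n a ∈ Submodule.map φ.toLinearMap (ℬ n) := by
      rw [hdeg n]
      exact ⟨a, ha, rfl⟩
    obtain ⟨h, hh, hφh⟩ := hmem
    exact ⟨h, hh, hφh⟩
  have memsup : ∀ (n m : ℕ) (a : A), n ≤ m → a ∈ 𝒜 m → a ∈ (⨆ (m : ℕ) (_ : n ≤ m), 𝒜 m) := by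
    intro n m a hnm ha
    exact Submodule.mem_iSup_of_mem m (Submodule.mem_iSup_of_mem hnm ha)
  -- the key case
  have key : ∀ (i m : ℕ), 1 ≤ i → i ≤ m → ∀ (g : B) (a : A), a ∈ 𝒜 m →
      φ g = Polynomial.monomial i a → g ∈ J.radical := by
    intro i m hi him g a ha hga
    have hairr : a ∈ (HomogeneousIdeal.irrelevant 𝒜).toIdeal := by
      show GradedRing.proj 𝒜 0 a = 0
      rw [GradedRing.proj_apply, DirectSum.decompose_of_mem_ne 𝒜 ha (by omega)]
    obtain ⟨k, hk, hak⟩ := hrad a hairr
    obtain ⟨c, hc⟩ := (Finsupp.mem_span_range_iff_exists_finsupp).mp hak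
    set D := c.support.sup d with hD
    have hdD : ∀ α ∈ c.support, d α ≤ D := fun α hα => Finset.le_sup hα
    set K := k * (D + 1) with hK
    have hKpos : 0 < K := Nat.mul_pos hk (Nat.succ_pos D)
    have hKD : D < K := by
      have : D + 1 ≤ k * (D + 1) := Nat.le_mul_of_pos_left _ hk
      omega
    set E := K * m with hE
    set e := K * i with he
    have hdα : ∀ α ∈ c.support, d α ≤ e := by
      intro α hα
      have := hdD α hα
      have : K ≤ K * i := Nat.le_mul_of_pos_right _ hi
      omega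
    have hei : e ≤ E := Nat.mul_le_mul_left _ him
    have haK : a ^ K ∈ 𝒜 E := by
      have := SetLike.pow_mem_graded K ha
      rwa [smul_eq_mul] at this
    -- expansion of a^K
    have hexp : a ^ K = ∑ α ∈ c.support, (a ^ (k * D) * c α) * f α := by
      have : a ^ K = a ^ (k * D) * a ^ k := by
        rw [← pow_add, hK]; ring_nf
      rw [this, ← hc, Finsupp.sum, Finset.mul_sum]
      refine Finset.sum_congr rfl fun α _ => ?_
      rw [smul_eq_mul]; ring
    set s : ι → A := fun α => (DirectSum.decompose 𝒜 (a ^ (k * D) * c α) (E - d α) : A) with hs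
    have hsmem : ∀ α, s α ∈ 𝒜 (E - d α) := fun α => SetLike.coe_mem _
    have hexp2 : a ^ K = ∑ α ∈ c.support, s α * f α := by
      have h1 : a ^ K = (DirectSum.decompose 𝒜 (a ^ K) E : A) :=
        (DirectSum.decompose_of_mem_same 𝒜 haK).symm
      rw [h1, hexp, DirectSum.decompose_sum, DFinsupp.finsetSum_apply, AddSubmonoidClass.coe_finsetSum]
      refine Finset.sum_congr rfl fun α hα => ?_
      rw [DirectSum.coe_decompose_mul_of_right_mem_of_le 𝒜 (hf α)]
      have := hdα α hα
      omega
    -- preimages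
    have hh : ∀ α ∈ c.support, ∃ h : B, φ h = Polynomial.monomial (e - d α) (s α) := by
      intro α hα
      obtain ⟨h, _, hφh⟩ := hpre (e - d α) (s α) (memsup _ _ _ (by omega) (hsmem α))
      exact ⟨h, hφh⟩
    choose! h hφh using hh
    have hgK : g ^ K = ∑ α ∈ c.support, h α * fn α := by
      apply hφ
      rw [map_pow, hga, Polynomial.monomial_pow, map_sum]
      rw [show i * K = e by rw [he, mul_comm]]
      rw [hexp2, map_sum]
      refine Finset.sum_congr rfl fun α hα => ?_
      rw [map_mul φ (h α) (fn α), hφh α hα, hfn α, Polynomial.monomial_mul_monomial,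
        Nat.sub_add_cancel (hdα α hα)]
    refine ⟨K, ?_⟩
    rw [hgK]
    exact Ideal.sum_mem _ fun α _ => Ideal.mul_mem_left _ _ (Ideal.subset_span ⟨α, rfl⟩)
  -- homogeneous elements of positive degree
  have hom : ∀ (i : ℕ), 1 ≤ i → ∀ g : B, g ∈ ℬ i → g ∈ J.radical := by
    intro i hi g hg
    obtain ⟨a, ha, hga⟩ : ∃ a ∈ (⨆ (m : ℕ) (_ : i ≤ m), 𝒜 m), φ g = Polynomial.monomial i a := by
      have hmem : φ g ∈ Submodule.map φ.toLinearMap (ℬ i) := ⟨g, hg, rfl⟩
      rw [hdeg i] at hmem
      obtain ⟨a, ha, hφa⟩ := hmem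
      exact ⟨a, ha, hφa.symm⟩
    -- induction on a ∈ ⨆
    have P : ∀ a ∈ (⨆ (m : ℕ) (_ : i ≤ m), 𝒜 m), ∀ g : B, φ g = Polynomial.monomial i a → g ∈ J.radical := by
      intro a ha
      induction ha using Submodule.iSup_induction' with
      | mem m x hx =>
        intro g hgx
        by_cases him : i ≤ m
        · rw [iSup_pos him] at hx
          exact key i m hi him g x hx hgx
        · rw [iSup_neg him] at hx
          rw [(Submodule.mem_bot A).mp hx, map_zero] at hgx
          have : g = 0 := hφ (by rw [hgx, map_zero])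
          rw [this]; exact Ideal.zero_mem _
      | zero =>
        intro g hg0
        rw [map_zero] at hg0
        have : g = 0 := hφ (by rw [hg0, map_zero])
        rw [this]; exact Ideal.zero_mem _
      | add x y hx hy ihx ihy =>
        intro g hgxy
        obtain ⟨gx, _, hgx⟩ := hpre i x hx
        obtain ⟨gy, _, hgy⟩ := hpre i y hy
        have : g = gx + gy := hφ (by rw [hgxy, map_add, map_add φ, hgx, hgy])
        rw [this]
        exact Ideal.add_mem _ (ihx gx hgx) (ihy gy hgy)
    exact P a ha g hga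
  -- conclusion
  intro g hg
  have hg0 : GradedRing.proj ℬ 0 g = 0 := hg
  have hrad' : g ∈ J.radical := by
    rw [← DirectSum.sum_support_decompose ℬ g]
    refine Ideal.sum_mem _ fun i hi => ?_
    have hi0 : i ≠ 0 := by
      intro h0
      subst h0
      rw [DFinsupp.mem_support_iff] at hi
      apply hi
      rw [GradedRing.proj_apply] at hg0
      exact Subtype.ext hg0
    exact hom i (Nat.one_le_iff_ne_zero.mpr hi0) _ (SetLike.coe_mem _)
  obtain ⟨n, hn⟩ := hrad'
  rcases n with _ | n
  · refine ⟨1, one_pos, ?_⟩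
    rw [pow_zero] at hn
    rw [pow_one]
    have := J.mul_mem_left g hn
    rwa [mul_one] at this
  · exact ⟨n + 1, Nat.succ_pos n, hn⟩

end Groth.Agent.S8312
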