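import Groth.Statements.S8345
-- import your own Groth.Agent.* helpers here

set_option autoImplicit false
universe u
open ConstrTop

namespace Groth.Agent.S8345

open TopologicalSpace in
/-- Suppose X is a topological space that is Noetherian. Then a subset s of X is constructible exactly
when s can be written as the union of finitely many locally closed subsets of X. -/
theorem result {X : Type u} [TopologicalSpace X]
    [NoetherianSpace X] (s : Set X) :
    Topology.IsConstructible s ↔
      ∃ (n : ℕ) (Z : Fin n → Set X), (∀ i, IsLocallyClosed (Z i)) ∧ s = ⋃ i, Z i := by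
  constructor
  · intro hs
    induction s, hs using BooleanSubalgebra.closure_sdiff_sup_induction with
    | isSublattice =>
      exact ⟨fun s hs t ht ↦ ⟨hs.1.union ht.1, hs.2.union ht.2⟩,
        fun s hs t ht ↦ ⟨hs.1.inter ht.1, hs.2.inter_isOpen ht.2 ht.1⟩⟩
    | bot_mem => exact ⟨isOpen_empty, .empty⟩
    | top_mem => exact ⟨isOpen_univ, .univ⟩
    | sdiff U hU V hV =>
      refine ⟨1, fun _ => U \ V, fun _ => ⟨U, Vᶜ, hU.1, hV.1.isClosed_compl, rfl⟩, ?_⟩
      exact (Set.iUnion_const _).symm
    | sup s _ t _ hs' ht' =>
      obtain ⟨n, Z, hZ, rfl⟩ := hs'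
      obtain ⟨m, Z', hZ', rfl⟩ := ht'
      refine ⟨n + m, Sum.elim Z Z' ∘ finSumFinEquiv.symm, ?_, ?_⟩
      · intro i
        rcases h : finSumFinEquiv.symm i with a | a
        · simp [h, hZ a]
        · simp [h, hZ' a]
      · have := Equiv.iSup_comp (g := Sum.elim Z Z') finSumFinEquiv.symm
        change _ = ⨆ x, Sum.elim Z Z' (finSumFinEquiv.symm x)
        rw [this]
        exact (Set.iUnion_sumElim Z Z').symm
  · rintro ⟨n, Z, hZ, rfl⟩
    refine Topology.IsConstructible.iUnion fun i => ?_
    obtain ⟨U, C, hU, hC, e⟩ := hZ i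
    rw [e]
    have h1 : Topology.IsConstructible U :=
      IsRetrocompact.isConstructible hU (fun W _ _ => NoetherianSpace.isCompact _)
    have h2 : Topology.IsConstructible C := by
      rw [← compl_compl C]
      exact (IsRetrocompact.isConstructible hC.isOpen_compl
        (fun W _ _ => NoetherianSpace.isCompact _)).compl
    exact h1.inter h2

end Groth.Agent.S8345
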