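import Groth.Statements.S8346
-- import your own Groth.Agent.* helpers here

set_option autoImplicit false
universe u
open ConstrTop

namespace Groth.Agent.S8346

open scoped Set.Notation

theorem constr_retro {X : Type*} [TopologicalSpace X] {s : Set X}
    (hs : Topology.IsConstructible s) : IsRetrocompact s := by
  induction s, hs using BooleanSubalgebra.closure_sdiff_sup_induction with
  | isSublattice =>
    exact ⟨fun s hs t ht ↦ ⟨hs.1.union ht.1, hs.2.union ht.2⟩,
      fun s hs t ht ↦ ⟨hs.1.inter ht.1, hs.2.inter_isOpen ht.2 ht.1⟩⟩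
  | bot_mem => exact ⟨isOpen_empty, .empty⟩
  | top_mem => exact ⟨isOpen_univ, .univ⟩
  | sdiff U hU V hV =>
    intro W hWc hWo
    rw [← Set.inter_sdiff_right_comm]
    exact (hU.2 hWc hWo).diff hV.1
  | sup s _ t _ hs' ht' => exact hs'.union ht'


open TopologicalSpace in
/-- Let X be a topological space admitting a basis of open subsets which are retrocompact in X. Then
every locally constructible subset T of X is retrocompact in X. -/
theorem result {X : Type u} [TopologicalSpace X]
    {B : Set (Set X)} (hB : IsTopologicalBasis B) (hBr : ∀ U ∈ B, IsRetrocompact U) {T : Set X}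
    (hT : Topology.IsLocallyConstructible T) : IsRetrocompact T := by
  intro W hWc hWo
  have key : ∀ x ∈ W, ∃ V ∈ B, x ∈ V ∧ V ⊆ W ∧ IsCompact (T ∩ V) := by
    intro x hx
    obtain ⟨U, hUx, hUo, hUc⟩ := hT x
    obtain ⟨V, hVB, hxV, hVsub⟩ := hB.mem_nhds_iff.mp (Filter.inter_mem hUx (hWo.mem_nhds hx))
    have hVW : V ⊆ W := hVsub.trans Set.inter_subset_right
    refine ⟨V, hVB, hxV, hVW, ?_⟩
    have hVo : IsOpen V := hB.isOpen hVB
    have hVc : IsCompact V := by
      have := hBr V hVB hWc hWo
      rwa [Set.inter_eq_left.mpr hVW] at this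
    have hVU : V ⊆ U := hVsub.trans Set.inter_subset_left
    have h1 : Topology.IsConstructible (V ↓∩ T) :=
      (hUc.preimage_of_isOpenEmbedding (Topology.IsOpenEmbedding.id.restrict hVU hVo) :)
    have h2 : IsRetrocompact (V ↓∩ T) := constr_retro h1
    haveI : CompactSpace V := isCompact_iff_compactSpace.mp hVc
    have h3 := h2 isCompact_univ isOpen_univ
    rw [Set.inter_univ] at h3
    have h4 := h3.image continuous_subtype_val
    rwa [Subtype.image_preimage_coe, Set.inter_comm] at h4
  choose! V hVB hxV hVW hVc using key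
  obtain ⟨t, ht⟩ := hWc.elim_finite_subcover (fun x : W => V x) (fun x => hB.isOpen (hVB x x.2))
    (fun x hx => Set.mem_iUnion.mpr ⟨⟨x, hx⟩, hxV x hx⟩)
  have heq : T ∩ W = ⋃ i ∈ t, T ∩ V i := by
    apply subset_antisymm
    · rintro y ⟨hyT, hyW⟩
      obtain ⟨i, hi, hyi⟩ := Set.mem_iUnion₂.mp (ht hyW)
      exact Set.mem_iUnion₂.mpr ⟨i, hi, hyT, hyi⟩
    · intro y hy
      obtain ⟨i, hi, hyT, hyi⟩ := Set.mem_iUnion₂.mp hy
      exact ⟨hyT, hVW i i.2 hyi⟩
  rw [heq]
  exact t.isCompact_biUnion fun i _ => hVc i i.2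

end Groth.Agent.S8346
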