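import Groth.Statements.S8352
-- import your own Groth.Agent.* helpers here

set_option autoImplicit false
universe u
open CategoryTheory CategoryTheory.Limits Opposite
open HomAlg3

namespace Groth.Agent.S8352

universe w

theorem exists_section {G : ℕᵒᵖ ⥤ Type w}
    (hG : ∀ n : ℕ, Function.Surjective (G.map (homOfLE (Nat.le_succ n)).op))
    (j : ℕ) (x : G.obj (op j)) : ∃ s ∈ G.sections, s (op j) = x := by
  classical
  let y : (n : ℕ) → G.obj (op (j + n)) := fun n =>
    Nat.rec (motive := fun n => G.obj (op (j + n))) x (fun n yn => (hG (j + n) yn).choose) n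
  have hy : ∀ n, G.map (homOfLE (Nat.le_succ (j + n))).op (y (n + 1)) = y n :=
    fun n => (hG (j + n) (y n)).choose_spec
  have hmap : ∀ m n (h : j + m ≤ j + n), G.map (homOfLE h).op (y n) = y m := by
    intro m n h
    have hmn : m ≤ n := by omega
    induction n, hmn using Nat.le_induction with
    | base =>
      have : (homOfLE h).op = 𝟙 (op (j + m)) := Subsingleton.elim _ _
      rw [this, G.map_id]
      rfl
    | succ n hmn ih =>
      have h2 : j + m ≤ j + n := by omega
      have : (homOfLE h).op = (homOfLE (Nat.le_succ (j + n))).op ≫ (homOfLE h2).op :=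
        Subsingleton.elim _ _
      rw [this, G.map_comp]
      change G.map (homOfLE h2).op (G.map (homOfLE (Nat.le_succ (j + n))).op (y (n + 1))) = y m
      rw [hy n, ih h2]
  refine ⟨fun k => G.map (homOfLE (Nat.le_add_left k.unop j)).op (y k.unop), ?_, ?_⟩
  · intro a b f
    have hba : b.unop ≤ a.unop := leOfHom f.unop
    have h2 : j + b.unop ≤ j + a.unop := by omega
    have e : (homOfLE (Nat.le_add_left a.unop j)).op ≫ f =
        (homOfLE h2).op ≫ (homOfLE (Nat.le_add_left b.unop j)).op := Subsingleton.elim _ _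
    change (G.map (homOfLE (Nat.le_add_left a.unop j)).op ≫ G.map f) (y a.unop) = _
    rw [← G.map_comp, e, G.map_comp]
    change G.map (homOfLE (Nat.le_add_left b.unop j)).op (G.map (homOfLE h2).op (y a.unop)) = _
    rw [hmap _ _ h2]
  · change G.map (homOfLE (Nat.le_add_left j j)).op (y j) = x
    have h2 : j + 0 ≤ j + j := by omega
    have e : (homOfLE (Nat.le_add_left j j)).op = (homOfLE h2).op := Subsingleton.elim _ _
    rw [e, hmap 0 j h2]
    rfl

theorem keyK (F : ℕᵒᵖ ⥤ AddCommGrpCat.{u})
    (hF : (F ⋙ forget AddCommGrpCat).IsMittagLeffler) (j : ℕ) (x : F.obj (op j)) :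
    x ∈ (limit.π F (op j)).hom.range ↔
      ∀ k (hk : j ≤ k), x ∈ (F.map (homOfLE hk).op).hom.range := by
  constructor
  · rintro ⟨t, rfl⟩ k hk
    refine ⟨(limit.π F (op k)).hom t, ?_⟩
    rw [← limit.w F (homOfLE hk).op]
    rfl
  · intro hx
    let G := F ⋙ forget AddCommGrpCat
    have hxe : (x : G.obj (op j)) ∈ G.eventualRange (op j) := by
      rw [Functor.mem_eventualRange_iff]
      intro i f
      have hk : j ≤ i.unop := leOfHom f.unop
      have e : f = (homOfLE hk).op := Subsingleton.elim _ _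
      obtain ⟨t, ht⟩ := hx i.unop hk
      exact ⟨t, by rw [e]; exact ht⟩
    have hsurj : ∀ n : ℕ,
        Function.Surjective (G.toEventualRanges.map (homOfLE (Nat.le_succ n)).op) :=
      fun n => Functor.surjective_toEventualRanges G hF _
    obtain ⟨s, hs, hsj⟩ := exists_section hsurj j ⟨x, hxe⟩
    let u := (Functor.toEventualRangesSectionsEquiv G) ⟨s, hs⟩
    have hu : u.val (op j) = x := by
      show (s (op j)).val = x
      rw [hsj]
    let c := (forget AddCommGrpCat).mapCone (limit.cone F)
    have hc : IsLimit c := isLimitOfPreserves (forget AddCommGrpCat) (limit.isLimit F)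
    refine ⟨(Types.isLimitEquivSections hc).symm u, ?_⟩
    have := Types.isLimitEquivSections_symm_apply hc u (op j)
    rw [hu] at this
    exact this

/-- Category of abelian groups, system indexed by the natural numbers: Let (A_k) be an inverse system of
abelian groups satisfying the Mittag-Leffler condition, A = lim A_k with projections π_p : A ⟶ A_p.
Filter A and each A_k by the kernels of the maps to A_{p-1} (with A_{-1} = 0); the graded piece
gr^p(A) is identified with Im(π_p) ∩ Ker(A_p ⟶ A_{p-1}) and gr^p(A_k), k ≥ p, with Im(A_k ⟶ A_p) ∩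
Ker(A_p ⟶ A_{p-1}), a decreasing family of subgroups of A_p. The statement gr^p(A) ≅ lim_k gr^p(A_k)
then reads: Im(π_0) = ⋂_k Im(A_k ⟶ A_0), and for every p, Im(π_{p+1}) ∩ Ker(A_{p+1} ⟶ A_p) = ⋂_{k ≥
p+1} (Im(A_k ⟶ A_{p+1}) ∩ Ker(A_{p+1} ⟶ A_p)). -/
theorem result (F : ℕᵒᵖ ⥤ AddCommGrpCat.{u})
    (hF : (F ⋙ forget AddCommGrpCat).IsMittagLeffler) :
    (limit.π F (op 0)).hom.range = ⨅ k : ℕ, (F.map (homOfLE (Nat.zero_le k)).op).hom.range ∧
      ∀ p : ℕ, (limit.π F (op (p + 1))).hom.range ⊓ (F.map (homOfLE (Nat.le_succ p)).op).hom.ker =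
        ⨅ (k : ℕ) (hk : p + 1 ≤ k),
          (F.map (homOfLE hk).op).hom.range ⊓ (F.map (homOfLE (Nat.le_succ p)).op).hom.ker := by
  refine ⟨?_, ?_⟩
  · ext x
    rw [keyK F hF 0 x, AddSubgroup.mem_iInf]
    constructor
    · intro h k; exact h k (Nat.zero_le k)
    · intro h k hk; exact h k
  · intro p
    ext x
    simp only [AddSubgroup.mem_inf, AddSubgroup.mem_iInf]
    rw [keyK F hF (p + 1) x]
    constructor
    · rintro ⟨h1, h2⟩ k hk; exact ⟨h1 k hk, h2⟩
    · intro h; exact ⟨fun k hk => (h k hk).1, (h (p + 1) le_rfl).2⟩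

end Groth.Agent.S8352
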