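import Groth.Statements.S8770
import Groth.Agent.Lib.Helper13.PureProj
import Groth.Agent.Lib.Helper3.UnivInj
-- import your own Groth.Agent.* helpers here

set_option autoImplicit false
universe u
open PureExt

namespace Groth.Agent.S8770

open TensorProduct Groth.Agent.Lib.Helper13.PureProj

/-- Index data: a finite linear system `∑_j b j k • v j = 0` with a solution `v` in `M`. -/
abbrev Idx (R : Type u) [CommRing R] (M : Type u) [AddCommGroup M] [Module R M] : Type u :=
  Σ pn : ℕ × ℕ, {d : (Fin pn.1 → Fin pn.2 → R) × (Fin pn.1 → M) // ∀ k, ∑ j, d.1 j k • d.2 j = 0}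

variable {R : Type u} [CommRing R] {M : Type u} [AddCommGroup M] [Module R M]

/-- The relations of the finitely presented module attached to an index. -/
def rel (i : Idx R M) : Fin i.1.2 → Fin i.1.1 → R := fun k j => i.2.1.1 j k

/-- The finitely presented module attached to an index. -/
abbrev Qm (i : Idx R M) : Type u := (Fin i.1.1 → R) ⧸ Submodule.span R (Set.range (rel i))

/-- The map to `M` given by the solution. -/
noncomputable def toM (i : Idx R M) : Qm i →ₗ[R] M :=
  (Submodule.span R (Set.range (rel i))).liftQ (Fintype.linearCombination R i.2.1.2) (by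
    rw [Submodule.span_le]
    rintro _ ⟨k, rfl⟩
    simp only [SetLike.mem_coe, LinearMap.mem_ker, Fintype.linearCombination_apply, rel]
    exact i.2.2 k)

theorem toM_mk_single (i : Idx R M) (j : Fin i.1.1) :
    toM i (Submodule.Quotient.mk (Pi.single j 1)) = i.2.1.2 j := by
  classical
  simp [toM, Fintype.linearCombination_apply_single]

open Classical in
/-- The canonical map from the direct sum. -/
noncomputable def gmap : (Π₀ i : Idx R M, Qm i) →ₗ[R] M :=
  DFinsupp.lsum ℕ toM

open Classical in
theorem gmap_single (i : Idx R M) (x : Qm i) : gmap (DFinsupp.single i x) = toM i x := by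
  simp [gmap]

open Classical in
theorem lifting {p n : ℕ} (b : Fin p → Fin n → R) (v : Fin p → M)
    (h : ∀ k, ∑ j, b j k • v j = 0) :
    ∃ z : Fin p → (Π₀ i : Idx R M, Qm i), (∀ j, gmap (z j) = v j) ∧ ∀ k, ∑ j, b j k • z j = 0 := by
  let i : Idx R M := ⟨(p, n), ⟨(b, v), h⟩⟩
  refine ⟨fun j => DFinsupp.single i (Submodule.Quotient.mk (Pi.single j 1)), fun j => ?_,
    fun k => ?_⟩
  · rw [gmap_single, toM_mk_single]
  · have h1 : ∑ j, b j k • DFinsupp.single i
        (Submodule.Quotient.mk (p := Submodule.span R (Set.range (rel i))) (Pi.single j 1)) =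
        DFinsupp.lsingle (R := R) (M := Qm) i ((Submodule.span R (Set.range (rel i))).mkQ
          (∑ j, (fun j => b j k) j • (Pi.single j (1 : R) : Fin p → R))) := by
      simp only [map_sum, map_smul, DFinsupp.lsingle_apply, Submodule.mkQ_apply]
    rw [h1, sum_smul_single_eq (fun j => b j k), Submodule.mkQ_apply,
      (Submodule.Quotient.mk_eq_zero (Submodule.span R (Set.range (rel i)))).mpr
        (Submodule.subset_span (⟨k, rfl⟩ : (fun j => b j k) ∈ Set.range (rel i))), map_zero]


/-- For every `R`-module `M` there is a universally exact sequence `0 → N → P → M → 0` with `P` pure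
projective; this row takes `P` to be a direct sum of finitely presented modules, which is pure
projective: there is a surjection from such a direct sum onto `M` whose kernel inclusion is
universally injective. -/
theorem result (R : Type u) [CommRing R]
    (M : Type u) [AddCommGroup M] [Module R M] :
    ∃ (ι : Type u) (Q : ι → Type u) (_ : ∀ i, AddCommGroup (Q i)) (_ : ∀ i, Module R (Q i)),
      (∀ i, Module.FinitePresentation R (Q i)) ∧
      ∃ g : (Π₀ i, Q i) →ₗ[R] M, Function.Surjective g ∧
        CAlgX.UniversallyInjective R (LinearMap.ker g).subtype := by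
  classical
  refine ⟨Idx R M, Qm, fun i => inferInstance, fun i => inferInstance, fun i => ?_, gmap, ?_, ?_⟩
  · exact Module.finitePresentation_of_free_of_surjective (Submodule.mkQ _)
      (Submodule.mkQ_surjective _)
      (by rw [Submodule.ker_mkQ]; exact Submodule.fg_span (Set.finite_range _))
  · intro m
    let i : Idx R M := ⟨(1, 0), ⟨(fun _ k => k.elim0, fun _ => m), fun k => k.elim0⟩⟩
    refine ⟨DFinsupp.single i (Submodule.Quotient.mk (Pi.single 0 1)), ?_⟩
    rw [gmap_single, toM_mk_single]
  · intro Q _ _
    apply Groth.Agent.Lib.Helper3.rTensor_injective_of_quot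
    intro n K hK
    obtain ⟨p, b, rfl⟩ := Submodule.fg_iff_exists_fin_generating_family.mp hK
    rw [injective_iff_map_eq_zero]
    intro t ht
    obtain ⟨x, rfl⟩ := exists_eq_sum_tmul _ t
    rw [map_sum] at ht
    simp only [LinearMap.rTensor_tmul, Submodule.subtype_apply] at ht
    obtain ⟨y, hy⟩ := (sum_tmul_mkQ_eq_zero_iff b (fun k => (x k : Π₀ i : Idx R M, Qm i))).mp ht
    have hrel : ∀ k, ∑ j, b j k • gmap (y j) = 0 := by
      intro k
      have hk := (x k).2
      rw [LinearMap.mem_ker, hy k, map_sum] at hk
      simpa only [map_smul] using hk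
    obtain ⟨z, hz1, hz2⟩ := lifting b (fun j => gmap (y j)) hrel
    let y' : Fin p → LinearMap.ker (gmap (R := R) (M := M)) := fun j =>
      ⟨y j - z j, by
        have h := gmap.map_sub (y j) (z j)
        rw [hz1, sub_self] at h
        exact h⟩
    refine (sum_tmul_mkQ_eq_zero_iff b x).mpr ⟨y', fun k => Subtype.ext ?_⟩
    simp only [y', Submodule.coe_sum, Submodule.coe_smul, smul_sub, Finset.sum_sub_distrib,
      hz2 k, sub_zero]
    exact hy k

end Groth.Agent.S8770
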