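import Groth.Statements.S8769
import Groth.Agent.S8770
-- import your own Groth.Agent.* helpers here

set_option autoImplicit false
universe u
open PureExt

namespace Groth.Agent.S8769

/-- An `R`-module `P` is pure projective (every linear map `P → N` lifts along every surjection `L → N`
for which `0 → ker → L → N → 0` is universally exact, i.e. whose kernel inclusion is universally
injective) if and only if `P` is a direct summand of a direct sum of finitely presented `R`-modules. -/
theorem result (R : Type u) [CommRing R]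
    (P : Type u) [AddCommGroup P] [Module R P] :
    (∀ ⦃L N : Type u⦄ [AddCommGroup L] [Module R L] [AddCommGroup N] [Module R N] (g : L →ₗ[R] N),
        Function.Surjective g → CAlgX.UniversallyInjective R (LinearMap.ker g).subtype →
        ∀ φ : P →ₗ[R] N, ∃ ψ : P →ₗ[R] L, g ∘ₗ ψ = φ) ↔
    ∃ (ι : Type u) (Q : ι → Type u) (_ : ∀ i, AddCommGroup (Q i)) (_ : ∀ i, Module R (Q i)),
      (∀ i, Module.FinitePresentation R (Q i)) ∧
      ∃ (s : P →ₗ[R] (Π₀ i, Q i)) (r : (Π₀ i, Q i) →ₗ[R] P), r ∘ₗ s = LinearMap.id := by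
  classical
  constructor
  · intro H
    obtain ⟨ι, Q, i1, i2, fp, g, hg, hui⟩ := Groth.Agent.S8770.result R P
    obtain ⟨ψ, hψ⟩ := H g hg hui LinearMap.id
    exact ⟨ι, Q, i1, i2, fp, ψ, g, hψ⟩
  · rintro ⟨ι, Q, i1, i2, fp, s, r, hrs⟩ L N _ _ _ _ g hg hK φ
    have hlift : ∀ i, ∃ ψi : Q i →ₗ[R] L, g ∘ₗ ψi = φ ∘ₗ r ∘ₗ DFinsupp.lsingle i := by
      intro i
      have := fp i
      exact Groth.Agent.Lib.Helper13.PureProj.exists_lift_of_finitePresentation g hg hK _
    choose ψi hψi using hlift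
    let Ψ : (Π₀ i, Q i) →ₗ[R] L := DFinsupp.lsum ℕ ψi
    have hΨ : g ∘ₗ Ψ = φ ∘ₗ r := by
      apply DFinsupp.lhom_ext'
      intro i
      rw [LinearMap.comp_assoc, LinearMap.comp_assoc, ← hψi i]
      congr 1
      ext x
      simp [Ψ]
    refine ⟨Ψ ∘ₗ s, ?_⟩
    rw [← LinearMap.comp_assoc, hΨ, LinearMap.comp_assoc, hrs, LinearMap.comp_id]

end Groth.Agent.S8769
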