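import Groth.Statements.S8772
-- import your own Groth.Agent.* helpers here

set_option autoImplicit false
universe u
open PureExt

namespace Groth.Agent.S8772

/-- The transpose of a linear map `M → Q^∨`. -/
noncomputable def transpose' (R : Type u) [CommRing R] {M Q : Type u} [AddCommGroup M]
    [Module R M] [AddCommGroup Q] [Module R Q] (g : M →ₗ[R] CharacterModule Q) :
    Q →ₗ[R] CharacterModule M where
  toFun q := AddMonoidHom.mk' (fun m => g m q) (fun a b => by rw [map_add]; rfl)
  map_add' q q' := by
    ext m
    show g m (q + q') = g m q + g m q'
    exact map_add _ _ _
  map_smul' r q := by
    ext m
    show g m (r • q) = g (r • m) q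
    rw [g.map_smul r m, CharacterModule.smul_apply]

/-- For every `R`-module `M` the evaluation map `M → (M^∨)^∨` into the double character module is
universally injective; with the pure injectivity of character modules this gives a universally exact
embedding of `M` into a pure injective module. (The published statement asserts only the existence
of such an embedding; this row names the map.) -/
theorem result (R : Type u) [CommRing R] (M : Type u) [AddCommGroup M]
    [Module R M] : CAlgX.UniversallyInjective R (PureExt.charEval R M) := by
  intro Q _ _
  rw [rTensor_injective_iff_lcomp_surjective]
  intro g
  refine ⟨CharacterModule.dual (transpose' R g), ?_⟩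
  ext m q
  rfl

end Groth.Agent.S8772
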