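import Groth.Statements.S8771
import Groth.Agent.S8772
-- import your own Groth.Agent.* helpers here

set_option autoImplicit false
universe u
open PureExt

namespace Groth.Agent.S8771

/-- An `R`-module `I` is pure injective (every linear map `K → I` extends along every universally
injective `K → L`) if and only if the evaluation map `I → (I^∨)^∨` into its double character module
splits, i.e. admits a linear retraction. -/
theorem result (R : Type u) [CommRing R] (I : Type u) [AddCommGroup I]
    [Module R I] :
    (∀ ⦃K L : Type u⦄ [AddCommGroup K] [Module R K] [AddCommGroup L] [Module R L] (f : K →ₗ[R] L),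
        CAlgX.UniversallyInjective R f → ∀ φ : K →ₗ[R] I, ∃ ψ : L →ₗ[R] I, ψ ∘ₗ f = φ) ↔
    ∃ r : CharacterModule (CharacterModule I) →ₗ[R] I, r ∘ₗ PureExt.charEval R I = LinearMap.id := by
  constructor
  · intro H
    exact H (PureExt.charEval R I) (Groth.Agent.S8772.result R I) LinearMap.id
  · rintro ⟨r, hr⟩ K L _ _ _ _ f hf φ
    have h1 := hf (CharacterModule I)
    rw [rTensor_injective_iff_lcomp_surjective] at h1
    obtain ⟨h, hh⟩ := h1 (PureExt.charEval R I ∘ₗ φ)
    refine ⟨r ∘ₗ h, ?_⟩
    have hh' : h ∘ₗ f = PureExt.charEval R I ∘ₗ φ := hh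
    rw [LinearMap.comp_assoc, hh', ← LinearMap.comp_assoc, hr, LinearMap.id_comp]

end Groth.Agent.S8771
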