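import Groth.Statements.S8812
import Groth.Agent.Lib.Helper13.Delta
-- import your own Groth.Agent.* helpers here

set_option autoImplicit false
universe u
open CategoryTheory AlgebraicGeometry
open Algz

namespace Groth.Agent.S8812

open Groth.Agent.Lib.Helper13.Delta Specialization

section Aux

variable {Y : Type u} [TopologicalSpace Y]

theorem codimPt_congr {w v w₁ v₁ : Y} (h : w ⤳ v) (h₁ : w₁ ⤳ v₁) (hw : w = w₁) (hv : v = v₁) :
    codimPt w v h = codimPt w₁ v₁ h₁ := by
  subst hw; subst hv; rfl

theorem codimPt_mono_right {w v v' : Y} (h : w ⤳ v) (h' : w ⤳ v') (hvv : v ⤳ v') :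
    codimPt w v h ≤ codimPt w v' h' := by
  unfold codimPt
  let f : Set.Ici (toEquiv v) → Set.Ici (toEquiv v') := fun x =>
    ⟨x.1, le_trans (show toEquiv v' ≤ toEquiv v from hvv) x.2⟩
  have hf : StrictMono f := fun a b hab => hab
  exact Order.height_le_height_apply_of_strictMono f hf _

theorem specializes_of_codimPt_eq_zero {w v : Y} (h : w ⤳ v) (h0 : codimPt w v h = 0) :
    v ⤳ w := by
  unfold codimPt at h0
  rw [Order.height_eq_zero] at h0
  exact h0 (show (⟨toEquiv v, le_refl (toEquiv v)⟩ : Set.Ici (toEquiv v)) ≤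
    ⟨toEquiv w, toEquiv_le_toEquiv.mpr h⟩ from toEquiv_le_toEquiv.mpr h)

/-- If the last `c` vanishes, replace the last pair by the point `y'`. -/
theorem replace {Z : Set Y} (hZ : IsClosed Z) {y y' : Y} (h : y ⤳ y') {k : ℕ}
    (S : DSystem Z y k) (hck : S.c (Fin.last k) = 0) :
    ∃ S' : DSystem Z y' k, S'.delta ≤ S.delta := by
  classical
  have hvy : S.v (Fin.last k) ⤳ y := by
    have := specializes_of_codimPt_eq_zero _ hck
    rwa [S.last_eq] at this
  let v' : Fin (k + 1) → Y := fun i => if i = Fin.last k then y' else S.v i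
  let w' : Fin (k + 1) → Y := fun i => if i = Fin.last k then y' else S.w i
  have hspec : ∀ i, w' i ⤳ v' i := by
    intro i
    by_cases hi : i = Fin.last k
    · simp only [w', v', if_pos hi]; exact specializes_rfl
    · simp only [w', v', if_neg hi]; exact S.spec i
  have hspec_succ : ∀ j : Fin k, w' j.castSucc ⤳ v' j.succ := by
    intro j
    have hj : j.castSucc ≠ Fin.last k := Fin.castSucc_ne_last j
    simp only [w', v', if_neg hj]
    by_cases hs : j.succ = Fin.last k
    · rw [if_pos hs]
      have := S.spec_succ j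
      rw [hs] at this
      exact this.trans (hvy.trans h)
    · rw [if_neg hs]; exact S.spec_succ j
  have hstart : v' 0 ∈ Z := by
    by_cases h0 : (0 : Fin (k + 1)) = Fin.last k
    · simp only [v', if_pos h0]
      have hv0 := S.start_mem
      rw [h0] at hv0
      exact (hvy.trans h).mem_closed hZ hv0
    · simp only [v', if_neg h0]; exact S.start_mem
  have hlast : w' (Fin.last k) = y' := by simp [w']
  let S' : DSystem Z y' k :=
    { v := v', w := w', spec := hspec, spec_succ := hspec_succ, start_mem := hstart,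
      last_eq := hlast }
  refine ⟨S', ?_⟩
  have hc : ∀ j, S'.c j ≤ S.c j := by
    intro j
    by_cases hj : j = Fin.last k
    · have : S'.c j = 0 := codimPt_eq_zero_of_specializes _ _ _
        (by show v' j ⤳ w' j; simp only [w', v', if_pos hj]; exact specializes_rfl)
      rw [this]; exact zero_le
    · exact (codimPt_congr _ _ (by show w' j = S.w j; simp [w', hj])
        (by show v' j = S.v j; simp [v', hj])).le
  have hb : ∀ j, S.b j ≤ S'.b j := by
    intro j
    have hj : j.castSucc ≠ Fin.last k := Fin.castSucc_ne_last j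
    by_cases hs : j.succ = Fin.last k
    · have e1 : S'.w j.castSucc = S.w j.castSucc := by show w' _ = _; simp [w', hj]
      have e2 : S'.v j.succ = y' := by show v' _ = _; simp [v', hs]
      have hsp : S.v j.succ ⤳ y' := by rw [hs]; exact hvy.trans h
      calc S.b j ≤ codimPt (S.w j.castSucc) y' ((S.spec_succ j).trans hsp) :=
            codimPt_mono_right _ _ hsp
        _ = S'.b j := codimPt_congr _ _ e1.symm e2.symm
    · exact (codimPt_congr _ _ (by show w' _ = _; simp [w', hj])
        (by show v' _ = _; simp [v', hs])).ge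
  unfold DSystem.delta
  exact add_le_add le_rfl (Finset.sup_mono_fun fun i _ =>
    tsub_le_tsub (Finset.sum_le_sum fun j _ => hc j) (Finset.sum_le_sum fun j _ => hb j))

/-- If the last `c` is positive, extend the system by the point `y'`. -/
theorem extend [T0Space Y] {Z : Set Y} {y y' : Y} (h : y ⤳ y') (hne : y ≠ y') {k : ℕ}
    (S : DSystem Z y k) (hck : 1 ≤ S.c (Fin.last k)) :
    ∃ S' : DSystem Z y' (k + 1), S'.delta ≤ S.delta := by
  classical
  let v' : Fin (k + 1 + 1) → Y := Fin.snoc (α := fun _ => Y) S.v y'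
  let w' : Fin (k + 1 + 1) → Y := Fin.snoc (α := fun _ => Y) S.w y'
  have hv_cs : ∀ j, v' j.castSucc = S.v j := fun j =>
    Fin.snoc_castSucc (α := fun _ => Y) (p := S.v) (x := y') j
  have hw_cs : ∀ j, w' j.castSucc = S.w j := fun j =>
    Fin.snoc_castSucc (α := fun _ => Y) (p := S.w) (x := y') j
  have hv_last : v' (Fin.last (k + 1)) = y' := Fin.snoc_last (α := fun _ => Y) (p := S.v) (x := y')
  have hw_last : w' (Fin.last (k + 1)) = y' := Fin.snoc_last (α := fun _ => Y) (p := S.w) (x := y')
  have hspec : ∀ i, w' i ⤳ v' i := by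
    intro i
    induction i using Fin.lastCases with
    | last => rw [hw_last, hv_last]
    | cast j => rw [hw_cs, hv_cs]; exact S.spec j
  have hspec_succ : ∀ i : Fin (k + 1), w' i.castSucc ⤳ v' i.succ := by
    intro i
    induction i using Fin.lastCases with
    | last => rw [hw_cs, Fin.succ_last, hv_last, S.last_eq]; exact h
    | cast j => rw [hw_cs, Fin.succ_castSucc, hv_cs]; exact S.spec_succ j
  have hstart : v' 0 ∈ Z := by
    rw [← Fin.castSucc_zero, hv_cs]; exact S.start_mem
  let S' : DSystem Z y' (k + 1) :=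
    { v := v', w := w', spec := hspec, spec_succ := hspec_succ, start_mem := hstart,
      last_eq := hw_last }
  refine ⟨S', ?_⟩
  have hc_cs : ∀ j, S'.c j.castSucc = S.c j := fun j =>
    codimPt_congr _ _ (hw_cs j) (hv_cs j)
  have hc_last : S'.c (Fin.last (k + 1)) = 0 :=
    codimPt_eq_zero_of_specializes _ _ _ (by show v' _ ⤳ w' _; rw [hv_last, hw_last])
  have hb_cs : ∀ j : Fin k, S'.b j.castSucc = S.b j := fun j =>
    codimPt_congr _ _ (hw_cs j.castSucc) (by show v' _ = _; rw [Fin.succ_castSucc, hv_cs])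
  have hb_last : 1 ≤ S'.b (Fin.last k) := by
    apply one_le_codimPt
    show w' (Fin.last k).castSucc ≠ v' (Fin.last k).succ
    rw [hw_cs, Fin.succ_last, hv_last, S.last_eq]
    exact hne
  -- the terms of the old system
  set T : Fin (k + 1) → ℕ∞ := fun i =>
    (∑ j ∈ Finset.univ.filter (fun j : Fin (k + 1) => i ≤ j), S.c j) -
      ∑ j ∈ Finset.univ.filter (fun j : Fin k => i.val ≤ j.val), S.b j with hT
  set M : ℕ∞ := Finset.univ.sup T with hM
  have hM1 : 1 ≤ M := by
    refine le_trans ?_ (Finset.le_sup (f := T) (Finset.mem_univ (Fin.last k)))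
    simp only [T]
    have hB0 : (∑ j ∈ Finset.univ.filter (fun j : Fin k => (Fin.last k).val ≤ j.val), S.b j) = 0 := by
      apply Finset.sum_eq_zero
      intro j hj
      simp only [Finset.mem_filter, Finset.mem_univ, true_and, Fin.val_last] at hj
      exact absurd hj (not_le.mpr j.isLt)
    rw [hB0, tsub_zero]
    refine le_trans hck ?_
    exact Finset.single_le_sum (f := S.c) (fun _ _ => zero_le)
      (Finset.mem_filter.mpr ⟨Finset.mem_univ _, le_refl _⟩)
  have hT' : ∀ i : Fin (k + 1 + 1),
      (∑ j ∈ Finset.univ.filter (fun j : Fin (k + 1 + 1) => i ≤ j), S'.c j) -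
        ∑ j ∈ Finset.univ.filter (fun j : Fin (k + 1) => i.val ≤ j.val), S'.b j ≤ M - 1 := by
    intro i
    induction i using Fin.lastCases with
    | last =>
      have hC : (∑ j ∈ Finset.univ.filter (fun j : Fin (k + 1 + 1) => Fin.last (k + 1) ≤ j),
          S'.c j) = 0 := by
        apply Finset.sum_eq_zero
        intro j hj
        simp only [Finset.mem_filter, Finset.mem_univ, true_and] at hj
        have : j = Fin.last (k + 1) := le_antisymm (Fin.le_last j) hj
        rw [this, hc_last]
      rw [hC, zero_tsub]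
      exact zero_le
    | cast i0 =>
      have hC : (∑ j ∈ Finset.univ.filter (fun j : Fin (k + 1 + 1) => i0.castSucc ≤ j), S'.c j) =
          ∑ j ∈ Finset.univ.filter (fun j : Fin (k + 1) => i0 ≤ j), S.c j := by
        rw [Finset.sum_filter, Finset.sum_filter, Fin.sum_univ_castSucc, if_pos (Fin.le_last _),
          hc_last, add_zero]
        refine Finset.sum_congr rfl fun j _ => ?_
        rw [hc_cs j]
        simp only [Fin.castSucc_le_castSucc_iff]
      have hB : (∑ j ∈ Finset.univ.filter (fun j : Fin (k + 1) => i0.castSucc.val ≤ j.val),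
          S'.b j) = (∑ j ∈ Finset.univ.filter (fun j : Fin k => i0.val ≤ j.val), S.b j) +
            S'.b (Fin.last k) := by
        rw [Finset.sum_filter, Finset.sum_filter, Fin.sum_univ_castSucc]
        rw [if_pos (by simp only [Fin.val_castSucc, Fin.val_last]; exact Nat.lt_succ_iff.mp i0.isLt)]
        congr 1
        refine Finset.sum_congr rfl fun j _ => ?_
        rw [hb_cs j]
        simp only [Fin.val_castSucc]
      rw [hC, hB, tsub_add_eq_tsub_tsub]
      calc _ ≤ T i0 - 1 := tsub_le_tsub_left hb_last _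
        _ ≤ M - 1 := tsub_le_tsub_right (Finset.le_sup (f := T) (Finset.mem_univ i0)) _
  show ((k + 1 : ℕ) : ℕ∞) + _ ≤ (k : ℕ∞) + M
  calc ((k + 1 : ℕ) : ℕ∞) + _ ≤ ((k + 1 : ℕ) : ℕ∞) + (M - 1) :=
        add_le_add le_rfl (Finset.sup_le fun i _ => hT' i)
    _ = (k : ℕ∞) + (1 + (M - 1)) := by push_cast; rw [add_assoc]
    _ = (k : ℕ∞) + M := by rw [add_tsub_cancel_of_le hM1]

end Aux


/-- Let Y be a Noetherian scheme and Z ⊆ Y a closed subset. If y specializes to y' then δ_Z(y') ≤
δ_Z(y); equivalently each set {y | δ_Z(y) ≤ k} is stable under specialization. -/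
theorem result (Y : Scheme.{u}) [IsNoetherian Y] (Z : Set Y) (hZ : IsClosed Z) (y y' : Y) (h : y ⤳ y') : Algz.deltaZ Z y' ≤ Algz.deltaZ Z y := by
  refine le_iInf₂ fun k S => ?_
  by_cases hyy : y = y'
  · subst hyy
    exact iInf₂_le k S
  by_cases hck : S.c (Fin.last k) = 0
  · obtain ⟨S', hS'⟩ := replace hZ h S hck
    exact (iInf₂_le k S').trans hS'
  · obtain ⟨S', hS'⟩ := extend h hyy S (Order.one_le_iff_ne_zero.mpr hck)
    exact (iInf₂_le (k + 1) S').trans hS'

end Groth.Agent.S8812
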