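import Groth.Statements.S8813
-- import your own Groth.Agent.* helpers here

set_option autoImplicit false
universe u
open CategoryTheory AlgebraicGeometry
open Algz

namespace Groth.Agent.S8813

/-- Let Y be a Noetherian scheme, Z ⊆ Y a closed subset, y a point of Y and z a point of Z lying in the
closure of y. Then δ_Z(y) is at most the dimension of the local ring at z of the closure of y with
its reduced structure, that is, the Krull dimension of O_{Y,z}/𝔭 where 𝔭 is the prime ideal of the
local ring O_{Y,z} given by the point of Spec O_{Y,z} that maps to y. -/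
theorem result (Y : Scheme.{u}) [IsNoetherian Y] (Z : Set Y) (hZ : IsClosed Z) (y z : Y) (h : y ⤳ z) (hz : z ∈ Z) (P : PrimeSpectrum (Y.presheaf.stalk z)) (hP : (Y.fromSpecStalk z).base P = y) : ((Algz.deltaZ Z y : ℕ∞) : WithBot ℕ∞) ≤ ringKrullDim (↥(Y.presheaf.stalk z) ⧸ P.asIdeal) := by
  classical
  let S : DSystem Z y 0 :=
    { v := fun _ => z, w := fun _ => y, spec := fun _ => h, spec_succ := fun i => i.elim0,
      start_mem := hz, last_eq := rfl }
  have hdelta : S.delta ≤ codimPt y z h := by
    unfold DSystem.delta
    simp only [Nat.cast_zero, zero_add]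
    refine Finset.sup_le fun i _ => ?_
    have hi : i = 0 := Fin.fin_one_eq_zero i
    subst hi
    refine le_trans tsub_le_self ?_
    refine le_of_eq ?_
    rw [Finset.sum_eq_single_of_mem (0 : Fin 1) (by simp)]
    · rfl
    · intro b _ hb
      exact absurd (Fin.fin_one_eq_zero b) hb
  -- the comparison with the local ring
  let φ : PrimeSpectrum (Y.presheaf.stalk z) → Y := fun p => (Y.fromSpecStalk z).base p
  have hφemb : Topology.IsEmbedding φ := (Y.fromSpecStalk z).isEmbedding
  have hrange : ∀ x : Y, x ⤳ z → ∃ p, φ p = x := by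
    intro x hx
    have : x ∈ Set.range (Y.fromSpecStalk z) := by
      rw [Scheme.range_fromSpecStalk]; exact hx
    obtain ⟨p, hp⟩ := this
    exact ⟨p, hp⟩
  let lift : Set.Ici (Specialization.toEquiv z) → PrimeSpectrum (Y.presheaf.stalk z) := fun x =>
    Classical.choose (hrange (Specialization.ofEquiv x.1) x.2)
  have hlift : ∀ x, φ (lift x) = Specialization.ofEquiv x.1 := fun x =>
    Classical.choose_spec (hrange (Specialization.ofEquiv x.1) x.2)
  let G : Set.Ici (Specialization.toEquiv z) → (PrimeSpectrum (Y.presheaf.stalk z))ᵒᵈ := fun x =>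
    OrderDual.toDual (lift x)
  have hG : StrictMono G := by
    intro a b hab
    have hab' : a.1 < b.1 := hab
    have h1 : Specialization.ofEquiv b.1 ⤳ Specialization.ofEquiv a.1 := hab'.le
    have h2 : ¬ Specialization.ofEquiv a.1 ⤳ Specialization.ofEquiv b.1 := hab'.not_ge
    have h1' : lift b ⤳ lift a := by
      rw [← hφemb.isInducing.specializes_iff, hlift, hlift]; exact h1
    have h2' : ¬ lift a ⤳ lift b := by
      rw [← hφemb.isInducing.specializes_iff, hlift, hlift]; exact h2
    show lift b < lift a
    exact lt_of_le_not_ge ((PrimeSpectrum.le_iff_specializes _ _).mpr h1')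
      (fun h3 => h2' ((PrimeSpectrum.le_iff_specializes _ _).mp h3))
  have hyP : lift ⟨Specialization.toEquiv y, Specialization.toEquiv_le_toEquiv.mpr h⟩ = P := by
    apply hφemb.injective
    rw [hlift]
    exact hP.symm
  have hcod : codimPt y z h ≤ Order.coheight P := by
    unfold codimPt
    have := Order.height_le_height_apply_of_strictMono G hG
      ⟨Specialization.toEquiv y, Specialization.toEquiv_le_toEquiv.mpr h⟩
    simp only [G, hyP, Order.height_toDual] at this
    exact this
  have hdim : ((Order.coheight P : ℕ∞) : WithBot ℕ∞) = ringKrullDim ((Y.presheaf.stalk z) ⧸ P.asIdeal) := by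
    rw [ringKrullDim_quotient]
    have hset : PrimeSpectrum.zeroLocus (R := Y.presheaf.stalk z) (P.asIdeal : Set (Y.presheaf.stalk z)) = Set.Ici P := by
      ext q
      exact Iff.rfl
    rw [hset, ← Order.coheight_eq_krullDim_Ici]
  rw [← hdim]
  exact WithBot.coe_le_coe.mpr (((iInf₂_le 0 S).trans hdelta).trans hcod)

end Groth.Agent.S8813
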