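import Groth.Statements.S8814
-- import your own Groth.Agent.* helpers here

set_option autoImplicit false
universe u
open CategoryTheory AlgebraicGeometry
open Algz

namespace Groth.Agent.S8814

open Specialization

section Aux

variable {Y : Scheme.{u}} (δ : Y → ℤ)

theorem dim_le_of_specializes (hδ : Cyc.IsDimFun Y δ) {x y : Y} (h : x ⤳ y) : δ y ≤ δ x := by
  by_cases hxy : x = y
  · rw [hxy]
  · exact (hδ x y h hxy).1.le

theorem codimPt_le (hδ : Cyc.IsDimFun Y δ) {w v : Y} (h : w ⤳ v) :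
    codimPt w v h ≤ ((δ w - δ v).toNat : ℕ∞) := by
  unfold codimPt
  apply Order.height_le
  intro p hp
  let f : Set.Ici (toEquiv v) → ℤ := fun x => δ (ofEquiv x.1)
  have hf : StrictMono f := by
    intro a b hab
    have hab' : a.1 < b.1 := hab
    have h1 : ofEquiv b.1 ⤳ ofEquiv a.1 := hab'.le
    have h2 : ofEquiv b.1 ≠ ofEquiv a.1 := by
      intro heq
      have : b.1 = a.1 := heq
      rw [this] at hab'
      exact lt_irrefl _ hab'
    exact (hδ _ _ h1 h2).1
  have key := LTSeries.head_add_length_le_int (p.map f hf)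
  simp only [LTSeries.head_map, LTSeries.last_map] at key
  have hlast : f p.last = δ w := by rw [hp]; rfl
  have hhead : δ v ≤ f p.head := dim_le_of_specializes δ hδ (show ofEquiv p.head.1 ⤳ v from p.head.2)
  have : (p.length : ℤ) ≤ δ w - δ v := by
    have : ((p.map f hf).length : ℤ) = p.length := rfl
    linarith
  have h2 : p.length ≤ (δ w - δ v).toNat := by omega
  exact_mod_cast h2

theorem le_codimPt (hδ : Cyc.IsDimFun Y δ) :
    ∀ (n : ℕ) (w v : Y) (h : w ⤳ v), δ w - δ v = n → (n : ℕ∞) ≤ codimPt w v h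
  | 0 => fun _ _ _ _ => by simp
  | n + 1 => fun w v h hd => by
      have hne : w ≠ v := by
        intro e
        subst e
        simp at hd
        omega
      obtain ⟨m, ⟨z, ⟨hwz, hzv, hzw⟩, rfl⟩, hmax⟩ :=
        Int.exists_greatest_of_bdd (P := fun m => ∃ z, (w ⤳ z ∧ z ⤳ v ∧ z ≠ w) ∧ δ z = m)
          ⟨δ w, fun m ⟨z, ⟨hwz, _, hzw⟩, hm⟩ => hm ▸ (hδ w z hwz (Ne.symm hzw)).1.le⟩
          ⟨δ v, v, ⟨h, specializes_rfl, Ne.symm hne⟩, rfl⟩
      have himm : ∀ z', w ⤳ z' → z' ⤳ z → z' = w ∨ z' = z := by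
        intro z' h1 h2
        by_contra hc
        push Not at hc
        have h3 := hmax (δ z') ⟨z', ⟨h1, h2.trans hzv, hc.1⟩, rfl⟩
        have h4 := (hδ z' z h2 hc.2).1
        omega
      have hδz : δ w = δ z + 1 := (hδ w z hwz (Ne.symm hzw)).2 himm
      have IH := le_codimPt hδ n z v hzv (by omega)
      have hlt : (⟨toEquiv z, toEquiv_le_toEquiv.mpr hzv⟩ : Set.Ici (toEquiv v)) <
          ⟨toEquiv w, toEquiv_le_toEquiv.mpr h⟩ := by
        refine lt_of_le_not_ge (toEquiv_le_toEquiv.mpr hwz) ?_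
        intro hle
        have := congrArg (fun x : Set.Ici (toEquiv v) => ofEquiv x.1) (hle.antisymm hwz)
        exact hzw this.symm
      have := Order.height_add_one_le hlt
      calc ((n + 1 : ℕ) : ℕ∞) = (n : ℕ∞) + 1 := by push_cast; rfl
        _ ≤ codimPt z v hzv + 1 := by gcongr
        _ ≤ codimPt w v h := this

theorem codimPt_eq (hδ : Cyc.IsDimFun Y δ) {w v : Y} (h : w ⤳ v) :
    codimPt w v h = ((δ w - δ v).toNat : ℕ∞) := by
  refine le_antisymm (codimPt_le δ hδ h) (le_codimPt δ hδ _ w v h ?_)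
  have := dim_le_of_specializes δ hδ h
  omega

end Aux


/-- Let Y be a Noetherian scheme, Z ⊆ Y a closed subset and δ a dimension function on Y. If δ_Z(y) is a
natural number n, then δ(y) ≤ n + δ(z) for some z ∈ Z; in other words δ(y) ≤ δ_Z(y) + δ_max with
δ_max the maximum of δ on Z. -/
theorem result (Y : Scheme.{u}) [IsNoetherian Y] (Z : Set Y) (hZ : IsClosed Z) (δ : Y → ℤ) (hδ : Cyc.IsDimFun Y δ) (y : Y) (n : ℕ) (hn : Algz.deltaZ Z y = n) : ∃ z ∈ Z, δ y ≤ n + δ z := by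
  classical
  have hlt : Algz.deltaZ Z y < (n : ℕ∞) + 1 := by rw [hn]; exact ENat.natCast_lt_succ
  unfold Algz.deltaZ at hlt
  obtain ⟨k, hk⟩ := iInf_lt_iff.mp hlt
  obtain ⟨S, hS⟩ := iInf_lt_iff.mp hk
  have hSn : S.delta ≤ n := ENat.lt_natCast_add_one_iff.mp hS
  refine ⟨S.v 0, S.start_mem, ?_⟩
  have hc : ∀ i, S.c i = ((δ (S.w i) - δ (S.v i)).toNat : ℕ∞) := fun i => codimPt_eq δ hδ _
  have hb : ∀ i, S.b i = ((δ (S.w i.castSucc) - δ (S.v i.succ)).toNat : ℕ∞) := fun i =>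
    codimPt_eq δ hδ _
  have hT0 : (∑ j ∈ Finset.univ.filter (fun j : Fin (k + 1) => (0 : Fin (k + 1)) ≤ j), S.c j) -
      ∑ j ∈ Finset.univ.filter (fun j : Fin k => (0 : Fin (k + 1)).val ≤ j.val), S.b j ≤ n := by
    refine le_trans ?_ hSn
    unfold DSystem.delta
    refine le_trans ?_ le_add_self
    exact Finset.le_sup (f := fun i : Fin (k + 1) =>
      (∑ j ∈ Finset.univ.filter (fun j : Fin (k + 1) => i ≤ j), S.c j) -
        ∑ j ∈ Finset.univ.filter (fun j : Fin k => i.val ≤ j.val), S.b j) (Finset.mem_univ 0)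
  have hf1 : Finset.univ.filter (fun j : Fin (k + 1) => (0 : Fin (k + 1)) ≤ j) = Finset.univ := by
    ext j; simp
  have hf2 : Finset.univ.filter (fun j : Fin k => (0 : Fin (k + 1)).val ≤ j.val) = Finset.univ := by
    ext j; simp
  rw [hf1, hf2] at hT0
  simp only [hc, hb] at hT0
  rw [← Nat.cast_sum, ← Nat.cast_sum, ← ENat.natCast_sub, Nat.cast_le] at hT0
  set C := ∑ i : Fin (k + 1), (δ (S.w i) - δ (S.v i)).toNat with hC
  set B := ∑ i : Fin k, (δ (S.w i.castSucc) - δ (S.v i.succ)).toNat with hB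
  have hCi : (C : ℤ) = ∑ i : Fin (k + 1), (δ (S.w i) - δ (S.v i)) := by
    rw [hC, Nat.cast_sum]
    refine Finset.sum_congr rfl fun i _ => ?_
    exact Int.toNat_of_nonneg (sub_nonneg.mpr (dim_le_of_specializes δ hδ (S.spec i)))
  have hBi : (B : ℤ) = ∑ i : Fin k, (δ (S.w i.castSucc) - δ (S.v i.succ)) := by
    rw [hB, Nat.cast_sum]
    refine Finset.sum_congr rfl fun i _ => ?_
    exact Int.toNat_of_nonneg (sub_nonneg.mpr (dim_le_of_specializes δ hδ (S.spec_succ i)))
  have htel : (∑ i : Fin (k + 1), (δ (S.w i) - δ (S.v i))) -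
      (∑ i : Fin k, (δ (S.w i.castSucc) - δ (S.v i.succ))) = δ (S.w (Fin.last k)) - δ (S.v 0) := by
    rw [Finset.sum_sub_distrib, Finset.sum_sub_distrib,
      Fin.sum_univ_castSucc (f := fun i => δ (S.w i)), Fin.sum_univ_succ (f := fun i => δ (S.v i))]
    ring
  rw [S.last_eq] at htel
  omega

end Groth.Agent.S8814
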