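import Groth.Statements.S8815
import Groth.Agent.S8814
-- import your own Groth.Agent.* helpers here

set_option autoImplicit false
universe u
open CategoryTheory AlgebraicGeometry
open Algz

namespace Groth.Agent.S8815

section Aux

variable {A : Type u} [CommRing A] [IsNoetherianRing A] [IsLocalRing A]

theorem coheight_lt_top' (p : PrimeSpectrum A) : Order.coheight p < ⊤ := by
  have h1 := Order.coheight_le_krullDim p
  have h2 : Order.krullDim (PrimeSpectrum A) < ⊤ := ringKrullDim_lt_top
  exact WithBot.coe_lt_coe.mp (h1.trans_lt h2)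

theorem sat_of_maxlen (s : LTSeries (PrimeSpectrum A))
    (hs : (s.length : ℕ∞) = Order.coheight s.head) :
    (∀ i : Fin s.length, s (Fin.castSucc i) ⋖ s (Fin.succ i)) ∧ IsMax s.last := by
  have key := Order.coheight_eq_index_of_length_eq_head_coheight hs
  constructor
  · intro i
    refine ⟨s.step i, fun z hz1 hz2 => ?_⟩
    have a1 := Order.coheight_add_one_le hz1
    have a2 := Order.coheight_add_one_le hz2
    rw [key] at a1 a2
    have a3 : ((((Fin.succ i).rev : ℕ) + 2 : ℕ) : ℕ∞) ≤ (((Fin.castSucc i).rev : ℕ) : ℕ∞) := by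
      calc ((((Fin.succ i).rev : ℕ) + 2 : ℕ) : ℕ∞) = (((Fin.succ i).rev : ℕ) : ℕ∞) + 1 + 1 := by
            push_cast; ring
        _ ≤ Order.coheight z + 1 := by gcongr
        _ ≤ _ := a1
    have a4 := Nat.cast_le.mp a3
    simp only [Fin.val_rev, Fin.val_succ, Fin.val_castSucc] at a4
    omega
  · rw [← Order.coheight_eq_zero, RelSeries.last, key]
    simp

theorem maxlen_exists (p : PrimeSpectrum A) :
    ∃ s : LTSeries (PrimeSpectrum A), s.head = p ∧ (s.length : ℕ∞) = Order.coheight p := by
  obtain ⟨n, hn⟩ : ∃ n : ℕ, Order.coheight p = n :=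
    ⟨(Order.coheight p).toNat, (ENat.natCast_toNat (coheight_lt_top' p).ne).symm⟩
  obtain ⟨s, hs1, hs2⟩ := Order.exists_series_of_coheight_eq_coe p hn
  exact ⟨s, hs1, by rw [hs2, hn]⟩

theorem eq_of_isMax {x y : PrimeSpectrum A} (hx : IsMax x) (hy : IsMax y) : x = y := by
  rw [PrimeSpectrum.isMax_iff] at hx hy
  ext1
  rw [IsLocalRing.eq_maximalIdeal hx, IsLocalRing.eq_maximalIdeal hy]

theorem coheight_covBy (hA : CAlg.IsCatenary A) {x y : PrimeSpectrum A} (hxy : x ⋖ y) :
    Order.coheight x = Order.coheight y + 1 := by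
  refine le_antisymm ?_ (Order.coheight_add_one_le hxy.lt)
  obtain ⟨s, hs1, hs2⟩ := maxlen_exists x
  obtain ⟨t', ht1, ht2⟩ := maxlen_exists y
  have hsat_s := sat_of_maxlen s (by rw [hs1]; exact hs2)
  have hsat_t' := sat_of_maxlen t' (by rw [ht1]; exact ht2)
  let f : Fin (t'.length + 1 + 1) → PrimeSpectrum A :=
    Fin.cons (α := fun _ => PrimeSpectrum A) x (fun i => t' i)
  have f0 : f 0 = x := Fin.cons_zero (α := fun _ => PrimeSpectrum A) _ _
  have fs : ∀ i, f (Fin.succ i) = t' i := fun i => Fin.cons_succ (α := fun _ => PrimeSpectrum A) _ _ _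
  have f1 : f (Fin.succ 0) = y := by rw [fs]; exact ht1
  let t : LTSeries (PrimeSpectrum A) :=
    { length := t'.length + 1
      toFun := f
      step := by
        intro i
        induction i using Fin.cases with
        | zero =>
          show f (Fin.castSucc 0) < f (Fin.succ 0)
          rw [Fin.castSucc_zero, f0, f1]; exact hxy.lt
        | succ j =>
          show f (Fin.castSucc (Fin.succ j)) < f (Fin.succ (Fin.succ j))
          rw [← Fin.succ_castSucc, fs, fs]
          exact t'.step j }
  have ht_sat : ∀ i : Fin t.length, t (Fin.castSucc i) ⋖ t (Fin.succ i) := by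
    intro i
    induction i using Fin.cases with
    | zero =>
      show f (Fin.castSucc 0) ⋖ f (Fin.succ 0)
      rw [Fin.castSucc_zero, f0, f1]; exact hxy
    | succ j =>
      show f (Fin.castSucc (Fin.succ j)) ⋖ f (Fin.succ (Fin.succ j))
      rw [← Fin.succ_castSucc, fs, fs]
      exact hsat_t'.1 j
  have ht_last : t.last = t'.last := by
    show f (Fin.last (t'.length + 1)) = t' (Fin.last t'.length)
    rw [← Fin.succ_last, fs]
  have hlast : s.last = t.last := by
    rw [ht_last]; exact eq_of_isMax hsat_s.2 hsat_t'.2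
  have hhead : s.head = t.head := by
    rw [hs1]; exact f0.symm
  have hlen := hA.2 s t hhead hlast hsat_s.1 ht_sat
  rw [← hs2, ← ht2, hlen]
  push_cast
  rfl

/-- The dimension function `p ↦ dim (A / p)`. -/
noncomputable def dimP (p : PrimeSpectrum A) : ℤ :=
  ((Order.coheight p).toNat : ℤ)

theorem dimP_spec (hA : CAlg.IsCatenary A) (x y : PrimeSpectrum A) (hxy : x ⤳ y) (hne : x ≠ y) :
    dimP y < dimP x ∧
      ((∀ z : PrimeSpectrum A, x ⤳ z → z ⤳ y → z = x ∨ z = y) → dimP x = dimP y + 1) := by
  have hle : x ≤ y := (PrimeSpectrum.le_iff_specializes x y).mpr hxy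
  have hlt : x < y := lt_of_le_of_ne hle hne
  have hfx := coheight_lt_top' x
  have hfy := coheight_lt_top' y
  constructor
  · have := Order.coheight_strictAnti hlt hfy
    unfold dimP
    have ex : Order.coheight x = ((Order.coheight x).toNat : ℕ∞) :=
      (ENat.natCast_toNat hfx.ne).symm
    have ey : Order.coheight y = ((Order.coheight y).toNat : ℕ∞) :=
      (ENat.natCast_toNat hfy.ne).symm
    rw [ex, ey] at this
    have h2 : (Order.coheight y).toNat < (Order.coheight x).toNat := by exact_mod_cast this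
    exact_mod_cast h2
  · intro himm
    have hcov : x ⋖ y := by
      refine ⟨hlt, fun z hz1 hz2 => ?_⟩
      rcases himm z ((PrimeSpectrum.le_iff_specializes x z).mp hz1.le)
          ((PrimeSpectrum.le_iff_specializes z y).mp hz2.le) with h | h
      · exact lt_irrefl _ (h ▸ hz1)
      · exact lt_irrefl _ (h ▸ hz2)
    have := coheight_covBy hA hcov
    unfold dimP
    rw [this, ENat.toNat_add hfy.ne (by simp)]
    push_cast
    rfl

theorem isDimFun_dimP (hA : CAlg.IsCatenary A) :
    Cyc.IsDimFun (Spec (CommRingCat.of A)) (fun x => dimP (A := A) x) :=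
  fun x y hxy hne => dimP_spec hA x y hxy hne

end Aux


/-- Let A be a catenary Noetherian local ring, Y = Spec A and Z the closed point. Then δ_Z(y) equals the
dimension of the closure of y, i.e. dim(A/p_y), for every point y. -/
theorem result (A : Type u) [CommRing A] [IsNoetherianRing A] [IsLocalRing A] (hA : CAlg.IsCatenary A) (y : Spec (CommRingCat.of A)) : ((Algz.deltaZ ({IsLocalRing.closedPoint A} : Set (Spec (CommRingCat.of A))) y : ℕ∞) : WithBot ℕ∞) = ringKrullDim (A ⧸ y.asIdeal) := by
  classical
  set Z : Set (Spec (CommRingCat.of A)) := {IsLocalRing.closedPoint A} with hZdef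
  have hZ : IsClosed Z :=
    (PrimeSpectrum.isClosed_singleton_iff_isMaximal (IsLocalRing.closedPoint A)).mpr
      (IsLocalRing.maximalIdeal.isMaximal A)
  have hm_max : IsMax (IsLocalRing.closedPoint A) := by
    show IsMax (⊤ : PrimeSpectrum A)
    exact isMax_top
  have hdm : dimP (IsLocalRing.closedPoint A) = 0 := by
    unfold dimP
    rw [Order.coheight_eq_zero.mpr hm_max]
    rfl
  have hym : y ⤳ IsLocalRing.closedPoint A := IsLocalRing.specializes_closedPoint y
  let S : DSystem Z y 0 :=
    { v := fun _ => IsLocalRing.closedPoint A, w := fun _ => y, spec := fun _ => hym,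
      spec_succ := fun i => i.elim0, start_mem := rfl, last_eq := rfl }
  have hc0 : S.c 0 = ((dimP (A := A) y).toNat : ℕ∞) := by
    have := Groth.Agent.S8814.codimPt_eq (Y := Spec (CommRingCat.of A)) (fun x => dimP (A := A) x)
      (isDimFun_dimP hA) hym
    unfold DSystem.c
    rw [this]
    simp only [hdm, sub_zero]
  have hSdelta : S.delta ≤ ((dimP (A := A) y).toNat : ℕ∞) := by
    unfold DSystem.delta
    rw [← hc0]
    simp only [Nat.cast_zero, zero_add]
    refine Finset.sup_le fun i _ => ?_
    have hi : i = 0 := Fin.fin_one_eq_zero i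
    subst hi
    refine le_trans tsub_le_self ?_
    refine le_of_eq ?_
    apply Finset.sum_eq_single_of_mem
    · simp
    · intro b _ hb
      exact absurd (Fin.fin_one_eq_zero b) hb
  have hle : Algz.deltaZ Z y ≤ ((dimP (A := A) y).toNat : ℕ∞) := (iInf₂_le 0 S).trans hSdelta
  have hne : Algz.deltaZ Z y ≠ ⊤ := ne_top_of_le_ne_top (ENat.coe_ne_top _) hle
  set n := (Algz.deltaZ Z y).toNat with hn_def
  have hn : Algz.deltaZ Z y = n := (ENat.natCast_toNat hne).symm
  obtain ⟨z, hz, hzle⟩ := Groth.Agent.S8814.result (Spec (CommRingCat.of A)) Z hZ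
    (fun x => dimP (A := A) x) (isDimFun_dimP hA) y n hn
  have hz' : z = IsLocalRing.closedPoint A := hz
  simp only [hz', hdm, add_zero] at hzle
  have hge : (dimP (A := A) y).toNat ≤ n := by omega
  have hle' : n ≤ (dimP (A := A) y).toNat := by
    have := hle; rw [hn] at this; exact_mod_cast this
  have heq : Algz.deltaZ Z y = ((dimP (A := A) y).toNat : ℕ∞) := by
    rw [hn]; exact_mod_cast le_antisymm hle' hge
  have key : ∀ p : PrimeSpectrum A,
      ((((Order.coheight p).toNat : ℕ) : ℕ∞) : WithBot ℕ∞) = ringKrullDim (A ⧸ p.asIdeal) := by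
    intro p
    rw [ringKrullDim_quotient]
    have hset : PrimeSpectrum.zeroLocus (R := A) (p.asIdeal : Set A) = Set.Ici p := by
      ext q
      exact Iff.rfl
    rw [hset, ← Order.coheight_eq_krullDim_Ici, ENat.natCast_toNat (coheight_lt_top' p).ne]
  rw [heq]
  unfold dimP
  rw [Int.toNat_natCast]
  exact key y
end Groth.Agent.S8815
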