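import Groth.Statements.S8816
import Groth.Agent.Lib.Helper13.Delta
-- import your own Groth.Agent.* helpers here

set_option autoImplicit false
universe u
open CategoryTheory AlgebraicGeometry
open Algz

namespace Groth.Agent.S8816

/-- Let Y be a Noetherian scheme and Z ⊆ Y closed. Given points y_0, …, y_k and y'_0, …, y'_{k-1} of Y
with y_0 ∈ Z such that each y'_i specializes to y_{i+1} with y'_i ≠ y_{i+1}, and each y'_i ⤳ y_i is
an immediate specialization (y'_i ≠ y_i and no point strictly between), one has δ_Z(y_k) ≤ k. (The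
published statement also allows y'_i = y_{i+1}. In that generality the bound needs catenarity: for a
Noetherian local domain of dimension 3 having a saturated chain of primes (0) ⊂ 𝔭 ⊂ 𝔪 of length 2,
with Z the closed point and the pattern y_0 = 𝔪, y'_0 = y_1 = 𝔭, y'_1 = y_2 = (0), one has k = 2 but
δ_Z((0)) = 3. The published proof handles nontrivial specializations y'_i ⤳ y_{i+1}, for which the
closures of the y_i and y'_i form a system of value k, and reduces to that case by shortening the
chain, which does not preserve immediacy; this row states the case the proof establishes.) -/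
theorem result (Y : Scheme.{u}) [IsNoetherian Y] (Z : Set Y) (hZ : IsClosed Z) (k : ℕ) (y : Fin (k + 1) → Y) (y' : Fin k → Y) (h0 : y 0 ∈ Z) (hdown : ∀ i : Fin k, y' i ⤳ y i.castSucc ∧ y' i ≠ y i.castSucc ∧ ∀ z : Y, y' i ⤳ z → z ⤳ y i.castSucc → z = y' i ∨ z = y i.castSucc) (hup : ∀ i : Fin k, y' i ⤳ y i.succ ∧ y' i ≠ y i.succ) : Algz.deltaZ Z (y (Fin.last k)) ≤ k := by
  classical
  let w : Fin (k + 1) → Y := Fin.snoc (α := fun _ => Y) y' (y (Fin.last k))
  have hw_cs : ∀ j : Fin k, w j.castSucc = y' j := fun j =>
    Fin.snoc_castSucc (α := fun _ => Y) (p := y') (x := y (Fin.last k)) j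
  have hw_last : w (Fin.last k) = y (Fin.last k) :=
    Fin.snoc_last (α := fun _ => Y) (p := y') (x := y (Fin.last k))
  have hspec : ∀ i, w i ⤳ y i := by
    intro i
    induction i using Fin.lastCases with
    | last => rw [hw_last]
    | cast j => rw [hw_cs]; exact (hdown j).1
  have hspec_succ : ∀ i : Fin k, w i.castSucc ⤳ y i.succ := by
    intro i; rw [hw_cs]; exact (hup i).1
  let S : DSystem Z (y (Fin.last k)) k :=
    { v := y, w := w, spec := hspec, spec_succ := hspec_succ, start_mem := h0,
      last_eq := hw_last }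
  have hc_cs : ∀ j : Fin k, S.c j.castSucc ≤ 1 := by
    intro j
    apply Groth.Agent.Lib.Helper13.Delta.codimPt_le_one
    intro z hz1 hz2
    have hz1' : y' j ⤳ z := by rw [← hw_cs]; exact hz1
    have := (hdown j).2.2 z hz1' hz2
    show z = w j.castSucc ∨ z = y j.castSucc
    rw [hw_cs]; exact this
  have hc_last : S.c (Fin.last k) = 0 := by
    apply Groth.Agent.Lib.Helper13.Delta.codimPt_eq_zero_of_specializes
    show y (Fin.last k) ⤳ w (Fin.last k)
    rw [hw_last]
  have hb : ∀ j : Fin k, 1 ≤ S.b j := by
    intro j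
    apply Groth.Agent.Lib.Helper13.Delta.one_le_codimPt
    show w j.castSucc ≠ y j.succ
    rw [hw_cs]; exact (hup j).2
  have hT : ∀ i : Fin (k + 1),
      (∑ j ∈ Finset.univ.filter (fun j : Fin (k + 1) => i ≤ j), S.c j) -
        ∑ j ∈ Finset.univ.filter (fun j : Fin k => i.val ≤ j.val), S.b j = 0 := by
    intro i
    apply tsub_eq_zero_of_le
    rw [Finset.sum_filter, Finset.sum_filter, Fin.sum_univ_castSucc]
    rw [if_pos (Fin.le_last i), hc_last, add_zero]
    apply Finset.sum_le_sum
    intro j _
    have hiff : (i ≤ j.castSucc) ↔ i.val ≤ j.val := by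
      rw [Fin.le_iff_val_le_val, Fin.val_castSucc]
    by_cases hij : i.val ≤ j.val
    · rw [if_pos (hiff.mpr hij), if_pos hij]; exact (hc_cs j).trans (hb j)
    · rw [if_neg (mt hiff.mp hij), if_neg hij]
  calc Algz.deltaZ Z (y (Fin.last k)) ≤ S.delta := iInf₂_le k S
    _ ≤ k := by
      unfold DSystem.delta
      refine (add_le_add (le_refl (k : ℕ∞)) (Finset.sup_le fun i _ => ?_)).trans
        (add_zero (k : ℕ∞)).le
      exact (hT i).le

end Groth.Agent.S8816
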