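import Groth.Statements.S8817
-- import your own Groth.Agent.* helpers here

set_option autoImplicit false
universe u
open CategoryTheory AlgebraicGeometry
open Algz

namespace Groth.Agent.S8817

open Specialization

section Aux

variable {X Y : Type u} [TopologicalSpace X] [TopologicalSpace Y]

theorem codimPt_openEmbedding (e : X → Y) (he : Topology.IsOpenEmbedding e) (w v : X)
    (h : w ⤳ v) (h' : e w ⤳ e v) : codimPt (e w) (e v) h' = codimPt w v h := by
  unfold codimPt
  have hsp : ∀ a b : X, e a ⤳ e b ↔ a ⤳ b := fun a b => he.isInducing.specializes_iff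
  let F : Set.Ici (toEquiv v) → Set.Ici (toEquiv (e v)) := fun x =>
    ⟨toEquiv (e (ofEquiv x.1)), toEquiv_le_toEquiv.mpr ((hsp _ _).mpr x.2)⟩
  have hle : ∀ a b : Set.Ici (toEquiv v), F a ≤ F b ↔ a ≤ b := by
    intro a b
    show (e (ofEquiv b.1)) ⤳ (e (ofEquiv a.1)) ↔ ofEquiv b.1 ⤳ ofEquiv a.1
    exact hsp _ _
  have hF : StrictMono F := by
    intro a b hab
    exact lt_of_le_not_ge ((hle a b).mpr hab.le) (fun h2 => hab.not_ge ((hle b a).mp h2))
  have key := Order.height_eq_of_strictMono F hF ?_ ⟨toEquiv w, toEquiv_le_toEquiv.mpr h⟩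
  · exact key.symm
  · intro a b hb
    -- b lies in the image
    have hbv : ofEquiv b.1 ⤳ e v := b.2
    have hmem : ofEquiv b.1 ∈ Set.range e := hbv.mem_open he.isOpen_range ⟨v, rfl⟩
    obtain ⟨z, hz⟩ := hmem
    have hzv : z ⤳ v := (hsp _ _).mp (by rw [hz]; exact hbv)
    refine ⟨⟨toEquiv z, toEquiv_le_toEquiv.mpr hzv⟩, ?_, ?_⟩
    · have hFz : F ⟨toEquiv z, toEquiv_le_toEquiv.mpr hzv⟩ = b := by
        apply Subtype.ext
        show toEquiv (e z) = b.1
        rw [hz]; rfl
      rw [← hFz] at hb
      exact lt_of_le_not_ge ((hle _ _).mp hb.le) (fun h2 => hb.not_ge ((hle _ _).mpr h2))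
    · apply Subtype.ext
      show toEquiv (e z) = b.1
      rw [hz]; rfl

end Aux


/-- Let Y be a Noetherian scheme, Z ⊆ Y a closed subset and Y' ⊆ Y an open subscheme. For a point y' of
Y' the distance function of Y' relative to Y' ∩ Z at y' is at least the distance function of Y
relative to Z at y'. -/
theorem result (Y : Scheme.{u}) [IsNoetherian Y] (Z : Set Y) (hZ : IsClosed Z) (Y' : Y.Opens) (y' : (↑Y' : Scheme.{u})) : Algz.deltaZ Z (Y'.ι.base y') ≤ Algz.deltaZ ((fun x : (↑Y' : Scheme.{u}) => Y'.ι.base x) ⁻¹' Z) y' := by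
  set e : (↑Y' : Scheme.{u}) → Y := fun x => Y'.ι.base x with he_def
  have he : Topology.IsOpenEmbedding e := Y'.ι.isOpenEmbedding
  refine le_iInf₂ fun k S' => ?_
  have hcont : Continuous e := he.continuous
  let S : DSystem Z (e y') k :=
    { v := fun i => e (S'.v i), w := fun i => e (S'.w i),
      spec := fun i => (S'.spec i).map hcont,
      spec_succ := fun i => (S'.spec_succ i).map hcont,
      start_mem := S'.start_mem,
      last_eq := by simp only [S'.last_eq] }
  have hc : ∀ i, S.c i = S'.c i := fun i =>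
    codimPt_openEmbedding e he _ _ (S'.spec i) _
  have hb : ∀ i, S.b i = S'.b i := fun i =>
    codimPt_openEmbedding e he _ _ (S'.spec_succ i) _
  have hdelta : S.delta = S'.delta := by
    unfold DSystem.delta
    simp only [hc, hb]
  exact (iInf₂_le k S).trans hdelta.le

end Groth.Agent.S8817
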