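import Groth.Statements.S8854
-- import your own Groth.Agent.* helpers here

set_option autoImplicit false
universe u
open SDiv

namespace Groth.Agent.S8854

/-- Let R be a Noetherian unique factorisation domain and I ⊆ R an ideal such that every associated
prime of R/I is minimal over I (R/I has no embedded primes) and every prime minimal over I has
height 1. Then I is principal: it is generated by one element. -/
theorem result (R : Type u) [CommRing R] [IsDomain R] [IsNoetherianRing R]
    [UniqueFactorizationMonoid R] (I : Ideal R)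
    (h1 : ∀ p : Ideal R, p ∈ associatedPrimes R (R ⧸ I) → p ∈ I.minimalPrimes)
    (h2 : ∀ p : Ideal R, p ∈ I.minimalPrimes → p.height = 1) :
    ∃ f : R, I = Ideal.span {f} := by
  classical
  by_cases hItop : I = ⊤
  · exact ⟨1, by rw [hItop, Ideal.span_singleton_one]⟩
  have hIbot : I ≠ ⊥ := by
    rintro rfl
    have hmem : (⊥ : Ideal R) ∈ (⊥ : Ideal R).minimalPrimes :=
      ⟨⟨Ideal.isPrime_bot, le_rfl⟩, fun y _ _ => bot_le⟩
    have := h2 ⊥ hmem
    rw [Ideal.height_bot] at this
    exact zero_ne_one this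
  -- each minimal prime is generated by a prime element
  have hprin : ∀ p ∈ I.minimalPrimes, ∃ π : R, Prime π ∧ p = Ideal.span {π} := by
    intro p hp
    have hpp : p.IsPrime := hp.1.1
    have hh := h2 p hp
    have hpne : p ≠ ⊥ := Ideal.ne_bot_of_height_eq_one hh
    obtain ⟨π, hπp, hπ⟩ := hpp.exists_mem_prime_of_ne_bot hpne
    refine ⟨π, hπ, ?_⟩
    have hq : (Ideal.span {π}).IsPrime := (Ideal.span_singleton_prime hπ.ne_zero).mpr hπ
    have hle : Ideal.span {π} ≤ p := (Ideal.span_singleton_le_iff_mem _).mpr hπp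
    by_contra hne
    have hlt : Ideal.span {π} < p := lt_of_le_of_ne hle (fun h => hne h.symm)
    have h3 := Ideal.height_add_one_le_of_lt_of_isPrime hlt
    rw [hh] at h3
    have hx : (Ideal.span {π}).height ≠ ⊤ := by
      intro ht
      rw [ht, top_add] at h3
      exact absurd h3 (by simp)
    have h4 : (Ideal.span {π}).height < 1 := (ENat.add_one_le_iff hx).mp h3
    have h0 : (Ideal.span {π}).height = 0 := Order.lt_one_iff.mp h4
    rw [Ideal.height_eq_zero_iff_eq_bot, Ideal.span_singleton_eq_bot] at h0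
    exact hπ.ne_zero h0
  choose π hπ hpπ using hprin
  have hfin := Ideal.finite_minimalPrimes_of_isNoetherianRing R I
  set T := hfin.toFinset with hT
  have hex : ∀ p (hp : p ∈ I.minimalPrimes), ∃ n : ℕ, ∃ a ∈ I, ¬ (π p hp) ^ (n + 1) ∣ a := by
    intro p hp
    obtain ⟨a, haI, ha0⟩ := Submodule.exists_mem_ne_zero_of_ne_bot hIbot
    obtain ⟨n, hn⟩ := FiniteMultiplicity.of_not_isUnit (hπ p hp).not_isUnit ha0
    exact ⟨n, a, haI, hn⟩
  let n : ∀ p, p ∈ I.minimalPrimes → ℕ := fun p hp => Nat.find (hex p hp)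
  have hn_dvd : ∀ p hp, ∀ a ∈ I, (π p hp) ^ (n p hp) ∣ a := by
    intro p hp a ha
    rcases Nat.eq_zero_or_pos (n p hp) with h0 | hpos
    · rw [h0, pow_zero]; exact one_dvd a
    · obtain ⟨m, hm⟩ : ∃ m, n p hp = m + 1 := ⟨n p hp - 1, by omega⟩
      have := Nat.find_min (hex p hp) (show m < n p hp by omega)
      push Not at this
      rw [hm]; exact this a ha
  have hn_wit : ∀ p hp, ∃ a ∈ I, ∃ b, a = (π p hp) ^ (n p hp) * b ∧ ¬ π p hp ∣ b := by
    intro p hp
    obtain ⟨a, haI, hna⟩ := Nat.find_spec (hex p hp)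
    obtain ⟨b, hb⟩ := hn_dvd p hp a haI
    refine ⟨a, haI, b, hb, fun hdvd => hna ?_⟩
    rw [hb, pow_succ]; exact mul_dvd_mul_left _ hdvd
  let π' : Ideal R → R := fun p => if hp : p ∈ I.minimalPrimes then π p hp else 1
  let n' : Ideal R → ℕ := fun p => if hp : p ∈ I.minimalPrimes then n p hp else 0
  let f : R := ∏ p ∈ T, π' p ^ n' p
  refine ⟨f, le_antisymm ?_ ?_⟩
  · intro a ha
    rw [Ideal.mem_span_singleton]
    apply Finset.prod_dvd_of_isRelPrime
    · intro p hp q hq hpq
      have hp' : p ∈ I.minimalPrimes := hfin.mem_toFinset.mp hp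
      have hq' : q ∈ I.minimalPrimes := hfin.mem_toFinset.mp hq
      simp only [Function.onFun, π', n', dif_pos hp', dif_pos hq']
      apply IsRelPrime.pow
      rw [(hπ p hp').irreducible.isRelPrime_iff_not_dvd]
      intro hdvd
      apply hpq
      have hle : q ≤ p := by
        rw [hpπ p hp', hpπ q hq']
        exact Ideal.span_singleton_le_span_singleton.mpr hdvd
      exact (hp'.2 hq'.1 hle).antisymm hle
    · intro p hp
      have hp' := hfin.mem_toFinset.mp hp
      simp only [π', n', dif_pos hp']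
      exact hn_dvd p hp' a ha
  · rw [Ideal.span_singleton_le_iff_mem]
    by_contra hfI
    have hx : (Ideal.Quotient.mk I f) ≠ 0 := by
      rwa [Ne, Ideal.Quotient.eq_zero_iff_mem]
    obtain ⟨P, hP, hPle⟩ :=
      exists_le_isAssociatedPrime_of_isNoetherianRing R (Ideal.Quotient.mk I f) hx
    have hPmin : P ∈ I.minimalPrimes := h1 P hP
    obtain ⟨a, haI, b, hab, hb⟩ := hn_wit P hPmin
    have hbf : b * f ∈ I := by
      have hPT : P ∈ T := hfin.mem_toFinset.mpr hPmin
      have hf : f = π' P ^ n' P * ∏ q ∈ T.erase P, π' q ^ n' q :=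
        (Finset.mul_prod_erase T _ hPT).symm
      rw [hf]
      simp only [π', n', dif_pos hPmin]
      rw [← mul_assoc, mul_comm b, ← hab]
      exact I.mul_mem_right _ haI
    have hbP : b ∈ P := by
      apply hPle
      rw [Submodule.mem_colon_singleton, Submodule.mem_bot, Algebra.smul_def,
        Ideal.Quotient.algebraMap_eq, ← map_mul, Ideal.Quotient.eq_zero_iff_mem]
      exact hbf
    rw [hpπ P hPmin, Ideal.mem_span_singleton] at hbP
    exact hb hbP

end Groth.Agent.S8854
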