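import Groth.Statements.S8924
-- import your own Groth.Agent.* helpers here

set_option autoImplicit false
universe u v
open InjHull

namespace Groth.Agent.S8924

/-- For a submodule M of an R-module N, the inclusion of M into N is an essential injection if and only
if every nonzero element x of N has a multiple f • x which is a nonzero element of M. -/
theorem result (R : Type u) [CommRing R] (N : Type v) [AddCommGroup N] [Module R N] (M : Submodule R N) : InjHull.IsEssentialInj M.subtype ↔ ∀ x : N, x ≠ 0 → ∃ f : R, f • x ∈ M ∧ f • x ≠ 0 := by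
  constructor
  · intro h x hx
    have hN : (Submodule.span R {x}) ≠ ⊥ := by
      simpa [Submodule.span_singleton_eq_bot] using hx
    have h2 := h.essential _ hN
    rw [Submodule.range_subtype] at h2
    obtain ⟨y, hy, hy0⟩ := Submodule.exists_mem_ne_zero_of_ne_bot h2
    obtain ⟨hyx, hyM⟩ := Submodule.mem_inf.mp hy
    obtain ⟨f, rfl⟩ := Submodule.mem_span_singleton.mp hyx
    exact ⟨f, hyM, hy0⟩
  · intro h
    refine ⟨Subtype.val_injective, fun N hN => ?_⟩
    rw [Submodule.range_subtype]
    obtain ⟨x, hxN, hx0⟩ := Submodule.exists_mem_ne_zero_of_ne_bot hN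
    obtain ⟨f, hfM, hf0⟩ := h x hx0
    intro hbot
    apply hf0
    have : f • x ∈ N ⊓ M := Submodule.mem_inf.mpr ⟨N.smul_mem f hxN, hfM⟩
    rw [hbot] at this
    exact (Submodule.mem_bot R).mp this

end Groth.Agent.S8924
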