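import Groth.Statements.S8925
-- import your own Groth.Agent.* helpers here

set_option autoImplicit false
universe u
open InjHull

namespace Groth.Agent.S8925

open scoped TensorProduct

/-- If S is a flat R-algebra and E is an injective S-module, then E, viewed as an R-module by
restriction of scalars, is an injective R-module. -/
theorem result (R S : Type u) [CommRing R] [CommRing S] [Algebra R S] [Module.Flat R S] (E : Type u) [AddCommGroup E] [Module S E] [Module R E] [IsScalarTower R S E] [Module.Injective S E] : Module.Injective R E := by
  apply Module.Baer.injective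
  intro I g
  let gS : S ⊗[R] I →ₗ[S] E := LinearMap.liftBaseChange S g
  let iS : S ⊗[R] I →ₗ[S] S ⊗[R] R := LinearMap.baseChange S I.subtype
  have hinj : Function.Injective iS := by
    have := Module.Flat.lTensor_preserves_injective_linearMap (M := S) I.subtype Subtype.val_injective
    simpa [iS, LinearMap.baseChange_eq_ltensor] using this
  obtain ⟨h, hh⟩ := Module.Injective.out iS hinj gS
  refine ⟨(h.restrictScalars R) ∘ₗ (TensorProduct.mk R S R 1), fun x hx => ?_⟩
  have e : (TensorProduct.mk R S R 1) x = iS ((1 : S) ⊗ₜ[R] (⟨x, hx⟩ : I)) := by
    simp [iS]
  simp only [LinearMap.coe_comp, Function.comp_apply, LinearMap.coe_restrictScalars]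
  rw [e, hh]
  simp [gS]

end Groth.Agent.S8925
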