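import Groth.Statements.S8926
-- import your own Groth.Agent.* helpers here

set_option autoImplicit false
universe u
open InjHull

namespace Groth.Agent.S8926

open TensorProduct in
theorem epi_linear (R S : Type*) [CommRing R] [CommRing S] [Algebra R S] [Algebra.IsEpi R S]
    (M N : Type*) [AddCommGroup M] [Module S M] [Module R M] [IsScalarTower R S M]
    [AddCommGroup N] [Module S N] [Module R N] [IsScalarTower R S N]
    (h : M →ₗ[R] N) (s : S) (m : M) : h (s • m) = s • h m := by
  have key : (1 : S) ⊗ₜ[R] (s • m) = s ⊗ₜ[R] m := by
    apply (TensorProduct.lid' R S M).injective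
    simp
  have h1 := congr_arg (LinearMap.lTensor S h) key
  simp only [LinearMap.lTensor_tmul] at h1
  have h2 := congr_arg (TensorProduct.lid' R S N) h1
  simpa using h2


/-- Suppose R → S is an epimorphism of rings and E is an S-module whose underlying R-module (via
restriction of scalars) is injective; then E is injective as an S-module as well. -/
theorem result (R S : Type u) [CommRing R] [CommRing S] [Algebra R S] [Algebra.IsEpi R S] (E : Type u) [AddCommGroup E] [Module S E] [Module R E] [IsScalarTower R S E] [Module.Injective R E] : Module.Injective S E := by
  apply Module.Baer.injective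
  intro I g
  obtain ⟨h, hh⟩ := Module.Injective.out (R := R) (I.subtype.restrictScalars R) Subtype.val_injective
    (g.restrictScalars R)
  refine ⟨{ toFun := h, map_add' := h.map_add, map_smul' := fun s x => ?_ }, ?_⟩
  · exact epi_linear R S S E h s x
  · intro x hx
    exact hh ⟨x, hx⟩

end Groth.Agent.S8926
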