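import Groth.Statements.S8927
-- import your own Groth.Agent.* helpers here

set_option autoImplicit false
universe u
open Disc

namespace Groth.Agent.S8927

/-- For a map A → B of Noetherian rings such that the localization B_q is flat over A for every
associated prime q of B, every nonzerodivisor of A maps to a nonzerodivisor of B. -/
theorem result (A B : Type u) [CommRing A] [CommRing B] [IsNoetherianRing A] [IsNoetherianRing B] [Algebra A B] (h3 : ∀ (q : Ideal B) [q.IsPrime], IsAssociatedPrime q B → Module.Flat A (Localization.AtPrime q)) : nonZeroDivisors A ≤ (nonZeroDivisors B).comap (algebraMap A B) := by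
  intro a ha
  rw [Submonoid.mem_comap]
  by_contra hb
  have hmem : algebraMap A B a ∈ ⋃ p ∈ associatedPrimes B B, (p : Set B) := by
    rw [biUnion_associatedPrimes_eq_compl_nonZeroDivisors]; exact hb
  simp only [Set.mem_iUnion] at hmem
  obtain ⟨q, hq, haq⟩ := hmem
  have hq' : IsAssociatedPrime q B := hq
  obtain ⟨hqprime, x, hx⟩ := (isAssociatedPrime_iff).mp hq'
  have := hqprime
  have := h3 q hq'
  have hreg : IsSMulRegular A a := by
    intro y z hyz
    simp only [smul_eq_mul] at hyz
    have : a * (y - z) = 0 := by rw [mul_sub, hyz, sub_self]
    have h0 := (mem_nonZeroDivisors_iff.mp ha).2 (y - z)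
    rw [mul_comm] at this
    exact sub_eq_zero.mp (h0 this)
  have hreg' := hreg.of_flat (S := Localization.AtPrime q)
  set y := algebraMap B (Localization.AtPrime q) x with hydef
  have hy : y ≠ 0 := by
    intro h0
    rw [hydef, IsLocalization.map_eq_zero_iff q.primeCompl] at h0
    obtain ⟨⟨s, hs⟩, hsx⟩ := h0
    apply hs
    rw [SetLike.mem_coe, hx, Submodule.mem_colon_singleton]
    simpa using hsx
  have hax : algebraMap A B a * x = 0 := by
    have := haq
    rw [SetLike.mem_coe, hx, Submodule.mem_colon_singleton] at this
    simpa using this
  have hay : algebraMap A (Localization.AtPrime q) a * y = 0 := by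
    rw [IsScalarTower.algebraMap_apply A B (Localization.AtPrime q), hydef, ← map_mul, hax, map_zero]
  apply hy
  apply hreg'
  simp only [smul_eq_mul, hay, mul_zero]

end Groth.Agent.S8927
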