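import Groth.Statements.S8928
import Mathlib.RingTheory.Localization.BaseChange
import Mathlib.RingTheory.Localization.LocalizationLocalization
import Mathlib.RingTheory.Flat.Localization
import Mathlib.RingTheory.Flat.Stability
-- import your own Groth.Agent.* helpers here

set_option autoImplicit false
universe u
open scoped TensorProduct
open Disc

namespace Groth.Agent.S8928

theorem key (A B : Type u) [CommRing A] [CommRing B] [Algebra A B]
    (h2 : Module.Flat (FractionRing A) (FractionRing A ⊗[A] B))
    (q : Ideal B) [q.IsPrime]
    (hq : ∀ s ∈ nonZeroDivisors A, algebraMap A B s ∉ q) :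
    Module.Flat A (Localization.AtPrime q) := by
  classical
  let K := FractionRing A
  let T := K ⊗[A] B
  let L := Localization.AtPrime q
  let _ : Algebra B T := Algebra.TensorProduct.rightAlgebra
  let S' := Algebra.algebraMapSubmonoid B (nonZeroDivisors A)
  have _ : IsLocalization S' T :=
    IsLocalization.tensorRight (R := A) (S := B) (A := K) (nonZeroDivisors A)
  have hle : S' ≤ q.primeCompl := by
    rintro _ ⟨s, hs, rfl⟩
    exact hq s hs
  let _ : Algebra T L := IsLocalization.localizationAlgebraOfSubmonoidLe T L S' q.primeCompl hle
  have _ : IsScalarTower B T L :=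
    IsLocalization.localization_isScalarTower_of_submonoid_le T L S' q.primeCompl hle
  have _ : IsLocalization (q.primeCompl.map (algebraMap B T)) L :=
    IsLocalization.isLocalization_of_submonoid_le T L S' q.primeCompl hle
  have _ : Module.Flat T L := IsLocalization.flat L (q.primeCompl.map (algebraMap B T))
  let _ : Algebra K L := ((algebraMap T L).comp (algebraMap K T)).toAlgebra
  have _ : IsScalarTower K T L := by
    refine ⟨fun x y z => ?_⟩
    rw [Algebra.smul_def (x • y) z, Algebra.smul_def x y, Algebra.smul_def x (y • z),
      Algebra.smul_def y z, map_mul, mul_assoc]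
    rfl
  have _ : Module.Flat K T := h2
  have _ : Module.Flat K L := Module.Flat.trans K T L
  have _ : IsScalarTower A K L := by
    apply IsScalarTower.of_algebraMap_eq
    intro a
    rw [IsScalarTower.algebraMap_apply A B L]
    show _ = algebraMap T L (algebraMap K T (algebraMap A K a))
    have e : algebraMap K T (algebraMap A K a) = algebraMap B T (algebraMap A B a) := by
      show algebraMap A K a ⊗ₜ[A] (1 : B) = (1 : K) ⊗ₜ[A] algebraMap A B a
      exact Algebra.TensorProduct.tmul_one_eq_one_tmul a
    rw [e, ← IsScalarTower.algebraMap_apply B T L]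
  have _ : Module.Flat A K := IsLocalization.flat K (nonZeroDivisors A)
  exact Module.Flat.trans A K L

theorem assoc_not_nzd {R : Type u} [CommRing R] [IsNoetherianRing R] (p : Ideal R)
    (hp : IsAssociatedPrime p R) (r : R) (hr : r ∈ p) : r ∉ nonZeroDivisors R := by
  obtain ⟨hprime, x, hx⟩ := (isAssociatedPrime_iff).mp hp
  intro hnzd
  have hrx : r * x = 0 := by
    rw [hx, Submodule.mem_colon_singleton] at hr
    simpa using hr
  have hx0 : x = 0 := (mem_nonZeroDivisors_iff.mp hnzd).2 x (by rw [mul_comm]; exact hrx)
  apply hprime.ne_top
  rw [hx, hx0]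
  ext y
  simp [Submodule.mem_colon_singleton]

/-- Let A → B be a map of Noetherian rings such that nonzerodivisors of A map to nonzerodivisors of B
and Q(A) ⊗_A B is flat over the total ring of fractions Q(A). Then B_q is flat over A for every
associated prime q of B and for every prime q of B lying over an associated prime of A. -/
theorem result (A B : Type u) [CommRing A] [CommRing B] [IsNoetherianRing A] [IsNoetherianRing B] [Algebra A B] (h1 : nonZeroDivisors A ≤ (nonZeroDivisors B).comap (algebraMap A B)) (h2 : Module.Flat (FractionRing A) (FractionRing A ⊗[A] B)) : (∀ (q : Ideal B) [q.IsPrime], IsAssociatedPrime q B → Module.Flat A (Localization.AtPrime q)) ∧ (∀ (q : Ideal B) [q.IsPrime], IsAssociatedPrime (q.comap (algebraMap A B)) A → Module.Flat A (Localization.AtPrime q)) := by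
  refine ⟨fun q _ hq => key A B h2 q ?_, fun q _ hq => key A B h2 q ?_⟩
  · intro s hs hsq
    exact assoc_not_nzd q hq _ hsq (h1 hs)
  · intro s hs hsq
    exact assoc_not_nzd _ hq s hsq hs

end Groth.Agent.S8928
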