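import Groth.Statements.S8929
import Mathlib.RingTheory.Localization.BaseChange
import Mathlib.RingTheory.Localization.LocalizationLocalization
import Mathlib.RingTheory.Flat.Localization
import Mathlib.RingTheory.Flat.Stability
import Mathlib.RingTheory.Ideal.AssociatedPrime.Finiteness
-- import your own Groth.Agent.* helpers here

set_option autoImplicit false
universe u
open scoped TensorProduct
open Disc

namespace Groth.Agent.S8929

theorem flat_loc {A B L : Type*} [CommRing A] [CommRing B] [CommRing L] [Algebra A B]
    [Algebra B L] [Algebra A L] [IsScalarTower A B L] (q : Ideal B) [q.IsPrime]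
    [IsLocalization.AtPrime L q] (q' : Ideal B) [q'.IsPrime] (hqq' : q ≤ q')
    (hflat : Module.Flat A (Localization.AtPrime q')) : Module.Flat A L := by
  let L' := Localization.AtPrime q'
  have hle : q'.primeCompl ≤ q.primeCompl := fun x hx hxq => hx (hqq' hxq)
  let _ : Algebra L' L :=
    IsLocalization.localizationAlgebraOfSubmonoidLe L' L q'.primeCompl q.primeCompl hle
  have _ : IsScalarTower B L' L :=
    IsLocalization.localization_isScalarTower_of_submonoid_le L' L _ _ hle
  have _ : IsLocalization (q.primeCompl.map (algebraMap B L')) L :=
    IsLocalization.isLocalization_of_submonoid_le L' L _ _ hle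
  have _ : Module.Flat L' L := IsLocalization.flat L (q.primeCompl.map (algebraMap B L'))
  have _ : IsScalarTower A L' L := IsScalarTower.of_algebraMap_eq (fun a => by
    rw [IsScalarTower.algebraMap_apply A B L, IsScalarTower.algebraMap_apply A B L',
      ← IsScalarTower.algebraMap_apply B L' L])
  exact Module.Flat.trans A L' L

/-- Let A → B be a map of Noetherian rings with the going-up property. If B_q is flat over A for every
associated prime q of B and for every prime q of B lying over an associated prime of A, then Q(A)
⊗_A B is flat over the total ring of fractions Q(A). -/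
theorem result (A B : Type u) [CommRing A] [CommRing B] [IsNoetherianRing A] [IsNoetherianRing B] [Algebra A B] [Algebra.HasGoingUp A B] (h3 : ∀ (q : Ideal B) [q.IsPrime], IsAssociatedPrime q B → Module.Flat A (Localization.AtPrime q)) (h4 : ∀ (q : Ideal B) [q.IsPrime], IsAssociatedPrime (q.comap (algebraMap A B)) A → Module.Flat A (Localization.AtPrime q)) : Module.Flat (FractionRing A) (FractionRing A ⊗[A] B) := by
  classical
  let K := FractionRing A
  let T := K ⊗[A] B
  let _ : Algebra B T := Algebra.TensorProduct.rightAlgebra
  let S' := Algebra.algebraMapSubmonoid B (nonZeroDivisors A)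
  have _ : IsLocalization S' T :=
    IsLocalization.tensorRight (R := A) (S := B) (A := K) (nonZeroDivisors A)
  rw [Module.flat_iff_of_isLocalization K (nonZeroDivisors A) T]
  refine Module.flat_of_isLocalized_maximal T T (fun P _ => Localization.AtPrime P)
    (fun P _ => Algebra.linearMap T (Localization.AtPrime P)) ?_
  intro P hP
  let q := P.comap (algebraMap B T)
  have _ : IsLocalization.AtPrime (Localization.AtPrime P) q :=
    IsLocalization.isLocalization_isLocalization_atPrime_isLocalization S'
      (Localization.AtPrime P) P
  have hq : Disjoint ((q.comap (algebraMap A B) : Ideal A) : Set A) (nonZeroDivisors A) := by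
    rw [Set.disjoint_left]
    intro s hs hnzd
    have hunit : IsUnit (algebraMap B T (algebraMap A B s)) :=
      IsLocalization.map_units T (⟨algebraMap A B s, ⟨s, hnzd, rfl⟩⟩ : S')
    exact hP.ne_top (P.eq_top_of_isUnit_mem hs hunit)
  obtain ⟨p, hpass, hle⟩ : ∃ p ∈ associatedPrimes A A, q.comap (algebraMap A B) ≤ p :=
    ((q.comap (algebraMap A B)).subset_union_prime_finite (associatedPrimes.finite ..)
      (f := id) 0 0 fun _ h _ _ ↦ h.1).1 <|
      biUnion_associatedPrimes_eq_compl_nonZeroDivisors A ▸ hq.subset_compl_right
  have hpass' : IsAssociatedPrime p A := hpass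
  have _ : p.IsPrime := hpass'.1
  have _ : q.IsPrime := Ideal.comap_isPrime _ _
  have _ : q.LiesOver (q.under A) := ⟨rfl⟩
  obtain ⟨q', hqq', hq'prime, hq'lies⟩ :=
    Ideal.exists_ideal_ge_liesOver_of_le (p := q.under A) (q := p) q hle
  have hflat : Module.Flat A (Localization.AtPrime q') := by
    apply h4 q'
    rw [← (Ideal.under_def A q'), ← hq'lies.over]
    exact hpass'
  have _ : IsScalarTower A B (Localization.AtPrime P) := by
    apply IsScalarTower.of_algebraMap_eq
    intro a
    rw [IsScalarTower.algebraMap_apply A T (Localization.AtPrime P),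
      IsScalarTower.algebraMap_apply B T (Localization.AtPrime P)]
    congr 1
    show algebraMap A K a ⊗ₜ[A] (1 : B) = (1 : K) ⊗ₜ[A] algebraMap A B a
    exact Algebra.TensorProduct.tmul_one_eq_one_tmul a
  exact flat_loc (L := Localization.AtPrime P) q q' hqq' hflat

end Groth.Agent.S8929
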