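import Groth.Statements.S8936
-- import your own Groth.Agent.* helpers here

set_option autoImplicit false
universe u v
open InjHull

namespace Groth.Agent.S8936

/-- For a directed system (E_i) of R-modules over a nonempty directed preorder and a compatible family
of essential injections M → E_i, the induced map from M to the direct limit of the E_i is an
essential injection. -/
theorem result (R : Type u) [CommRing R] (ι : Type v) [Preorder ι] [IsDirectedOrder ι] [DecidableEq ι] (i₀ : ι) (E : ι → Type v) [∀ i, AddCommGroup (E i)] [∀ i, Module R (E i)] (f : ∀ i j, i ≤ j → E i →ₗ[R] E j) [DirectedSystem E fun i j h => f i j h] (M : Type v) [AddCommGroup M] [Module R M] (g : ∀ i, M →ₗ[R] E i) (hg : ∀ i j (h : i ≤ j), f i j h ∘ₗ g i = g j) (he : ∀ i, InjHull.IsEssentialInj (g i)) : InjHull.IsEssentialInj (Module.DirectLimit.of R ι E f i₀ ∘ₗ g i₀) := by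
  haveI : Nonempty ι := ⟨i₀⟩
  have hinj : Function.Injective (Module.DirectLimit.of R ι E f i₀ ∘ₗ g i₀) := by
    rw [← LinearMap.ker_eq_bot, LinearMap.ker_eq_bot']
    intro m hm
    obtain ⟨j, hij, hj⟩ := Module.DirectLimit.of.zero_exact hm
    have : g j m = 0 := by
      rw [← hg i₀ j hij]
      exact hj
    exact (he j).injective (this.trans (map_zero _).symm)
  refine ⟨hinj, fun N hN => ?_⟩
  obtain ⟨z, hzN, hz0⟩ := Submodule.exists_mem_ne_zero_of_ne_bot hN
  obtain ⟨j, e, rfl⟩ := Module.DirectLimit.exists_of z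
  obtain ⟨k, hjk, hik⟩ := exists_ge_ge j i₀
  rw [← Module.DirectLimit.of_f (hij := hjk)] at hzN hz0
  set e' := f j k hjk e with he'
  have he'0 : e' ≠ 0 := by
    intro h
    apply hz0
    rw [h, map_zero]
  have hspan : Submodule.span R {e'} ≠ ⊥ := by
    simpa [Submodule.span_singleton_eq_bot] using he'0
  have h2 := (he k).essential _ hspan
  obtain ⟨y, hy, hy0⟩ := Submodule.exists_mem_ne_zero_of_ne_bot h2
  obtain ⟨hye, hyr⟩ := Submodule.mem_inf.mp hy
  obtain ⟨r, rfl⟩ := Submodule.mem_span_singleton.mp hye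
  obtain ⟨m, hm⟩ := hyr
  intro hbot
  have hmem : r • Module.DirectLimit.of R ι E f k e' ∈
      N ⊓ LinearMap.range (Module.DirectLimit.of R ι E f i₀ ∘ₗ g i₀) := by
    refine Submodule.mem_inf.mpr ⟨N.smul_mem r hzN, ⟨m, ?_⟩⟩
    simp only [LinearMap.coe_comp, Function.comp_apply]
    rw [← map_smul, ← hm, ← hg i₀ k hik, LinearMap.comp_apply, Module.DirectLimit.of_f]
  rw [hbot, Submodule.mem_bot] at hmem
  have hm0 : (Module.DirectLimit.of R ι E f i₀ ∘ₗ g i₀) m = 0 := by
    simp only [LinearMap.coe_comp, Function.comp_apply]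
    rw [← Module.DirectLimit.of_f (hij := hik), ← LinearMap.comp_apply (f i₀ k hik), hg i₀ k hik, hm,
      map_smul]
    exact hmem
  have : m = 0 := hinj (hm0.trans (map_zero _).symm)
  apply hy0
  rw [← hm, this, map_zero]

end Groth.Agent.S8936
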