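import Groth.Statements.S8974
-- import your own Groth.Agent.* helpers here

set_option autoImplicit false
universe u
open Synt

namespace Groth.Agent.S8974

/-- Let R be a ring, n, d ≥ 1 and g_1, …, g_n ∈ R[y_1, …, y_n] of total degree at most d. Then there is
a ring map φ : A = ℤ[a_{i,E}] → R (E running over exponent vectors with |E| ≤ d) such that applying
φ to the coefficients of the universal polynomial f_i = Σ_E a_{i,E} x^E gives g_i for each i. (The
published statement is for a locally quasi-finite syntomic morphism of schemes and asserts, locally,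
a cartesian square with the universal family; this row is its affine core: the coefficient map.) -/
theorem result (R : Type u) [CommRing R] (n d : ℕ) (hn : 1 ≤ n) (hd : 1 ≤ d) (g : Fin n → MvPolynomial (Fin n) R) (hg : ∀ i, (g i).totalDegree ≤ d) : ∃ φ : Synt.UnivBase n d →+* R, ∀ i, MvPolynomial.map φ (Synt.univPoly n d i) = g i := by
  classical
  refine ⟨MvPolynomial.eval₂Hom (Int.castRingHom R)
    (fun p => MvPolynomial.coeff p.2.exponent (g p.1)), fun i => ?_⟩
  ext m
  simp only [Synt.univPoly, map_sum, MvPolynomial.map_monomial, MvPolynomial.coeff_sum,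
    MvPolynomial.coeff_monomial, MvPolynomial.eval₂Hom_X']
  have hexp : ∀ E : Synt.UnivIdx n d, ∀ j, E.exponent j = (E.1 j : ℕ) := fun E j => rfl
  by_cases hm : ∃ E : Synt.UnivIdx n d, E.exponent = m
  · obtain ⟨E₀, rfl⟩ := hm
    rw [Finset.sum_eq_single E₀]
    · simp
    · intro E _ hE
      rw [if_neg]
      intro h
      apply hE
      apply Subtype.ext
      funext j
      apply Fin.ext
      rw [← hexp, ← hexp, h]
    · intro h; exact absurd (Finset.mem_univ _) h
  · rw [Finset.sum_eq_zero]
    · by_contra hne
      apply hm
      have hmem : m ∈ (g i).support := MvPolynomial.mem_support_iff.mpr (Ne.symm hne)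
      have hdeg : (m.sum fun _ e => e) ≤ d := (MvPolynomial.le_totalDegree hmem).trans (hg i)
      have hsum : ∑ j, m j ≤ d := by
        rwa [Finsupp.sum_fintype _ _ (fun _ => rfl)] at hdeg
      have hle : ∀ j, m j < d + 1 := by
        intro j
        have : m j ≤ ∑ j, m j := Finset.single_le_sum (fun _ _ => Nat.zero_le _) (Finset.mem_univ j)
        omega
      refine ⟨⟨fun j => ⟨m j, hle j⟩, by simpa using hsum⟩, ?_⟩
      ext j
      rfl
    · intro E _
      rw [if_neg]
      intro h
      exact hm ⟨E, h⟩

end Groth.Agent.S8974
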