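import Groth.Statements.S8992
import Mathlib.Algebra.Field.ZMod
-- import your own Groth.Agent.* helpers here

set_option autoImplicit false
universe u
open HTop

namespace Groth.Agent.S8992

/-- An algebra over the prime field with p elements is absolutely weakly normal if and only if its p-th
power map is bijective (the algebra is perfect). -/
theorem result (p : ℕ) [Fact p.Prime] (A : Type u) [CommRing A] [Algebra (ZMod p) A] : HTop.IsAWNRing A ↔ PerfectRing A p := by
  have hp : p.Prime := Fact.out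
  have hp0 : (p : A) = 0 := by
    rw [← map_natCast (algebraMap (ZMod p) A) p, ZMod.natCast_self, map_zero]
  obtain ⟨i, j, hij⟩ : ∃ i j : ℕ, p = 2 * i + 3 * j := by
    have h2 := hp.two_le
    rcases Nat.even_or_odd p with ⟨k, hk⟩ | ⟨k, hk⟩
    · exact ⟨k, 0, by omega⟩
    · exact ⟨k - 1, 1, by omega⟩
  constructor
  · rintro ⟨-, h⟩
    refine ⟨⟨?_, ?_⟩⟩
    · intro a b hab
      simp only at hab
      obtain ⟨c, -, hc⟩ := h p hp (a ^ p) 0 (by rw [hp0, zero_pow hp.ne_zero, zero_mul])
      have ha := hc a ⟨rfl, by rw [hp0, zero_mul]⟩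
      have hb := hc b ⟨hab, by rw [hp0, zero_mul]⟩
      rw [ha, hb]
    · intro x
      obtain ⟨c, ⟨hc, -⟩, -⟩ := h p hp x 0 (by rw [hp0, zero_pow hp.ne_zero, zero_mul])
      exact ⟨c, hc.symm⟩
  · intro hperf
    have hbij := hperf.bijective_frobenius
    have hinj : ∀ a b : A, a ^ p = b ^ p → a = b := fun a b h => hbij.1 h
    refine ⟨?_, ?_⟩
    · intro x y hxy
      obtain ⟨a, ha⟩ := hbij.2 (x ^ i * y ^ j)
      simp only at ha
      have hpow : ∀ b : A, b ^ p = (b ^ 2) ^ i * (b ^ 3) ^ j := by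
        intro b
        rw [hij]; ring
      refine ⟨a, ⟨?_, ?_⟩, ?_⟩
      · apply hinj
        calc x ^ p = x ^ (2 * i) * (x ^ 3) ^ j := by rw [hij]; ring
          _ = x ^ (2 * i) * (y ^ 2) ^ j := by rw [hxy]
          _ = (x ^ i * y ^ j) ^ 2 := by ring
          _ = (a ^ p) ^ 2 := by rw [ha]
          _ = (a ^ 2) ^ p := by ring
      · apply hinj
        calc y ^ p = (y ^ 2) ^ i * y ^ (3 * j) := by rw [hij]; ring
          _ = (x ^ 3) ^ i * y ^ (3 * j) := by rw [hxy]
          _ = (x ^ i * y ^ j) ^ 3 := by ring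
          _ = (a ^ p) ^ 3 := by rw [ha]
          _ = (a ^ 3) ^ p := by ring
      · rintro b ⟨hb1, hb2⟩
        apply hinj
        rw [ha, hpow b, ← hb1, ← hb2]
    · intro l hl x y hxy
      by_cases hlp : l = p
      · subst hlp
        rw [hp0, zero_pow hl.ne_zero, zero_mul] at hxy
        have hy : y = 0 := hinj y 0 (by rw [← hxy, zero_pow hl.ne_zero])
        obtain ⟨a, ha⟩ := hbij.2 x
        refine ⟨a, ⟨ha.symm, by rw [hy, hp0, zero_mul]⟩, ?_⟩
        rintro b ⟨hb, -⟩
        exact hinj b a (by rw [← hb]; exact ha.symm)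
      · have hlu : IsUnit (l : A) := by
          have : (l : ZMod p) ≠ 0 := by
            rw [Ne, ZMod.natCast_eq_zero_iff]
            intro hdvd
            exact hlp ((Nat.prime_dvd_prime_iff_eq hp hl).mp hdvd).symm
          rw [← map_natCast (algebraMap (ZMod p) A) l]
          exact (IsUnit.mk0 _ this).map _
        obtain ⟨u, hu⟩ := hlu
        refine ⟨(u⁻¹ : Aˣ) * y, ⟨?_, ?_⟩, ?_⟩
        · have : (u : A) ^ l * x = (u : A) ^ l * ((u⁻¹ : Aˣ) * y) ^ l := by
            rw [hu, hxy, mul_pow, ← mul_assoc, ← mul_pow]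
            simp [← hu]
          have hul : IsUnit ((u : A) ^ l) := (Units.isUnit u).pow l
          exact hul.mul_left_cancel this
        · rw [← hu, ← mul_assoc, Units.mul_inv, one_mul]
        · rintro b ⟨-, hb⟩
          rw [hb, ← hu, ← mul_assoc, Units.inv_mul, one_mul]

end Groth.Agent.S8992
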