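import Groth.Statements.S9038
-- import your own Groth.Agent.* helpers here

set_option autoImplicit false
universe u
open Topology
open CohTop

namespace Groth.Agent.S9038

/-- In the category of Hausdorff locally quasi-compact spaces, call a family of continuous maps f_i :
X_i → X a qc covering when every point of X has a neighbourhood of the form ⋃_{i ∈ t} f_i(E_i) with
t a finite set of indices and E_i ⊆ X_i quasi-compact. If (f_i : X_i → X) is a qc covering and for
each i the family (g_{ij} : X_{ij} → X_i)_j is a qc covering, then the family of composites X_{ij} →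
X, indexed by the pairs (i, j), is a qc covering. -/
theorem result
    {B : Type u} [TopologicalSpace B] [T2Space B] [LocallyCompactSpace B]
    {ι : Type u} {X : ι → Type u} [∀ i, TopologicalSpace (X i)] [∀ i, T2Space (X i)]
    [∀ i, LocallyCompactSpace (X i)]
    (f : ∀ i, X i → B) (hf : ∀ i, Continuous (f i))
    (hcov : ∀ x : B, ∃ (t : Finset ι) (E : ∀ i, Set (X i)),
      (∀ i ∈ t, IsCompact (E i)) ∧ (⋃ i ∈ t, f i '' E i) ∈ 𝓝 x)
    {κ : ι → Type u} {Y : ∀ i, κ i → Type u} [∀ i j, TopologicalSpace (Y i j)] [∀ i j, T2Space (Y i j)]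
    [∀ i j, LocallyCompactSpace (Y i j)]
    (g : ∀ i j, Y i j → X i) (hg : ∀ i j, Continuous (g i j))
    (hcov' : ∀ (i : ι) (x : X i), ∃ (t : Finset (κ i)) (E : ∀ j, Set (Y i j)),
      (∀ j ∈ t, IsCompact (E j)) ∧ (⋃ j ∈ t, g i j '' E j) ∈ 𝓝 x) :
    ∀ x : B, ∃ (t : Finset (Σ i, κ i)) (E : ∀ p : (Σ i, κ i), Set (Y p.1 p.2)),
      (∀ p ∈ t, IsCompact (E p)) ∧ (⋃ p ∈ t, f p.1 '' (g p.1 p.2 '' E p)) ∈ 𝓝 x := by
  classical
  have step1 : ∀ (i : ι) (K : Set (X i)), IsCompact K → ∃ (t : Finset (κ i))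
      (E : ∀ j, Set (Y i j)), (∀ j, IsCompact (E j)) ∧ K ⊆ ⋃ j ∈ t, g i j '' E j := by
    intro i K hK
    refine hK.induction_on (p := fun S => ∃ (t : Finset (κ i)) (E : ∀ j, Set (Y i j)),
      (∀ j, IsCompact (E j)) ∧ S ⊆ ⋃ j ∈ t, g i j '' E j) ?_ ?_ ?_ ?_
    · exact ⟨∅, fun _ => ∅, fun _ => isCompact_empty, Set.empty_subset _⟩
    · rintro s s' hss' ⟨t, E, hE, hc⟩
      exact ⟨t, E, hE, hss'.trans hc⟩
    · rintro s s' ⟨t₁, E₁, hE₁, h₁⟩ ⟨t₂, E₂, hE₂, h₂⟩
      refine ⟨t₁ ∪ t₂, fun j => E₁ j ∪ E₂ j, fun j => (hE₁ j).union (hE₂ j), ?_⟩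
      apply Set.union_subset
      · intro y hy
        have := h₁ hy
        simp only [Set.mem_iUnion, Set.mem_image, exists_prop] at this ⊢
        obtain ⟨j, hj, z, hz, rfl⟩ := this
        exact ⟨j, Finset.mem_union_left _ hj, z, Or.inl hz, rfl⟩
      · intro y hy
        have := h₂ hy
        simp only [Set.mem_iUnion, Set.mem_image, exists_prop] at this ⊢
        obtain ⟨j, hj, z, hz, rfl⟩ := this
        exact ⟨j, Finset.mem_union_right _ hj, z, Or.inr hz, rfl⟩
    · intro x _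
      obtain ⟨t, E, hE, hN⟩ := hcov' i x
      refine ⟨⋃ j ∈ t, g i j '' E j, mem_nhdsWithin_of_mem_nhds hN, t,
        fun j => if j ∈ t then E j else ∅, ?_, ?_⟩
      · intro j
        show IsCompact (if j ∈ t then E j else ∅)
        split_ifs with h
        · exact hE j h
        · exact isCompact_empty
      · intro y hy
        simp only [Set.mem_iUnion, Set.mem_image, exists_prop] at hy ⊢
        obtain ⟨j, hj, z, hz, rfl⟩ := hy
        exact ⟨j, hj, z, by simp only [hj, if_true]; exact hz, rfl⟩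
  intro x
  obtain ⟨t, E, hE, hN⟩ := hcov x
  choose T E' hE' hsub using fun i => step1 i (if i ∈ t then E i else ∅) (by
    split_ifs with h
    · exact hE i h
    · exact isCompact_empty)
  refine ⟨t.sigma T, fun p => E' p.1 p.2, fun p _ => hE' p.1 p.2, ?_⟩
  refine Filter.mem_of_superset hN ?_
  intro y hy
  simp only [Set.mem_iUnion, Set.mem_image, exists_prop] at hy
  obtain ⟨i, hi, z, hz, rfl⟩ := hy
  have hz' : z ∈ (if i ∈ t then E i else ∅) := by simp only [hi, if_true]; exact hz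
  have := hsub i hz'
  simp only [Set.mem_iUnion, Set.mem_image, exists_prop] at this
  obtain ⟨j, hj, w, hw, rfl⟩ := this
  simp only [Set.mem_iUnion, Set.mem_image, exists_prop]
  exact ⟨⟨i, j⟩, Finset.mem_sigma.mpr ⟨hi, hj⟩, g i j w, ⟨w, hw, rfl⟩, rfl⟩

end Groth.Agent.S9038
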