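import Groth.Statements.S9039
-- import your own Groth.Agent.* helpers here

set_option autoImplicit false
universe u
open Topology
open CohTop

namespace Groth.Agent.S9039

/-- In the category of Hausdorff locally quasi-compact spaces, where a family of continuous maps f_i :
X_i → X is called a qc covering when every point of X has a neighbourhood ⋃_{i ∈ t} f_i(E_i) with t
a finite set of indices and E_i ⊆ X_i quasi-compact, the base change of a qc covering (X_i → X)
along a continuous map X' → X, namely the family of first projections X' ×_X X_i → X' with the fibre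
product topologised as a subspace of X' × X_i, is a qc covering of X'. -/
theorem result
    {B : Type u} [TopologicalSpace B] [T2Space B] [LocallyCompactSpace B]
    {ι : Type u} {X : ι → Type u} [∀ i, TopologicalSpace (X i)] [∀ i, T2Space (X i)]
    [∀ i, LocallyCompactSpace (X i)]
    (f : ∀ i, X i → B) (hf : ∀ i, Continuous (f i))
    (hcov : ∀ x : B, ∃ (t : Finset ι) (E : ∀ i, Set (X i)),
      (∀ i ∈ t, IsCompact (E i)) ∧ (⋃ i ∈ t, f i '' E i) ∈ 𝓝 x)
    {B' : Type u} [TopologicalSpace B'] [T2Space B'] [LocallyCompactSpace B'] (g : B' → B) (hg : Continuous g) :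
    ∀ x' : B', ∃ (t : Finset ι) (E : ∀ i, Set {p : B' × X i // g p.1 = f i p.2}),
      (∀ i ∈ t, IsCompact (E i)) ∧ (⋃ i ∈ t, (fun p : {p : B' × X i // g p.1 = f i p.2} => p.1.1) '' E i) ∈ 𝓝 x' := by
  intro x'
  obtain ⟨t, E, hE, hN⟩ := hcov (g x')
  obtain ⟨K, hKc, hKn⟩ := exists_compact_mem_nhds x'
  let E' : ∀ i, Set {p : B' × X i // g p.1 = f i p.2} := fun i => {p | p.1.1 ∈ K ∧ p.1.2 ∈ E i}
  refine ⟨t, E', ?_, ?_⟩
  · intro i hi
    have hclosed : IsClosed {p : B' × X i | g p.1 = f i p.2} :=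
      isClosed_eq (hg.comp continuous_fst) ((hf i).comp continuous_snd)
    have hc : IsCompact ({p : B' × X i | g p.1 = f i p.2} ∩ K ×ˢ E i) :=
      (hKc.prod (hE i hi)).inter_left hclosed
    rw [Topology.IsEmbedding.subtypeVal.isCompact_iff]
    convert hc using 1
    ext p
    constructor
    · rintro ⟨q, hq, rfl⟩
      exact ⟨q.2, hq.1, hq.2⟩
    · rintro ⟨h1, h2, h3⟩
      exact ⟨⟨p, h1⟩, ⟨h2, h3⟩, rfl⟩
  · have hpre : g ⁻¹' (⋃ i ∈ t, f i '' E i) ∈ 𝓝 x' := hg.continuousAt.preimage_mem_nhds hN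
    refine Filter.mem_of_superset (Filter.inter_mem hKn hpre) ?_
    rintro b ⟨hbK, hb⟩
    simp only [Set.mem_preimage, Set.mem_iUnion, Set.mem_image] at hb
    obtain ⟨i, hi, y, hy, hyb⟩ := hb
    simp only [Set.mem_iUnion, Set.mem_image]
    exact ⟨i, hi, ⟨(b, y), hyb.symm⟩, ⟨hbK, hy⟩, rfl⟩

end Groth.Agent.S9039
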