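import Groth.Statements.S9040
-- import your own Groth.Agent.* helpers here

set_option autoImplicit false
universe u
open Topology
open CohTop

namespace Groth.Agent.S9040

/-- Let X be a Hausdorff locally quasi-compact space, Y a Hausdorff space and f : X → Y a proper
surjective continuous map. Then {f : X → Y} is a qc covering: every point of Y has a neighbourhood
f(E) with E ⊆ X quasi-compact. (The published statement also assumes Y locally quasi-compact, in
which case the claim is immediate from properness; the published proof does not use that assumption,
and the row is stated without it, so that it shows in particular that Y is locally quasi-compact.) -/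
theorem result
    {X Y : Type u} [TopologicalSpace X] [T2Space X] [LocallyCompactSpace X] [TopologicalSpace Y] [T2Space Y]
    (f : X → Y) (hf : IsProperMap f) (hsurj : Function.Surjective f) (y : Y) :
    ∃ E : Set X, IsCompact E ∧ f '' E ∈ 𝓝 y := by
  have hK : IsCompact (f ⁻¹' {y}) := hf.isCompact_preimage isCompact_singleton
  obtain ⟨E, hE, hsub⟩ := exists_compact_superset hK
  refine ⟨E, hE, ?_⟩
  have hclosed : IsClosed (f '' (interior E)ᶜ) :=
    hf.isClosedMap _ isOpen_interior.isClosed_compl
  have hy : y ∈ (f '' (interior E)ᶜ)ᶜ := by
    rintro ⟨x, hx, rfl⟩
    exact hx (hsub rfl)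
  refine Filter.mem_of_superset (hclosed.isOpen_compl.mem_nhds hy) ?_
  intro z hz
  obtain ⟨x, rfl⟩ := hsurj z
  refine ⟨x, ?_, rfl⟩
  by_contra hxE
  exact hz ⟨x, fun hx => hxE (interior_subset hx), rfl⟩

end Groth.Agent.S9040
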