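import Groth.Statements.S9124
import Groth.Agent.Lib.Helper14.Catenary
-- import your own Groth.Agent.* helpers here

set_option autoImplicit false
universe u
open CAlg

namespace Groth.Agent.S9124

/-- A localization of a catenary ring is catenary. -/
theorem result (A : Type u) [CommRing A] (S : Submonoid A)
    (B : Type u) [CommRing B] [Algebra A B] [IsLocalization S B]
    (hA : CAlg.IsCatenary A) : CAlg.IsCatenary B := by
  refine Groth.Agent.Lib.Helper14.catOrder_of_embedding
    (PrimeSpectrum.comap (algebraMap A B)) ?_ ?_ hA
  · intro a b
    exact (IsLocalization.orderEmbedding S B).map_rel_iff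
  · intro a b x _ hxb
    have : x ∈ Set.range (PrimeSpectrum.comap (algebraMap A B)) := by
      rw [PrimeSpectrum.localization_comap_range B S]
      have hb : Disjoint (S : Set A) (PrimeSpectrum.comap (algebraMap A B) b).asIdeal := by
        have : PrimeSpectrum.comap (algebraMap A B) b ∈
            Set.range (PrimeSpectrum.comap (algebraMap A B)) := ⟨b, rfl⟩
        rwa [PrimeSpectrum.localization_comap_range B S] at this
      exact Set.disjoint_of_subset_right hxb hb
    exact this

end Groth.Agent.S9124
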