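import Groth.Statements.S9125
import Groth.Agent.Lib.Helper14.Catenary
-- import your own Groth.Agent.* helpers here

set_option autoImplicit false
universe u
open CAlg

namespace Groth.Agent.S9125

/-- A quotient of a catenary ring is catenary. -/
theorem result (A : Type u) [CommRing A] (I : Ideal A)
    (hA : CAlg.IsCatenary A) : CAlg.IsCatenary (A ⧸ I) := by
  have hsurj : Function.Surjective (Ideal.Quotient.mk I) := Ideal.Quotient.mk_surjective
  refine Groth.Agent.Lib.Helper14.catOrder_of_embedding
    (PrimeSpectrum.comap (Ideal.Quotient.mk I)) ?_ ?_ hA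
  · intro a b
    exact Ideal.comap_le_comap_iff_of_surjective _ hsurj _ _
  · intro a b x hax _
    have : x ∈ Set.range (PrimeSpectrum.comap (Ideal.Quotient.mk I)) := by
      rw [range_comap_of_surjective _ _ hsurj]
      intro y hy
      apply hax
      show Ideal.Quotient.mk I y ∈ a.asIdeal
      rw [SetLike.mem_coe, RingHom.mem_ker] at hy
      rw [hy]
      exact a.asIdeal.zero_mem
    exact this

end Groth.Agent.S9125
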