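import Groth.Statements.S9126
import Groth.Agent.S9124
import Mathlib.RingTheory.EssentialFiniteness
import Mathlib.RingTheory.Localization.Submodule
-- import your own Groth.Agent.* helpers here

set_option autoImplicit false
universe u
open CAlg

namespace Groth.Agent.S9126

/-- An algebra essentially of finite type over a Noetherian universally catenary ring is universally
catenary. -/
theorem result (A : Type u) [CommRing A] (B : Type u) [CommRing B]
    [Algebra A B] [Algebra.EssFiniteType A B]
    (hA : CAlg.IsUniversallyCatenary A) : CAlg.IsUniversallyCatenary B := by
  obtain ⟨hAN, hAcat⟩ := hA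
  have hBN : IsNoetherianRing B := by
    have : IsNoetherianRing (Algebra.EssFiniteType.subalgebra A B) :=
      Algebra.FiniteType.isNoetherianRing A _
    exact IsLocalization.isNoetherianRing (Algebra.EssFiniteType.submonoid A B) B this
  refine ⟨hBN, ?_⟩
  intro C _ _ hC
  let : Algebra A C := ((algebraMap B C).comp (algebraMap A B)).toAlgebra
  have : IsScalarTower A B C := IsScalarTower.of_algebraMap_eq' rfl
  have : Algebra.EssFiniteType B C := Algebra.EssFiniteType.of_finiteType B C
  have : Algebra.EssFiniteType A C := Algebra.EssFiniteType.comp A B C
  have hC₀ : CAlg.IsCatenary (Algebra.EssFiniteType.subalgebra A C) :=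
    hAcat _ inferInstance
  exact Groth.Agent.S9124.result (Algebra.EssFiniteType.subalgebra A C)
    (Algebra.EssFiniteType.submonoid A C) C hC₀

end Groth.Agent.S9126
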