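import Groth.Statements.S9127
import Groth.Agent.Lib.Helper14.Catenary
import Groth.Agent.S9125
-- import your own Groth.Agent.* helpers here

set_option autoImplicit false
universe u
open CAlg

namespace Groth.Agent.S9127

/-- A Noetherian ring is catenary if and only if its quotient by every minimal prime is catenary. -/
theorem result (R : Type u) [CommRing R] [IsNoetherianRing R] :
    CAlg.IsCatenary R ↔ ∀ p ∈ minimalPrimes R, CAlg.IsCatenary (R ⧸ p) := by
  constructor
  · intro hR p _
    exact Groth.Agent.S9125.result R p hR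
  · intro H
    -- embedding data for each minimal prime
    have hemb : ∀ p₀ : Ideal R, ∀ (a b : PrimeSpectrum (R ⧸ p₀)),
        PrimeSpectrum.comap (Ideal.Quotient.mk p₀) a ≤ PrimeSpectrum.comap (Ideal.Quotient.mk p₀) b
          ↔ a ≤ b := fun p₀ a b =>
      Ideal.comap_le_comap_iff_of_surjective _ Ideal.Quotient.mk_surjective _ _
    have hup : ∀ p₀ : Ideal R, ∀ (a : PrimeSpectrum (R ⧸ p₀)) (x : PrimeSpectrum R),
        PrimeSpectrum.comap (Ideal.Quotient.mk p₀) a ≤ x →
          ∃ c, PrimeSpectrum.comap (Ideal.Quotient.mk p₀) c = x := by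
      intro p₀ a x hax
      have : x ∈ Set.range (PrimeSpectrum.comap (Ideal.Quotient.mk p₀)) := by
        rw [range_comap_of_surjective _ _ Ideal.Quotient.mk_surjective]
        intro y hy
        apply hax
        show Ideal.Quotient.mk p₀ y ∈ a.asIdeal
        rw [SetLike.mem_coe, RingHom.mem_ker] at hy
        rw [hy]
        exact a.asIdeal.zero_mem
      exact this
    -- every prime lies over a minimal prime, hence in the range
    have hmin : ∀ p : PrimeSpectrum R, ∃ p₀ ∈ minimalPrimes R, ∃ a : PrimeSpectrum (R ⧸ p₀),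
        PrimeSpectrum.comap (Ideal.Quotient.mk p₀) a = p := by
      intro p
      obtain ⟨p₀, hp₀, hle⟩ := Ideal.exists_minimalPrimes_le (I := (⊥ : Ideal R)) (J := p.asIdeal)
        bot_le
      refine ⟨p₀, hp₀, ?_⟩
      have : p ∈ Set.range (PrimeSpectrum.comap (Ideal.Quotient.mk p₀)) := by
        rw [range_comap_of_surjective _ _ Ideal.Quotient.mk_surjective]
        intro y hy
        rw [SetLike.mem_coe, RingHom.mem_ker, Ideal.Quotient.eq_zero_iff_mem] at hy
        exact hle hy
      exact this
    constructor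
    · intro p q hpq
      obtain ⟨p₀, hp₀, a, rfl⟩ := hmin p
      exact Groth.Agent.Lib.Helper14.bound_of_up _ (hemb p₀) (hup p₀) (H p₀ hp₀) a q hpq
    · intro s t h1 h2 hs ht
      obtain ⟨p₀, hp₀, a, ha⟩ := hmin s.head
      exact Groth.Agent.Lib.Helper14.sat_of_up _ (hemb p₀) (hup p₀) (H p₀ hp₀) a s t ha.symm
        (h1.symm.trans ha.symm) h2 hs ht

end Groth.Agent.S9127
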