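import Groth.Statements.S9139
import Mathlib.RingTheory.Noetherian.Nilpotent
-- import your own Groth.Agent.* helpers here

set_option autoImplicit false
universe u
open CAlg

namespace Groth.Agent.S9139

/-- Let I be a locally nilpotent ideal of a ring R (every element of I is nilpotent) and S → S' a map of
R-algebras with S' of finite type over R. If S → S'/IS' is surjective then so is S → S'. -/
theorem result (R S S' : Type u) [CommRing R] [CommRing S]
    [CommRing S'] [Algebra R S] [Algebra R S'] [Algebra.FiniteType R S'] (I : Ideal R)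
    (hI : ∀ x ∈ I, IsNilpotent x) (f : S →ₐ[R] S')
    (hf : Function.Surjective ((Ideal.Quotient.mk (I.map (algebraMap R S'))).comp f.toRingHom)) :
    Function.Surjective f := by
  classical
  obtain ⟨gens, hgens⟩ := Algebra.FiniteType.out (R := R) (A := S')
  have hmem : ∀ y : S', ∃ s : S, y - f s ∈ I.map (algebraMap R S') := by
    intro y
    obtain ⟨s, hs⟩ := hf (Ideal.Quotient.mk _ y)
    refine ⟨s, ?_⟩
    rw [← Ideal.Quotient.eq]
    exact hs.symm
  choose sec hsec using hmem
  have hfin : ∀ y : S', ∃ A : Finset R, (A : Set R) ⊆ I ∧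
      y - f (sec y) ∈ (Ideal.span (A : Set R)).map (algebraMap R S') := by
    intro y
    have h := hsec y
    obtain ⟨F, hF, hyF⟩ := Submodule.mem_span_finite_of_mem_span h
    obtain ⟨A, hA, rfl⟩ := Finset.subset_set_image_iff.mp hF
    refine ⟨A, hA, ?_⟩
    rw [Ideal.map]
    refine Submodule.span_mono ?_ hyF
    rw [Finset.coe_image]
    exact Set.image_mono Ideal.subset_span
  choose A hAI hA using hfin
  let A₀ : Finset R := gens.biUnion A
  let I₀ : Ideal R := Ideal.span (A₀ : Set R)
  have hI₀ : IsNilpotent I₀ := by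
    rw [Ideal.FG.isNilpotent_iff_le_nilradical ⟨A₀, rfl⟩, Ideal.span_le]
    intro a ha
    simp only [A₀, Finset.coe_biUnion, Set.mem_iUnion] at ha
    obtain ⟨y, hy, ha⟩ := ha
    exact hI a (hAI y ha)
  let J : Ideal S' := I₀.map (algebraMap R S')
  let T : Subalgebra R S' := f.range
  have hbase : ∀ y : S', ∃ t ∈ T, y - t ∈ J := by
    intro y
    have hy : y ∈ Algebra.adjoin R (gens : Set S') := by rw [hgens]; trivial
    induction hy using Algebra.adjoin_induction with
    | mem x hx =>
      refine ⟨f (sec x), ⟨sec x, rfl⟩, ?_⟩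
      refine Ideal.map_mono ?_ (hA x)
      apply Ideal.span_mono
      intro a ha
      simp only [A₀, Finset.coe_biUnion, Set.mem_iUnion]
      exact ⟨x, hx, ha⟩
    | algebraMap r => exact ⟨algebraMap R S' r, T.algebraMap_mem r, by simp⟩
    | add x y hx hy ihx ihy =>
      obtain ⟨t, ht, htx⟩ := ihx
      obtain ⟨t', ht', hty⟩ := ihy
      refine ⟨t + t', T.add_mem ht ht', ?_⟩
      have := J.add_mem htx hty
      convert this using 1; ring
    | mul x y hx hy ihx ihy =>
      obtain ⟨t, ht, htx⟩ := ihx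
      obtain ⟨t', ht', hty⟩ := ihy
      refine ⟨t * t', T.mul_mem ht ht', ?_⟩
      have : x * y - t * t' = (x - t) * y + t * (y - t') := by ring
      rw [this]
      exact J.add_mem (J.mul_mem_right _ htx) (J.mul_mem_left _ hty)
  have hstep : ∀ n : ℕ, ∀ x ∈ J ^ n, ∃ t ∈ T, x - t ∈ J ^ (n + 1) := by
    intro n x hx
    have hx' : x ∈ Ideal.map (algebraMap R S') (I₀ ^ n) := by rwa [Ideal.map_pow]
    clear hx
    rw [Ideal.map] at hx'
    induction hx' using Submodule.span_induction with
    | mem z hz =>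
      obtain ⟨r, hr, rfl⟩ := hz
      exact ⟨algebraMap R S' r, T.algebraMap_mem r, by simp⟩
    | zero => exact ⟨0, T.zero_mem, by simp⟩
    | add z w hz hw ihz ihw =>
      obtain ⟨t, ht, htz⟩ := ihz
      obtain ⟨t', ht', htw⟩ := ihw
      refine ⟨t + t', T.add_mem ht ht', ?_⟩
      have := (J ^ (n + 1)).add_mem htz htw
      convert this using 1; ring
    | smul a z hz ihz =>
      have hzJ : z ∈ J ^ n := by
        rw [← Ideal.map_pow]
        exact hz
      obtain ⟨t, ht, htz⟩ := ihz
      obtain ⟨ta, hta, hja⟩ := hbase a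
      refine ⟨ta * t, T.mul_mem hta ht, ?_⟩
      have : a • z - ta * t = (a - ta) * z + ta * (z - t) := by rw [smul_eq_mul]; ring
      rw [this]
      refine (J ^ (n + 1)).add_mem ?_ ((J ^ (n + 1)).mul_mem_left _ htz)
      rw [pow_succ']
      exact Ideal.mul_mem_mul hja hzJ
  obtain ⟨N, hN⟩ := hI₀
  intro y
  have hall : ∀ n : ℕ, ∃ t ∈ T, y - t ∈ J ^ n := by
    intro n
    induction n with
    | zero => exact ⟨0, T.zero_mem, by simp⟩
    | succ n ih =>
      obtain ⟨t, ht, hyt⟩ := ih
      obtain ⟨t', ht', h'⟩ := hstep n _ hyt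
      exact ⟨t + t', T.add_mem ht ht', by rw [← sub_sub]; exact h'⟩
  obtain ⟨t, ht, hyt⟩ := hall N
  obtain ⟨s, rfl⟩ := (AlgHom.mem_range f).mp ht
  have hJN : J ^ N = ⊥ := by rw [← Ideal.map_pow, hN, Ideal.zero_eq_bot, Ideal.map_bot]
  rw [hJN, Ideal.mem_bot, sub_eq_zero] at hyt
  exact ⟨s, hyt.symm⟩

end Groth.Agent.S9139
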