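import Groth.Statements.S9161
import Mathlib.Tactic.Abel
-- import your own Groth.Agent.* helpers here

set_option autoImplicit false
universe u
open CAlg

namespace Groth.Agent.S9161

/-- If two two-term complexes of R-modules A₁ → A₀ and B₁ → B₀ are homotopy equivalent (maps of
complexes both ways whose composites are homotopic to the identity maps), then A₁ ⊕ B₀ and B₁ ⊕ A₀
are isomorphic R-modules. -/
theorem result (R : Type u) [CommRing R]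
    (A₁ A₀ B₁ B₀ : Type u) [AddCommGroup A₁] [Module R A₁] [AddCommGroup A₀] [Module R A₀]
    [AddCommGroup B₁] [Module R B₁] [AddCommGroup B₀] [Module R B₀]
    (dA : A₁ →ₗ[R] A₀) (dB : B₁ →ₗ[R] B₀) (φ₁ : A₁ →ₗ[R] B₁) (φ₀ : A₀ →ₗ[R] B₀)
    (ψ₁ : B₁ →ₗ[R] A₁) (ψ₀ : B₀ →ₗ[R] A₀) (hφ : dB ∘ₗ φ₁ = φ₀ ∘ₗ dA) (hψ : dA ∘ₗ ψ₁ = ψ₀ ∘ₗ dB)
    (h : A₀ →ₗ[R] A₁) (hh₁ : LinearMap.id - ψ₁ ∘ₗ φ₁ = h ∘ₗ dA) (hh₀ : LinearMap.id - ψ₀ ∘ₗ φ₀ = dA ∘ₗ h)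
    (h' : B₀ →ₗ[R] B₁) (hh'₁ : LinearMap.id - φ₁ ∘ₗ ψ₁ = h' ∘ₗ dB)
    (hh'₀ : LinearMap.id - φ₀ ∘ₗ ψ₀ = dB ∘ₗ h') :
    Nonempty ((A₁ × B₀) ≃ₗ[R] (B₁ × A₀)) := by
  have eφ : ∀ x, dB (φ₁ x) = φ₀ (dA x) := fun x => LinearMap.congr_fun hφ x
  have eψ : ∀ x, dA (ψ₁ x) = ψ₀ (dB x) := fun x => LinearMap.congr_fun hψ x
  have e₁ : ∀ x, x - ψ₁ (φ₁ x) = h (dA x) := fun x => LinearMap.congr_fun hh₁ x
  have e₀ : ∀ x, x - ψ₀ (φ₀ x) = dA (h x) := fun x => LinearMap.congr_fun hh₀ x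
  have e'₁ : ∀ x, x - φ₁ (ψ₁ x) = h' (dB x) := fun x => LinearMap.congr_fun hh'₁ x
  have e'₀ : ∀ x, x - φ₀ (ψ₀ x) = dB (h' x) := fun x => LinearMap.congr_fun hh'₀ x
  let F : (A₁ × B₀) →ₗ[R] (B₁ × A₀) :=
    LinearMap.prod (φ₁ ∘ₗ LinearMap.fst R A₁ B₀ - h' ∘ₗ LinearMap.snd R A₁ B₀)
      (dA ∘ₗ LinearMap.fst R A₁ B₀ + ψ₀ ∘ₗ LinearMap.snd R A₁ B₀)
  have hF : ∀ a b, F (a, b) = (φ₁ a - h' b, dA a + ψ₀ b) := fun a b => rfl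
  have hinj : Function.Injective F := by
    rw [← LinearMap.ker_eq_bot, LinearMap.ker_eq_bot']
    rintro ⟨a, b⟩ hab
    rw [hF, Prod.mk_eq_zero] at hab
    obtain ⟨h1, h2⟩ := hab
    have h1' : φ₁ a = h' b := sub_eq_zero.mp h1
    have h2' : dA a = - ψ₀ b := eq_neg_of_add_eq_zero_left h2
    have hb : b = 0 := by
      have := e'₀ b
      rw [← h1', eφ, h2', map_neg] at this
      have := congrArg (· + φ₀ (ψ₀ b)) this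
      simpa using this
    subst hb
    simp only [map_zero, neg_zero] at h1' h2'
    have := e₁ a
    rw [h1', h2', map_zero, map_zero, sub_zero] at this
    rw [this, Prod.mk_zero_zero]
  have hsurj : Function.Surjective F := by
    rintro ⟨b₁, a₀⟩
    refine ⟨(h a₀ + ψ₁ b₁ + ψ₁ (h' (φ₀ a₀) - φ₁ (h a₀)), φ₀ a₀ - dB b₁), ?_⟩
    rw [hF]
    have hc : dB (h' (φ₀ a₀) - φ₁ (h a₀)) = 0 := by
      rw [map_sub, ← e'₀, eφ, ← e₀, map_sub, sub_self]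
    have hz1 : φ₁ (ψ₁ (h' (φ₀ a₀) - φ₁ (h a₀))) = h' (φ₀ a₀) - φ₁ (h a₀) := by
      have := e'₁ (h' (φ₀ a₀) - φ₁ (h a₀))
      rw [hc, map_zero, sub_eq_zero] at this
      exact this.symm
    have hz2 : dA (ψ₁ (h' (φ₀ a₀) - φ₁ (h a₀))) = 0 := by
      rw [eψ, hc, map_zero]
    have hb1 : φ₁ (ψ₁ b₁) + h' (dB b₁) = b₁ := by
      rw [← e'₁]; abel
    have ha0 : dA (h a₀) + ψ₀ (φ₀ a₀) = a₀ := by
      rw [← e₀]; abel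
    ext
    · show φ₁ (h a₀ + ψ₁ b₁ + ψ₁ (h' (φ₀ a₀) - φ₁ (h a₀))) - h' (φ₀ a₀ - dB b₁) = b₁
      rw [map_add, map_add, hz1, map_sub]
      conv_rhs => rw [← hb1]
      abel
    · show dA (h a₀ + ψ₁ b₁ + ψ₁ (h' (φ₀ a₀) - φ₁ (h a₀))) + ψ₀ (φ₀ a₀ - dB b₁) = a₀
      rw [map_add, map_add, hz2, eψ, map_sub]
      conv_rhs => rw [← ha0]
      abel
  exact ⟨LinearEquiv.ofBijective F ⟨hinj, hsurj⟩⟩

end Groth.Agent.S9161
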