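import Groth.Statements.S9162
import Groth.Agent.S9161
import Mathlib.RingTheory.Extension.Cotangent.Basic
-- import your own Groth.Agent.* helpers here

set_option autoImplicit false
universe u
open CAlg

namespace Groth.Agent.S9162

/-- Let S be an R-algebra and α : R[x_1, …, x_n] → S, β : R[y_1, …, y_m] → S surjective R-algebra maps
(presentations by polynomial rings in finitely many variables; the kernels I and J need not be
finitely generated). Then I/I² ⊕ S^m and J/J² ⊕ S^n are isomorphic S-modules. -/
theorem result (R S : Type u) [CommRing R] [CommRing S]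
    [Algebra R S] (n m : ℕ) (α : MvPolynomial (Fin n) R →ₐ[R] S) (hα : Function.Surjective α)
    (β : MvPolynomial (Fin m) R →ₐ[R] S) (hβ : Function.Surjective β) :
    Nonempty (((Algebra.Extension.ofSurjective α hα).Cotangent × (Fin m → S)) ≃ₗ[S]
      ((Algebra.Extension.ofSurjective β hβ).Cotangent × (Fin n → S))) := by
  classical
  set P₁ := Algebra.Extension.ofSurjective α hα
  set P₂ := Algebra.Extension.ofSurjective β hβ
  choose v hv using fun i : Fin n => hβ (α (MvPolynomial.X i))
  choose w hw using fun i : Fin m => hα (β (MvPolynomial.X i))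
  let F₁₂ : MvPolynomial (Fin n) R →ₐ[R] MvPolynomial (Fin m) R := MvPolynomial.aeval v
  let F₂₁ : MvPolynomial (Fin m) R →ₐ[R] MvPolynomial (Fin n) R := MvPolynomial.aeval w
  have H₁₂ : β.comp F₁₂ = α := by
    apply MvPolynomial.algHom_ext
    intro i
    simp [F₁₂, hv]
  have H₂₁ : α.comp F₂₁ = β := by
    apply MvPolynomial.algHom_ext
    intro i
    simp [F₂₁, hw]
  let f : P₁.Hom P₂ :=
    { toRingHom := F₁₂.toRingHom
      toRingHom_algebraMap := fun x => F₁₂.commutes x
      algebraMap_toRingHom := fun x => AlgHom.congr_fun H₁₂ x }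
  let g : P₂.Hom P₁ :=
    { toRingHom := F₂₁.toRingHom
      toRingHom_algebraMap := fun x => F₂₁.commutes x
      algebraMap_toRingHom := fun x => AlgHom.congr_fun H₂₁ x }
  obtain ⟨e⟩ := Groth.Agent.S9161.result S P₁.Cotangent P₁.CotangentSpace P₂.Cotangent
    P₂.CotangentSpace P₁.cotangentComplex P₂.cotangentComplex (Algebra.Extension.Cotangent.map f)
    (Algebra.Extension.CotangentSpace.map f)
    (Algebra.Extension.Cotangent.map g) (Algebra.Extension.CotangentSpace.map g)
    (Algebra.Extension.CotangentSpace.map_comp_cotangentComplex f).symm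
    (Algebra.Extension.CotangentSpace.map_comp_cotangentComplex g).symm
    ((Algebra.Extension.Hom.id P₁).sub (g.comp f))
    (by
      have := Algebra.Extension.Cotangent.map_sub_map (Algebra.Extension.Hom.id P₁) (g.comp f)
      rw [Algebra.Extension.Cotangent.map_id, Algebra.Extension.Cotangent.map_comp] at this
      exact this)
    (by
      have := Algebra.Extension.CotangentSpace.map_sub_map (Algebra.Extension.Hom.id P₁) (g.comp f)
      rw [Algebra.Extension.CotangentSpace.map_id, Algebra.Extension.CotangentSpace.map_comp] at this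
      exact this)
    ((Algebra.Extension.Hom.id P₂).sub (f.comp g))
    (by
      have := Algebra.Extension.Cotangent.map_sub_map (Algebra.Extension.Hom.id P₂) (f.comp g)
      rw [Algebra.Extension.Cotangent.map_id, Algebra.Extension.Cotangent.map_comp] at this
      exact this)
    (by
      have := Algebra.Extension.CotangentSpace.map_sub_map (Algebra.Extension.Hom.id P₂) (f.comp g)
      rw [Algebra.Extension.CotangentSpace.map_id, Algebra.Extension.CotangentSpace.map_comp] at this
      exact this)
  let b₁ : Module.Basis (Fin n) S P₁.CotangentSpace :=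
    letI : Algebra (MvPolynomial (Fin n) R) S := α.toAlgebra
    (KaehlerDifferential.mvPolynomialBasis R (Fin n)).baseChange S
  let b₂ : Module.Basis (Fin m) S P₂.CotangentSpace :=
    letI : Algebra (MvPolynomial (Fin m) R) S := β.toAlgebra
    (KaehlerDifferential.mvPolynomialBasis R (Fin m)).baseChange S
  exact ⟨((LinearEquiv.refl S P₁.Cotangent).prodCongr b₂.equivFun.symm).trans
    (e.trans ((LinearEquiv.refl S P₂.Cotangent).prodCongr b₁.equivFun))⟩

end Groth.Agent.S9162
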