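import Groth.Statements.S9163
import Mathlib.RingTheory.IntegralClosure.IsIntegral.Basic
import Mathlib.Algebra.Polynomial.Lifts
import Mathlib.RingTheory.FiniteType
-- import your own Groth.Agent.* helpers here

set_option autoImplicit false
universe u
open CAlg

namespace Groth.Agent.S9163

/-- If S is integral over R, then any finitely many elements of R and of S lie in a pair R₀ ⊆ R, S₀ ⊆ S
with R₀ a finite type ℤ-subalgebra, S₀ an R₀-subalgebra of S, and S₀ finite as an R₀-module; so R →
S is the directed colimit of finite maps between finite type ℤ-algebras. -/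
theorem result (R S : Type u) [CommRing R] [CommRing S] [Algebra R S]
    [Algebra.IsIntegral R S] (E : Finset R) (F : Finset S) :
    ∃ (R₀ : Subalgebra ℤ R) (S₀ : Subalgebra R₀ S), Algebra.FiniteType ℤ R₀ ∧ (E : Set R) ⊆ R₀ ∧
      (F : Set S) ⊆ S₀ ∧ Module.Finite R₀ S₀ := by
  classical
  choose p hpm hp using fun s : S => (Algebra.IsIntegral.isIntegral (R := R) s)
  let C : Finset R := E ∪ F.biUnion (fun s => (p s).coeffs)
  let R₀ : Subalgebra ℤ R := Algebra.adjoin ℤ (C : Set R)
  have hfg : Algebra.FiniteType ℤ R₀ :=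
    (Subalgebra.fg_iff_finiteType _).mp (Subalgebra.fg_adjoin_finset C)
  have hint : ∀ s ∈ (F : Set S), IsIntegral R₀ s := by
    intro s hs
    have hlifts : p s ∈ Polynomial.lifts (algebraMap R₀ R) := by
      rw [Polynomial.lifts_iff_coeff_lifts]
      intro n
      by_cases hn : (p s).coeff n = 0
      · rw [hn]; exact ⟨0, map_zero _⟩
      · refine ⟨⟨(p s).coeff n, Algebra.subset_adjoin ?_⟩, rfl⟩
        simp only [C, Finset.coe_union, Finset.coe_biUnion, Set.mem_union, Set.mem_iUnion,
          Finset.mem_coe]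
        exact Or.inr ⟨s, hs, Polynomial.coeff_mem_coeffs hn⟩
    obtain ⟨q, hq, -, hqm⟩ := Polynomial.lifts_and_natDegree_eq_and_monic hlifts (hpm s)
    refine ⟨q, hqm, ?_⟩
    rw [IsScalarTower.algebraMap_eq R₀ R S, ← Polynomial.eval₂_map, hq]
    exact hp s
  refine ⟨R₀, Algebra.adjoin R₀ (F : Set S), hfg, ?_, Algebra.subset_adjoin, ?_⟩
  · intro x hx
    apply Algebra.subset_adjoin
    simp only [C, Finset.coe_union, Set.mem_union]
    exact Or.inl hx
  · exact (Module.Finite.iff_fg (N := Subalgebra.toSubmodule (Algebra.adjoin R₀ (F : Set S)))).mpr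
      (fg_adjoin_of_finite F.finite_toSet hint)

end Groth.Agent.S9163
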