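import Groth.Statements.S9178
import Groth.Agent.Lib.Helper14.Conormal
-- import your own Groth.Agent.* helpers here

set_option autoImplicit false
universe u
open CAlg

namespace Groth.Agent.S9178

/-- For ring maps A → B → C with A → C surjective, writing I = ker(A → C) and J = ker(B → C), the
sequence I/I² → J/J² → C ⊗_B Ω_{B/A} → 0 is exact. Stated: the image of I/I² in J/J² is exactly the
kernel of J/J² → C ⊗_B Ω_{B/A} (surjectivity of the latter map is the standard conormal sequence for
the surjection B → C). -/
theorem result (A B C : Type u) [CommRing A] [CommRing B]
    [CommRing C] [Algebra A B] [Algebra B C] [Algebra A C] [IsScalarTower A B C]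
    (hAC : Function.Surjective (algebraMap A C))
    (h : RingHom.ker (algebraMap A C) ≤ (RingHom.ker (algebraMap B C)).comap (Algebra.ofId A B)) :
    Function.Exact
      (Ideal.mapCotangent (RingHom.ker (algebraMap A C)) (RingHom.ker (algebraMap B C)) (Algebra.ofId A B) h)
      (KaehlerDifferential.kerCotangentToTensor A B C) := by
  exact Groth.Agent.Lib.Helper14.Conormal.exact_mapCotangent_kerCotangentToTensor A B C hAC h

end Groth.Agent.S9178
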