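import Groth.Statements.S9235
import Mathlib
-- import your own Groth.Agent.* helpers here

set_option autoImplicit false
universe u
open Brnch

namespace Groth.Agent.S9235

open Polynomial in
theorem isDomain_red_of_isLocalRing_normRed (A : Type u) [CommRing A] [Nontrivial A]
    (hfin : (minimalPrimes A).Finite) (hloc : IsLocalRing (CAlg2.normRed A)) :
    IsDomain (CAlg2.red A) := by
  classical
  rw [Ideal.Quotient.isDomain_iff_prime]
  have hnil : sInf (minimalPrimes A) = nilradical A := Ideal.sInf_minimalPrimes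
  obtain ⟨m, hm⟩ := Ideal.exists_maximal A
  obtain ⟨p, hp, -⟩ := Ideal.exists_minimalPrimes_le (show (⊥ : Ideal A) ≤ m from bot_le)
  have hpp : p.IsPrime := hp.1.1
  set M' : Set (Ideal A) := minimalPrimes A \ {p} with hM'def
  have hM'fin : M'.Finite := hfin.subset Set.sdiff_subset
  by_cases hM' : M'.Nonempty
  swap
  · have hsing : minimalPrimes A = {p} := by
      ext q
      refine ⟨fun hq => ?_, fun hq => by rw [Set.mem_singleton_iff.mp hq]; exact hp⟩
      by_contra hqp
      exact hM' ⟨q, hq, hqp⟩
    rw [← hnil, hsing, sInf_singleton]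
    exact hpp
  exfalso
  obtain ⟨q₀, hq₀⟩ := hM'
  -- minimality facts
  have hmin : ∀ q ∈ minimalPrimes A, ∀ r : Ideal A, r.IsPrime → r ≤ q → q ≤ r := by
    intro q hq r hr hrq
    exact hq.2 ⟨hr, bot_le⟩ hrq
  -- a ∈ all q ∈ M', a ∉ p
  obtain ⟨a, haM', hap⟩ : ∃ a : A, (∀ q ∈ M', a ∈ q) ∧ a ∉ p := by
    by_contra hcon
    push Not at hcon
    have hle : hM'fin.toFinset.inf id ≤ p := by
      intro x hx
      apply hcon x
      intro q hq
      have : hM'fin.toFinset.inf id ≤ q :=
        Finset.inf_le (f := id) (hM'fin.mem_toFinset.mpr hq)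
      exact this hx
    obtain ⟨q, hq, hqp⟩ := (Ideal.IsPrime.inf_le' hpp).mp hle
    rw [Set.Finite.mem_toFinset] at hq
    have hqmin : q ∈ minimalPrimes A := hq.1
    have := hmin p hp q hqmin.1.1 hqp
    exact hq.2 (Set.mem_singleton_iff.mpr (le_antisymm hqp this))
  -- b ∈ p, b ∉ q for q ∈ M'
  obtain ⟨b, hbp, hbM'⟩ : ∃ b ∈ p, ∀ q ∈ M', b ∉ q := by
    by_contra hcon
    push Not at hcon
    have hsub : (p : Set A) ⊆ ⋃ i ∈ (↑hM'fin.toFinset : Set (Ideal A)), ((id i : Ideal A) : Set A) := by
      intro x hx
      obtain ⟨q, hq, hxq⟩ := hcon x hx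
      exact Set.mem_biUnion (by simpa using hq) hxq
    rw [Ideal.subset_union_prime p p (fun i hi _ _ => by
      rw [Set.Finite.mem_toFinset] at hi; exact hi.1.1.1)] at hsub
    obtain ⟨q, hq, hpq⟩ := hsub
    rw [Set.Finite.mem_toFinset] at hq
    have := hmin q hq.1 p hpp hpq
    exact hq.2 (Set.mem_singleton_iff.mpr (le_antisymm this hpq))
  have hcases : ∀ q ∈ minimalPrimes A, q = p ∨ q ∈ M' := by
    intro q hq
    by_cases h : q = p
    · exact Or.inl h
    · exact Or.inr ⟨hq, h⟩
  have hmemnil : ∀ x : A, (∀ q ∈ minimalPrimes A, x ∈ q) → x ∈ nilradical A := by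
    intro x hx
    rw [← hnil]
    exact Submodule.mem_sInf.mpr hx
  have hnil_le : ∀ q ∈ minimalPrimes A, nilradical A ≤ q := by
    intro q hq
    rw [← hnil]
    exact sInf_le hq
  -- work in R = red A
  set π := Ideal.Quotient.mk (nilradical A)
  have hab : π a * π b = 0 := by
    rw [← map_mul, Ideal.Quotient.eq_zero_iff_mem]
    apply hmemnil
    intro q hq
    rcases hcases q hq with rfl | h
    · exact Ideal.mul_mem_left _ _ hbp
    · exact Ideal.mul_mem_right _ _ (haM' q h)
  have ha0 : π a ≠ 0 := by
    rw [Ne, Ideal.Quotient.eq_zero_iff_mem]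
    intro h
    exact hap (hnil_le p hp h)
  have hb0 : π b ≠ 0 := by
    rw [Ne, Ideal.Quotient.eq_zero_iff_mem]
    intro h
    exact hbM' q₀ hq₀ (hnil_le q₀ hq₀.1 h)
  have hs : π a + π b ∈ nonZeroDivisors (CAlg2.red A) := by
    rw [mem_nonZeroDivisors_iff_right]
    intro y hy
    obtain ⟨y, rfl⟩ := Ideal.Quotient.mk_surjective y
    rw [← map_add, ← map_mul, Ideal.Quotient.eq_zero_iff_mem] at hy
    rw [Ideal.Quotient.eq_zero_iff_mem]
    apply hmemnil
    intro q hq
    have h1 := hnil_le q hq hy
    have hnot : a + b ∉ q := by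
      rcases hcases q hq with rfl | h
      · intro h'
        apply hap
        have := q.sub_mem h' hbp
        simpa using this
      · intro h'
        apply hbM' q h
        have := q.sub_mem h' (haM' q h)
        simpa using this
    exact (hq.1.1.mem_or_mem h1).resolve_right hnot
  set s : nonZeroDivisors (CAlg2.red A) := ⟨π a + π b, hs⟩
  set e : FractionRing (CAlg2.red A) := IsLocalization.mk' _ (π a) s
  have he : e * e = e := by
    simp only [e]
    rw [← IsLocalization.mk'_mul, IsLocalization.mk'_eq_iff_eq]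
    congr 1
    simp only [s, Submonoid.coe_mul]
    linear_combination (-(π a + π b)) * hab
  have : Nontrivial (CAlg2.red A) := ⟨⟨π a, 0, ha0⟩⟩
  have hint : IsIntegral (CAlg2.red A) e := by
    refine ⟨X ^ 2 - X, monic_X_pow_sub (by rw [degree_X]; norm_num), ?_⟩
    simp [eval₂_sub, pow_two, he]
  set E : CAlg2.normRed A := ⟨e, hint⟩
  have hE : E * E = E := Subtype.ext he
  rcases hloc.isUnit_or_isUnit_one_sub_self E with hu | hu
  · have h1 : E * (1 - E) = 0 := by rw [mul_sub, mul_one, hE, sub_self]
    have h2 : 1 - E = 0 := hu.mul_right_eq_zero.mp h1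
    have h3 : e = 1 := by
      have : E = 1 := (sub_eq_zero.mp h2).symm
      exact congrArg Subtype.val this
    simp only [e] at h3
    rw [IsLocalization.mk'_eq_iff_eq_mul, one_mul] at h3
    have h4 := IsFractionRing.injective (CAlg2.red A) (FractionRing (CAlg2.red A)) h3
    simp only [s] at h4
    apply hb0
    linear_combination -h4
  · have h1 : (1 - E) * E = 0 := by rw [sub_mul, one_mul, hE, sub_self]
    have h2 : E = 0 := hu.mul_right_eq_zero.mp h1
    have h3 : e = 0 := congrArg Subtype.val h2
    simp only [e] at h3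
    rw [IsLocalization.mk'_eq_zero_iff] at h3
    obtain ⟨t, ht⟩ := h3
    apply ha0
    exact (mem_nonZeroDivisors_iff_left.mp t.2 _ ht)

/-- A local ring A has exactly one branch if and only if it is unibranch. Here the number of branches is
computed as the number of maximal ideals of the integral closure of A_red in its total ring of
fractions (infinity when A has infinitely many minimal primes). -/
theorem result (A : Type u) [CommRing A] [IsLocalRing A] :
    Brnch.numBranches A = 1 ↔ CAlg2.IsUnibranch A := by
  classical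
  unfold Brnch.numBranches CAlg2.IsUnibranch
  constructor
  · intro h
    by_cases hfin : (minimalPrimes A).Finite
    · rw [if_pos hfin] at h
      obtain ⟨hU⟩ := ENat.card_eq_one_iff_unique.mp h
      have hloc : IsLocalRing (CAlg2.normRed A) := by
        apply IsLocalRing.of_unique_max_ideal
        refine ⟨hU.default.asIdeal, hU.default.isMaximal, fun I hI => ?_⟩
        have := hU.uniq ⟨I, hI⟩
        exact congrArg MaximalSpectrum.asIdeal this
      exact ⟨isDomain_red_of_isLocalRing_normRed A hfin hloc, hloc⟩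
    · rw [if_neg hfin] at h
      exact absurd h (by simp)
  · rintro ⟨hdom, hloc⟩
    have hprime : (nilradical A).IsPrime := (Ideal.Quotient.isDomain_iff_prime _).mp hdom
    have hfin : (minimalPrimes A).Finite := by
      apply (Set.finite_singleton (nilradical A)).subset
      intro p hp
      have hle : nilradical A ≤ p := by
        have hnil : sInf (minimalPrimes A) = nilradical A := Ideal.sInf_minimalPrimes
        rw [← hnil]; exact sInf_le hp
      exact Set.mem_singleton_iff.mpr ((hp.2 ⟨hprime, bot_le⟩ hle).antisymm hle)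
    rw [if_pos hfin]
    refine ENat.card_eq_one_iff_unique.mpr ⟨⟨⟨⟨IsLocalRing.maximalIdeal _, inferInstance⟩⟩, fun m => ?_⟩⟩
    exact MaximalSpectrum.ext (IsLocalRing.eq_maximalIdeal m.isMaximal)

end Groth.Agent.S9235
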