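import Groth.Statements.S9245
import Mathlib
-- import your own Groth.Agent.* helpers here

set_option autoImplicit false
universe u
open CAlg

namespace Groth.Agent.S9245

/-- For an étale ring map A → B and a prime q of B with contraction p in A, the localization A_p is a
Noetherian ring exactly when the localization B_q is. -/
theorem result (A B : Type u) [CommRing A] [CommRing B]
    [Algebra A B] [Algebra.Etale A B] (q : Ideal B) [q.IsPrime] :
    IsNoetherianRing (Localization.AtPrime (Ideal.comap (algebraMap A B) q)) ↔
      IsNoetherianRing (Localization.AtPrime q) := by
  classical
  haveI : q.LiesOver (Ideal.comap (algebraMap A B) q) := ⟨rfl⟩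
  letI := Localization.AtPrime.algebraOfLiesOver (Ideal.comap (algebraMap A B) q) q
  constructor
  · intro h
    haveI : Algebra.EssFiniteType A (Localization.AtPrime q) := inferInstance
    haveI : Algebra.EssFiniteType (Localization.AtPrime (Ideal.comap (algebraMap A B) q))
        (Localization.AtPrime q) := Algebra.EssFiniteType.of_comp A _ _
    exact Algebra.EssFiniteType.isNoetherianRing
      (Localization.AtPrime (Ideal.comap (algebraMap A B) q)) (Localization.AtPrime q)
  · intro h
    haveI : Module.FaithfullyFlat (Localization.AtPrime (Ideal.comap (algebraMap A B) q))
        (Localization.AtPrime q) := Module.FaithfullyFlat.of_flat_of_isLocalHom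
    have h1 : IsNoetherian (Localization.AtPrime q)
        (TensorProduct (Localization.AtPrime (Ideal.comap (algebraMap A B) q))
          (Localization.AtPrime q) (Localization.AtPrime (Ideal.comap (algebraMap A B) q))) :=
      isNoetherian_of_linearEquiv (TensorProduct.AlgebraTensorModule.rid _ _ _).symm
    exact Submodule.IsNoetherian.of_isNoetherian_tensorProduct_of_faithfullyFlat h1

end Groth.Agent.S9245
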