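import Groth.Statements.S9261
import Mathlib
-- import your own Groth.Agent.* helpers here

set_option autoImplicit false
universe u
open CAlg

namespace Groth.Agent.S9261

/-- Let G be a finite group acting on a ring R, S = R^G its ring of invariants (here: S → R injective
with image the invariants) and A a flat S-algebra. Then the map A → A ⊗_S R is injective with image
the invariants of G acting on A ⊗_S R through the second factor; that is, A → (A ⊗_S R)^G is an
isomorphism. -/
theorem result (S R A G : Type u) [CommRing S] [CommRing R] [Algebra S R]
    [FaithfulSMul S R] [Group G] [Finite G] [MulSemiringAction G R] [SMulCommClass G S R]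
    [Algebra.IsInvariant S R G] [CommRing A] [Algebra S A] [Module.Flat S A] :
    Function.Injective (algebraMap A (TensorProduct S A R)) ∧
      ∀ x : TensorProduct S A R,
        (∀ σ : G, Algebra.TensorProduct.map (AlgHom.id S A) (MulSemiringAction.toAlgHom S R σ) x = x) →
          x ∈ Set.range (algebraMap A (TensorProduct S A R)) := by
  classical
  haveI := Fintype.ofFinite G
  let f : S →ₗ[S] R := Algebra.linearMap S R
  have hf : Function.Injective f := FaithfulSMul.algebraMap_injective S R
  let gσ : G → (R →ₗ[S] R) := fun σ =>
    (MulSemiringAction.toAlgHom S R σ).toLinearMap - LinearMap.id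
  let g : R →ₗ[S] (G → R) := LinearMap.pi gσ
  have hgσ : ∀ σ r, gσ σ r = σ • r - r := fun σ r => rfl
  have hfg : Function.Exact f g := by
    intro r
    constructor
    · intro hr
      have hr' : ∀ σ : G, σ • r = r := fun σ => by
        have := congrFun hr σ
        rw [LinearMap.pi_apply, hgσ, Pi.zero_apply, sub_eq_zero] at this
        exact this
      obtain ⟨s, hs⟩ := Algebra.IsInvariant.isInvariant (A := S) (G := G) r hr'
      exact ⟨s, hs⟩
    · rintro ⟨s, rfl⟩
      funext σ
      rw [LinearMap.pi_apply, hgσ, Pi.zero_apply, sub_eq_zero]
      exact smul_algebraMap σ s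
  have hex := Module.Flat.lTensor_exact A hfg
  have halg : ∀ a : A, algebraMap A (TensorProduct S A R) a =
      f.lTensor A ((TensorProduct.rid S A).symm a) := by
    intro a
    rw [TensorProduct.rid_symm_apply, LinearMap.lTensor_tmul]
    simp [f]
  refine ⟨?_, ?_⟩
  · intro a b hab
    rw [halg, halg] at hab
    exact (TensorProduct.rid S A).symm.injective
      (Module.Flat.lTensor_preserves_injective_linearMap f hf hab)
  · intro x hx
    have h1 : ∀ σ, (gσ σ).lTensor A x = 0 := by
      intro σ
      have e : ∀ y, (gσ σ).lTensor A y = Algebra.TensorProduct.map (AlgHom.id S A)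
          (MulSemiringAction.toAlgHom S R σ) y - y := by
        intro y
        induction y using TensorProduct.induction_on with
        | zero => simp
        | tmul a r =>
          rw [LinearMap.lTensor_tmul, hgσ, Algebra.TensorProduct.map_tmul, TensorProduct.tmul_sub]
          rfl
        | add y z hy hz => rw [map_add, hy, hz, map_add]; abel
      rw [e, hx σ, sub_self]
    have h2 : g.lTensor A x = 0 := by
      apply (TensorProduct.piRight S S A (fun _ : G => R)).injective
      rw [map_zero]
      funext σ
      have e : ∀ y, TensorProduct.piRight S S A (fun _ : G => R) (g.lTensor A y) σ =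
          (gσ σ).lTensor A y := by
        intro y
        induction y using TensorProduct.induction_on with
        | zero => simp
        | tmul a r => simp [g]
        | add y z hy hz => simp only [map_add, Pi.add_apply] at *; rw [hy, hz]
      rw [e, h1 σ]; rfl
    obtain ⟨y, hy⟩ := (hex x).mp h2
    refine ⟨TensorProduct.rid S A y, ?_⟩
    rw [halg, LinearEquiv.symm_apply_apply, hy]

end Groth.Agent.S9261
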