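import Groth.Statements.S9263
import Mathlib
-- import your own Groth.Agent.* helpers here

set_option autoImplicit false
universe u
attribute [local instance] HasDerivedCategory.standard
open CategoryTheory
open DerCA

namespace Groth.Agent.S9263

/-- Let R be a ring, f_1, ..., f_r elements of R such that some f_i is a unit, and M an R-module. Then
the extended alternating Cech complex of M with respect to f_1, ..., f_r is homotopy equivalent to
zero: its identity map is null-homotopic. -/
theorem result (R : Type u) [CommRing R] (fs : List R)
    (hf : ∃ f ∈ fs, IsUnit f) (M : ModuleCat.{u} R) :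
    Nonempty (Homotopy (𝟙 (DerCA.extCech M fs)) 0) := by
  classical
  have key : ∀ {K L : DRing.Cx R} (φ : K ⟶ L),
      IsIso ((HomotopyCategory.quotient (ModuleCat.{u} R) (ComplexShape.up ℤ)).map φ) →
      Nonempty (Homotopy (𝟙 (CochainComplex.mappingCocone φ)) 0) := by
    intro K L φ hiso
    have h1 : Limits.IsZero ((HomotopyCategory.quotient (ModuleCat.{u} R) (ComplexShape.up ℤ)).obj
        (CochainComplex.mappingCone φ)) :=
      (Pretriangulated.Triangle.isZero₃_iff_isIso₁ _
        (HomotopyCategory.mappingCone_triangleh_distinguished φ)).mpr hiso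
    have h2 : Limits.IsZero ((HomotopyCategory.quotient (ModuleCat.{u} R) (ComplexShape.up ℤ)).obj
        ((CochainComplex.mappingCone φ)⟦(-1 : ℤ)⟧)) := by
      refine Limits.IsZero.of_iso ?_ (((HomotopyCategory.quotient (ModuleCat.{u} R)
        (ComplexShape.up ℤ)).commShiftIso (-1 : ℤ)).app (CochainComplex.mappingCone φ))
      exact Functor.map_isZero (shiftFunctor (HomotopyCategory (ModuleCat.{u} R)
        (ComplexShape.up ℤ)) (-1 : ℤ)) h1
    exact (HomotopyCategory.isZero_quotient_obj_iff _).mp h2
  have hbij : ∀ (g : R), IsUnit g → ∀ (N : ModuleCat.{u} R),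
      Function.Bijective (LocalizedModule.mkLinearMap (Submonoid.powers g) N) := by
    intro g hg N
    have hsu : ∀ s : Submonoid.powers g, IsUnit (s : R) := fun s => by
      obtain ⟨n, hn⟩ := s.2
      simp only at hn
      rw [← hn]; exact hg.pow n
    constructor
    · intro m m' h
      rw [LocalizedModule.mkLinearMap_apply, LocalizedModule.mkLinearMap_apply,
        LocalizedModule.mk_eq] at h
      obtain ⟨u, hu⟩ := h
      simp only [one_smul, Submonoid.smul_def] at hu
      obtain ⟨v, hv⟩ := hsu u
      have := congrArg (fun x => ((v⁻¹ : Rˣ) : R) • x) hu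
      simpa [← hv, smul_smul] using this
    · intro x
      induction x using LocalizedModule.induction_on with
      | h m s =>
        obtain ⟨v, hv⟩ := hsu s
        refine ⟨((v⁻¹ : Rˣ) : R) • m, ?_⟩
        rw [LocalizedModule.mkLinearMap_apply, LocalizedModule.mk_eq]
        refine ⟨1, ?_⟩
        simp only [one_smul, Submonoid.smul_def]
        rw [← hv, smul_smul, Units.mul_inv, one_smul]
  have main : ∀ fs : List R, (∃ f ∈ fs, IsUnit f) →
      Nonempty (Homotopy (𝟙 (DerCA.extCech M fs)) 0) := by
    intro fs
    induction fs with
    | nil => rintro ⟨f, hf, _⟩; simp at hf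
    | cons g gs ih =>
      intro hex
      apply key
      by_cases hg : IsUnit g
      · have hc : ∀ n, IsIso ((DerCA.locCxUnit (Submonoid.powers g) (DerCA.extCech M gs)).f n) :=
          fun n => by
            rw [ConcreteCategory.isIso_iff_bijective]
            exact hbij g hg _
        have : IsIso (DerCA.locCxUnit (Submonoid.powers g) (DerCA.extCech M gs)) :=
          HomologicalComplex.Hom.isIso_of_components _
        infer_instance
      · have hex' : ∃ f ∈ gs, IsUnit f := by
          obtain ⟨f, hf, hfu⟩ := hex
          rcases List.mem_cons.mp hf with rfl | hf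
          · exact absurd hfu hg
          · exact ⟨f, hf, hfu⟩
        obtain ⟨h⟩ := ih hex'
        have hK : Limits.IsZero ((HomotopyCategory.quotient (ModuleCat.{u} R)
            (ComplexShape.up ℤ)).obj (DerCA.extCech M gs)) :=
          (HomotopyCategory.isZero_quotient_obj_iff _).mpr ⟨h⟩
        have h' := (DerCA.locFunctor (Submonoid.powers g)).mapHomotopy h
        rw [CategoryTheory.Functor.map_id, Functor.map_zero] at h'
        have hL : Limits.IsZero ((HomotopyCategory.quotient (ModuleCat.{u} R)
            (ComplexShape.up ℤ)).obj ((DerCA.locCx (Submonoid.powers g)).obj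
              (DerCA.extCech M gs))) :=
          (HomotopyCategory.isZero_quotient_obj_iff _).mpr ⟨h'⟩
        exact Limits.isIso_of_source_target_iso_zero _ hK.isoZero hL.isoZero
  exact main fs hf

end Groth.Agent.S9263
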