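import Groth.Statements.S9264
-- import your own Groth.Agent.* helpers here

set_option autoImplicit false
universe u
attribute [local instance] HasDerivedCategory.standard
open CategoryTheory
open DerCA

namespace Groth.Agent.S9264

/-- The cohomology of the extended alternating Cech complex of a module M with respect to f_1, ..., f_r
vanishes in degrees outside [0, r]. -/
theorem result (R : Type u) [CommRing R] (fs : List R)
    (M : ModuleCat.{u} R) (q : ℤ) (hq : q < 0 ∨ (fs.length : ℤ) < q) :
    Limits.IsZero (DerCA.extCechH fs M q) := by
  have key : ∀ (fs : List R) (n : ℤ), (n < 0 ∨ (fs.length : ℤ) < n) →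
      Limits.IsZero ((DerCA.extCech M fs).X n) := by
    intro fs
    induction fs with
    | nil =>
      intro n hn
      apply HomologicalComplex.isZero_single_obj_X
      simp at hn; omega
    | cons f fs ih =>
      intro n hn
      refine Limits.IsZero.of_iso ?_ (DerCA.mappingCoconeXIso _ n)
      rw [Limits.biprod_isZero_iff]
      refine ⟨ih n ?_, ?_⟩
      · simp at hn; omega
      · exact Functor.map_isZero (DerCA.locFunctor (Submonoid.powers f)) (ih (n - 1) (by simp at hn; omega))
  exact CategoryTheory.ShortComplex.isZero_homology_of_isZero_X₂ _ (key fs q hq)

end Groth.Agent.S9264
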