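import Groth.Statements.S9283
-- import your own Groth.Agent.* helpers here

set_option autoImplicit false
universe u
open CAlg

namespace Groth.Agent.S9283

/-- Let R be an auto-associated ring, that is, a local ring whose maximal ideal is weakly associated to
R: some nonzero x ∈ R is killed by a power of every element of the maximal ideal. Then every proper
finitely generated ideal of R has a nonzero annihilator. -/
theorem result (R : Type u) [CommRing R] [IsLocalRing R]
    (h : ∃ x : R, x ≠ 0 ∧ ∀ f ∈ IsLocalRing.maximalIdeal R, ∃ n : ℕ, f ^ n * x = 0)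
    (I : Ideal R) (hI : I.FG) (hI' : I ≠ ⊤) : I.annihilator ≠ ⊥ := by
  classical
  obtain ⟨x, hx0, hx⟩ := h
  have key : ∀ s : Finset R, (↑s : Set R) ⊆ IsLocalRing.maximalIdeal R →
      ∃ c : R, c * x ≠ 0 ∧ ∀ f ∈ s, f * (c * x) = 0 := by
    intro s
    induction s using Finset.induction_on with
    | empty => exact fun _ => ⟨1, by simpa using hx0, by simp⟩
    | insert a s ha ih =>
      intro hs
      obtain ⟨c, hc0, hc⟩ := ih (fun y hy => hs (Finset.mem_insert_of_mem hy))
      have ham : a ∈ IsLocalRing.maximalIdeal R := hs (Finset.mem_insert_self a s)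
      obtain ⟨n, hn⟩ := hx a ham
      have hex : ∃ k : ℕ, a ^ k * (c * x) = 0 := ⟨n, by rw [mul_left_comm, hn, mul_zero]⟩
      let k := Nat.find hex
      have hk : a ^ k * (c * x) = 0 := Nat.find_spec hex
      have hk0 : k ≠ 0 := by
        intro h0
        rw [h0, pow_zero, one_mul] at hk
        exact hc0 hk
      have hkmin : ¬ a ^ (k - 1) * (c * x) = 0 := Nat.find_min hex (by omega)
      refine ⟨a ^ (k - 1) * c, by rwa [mul_assoc], ?_⟩
      intro f hf
      rcases Finset.mem_insert.mp hf with rfl | hf
      · have : f * (f ^ (k - 1) * c * x) = f ^ k * (c * x) := by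
          conv_rhs => rw [show k = (k - 1) + 1 by omega]
          ring
        rw [this, hk]
      · have : f * (a ^ (k - 1) * c * x) = a ^ (k - 1) * (f * (c * x)) := by ring
        rw [this, hc f hf, mul_zero]
  obtain ⟨s, rfl⟩ := hI
  have hsub : (↑s : Set R) ⊆ IsLocalRing.maximalIdeal R :=
    fun y hy => IsLocalRing.le_maximalIdeal hI' (Ideal.subset_span hy)
  obtain ⟨c, hc0, hc⟩ := key s hsub
  intro hbot
  have hmem : c * x ∈ (Ideal.span (↑s : Set R)).annihilator := by
    rw [Submodule.mem_annihilator_span]
    rintro ⟨f, hf⟩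
    simp only [smul_eq_mul]
    rw [mul_comm]
    exact hc f hf
  rw [hbot] at hmem
  exact hc0 hmem

end Groth.Agent.S9283
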