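import Groth.Statements.S9285
-- import your own Groth.Agent.* helpers here

set_option autoImplicit false
universe u
open CAlg

namespace Groth.Agent.S9285

/-- A ring R has the property that every proper finitely generated ideal has a nonzero annihilator if
and only if every injective linear map R → R^n admits a retraction. -/
theorem result (R : Type u) [CommRing R] :
    (∀ I : Ideal R, I.FG → I ≠ ⊤ → I.annihilator ≠ ⊥) ↔
      ∀ (n : ℕ) (u : R →ₗ[R] (Fin n → R)), Function.Injective u →
        ∃ v : (Fin n → R) →ₗ[R] R, v.comp u = LinearMap.id := by
  constructor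
  · intro hP n u hu
    set a : Fin n → R := u 1 with ha
    by_cases hI : Ideal.span (Set.range a) = ⊤
    · have h1 : (1 : R) ∈ Ideal.span (Set.range a) := hI ▸ Submodule.mem_top
      obtain ⟨c, hc⟩ := (Ideal.mem_span_range_iff_exists_fun).mp h1
      refine ⟨∑ i, c i • LinearMap.proj i, ?_⟩
      ext
      simp only [LinearMap.coe_comp, Function.comp_apply, LinearMap.id_coe, id_eq]
      simp [LinearMap.sum_apply, ← ha, hc]
    · exfalso
      have hfg : (Ideal.span (Set.range a)).FG := ⟨(Set.finite_range a).toFinset, by simp⟩
      apply hP _ hfg hI
      rw [eq_bot_iff]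
      intro b hb
      rw [Submodule.mem_annihilator_span] at hb
      have : u b = u 0 := by
        have : u b = b • u 1 := by rw [← map_smul, smul_eq_mul, mul_one]
        rw [this, map_zero]
        ext i
        simpa [← ha] using hb ⟨a i, Set.mem_range_self i⟩
      rw [hu this]
      exact Submodule.zero_mem _
  · intro hS I hfg hI hann
    obtain ⟨n, a, rfl⟩ := Submodule.fg_iff_exists_fin_generating_family.mp hfg
    let u : R →ₗ[R] (Fin n → R) := LinearMap.toSpanSingleton R _ a
    have hu : Function.Injective u := by
      rw [← LinearMap.ker_eq_bot, eq_bot_iff]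
      intro r hr
      rw [LinearMap.mem_ker] at hr
      have : r ∈ (Submodule.span R (Set.range a)).annihilator := by
        rw [Submodule.mem_annihilator_span]
        rintro ⟨_, ⟨i, rfl⟩⟩
        have := congrFun hr i
        simpa [u] using this
      rw [hann] at this
      exact this
    obtain ⟨v, hv⟩ := hS n u hu
    apply hI
    rw [Ideal.eq_top_iff_one]
    have h1 : v a = 1 := by
      have := LinearMap.congr_fun hv 1
      simpa [u] using this
    have h2 : v a = ∑ i, a i * v (Pi.single i 1) := by
      have ha : a = ∑ i, a i • Pi.single i 1 := by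
        ext j
        simp [Finset.sum_apply, Pi.single_apply]
      conv_lhs => rw [ha]
      rw [map_sum]
      simp [map_smul]
    rw [← h1, h2]
    exact Submodule.sum_mem _ (fun i _ => Ideal.mul_mem_right _ _ (Submodule.subset_span ⟨i, rfl⟩))

end Groth.Agent.S9285
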