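import Groth.Statements.S9291
import Mathlib
-- import your own Groth.Agent.* helpers here

set_option autoImplicit false
universe u
open EtAlg

namespace Groth.Agent.S9291

/-- Let A be a ring, I an ideal and u a unit of A/I. Then there is an étale ring map A → A' such that
A/I → A'/IA' is an isomorphism, together with a unit of A' mapping to the image of u. -/
theorem result (A : Type u) [CommRing A] (I : Ideal A) (u : (A ⧸ I)ˣ) :
    ∃ (A' : Type u) (_ : CommRing A') (_ : Algebra A A'), Algebra.Etale A A' ∧
      Function.Bijective (Ideal.quotientMap (Ideal.map (algebraMap A A') I) (algebraMap A A')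
        Ideal.le_comap_map) ∧
      ∃ u' : A'ˣ, Ideal.Quotient.mk (Ideal.map (algebraMap A A') I) (u' : A') =
        Ideal.quotientMap (Ideal.map (algebraMap A A') I) (algebraMap A A') Ideal.le_comap_map
          (u : A ⧸ I) := by
  classical
  obtain ⟨a, ha⟩ := Ideal.Quotient.mk_surjective (u : A ⧸ I)
  obtain ⟨b, hb⟩ := Ideal.Quotient.mk_surjective ((u⁻¹ : (A ⧸ I)ˣ) : A ⧸ I)
  have hab : Ideal.Quotient.mk I (a * b) = 1 := by rw [map_mul, ha, hb, Units.mul_inv]
  have hab' : ∀ n : ℕ, (a * b) ^ n - 1 ∈ I := fun n => by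
    rw [← Ideal.Quotient.eq_zero_iff_mem, map_sub, map_pow, hab, one_pow, map_one, sub_self]
  refine ⟨Localization.Away a, inferInstance, inferInstance,
    Algebra.Etale.of_isLocalizationAway a, ⟨?_, ?_⟩, ?_⟩
  · apply Ideal.quotientMap_injective'
    intro x hx
    rw [Ideal.mem_comap, IsLocalization.mem_map_algebraMap_iff (Submonoid.powers a)] at hx
    obtain ⟨⟨⟨i, hi⟩, ⟨_, n, rfl⟩⟩, h⟩ := hx
    simp only at h
    rw [← map_mul] at h
    obtain ⟨⟨_, m, rfl⟩, hm⟩ := IsLocalization.exists_of_eq (M := Submonoid.powers a) h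
    simp only at hm
    have h1 : a ^ m * (x * a ^ n) ∈ I := by rw [hm]; exact I.mul_mem_left _ hi
    have h2 : x * (a * b) ^ (m + n) ∈ I := by
      have : x * (a * b) ^ (m + n) = b ^ (m + n) * (a ^ m * (x * a ^ n)) := by ring
      rw [this]; exact I.mul_mem_left _ h1
    have h3 : x = x * (a * b) ^ (m + n) - x * ((a * b) ^ (m + n) - 1) := by ring
    rw [h3]
    exact I.sub_mem h2 (I.mul_mem_left _ (hab' _))
  · intro z
    obtain ⟨z, rfl⟩ := Ideal.Quotient.mk_surjective z
    obtain ⟨⟨x, s⟩, rfl⟩ := IsLocalization.mk'_surjective (Submonoid.powers a) z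
    obtain ⟨n, hn⟩ := s.2
    simp only at hn
    refine ⟨Ideal.Quotient.mk I (x * b ^ n), ?_⟩
    rw [Ideal.quotientMap_mk, Ideal.Quotient.eq]
    set J := Ideal.map (algebraMap A (Localization.Away a)) I
    set d := algebraMap A (Localization.Away a) (x * b ^ n) -
      IsLocalization.mk' (Localization.Away a) x s
    have hd : d * algebraMap A (Localization.Away a) (s : A) ∈ J := by
      have : d * algebraMap A (Localization.Away a) (s : A) =
          algebraMap A (Localization.Away a) (x * ((a * b) ^ n - 1)) := by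
        simp only [d, sub_mul, IsLocalization.mk'_spec]
        rw [← map_mul, ← map_sub, ← hn]
        congr 1
        ring
      rw [this]
      exact Ideal.mem_map_of_mem _ (I.mul_mem_left _ (hab' n))
    obtain ⟨v, hv⟩ := IsLocalization.map_units (Localization.Away a) s
    have : d = d * algebraMap A (Localization.Away a) (s : A) * ((v⁻¹ : (Localization.Away a)ˣ) :
        Localization.Away a) := by
      rw [← hv, mul_assoc, Units.mul_inv, mul_one]
    rw [this]
    exact J.mul_mem_right _ hd
  · refine ⟨(IsLocalization.Away.algebraMap_isUnit a :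
      IsUnit (algebraMap A (Localization.Away a) a)).unit, ?_⟩
    rw [IsUnit.unit_spec, ← ha, Ideal.quotientMap_mk]

end Groth.Agent.S9291
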