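import Groth.Statements.S9292
import Mathlib
-- import your own Groth.Agent.* helpers here

set_option autoImplicit false
universe u
open EtAlg

namespace Groth.Agent.S9292

/-- Let A be a ring, I an ideal, and e_1, ..., e_n a complete system of orthogonal idempotents of A/I
(equivalently a finite disjoint open covering of Spec(A/I)). Then one can find an A-algebra A' that
is étale over A, such that the induced map A/I → A'/IA' is bijective, together with a complete
system of orthogonal idempotents of A' lifting the e_j. -/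
theorem result (A : Type u) [CommRing A] (I : Ideal A)
    (n : ℕ) (e : Fin n → A ⧸ I) (he : CompleteOrthogonalIdempotents e) :
    ∃ (A' : Type u) (_ : CommRing A') (_ : Algebra A A'), Algebra.Etale A A' ∧
      Function.Bijective (Ideal.quotientMap (Ideal.map (algebraMap A A') I) (algebraMap A A')
        Ideal.le_comap_map) ∧
      ∃ e' : Fin n → A', CompleteOrthogonalIdempotents e' ∧
        ∀ j, Ideal.Quotient.mk (Ideal.map (algebraMap A A') I) (e' j) =
          Ideal.quotientMap (Ideal.map (algebraMap A A') I) (algebraMap A A') Ideal.le_comap_map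
            (e j) := by
  classical
  choose a ha using fun j => Ideal.Quotient.mk_surjective (e j)
  let Ak : Fin n → Type u := fun k => Localization.Away (a k)
  let J : Ideal (∀ k, Ak k) := Ideal.map (algebraMap A (∀ k, Ak k)) I
  let Jk : ∀ k, Ideal (Ak k) := fun k => Ideal.map (algebraMap A (Ak k)) I
  have hJ : ∀ z : (∀ k, Ak k), z ∈ J ↔ ∀ k, z k ∈ Jk k := by
    intro z
    have h1 : Ideal.pi (fun k => J.map (Pi.evalRingHom Ak k)) = J :=
      Ideal.piOrderIso.symm_apply_apply J
    have h2 : ∀ k, J.map (Pi.evalRingHom Ak k) = Jk k := fun k => by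
      simp only [J, Jk, Ideal.map_map]; rfl
    rw [← h1, Ideal.mem_pi]; simp only [h2]
  have hidem : ∀ k, a k * a k - a k ∈ I := fun k => by
    rw [← Ideal.Quotient.eq_zero_iff_mem, map_sub, map_mul, ha k, (he.idem k).eq, sub_self]
  have horth : ∀ j k, j ≠ k → a j * a k ∈ I := fun j k hjk => by
    rw [← Ideal.Quotient.eq_zero_iff_mem, map_mul, ha j, ha k]
    exact he.ortho hjk
  have hunit : ∀ k, IsUnit (Ideal.Quotient.mk (Jk k) (algebraMap A (Ak k) (a k))) := fun k =>
    (IsLocalization.Away.algebraMap_isUnit (a k) : IsUnit (algebraMap A (Ak k) (a k))).map _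
  have F1 : ∀ k, Ideal.Quotient.mk (Jk k) (algebraMap A (Ak k) (a k)) = 1 := by
    intro k
    have h : Ideal.Quotient.mk (Jk k) (algebraMap A (Ak k) (a k)) *
        Ideal.Quotient.mk (Jk k) (algebraMap A (Ak k) (a k)) =
        Ideal.Quotient.mk (Jk k) (algebraMap A (Ak k) (a k)) := by
      rw [← map_mul, ← map_mul, ← sub_eq_zero, ← map_sub, ← map_sub,
        Ideal.Quotient.eq_zero_iff_mem]
      exact Ideal.mem_map_of_mem _ (hidem k)
    obtain ⟨u, hu⟩ := hunit k
    rw [← hu] at h ⊢
    have h2 := congrArg (· * ((u⁻¹ : (Ak k ⧸ Jk k)ˣ) : Ak k ⧸ Jk k)) h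
    simp only [mul_assoc, Units.mul_inv, mul_one] at h2
    exact h2
  have F2 : ∀ j k, j ≠ k → Ideal.Quotient.mk (Jk k) (algebraMap A (Ak k) (a j)) = 0 := by
    intro j k hjk
    have h : Ideal.Quotient.mk (Jk k) (algebraMap A (Ak k) (a j)) *
        Ideal.Quotient.mk (Jk k) (algebraMap A (Ak k) (a k)) = 0 := by
      rw [← map_mul, ← map_mul, Ideal.Quotient.eq_zero_iff_mem]
      exact Ideal.mem_map_of_mem _ (horth j k hjk)
    rw [F1 k, mul_one] at h
    exact h
  have F3 : ∀ k (x : A) (s : Submonoid.powers (a k)),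
      Ideal.Quotient.mk (Jk k) (IsLocalization.mk' (Ak k) x s) =
        Ideal.Quotient.mk (Jk k) (algebraMap A (Ak k) x) := by
    intro k x s
    obtain ⟨m, hm⟩ := s.2
    simp only at hm
    have h := congrArg (Ideal.Quotient.mk (Jk k)) (IsLocalization.mk'_spec (Ak k) x s)
    rw [map_mul, ← hm, map_pow, map_pow, F1 k, one_pow, mul_one] at h
    exact h
  refine ⟨∀ k, Ak k, inferInstance, inferInstance, inferInstance, ⟨?_, ?_⟩,
    fun j => Pi.single j 1, CompleteOrthogonalIdempotents.single Ak, ?_⟩
  · apply Ideal.quotientMap_injective'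
    intro x hx
    rw [Ideal.mem_comap, hJ] at hx
    have hk : ∀ k, e k * Ideal.Quotient.mk I x = 0 := by
      intro k
      have h := hx k
      change algebraMap A (Ak k) x ∈ Jk k at h
      rw [IsLocalization.mem_map_algebraMap_iff (Submonoid.powers (a k))] at h
      obtain ⟨⟨⟨i, hi⟩, s⟩, hs⟩ := h
      simp only at hs
      rw [← map_mul] at hs
      obtain ⟨c, hc⟩ := IsLocalization.exists_of_eq (M := Submonoid.powers (a k)) hs
      obtain ⟨m1, hm1⟩ := c.2
      obtain ⟨m2, hm2⟩ := s.2
      simp only at hm1 hm2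
      have h1 : a k ^ (m1 + m2) * x ∈ I := by
        have : a k ^ (m1 + m2) * x = (c : A) * (x * (s : A)) := by rw [← hm1, ← hm2]; ring
        rw [this, hc]; exact I.mul_mem_left _ hi
      have h3 : e k ^ (m1 + m2) * Ideal.Quotient.mk I x = 0 := by
        rw [← ha k, ← map_pow, ← map_mul, Ideal.Quotient.eq_zero_iff_mem]; exact h1
      calc e k * Ideal.Quotient.mk I x = e k ^ (m1 + m2 + 1) * Ideal.Quotient.mk I x := by
            rw [(he.idem k).pow_succ_eq]
        _ = e k * (e k ^ (m1 + m2) * Ideal.Quotient.mk I x) := by ring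
        _ = 0 := by rw [h3, mul_zero]
    have : Ideal.Quotient.mk I x = 0 := by
      calc Ideal.Quotient.mk I x = (∑ k, e k) * Ideal.Quotient.mk I x := by
            rw [he.complete, one_mul]
        _ = ∑ k, e k * Ideal.Quotient.mk I x := Finset.sum_mul _ _ _
        _ = 0 := Finset.sum_eq_zero fun k _ => hk k
    exact Ideal.Quotient.eq_zero_iff_mem.mp this
  · intro z
    obtain ⟨z, rfl⟩ := Ideal.Quotient.mk_surjective z
    choose xs hxs using fun k => IsLocalization.mk'_surjective (Submonoid.powers (a k)) (z k)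
    let y : A := ∑ j, (xs j).1 * a j
    refine ⟨Ideal.Quotient.mk I y, ?_⟩
    rw [Ideal.quotientMap_mk, Ideal.Quotient.eq, hJ]
    intro k
    rw [← Ideal.Quotient.eq_zero_iff_mem, Pi.sub_apply, map_sub, sub_eq_zero]
    change Ideal.Quotient.mk (Jk k) (algebraMap A (Ak k) y) = Ideal.Quotient.mk (Jk k) (z k)
    rw [← hxs k, F3]
    simp only [y, map_sum, map_mul]
    rw [Finset.sum_eq_single k]
    · rw [F1 k, mul_one]
    · intro j _ hjk; rw [F2 j k hjk, mul_zero]
    · intro h; exact absurd (Finset.mem_univ k) h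
  · intro j
    rw [← ha j, Ideal.quotientMap_mk, Ideal.Quotient.eq, hJ]
    intro k
    rw [← Ideal.Quotient.eq_zero_iff_mem, Pi.sub_apply, map_sub, sub_eq_zero]
    change Ideal.Quotient.mk (Jk k) (Pi.single j 1 k) =
      Ideal.Quotient.mk (Jk k) (algebraMap A (Ak k) (a j))
    by_cases hjk : j = k
    · subst hjk; rw [Pi.single_eq_same, map_one, F1]
    · rw [Pi.single_eq_of_ne (Ne.symm hjk), map_zero, F2 j k hjk]

end Groth.Agent.S9292
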