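import Groth.Statements.S9301
-- import your own Groth.Agent.* helpers here

set_option autoImplicit false
universe u
open CAlg

namespace Groth.Agent.S9301

/-- Let A and B be domains and A → B a flat ring map which is the localization of a quasi-finite ring
map A → B₀ (of finite type with finite fibres). Then every nonzero ideal of B has nonzero preimage
in A. -/
theorem result (A B₀ B : Type u) [CommRing A] [IsDomain A]
    [CommRing B₀] [CommRing B] [IsDomain B] [Algebra A B₀] [Algebra.FiniteType A B₀]
    [Algebra.QuasiFinite A B₀] (S : Submonoid B₀) [Algebra B₀ B] [IsLocalization S B] [Algebra A B]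
    [IsScalarTower A B₀ B] [Module.Flat A B] (J : Ideal B) (hJ : J ≠ ⊥) :
    Ideal.comap (algebraMap A B) J ≠ ⊥ := by
  intro hcomap
  let M : Submonoid B := Algebra.algebraMapSubmonoid B (nonZeroDivisors A)
  have hdisj : Disjoint (J : Set B) (M : Set B) := by
    rw [Set.disjoint_left]
    rintro _ haJ ⟨a, ha, rfl⟩
    have h1 : a ∈ Ideal.comap (algebraMap A B) J := haJ
    rw [hcomap, Ideal.mem_bot] at h1
    exact nonZeroDivisors.ne_zero ha h1
  obtain ⟨Q, hQ, hJQ, hQM⟩ := Ideal.exists_le_prime_disjoint J M hdisj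
  have hQA : Ideal.comap (algebraMap A B) Q = ⊥ := by
    ext a
    simp only [Ideal.mem_comap, Ideal.mem_bot]
    constructor
    · intro haQ
      by_contra ha0
      exact Set.disjoint_left.mp hQM haQ ⟨a, mem_nonZeroDivisors_of_ne_zero ha0, rfl⟩
    · rintro rfl
      simp
  have h0A : Ideal.comap (algebraMap A B) (⊥ : Ideal B) = ⊥ :=
    le_bot_iff.mp (hcomap ▸ Ideal.comap_mono bot_le)
  have : (⊥ : Ideal B).IsPrime := Ideal.isPrime_bot
  let Q₀ := Ideal.comap (algebraMap B₀ B) Q
  let P₀ := Ideal.comap (algebraMap B₀ B) (⊥ : Ideal B)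
  have hle : P₀ ≤ Q₀ := Ideal.comap_mono bot_le
  have hunder : P₀.under A = Q₀.under A := by
    simp only [P₀, Q₀, Ideal.under, Ideal.comap_comap, ← IsScalarTower.algebraMap_eq, hQA, h0A]
  have heq := Algebra.QuasiFinite.eq_of_le_of_under_eq P₀ Q₀ hle hunder
  have hQbot : Q = ⊥ := by
    rw [← IsLocalization.map_under S B Q, ← IsLocalization.map_under S B (⊥ : Ideal B)]
    exact congrArg (Ideal.map (algebraMap B₀ B)) heq.symm
  exact hJ (le_bot_iff.mp (hQbot ▸ hJQ))

end Groth.Agent.S9301
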