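import Groth.Statements.S9302
import Mathlib.Tactic.LinearCombination
import Mathlib.Algebra.Polynomial.Identities
import Mathlib.Algebra.Polynomial.Div
-- import your own Groth.Agent.* helpers here

set_option autoImplicit false
universe u
open CategoryTheory
open EtAlg

namespace Groth.Agent.S9302

open Polynomial

noncomputable def mkElem (J : Type u) [Preorder J] (F : J ⥤ CommRingCat.{u}) (x : ∀ j, F.obj j)
    (hx : ∀ i j (φ : i ⟶ j), (F.map φ).hom (x i) = x j) : (Limits.limit F : CommRingCat.{u}) :=
  (preservesLimitIso (forget CommRingCat.{u}) F).inv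
    (Limits.Types.Limit.mk (F ⋙ forget CommRingCat.{u}) x (fun i j φ => hx i j φ))

lemma π_mkElem (J : Type u) [Preorder J] (F : J ⥤ CommRingCat.{u}) (x : ∀ j, F.obj j)
    (hx : ∀ i j (φ : i ⟶ j), (F.map φ).hom (x i) = x j) (j : J) :
    (Limits.limit.π F j).hom (mkElem J F x hx) = x j := by
  have := ConcreteCategory.congr_hom
    (preservesLimitIso_inv_π (forget CommRingCat.{u}) F j)
    (Limits.Types.Limit.mk (F ⋙ forget CommRingCat.{u}) x (fun i j φ => hx i j φ))
  simp only [types_comp_apply] at this
  erw [this]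
  exact Limits.Types.Limit.π_mk _ _ _ _

lemma limit_ext (J : Type u) [Preorder J] (F : J ⥤ CommRingCat.{u})
    (a b : (Limits.limit F : CommRingCat.{u}))
    (h : ∀ j, (Limits.limit.π F j).hom a = (Limits.limit.π F j).hom b) : a = b := by
  apply Limits.Concrete.limit_ext
  exact h

lemma isUnit_of_isUnit_mk {A : Type u} [CommRing A] (I : Ideal A) (hjac : I ≤ Ideal.jacobson ⊥)
    (x : A) (hx : IsUnit (Ideal.Quotient.mk I x)) : IsUnit x := by
  obtain ⟨v, hv⟩ := hx.exists_right_inv
  obtain ⟨v, rfl⟩ := Ideal.Quotient.mk_surjective v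
  have h1 : x * v - 1 ∈ I := by
    rw [← Ideal.Quotient.eq_zero_iff_mem, map_sub, map_mul, hv, map_one, sub_self]
  have h2 := Ideal.mem_jacobson_bot.mp (hjac h1) 1
  rw [mul_one, sub_add_cancel] at h2
  exact isUnit_of_mul_isUnit_left h2

lemma hensel_unique {A : Type u} [CommRing A] (I : Ideal A) (hjac : I ≤ Ideal.jacobson ⊥)
    (f : A[X]) (a₀ a b : A) (hu : IsUnit (Ideal.Quotient.mk I (f.derivative.eval a₀)))
    (ha : f.IsRoot a) (hb : f.IsRoot b) (ha' : a - a₀ ∈ I) (hb' : b - a₀ ∈ I) : a = b := by
  obtain ⟨k, hk⟩ := Polynomial.binomExpansion f b (a - b)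
  rw [add_sub_cancel, ha.eq_zero, hb.eq_zero, zero_add] at hk
  have hab : a - b ∈ I := by
    have := Ideal.sub_mem I ha' hb'
    rwa [sub_sub_sub_cancel_right] at this
  have hmk : Ideal.Quotient.mk I (f.derivative.eval b + k * (a - b)) =
      Ideal.Quotient.mk I (f.derivative.eval a₀) := by
    rw [Ideal.Quotient.eq]
    have h1 : f.derivative.eval b - f.derivative.eval a₀ ∈ I := by
      obtain ⟨c, hc⟩ := Polynomial.sub_dvd_eval_sub b a₀ f.derivative
      rw [hc]
      exact I.mul_mem_right _ hb'
    have h2 : k * (a - b) ∈ I := I.mul_mem_left _ hab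
    have := I.add_mem h1 h2
    convert this using 1
    ring
  have hunit := isUnit_of_isUnit_mk I hjac _ (hmk ▸ hu)
  have h0 : (a - b) * (f.derivative.eval b + k * (a - b)) = 0 := by
    linear_combination (-1 : A) * hk
  rw [hunit.mul_left_eq_zero] at h0
  exact sub_eq_zero.mp h0


/-- Henselian pairs are preserved under limits: for an inverse system (A_j, I_j) of henselian pairs over
a preordered set J, the limit A = lim A_j with the ideal I = lim I_j (elements all of whose
projections lie in the I_j) is a henselian pair. -/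
theorem result (J : Type u) [Preorder J] (F : J ⥤ CommRingCat.{u})
    (I : ∀ j : J, Ideal (F.obj j))
    (hI : ∀ (i j : J) (φ : i ⟶ j), Ideal.map (F.map φ).hom (I i) ≤ I j)
    (h : ∀ j : J, HenselianRing (F.obj j) (I j)) :
    HenselianRing ((Limits.limit F : CommRingCat.{u}) : Type u)
      (⨅ j : J, Ideal.comap (Limits.limit.π F j).hom (I j)) := by
  have hπφ : ∀ i j (φ : i ⟶ j) (x : (Limits.limit F : CommRingCat.{u})),
      (F.map φ).hom ((Limits.limit.π F i).hom x) = (Limits.limit.π F j).hom x := by
    intro i j φ x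
    rw [← CommRingCat.comp_apply, Limits.limit.w]
  have hunit : ∀ z : (Limits.limit F : CommRingCat.{u}),
      (∀ j, IsUnit ((Limits.limit.π F j).hom z)) → IsUnit z := by
    intro z hz
    let w : ∀ j, F.obj j := fun j => ((hz j).unit⁻¹ : (F.obj j)ˣ)
    have hw : ∀ i j (φ : i ⟶ j), (F.map φ).hom (w i) = w j := by
      intro i j φ
      have e1 : (Limits.limit.π F j).hom z * (F.map φ).hom (w i) = 1 := by
        rw [← hπφ i j φ, ← map_mul, IsUnit.mul_val_inv, map_one]
      have e2 : w j * (Limits.limit.π F j).hom z = 1 := IsUnit.val_inv_mul (hz j)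
      calc (F.map φ).hom (w i) = (w j * (Limits.limit.π F j).hom z) * (F.map φ).hom (w i) := by
            rw [e2, one_mul]
        _ = w j := by rw [mul_assoc, e1, mul_one]
    refine IsUnit.of_mul_eq_one (mkElem J F w hw) ?_
    apply limit_ext
    intro j
    rw [map_mul, π_mkElem, map_one]
    exact IsUnit.mul_val_inv (hz j)
  have hmemI : ∀ (x : (Limits.limit F : CommRingCat.{u})),
      x ∈ (⨅ j : J, Ideal.comap (Limits.limit.π F j).hom (I j)) ↔
        ∀ j, (Limits.limit.π F j).hom x ∈ I j := by
    intro x
    simp only [Ideal.mem_iInf, Ideal.mem_comap]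
  constructor
  · intro x hx
    rw [Ideal.mem_jacobson_bot]
    intro y
    apply hunit
    intro j
    have hxj : (Limits.limit.π F j).hom x ∈ I j := (hmemI x).mp hx j
    have := Ideal.mem_jacobson_bot.mp ((h j).jac hxj) ((Limits.limit.π F j).hom y)
    simpa only [map_add, map_mul, map_one] using this
  · intro f hf a₀ hfa₀ hunitf
    have hunitj : ∀ j, IsUnit (Ideal.Quotient.mk (I j)
        ((f.map (Limits.limit.π F j).hom).derivative.eval ((Limits.limit.π F j).hom a₀))) := by
      intro j
      obtain ⟨v, hv⟩ := hunitf.exists_right_inv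
      obtain ⟨v, rfl⟩ := Ideal.Quotient.mk_surjective v
      have h1 : f.derivative.eval a₀ * v - 1 ∈ (⨅ j : J, Ideal.comap (Limits.limit.π F j).hom (I j)) := by
        rw [← Ideal.Quotient.eq_zero_iff_mem, map_sub, map_mul, hv, map_one, sub_self]
      have h2 := (hmemI _).mp h1 j
      rw [map_sub, map_mul, map_one, ← Polynomial.eval_map_apply] at h2
      refine IsUnit.of_mul_eq_one (Ideal.Quotient.mk (I j) ((Limits.limit.π F j).hom v)) ?_
      rw [← map_mul, ← map_one (Ideal.Quotient.mk (I j)), Ideal.Quotient.eq, Polynomial.derivative_map]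
      exact h2
    have hfj : ∀ j, ∃ a : F.obj j, (f.map (Limits.limit.π F j).hom).IsRoot a ∧
        a - (Limits.limit.π F j).hom a₀ ∈ I j := by
      intro j
      apply (h j).is_henselian (f.map _) (hf.map _) _
      · rw [Polynomial.eval_map_apply]
        exact (hmemI _).mp hfa₀ j
      · exact hunitj j
    choose a ha using hfj
    have hcompat : ∀ i j (φ : i ⟶ j), (F.map φ).hom (a i) = a j := by
      intro i j φ
      have hmapf : f.map (Limits.limit.π F j).hom =
          (f.map (Limits.limit.π F i).hom).map (F.map φ).hom := by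
        rw [Polynomial.map_map]
        congr 1
        ext x
        exact (hπφ i j φ x).symm
      apply hensel_unique (I j) (h j).jac (f.map (Limits.limit.π F j).hom)
        ((Limits.limit.π F j).hom a₀) _ _ (hunitj j)
      · rw [hmapf]
        exact Polynomial.IsRoot.map (ha i).1
      · exact (ha j).1
      · rw [← hπφ i j φ a₀, ← map_sub]
        exact hI i j φ (Ideal.mem_map_of_mem _ (ha i).2)
      · exact (ha j).2
    refine ⟨mkElem J F a hcompat, ?_, ?_⟩
    · show f.eval (mkElem J F a hcompat) = 0
      apply limit_ext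
      intro j
      rw [map_zero, ← Polynomial.eval_map_apply, π_mkElem]
      exact (ha j).1
    · rw [hmemI]
      intro j
      rw [map_sub, π_mkElem]
      exact (ha j).2

end Groth.Agent.S9302
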