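import Groth.Statements.S9343
import Groth.Agent.Lib.Helper14.QcClosure
import Mathlib.AlgebraicGeometry.PullbackCarrier
-- import your own Groth.Agent.* helpers here

set_option autoImplicit false
universe u
open Dom

namespace Groth.Agent.S9343

open AlgebraicGeometry CategoryTheory in
/-- The base change of a quasi-compact dominant morphism f : X → S along a morphism g : S' → S along
which generalizations lift is dominant. -/
theorem result {X S X' S' : Scheme.{u}} (f : X ⟶ S) [QuasiCompact f] [IsDominant f]
    (g : S' ⟶ S) (g' : X' ⟶ X) (f' : X' ⟶ S') (hsq : IsPullback g' f' f g) (hg : GeneralizingMap g.base) :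
    IsDominant f' := by
  have hrange : Set.range f' = g ⁻¹' Set.range f := by
    have := Scheme.image_preimage_eq_of_isPullback hsq Set.univ
    simpa [Set.image_univ] using this
  refine ⟨?_⟩
  rw [DenseRange, dense_iff_closure_eq, Set.eq_univ_iff_forall]
  intro s'
  have hdense : closure (Set.range f) = Set.univ := f.denseRange.closure_range
  have hs : g s' ∈ closure (Set.range f) := by rw [hdense]; trivial
  obtain ⟨x, hx⟩ := Groth.Agent.Lib.Helper14.QcClosure.exists_specializes_of_mem_closure_range f hs
  obtain ⟨s'', hs'', e⟩ := hg hx
  have hmem : s'' ∈ Set.range f' := by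
    rw [hrange]; exact ⟨x, e.symm⟩
  exact hs''.mem_closed isClosed_closure (subset_closure hmem)

end Groth.Agent.S9343
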