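import Groth.Statements.S9344
import Mathlib.AlgebraicGeometry.PullbackCarrier
-- import your own Groth.Agent.* helpers here

set_option autoImplicit false
universe u
open Dom

namespace Groth.Agent.S9344

open AlgebraicGeometry CategoryTheory in
/-- The base change of a dominant morphism f : X → S along an open morphism g : S' → S is dominant. -/
theorem result {X S X' S' : Scheme.{u}} (f : X ⟶ S) [IsDominant f]
    (g : S' ⟶ S) (g' : X' ⟶ X) (f' : X' ⟶ S') (hsq : IsPullback g' f' f g) (hg : IsOpenMap g.base) :
    IsDominant f' := by
  have hrange : Set.range f' = g ⁻¹' Set.range f := by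
    have := Scheme.image_preimage_eq_of_isPullback hsq Set.univ
    simpa [Set.image_univ] using this
  refine ⟨?_⟩
  change Dense (Set.range f')
  rw [hrange]
  exact Dense.preimage f.denseRange hg

end Groth.Agent.S9344
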