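import Groth.Statements.S9345
import Mathlib.AlgebraicGeometry.Properties
-- import your own Groth.Agent.* helpers here

set_option autoImplicit false
universe u
open Dom

namespace Groth.Agent.S9345

open AlgebraicGeometry CategoryTheory in
/-- For a morphism f : X → S whose source has only finitely many irreducible components, the image of f
is dense exactly when it contains the generic point of each irreducible component of S, and then S
too has finitely many. -/
theorem result {X S : Scheme.{u}} (f : X ⟶ S)
    (hX : (irreducibleComponents (↑X : Type u)).Finite) :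
    (IsDominant f ↔ ∀ s : ↑S, closure {s} ∈ irreducibleComponents (↑S : Type u) → s ∈ Set.range f.base) ∧
      (IsDominant f → (irreducibleComponents (↑S : Type u)).Finite) := by
  classical
  have hfin : Finite (irreducibleComponents (↑X : Type u)) := hX.to_subtype
  have hgenX : ∀ Z : irreducibleComponents (↑X : Type u), ∃ ξ : X, closure {ξ} = Z.1 := by
    intro Z
    refine ⟨Z.2.1.genericPoint, ?_⟩
    have := Z.2.1.isGenericPoint_genericPoint_closure
    rw [(isClosed_of_mem_irreducibleComponents _ Z.2).closure_eq] at this
    exact this.def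
  choose ξ hξ using hgenX
  have hkey : ∀ s ∈ closure (Set.range f.base),
      ∃ Z : irreducibleComponents (↑X : Type u), f.base (ξ Z) ⤳ s := by
    intro s hs
    have hsub : Set.range f.base ⊆
        ⋃ Z : irreducibleComponents (↑X : Type u), closure {f.base (ξ Z)} := by
      rintro _ ⟨x, rfl⟩
      have hx : x ∈ ⋃₀ irreducibleComponents (↑X : Type u) := by
        rw [sUnion_irreducibleComponents]; trivial
      obtain ⟨Z, hZ, hxZ⟩ := hx
      have hxZ' : x ∈ closure {ξ ⟨Z, hZ⟩} := by rw [hξ ⟨Z, hZ⟩]; exact hxZ
      refine Set.mem_iUnion.mpr ⟨⟨Z, hZ⟩, ?_⟩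
      have := image_closure_subset_closure_image f.base.hom.continuous ⟨x, hxZ', rfl⟩
      rwa [Set.image_singleton] at this
    have hclosed : IsClosed (⋃ Z : irreducibleComponents (↑X : Type u),
        closure {f.base (ξ Z)}) :=
      isClosed_iUnion_of_finite (fun _ => isClosed_closure)
    have := closure_minimal hsub hclosed hs
    obtain ⟨Z, h⟩ := Set.mem_iUnion.mp this
    exact ⟨Z, specializes_iff_mem_closure.mpr h⟩
  have hmax : ∀ s : S, closure {s} ∈ irreducibleComponents (↑S : Type u) →
      ∀ y, y ⤳ s → y = s := by
    intro s hs y hy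
    have h1 : closure {s} ⊆ closure {y} := by
      apply closure_minimal _ isClosed_closure
      rw [Set.singleton_subset_iff]
      exact specializes_iff_mem_closure.mp hy
    have h2 : closure {y} ⊆ closure {s} :=
      hs.2 isIrreducible_singleton.closure h1
    have h3 : s ⤳ y := specializes_iff_mem_closure.mpr (h2 (subset_closure rfl))
    exact (hy.antisymm h3).eq
  have hgenS : ∀ K ∈ irreducibleComponents (↑S : Type u), ∃ η : S, closure {η} = K := by
    intro K hK
    refine ⟨hK.1.genericPoint, ?_⟩
    have := hK.1.isGenericPoint_genericPoint_closure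
    rw [(isClosed_of_mem_irreducibleComponents _ hK).closure_eq] at this
    exact this.def
  refine ⟨⟨fun hf s hs => ?_, fun h => ?_⟩, fun hf => ?_⟩
  · have : s ∈ closure (Set.range f.base) := by
      rw [hf.denseRange.closure_range]; trivial
    obtain ⟨Z, hsp⟩ := hkey s this
    exact ⟨ξ Z, hmax s hs _ hsp⟩
  · constructor
    rw [DenseRange, dense_iff_closure_eq, Set.eq_univ_iff_forall]
    intro s
    have hC : irreducibleComponent s ∈ irreducibleComponents (↑S : Type u) :=
      irreducibleComponent_mem_irreducibleComponents s
    obtain ⟨η, hη⟩ := hgenS _ hC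
    obtain ⟨x, hx⟩ := h η (hη ▸ hC)
    have hsp : η ⤳ s := by
      rw [specializes_iff_mem_closure, hη]; exact mem_irreducibleComponent
    exact hsp.mem_closed isClosed_closure (subset_closure ⟨x, hx⟩)
  · apply (Set.finite_range (fun Z : irreducibleComponents (↑X : Type u) =>
      closure {f.base (ξ Z)})).subset
    intro K hK
    obtain ⟨η, hη⟩ := hgenS K hK
    have hs : η ∈ closure (Set.range f.base) := by
      rw [hf.denseRange.closure_range]; trivial
    obtain ⟨Z, hsp⟩ := hkey η hs
    have := hmax η (hη ▸ hK) _ hsp
    exact ⟨Z, by simp only; rw [this, hη]⟩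

end Groth.Agent.S9345
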