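import Groth.Statements.S9347
import Groth.Agent.Lib.Helper14.QcClosure
import Mathlib.AlgebraicGeometry.Properties
-- import your own Groth.Agent.* helpers here

set_option autoImplicit false
universe u
open Dom

namespace Groth.Agent.S9347

open AlgebraicGeometry CategoryTheory in
/-- Let f : X → S be quasi-compact and let η ∈ S be a point whose closure is an irreducible component of
S (a maximal point of S). If η is not in the image of f, then η has an open neighbourhood V with
f⁻¹(V) empty. -/
theorem result {X S : Scheme.{u}} (f : X ⟶ S) [QuasiCompact f]
    (η : ↑S) (hη : closure {η} ∈ irreducibleComponents (↑S : Type u)) (hnot : η ∉ Set.range f.base) :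
    ∃ V : S.Opens, η ∈ V ∧ f ⁻¹ᵁ V = ⊥ := by
  have hcl : η ∉ closure (Set.range f.base) := by
    intro h
    obtain ⟨x, hx⟩ := Groth.Agent.Lib.Helper14.QcClosure.exists_specializes_of_mem_closure_range f h
    apply hnot
    refine ⟨x, ?_⟩
    have h1 : closure {η} ⊆ closure {f x} := by
      apply closure_minimal _ isClosed_closure
      rw [Set.singleton_subset_iff]
      exact specializes_iff_mem_closure.mp hx
    have h2 : closure {f x} ⊆ closure {η} :=
      hη.2 isIrreducible_singleton.closure h1
    have h3 : η ⤳ f x := specializes_iff_mem_closure.mpr (h2 (subset_closure rfl))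
    exact (hx.antisymm h3).eq
  refine ⟨⟨(closure (Set.range f.base))ᶜ, isClosed_closure.isOpen_compl⟩, hcl, ?_⟩
  ext x
  simp only [TopologicalSpace.Opens.coe_bot, Set.mem_empty_iff_false, iff_false]
  intro hx
  exact hx (subset_closure (Set.mem_range_self (f := f.base) x))

end Groth.Agent.S9347
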