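import Groth.Statements.S9348
import Mathlib.AlgebraicGeometry.PullbackCarrier
import Mathlib.AlgebraicGeometry.Morphisms.QuasiCompact
-- import your own Groth.Agent.* helpers here

set_option autoImplicit false
universe u
open Dom

namespace Groth.Agent.S9348

open AlgebraicGeometry CategoryTheory in
/-- Let f : X → Y be a morphism and g : Y' → Y open and surjective. If the base change f' : X ×_Y Y' →
Y' of f is quasi-compact, then so is f. -/
theorem result {X Y X' Y' : Scheme.{u}} (f : X ⟶ Y) (g : Y' ⟶ Y) [Surjective g]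
    (hg : IsOpenMap g.base) (g' : X' ⟶ X) (f' : X' ⟶ Y') (hsq : IsPullback g' f' f g) [QuasiCompact f'] :
    QuasiCompact f := by
  constructor
  intro U hU hUc
  let ι := {V : Y'.Opens // IsAffineOpen V ∧ (V : Set Y') ⊆ g.base ⁻¹' U}
  have hcover : U ⊆ ⋃ i : ι, g.base '' (i.1 : Set Y') := by
    intro y hy
    obtain ⟨y', rfl⟩ := g.surjective y
    obtain ⟨V, hV, hy'V, hVU⟩ :=
      exists_isAffineOpen_mem_and_subset (x := y') (U := g ⁻¹ᵁ ⟨U, hU⟩) hy
    exact Set.mem_iUnion.mpr ⟨⟨V, hV, hVU⟩, ⟨y', hy'V, rfl⟩⟩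
  obtain ⟨t, ht⟩ := hUc.elim_finite_subcover (fun i : ι => g.base '' (i.1 : Set Y'))
    (fun i => hg _ i.1.isOpen) hcover
  have key : ∀ i : ι, g'.base '' (f'.base ⁻¹' (i.1 : Set Y')) = f.base ⁻¹' (g.base '' (i.1 : Set Y')) :=
    fun i => Scheme.image_preimage_eq_of_isPullback hsq.flip _
  have heq : f.base ⁻¹' U = ⋃ i ∈ t, g'.base '' (f'.base ⁻¹' (i.1 : Set Y')) := by
    apply subset_antisymm
    · intro x hx
      have := ht hx
      simp only [Set.mem_iUnion] at this
      obtain ⟨i, hi, hx'⟩ := this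
      rw [Set.mem_iUnion₂]
      refine ⟨i, hi, ?_⟩
      rw [key]
      exact hx'
    · simp only [Set.iUnion_subset_iff]
      intro i _
      rw [key]
      rintro x ⟨y', hy', e⟩
      have := i.2.2 hy'
      simp only [Set.mem_preimage] at this ⊢
      rw [← e]; exact this
  rw [heq]
  exact t.isCompact_biUnion fun i _ =>
    (QuasiCompact.isCompact_preimage (f := f') _ i.1.isOpen i.2.1.isCompact).image g'.continuous

end Groth.Agent.S9348
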