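import Groth.Statements.S9392
import Mathlib
-- import your own Groth.Agent.* helpers here

set_option autoImplicit false
universe u
open CAlg

namespace Groth.Agent.S9392

/-- A localization of an N-2 (Japanese) domain which is again a domain is N-2. -/
theorem result (R : Type u) [CommRing R] [IsDomain R] (M : Submonoid R)
    (S : Type u) [CommRing S] [IsDomain S] [Algebra R S] [IsLocalization M S]
    (h : CAlg.IsN2 R) : CAlg.IsN2 S := by
  classical
  unfold CAlg.IsN2 at h ⊢
  intro L _ _ _ _ hfd
  have hM : M ≤ nonZeroDivisors R := by
    intro m hm
    rw [mem_nonZeroDivisors_iff_ne_zero]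
    rintro rfl
    have := IsLocalization.map_units S (⟨0, hm⟩ : M)
    simp at this
  have hinj : Function.Injective (algebraMap R S) := IsLocalization.injective S hM
  have hK : IsFractionRing R (FractionRing S) := by
    have := IsLocalization.localization_localization_isLocalization_of_has_all_units M
      (nonZeroDivisors S) (FractionRing S) (fun x hx => hx.mem_nonZeroDivisors)
    have heq : (nonZeroDivisors S).comap (algebraMap R S) = nonZeroDivisors R := by
      ext r
      rw [Submonoid.mem_comap, mem_nonZeroDivisors_iff_ne_zero, mem_nonZeroDivisors_iff_ne_zero,
        ne_eq, ne_eq, map_eq_zero_iff _ hinj]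
    rw [heq] at this
    exact this
  let e : FractionRing R ≃ₐ[R] FractionRing S :=
    IsLocalization.algEquiv (nonZeroDivisors R) (FractionRing R) (FractionRing S)
  letI : Algebra R L := ((algebraMap S L).comp (algebraMap R S)).toAlgebra
  haveI : IsScalarTower R S L := IsScalarTower.of_algebraMap_eq fun _ => rfl
  letI : Algebra (FractionRing R) (FractionRing S) := e.toRingHom.toAlgebra
  letI : Algebra (FractionRing R) L :=
    ((algebraMap (FractionRing S) L).comp e.toRingHom).toAlgebra
  haveI : IsScalarTower (FractionRing R) (FractionRing S) L :=
    IsScalarTower.of_algebraMap_eq fun _ => rfl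
  haveI : IsScalarTower R (FractionRing R) L := by
    refine IsScalarTower.of_algebraMap_eq fun r => ?_
    show algebraMap S L (algebraMap R S r) = algebraMap (FractionRing S) L (e (algebraMap R _ r))
    rw [e.commutes, IsScalarTower.algebraMap_apply R S (FractionRing S),
      ← IsScalarTower.algebraMap_apply S (FractionRing S) L]
  haveI : Module.Finite (FractionRing R) (FractionRing S) :=
    RingHom.Finite.of_surjective e.toRingHom e.surjective
  haveI : FiniteDimensional (FractionRing R) L := Module.Finite.trans (FractionRing S) L
  haveI hRL : Module.Finite R (integralClosure R L) := h L inferInstance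
  obtain ⟨s, hs⟩ := hRL.fg_top
  have key : (integralClosure S L).toSubmodule =
      Submodule.span S ((fun c : integralClosure R L => (c : L)) '' s) := by
    apply le_antisymm
    · intro z hz
      obtain ⟨⟨m, hm⟩, hmz⟩ := IsIntegral.exists_multiple_integral_of_isLocalization M z hz
      have hmem : (⟨m • z, hmz⟩ : integralClosure R L) ∈
          Submodule.span R (s : Set (integralClosure R L)) := by
        rw [hs]; trivial
      have hmem2 : m • z ∈ Submodule.span R ((fun c : integralClosure R L => (c : L)) '' s) := by
        have := Submodule.mem_map_of_mem (f := (integralClosure R L).val.toLinearMap) hmem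
        rw [Submodule.map_span] at this
        exact this
      have hz : z = (IsLocalization.mk' S (1 : R) (⟨m, hm⟩ : M)) • (m • z) := by
        rw [Algebra.smul_def, Algebra.smul_def, IsScalarTower.algebraMap_apply R S L,
          ← mul_assoc, ← map_mul, IsLocalization.mk'_spec, map_one, map_one, one_mul]
      rw [hz]
      apply Submodule.smul_mem
      exact Submodule.span_le_restrictScalars R S _ hmem2
    · rw [Submodule.span_le]
      rintro _ ⟨c, _, rfl⟩
      exact (c.2).tower_top
  show Module.Finite S (integralClosure S L).toSubmodule
  rw [Module.Finite.iff_fg, key]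
  exact Submodule.fg_span (s.finite_toSet.image _)

end Groth.Agent.S9392
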