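import Groth.Statements.S9397
import Mathlib.RingTheory.DedekindDomain.IntegralClosure
import Mathlib.RingTheory.Localization.Integral

set_option autoImplicit false
universe u
open CAlg

namespace Groth.Agent.S9397

/-- A ring R is universally Japanese provided that each R-algebra of finite type which is a domain is
N-1. -/
theorem result (R : Type u) [CommRing R]
    (h : ∀ (S : Type u) [CommRing S] [IsDomain S] [Algebra R S], Algebra.FiniteType R S → CAlg.IsN1 S) :
    CAlg.IsUniversallyJapanese R := by
  intro S _ _ _ hS L _ _ _ _ hLfd
  classical
  set K := FractionRing S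
  obtain ⟨s, b, hb⟩ := FiniteDimensional.exists_is_basis_integral S K L
  set S' : Subalgebra S L := Algebra.adjoin S (Set.range b) with hS'
  have hfinS' : Module.Finite S S' :=
    Algebra.finite_adjoin_of_finite_of_isIntegral (Set.finite_range b)
      (by rintro _ ⟨i, rfl⟩; exact hb i)
  let _ : Algebra R S' := ((algebraMap S S').comp (algebraMap R S)).toAlgebra
  have : IsScalarTower R S S' := IsScalarTower.of_algebraMap_eq (fun _ => rfl)
  have hft : Algebra.FiniteType R S' := Algebra.FiniteType.trans hS inferInstance
  have hN1 : CAlg.IsN1 S' := h S' hft
  -- L is the fraction field of S'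
  have hinj : Function.Injective (algebraMap S' L) := Subtype.val_injective
  have hfrac : IsFractionRing S' L :=
    { map_units := fun y => by
        refine IsUnit.mk0 _ ?_
        intro h0
        have : (y : S') = 0 := hinj (by rw [h0, map_zero])
        exact nonZeroDivisors.coe_ne_zero y this
      surj := fun z => by
        obtain ⟨d, hd⟩ := IsLocalization.exist_integer_multiples (nonZeroDivisors S)
          Finset.univ (fun i => b.repr z i)
        choose a ha using fun i => hd i (Finset.mem_univ i)
        have hw : ∑ i, a i • b i ∈ S' :=
          Subalgebra.sum_mem _ (fun i _ => Subalgebra.smul_mem _ (Algebra.subset_adjoin (Set.mem_range_self i)) _)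
        have hSL : Function.Injective (algebraMap S L) := by
          rw [IsScalarTower.algebraMap_eq S K L]
          exact (algebraMap K L).injective.comp (IsFractionRing.injective S K)
        have hd0 : algebraMap S S' (d : S) ∈ nonZeroDivisors S' := by
          refine mem_nonZeroDivisors_of_ne_zero ?_
          intro h0
          apply nonZeroDivisors.coe_ne_zero d
          apply hSL
          rw [map_zero]
          have : ((algebraMap S S' (d : S) : S') : L) = 0 := by rw [h0]; rfl
          exact this
        refine ⟨⟨⟨_, hw⟩, ⟨_, hd0⟩⟩, ?_⟩
        show z * ((algebraMap S S' (d : S) : S') : L) = ∑ i, a i • b i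
        have e1 : ((algebraMap S S' (d : S) : S') : L) = algebraMap S L (d : S) := rfl
        rw [e1, mul_comm, ← Algebra.smul_def]
        conv_lhs => rw [← b.sum_repr z]
        rw [Finset.smul_sum]
        refine Finset.sum_congr rfl (fun i _ => ?_)
        rw [← smul_assoc, ← ha i, algebraMap_smul]
      exists_of_eq := fun {x y} hxy => ⟨1, by rw [hinj hxy]⟩ }
  let e : FractionRing S' ≃ₐ[S'] L := IsLocalization.algEquiv (nonZeroDivisors S') (FractionRing S') L
  have h1 : Module.Finite S' (integralClosure S' L) := by
    have : Module.Finite S' (integralClosure S' (FractionRing S')) := hN1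
    exact Module.Finite.equiv e.mapIntegralClosure.toLinearEquiv
  have : Module.Finite S (integralClosure S' L) := Module.Finite.trans S' _
  have : Algebra.IsIntegral S S' := Algebra.IsIntegral.of_finite S S'
  let φ : integralClosure S' L →ₗ[S] integralClosure S L :=
    { toFun := fun x => ⟨x.1, isIntegral_trans (R := S) (A := S') x.1 x.2⟩
      map_add' := fun x y => rfl
      map_smul' := fun c x => rfl }
  have hφ : Function.Surjective φ := fun y => ⟨⟨y.1, y.2.tower_top⟩, rfl⟩
  exact Module.Finite.of_surjective φ hφ

end Groth.Agent.S9397
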