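import Groth.Statements.S9402
-- import your own Groth.Agent.* helpers here

set_option autoImplicit false
universe u
open CAlg

namespace Groth.Agent.S9402

/-- Let R → S be a ring map with S a nonzero algebra over the rationals and f ∈ S such that some
S-linear form on the module of differentials of S over R sends df to 1 (that is, df spans a free
direct summand of rank one). Then f is not nilpotent. (The published statement asks only that S·df
be a direct summand of the module of differentials, which also holds for the rationals with a
square-zero element adjoined and for the zero ring, where f is nilpotent; this row asks for an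
S-linear form on the differentials sending df to 1, as the published proof uses, and S nonzero.) -/
theorem result (R : Type u) [CommRing R] (S : Type u)
    [CommRing S] [Nontrivial S] [Algebra R S] [Algebra ℚ S] (f : S)
    (θ : Ω[S⁄R] →ₗ[S] S) (hθ : θ (KaehlerDifferential.D R S f) = 1) : ¬ IsNilpotent f := by
  have hunit : ∀ n : ℕ, IsUnit ((n + 1 : ℕ) : S) := by
    intro n
    have : ((n + 1 : ℕ) : S) = algebraMap ℚ S ((n + 1 : ℕ) : ℚ) := by simp
    rw [this]
    exact (IsUnit.mk0 _ (by positivity)).map _
  have key : ∀ n : ℕ, f ^ (n + 1) = 0 → f ^ n = 0 := by
    intro n hn
    have h1 : KaehlerDifferential.D R S (f ^ (n + 1)) = 0 := by rw [hn, map_zero]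
    rw [Derivation.leibniz_pow] at h1
    have h2 := congrArg θ h1
    rw [map_zero, map_nsmul, map_smul, hθ] at h2
    simp only [Nat.add_sub_cancel, smul_eq_mul, mul_one] at h2
    rw [nsmul_eq_mul] at h2
    exact (hunit n).mul_right_eq_zero.mp h2
  rintro ⟨N, hN⟩
  have : ∀ k, k ≤ N → f ^ (N - k) = 0 := by
    intro k hk
    induction k with
    | zero => simpa using hN
    | succ k ih =>
      have h := ih (by omega)
      have : N - k = (N - (k + 1)) + 1 := by omega
      rw [this] at h
      exact key _ h
  have h0 := this N le_rfl
  simp at h0

end Groth.Agent.S9402
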