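import Groth.Statements.S9414
import Groth.Agent.Lib.Helper14.Conormal
-- import your own Groth.Agent.* helpers here

set_option autoImplicit false
universe u
open CAlg

namespace Groth.Agent.S9414

open TensorProduct in
/-- For an algebraically closed field k, a finite type k-algebra S and a maximal ideal m of S with
residue field κ = S/m, the κ-vector spaces κ ⊗_S Ω_{S/k} and m/m² have the same dimension. -/
theorem result (k : Type u) [Field k]
    [IsAlgClosed k] (S : Type u) [CommRing S] [Algebra k S] [Algebra.FiniteType k S]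
    (m : Ideal S) [m.IsMaximal] :
    Module.finrank (S ⧸ m) ((S ⧸ m) ⊗[S] Ω[S⁄k]) = Module.finrank (S ⧸ m) m.Cotangent := by
  classical
  -- the residue field is k
  letI : Field (S ⧸ m) := Ideal.Quotient.field m
  have hft : Algebra.FiniteType k (S ⧸ m) :=
    Algebra.FiniteType.of_surjective (Ideal.Quotient.mkₐ k m) (Ideal.Quotient.mkₐ_surjective k m)
  have hfin : Module.Finite k (S ⧸ m) := finite_of_finite_type_of_isJacobsonRing k (S ⧸ m)
  have hsurj : Function.Surjective (algebraMap k (S ⧸ m)) :=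
    (IsAlgClosed.algebraMap_bijective_of_isIntegral (k := k) (K := S ⧸ m)).2
  have hle : RingHom.ker (algebraMap k (S ⧸ m)) ≤
      (RingHom.ker (algebraMap S (S ⧸ m))).comap (Algebra.ofId k S) :=
    le_of_eq (congrArg RingHom.ker (IsScalarTower.algebraMap_eq k S (S ⧸ m)))
  have hexact := Groth.Agent.Lib.Helper14.Conormal.exact_mapCotangent_kerCotangentToTensor
    k S (S ⧸ m) hsurj hle
  set J := RingHom.ker (algebraMap S (S ⧸ m)) with hJdef
  have hJ : J = m := Ideal.mk_ker
  set ψ := KaehlerDifferential.kerCotangentToTensor k S (S ⧸ m) with hψdef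
  have hI : RingHom.ker (algebraMap k (S ⧸ m)) = ⊥ := (RingHom.injective_iff_ker_eq_bot _).mp
    (algebraMap k (S ⧸ m)).injective
  -- ψ is injective
  have hψinj : Function.Injective ψ := by
    rw [injective_iff_map_eq_zero]
    intro y hy
    obtain ⟨x, rfl⟩ := (hexact y).mp hy
    obtain ⟨a, rfl⟩ := Ideal.toCotangent_surjective _ x
    have ha : a.1 = 0 := (algebraMap k (S ⧸ m)).injective (by rw [map_zero]; exact a.2)
    rw [Ideal.mapCotangent_toCotangent]
    rw [Ideal.toCotangent_eq_zero]
    simp [ha]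
  have hψsurj : Function.Surjective ψ := by
    have hBC : Function.Surjective (algebraMap S (S ⧸ m)) := Ideal.Quotient.mk_surjective
    rw [← LinearMap.range_eq_top, hψdef,
      KaehlerDifferential.range_kerCotangentToTensor k S (S ⧸ m) hBC]
    have : Subsingleton (Ω[(S ⧸ m)⁄k]) := KaehlerDifferential.subsingleton_of_surjective k _ hsurj
    ext x
    simp only [Submodule.restrictScalars_mem, LinearMap.mem_ker, Submodule.mem_top, iff_true]
    exact Subsingleton.elim _ _
  -- compare J.Cotangent with m.Cotangent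
  have h₁ : m ≤ J.comap (AlgHom.id S S) := by
    intro x hx; rw [hJ]; exact hx
  let e₁ : m.Cotangent →ₗ[S] J.Cotangent := Ideal.mapCotangent m J (AlgHom.id S S) h₁
  have he₁inj : Function.Injective e₁ := by
    rw [injective_iff_map_eq_zero]
    intro y hy
    obtain ⟨x, rfl⟩ := Ideal.toCotangent_surjective _ y
    rw [Ideal.mapCotangent_toCotangent, Ideal.toCotangent_eq_zero] at hy
    rw [Ideal.toCotangent_eq_zero]
    have h' : (x : S) ∈ J ^ 2 := hy
    rw [hJ] at h'
    exact h'
  have he₁surj : Function.Surjective e₁ := by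
    intro y
    obtain ⟨x, rfl⟩ := Ideal.toCotangent_surjective _ y
    have hx : x.1 ∈ m := by rw [← hJ]; exact x.2
    exact ⟨m.toCotangent ⟨x.1, hx⟩, rfl⟩
  let ψ' : m.Cotangent →ₗ[S] (S ⧸ m) ⊗[S] Ω[S⁄k] := ψ ∘ₗ e₁
  let ψ'' : m.Cotangent →ₗ[S ⧸ m] (S ⧸ m) ⊗[S] Ω[S⁄k] :=
    LinearMap.extendScalarsOfSurjective Ideal.Quotient.mk_surjective ψ'
  have hbij : Function.Bijective ψ'' :=
    ⟨hψinj.comp he₁inj, hψsurj.comp he₁surj⟩
  exact (LinearEquiv.ofBijective ψ'' hbij).finrank_eq.symm

end Groth.Agent.S9414
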