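import Groth.Statements.S9415
import Groth.Agent.Lib.Helper14.Conormal
import Groth.Agent.Lib.Helper14.SepSmooth
-- import your own Groth.Agent.* helpers here

set_option autoImplicit false
universe u
open CAlg

namespace Groth.Agent.S9415

/-- Let R be a Noetherian local algebra over a field k whose residue field κ is a finitely generated,
separable (that is, geometrically reduced) field extension of k. Then the map from m/m² (m the
maximal ideal, realised as the kernel of R → κ) to κ ⊗_R Ω_{R/k} sending the class of x to 1 ⊗ dx is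
injective. -/
theorem result (k : Type u) [Field k] (R : Type u)
    [CommRing R] [IsLocalRing R] [IsNoetherianRing R] [Algebra k R]
    [Algebra.EssFiniteType k (IsLocalRing.ResidueField R)]
    [Algebra.IsGeometricallyReduced k (IsLocalRing.ResidueField R)] :
    Function.Injective
      (KaehlerDifferential.kerCotangentToTensor k R (IsLocalRing.ResidueField R)) := by
  classical
  set κ := IsLocalRing.ResidueField R with hκdef
  have hfs : Algebra.FormallySmooth k κ :=
    Groth.Agent.Lib.Helper14.SepSmooth.formallySmooth_of_isGeometricallyReduced k κ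
  have hBC : Function.Surjective (algebraMap R κ) := IsLocalRing.residue_surjective
  set J := RingHom.ker (algebraMap R κ) with hJdef
  let f : R →ₐ[k] κ := IsScalarTower.toAlgHom k R κ
  have hfJ : ∀ a : R, a ∈ J ^ 2 → f a = 0 := fun a ha =>
    (Ideal.pow_le_self two_ne_zero ha : a ∈ J)
  let g : R ⧸ J ^ 2 →ₐ[k] κ := Ideal.Quotient.liftₐ (J ^ 2) f hfJ
  have hgmk : ∀ a : R, g (Ideal.Quotient.mk (J ^ 2) a) = algebraMap R κ a := fun a => rfl
  have hg : Function.Surjective g := by
    intro c
    obtain ⟨a, rfl⟩ := hBC c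
    exact ⟨Ideal.Quotient.mk _ a, hgmk a⟩
  have hker : RingHom.ker (g : (R ⧸ J ^ 2) →+* κ) = J.cotangentIdeal := by
    apply le_antisymm
    · intro x hx
      obtain ⟨x, rfl⟩ := Ideal.Quotient.mk_surjective x
      refine ⟨x, ?_, rfl⟩
      have : g (Ideal.Quotient.mk (J ^ 2) x) = 0 := hx
      rw [hgmk] at this
      exact this
    · rintro _ ⟨x, hx, rfl⟩
      change g (Ideal.Quotient.mk (J ^ 2) x) = 0
      rw [hgmk]
      exact hx
  have hnil : IsNilpotent (RingHom.ker (g : (R ⧸ J ^ 2) →+* κ)) :=
    ⟨2, by rw [hker]; exact Ideal.cotangentIdeal_square J⟩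
  let σ : κ →ₐ[k] R ⧸ J ^ 2 :=
    Algebra.FormallySmooth.liftOfSurjective (AlgHom.id k κ) g hg hnil
  have hσ : ∀ c, g (σ c) = c := fun c =>
    Algebra.FormallySmooth.liftOfSurjective_apply (AlgHom.id k κ) g hg hnil c
  let D₀ : R → R ⧸ J ^ 2 := fun r => Ideal.Quotient.mk (J ^ 2) r - σ (algebraMap R κ r)
  have hD₀ : ∀ r : R, D₀ r ∈ J.cotangentIdeal := by
    intro r
    rw [← hker, RingHom.mem_ker]
    change g (Ideal.Quotient.mk (J ^ 2) r - σ (algebraMap R κ r)) = 0
    rw [map_sub, hgmk, hσ, sub_self]
  have hsq : J.cotangentIdeal * J.cotangentIdeal = ⊥ := by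
    rw [← sq]; exact Ideal.cotangentIdeal_square J
  have hprod : ∀ a b : R ⧸ J ^ 2, a ∈ J.cotangentIdeal → b ∈ J.cotangentIdeal → a * b = 0 := by
    intro a b ha hb
    have := Ideal.mul_mem_mul ha hb
    rw [hsq] at this
    exact this
  let Dl : R →ₗ[k] ↥J.cotangentIdeal :=
    { toFun := fun r => ⟨D₀ r, hD₀ r⟩
      map_add' := by
        intro x y
        apply Subtype.ext
        simp only [D₀, Submodule.coe_add, map_add]
        ring
      map_smul' := by
        intro c x
        apply Subtype.ext
        simp only [D₀, RingHom.id_apply, Submodule.coe_smul_of_tower]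
        have e1 : Ideal.Quotient.mk (J ^ 2) (c • x) = c • Ideal.Quotient.mk (J ^ 2) x :=
          map_smul (Ideal.Quotient.mkₐ k (J ^ 2)) c x
        have e2 : algebraMap R κ (c • x) = c • algebraMap R κ x :=
          map_smul (IsScalarTower.toAlgHom k R κ) c x
        rw [e1, e2, map_smul, smul_sub] }
  let D : Derivation k R ↥J.cotangentIdeal := Derivation.mk' Dl (by
    intro x y
    apply Subtype.ext
    simp only [Dl, LinearMap.coe_mk, AddHom.coe_mk, Submodule.coe_add, Submodule.coe_smul_of_tower,
      Algebra.smul_def, D₀]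
    have h := hprod _ _ (hD₀ x) (hD₀ y)
    simp only [D₀] at h
    rw [map_mul, map_mul, map_mul]
    change _ = Ideal.Quotient.mk (J ^ 2) x * _ + Ideal.Quotient.mk (J ^ 2) y * _
    linear_combination (-1 : R ⧸ J ^ 2) * h)
  have hkill : ∀ j ∈ J, ∀ m : ↥J.cotangentIdeal, j • m = 0 := by
    intro j hj m
    apply Subtype.ext
    simp only [Submodule.coe_smul_of_tower, Algebra.smul_def, ZeroMemClass.coe_zero]
    exact hprod _ _ ((Ideal.mk_mem_cotangentIdeal).mpr hj) m.2
  let θ : J.Cotangent → ↥J.cotangentIdeal := fun y => J.cotangentEquivIdeal y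
  have hθ : ∀ j : J, D j.1 = θ (J.toCotangent j) := by
    intro j
    apply Subtype.ext
    simp only [D, Derivation.coe_mk', Dl, LinearMap.coe_mk, AddHom.coe_mk, D₀, θ,
      Ideal.cotangentEquivIdeal_apply, Ideal.toCotangent_to_quotient_square]
    have : algebraMap R κ j.1 = 0 := j.2
    rw [this, map_zero, sub_zero]
    rfl
  rw [injective_iff_map_eq_zero]
  intro y hy
  have h0 := Groth.Agent.Lib.Helper14.Conormal.apply_eq_zero_of_kerCotangentToTensor_eq_zero
    k R κ hBC hkill D θ hθ y hy
  simp only [θ] at h0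
  exact (LinearEquiv.map_eq_zero_iff _).mp h0

end Groth.Agent.S9415
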