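import Groth.Statements.S9425
-- import your own Groth.Agent.* helpers here

set_option autoImplicit false
universe u
open CAlg

namespace Groth.Agent.S9425

/-- A directed colimit of formally étale R-algebras is formally étale over R. The colimit is encoded by
compatible R-algebra maps S_i → S which are jointly surjective and whose kernels die further along
the system. -/
theorem result {ι : Type u} [Preorder ι] [IsDirected ι (· ≤ ·)] [Nonempty ι]
    (R : Type u) [CommRing R] (G : ι → Type u) [∀ i, CommRing (G i)] [∀ i, Algebra R (G i)]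
    (f : ∀ i j, i ≤ j → (G i →ₐ[R] G j)) (S : Type u) [CommRing S] [Algebra R S]
    (g : ∀ i, G i →ₐ[R] S) (hg : ∀ i j (h : i ≤ j), (g j).comp (f i j h) = g i)
    (hsurj : ∀ s : S, ∃ i, ∃ x : G i, g i x = s)
    (hker : ∀ i (x : G i), g i x = 0 → ∃ j, ∃ h : i ≤ j, f i j h x = 0)
    (h : ∀ i, Algebra.FormallyEtale R (G i)) : Algebra.FormallyEtale R S := by
  have hU : Algebra.FormallyUnramified R S := by
    rw [Algebra.FormallyUnramified.iff_comp_injective]
    intro B _ _ I hI f₁ f₂ hf
    ext s
    obtain ⟨i, x, rfl⟩ := hsurj s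
    have key : f₁.comp (g i) = f₂.comp (g i) := by
      apply Algebra.FormallyUnramified.comp_injective I hI
      rw [← AlgHom.comp_assoc, hf, AlgHom.comp_assoc]
    exact AlgHom.congr_fun key x
  rw [Algebra.FormallyEtale.iff_comp_bijective]
  intro B _ _ I hI
  refine ⟨Algebra.FormallyUnramified.comp_injective I hI, ?_⟩
  intro φ
  have hlift : ∀ i, ∃ ψ : G i →ₐ[R] B, (Ideal.Quotient.mkₐ R I).comp ψ = φ.comp (g i) := fun i =>
    (Algebra.FormallyEtale.comp_bijective R (G i) I hI).2 (φ.comp (g i))
  choose ψ hψ using hlift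
  have huniq : ∀ i (χ : G i →ₐ[R] B), (Ideal.Quotient.mkₐ R I).comp χ = φ.comp (g i) →
      χ = ψ i := fun i χ hχ =>
    Algebra.FormallyUnramified.comp_injective I hI (hχ.trans (hψ i).symm)
  have hcompat : ∀ i j (h : i ≤ j) (x : G i), ψ j (f i j h x) = ψ i x := by
    intro i j h x
    have : (ψ j).comp (f i j h) = ψ i := by
      apply huniq; rw [← AlgHom.comp_assoc, hψ j, AlgHom.comp_assoc, hg]
    exact AlgHom.congr_fun this x
  have hgf : ∀ i j (h : i ≤ j) (x : G i), g j (f i j h x) = g i x := by
    intro i j h x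
    exact AlgHom.congr_fun (hg i j h) x
  have hwd : ∀ i j (x : G i) (y : G j), g i x = g j y → ψ i x = ψ j y := by
    intro i j x y hxy
    obtain ⟨k, hik, hjk⟩ := directed_of (· ≤ ·) i j
    have h0 : g k (f i k hik x - f j k hjk y) = 0 := by
      rw [map_sub, hgf, hgf, hxy, sub_self]
    obtain ⟨l, hkl, hl⟩ := hker k _ h0
    have := congrArg (ψ l) hl
    rw [map_sub, map_sub, hcompat, hcompat, hcompat, hcompat, map_zero] at this
    exact sub_eq_zero.mp this
  choose idx pre hpre using hsurj
  have key : ∀ s i (x : G i), g i x = s → ψ (idx s) (pre s) = ψ i x := fun s i x hx =>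
    hwd _ _ _ _ ((hpre s).trans hx.symm)
  have common : ∀ s t : S, ∃ k, ∃ x y : G k, g k x = s ∧ g k y = t := by
    intro s t
    obtain ⟨k, hik, hjk⟩ := directed_of (· ≤ ·) (idx s) (idx t)
    exact ⟨k, f _ k hik (pre s), f _ k hjk (pre t), by rw [hgf, hpre], by rw [hgf, hpre]⟩
  obtain ⟨i₀⟩ := ‹Nonempty ι›
  let Ψ : S →ₐ[R] B :=
    { toFun := fun s => ψ (idx s) (pre s)
      map_one' := by
        show _ = _
        rw [key 1 i₀ 1 (map_one _), map_one]
      map_mul' := by
        intro s t
        show _ = _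
        obtain ⟨k, x, y, rfl, rfl⟩ := common s t
        rw [key _ k x rfl, key _ k y rfl, key _ k (x * y) (map_mul _ _ _), map_mul]
      map_zero' := by
        show _ = _
        rw [key 0 i₀ 0 (map_zero _), map_zero]
      map_add' := by
        intro s t
        show _ = _
        obtain ⟨k, x, y, rfl, rfl⟩ := common s t
        rw [key _ k x rfl, key _ k y rfl, key _ k (x + y) (map_add _ _ _), map_add]
      commutes' := by
        intro r
        show _ = _
        rw [key _ i₀ (algebraMap R (G i₀) r) (AlgHom.commutes _ _), AlgHom.commutes] }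
  refine ⟨Ψ, ?_⟩
  ext s
  show Ideal.Quotient.mk I (ψ (idx s) (pre s)) = φ s
  have := AlgHom.congr_fun (hψ (idx s)) (pre s)
  simp only [AlgHom.comp_apply, Ideal.Quotient.mkₐ_eq_mk] at this
  rw [this, hpre]

end Groth.Agent.S9425
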