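import Groth.Statements.S9450
import Groth.Agent.Lib.Helper14.Conormal
-- import your own Groth.Agent.* helpers here

set_option autoImplicit false
universe u
open CAlg

namespace Groth.Agent.S9450

/-- For ring maps A → B → C with A → C surjective and A → B formally smooth, writing I = ker(A → C) and
J = ker(B → C), the sequence 0 → I/I² → J/J² → C ⊗_B Ω_{B/A} → 0 is split exact: the first map is
injective and admits an A-linear retraction, its range is the kernel of the second map (class of x ↦
1 ⊗ dx), and the second map is surjective. -/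
theorem result (A : Type u) [CommRing A]
    (B : Type u) [CommRing B] [Algebra A B] [Algebra.FormallySmooth A B] (C : Type u) [CommRing C]
    [Algebra B C] [Algebra A C] [IsScalarTower A B C] (hC : Function.Surjective (algebraMap A C)) :
    Function.Injective (Ideal.mapCotangent (RingHom.ker (algebraMap A C))
        (RingHom.ker (algebraMap B C)) (Algebra.ofId A B)
        (le_of_eq (congrArg RingHom.ker (IsScalarTower.algebraMap_eq A B C)))) ∧
      (∃ r : (RingHom.ker (algebraMap B C)).Cotangent →ₗ[A] (RingHom.ker (algebraMap A C)).Cotangent,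
        r ∘ₗ (Ideal.mapCotangent (RingHom.ker (algebraMap A C)) (RingHom.ker (algebraMap B C))
          (Algebra.ofId A B)
          (le_of_eq (congrArg RingHom.ker (IsScalarTower.algebraMap_eq A B C)))) = LinearMap.id) ∧
      LinearMap.range (Ideal.mapCotangent (RingHom.ker (algebraMap A C))
          (RingHom.ker (algebraMap B C)) (Algebra.ofId A B)
          (le_of_eq (congrArg RingHom.ker (IsScalarTower.algebraMap_eq A B C)))) =
        LinearMap.ker ((KaehlerDifferential.kerCotangentToTensor A B C).restrictScalars A) ∧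
      Function.Surjective (KaehlerDifferential.kerCotangentToTensor A B C) := by
  classical
  have hBC : Function.Surjective (algebraMap B C) := by
    intro c
    obtain ⟨a, rfl⟩ := hC c
    exact ⟨algebraMap A B a, (IsScalarTower.algebraMap_apply A B C a).symm⟩
  have hle : RingHom.ker (algebraMap A C) ≤
      (RingHom.ker (algebraMap B C)).comap (Algebra.ofId A B) :=
    le_of_eq (congrArg RingHom.ker (IsScalarTower.algebraMap_eq A B C))
  have hexact := Groth.Agent.Lib.Helper14.Conormal.exact_mapCotangent_kerCotangentToTensor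
    A B C hC hle
  set I := RingHom.ker (algebraMap A C) with hIdef
  set J := RingHom.ker (algebraMap B C) with hJdef
  set φ := Ideal.mapCotangent I J (Algebra.ofId A B) hle with hφdef
  -- a lift B → A ⧸ I ^ 2
  let f : A →ₐ[A] C := Algebra.ofId A C
  have hfI : ∀ a : A, a ∈ I ^ 2 → f a = 0 := by
    intro a ha
    have : a ∈ I := Ideal.pow_le_self two_ne_zero ha
    exact this
  let g : A ⧸ I ^ 2 →ₐ[A] C := Ideal.Quotient.liftₐ (I ^ 2) f hfI
  have hgmk : ∀ a : A, g (Ideal.Quotient.mk (I ^ 2) a) = algebraMap A C a := fun a => rfl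
  have hg : Function.Surjective g := by
    intro c
    obtain ⟨a, rfl⟩ := hC c
    exact ⟨Ideal.Quotient.mk _ a, hgmk a⟩
  have hker : RingHom.ker (g : (A ⧸ I ^ 2) →+* C) = I.cotangentIdeal := by
    apply le_antisymm
    · intro x hx
      obtain ⟨x, rfl⟩ := Ideal.Quotient.mk_surjective x
      refine ⟨x, ?_, rfl⟩
      have : g (Ideal.Quotient.mk (I ^ 2) x) = 0 := hx
      rw [hgmk] at this
      exact this
    · rintro _ ⟨x, hx, rfl⟩
      change g (Ideal.Quotient.mk (I ^ 2) x) = 0
      rw [hgmk]
      exact hx
  have hnil : IsNilpotent (RingHom.ker (g : (A ⧸ I ^ 2) →+* C)) :=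
    ⟨2, by rw [hker]; exact Ideal.cotangentIdeal_square I⟩
  let ℓ : B →ₐ[A] A ⧸ I ^ 2 :=
    Algebra.FormallySmooth.liftOfSurjective (IsScalarTower.toAlgHom A B C) g hg hnil
  have hℓ : ∀ b, g (ℓ b) = algebraMap B C b := fun b =>
    Algebra.FormallySmooth.liftOfSurjective_apply _ g hg hnil b
  have hℓJ : ∀ j : J, ℓ j.1 ∈ I.cotangentIdeal := by
    intro j
    rw [← hker, RingHom.mem_ker]
    change g (ℓ j.1) = 0
    rw [hℓ]
    exact j.2
  let r₀ : J →ₗ[A] I.Cotangent :=
    { toFun := fun j => I.cotangentEquivIdeal.symm ⟨ℓ j.1, hℓJ j⟩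
      map_add' := fun x y => by
        rw [← map_add]
        congr 1
        ext
        simp
      map_smul' := fun a x => by
        rw [RingHom.id_apply, ← map_smul]
        congr 1
        ext
        simp only [map_smul, Submodule.coe_smul_of_tower] }
  have hr₀ : ∀ y ∈ ((J • ⊤ : Submodule B J).restrictScalars A), r₀ y = 0 := by
    intro y hy
    rw [Submodule.restrictScalars_mem] at hy
    have hzero : ℓ y.1 = 0 := by
      refine Submodule.smul_induction_on (p := fun y : J => ℓ y.1 = 0) hy ?_ ?_
      · intro j hj z _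
        have h1 : ℓ (j • z).1 = ℓ j * ℓ z.1 := by
          rw [SetLike.val_smul, smul_eq_mul, map_mul]
        rw [h1]
        have h2 : ℓ j * ℓ z.1 ∈ I.cotangentIdeal * I.cotangentIdeal :=
          Ideal.mul_mem_mul (hℓJ ⟨j, hj⟩) (hℓJ z)
        have h3 : I.cotangentIdeal * I.cotangentIdeal = ⊥ := by
          rw [← sq]; exact Ideal.cotangentIdeal_square I
        rw [h3] at h2
        exact h2
      · intro x y hx hy
        rw [Submodule.coe_add, map_add, hx, hy, add_zero]
    change I.cotangentEquivIdeal.symm ⟨ℓ y.1, hℓJ y⟩ = 0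
    rw [LinearEquiv.symm_apply_eq, map_zero]
    ext
    exact hzero
  let r : J.Cotangent →ₗ[A] I.Cotangent :=
    Submodule.liftQ ((J • ⊤ : Submodule B J).restrictScalars A) r₀ hr₀
  have hr : r ∘ₗ φ = LinearMap.id := by
    refine LinearMap.ext fun x => ?_
    obtain ⟨a, rfl⟩ := I.toCotangent_surjective x
    rw [LinearMap.comp_apply, hφdef, Ideal.mapCotangent_toCotangent, LinearMap.id_apply]
    change I.cotangentEquivIdeal.symm ⟨ℓ (Algebra.ofId A B a.1), _⟩ = _
    have : ℓ (Algebra.ofId A B a.1) = (I ^ 2).mkQ a.1 := by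
      rw [Algebra.ofId_apply, AlgHom.commutes]
      rfl
    simp only [this]
    exact Ideal.cotangentEquivIdeal_symm_apply I a.1 a.2
  refine ⟨?_, ⟨r, hr⟩, ?_, ?_⟩
  · intro x y hxy
    have := congrArg r hxy
    rwa [← LinearMap.comp_apply, ← LinearMap.comp_apply, hr, LinearMap.id_apply,
      LinearMap.id_apply] at this
  · ext y
    rw [LinearMap.mem_range, LinearMap.mem_ker, LinearMap.restrictScalars_apply, hexact y]
    rfl
  · rw [← LinearMap.range_eq_top, KaehlerDifferential.range_kerCotangentToTensor A B C hBC]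
    have : Subsingleton (Ω[C⁄A]) := KaehlerDifferential.subsingleton_of_surjective A C hC
    ext x
    simp only [Submodule.restrictScalars_mem, LinearMap.mem_ker, Submodule.mem_top, iff_true]
    exact Subsingleton.elim _ _

end Groth.Agent.S9450
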