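import Groth.Statements.S9495
import Groth.Agent.Lib.Helper14.QcClosure
-- import your own Groth.Agent.* helpers here

set_option autoImplicit false
universe u
open SchMor

namespace Groth.Agent.S9495

open AlgebraicGeometry in
open CategoryTheory in
/-- For a quasi-compact morphism of schemes f : X → S, the image f(X) is closed in S if and only if it
is stable under specialization. -/
theorem result
    {X S : Scheme.{u}} (f : X ⟶ S) [QuasiCompact f] :
    IsClosed (Set.range f) ↔ StableUnderSpecialization (Set.range f) := by
  refine ⟨fun h => h.stableUnderSpecialization, fun h => ?_⟩
  refine closure_subset_iff_isClosed.mp fun y hy => ?_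
  obtain ⟨x, hx⟩ := Groth.Agent.Lib.Helper14.QcClosure.exists_specializes_of_mem_closure_range f hy
  exact h hx (Set.mem_range_self x)

end Groth.Agent.S9495
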