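import Groth.Statements.S9581
import Groth.Agent.Lib.Helper14.WeakAss
-- import your own Groth.Agent.* helpers here

set_option autoImplicit false
universe u
open CAlg

namespace Groth.Agent.S9581

/-- (1) ⇔ (3): for a ring R, an R-module M and a prime p of R, the prime p is weakly associated to M
(minimal among the primes containing the annihilator of some element of M) if and only if the
localization M_p contains an element whose annihilator in R_p has radical equal to the maximal ideal
p R_p. -/
theorem result {R : Type u} [CommRing R] (M : Type u) [AddCommGroup M] [Module R M] (p : Ideal R) [p.IsPrime] :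
    p ∈ FlatCA.weakAss R M ↔ IsAssociatedPrime (IsLocalRing.maximalIdeal (Localization.AtPrime p)) (LocalizedModule p.primeCompl M) := by
  classical
  have hdisj : Disjoint (p.primeCompl : Set R) (p : Set R) := by
    rw [Set.disjoint_left]; intro x hx hxp; exact hx hxp
  rw [Groth.Agent.Lib.Helper14.mem_weakAss_iff_mem_weakAss_localizedModule p.primeCompl M p hdisj]
  have hmax : ∀ Q : Ideal (Localization.AtPrime p), Q.IsPrime →
      Ideal.comap (algebraMap R (Localization.AtPrime p)) Q = p →
      Q = IsLocalRing.maximalIdeal (Localization.AtPrime p) := by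
    intro Q hQ hc
    rw [← IsLocalization.map_under p.primeCompl (Localization.AtPrime p) Q, Ideal.under_def, hc,
      Localization.AtPrime.map_eq_maximalIdeal]
  have hcomap : Ideal.comap (algebraMap R (Localization.AtPrime p))
      (IsLocalRing.maximalIdeal (Localization.AtPrime p)) = p :=
    Localization.AtPrime.under_maximalIdeal
  have hcol : ∀ x : LocalizedModule p.primeCompl M,
      Submodule.colon (⊥ : Submodule (Localization.AtPrime p) (LocalizedModule p.primeCompl M)) {x} =
        (Submodule.span (Localization.AtPrime p) {x}).annihilator := by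
    intro x; ext r
    rw [Submodule.mem_colon_singleton, Submodule.mem_annihilator_span_singleton,
      Submodule.mem_bot]
  constructor
  · rintro ⟨x, hx⟩
    rw [Groth.Agent.Lib.Helper14.annihilator_localizedModule_eq_comap,
      IsLocalization.minimalPrimes_comap p.primeCompl] at hx
    obtain ⟨Q, hQ, hQp⟩ := hx
    have hQm := hmax Q hQ.1.1 hQp
    rw [hQm] at hQ
    refine ⟨inferInstance, x, ?_⟩
    rw [hcol, ← Ideal.sInf_minimalPrimes]
    have : (Submodule.span (Localization.AtPrime p) {x}).annihilator.minimalPrimes =
        {IsLocalRing.maximalIdeal (Localization.AtPrime p)} := by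
      ext Q'
      constructor
      · intro hQ'
        exact le_antisymm (IsLocalRing.le_maximalIdeal hQ'.1.1.ne_top)
          (hQ.2 hQ'.1 (IsLocalRing.le_maximalIdeal hQ'.1.1.ne_top))
      · rintro rfl; exact hQ
    rw [this, sInf_singleton]
  · rintro ⟨hprime, x, hx⟩
    refine ⟨x, ?_⟩
    rw [Groth.Agent.Lib.Helper14.annihilator_localizedModule_eq_comap,
      IsLocalization.minimalPrimes_comap p.primeCompl]
    refine ⟨IsLocalRing.maximalIdeal _, ?_, hcomap⟩
    rw [hcol] at hx
    refine ⟨⟨inferInstance, by rw [hx]; exact Ideal.le_radical⟩, ?_⟩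
    intro Q hQ _
    rw [hx]; exact hQ.1.radical_le_iff.mpr hQ.2

end Groth.Agent.S9581
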