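import Groth.Statements.S9582
import Mathlib
-- import your own Groth.Agent.* helpers here

set_option autoImplicit false
universe u
open CAlg

namespace Groth.Agent.S9582

/-- For a reduced ring R, the primes weakly associated to the R-module R (primes minimal over the
annihilator of some element) are exactly the minimal primes of R. -/
theorem result {R : Type u} [CommRing R] [IsReduced R] :
    FlatCA.weakAss R R = minimalPrimes R := by
  classical
  ext p
  constructor
  · rintro ⟨m, hp⟩
    haveI : p.IsPrime := hp.1.1
    -- either some t ∉ p kills m (impossible), or there is a prime q ≤ p with m ∉ q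
    let U : Submonoid R :=
      { carrier := {x | ∃ t ∉ p, ∃ k : ℕ, x = t * m ^ k}
        one_mem' := ⟨1, p.ne_top_iff_one.mp hp.1.1.ne_top, 0, by simp⟩
        mul_mem' := by
          rintro _ _ ⟨t1, ht1, k1, rfl⟩ ⟨t2, ht2, k2, rfl⟩
          exact ⟨t1 * t2, fun h => (hp.1.1.mem_or_mem h).elim ht1 ht2, k1 + k2, by ring⟩ }
    have h0 : Disjoint ((⊥ : Ideal R) : Set R) (U : Set R) := by
      rw [Set.disjoint_left]
      rintro x hx ⟨t, ht, k, rfl⟩
      have hx0 : t * m ^ k = 0 := by simpa using hx
      apply ht
      have htm : t * m = 0 := by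
        have : IsNilpotent (t * m) := by
          refine ⟨k + 1, ?_⟩
          calc (t * m) ^ (k + 1) = t ^ k * m * (t * m ^ k) := by ring
            _ = 0 := by rw [hx0, mul_zero]
        exact this.eq_zero
      apply hp.1.2
      rw [Submodule.mem_annihilator_span_singleton, smul_eq_mul]
      exact htm
    obtain ⟨q, hq, -, hqU⟩ := Ideal.exists_le_prime_disjoint (⊥ : Ideal R) U h0
    have hqp : q ≤ p := by
      intro x hx
      by_contra hxp
      exact Set.disjoint_left.mp hqU hx ⟨x, hxp, 0, by simp⟩
    have hmq : m ∉ q := fun hm => Set.disjoint_left.mp hqU hm ⟨1, p.ne_top_iff_one.mp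
      hp.1.1.ne_top, 1, by simp⟩
    obtain ⟨q', hq', hq'q⟩ := Ideal.exists_minimalPrimes_le (bot_le : (⊥ : Ideal R) ≤ q)
    haveI := hq'.1.1
    have hann : (Submodule.span R {m}).annihilator ≤ q' := by
      intro x hx
      rw [Submodule.mem_annihilator_span_singleton, smul_eq_mul] at hx
      have : x * m ∈ q' := by rw [hx]; exact q'.zero_mem
      rcases Ideal.IsPrime.mem_or_mem ‹_› this with h | h
      · exact h
      · exact absurd (hq'q h) hmq
    have : p = q' := le_antisymm (hp.2 ⟨hq'.1.1, hann⟩ (hq'q.trans hqp)) (hq'q.trans hqp)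
    rw [this]
    exact hq'
  · intro hp
    refine ⟨1, ?_⟩
    have : (Submodule.span R {(1 : R)}).annihilator = ⊥ := by
      rw [eq_bot_iff]
      intro x hx
      rw [Submodule.mem_annihilator_span_singleton, smul_eq_mul, mul_one] at hx
      rw [hx]; exact Submodule.zero_mem _
    rw [this]
    exact hp

end Groth.Agent.S9582
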