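import Groth.Statements.S9583
import Mathlib
-- import your own Groth.Agent.* helpers here

set_option autoImplicit false
universe u
open CAlg

namespace Groth.Agent.S9583

/-- For a ring R and a short exact sequence 0 → M' → M → M'' → 0 of R-modules, every prime weakly
associated to M' is weakly associated to M, and every prime weakly associated to M is weakly
associated to M' or to M''. -/
theorem result {R : Type u} [CommRing R] {M' M M'' : Type u} [AddCommGroup M'] [Module R M'] [AddCommGroup M] [Module R M] [AddCommGroup M''] [Module R M''] (f : M' →ₗ[R] M) (g : M →ₗ[R] M'') (hf : Function.Injective f) (hg : Function.Surjective g) (hfg : Function.Exact f g) :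
    FlatCA.weakAss R M' ⊆ FlatCA.weakAss R M ∧ FlatCA.weakAss R M ⊆ FlatCA.weakAss R M' ∪ FlatCA.weakAss R M'' := by
  classical
  have hannf : ∀ m' : M', (Submodule.span R {f m'}).annihilator =
      (Submodule.span R {m'}).annihilator := by
    intro m'; ext r
    rw [Submodule.mem_annihilator_span_singleton, Submodule.mem_annihilator_span_singleton,
      ← map_smul, map_eq_zero_iff f hf]
  refine ⟨?_, ?_⟩
  · rintro p ⟨m', hp⟩
    exact ⟨f m', by rw [hannf]; exact hp⟩
  · rintro p ⟨m, hp⟩
    haveI : p.IsPrime := hp.1.1
    by_cases hle : (Submodule.span R {g m}).annihilator ≤ p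
    · right
      refine ⟨g m, ⟨⟨hp.1.1, hle⟩, ?_⟩⟩
      intro q hq hqp
      refine hp.2 ⟨hq.1, ?_⟩ hqp
      intro r hr
      apply hq.2
      rw [Submodule.mem_annihilator_span_singleton] at hr ⊢
      rw [← map_smul, hr, map_zero]
    · left
      obtain ⟨x, hx, hxp⟩ := Set.not_subset.mp hle
      rw [SetLike.mem_coe, Submodule.mem_annihilator_span_singleton] at hx
      have hxm : g (x • m) = 0 := by rw [map_smul, hx]
      obtain ⟨m', hm'⟩ := (hfg (x • m)).mp hxm
      refine ⟨m', ?_⟩
      rw [← hannf, hm']
      have hann : (Submodule.span R {x • m}).annihilator ≤ p := by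
        intro y hy
        rw [Submodule.mem_annihilator_span_singleton, smul_smul] at hy
        have : y * x ∈ (Submodule.span R {m}).annihilator := by
          rw [Submodule.mem_annihilator_span_singleton]; exact hy
        rcases Ideal.IsPrime.mem_or_mem ‹_› (hp.1.2 this) with h | h
        · exact h
        · exact absurd h hxp
      refine ⟨⟨hp.1.1, hann⟩, ?_⟩
      intro q hq hqp
      refine hp.2 ⟨hq.1, ?_⟩ hqp
      intro r hr
      apply hq.2
      rw [Submodule.mem_annihilator_span_singleton] at hr ⊢
      rw [smul_comm, hr, smul_zero]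

end Groth.Agent.S9583
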