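import Groth.Statements.S9584
import Mathlib
-- import your own Groth.Agent.* helpers here

set_option autoImplicit false
universe u
open CAlg

namespace Groth.Agent.S9584

/-- For a ring R and an R-module M, M has no weakly associated prime (no prime minimal over the
annihilator of an element) if and only if M = 0. -/
theorem result {R : Type u} [CommRing R] (M : Type u) [AddCommGroup M] [Module R M] :
    FlatCA.weakAss R M = ∅ ↔ Subsingleton M := by
  classical
  constructor
  · intro h
    by_contra hns
    rw [not_subsingleton_iff_nontrivial] at hns
    obtain ⟨x, hx⟩ := exists_ne (0 : M)
    have hItop : (Submodule.span R {x}).annihilator ≠ ⊤ := by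
      intro htop
      apply hx
      have : (1 : R) ∈ (Submodule.span R {x}).annihilator := by rw [htop]; exact Submodule.mem_top
      rw [Submodule.mem_annihilator_span_singleton, one_smul] at this
      exact this
    obtain ⟨p, hp⟩ := Ideal.nonempty_minimalPrimes hItop
    have : p ∈ FlatCA.weakAss R M := ⟨x, hp⟩
    rw [h] at this
    exact this
  · intro h
    ext p
    simp only [Set.mem_empty_iff_false, iff_false]
    rintro ⟨x, hx⟩
    have htop : (Submodule.span R {x}).annihilator = ⊤ := by
      rw [eq_top_iff]
      intro r _
      rw [Submodule.mem_annihilator_span_singleton]
      exact Subsingleton.elim _ _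
    rw [htop, Ideal.minimalPrimes_top] at hx
    exact hx

end Groth.Agent.S9584
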