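import Groth.Statements.S9585
import Mathlib
-- import your own Groth.Agent.* helpers here

set_option autoImplicit false
universe u
open CAlg

namespace Groth.Agent.S9585

/-- For a ring R and an R-module M, an element of R lies in some weakly associated prime of M exactly
when multiplication by it on M is not injective; in other words the union of the weakly associated
primes of M equals the set of zerodivisors on M. -/
theorem result {R : Type u} [CommRing R] (M : Type u) [AddCommGroup M] [Module R M] :
    ⋃ q ∈ FlatCA.weakAss R M, (q : Set R) = {f : R | ¬ IsSMulRegular M f} := by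
  classical
  ext f
  simp only [Set.mem_iUnion, SetLike.mem_coe, Set.mem_ofPred_eq, exists_prop]
  constructor
  · rintro ⟨q, ⟨m, hq⟩, hfq⟩
    obtain ⟨y, hy, hfy⟩ := Ideal.exists_mul_mem_of_mem_minimalPrimes hq hfq
    rw [Submodule.mem_annihilator_span_singleton] at hy hfy
    intro hreg
    apply hy
    apply hreg
    show f • (y • m) = f • (0 : M)
    rw [smul_zero, smul_smul]
    exact hfy
  · intro hf
    have : ∃ m : M, m ≠ 0 ∧ f • m = 0 := by
      by_contra hcon
      push Not at hcon
      apply hf
      intro a b hab
      have h1 : f • (a - b) = 0 := by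
        rw [smul_sub]; exact sub_eq_zero.mpr hab
      by_contra hne
      exact hcon (a - b) (sub_ne_zero.mpr hne) h1
    obtain ⟨m, hm0, hfm⟩ := this
    have hItop : (Submodule.span R {m}).annihilator ≠ ⊤ := by
      intro htop
      apply hm0
      have : (1 : R) ∈ (Submodule.span R {m}).annihilator := by rw [htop]; exact Submodule.mem_top
      rw [Submodule.mem_annihilator_span_singleton, one_smul] at this
      exact this
    have hfI : f ∈ (Submodule.span R {m}).annihilator := by
      rw [Submodule.mem_annihilator_span_singleton]; exact hfm
    obtain ⟨P, hPmax, hIP⟩ := Ideal.exists_le_maximal _ hItop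
    obtain ⟨p, hp, _⟩ := Ideal.exists_minimalPrimes_le hIP
    exact ⟨p, ⟨m, hp⟩, hp.1.2 hfI⟩

end Groth.Agent.S9585
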