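import Groth.Statements.S9586
import Mathlib
-- import your own Groth.Agent.* helpers here

set_option autoImplicit false
universe u
open CAlg

namespace Groth.Agent.S9586

/-- For a ring R, an R-module M and a finitely generated prime ideal p of R, p is associated to M (equal
to the annihilator of an element) if and only if p is weakly associated to M (minimal over the
annihilator of an element). -/
theorem result {R : Type u} [CommRing R] (M : Type u) [AddCommGroup M] [Module R M] (p : Ideal R) [p.IsPrime] (hp : p.FG) :
    p ∈ FlatCA.ass R M ↔ p ∈ FlatCA.weakAss R M := by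
  classical
  constructor
  · rintro ⟨hpr, m, hm⟩
    refine ⟨m, ?_⟩
    rw [← hm, Ideal.minimalPrimes_eq_subsingleton_self]
    rfl
  · rintro ⟨m, hm⟩
    set I := (Submodule.span R {m}).annihilator with hI
    have hmemI : ∀ r, r ∈ I ↔ r • m = 0 := fun r => Submodule.mem_annihilator_span_singleton m r
    have huni : ∀ s : Finset R, (∀ g ∈ s, ∃ t ∉ p, (t * g) • m = 0) →
        ∃ t ∉ p, ∀ x ∈ Ideal.span (s : Set R), (t * x) • m = 0 := by
      intro s h
      choose! t ht htm using h
      refine ⟨∏ g ∈ s, t g, ?_, ?_⟩
      · intro hmem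
        obtain ⟨g, hg, hgp⟩ := (Ideal.IsPrime.prod_mem_iff).mp hmem
        exact ht g hg hgp
      · intro x hx
        induction hx using Submodule.span_induction with
        | mem g hg =>
          rw [← Finset.mul_prod_erase s t hg, mul_comm (t g), mul_assoc, mul_smul, htm g hg,
            smul_zero]
        | zero => simp
        | add a b _ _ ha hb => rw [mul_add, add_smul, ha, hb, add_zero]
        | smul c a _ ha => rw [smul_eq_mul, mul_left_comm, mul_smul, ha, smul_zero]
    have h1 : ∃ n : ℕ, ∃ t ∉ p, ∀ x ∈ p ^ n, (t * x) • m = 0 := by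
      have hrad := IsLocalization.AtPrime.radical_map_of_mem_minimalPrimes
        (Localization.AtPrime p) p I hm
      have hle : p.map (algebraMap R (Localization.AtPrime p)) ≤
          (I.map (algebraMap R (Localization.AtPrime p))).radical := by rw [hrad]
      obtain ⟨n, hn⟩ := Ideal.exists_pow_le_of_le_radical_of_fg hle (hp.map _)
      obtain ⟨s, hs⟩ := Ideal.FG.pow (n := n) hp
      refine ⟨n, ?_⟩
      rw [← hs]
      refine huni s fun x hxs => ?_
      have hx : x ∈ p ^ n := hs ▸ Submodule.subset_span hxs
      have hx' : algebraMap R (Localization.AtPrime p) x ∈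
          I.map (algebraMap R (Localization.AtPrime p)) := by
        apply hn
        rw [← Ideal.map_pow]
        exact Ideal.mem_map_of_mem _ hx
      rw [IsLocalization.mem_map_algebraMap_iff p.primeCompl] at hx'
      obtain ⟨⟨⟨i, hi⟩, s'⟩, hs'⟩ := hx'
      simp only at hs'
      rw [← map_mul] at hs'
      obtain ⟨c, hc⟩ := IsLocalization.exists_of_eq (M := p.primeCompl) hs'
      refine ⟨c * s', fun h => ?_, ?_⟩
      · rcases Ideal.IsPrime.mem_or_mem ‹_› h with h | h
        · exact c.2 h
        · exact s'.2 h
      · have : (c : R) * s' * x = c * i := by rw [← hc]; ring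
        rw [this, ← hmemI]
        exact I.mul_mem_left _ hi
    let n0 := Nat.find h1
    have hn0 : ∃ t ∉ p, ∀ x ∈ p ^ n0, (t * x) • m = 0 := Nat.find_spec h1
    have hn0pos : n0 ≠ 0 := by
      intro h0
      obtain ⟨t, ht, htm⟩ := hn0
      rw [h0, pow_zero, Ideal.one_eq_top] at htm
      have := htm 1 Submodule.mem_top
      rw [mul_one, ← hmemI] at this
      exact ht (hm.1.2 this)
    obtain ⟨k, hk⟩ : ∃ k, n0 = k + 1 := Nat.exists_eq_succ_of_ne_zero hn0pos
    have hmin : ¬ ∃ t ∉ p, ∀ x ∈ p ^ k, (t * x) • m = 0 := Nat.find_min h1 (by omega)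
    obtain ⟨s, hs⟩ := Ideal.FG.pow (n := k) hp
    have hg : ∃ g ∈ s, ∀ t ∉ p, (t * g) • m ≠ 0 := by
      by_contra hcon
      push Not at hcon
      apply hmin
      rw [← hs]
      exact huni s hcon
    obtain ⟨g, hgs, hgm⟩ := hg
    have hgk : g ∈ p ^ k := hs ▸ Submodule.subset_span hgs
    obtain ⟨t0, ht0, ht0m⟩ := hn0
    refine ⟨‹_›, (t0 * g) • m, ?_⟩
    ext y
    rw [Submodule.mem_annihilator_span_singleton]
    constructor
    · intro hy
      have hyg : y * g ∈ p ^ n0 := by rw [hk, pow_succ']; exact Ideal.mul_mem_mul hy hgk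
      have := ht0m _ hyg
      rw [smul_smul]
      rw [show y * (t0 * g) = t0 * (y * g) by ring]
      exact this
    · intro hy
      by_contra hyp
      rw [smul_smul] at hy
      apply hgm (y * t0) (fun h => (Ideal.IsPrime.mem_or_mem ‹_› h).elim hyp ht0)
      rw [show y * t0 * g = y * (t0 * g) by ring]
      exact hy

end Groth.Agent.S9586
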