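import Groth.Statements.S9588
import Mathlib
-- import your own Groth.Agent.* helpers here

set_option autoImplicit false
universe u
open CAlg

namespace Groth.Agent.S9588

/-- For a ring R, an R-module M and a multiplicative subset S of R, the primes of R weakly associated to
S⁻¹M regarded as an R-module are exactly the inverse images under R → S⁻¹R of the primes of S⁻¹R
weakly associated to S⁻¹M. -/
theorem result {R : Type u} [CommRing R] (S : Submonoid R) (M : Type u) [AddCommGroup M] [Module R M] :
    FlatCA.weakAss R (LocalizedModule S M) = Ideal.comap (algebraMap R (Localization S)) '' FlatCA.weakAss (Localization S) (LocalizedModule S M) := by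
  classical
  have hann : ∀ x : LocalizedModule S M,
      (Submodule.span R {x}).annihilator = Ideal.comap (algebraMap R (Localization S))
        (Submodule.span (Localization S) {x}).annihilator := by
    intro x; ext r
    rw [Ideal.mem_comap, Submodule.mem_annihilator_span_singleton,
      Submodule.mem_annihilator_span_singleton, algebraMap_smul]
  ext p
  constructor
  · rintro ⟨x, hx⟩
    rw [hann x, IsLocalization.minimalPrimes_comap S] at hx
    obtain ⟨q, hq, rfl⟩ := hx
    exact ⟨q, ⟨x, hq⟩, rfl⟩
  · rintro ⟨q, ⟨x, hq⟩, rfl⟩
    refine ⟨x, ?_⟩
    rw [hann x, IsLocalization.minimalPrimes_comap S]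
    exact ⟨q, hq, rfl⟩

end Groth.Agent.S9588
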