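import Groth.Statements.S9589
import Groth.Agent.S9588
import Groth.Agent.Lib.Helper14.WeakAss
-- import your own Groth.Agent.* helpers here

set_option autoImplicit false
universe u
open CAlg

namespace Groth.Agent.S9589

/-- For a ring R, an R-module M, a multiplicative subset S of R and a prime p of R not meeting S, p is
weakly associated to M if and only if the extended prime p S⁻¹R is weakly associated to the
S⁻¹R-module S⁻¹M. -/
theorem result {R : Type u} [CommRing R] (S : Submonoid R) (M : Type u) [AddCommGroup M] [Module R M] (p : Ideal R) [p.IsPrime] (hS : Disjoint (S : Set R) (p : Set R)) :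
    p ∈ FlatCA.weakAss R M ↔ Ideal.map (algebraMap R (Localization S)) p ∈ FlatCA.weakAss (Localization S) (LocalizedModule S M) := by
  classical
  rw [Groth.Agent.Lib.Helper14.mem_weakAss_iff_mem_weakAss_localizedModule S M p hS,
    Groth.Agent.S9588.result S M]
  constructor
  · rintro ⟨Q, hQ, rfl⟩
    rw [IsLocalization.map_under S (Localization S) Q]
    exact hQ
  · intro h
    exact ⟨_, h, IsLocalization.under_map_of_isPrime_disjoint S (Localization S) ‹_› hS⟩

end Groth.Agent.S9589
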