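import Groth.Statements.S9590
-- import your own Groth.Agent.* helpers here

set_option autoImplicit false
universe u
open CAlg

namespace Groth.Agent.S9590

/-- For a ring R, an R-module M and a multiplicative subset S of R such that every element of S is a
nonzerodivisor on M, the primes of R weakly associated to M are the same as those weakly associated
to the R-module S⁻¹M. -/
theorem result {R : Type u} [CommRing R] (S : Submonoid R) (M : Type u) [AddCommGroup M] [Module R M] (hS : ∀ s ∈ S, IsSMulRegular M s) :
    FlatCA.weakAss R M = FlatCA.weakAss R (LocalizedModule S M) := by
  classical
  have key : ∀ (m : M) (s : S), (Submodule.span R {LocalizedModule.mk m s}).annihilator =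
      (Submodule.span R {m}).annihilator := by
    intro m s
    ext r
    rw [Submodule.mem_annihilator_span_singleton, Submodule.mem_annihilator_span_singleton,
      LocalizedModule.smul'_mk]
    constructor
    · intro h
      rw [← LocalizedModule.zero_mk s, LocalizedModule.mk_eq] at h
      obtain ⟨u, hu⟩ := h
      rw [smul_zero, smul_zero] at hu
      have hreg := hS (u * s : S) (u * s).2
      apply hreg
      simp only [Submonoid.smul_def] at hu
      simp only [Submonoid.coe_mul, smul_zero]
      rw [mul_smul]
      exact hu
    · intro h; rw [h, LocalizedModule.zero_mk]
  ext p
  constructor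
  · rintro ⟨m, hm⟩
    exact ⟨LocalizedModule.mk m 1, by rw [key]; exact hm⟩
  · rintro ⟨x, hx⟩
    induction x using LocalizedModule.induction_on with
    | h m s => exact ⟨m, by rw [← key m s]; exact hx⟩

end Groth.Agent.S9590
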