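import Groth.Statements.S9591
-- import your own Groth.Agent.* helpers here

set_option autoImplicit false
universe u
open CAlg

namespace Groth.Agent.S9591

/-- For a ring R and an R-module M, the map from M to the product of the localizations M_p over all
primes p weakly associated to M is injective: an element vanishing in every such M_p is zero. -/
theorem result {R : Type u} [CommRing R] {M : Type u} [AddCommGroup M] [Module R M] (x : M) (hx : ∀ (p : Ideal R) [p.IsPrime], p ∈ FlatCA.weakAss R M → LocalizedModule.mkLinearMap p.primeCompl M x = 0) :
    x = 0 := by
  classical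
  by_contra hne
  set I := (Submodule.span R {x}).annihilator with hI
  have hItop : I ≠ ⊤ := by
    intro h
    apply hne
    have : (1 : R) ∈ I := by rw [h]; exact Submodule.mem_top
    rw [hI, Submodule.mem_annihilator_span_singleton, one_smul] at this
    exact this
  obtain ⟨p, hp⟩ := Ideal.nonempty_minimalPrimes hItop
  have : p.IsPrime := hp.1.1
  have h1 := hx p ⟨x, hp⟩
  rw [LocalizedModule.mkLinearMap_apply, ← LocalizedModule.zero_mk 1, LocalizedModule.mk_eq] at h1
  obtain ⟨u, hu⟩ := h1
  simp only [one_smul, smul_zero] at hu
  have hu' : (u : R) ∈ I := by
    rw [hI, Submodule.mem_annihilator_span_singleton]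
    exact hu
  exact u.2 (hp.1.2 hu')

end Groth.Agent.S9591
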