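import Groth.Statements.S9593
-- import your own Groth.Agent.* helpers here

set_option autoImplicit false
universe u
open CAlg

namespace Groth.Agent.S9593

/-- For a ring map R → S and an S-module M, the inverse image in R of an associated prime of M over S (a
prime of S equal to the annihilator of some element of M) is an associated prime of M over R. -/
theorem result {R S : Type u} [CommRing R] [CommRing S] [Algebra R S] (M : Type u) [AddCommGroup M] [Module S M] [Module R M] [IsScalarTower R S M] :
    Ideal.comap (algebraMap R S) '' FlatCA.ass S M ⊆ FlatCA.ass R M := by
  rintro _ ⟨p, ⟨hp, m, rfl⟩, rfl⟩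
  refine ⟨Ideal.comap_isPrime _ _, m, ?_⟩
  ext r
  rw [Ideal.mem_comap, Submodule.mem_annihilator_span_singleton,
    Submodule.mem_annihilator_span_singleton, algebraMap_smul]

end Groth.Agent.S9593
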