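import Groth.Statements.S9594
-- import your own Groth.Agent.* helpers here

set_option autoImplicit false
universe u
open CAlg

namespace Groth.Agent.S9594

/-- For a ring R, an R-module M and a multiplicative subset S of R, (1) the primes of R associated to
the R-module S⁻¹M are the inverse images of the primes of S⁻¹R associated to S⁻¹M, and (2) a prime
of R associated to M which does not meet S is associated to the R-module S⁻¹M. Here a prime is
associated to a module when it equals the annihilator of some element. -/
theorem result {R : Type u} [CommRing R] (S : Submonoid R) (M : Type u) [AddCommGroup M] [Module R M] :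
    FlatCA.ass R (LocalizedModule S M) = Ideal.comap (algebraMap R (Localization S)) '' FlatCA.ass (Localization S) (LocalizedModule S M) ∧
      ∀ p ∈ FlatCA.ass R M, Disjoint (S : Set R) (p : Set R) → p ∈ FlatCA.ass R (LocalizedModule S M) := by
  classical
  have hann : ∀ x : LocalizedModule S M, Ideal.comap (algebraMap R (Localization S))
      (Submodule.span (Localization S) {x}).annihilator = (Submodule.span R {x}).annihilator := by
    intro x; ext r
    rw [Ideal.mem_comap, Submodule.mem_annihilator_span_singleton,
      Submodule.mem_annihilator_span_singleton, algebraMap_smul]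
  refine ⟨?_, ?_⟩
  · ext p
    constructor
    · rintro ⟨hp, x, rfl⟩
      refine ⟨(Submodule.span (Localization S) {x}).annihilator, ⟨?_, x, rfl⟩, hann x⟩
      rw [IsLocalization.isPrime_iff_isPrime_disjoint S (Localization S), Ideal.under_def, hann x]
      refine ⟨hp, ?_⟩
      rw [Set.disjoint_left]
      intro s hs hsx
      rw [SetLike.mem_coe, Submodule.mem_annihilator_span_singleton] at hsx
      apply hp.ne_top
      rw [eq_top_iff]; intro r _
      rw [Submodule.mem_annihilator_span_singleton]
      have hx0 : x = 0 := by
        obtain ⟨v, hv⟩ := IsLocalization.map_units (Localization S) (⟨s, hs⟩ : S)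
        have e2 : (algebraMap R (Localization S) s) • x = 0 := by rw [algebraMap_smul]; exact hsx
        calc x = ((v⁻¹ : (Localization S)ˣ) : Localization S) • ((v : Localization S) • x) := by
              rw [smul_smul, Units.inv_mul, one_smul]
          _ = 0 := by
              rw [hv]
              simp only [e2, smul_zero]
      rw [hx0, smul_zero]
    · rintro ⟨q, ⟨hq, x, rfl⟩, rfl⟩
      exact ⟨Ideal.comap_isPrime _ _, x, hann x⟩
  · rintro p ⟨hp, m, rfl⟩ hdisj
    refine ⟨hp, LocalizedModule.mk m 1, ?_⟩
    ext r
    rw [Submodule.mem_annihilator_span_singleton, Submodule.mem_annihilator_span_singleton,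
      LocalizedModule.smul'_mk]
    constructor
    · intro h; rw [h, LocalizedModule.zero_mk]
    · intro h
      rw [← LocalizedModule.zero_mk 1, LocalizedModule.mk_eq] at h
      obtain ⟨u, hu⟩ := h
      simp only [one_smul, smul_zero, Submonoid.smul_def] at hu
      have : (u : R) * r ∈ (Submodule.span R {m}).annihilator := by
        rw [Submodule.mem_annihilator_span_singleton, mul_smul]; exact hu
      rcases hp.mem_or_mem this with h1 | h1
      · exact absurd h1 (Set.disjoint_left.mp hdisj u.2)
      · rw [Submodule.mem_annihilator_span_singleton] at h1; exact h1

end Groth.Agent.S9594
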