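import Groth.Statements.S9596
import Mathlib.RingTheory.Ideal.AssociatedPrime.Localization
import Mathlib.RingTheory.Localization.AtPrime.Basic
import Mathlib.RingTheory.Noetherian.Basic
-- import your own Groth.Agent.* helpers here

set_option autoImplicit false
universe u
open CAlg

namespace Groth.Agent.S9596

/-- For a Noetherian ring R and any R-module M, a prime which is minimal among the primes in the support
of M is an associated prime of M. -/
theorem result {R : Type u} [CommRing R] [IsNoetherianRing R] (M : Type u) [AddCommGroup M] [Module R M] (p : PrimeSpectrum R) (hp : Minimal (fun q : PrimeSpectrum R => q ∈ Module.support R M) p) :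
    p.asIdeal ∈ associatedPrimes R M := by
  classical
  have hsupp : p ∈ Module.support R M := hp.prop
  have : Nontrivial (LocalizedModule p.asIdeal.primeCompl M) := hsupp
  obtain ⟨q, hq⟩ := associatedPrimes.nonempty (Localization.AtPrime p.asIdeal)
    (LocalizedModule p.asIdeal.primeCompl M)
  have hqprime : q.IsPrime := hq.isPrime
  have hq' : q.comap (algebraMap R (Localization.AtPrime p.asIdeal)) ∈ associatedPrimes R M := by
    have := Module.associatedPrimes.preimage_comap_associatedPrimes_eq_associatedPrimes_of_isLocalizedModule
      p.asIdeal.primeCompl (Localization.AtPrime p.asIdeal)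
      (LocalizedModule.mkLinearMap p.asIdeal.primeCompl M)
    rw [← this] at hq
    exact hq
  set P := q.comap (algebraMap R (Localization.AtPrime p.asIdeal)) with hP
  have hPprime : P.IsPrime := hq'.isPrime
  have hle : P ≤ p.asIdeal := by
    have := (IsLocalization.disjoint_under_iff p.asIdeal.primeCompl
      (Localization.AtPrime p.asIdeal) q).mpr hqprime.ne_top
    intro x hx
    by_contra hxp
    exact Set.disjoint_left.mp this hxp hx
  -- associated primes lie in the support
  have hPsupp : (⟨P, hPprime⟩ : PrimeSpectrum R) ∈ Module.support R M := by
    obtain ⟨_, x, hx⟩ := (isAssociatedPrime_iff (I := P) (M := M)).mp hq'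
    rw [Module.mem_support_iff']
    refine ⟨x, fun r hr hrx => hr ?_⟩
    show r ∈ P
    rw [hx, Submodule.mem_colon_singleton, Submodule.mem_bot]
    exact hrx
  have := hp.2 hPsupp hle
  have heq : p.asIdeal = P := le_antisymm this hle
  rw [heq]
  exact hq'

end Groth.Agent.S9596
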