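import Groth.Statements.S9597
import Mathlib.RingTheory.Noetherian.Orzech
import Mathlib.RingTheory.Ideal.Quotient.Noetherian
-- import your own Groth.Agent.* helpers here

set_option autoImplicit false
universe u
open CAlg

namespace Groth.Agent.S9597

/-- Let R be a Noetherian ring, M a finite R-module whose associated primes are pairwise incomparable
under inclusion (M has no embedded associated primes), and I the annihilator of M. Then the
associated primes of R/I, viewed as a module over itself, are again pairwise incomparable: R/I has
no embedded primes either. -/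
theorem result {R : Type u} [CommRing R] [IsNoetherianRing R] (M : Type u) [AddCommGroup M] [Module R M] [Module.Finite R M] (hM : ∀ p ∈ associatedPrimes R M, ∀ q ∈ associatedPrimes R M, p ≤ q → p = q) :
    ∀ p ∈ associatedPrimes (R ⧸ Module.annihilator R M) (R ⧸ Module.annihilator R M), ∀ q ∈ associatedPrimes (R ⧸ Module.annihilator R M) (R ⧸ Module.annihilator R M), p ≤ q → p = q := by
  classical
  set I := Module.annihilator R M with hI
  obtain ⟨s, hs⟩ := Module.Finite.fg_top (R := R) (M := M)
  have hmk : Function.Surjective (Ideal.Quotient.mk I) := Ideal.Quotient.mk_surjective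
  -- key lemma
  have L : ∀ p ∈ associatedPrimes (R ⧸ I) (R ⧸ I),
      p.comap (Ideal.Quotient.mk I) ∈ associatedPrimes R M := by
    intro p hp
    obtain ⟨hpp, xb, hx⟩ := (isAssociatedPrime_iff (I := p) (M := R ⧸ I)).mp hp
    obtain ⟨x, rfl⟩ := hmk xb
    have hPprime : (p.comap (Ideal.Quotient.mk I)).IsPrime := Ideal.comap_isPrime _ _
    have heq : p.comap (Ideal.Quotient.mk I) =
        s.inf (fun m => (⊥ : Submodule R M).colon {x • m}) := by
      ext r
      rw [Ideal.mem_comap, hx, Submodule.mem_colon_singleton, Submodule.mem_bot,
        smul_eq_mul, ← map_mul, Ideal.Quotient.eq_zero_iff_mem, Submodule.mem_finsetInf]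
      simp only [Submodule.mem_colon_singleton, Submodule.mem_bot]
      constructor
      · intro h m _
        rw [smul_smul]
        exact Module.mem_annihilator.mp h m
      · intro h
        rw [Module.mem_annihilator]
        intro m
        have hm : m ∈ Submodule.span R (s : Set M) := by rw [hs]; trivial
        induction hm using Submodule.span_induction with
        | mem z hz => rw [← smul_smul]; exact h z hz
        | zero => exact smul_zero _
        | add z w _ _ hz hw => rw [smul_add, hz, hw, add_zero]
        | smul a z _ hz => rw [smul_comm, hz, smul_zero]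
    rw [heq] at hPprime ⊢
    obtain ⟨m, -, hm⟩ := Ideal.eq_inf_of_isPrime_inf hPprime
    rw [← hm] at hPprime ⊢
    exact (isAssociatedPrime_iff (M := M)).mpr ⟨hPprime, x • m, rfl⟩
  intro p hp q hq hpq
  have h1 := L p hp
  have h2 := L q hq
  have := hM _ h1 _ h2 (Ideal.comap_mono hpq)
  exact Ideal.comap_injective_of_surjective _ hmk this

end Groth.Agent.S9597
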