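import Groth.Statements.S9598
import Mathlib.RingTheory.Jacobson.Ring
import Mathlib.RingTheory.Ideal.AssociatedPrime.Finiteness
import Mathlib.RingTheory.Noetherian.Basic
-- import your own Groth.Agent.* helpers here

set_option autoImplicit false
universe u
open CAlg

namespace Groth.Agent.S9598

/-- For a field k and a finite type k-algebra S with dim S > 0, some element of S is a nonzerodivisor
and a nonunit. -/
theorem result {k S : Type u} [Field k] [CommRing S] [Algebra k S] [Algebra.FiniteType k S] (hdim : 0 < ringKrullDim S) :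
    ∃ f : S, f ∈ nonZeroDivisors S ∧ ¬ IsUnit f := by
  classical
  have hN : IsNoetherianRing S := Algebra.FiniteType.isNoetherianRing k S
  have hJ : IsJacobsonRing S := isJacobsonRing_of_finiteType (A := k)
  obtain ⟨p, q, hpq⟩ := Order.krullDim_pos_iff.mp hdim
  have hpmax : ¬ p.asIdeal.IsMaximal := by
    intro hmax
    exact hpq.ne (PrimeSpectrum.ext (hmax.eq_of_le q.isPrime.ne_top hpq.le))
  set A := associatedPrimes S S with hA
  have hAfin : A.Finite := associatedPrimes.finite S S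
  -- some maximal ideal is not associated
  have hex : ∃ m : Ideal S, m.IsMaximal ∧ m ∉ A := by
    by_contra hcon
    push Not at hcon
    have hchoose : ∀ P : Ideal S, ∃ g : S,
        (p.asIdeal ≤ P → P ≠ p.asIdeal → g ∈ P ∧ g ∉ p.asIdeal) ∧ (P = p.asIdeal → g = 1) := by
      intro P
      by_cases hP : p.asIdeal ≤ P ∧ P ≠ p.asIdeal
      · obtain ⟨g, hg1, hg2⟩ := SetLike.exists_of_lt (lt_of_le_of_ne hP.1 (Ne.symm hP.2))
        exact ⟨g, fun _ _ => ⟨hg1, hg2⟩, fun h => absurd h hP.2⟩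
      · exact ⟨1, fun h1 h2 => absurd ⟨h1, h2⟩ hP, fun _ => rfl⟩
    choose g hg1 hg2 using hchoose
    let G : S := ∏ P ∈ hAfin.toFinset.filter (fun P => p.asIdeal ≤ P), g P
    have hGp : G ∉ p.asIdeal := by
      intro hG
      obtain ⟨P, hP, hgP⟩ := (Ideal.IsPrime.prod_mem_iff (hp := p.isPrime)).mp hG
      rw [Finset.mem_filter] at hP
      by_cases hPp : P = p.asIdeal
      · rw [hg2 P hPp] at hgP
        exact p.isPrime.ne_top ((Ideal.eq_top_iff_one _).mpr hgP)
      · exact (hg1 P hP.2 hPp).2 hgP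
    have hjac : p.asIdeal.jacobson = p.asIdeal := IsJacobsonRing.out hJ p.isPrime.isRadical
    have : G ∉ p.asIdeal.jacobson := by rw [hjac]; exact hGp
    rw [Ideal.jacobson, Submodule.mem_sInf] at this
    push Not at this
    obtain ⟨m, ⟨hpm, hm⟩, hGm⟩ := this
    have hmA : m ∈ A := hcon m hm
    have hmF : m ∈ hAfin.toFinset.filter (fun P => p.asIdeal ≤ P) :=
      Finset.mem_filter.mpr ⟨hAfin.mem_toFinset.mpr hmA, hpm⟩
    by_cases hmp : m = p.asIdeal
    · exact hpmax (hmp ▸ hm)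
    · exact hGm (Ideal.mem_of_dvd _ (Finset.dvd_prod_of_mem _ hmF) (hg1 m hpm hmp).1)
  obtain ⟨m, hm, hmA⟩ := hex
  -- prime avoidance
  have hnot : ¬ ((m : Set S) ⊆ ⋃ P ∈ (↑hAfin.toFinset : Set (Ideal S)), (P : Set S)) := by
    refine (Ideal.subset_union_prime (f := fun P : Ideal S => P) ⊥ ⊥
      (fun P hP _ _ => (hAfin.mem_toFinset.mp hP).isPrime)).not.mpr ?_
    rintro ⟨P, hP, hmP⟩
    have hPA : P ∈ A := hAfin.mem_toFinset.mp hP
    have : m = P := hm.eq_of_le hPA.isPrime.ne_top hmP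
    exact hmA (this ▸ hPA)
  rw [Set.not_subset] at hnot
  obtain ⟨x, hxm, hxA⟩ := hnot
  refine ⟨x, ?_, fun hu => hm.ne_top (Ideal.eq_top_of_isUnit_mem _ hxm hu)⟩
  have hzd := biUnion_associatedPrimes_eq_compl_nonZeroDivisors S
  by_contra hx
  have : x ∈ ⋃ P ∈ associatedPrimes S S, (P : Set S) := by
    rw [hzd]; exact hx
  apply hxA
  simp only [Set.mem_iUnion, Set.Finite.coe_toFinset] at this ⊢
  exact this

end Groth.Agent.S9598
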