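import Groth.Statements.S9601
-- import your own Groth.Agent.* helpers here

set_option autoImplicit false
universe u
open CAlg

namespace Groth.Agent.S9601

/-- For a ring R, an ideal I of R and an R-module M, let M^ be the I-adic completion and K_n the kernel
of the projection M^ → M/IⁿM. The completion M^ is I-adically complete exactly when K_n = Iⁿ M^
holds for every n ≥ 1. -/
theorem result {R : Type u} [CommRing R] (I : Ideal R) (M : Type u) [AddCommGroup M] [Module R M] :
    IsAdicComplete I (AdicCompletion I M) ↔ ∀ n : ℕ, 1 ≤ n → LinearMap.ker (AdicCompletion.eval I M n) = I ^ n • (⊤ : Submodule R (AdicCompletion I M)) := by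
  constructor
  · intro hc n _hn
    apply le_antisymm
    · intro x hx
      rw [LinearMap.mem_ker, AdicCompletion.eval_apply] at hx
      -- lifts of the components of x
      have hy : ∀ k, ∃ y : M, Submodule.mkQ (I ^ k • ⊤ : Submodule R M) y = x.val k :=
        fun k => Submodule.mkQ_surjective _ (x.val k)
      choose y hy using hy
      let m : ℕ → M := fun k => y (max k n)
      have hm1 : ∀ k, Submodule.mkQ (I ^ k • ⊤ : Submodule R M) (m k) = x.val k := by
        intro k
        have h1 := x.property (le_max_left k n)
        rw [← h1, ← hy (max k n)]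
        rfl
      have hm2 : ∀ k, m k ∈ (I ^ n • ⊤ : Submodule R M) := by
        intro k
        have h1 := x.property (le_max_right k n)
        rw [hx, ← hy (max k n)] at h1
        have h2 : Submodule.mkQ (I ^ n • ⊤ : Submodule R M) (y (max k n)) = 0 := h1
        rwa [Submodule.mkQ_apply, Submodule.Quotient.mk_eq_zero] at h2
      have hofle : ∀ j, ∀ z ∈ (I ^ j • ⊤ : Submodule R M),
          AdicCompletion.of I M z ∈ (I ^ j • ⊤ : Submodule R (AdicCompletion I M)) :=
        fun j z hz => Submodule.smul_top_le_comap_smul_top (I ^ j) (AdicCompletion.of I M) hz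
      obtain ⟨L, hL⟩ := hc.toIsPrecomplete.prec (f := fun k => AdicCompletion.of I M (m k)) (by
        intro a b hab
        rw [SModEq.sub_mem, ← map_sub]
        apply hofle
        have h1 : Submodule.mkQ (I ^ a • ⊤ : Submodule R M) (m a) =
            Submodule.mkQ (I ^ a • ⊤ : Submodule R M) (m b) := by
          rw [hm1 a, ← x.property hab, ← hm1 b]
          rfl
        rwa [Submodule.mkQ_apply, Submodule.mkQ_apply, Submodule.Quotient.eq] at h1)
      have hLx : L = x := by
        ext k
        have h1 := hL k
        rw [SModEq.sub_mem] at h1
        have h2 := AdicCompletion.pow_smul_top_le_ker_eval I k h1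
        rw [LinearMap.mem_ker, map_sub, sub_eq_zero, AdicCompletion.eval_apply,
          AdicCompletion.eval_apply, AdicCompletion.of_apply, hm1 k] at h2
        exact h2.symm
      have h1 := hL n
      rw [hLx, SModEq.sub_mem] at h1
      have h3 := hofle n (m n) (hm2 n)
      have h4 := Submodule.sub_mem _ h3 h1
      simpa using h4
    · exact AdicCompletion.pow_smul_top_le_ker_eval I n
  · intro hK
    have hK' : ∀ n : ℕ, (I ^ n • ⊤ : Submodule R (AdicCompletion I M)) =
        LinearMap.ker (AdicCompletion.eval I M n) := by
      intro n
      rcases Nat.eq_zero_or_pos n with rfl | hn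
      · apply le_antisymm (AdicCompletion.pow_smul_top_le_ker_eval I 0)
        intro z _
        rw [pow_zero, Ideal.one_eq_top, Submodule.top_smul]
        trivial
      · exact (hK n hn).symm
    refine { toIsHausdorff := inferInstance, toIsPrecomplete := ⟨?_⟩ }
    intro x hx
    let L : AdicCompletion I M := {
      val i := (x i).val i
      property {m n} h' := by
        simp only [AdicCompletion.transitionMap_comp_eval_apply]
        specialize hx h'
        rwa [SModEq.sub_mem, hK' m, LinearMap.mem_ker, _root_.map_sub,
          sub_eq_zero, AdicCompletion.eval_apply, AdicCompletion.eval_apply, eq_comm] at hx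
    }
    use L; intro i
    rw [SModEq.sub_mem, hK' i, LinearMap.mem_ker, map_sub, sub_eq_zero]
    rfl

end Groth.Agent.S9601
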