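import Groth.Statements.S9602
import Mathlib.RingTheory.Nilpotent.Basic
-- import your own Groth.Agent.* helpers here

set_option autoImplicit false
universe u
open CAlg

namespace Groth.Agent.S9602

theorem isUnit_of_val {R : Type u} [CommRing R] (I : Ideal R) (x : AdicCompletion I R)
    (h : ∀ n, IsUnit (x.val n)) : IsUnit x := by
  let y : ∀ n, R ⧸ (I ^ n • ⊤ : Ideal R) := fun n => (((h n).unit⁻¹ : (R ⧸ (I ^ n • ⊤ : Ideal R))ˣ) :
    R ⧸ (I ^ n • ⊤ : Ideal R))
  have hy : ∀ n, x.val n * y n = 1 := fun n => (h n).mul_val_inv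
  have hprop : ∀ {m n : ℕ} (hmn : m ≤ n), AdicCompletion.transitionMap I R hmn (y n) = y m := by
    intro m n hmn
    have h1 : x.val m * AdicCompletion.transitionMap I R hmn (y n) = 1 := by
      rw [← x.property hmn, ← AdicCompletion.transitionMap_map_mul, hy n]
      rfl
    calc AdicCompletion.transitionMap I R hmn (y n)
        = y m * (x.val m * AdicCompletion.transitionMap I R hmn (y n)) := by
          rw [← mul_assoc, mul_comm (y m), hy m, one_mul]
      _ = y m := by rw [h1, mul_one]
  let yc : AdicCompletion I R := ⟨y, fun {m n} hmn => hprop hmn⟩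
  refine IsUnit.of_mul_eq_one (a := x) yc ?_
  ext n
  rw [AdicCompletion.val_mul, AdicCompletion.val_one]
  exact hy n

theorem isUnit_one_sub {R : Type u} [CommRing R] (I : Ideal R) (z : AdicCompletion I R)
    (hz : AdicCompletion.evalOneₐ I z = 0) : IsUnit (1 - z) := by
  apply isUnit_of_val
  intro n
  have hnil : IsNilpotent (z.val n) := by
    obtain ⟨t, ht⟩ := Ideal.Quotient.mk_surjective (z.val (n + 1))
    have h1 : z.val 1 = (AdicCompletion.of I R t).val 1 := by
      rw [← z.property (show 1 ≤ n + 1 by omega), ← ht]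
      rfl
    have h2 : AdicCompletion.evalOneₐ I z = AdicCompletion.evalOneₐ I (AdicCompletion.of I R t) := by
      show Ideal.Quotient.factor (show I ^ 1 ≤ I by simp) (AdicCompletion.evalₐ I 1 z) =
        Ideal.Quotient.factor (show I ^ 1 ≤ I by simp) (AdicCompletion.evalₐ I 1 (AdicCompletion.of I R t))
      have hle : (I ^ 1 • ⊤ : Ideal R) ≤ I ^ 1 := by rw [Ideal.smul_eq_mul, Ideal.mul_top]
      rw [← AdicCompletion.factor_eval_eq_evalₐ I z hle,
        ← AdicCompletion.factor_eval_eq_evalₐ I (AdicCompletion.of I R t) hle]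
      congr 2
    rw [hz, AdicCompletion.evalOneₐ_of] at h2
    have htI : t ∈ I := Ideal.Quotient.eq_zero_iff_mem.mp h2.symm
    refine ⟨n + 1, ?_⟩
    have h3 : z.val n = Ideal.Quotient.mk (I ^ n • ⊤ : Ideal R) t := by
      rw [← z.property (show n ≤ n + 1 by omega), ← ht]
      rfl
    rw [h3, ← map_pow, Ideal.Quotient.eq_zero_iff_mem]
    have h4 : I ^ (n + 1) ≤ (I ^ n • ⊤ : Ideal R) := by
      rw [Ideal.smul_eq_mul, Ideal.mul_top]
      exact Ideal.pow_le_pow_right (by omega)
    exact h4 (Ideal.pow_mem_pow htI _)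
  have : (1 - z).val n = 1 - z.val n := rfl
  rw [this]
  exact IsNilpotent.isUnit_one_sub hnil

/-- Let R be a ring, I an ideal of R and R^ = lim R/Iⁿ the I-adic completion. An element of R^ whose
image in R/I is invertible is itself invertible in R^; and the kernel of R^ → R/I as well as the
extended ideal I R^ both lie inside the Jacobson radical of R^. -/
theorem result {R : Type u} [CommRing R] (I : Ideal R) :
    (∀ x : AdicCompletion I R, IsUnit (AdicCompletion.evalOneₐ I x) → IsUnit x) ∧
      RingHom.ker (AdicCompletion.evalOneₐ I).toRingHom ≤ (⊥ : Ideal (AdicCompletion I R)).jacobson ∧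
      I.map (algebraMap R (AdicCompletion I R)) ≤ (⊥ : Ideal (AdicCompletion I R)).jacobson := by
  have hker : ∀ z ∈ RingHom.ker (AdicCompletion.evalOneₐ I).toRingHom,
      z ∈ (⊥ : Ideal (AdicCompletion I R)).jacobson := by
    intro z hz
    rw [Ideal.mem_jacobson_bot]
    intro y
    have hz' : AdicCompletion.evalOneₐ I (-(z * y)) = 0 := by
      rw [RingHom.mem_ker] at hz
      rw [map_neg, map_mul]
      change -((AdicCompletion.evalOneₐ I).toRingHom z * _) = 0
      rw [hz, zero_mul, neg_zero]
    have := isUnit_one_sub I (-(z * y)) hz'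
    rwa [sub_neg_eq_add, add_comm] at this
  refine ⟨?_, hker, ?_⟩
  · intro x hx
    obtain ⟨r, hr⟩ := Ideal.Quotient.mk_surjective (hx.unit⁻¹ : (R ⧸ I)ˣ).val
    have h1 : AdicCompletion.evalOneₐ I (1 - x * algebraMap R (AdicCompletion I R) r) = 0 := by
      rw [map_sub, map_one, map_mul, AlgHom.commutes, Ideal.Quotient.algebraMap_eq, hr]
      rw [IsUnit.mul_val_inv, sub_self]
    have h2 := isUnit_one_sub I _ h1
    rw [sub_sub_cancel] at h2
    exact isUnit_of_mul_isUnit_left h2
  · have hle : I.map (algebraMap R (AdicCompletion I R)) ≤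
        RingHom.ker (AdicCompletion.evalOneₐ I).toRingHom := by
      apply Ideal.map_le_iff_le_comap.mpr
      intro r hr
      rw [Ideal.mem_comap, RingHom.mem_ker]
      change AdicCompletion.evalOneₐ I (AdicCompletion.of I R r) = 0
      rw [AdicCompletion.evalOneₐ_of]
      exact Ideal.Quotient.eq_zero_iff_mem.mpr hr
    exact fun a ha => hker a (hle ha)

end Groth.Agent.S9602
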