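import Groth.Statements.S9605
import Mathlib.RingTheory.AdicCompletion.Exactness
-- import your own Groth.Agent.* helpers here

set_option autoImplicit false
universe u
open CAlg

namespace Groth.Agent.S9605

/-- For a ring R, an ideal I of R, an I-adically complete R-module M and a submodule K of M, the
quotient M/K is I-adically complete if and only if K = ⋂ₙ (K + IⁿM). -/
theorem result {R : Type u} [CommRing R] (I : Ideal R) (M : Type u) [AddCommGroup M] [Module R M] [IsAdicComplete I M] (K : Submodule R M) :
    IsAdicComplete I (M ⧸ K) ↔ K = ⨅ n : ℕ, K ⊔ I ^ n • (⊤ : Submodule R M) := by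
  have hcomap : ∀ n : ℕ, Submodule.comap K.mkQ (I ^ n • ⊤ : Submodule R (M ⧸ K)) =
      (I ^ n • ⊤ : Submodule R M) ⊔ K := by
    intro n
    rw [Submodule.comap_smul_top_of_surjective (I ^ n) K.mkQ (Submodule.mkQ_surjective K),
      Submodule.ker_mkQ]
  constructor
  · intro hc
    apply le_antisymm
    · exact le_iInf fun n => le_sup_left
    · intro x hx
      rw [Submodule.mem_iInf] at hx
      have h0 : K.mkQ x = 0 := by
        apply hc.toIsHausdorff.haus
        intro n
        rw [SModEq.zero, ← Submodule.mem_comap, hcomap n, sup_comm]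
        exact hx n
      rwa [Submodule.mkQ_apply, Submodule.Quotient.mk_eq_zero] at h0
  · intro hK
    refine { toIsHausdorff := ⟨?_⟩, toIsPrecomplete := ?_ }
    · intro x hx
      obtain ⟨y, rfl⟩ := Submodule.mkQ_surjective K x
      have hy : y ∈ K := by
        rw [hK, Submodule.mem_iInf]
        intro n
        have := hx n
        rw [SModEq.zero, ← Submodule.mem_comap, hcomap n, sup_comm] at this
        exact this
      rw [Submodule.mkQ_apply, Submodule.Quotient.mk_eq_zero]
      exact hy
    · rw [← AdicCompletion.of_surjective_iff]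
      intro z
      obtain ⟨w, rfl⟩ := AdicCompletion.map_surjective I (Submodule.mkQ_surjective K) z
      obtain ⟨y, rfl⟩ := (AdicCompletion.of_surjective_iff (I := I) (M := M)).mpr inferInstance w
      exact ⟨K.mkQ y, (AdicCompletion.map_of I K.mkQ y).symm⟩

end Groth.Agent.S9605
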