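import Groth.Statements.S9608
import Mathlib.FieldTheory.PurelyInseparable.PerfectClosure
import Mathlib.Algebra.CharP.Algebra
-- import your own Groth.Agent.* helpers here

set_option autoImplicit false
universe u
open CAlg

namespace Groth.Agent.S9608

/-- Let k'/k be a field extension and p a prime number. Then k' is generated over k by elements x for
which some n > 0 has x^(p^n) ∈ k and p^n x ∈ k, if and only if either k' = k, or k has
characteristic p and k'/k is purely inseparable. -/
theorem result {k k' : Type u} [Field k] [Field k'] [Algebra k k'] (p : ℕ) (hp : p.Prime) :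
    IntermediateField.adjoin k {x : k' | ∃ n : ℕ, 0 < n ∧ x ^ (p ^ n) ∈ Set.range (algebraMap k k') ∧ (p : k') ^ n * x ∈ Set.range (algebraMap k k')} = ⊤ ↔
      (Function.Surjective (algebraMap k k') ∨ (CharP k p ∧ IsPurelyInseparable k k')) := by
  constructor
  · intro h
    by_cases hp0 : (p : k') = 0
    · right
      have hcp' : CharP k' p := (CharP.charP_iff_prime_eq_zero hp).mpr hp0
      have hcp : CharP k p := (Algebra.charP_iff k k' p).mpr hcp'
      refine ⟨hcp, ?_⟩
      have : Fact p.Prime := ⟨hp⟩
      have : ExpChar k p := ExpChar.prime hp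
      rw [isPurelyInseparable_iff_perfectClosure_eq_top, eq_top_iff, ← h,
        IntermediateField.adjoin_le_iff]
      rintro x ⟨n, _, hx, _⟩
      rw [SetLike.mem_coe, mem_perfectClosure_iff_pow_mem p]
      obtain ⟨c, hc⟩ := hx
      exact ⟨n, c, hc⟩
    · left
      have hpk : (p : k) ≠ 0 := by
        intro h0; apply hp0
        rw [← map_natCast (algebraMap k k') p, h0, map_zero]
      have hsub : {x : k' | ∃ n : ℕ, 0 < n ∧ x ^ (p ^ n) ∈ Set.range (algebraMap k k') ∧
          (p : k') ^ n * x ∈ Set.range (algebraMap k k')} ⊆ Set.range (algebraMap k k') := by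
        rintro x ⟨n, _, _, c, hc⟩
        refine ⟨c / (p : k) ^ n, ?_⟩
        rw [map_div₀, map_pow, map_natCast, hc]
        field_simp
      have hbot : IntermediateField.adjoin k {x : k' | ∃ n : ℕ, 0 < n ∧ x ^ (p ^ n) ∈
          Set.range (algebraMap k k') ∧ (p : k') ^ n * x ∈ Set.range (algebraMap k k')} = ⊥ := by
        rw [eq_bot_iff, IntermediateField.adjoin_le_iff]
        intro x hx
        exact IntermediateField.mem_bot.mpr (hsub hx)
      intro y
      have hy : y ∈ (⊤ : IntermediateField k k') := trivial
      rw [← h, hbot, IntermediateField.mem_bot] at hy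
      exact hy
  · rintro (h | ⟨hcp, hpi⟩)
    · rw [eq_top_iff]
      intro y _
      obtain ⟨c, rfl⟩ := h y
      exact IntermediateField.algebraMap_mem _ c
    · rw [eq_top_iff]
      intro y _
      apply IntermediateField.subset_adjoin
      have : Fact p.Prime := ⟨hp⟩
      have : ExpChar k p := ExpChar.prime hp
      have : CharP k' p := (Algebra.charP_iff k k' p).mp hcp
      obtain ⟨n, c, hc⟩ := (isPurelyInseparable_iff_pow_mem k p).mp hpi y
      refine ⟨n + 1, Nat.succ_pos n, ⟨c ^ p, ?_⟩, ⟨0, ?_⟩⟩
      · rw [map_pow, hc, ← pow_mul, ← pow_succ]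
      · rw [map_zero, CharP.cast_eq_zero, zero_pow (Nat.succ_ne_zero n), zero_mul]

end Groth.Agent.S9608
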