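import Groth.Statements.S9610
import Mathlib.Algebra.Polynomial.Degree.Lemmas
import Mathlib.LinearAlgebra.LinearIndependent.Defs
import Mathlib.Algebra.Polynomial.BigOperators
import Mathlib.Algebra.Polynomial.Eval.SMul
-- import your own Groth.Agent.* helpers here

set_option autoImplicit false
universe u
open CAlg

namespace Groth.Agent.S9610

/-- Let k be a field and V a nonzero k-vector space with dim_k V < #k as cardinals. Then every k-linear
endomorphism T of V admits a monic polynomial P over k for which P(T) is not invertible. -/
theorem result {k V : Type u} [Field k] [AddCommGroup V] [Module k V] [Nontrivial V] (hV : Module.rank k V < Cardinal.mk k) (T : Module.End k V) :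
    ∃ P : Polynomial k, P.Monic ∧ ¬ IsUnit (Polynomial.aeval T P) := by
  classical
  by_contra H
  push Not at H
  -- every nonzero polynomial evaluates to a unit
  have hunit : ∀ P : Polynomial k, P ≠ 0 → IsUnit (Polynomial.aeval T P) := by
    intro P hP
    have hm := Polynomial.monic_mul_leadingCoeff_inv hP
    have hlc : P.leadingCoeff ≠ 0 := Polynomial.leadingCoeff_ne_zero.mpr hP
    have e : P = (P * Polynomial.C P.leadingCoeff⁻¹) * Polynomial.C P.leadingCoeff := by
      rw [mul_assoc, ← Polynomial.C_mul, inv_mul_cancel₀ hlc, Polynomial.C_1, mul_one]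
    rw [e, map_mul, Polynomial.aeval_C]
    exact (H _ hm).mul ((IsUnit.mk0 _ hlc).map (algebraMap k (Module.End k V)))
  obtain ⟨v, hv⟩ := exists_ne (0 : V)
  -- the resolvent vectors
  have hres : ∀ c : k, IsUnit (T - algebraMap k (Module.End k V) c) := by
    intro c
    have := hunit (Polynomial.X - Polynomial.C c) (Polynomial.X_sub_C_ne_zero c)
    simpa [Polynomial.aeval_X, Polynomial.aeval_C] using this
  let R : k → Module.End k V := fun c => ((hres c).unit⁻¹ : (Module.End k V)ˣ)
  have hR : ∀ c, (T - algebraMap k (Module.End k V) c) * R c = 1 := fun c => (hres c).mul_val_inv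
  let u : k → V := fun c => R c v
  have hΦ : ∀ P : Polynomial k, Polynomial.aeval T P v = 0 → P = 0 := by
    intro P hPv
    by_contra hP
    apply hv
    have hinj := ((Module.End.isUnit_iff _).mp (hunit P hP)).1
    exact hinj (hPv.trans (map_zero _).symm)
  have hli : LinearIndependent k u := by
    rw [linearIndependent_iff']
    intro s c hsum i hi
    let L : k → Polynomial k := fun a => ∏ j ∈ s.erase a, (Polynomial.X - Polynomial.C j)
    let Pi : Polynomial k := ∏ j ∈ s, (Polynomial.X - Polynomial.C j)
    have hPi : ∀ a ∈ s, Pi = L a * (Polynomial.X - Polynomial.C a) := fun a ha =>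
      (Finset.prod_erase_mul s _ ha).symm
    have happ : ∀ a ∈ s, Polynomial.aeval T Pi (u a) = Polynomial.aeval T (L a) v := by
      intro a ha
      rw [hPi a ha, map_mul, Module.End.mul_apply]
      congr 1
      show (Polynomial.aeval T (Polynomial.X - Polynomial.C a)) (R a v) = v
      rw [map_sub, Polynomial.aeval_X, Polynomial.aeval_C, ← Module.End.mul_apply, hR a,
        Module.End.one_apply]
    have h0 : Polynomial.aeval T (∑ a ∈ s, c a • L a) v = 0 := by
      have := congrArg (Polynomial.aeval T Pi) hsum
      rw [map_zero, map_sum] at this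
      rw [← this, map_sum, LinearMap.sum_apply]
      refine Finset.sum_congr rfl fun a ha => ?_
      rw [map_smul, LinearMap.smul_apply, map_smul, happ a ha]
    have hQ := hΦ _ h0
    have := congrArg (Polynomial.eval i) hQ
    rw [Polynomial.eval_finsetSum, Polynomial.eval_zero,
      Finset.sum_eq_single i] at this
    · rw [Polynomial.eval_smul, smul_eq_mul, Polynomial.eval_prod] at this
      rcases mul_eq_zero.mp this with h | h
      · exact h
      · exfalso
        rw [Finset.prod_eq_zero_iff] at h
        obtain ⟨j, hj, hj0⟩ := h
        rw [Polynomial.eval_sub, Polynomial.eval_X, Polynomial.eval_C, sub_eq_zero] at hj0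
        exact (Finset.ne_of_mem_erase hj) hj0.symm
    · intro b hb hbi
      rw [Polynomial.eval_smul, Polynomial.eval_prod, Finset.prod_eq_zero (i := i)
        (Finset.mem_erase.mpr ⟨Ne.symm hbi, hi⟩), smul_zero]
      rw [Polynomial.eval_sub, Polynomial.eval_X, Polynomial.eval_C, sub_self]
    · intro h; exact absurd hi h
  have := hli.cardinal_le_rank
  exact absurd hV (not_lt.mpr this)

end Groth.Agent.S9610
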