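import Groth.Statements.S9611
-- import your own Groth.Agent.* helpers here

set_option autoImplicit false
universe u
open CAlg

namespace Groth.Agent.S9611

/-- Let R be a Jacobson ring, p a prime ideal of R which is not maximal, and f an element of R not in p.
Then the set of primes of R containing p and not containing f is infinite. -/
theorem result {R : Type u} [CommRing R] [IsJacobsonRing R] (p : Ideal R) [p.IsPrime] (hp : ¬ p.IsMaximal) (f : R) (hf : f ∉ p) :
    {q : PrimeSpectrum R | p ≤ q.asIdeal ∧ f ∉ q.asIdeal}.Infinite := by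
  classical
  intro hfin
  set T := {q : PrimeSpectrum R | p ≤ q.asIdeal ∧ f ∉ q.asIdeal} with hT
  have hchoose : ∀ q : PrimeSpectrum R, ∃ g : R,
      (p ≤ q.asIdeal → q.asIdeal ≠ p → g ∈ q.asIdeal ∧ g ∉ p) ∧ (q.asIdeal = p → g = 1) := by
    intro q
    by_cases hq : p ≤ q.asIdeal ∧ q.asIdeal ≠ p
    · obtain ⟨g, hg1, hg2⟩ := SetLike.exists_of_lt (lt_of_le_of_ne hq.1 (Ne.symm hq.2))
      exact ⟨g, fun _ _ => ⟨hg1, hg2⟩, fun h => absurd h hq.2⟩
    · refine ⟨1, fun h1 h2 => absurd ⟨h1, h2⟩ hq, fun _ => rfl⟩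
  choose g hg1 hg2 using hchoose
  let G : R := f * ∏ q ∈ hfin.toFinset, g q
  have hGp : G ∉ p := by
    intro hG
    rcases (Ideal.IsPrime.mem_or_mem ‹p.IsPrime› hG) with h | h
    · exact hf h
    · obtain ⟨q, hq, hgq⟩ := (Ideal.IsPrime.prod_mem_iff (hp := ‹p.IsPrime›)).mp h
      have hqT : q ∈ T := hfin.mem_toFinset.mp hq
      by_cases hqp : q.asIdeal = p
      · rw [hg2 q hqp] at hgq
        exact ‹p.IsPrime›.ne_top ((Ideal.eq_top_iff_one _).mpr hgq)
      · exact ((hg1 q hqT.1 hqp).2) hgq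
  have hjac : p.jacobson = p := IsJacobsonRing.out ‹_› ‹p.IsPrime›.isRadical
  have : G ∉ p.jacobson := by rw [hjac]; exact hGp
  rw [Ideal.jacobson, Submodule.mem_sInf] at this
  push Not at this
  obtain ⟨m, ⟨hpm, hm⟩, hGm⟩ := this
  have hfm : f ∉ m := fun h => hGm (Ideal.mul_mem_right _ m h)
  have hmT : (⟨m, hm.isPrime⟩ : PrimeSpectrum R) ∈ T := ⟨hpm, hfm⟩
  have hmF : (⟨m, hm.isPrime⟩ : PrimeSpectrum R) ∈ hfin.toFinset := hfin.mem_toFinset.mpr hmT
  by_cases hmp : m = p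
  · exact hp (hmp ▸ hm)
  · have hgm : g ⟨m, hm.isPrime⟩ ∈ m := (hg1 ⟨m, hm.isPrime⟩ hpm hmp).1
    apply hGm
    apply Ideal.mul_mem_left m f
    exact Ideal.mem_of_dvd _ (Finset.dvd_prod_of_mem _ hmF) hgm

end Groth.Agent.S9611
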