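import Groth.Statements.S9612
import Mathlib.Data.Nat.Prime.Int
import Mathlib.RingTheory.PrincipalIdealDomain
import Mathlib.RingTheory.Int.Basic

set_option autoImplicit false
universe u
open CAlg

namespace Groth.Agent.S9612

theorem intJac : IsJacobsonRing ℤ := by
  rw [isJacobsonRing_iff_prime_eq]
  intro P hP
  by_cases h : P = ⊥
  · subst h
    apply le_antisymm _ Ideal.le_jacobson
    intro n hn
    rw [Ideal.jacobson, Ideal.mem_sInf] at hn
    obtain ⟨p, hp1, hp2⟩ := Nat.exists_infinite_primes (n.natAbs + 1)
    have hmax : (Ideal.span {(p : ℤ)}).IsMaximal := by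
      apply PrincipalIdealRing.isMaximal_of_irreducible
      exact (Nat.prime_iff_prime_int.mp hp2).irreducible
    have := hn ⟨bot_le, hmax⟩
    rw [Ideal.mem_span_singleton] at this
    have h2 : (p : ℤ).natAbs ∣ n.natAbs := Int.natAbs_dvd_natAbs.mpr this
    simp only [Int.natAbs_natCast] at h2
    have : n.natAbs = 0 := by
      by_contra hne
      have := Nat.le_of_dvd (Nat.pos_of_ne_zero hne) h2
      omega
    simp [Int.natAbs_eq_zero.mp this]
  · have : P.IsMaximal := IsPrime.to_maximal_ideal h
    exact Ideal.jacobson_eq_self_of_isMaximal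

/-- A finite type ℤ-algebra is a Jacobson ring. -/
theorem result {S : Type u} [CommRing S] [Algebra.FiniteType ℤ S] :
    IsJacobsonRing S := by
  have := intJac
  exact isJacobsonRing_of_finiteType (A := ℤ)

end Groth.Agent.S9612
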