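import Groth.Statements.S9613
import Mathlib
-- import your own Groth.Agent.* helpers here

set_option autoImplicit false
universe u
open CAlg

namespace Groth.Agent.S9613

/-- Let R → K be an injective ring map into a field K which makes K an R-algebra of finite type. Then
for some nonzero f ∈ R the localization R_f is a field over which K is finite; here R_f is realised
as the R-subalgebra of K that is a localization of R away from f. -/
theorem result {R K : Type u} [CommRing R] [Field K] [Algebra R K] (hinj : Function.Injective (algebraMap R K)) [Algebra.FiniteType R K] :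
    ∃ f : R, f ≠ 0 ∧ ∃ Rf : Subalgebra R K, IsLocalization.Away f Rf ∧ IsField Rf ∧ Module.Finite Rf K := by
  classical
  haveI : FaithfulSMul R K := (faithfulSMul_iff_algebraMap_injective R K).mpr hinj
  haveI : IsDomain R := IsDomain.of_faithfulSMul R K
  letI := FractionRing.liftAlgebra R K
  haveI := FractionRing.isScalarTower_liftAlgebra R K
  haveI : Algebra.FiniteType (FractionRing R) K :=
    Algebra.FiniteType.of_restrictScalars_finiteType R (FractionRing R) K
  haveI : Module.Finite (FractionRing R) K := finite_of_finite_type_of_isJacobsonRing (FractionRing R) K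
  have halg : ∀ x : K, IsAlgebraic R x := fun x =>
    (IsFractionRing.isAlgebraic_iff R (FractionRing R) K).mpr (Algebra.IsAlgebraic.isAlgebraic x)
  obtain ⟨s, hs⟩ := Algebra.FiniteType.out (R := R) (A := K)
  choose y hy0 hyint using fun x : K => (halg x).exists_integral_multiple
  let f : R := ∏ x ∈ s, y x
  have hf0 : f ≠ 0 := Finset.prod_ne_zero_iff.mpr fun x _ => hy0 x
  have hfint : ∀ x ∈ s, IsIntegral R (f • x) := fun x hx => by
    obtain ⟨c, hc⟩ : y x ∣ f := Finset.dvd_prod_of_mem _ hx
    rw [hc, mul_comm, mul_smul]
    exact (hyint x).smul c
  have hfu : IsUnit (algebraMap R K f) := ((map_ne_zero_iff _ hinj).mpr hf0).isUnit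
  let φ : Localization.Away f →ₐ[R] K :=
    IsLocalization.Away.liftAlgHom (x := f) (f := Algebra.ofId R K) hfu
  have hφ : Function.Injective φ := by
    have hinjL : Function.Injective (algebraMap R (Localization.Away f)) :=
      IsLocalization.injective (Localization.Away f) (powers_le_nonZeroDivisors_of_noZeroDivisors hf0)
    show Function.Injective (IsLocalization.Away.lift f hfu)
    rw [IsLocalization.Away.lift, IsLocalization.lift_injective_iff]
    intro a b
    constructor
    · intro h; rw [hinjL h]
    · intro h; rw [hinj h]
  let e : Localization.Away f ≃ₐ[R] φ.range := AlgEquiv.ofInjective φ hφ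
  refine ⟨f, hf0, φ.range, IsLocalization.isLocalization_of_algEquiv (Submonoid.powers f) e, ?_⟩
  let finv : φ.range := e (IsLocalization.Away.invSelf f)
  have hfinv : (finv : K) * algebraMap R K f = 1 := by
    show φ (IsLocalization.Away.invSelf f) * algebraMap R K f = 1
    rw [← φ.commutes f, ← map_mul, mul_comm, IsLocalization.Away.mul_invSelf, map_one]
  have hgen : ∀ x ∈ s, IsIntegral φ.range x := fun x hx => by
    have h1 : IsIntegral φ.range (f • x) := (hfint x hx).tower_top
    have h2 : x = finv • (f • x) := by
      rw [Subalgebra.smul_def, smul_eq_mul, Algebra.smul_def, ← mul_assoc, hfinv, one_mul]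
    rw [h2]
    exact h1.smul finv
  haveI : Algebra.IsIntegral φ.range K := by
    constructor
    intro z
    have hle : Algebra.adjoin R (s : Set K) ≤ (integralClosure φ.range K).restrictScalars R :=
      Algebra.adjoin_le fun x hx => by
        rw [SetLike.mem_coe, Subalgebra.mem_restrictScalars, mem_integralClosure_iff]
        exact hgen x hx
    have hz : z ∈ Algebra.adjoin R (s : Set K) := by rw [hs]; exact Algebra.mem_top
    have := hle hz
    rwa [Subalgebra.mem_restrictScalars, mem_integralClosure_iff] at this
  refine ⟨isField_of_isIntegral_of_isField (R := φ.range) (S := K) (fun a b h => Subtype.ext h)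
    (Field.toIsField K), ?_⟩
  haveI : Algebra.FiniteType φ.range K := Algebra.FiniteType.of_restrictScalars_finiteType R φ.range K
  exact Algebra.IsIntegral.finite

end Groth.Agent.S9613
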