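import Groth.Statements.S9614
import Groth.Agent.Lib.Helper14.GradedSmul
-- import your own Groth.Agent.* helpers here

set_option autoImplicit false
universe u
open CAlg

namespace Groth.Agent.S9614

/-- Let S be an ℕ-graded ring and M a finitely generated graded S-module, graded in nonnegative degrees
(the source allows all integer degrees). If x_1, …, x_n are homogeneous elements of M which generate
M modulo S₊ M (S₊ the irrelevant ideal), then x_1, …, x_n generate M. -/
theorem result {R S : Type u} [CommRing R] [CommRing S] [Algebra R S] (𝒜 : ℕ → Submodule R S) [GradedAlgebra 𝒜]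
    (M : Type u) [AddCommGroup M] [Module R M] [Module S M] [IsScalarTower R S M] [Module.Finite S M] (ℳ : ℕ → Submodule R M) [DirectSum.Decomposition ℳ] [SetLike.GradedSMul 𝒜 ℳ]
    {n : ℕ} (x : Fin n → M) (hx : ∀ i, SetLike.IsHomogeneousElem ℳ (x i))
    (h : Submodule.span S (Set.range x) ⊔ (HomogeneousIdeal.irrelevant 𝒜).toIdeal • (⊤ : Submodule S M) = ⊤) :
    Submodule.span S (Set.range x) = ⊤ := by
  classical
  set N := Submodule.span S (Set.range x) with hN
  have hxN : ∀ i, x i ∈ N := fun i => Submodule.subset_span ⟨i, rfl⟩
  have hA : ∀ n ∈ N, ∀ d, (DirectSum.decompose ℳ n d : M) ∈ N := by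
    intro n hn d
    obtain ⟨c, rfl⟩ := (Submodule.mem_span_range_iff_exists_fun S).mp hn
    rw [DirectSum.decompose_sum, DFinsupp.finsetSum_apply, Submodule.coe_sum]
    refine Submodule.sum_mem _ fun i _ => ?_
    obtain ⟨e, he⟩ := hx i
    rw [Groth.Agent.Lib.Helper14.proj_smul_of_mem 𝒜 ℳ (c i) he d]
    split_ifs
    · exact N.smul_mem _ (hxN i)
    · exact N.zero_mem
  have hP : ∀ d, ∀ m ∈ ℳ d, m ∈ N := by
    intro d
    induction d using Nat.strong_induction_on with
    | _ d ih =>
    intro m hm
    have hmt : m ∈ N ⊔ (HomogeneousIdeal.irrelevant 𝒜).toIdeal • (⊤ : Submodule S M) := by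
      rw [h]; exact Submodule.mem_top
    obtain ⟨n, hn, t, ht, rfl⟩ := Submodule.mem_sup.mp hmt
    have e1 : n + t = (DirectSum.decompose ℳ (n + t) d : M) :=
      (DirectSum.decompose_of_mem_same ℳ hm).symm
    rw [e1, DirectSum.decompose_add, DirectSum.add_apply, Submodule.coe_add]
    refine N.add_mem (hA n hn d) ?_
    refine Submodule.smul_induction_on (p := fun t => (DirectSum.decompose ℳ t d : M) ∈ N) ht ?_ ?_
    · intro s hs y _
      have hs0 : (DirectSum.decompose 𝒜 s 0 : S) = 0 := hs
      induction y using DirectSum.Decomposition.inductionOn ℳ with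
      | zero => simp
      | @homogeneous b y =>
        rw [Groth.Agent.Lib.Helper14.proj_smul_of_mem 𝒜 ℳ s y.2 d]
        split_ifs with hb
        · rcases Nat.lt_or_eq_of_le hb with hb | hb
          · exact N.smul_mem _ (ih b hb y y.2)
          · subst hb
            rw [Nat.sub_self, hs0, zero_smul]
            exact N.zero_mem
        · exact N.zero_mem
      | add y y' hy hy' =>
        rw [smul_add, DirectSum.decompose_add, DirectSum.add_apply, Submodule.coe_add]
        exact N.add_mem (hy trivial) (hy' trivial)
    · intro a b ha hb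
      rw [DirectSum.decompose_add, DirectSum.add_apply, Submodule.coe_add]
      exact N.add_mem ha hb
  rw [eq_top_iff]
  intro m _
  induction m using DirectSum.Decomposition.inductionOn ℳ with
  | zero => exact N.zero_mem
  | @homogeneous d m => exact hP d m m.2
  | add m m' hm hm' => exact N.add_mem (hm trivial) (hm' trivial)

end Groth.Agent.S9614
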