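import Groth.Statements.S9615
import Mathlib.RingTheory.Polynomial.IsIntegral
-- import your own Groth.Agent.* helpers here

set_option autoImplicit false
universe u
open CAlg

namespace Groth.Agent.S9615

open Polynomial

attribute [local instance] Polynomial.algebra

/-- The ring map `⨁ Aᵢ → A[X]`, `(aᵢ) ↦ ∑ aᵢ Xⁱ`. -/
noncomputable def toPolyDS {A : Type u} [CommRing A] (𝒜 : ℕ → AddSubgroup A) [GradedRing 𝒜] :
    (DirectSum ℕ fun i => 𝒜 i) →+* A[X] :=
  DirectSum.toSemiring
    (fun i => (Polynomial.monomial i : A →ₗ[A] A[X]).toAddMonoidHom.comp (𝒜 i).subtype)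
    (by simp)
    (by
      intro i j ai aj
      simp only [AddMonoidHom.coe_comp, Function.comp_apply, LinearMap.toAddMonoidHom_coe]
      rw [Polynomial.monomial_mul_monomial]
      rfl)

lemma coeff_toPolyDS {A : Type u} [CommRing A] (𝒜 : ℕ → AddSubgroup A) [GradedRing 𝒜]
    (x : DirectSum ℕ fun i => 𝒜 i) (i : ℕ) : (toPolyDS 𝒜 x).coeff i = (x i : A) := by
  induction x using DirectSum.induction_on with
  | zero => simp
  | of j y =>
    unfold toPolyDS
    rw [DirectSum.toSemiring_of]
    simp only [AddMonoidHom.coe_comp, Function.comp_apply, LinearMap.toAddMonoidHom_coe,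
      AddSubgroup.coe_subtype, Polynomial.coeff_monomial]
    by_cases hij : j = i
    · subst hij; simp
    · rw [if_neg hij, DirectSum.of_eq_of_ne _ _ _ (Ne.symm hij)]; rfl
  | add x y hx hy => rw [map_add, Polynomial.coeff_add, hx, hy]; rfl

/-- The ring map `A → A[X]`, `a ↦ ∑ aᵢ Xⁱ`, for an ℕ-graded ring `A`. -/
noncomputable def toPoly {A : Type u} [CommRing A] (𝒜 : ℕ → AddSubgroup A) [GradedRing 𝒜] :
    A →+* A[X] :=
  (toPolyDS 𝒜).comp (DirectSum.decomposeRingEquiv 𝒜).toRingHom

lemma coeff_toPoly {A : Type u} [CommRing A] (𝒜 : ℕ → AddSubgroup A) [GradedRing 𝒜] (a : A)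
    (i : ℕ) : (toPoly 𝒜 a).coeff i = (DirectSum.decompose 𝒜 a i : A) :=
  coeff_toPolyDS 𝒜 _ i

/-- Let R → S be a homomorphism of ℕ-graded rings, i.e. the structure map carries each graded piece R_i
into S_i. If an element s of S is integral over R, then each homogeneous component of s is integral
over R; so the integral closure of R in S is a graded subring of S. -/
theorem result {R S : Type u} [CommRing R] [CommRing S] [Algebra R S] (ℛ : ℕ → AddSubgroup R) [GradedRing ℛ] (𝒮 : ℕ → AddSubgroup S) [GradedRing 𝒮]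
    (hmap : ∀ i : ℕ, ∀ r ∈ ℛ i, algebraMap R S r ∈ 𝒮 i) (s : S) (hs : IsIntegral R s) (i : ℕ) :
    IsIntegral R ((DirectSum.decompose 𝒮 s i : 𝒮 i) : S) := by
  classical
  have key : ∀ (j : ℕ) (r : R), (DirectSum.decompose 𝒮 (algebraMap R S r) j : S) =
      algebraMap R S (DirectSum.decompose ℛ r j : R) := by
    intro j r
    induction r using DirectSum.Decomposition.inductionOn ℛ with
    | zero => simp
    | @homogeneous k x =>
      by_cases hkj : k = j
      · subst hkj
        rw [DirectSum.decompose_of_mem_same _ (hmap k x x.2),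
          DirectSum.decompose_of_mem_same _ x.2]
      · rw [DirectSum.decompose_of_mem_ne _ (hmap k x x.2) hkj,
          DirectSum.decompose_of_mem_ne _ x.2 hkj, map_zero]
    | add x y hx hy =>
      rw [map_add, DirectSum.decompose_add, DirectSum.add_apply, AddSubgroup.coe_add, hx, hy,
        DirectSum.decompose_add, DirectSum.add_apply, AddSubgroup.coe_add, map_add]
  have hcomp : (algebraMap R[X] S[X]).comp (toPoly ℛ) = (toPoly 𝒮).comp (algebraMap R S) := by
    refine RingHom.ext fun r => Polynomial.ext fun j => ?_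
    simp only [RingHom.coe_comp, Function.comp_apply]
    rw [coeff_toPoly, key, Polynomial.algebraMap_def, Polynomial.coe_mapRingHom,
      Polynomial.coeff_map, coeff_toPoly]
  have h1 := IsIntegral.map_of_comp_eq (toPoly ℛ) (toPoly 𝒮) hcomp hs
  have h2 := Polynomial.isIntegral_iff_isIntegral_coeff.mp h1 i
  rwa [coeff_toPoly] at h2

end Groth.Agent.S9615
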