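import Groth.Statements.S9616
-- import your own Groth.Agent.* helpers here

set_option autoImplicit false
universe u
open CAlg

namespace Groth.Agent.S9616

/-- Let S be an ℕ-graded ring, p_1, …, p_r homogeneous prime ideals of S and I ⊆ S₊ a homogeneous ideal
not contained in any p_i. Then there is a homogeneous element x ∈ I of positive degree with x ∉ p_i
for all i. -/
theorem result {R S : Type u} [CommRing R] [CommRing S] [Algebra R S] (𝒜 : ℕ → Submodule R S) [GradedAlgebra 𝒜]
    {r : ℕ} (p : Fin r → HomogeneousIdeal 𝒜) (hp : ∀ i, (p i).toIdeal.IsPrime) (I : HomogeneousIdeal 𝒜) (hI : I ≤ HomogeneousIdeal.irrelevant 𝒜) (h : ∀ i, ¬ I ≤ p i) :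
    ∃ x : S, ∃ d : ℕ, 0 < d ∧ x ∈ 𝒜 d ∧ x ∈ I ∧ ∀ i, x ∉ p i := by
  classical
  have key : ∀ (J : HomogeneousIdeal 𝒜) (P : Ideal S), ¬ J.toIdeal ≤ P →
      ∃ a : S, ∃ i : ℕ, a ∈ 𝒜 i ∧ a ∈ J ∧ a ∉ P := by
    intro J P hJ
    obtain ⟨a, haJ, haP⟩ := Set.not_subset.mp hJ
    by_contra hcon
    push Not at hcon
    apply haP
    rw [← DirectSum.sum_support_decompose 𝒜 a]
    exact Ideal.sum_mem _ fun i _ => hcon _ i (SetLike.coe_mem _) (J.isHomogeneous i haJ)
  have hpos : ∀ a i, a ∈ 𝒜 i → a ∈ I → a ≠ 0 → 0 < i := by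
    intro a i hai haI ha0
    rcases Nat.eq_zero_or_pos i with rfl | hi
    · exfalso; apply ha0
      have h1 : a ∈ HomogeneousIdeal.irrelevant 𝒜 := hI haI
      rw [HomogeneousIdeal.mem_irrelevant_iff, GradedRing.proj_apply,
        DirectSum.decompose_of_mem_same 𝒜 hai] at h1
      exact h1
    · exact hi
  induction r with
  | zero => exact ⟨0, 1, one_pos, zero_mem _, zero_mem _, fun i => i.elim0⟩
  | succ r ih =>
    by_cases hinc : ∃ i j : Fin (r+1), i ≠ j ∧ p i ≤ p j
    · obtain ⟨i, j, hij, hle⟩ := hinc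
      obtain ⟨x, d, hd, hxd, hxI, hx⟩ := ih (p ∘ i.succAbove) (fun k => hp _) (fun k => h _)
      refine ⟨x, d, hd, hxd, hxI, fun m => ?_⟩
      by_cases hm : m = i
      · subst hm
        obtain ⟨k, hk⟩ := Fin.exists_succAbove_eq (x := j) (y := m) hij.symm
        intro hxm
        exact hx k (by simp only [Function.comp_apply]; rw [hk]; exact hle hxm)
      · obtain ⟨k, hk⟩ := Fin.exists_succAbove_eq (x := m) (y := i) hm
        rw [← hk]; exact hx k
    · push Not at hinc
      obtain ⟨x, d, hd, hxd, hxI, hx⟩ := ih (p ∘ Fin.castSucc) (fun k => hp _) (fun k => h _)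
      by_cases hxl : x ∈ p (Fin.last r)
      · have hne : ∀ k : Fin r, ¬ (p k.castSucc).toIdeal ≤ (p (Fin.last r)).toIdeal := fun k =>
          hinc _ _ (Fin.castSucc_lt_last k).ne
        choose a ea ha haP haL using fun k => key (p k.castSucc) (p (Fin.last r)).toIdeal (hne k)
        obtain ⟨b, eb, hb, hbI, hbL⟩ := key I (p (Fin.last r)).toIdeal (h _)
        haveI := hp (Fin.last r)
        let y := b * ∏ k, a k
        let e := eb + ∑ k, ea k
        have hye : y ∈ 𝒜 e :=
          SetLike.mul_mem_graded hb (SetLike.prod_mem_graded 𝒜 ea a fun k _ => ha k)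
        have hyI : y ∈ I := I.toIdeal.mul_mem_right _ hbI
        have hyp : ∀ k : Fin r, y ∈ p k.castSucc := fun k => by
          haveI := hp k.castSucc
          exact (p k.castSucc).toIdeal.mul_mem_left _
            ((Ideal.IsPrime.prod_mem_iff).mpr ⟨k, Finset.mem_univ _, haP k⟩)
        have hyL : y ∉ p (Fin.last r) := by
          intro hy
          rcases (hp _).mem_or_mem hy with h1 | h1
          · exact hbL h1
          · obtain ⟨k, _, hk⟩ := (Ideal.IsPrime.prod_mem_iff).mp h1
            exact haL k hk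
        have he : 0 < e := hpos y e hye hyI (fun h0 => hyL (h0 ▸ zero_mem _))
        refine ⟨x ^ e + y ^ d, d * e, Nat.mul_pos hd he, ?_, ?_, ?_⟩
        · apply add_mem
          · have := SetLike.pow_mem_graded e hxd; rwa [smul_eq_mul, mul_comm] at this
          · have := SetLike.pow_mem_graded d hye; rwa [smul_eq_mul] at this
        · exact I.toIdeal.add_mem (I.toIdeal.pow_mem_of_mem hxI e he)
            (I.toIdeal.pow_mem_of_mem hyI d hd)
        · intro m
          refine Fin.lastCases ?_ (fun k => ?_) m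
          · intro hz
            have h1 : y ^ d ∈ p (Fin.last r) := by
              have := (p (Fin.last r)).toIdeal.sub_mem hz
                ((p (Fin.last r)).toIdeal.pow_mem_of_mem hxl e he)
              simpa using this
            exact hyL ((hp _).mem_of_pow_mem d h1)
          · intro hz
            have h1 : x ^ e ∈ p k.castSucc := by
              have := (p k.castSucc).toIdeal.sub_mem hz
                ((p k.castSucc).toIdeal.pow_mem_of_mem (hyp k) d hd)
              simpa using this
            exact hx k ((hp _).mem_of_pow_mem e h1)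
      · refine ⟨x, d, hd, hxd, hxI, fun m => ?_⟩
        exact Fin.lastCases hxl (fun k => hx k) m

end Groth.Agent.S9616
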