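import Groth.Statements.S9617
import Groth.Agent.Lib.Helper14.GradedSmul
-- import your own Groth.Agent.* helpers here

set_option autoImplicit false
universe u
open CAlg

namespace Groth.Agent.S9617

/-- Let S be an ℕ-graded ring, presented as a graded algebra over a ring A mapping onto S₀, such that S
is of finite type over A, i.e. over S₀. If M is a finitely generated graded S-module, graded in
nonnegative degrees (the source allows all integer degrees), then each graded piece M_n is a finite
module over A, i.e. over S₀. -/
theorem result {A S : Type u} [CommRing A] [CommRing S] [Algebra A S] (𝒜 : ℕ → Submodule A S) [GradedAlgebra 𝒜]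
    (h0 : ∀ s ∈ 𝒜 0, s ∈ Set.range (algebraMap A S)) [Algebra.FiniteType A S]
    (M : Type u) [AddCommGroup M] [Module A M] [Module S M] [IsScalarTower A S M] [Module.Finite S M] (ℳ : ℕ → Submodule A M) [DirectSum.Decomposition ℳ] [SetLike.GradedSMul 𝒜 ℳ] (n : ℕ) :
    Module.Finite A (ℳ n) := by
  classical
  -- Step 1: homogeneous generators of S of positive degree
  obtain ⟨F, hF⟩ := Algebra.FiniteType.out (R := A) (A := S)
  let ι₁ := Σ f : F, (DirectSum.decompose 𝒜 (f : S)).support
  let σ := {i : ι₁ // (i.2 : ℕ) ≠ 0}
  let y : σ → S := fun i => (DirectSum.decompose 𝒜 (i.1.1 : S) i.1.2 : S)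
  let w : σ → ℕ := fun i => i.1.2
  have hyw : ∀ i, y i ∈ 𝒜 (w i) := fun i => SetLike.coe_mem _
  have hw : ∀ i, w i ≠ 0 := fun i => i.2
  have hadj : Algebra.adjoin A (Set.range y) = ⊤ := by
    rw [← top_le_iff, ← hF, Algebra.adjoin_le_iff]
    intro f hf
    rw [← DirectSum.sum_support_decompose 𝒜 f]
    refine Subalgebra.sum_mem _ fun e he => ?_
    by_cases he0 : e = 0
    · subst he0
      obtain ⟨a, ha⟩ := h0 _ (SetLike.coe_mem (DirectSum.decompose 𝒜 f 0))
      rw [← ha]; exact Subalgebra.algebraMap_mem _ a
    · exact Algebra.subset_adjoin ⟨⟨⟨⟨f, hf⟩, ⟨e, he⟩⟩, he0⟩, rfl⟩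
  let φ : MvPolynomial σ A →ₐ[A] S := MvPolynomial.aeval y
  have hφs : Function.Surjective φ := by
    intro s
    have : s ∈ Algebra.adjoin A (Set.range y) := by rw [hadj]; exact Algebra.mem_top
    rw [Algebra.adjoin_range_eq_range_aeval] at this
    exact this
  have hmono : ∀ (α : σ →₀ ℕ) (c : A),
      φ (MvPolynomial.monomial α c) ∈ 𝒜 (Finsupp.weight w α) := by
    intro α c
    rw [MvPolynomial.aeval_monomial, ← Algebra.smul_def]
    refine Submodule.smul_mem _ c ?_
    rw [Finsupp.weight_apply]
    exact SetLike.prod_mem_graded 𝒜 (fun i => α i • w i) (fun i => y i ^ α i)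
      (fun i _ => SetLike.pow_mem_graded _ (hyw i))
  -- Step 2: each graded piece of S is finite over A
  have hSk : ∀ k, (𝒜 k).FG := by
    intro k
    have heq : 𝒜 k = (MvPolynomial.weightedHomogeneousSubmodule A w k).map φ.toLinearMap := by
      apply le_antisymm
      · intro s hs
        obtain ⟨p, rfl⟩ := hφs s
        let q : MvPolynomial σ A := ∑ α ∈ p.support.filter (fun α => Finsupp.weight w α = k),
          MvPolynomial.monomial α (MvPolynomial.coeff α p)
        refine ⟨q, ?_, ?_⟩
        · refine Submodule.sum_mem _ fun α hα => ?_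
          exact MvPolynomial.isWeightedHomogeneous_monomial w α _ (Finset.mem_filter.mp hα).2
        · have e1 : φ p = (DirectSum.decompose 𝒜 (φ p) k : S) :=
            (DirectSum.decompose_of_mem_same 𝒜 hs).symm
          show φ q = φ p
          rw [e1]
          conv_rhs => rw [MvPolynomial.as_sum p]
          simp only [q, map_sum, DirectSum.decompose_sum]
          rw [DFinsupp.finsetSum_apply, Submodule.coe_sum, Finset.sum_filter]
          refine Finset.sum_congr rfl fun α _ => ?_
          split_ifs with hα
          · rw [← hα, DirectSum.decompose_of_mem_same 𝒜 (hmono α _)]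
          · rw [DirectSum.decompose_of_mem_ne 𝒜 (hmono α _) hα]
      · rw [Submodule.map_le_iff_le_comap]
        intro q hq
        rw [Submodule.mem_comap]
        show φ q ∈ 𝒜 k
        rw [MvPolynomial.as_sum q, map_sum]
        refine Submodule.sum_mem _ fun α hα => ?_
        have := hmono α (MvPolynomial.coeff α q)
        rwa [hq (MvPolynomial.mem_support_iff.mp hα)] at this
    rw [heq]
    exact (MvPolynomial.weightedHomogeneousSubmodule_fg A w hw k).map _
  -- Step 3: homogeneous generators of M
  obtain ⟨G, hG⟩ := Module.Finite.fg_top (R := S) (M := M)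
  let ι₀ := Σ g : G, (DirectSum.decompose ℳ (g : M)).support
  let x : ι₀ → M := fun i => (DirectSum.decompose ℳ (i.1 : M) i.2 : M)
  let e : ι₀ → ℕ := fun i => i.2
  have hxe : ∀ i, x i ∈ ℳ (e i) := fun i => SetLike.coe_mem _
  have hspan : Submodule.span S (Set.range x) = ⊤ := by
    rw [← top_le_iff, ← hG, Submodule.span_le]
    intro g hg
    rw [SetLike.mem_coe, ← DirectSum.sum_support_decompose ℳ g]
    exact Submodule.sum_mem _ fun j hj => Submodule.subset_span ⟨⟨⟨g, hg⟩, ⟨j, hj⟩⟩, rfl⟩
  let L : ι₀ → S →ₗ[A] M := fun i =>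
    { toFun := fun s => s • x i
      map_add' := fun a b => add_smul a b (x i)
      map_smul' := fun a s => by simp only [RingHom.id_apply]; exact smul_assoc a s (x i) }
  let T : ι₀ → Submodule A M := fun i => if e i ≤ n then (𝒜 (n - e i)).map (L i) else ⊥
  have hT : ∀ i, (T i).FG := fun i => by
    simp only [T]
    split_ifs
    · exact (hSk _).map _
    · exact Submodule.fg_bot
  have heq : ℳ n = ⨆ i, T i := by
    apply le_antisymm
    · intro m hm
      have hm' : m ∈ Submodule.span S (Set.range x) := by rw [hspan]; exact Submodule.mem_top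
      obtain ⟨c, rfl⟩ := (Submodule.mem_span_range_iff_exists_fun S).mp hm'
      rw [← DirectSum.decompose_of_mem_same ℳ hm, DirectSum.decompose_sum,
        DFinsupp.finsetSum_apply, Submodule.coe_sum]
      refine Submodule.sum_mem _ fun i _ => ?_
      rw [Groth.Agent.Lib.Helper14.proj_smul_of_mem 𝒜 ℳ (c i) (hxe i) n]
      split_ifs with hi
      · refine Submodule.mem_iSup_of_mem i ?_
        simp only [T, if_pos hi]
        exact ⟨_, SetLike.coe_mem (DirectSum.decompose 𝒜 (c i) (n - e i)), rfl⟩
      · exact zero_mem _
    · refine iSup_le fun i => ?_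
      simp only [T]
      split_ifs with hi
      · rw [Submodule.map_le_iff_le_comap]
        intro a ha
        rw [Submodule.mem_comap]
        have := SetLike.GradedSMul.smul_mem ha (hxe i)
        have h2 : (n - e i) +ᵥ e i = n := by
          show n - e i + e i = n
          omega
        rw [h2] at this
        exact this
      · exact bot_le
  rw [Module.Finite.iff_fg, heq]
  exact Submodule.fg_iSup _ hT

end Groth.Agent.S9617
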