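import Groth.Statements.S9619
-- import your own Groth.Agent.* helpers here

set_option autoImplicit false
universe u
open CAlg

namespace Groth.Agent.S9619

/-- For a ring R and two sets E, E' of idempotent elements of R with the same zero locus in Spec R, the
ideals generated by E and by E' are equal. -/
theorem result {R : Type u} [CommRing R] (E E' : Set R) (hE : ∀ e ∈ E, IsIdempotentElem e) (hE' : ∀ e ∈ E', IsIdempotentElem e) (h : PrimeSpectrum.zeroLocus E = PrimeSpectrum.zeroLocus E') :
    Ideal.span E = Ideal.span E' := by
  have key : ∀ (A B : Set R), (∀ e ∈ A, IsIdempotentElem e) →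
      PrimeSpectrum.zeroLocus A = PrimeSpectrum.zeroLocus B → Ideal.span A ≤ Ideal.span B := by
    intro A B hA hAB
    rw [Ideal.span_le]
    intro e he
    have hrad : e ∈ (Ideal.span B).radical := by
      rw [← PrimeSpectrum.vanishingIdeal_zeroLocus_eq_radical, PrimeSpectrum.zeroLocus_span, ← hAB]
      exact PrimeSpectrum.subset_vanishingIdeal_zeroLocus A he
    obtain ⟨n, hn⟩ := hrad
    cases n with
    | zero =>
      simp only [pow_zero] at hn
      rw [(Ideal.eq_top_iff_one _).mpr hn]
      trivial
    | succ m =>
      rwa [(hA e he).pow_succ_eq] at hn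
  exact le_antisymm (key E E' hE h) (key E' E hE' h.symm)

end Groth.Agent.S9619
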