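import Groth.Statements.S9621
import Mathlib.RingTheory.Ideal.MinimalPrime.Localization
-- import your own Groth.Agent.* helpers here

set_option autoImplicit false
universe u
open CAlg

namespace Groth.Agent.S9621

/-- Let R be a ring, p a minimal prime of R and W a quasi-compact open subset of Spec R not containing
p. Then there is an f ∈ R, f ∉ p, whose basic open D(f) is disjoint from W. -/
theorem result {R : Type u} [CommRing R] (p : PrimeSpectrum R) (hp : p.asIdeal ∈ minimalPrimes R) (W : Set (PrimeSpectrum R)) (hWo : IsOpen W) (hWc : IsCompact W) (hpW : p ∉ W) :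
    ∃ f : R, f ∉ p.asIdeal ∧ Disjoint (PrimeSpectrum.basicOpen f : Set (PrimeSpectrum R)) W := by
  classical
  -- elements of a minimal prime are nilpotent up to a unit outside p
  have key : ∀ x ∈ p.asIdeal, ∃ s : R, s ∉ p.asIdeal ∧ ∃ n : ℕ, s * x ^ n = 0 := by
    intro x hx
    have hmin : p.asIdeal ∈ (⊥ : Ideal R).minimalPrimes := hp
    have hrad := IsLocalization.AtPrime.radical_map_of_mem_minimalPrimes
      (A := Localization.AtPrime p.asIdeal) p.asIdeal ⊥ hmin
    have hx' : algebraMap R (Localization.AtPrime p.asIdeal) x ∈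
        (Ideal.map (algebraMap R (Localization.AtPrime p.asIdeal)) (⊥ : Ideal R)).radical := by
      rw [hrad]
      exact Ideal.mem_map_of_mem _ hx
    rw [Ideal.map_bot] at hx'
    obtain ⟨n, hn⟩ := hx'
    rw [Ideal.mem_bot, ← map_pow,
      IsLocalization.map_eq_zero_iff p.asIdeal.primeCompl] at hn
    obtain ⟨⟨s, hs⟩, hsx⟩ := hn
    exact ⟨s, hs, n, hsx⟩
  obtain ⟨t, ht⟩ := (PrimeSpectrum.isCompact_isOpen_iff.mp ⟨hWc, hWo⟩)
  have htp : ∀ g ∈ t, g ∈ p.asIdeal := by
    intro g hg
    by_contra hgp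
    apply hpW
    rw [← ht]
    intro hz
    exact hgp (hz (Finset.mem_coe.mpr hg))
  choose! s hs n hn using fun g (hg : g ∈ t) => key g (htp g hg)
  refine ⟨∏ g ∈ t, s g, ?_, ?_⟩
  · intro hmem
    obtain ⟨g, hg, hgp⟩ := (Ideal.IsPrime.prod_mem_iff (hp := p.isPrime)).mp hmem
    exact hs g hg hgp
  · rw [Set.disjoint_left]
    intro q hqf hqW
    rw [← ht] at hqW
    simp only [Set.mem_compl_iff, PrimeSpectrum.mem_zeroLocus, Set.not_subset] at hqW
    obtain ⟨g, hg, hgq⟩ := hqW
    have hf : (∏ g ∈ t, s g) ∉ q.asIdeal := hqf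
    apply hf
    have hdvd : s g ∣ ∏ g ∈ t, s g := Finset.dvd_prod_of_mem s hg
    have h0 : s g * g ^ n g ∈ q.asIdeal := by rw [hn g hg]; exact q.asIdeal.zero_mem
    rcases q.isPrime.mem_or_mem h0 with h | h
    · exact Ideal.mem_of_dvd _ hdvd h
    · exact absurd (q.isPrime.mem_of_pow_mem _ h) hgq

end Groth.Agent.S9621
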