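import Groth.Statements.S9622
import Mathlib.RingTheory.Finiteness.NilpotentKer
import Mathlib.RingTheory.LocalRing.Basic
import Mathlib.RingTheory.Jacobson.Ideal
import Mathlib.RingTheory.HopkinsLevitzki
-- import your own Groth.Agent.* helpers here

set_option autoImplicit false
universe u
open CAlg

namespace Groth.Agent.S9622

/-- Let R → S be a ring map whose target S is a local Artinian ring, and write m for the maximal ideal
of S. Then S is a finite R-module exactly when S/m is, and S is an R-algebra of finite type exactly
when S/m is. -/
theorem result {R S : Type u} [CommRing R] [CommRing S] [Algebra R S] [IsArtinianRing S] [IsLocalRing S] :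
    (Module.Finite R S ↔ Module.Finite R (S ⧸ IsLocalRing.maximalIdeal S)) ∧
      (Algebra.FiniteType R S ↔ Algebra.FiniteType R (S ⧸ IsLocalRing.maximalIdeal S)) := by
  have hnil : IsNilpotent (IsLocalRing.maximalIdeal S) := by
    have := IsArtinianRing.isNilpotent_jacobson_bot (R := S)
    rwa [IsLocalRing.jacobson_eq_maximalIdeal _ bot_ne_top] at this
  have hle : IsLocalRing.maximalIdeal S ≤ nilradical S := by
    obtain ⟨n, hn⟩ := hnil
    intro x hx
    exact ⟨n, by
      have := Ideal.pow_mem_pow hx n
      rw [hn] at this
      exact (Ideal.mem_bot.mp this)⟩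
  have hfg : (IsLocalRing.maximalIdeal S).FG := IsNoetherian.noetherian _
  have hker : RingHom.ker (Ideal.Quotient.mkₐ R (IsLocalRing.maximalIdeal S)) =
      IsLocalRing.maximalIdeal S := Ideal.Quotient.mkₐ_ker R _
  constructor
  · constructor
    · intro h
      exact Module.Finite.of_surjective (Ideal.Quotient.mkₐ R _).toLinearMap
        (Ideal.Quotient.mkₐ_surjective R _)
    · intro h
      exact Module.finite_of_surjective_of_ker_le_nilradical (Ideal.Quotient.mkₐ R _)
        (Ideal.Quotient.mkₐ_surjective R _) (by rw [hker]; exact hle) (by rw [hker]; exact hfg)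
  · constructor
    · intro h
      exact Algebra.FiniteType.of_surjective (Ideal.Quotient.mkₐ R _)
        (Ideal.Quotient.mkₐ_surjective R _)
    · intro h
      classical
      obtain ⟨t, ht⟩ := h.out
      choose lift hlift using fun y : S ⧸ IsLocalRing.maximalIdeal S => Ideal.Quotient.mk_surjective y
      let t' : Finset S := t.image lift
      let T : Subalgebra R S := Algebra.adjoin R (t' : Set S)
      have hT : Algebra.FiniteType R T :=
        (Subalgebra.fg_iff_finiteType _).mp (Subalgebra.fg_adjoin_finset t')
      have hsurjT : Function.Surjective (algebraMap T (S ⧸ IsLocalRing.maximalIdeal S)) := by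
        have hmap : T.map (Ideal.Quotient.mkₐ R (IsLocalRing.maximalIdeal S)) = ⊤ := by
          rw [AlgHom.map_adjoin, ← ht]
          congr 1
          ext y
          simp only [t', Finset.coe_image, Set.mem_image, Finset.mem_coe]
          constructor
          · rintro ⟨z, ⟨w, hw, rfl⟩, rfl⟩
            rw [Ideal.Quotient.mkₐ_eq_mk, hlift]
            exact hw
          · intro hy
            exact ⟨lift y, ⟨y, hy, rfl⟩, by rw [Ideal.Quotient.mkₐ_eq_mk, hlift]⟩
        intro y
        have : y ∈ T.map (Ideal.Quotient.mkₐ R (IsLocalRing.maximalIdeal S)) := by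
          rw [hmap]; trivial
        obtain ⟨z, hz, rfl⟩ := Subalgebra.mem_map.mp this
        exact ⟨⟨z, hz⟩, rfl⟩
      have hfinT : Module.Finite T (S ⧸ IsLocalRing.maximalIdeal S) :=
        Module.Finite.of_surjective (Algebra.linearMap T (S ⧸ IsLocalRing.maximalIdeal S)) hsurjT
      have hkerT : RingHom.ker (Ideal.Quotient.mkₐ T (IsLocalRing.maximalIdeal S)) =
          IsLocalRing.maximalIdeal S := Ideal.Quotient.mkₐ_ker T _
      have hTS : Module.Finite T S :=
        Module.finite_of_surjective_of_ker_le_nilradical (Ideal.Quotient.mkₐ T _)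
          (Ideal.Quotient.mkₐ_surjective T _) (by rw [hkerT]; exact hle)
          (by rw [hkerT]; exact hfg)
      exact Algebra.FiniteType.trans hT (Module.Finite.finiteType S)

end Groth.Agent.S9622
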