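import Groth.Statements.S9633
import Mathlib.RingTheory.Ideal.MinimalPrime.Localization
-- import your own Groth.Agent.* helpers here

set_option autoImplicit false
universe u
open CAlg

namespace Groth.Agent.S9633

/-- For a ring R with spectrum X the following are equivalent: (1) X is profinite, i.e. compact,
Hausdorff and totally disconnected; (2) X is Hausdorff; (3) X is totally disconnected; (4) every
quasi-compact open subset of X is closed; (5) there are no nontrivial inclusions among prime ideals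
of R; (6) every prime ideal of R is maximal; (7) every prime ideal of R is a minimal prime; (8)
every standard open D(f) is closed. -/
theorem result {R : Type u} [CommRing R] :
    [CompactSpace (PrimeSpectrum R) ∧ T2Space (PrimeSpectrum R) ∧ TotallyDisconnectedSpace (PrimeSpectrum R),
      T2Space (PrimeSpectrum R),
      TotallyDisconnectedSpace (PrimeSpectrum R),
      ∀ W : Set (PrimeSpectrum R), IsOpen W → IsCompact W → IsClosed W,
      ∀ p q : PrimeSpectrum R, p ≤ q → p = q,
      ∀ p : Ideal R, p.IsPrime → p.IsMaximal,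
      ∀ p : Ideal R, p.IsPrime → p ∈ minimalPrimes R,
      ∀ f : R, IsClosed (PrimeSpectrum.basicOpen f : Set (PrimeSpectrum R))].TFAE := by
  classical
  -- (8) implies no inclusions
  have h85 : (∀ f : R, IsClosed (PrimeSpectrum.basicOpen f : Set (PrimeSpectrum R))) →
      ∀ p q : PrimeSpectrum R, p ≤ q → p = q := by
    intro h8 p q hpq
    by_contra hne
    have hlt : p.asIdeal < q.asIdeal := lt_of_le_of_ne hpq (fun e => hne (PrimeSpectrum.ext e))
    obtain ⟨f, hfq, hfp⟩ := SetLike.exists_of_lt hlt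
    have hsp : p ⤳ q := (PrimeSpectrum.le_iff_specializes p q).mp hpq
    have hpD : p ∈ (PrimeSpectrum.basicOpen f : Set (PrimeSpectrum R)) := hfp
    have hqD : q ∈ (PrimeSpectrum.basicOpen f : Set (PrimeSpectrum R)) :=
      hsp.mem_closed (h8 f) hpD
    exact hqD hfq
  -- separation by a clopen basic open
  have hsep : (∀ f : R, IsClosed (PrimeSpectrum.basicOpen f : Set (PrimeSpectrum R))) →
      ∀ p q : PrimeSpectrum R, p ≠ q → ∃ f : R,
        q ∈ (PrimeSpectrum.basicOpen f : Set (PrimeSpectrum R)) ∧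
        p ∉ (PrimeSpectrum.basicOpen f : Set (PrimeSpectrum R)) := by
    intro h8 p q hpq
    have hnle : ¬ p.asIdeal ≤ q.asIdeal := fun hle => hpq (h85 h8 p q hle)
    obtain ⟨f, hfp, hfq⟩ := SetLike.not_le_iff_exists.mp hnle
    exact ⟨f, hfq, fun h => h hfp⟩
  have hT2 : (∀ f : R, IsClosed (PrimeSpectrum.basicOpen f : Set (PrimeSpectrum R))) →
      T2Space (PrimeSpectrum R) := by
    intro h8
    refine ⟨fun p q hpq => ?_⟩
    obtain ⟨f, hq, hp⟩ := hsep h8 p q hpq
    exact ⟨(PrimeSpectrum.basicOpen f : Set (PrimeSpectrum R))ᶜ, PrimeSpectrum.basicOpen f,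
      (h8 f).isOpen_compl, (PrimeSpectrum.basicOpen f).isOpen, hp, hq, disjoint_compl_left⟩
  have hTD : (∀ f : R, IsClosed (PrimeSpectrum.basicOpen f : Set (PrimeSpectrum R))) →
      TotallyDisconnectedSpace (PrimeSpectrum R) := by
    intro h8
    have : TotallySeparatedSpace (PrimeSpectrum R) := by
      refine ⟨fun p _ q _ hpq => ?_⟩
      obtain ⟨f, hq, hp⟩ := hsep h8 p q hpq
      exact ⟨(PrimeSpectrum.basicOpen f : Set (PrimeSpectrum R))ᶜ, PrimeSpectrum.basicOpen f,
        (h8 f).isOpen_compl, (PrimeSpectrum.basicOpen f).isOpen, hp, hq,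
        by rw [Set.compl_union_self], disjoint_compl_left⟩
    infer_instance
  tfae_have 1 → 2 := fun h => h.2.1
  tfae_have 2 → 5 := by
    intro h p q hpq
    have hsp : p ⤳ q := (PrimeSpectrum.le_iff_specializes p q).mp hpq
    exact hsp.eq
  tfae_have 3 → 5 := by
    intro h p q hpq
    have hsp : p ⤳ q := (PrimeSpectrum.le_iff_specializes p q).mp hpq
    have hpre : IsPreconnected (closure {p}) := isPreconnected_singleton.closure
    have hsub := TotallyDisconnectedSpace.isTotallyDisconnected_univ _ (Set.subset_univ _) hpre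
    exact hsub (subset_closure rfl) (specializes_iff_mem_closure.mp hsp)
  tfae_have 5 → 6 := by
    intro h p hp
    obtain ⟨m, hm, hpm⟩ := Ideal.exists_le_maximal p hp.ne_top
    have := h ⟨p, hp⟩ ⟨m, hm.isPrime⟩ hpm
    have e : p = m := congrArg PrimeSpectrum.asIdeal this
    rw [e]; exact hm
  tfae_have 6 → 7 := by
    intro h p hp
    refine ⟨⟨hp, bot_le⟩, fun q hq hqp => ?_⟩
    have hqmax := h q hq.1
    exact (hqmax.eq_of_le hp.ne_top hqp).ge
  tfae_have 7 → 5 := by
    intro h p q hpq
    have hq := h q.asIdeal q.isPrime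
    exact PrimeSpectrum.ext (le_antisymm hpq (hq.2 ⟨p.isPrime, bot_le⟩ hpq))
  tfae_have 7 → 8 := by
    intro h f
    have key : ∀ p : PrimeSpectrum R, f ∈ p.asIdeal → ∃ s : R, s ∉ p.asIdeal ∧ ∃ n : ℕ,
        s * f ^ n = 0 := by
      intro p hfp
      have hmin : p.asIdeal ∈ (⊥ : Ideal R).minimalPrimes := h p.asIdeal p.isPrime
      have hrad := IsLocalization.AtPrime.radical_map_of_mem_minimalPrimes
        (A := Localization.AtPrime p.asIdeal) p.asIdeal ⊥ hmin
      have hx' : algebraMap R (Localization.AtPrime p.asIdeal) f ∈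
          (Ideal.map (algebraMap R (Localization.AtPrime p.asIdeal)) (⊥ : Ideal R)).radical := by
        rw [hrad]
        exact Ideal.mem_map_of_mem _ hfp
      rw [Ideal.map_bot] at hx'
      obtain ⟨n, hn⟩ := hx'
      rw [Ideal.mem_bot, ← map_pow,
        IsLocalization.map_eq_zero_iff p.asIdeal.primeCompl] at hn
      obtain ⟨⟨s, hs⟩, hsx⟩ := hn
      exact ⟨s, hs, n, hsx⟩
    have : (PrimeSpectrum.basicOpen f : Set (PrimeSpectrum R)) =
        PrimeSpectrum.zeroLocus {s : R | ∃ n : ℕ, s * f ^ n = 0} := by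
      ext p
      simp only [SetLike.mem_coe, PrimeSpectrum.mem_basicOpen, PrimeSpectrum.mem_zeroLocus]
      constructor
      · rintro hfp s ⟨n, hn⟩
        have : s * f ^ n ∈ p.asIdeal := by rw [hn]; exact p.asIdeal.zero_mem
        rcases p.isPrime.mem_or_mem this with h1 | h1
        · exact h1
        · exact absurd (p.isPrime.mem_of_pow_mem _ h1) hfp
      · intro hsub hfp
        obtain ⟨s, hs, n, hn⟩ := key p hfp
        exact hs (hsub ⟨n, hn⟩)
    rw [this]
    exact PrimeSpectrum.isClosed_zeroLocus _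
  tfae_have 8 → 1 := fun h8 => ⟨inferInstance, hT2 h8, hTD h8⟩
  tfae_have 8 → 3 := fun h8 => hTD h8
  tfae_have 8 → 4 := by
    intro h8 W hWo hWc
    obtain ⟨t, ht⟩ := PrimeSpectrum.isCompact_isOpen_iff.mp ⟨hWc, hWo⟩
    have : W = ⋃ g ∈ t, (PrimeSpectrum.basicOpen g : Set (PrimeSpectrum R)) := by
      rw [← ht]
      ext p
      simp only [Set.mem_compl_iff, PrimeSpectrum.mem_zeroLocus, Set.not_subset, Set.mem_iUnion,
        SetLike.mem_coe, PrimeSpectrum.mem_basicOpen, Finset.mem_coe, exists_prop]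
    rw [this]
    exact Set.Finite.isClosed_biUnion t.finite_toSet (fun g _ => h8 g)
  tfae_have 4 → 8 := fun h4 f =>
    h4 _ (PrimeSpectrum.basicOpen f).isOpen (PrimeSpectrum.isCompact_basicOpen f)
  tfae_finish

end Groth.Agent.S9633
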