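import Groth.Statements.S9637
import Mathlib.RingTheory.Ideal.AssociatedPrime.Finiteness
-- import your own Groth.Agent.* helpers here

set_option autoImplicit false
universe u
open CAlg

namespace Groth.Agent.S9637

/-- Let R be a local Noetherian ring, I an ideal contained in its maximal ideal, and M a finite
R-module. Then I contains an M-regular element (one acting injectively on M) if and only if no
associated prime of M contains I. -/
theorem result {R : Type u} [CommRing R] [IsNoetherianRing R] [IsLocalRing R] (I : Ideal R) (hI : I ≤ IsLocalRing.maximalIdeal R) (M : Type u) [AddCommGroup M] [Module R M] [Module.Finite R M] :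
    (∃ x ∈ I, IsSMulRegular M x) ↔ ∀ q ∈ associatedPrimes R M, ¬ I ≤ q := by
  classical
  have hzd := biUnion_associatedPrimes_eq_zero_divisors R M
  constructor
  · rintro ⟨x, hxI, hreg⟩ q hq hIq
    have hxq : x ∈ q := hIq hxI
    have : x ∈ ⋃ p ∈ associatedPrimes R M, (p : Set R) := Set.mem_biUnion hq hxq
    rw [hzd] at this
    obtain ⟨m, hm0, hxm⟩ := this
    exact hm0 (hreg (hxm.trans (smul_zero x).symm))
  · intro h
    have hfin : (associatedPrimes R M).Finite := associatedPrimes.finite R M
    have hnot : ¬ ((I : Set R) ⊆ ⋃ P ∈ (↑hfin.toFinset : Set (Ideal R)), (P : Set R)) := by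
      refine (Ideal.subset_union_prime (f := fun P : Ideal R => P) ⊥ ⊥
        (fun P hP _ _ => (hfin.mem_toFinset.mp hP).isPrime)).not.mpr ?_
      rintro ⟨P, hP, hIP⟩
      exact h P (hfin.mem_toFinset.mp hP) hIP
    rw [Set.not_subset] at hnot
    obtain ⟨x, hxI, hxA⟩ := hnot
    refine ⟨x, hxI, ?_⟩
    intro m₁ m₂ hm
    have hm' : x • m₁ = x • m₂ := hm
    have hsub : x • (m₁ - m₂) = 0 := by rw [smul_sub, hm', sub_self]
    by_contra hne
    have hne' : m₁ - m₂ ≠ 0 := sub_ne_zero.mpr hne
    have : x ∈ ⋃ p ∈ associatedPrimes R M, (p : Set R) := by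
      rw [hzd]; exact ⟨m₁ - m₂, hne', hsub⟩
    apply hxA
    simp only [Set.mem_iUnion, Set.Finite.coe_toFinset] at this ⊢
    exact this

end Groth.Agent.S9637
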