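import Groth.Statements.S9638
import Groth.Agent.S9595
import Groth.Agent.S9594
import Mathlib.RingTheory.Flat.TorsionFree
import Mathlib.RingTheory.Ideal.MinimalPrime.Localization
-- import your own Groth.Agent.* helpers here

set_option autoImplicit false
universe u
open CAlg

namespace Groth.Agent.S9638

/-- Let R → S be a ring map with R a domain with fraction field K, and N an S-module flat over R.
Writing T for the image in S of the nonzero elements of R, so that T⁻¹S = S ⊗_R K and T⁻¹N = N ⊗_R
K, the associated primes of N over S (primes equal to the annihilator of an element) coincide with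
those of T⁻¹N over S, and these are exactly the inverse images in S of the associated primes of T⁻¹N
over T⁻¹S. -/
theorem result {R S : Type u} [CommRing R] [IsDomain R] [CommRing S] [Algebra R S] (N : Type u) [AddCommGroup N] [Module S N] [Module R N] [IsScalarTower R S N] [Module.Flat R N] :
    FlatCA.ass S N = FlatCA.ass S (LocalizedModule (Algebra.algebraMapSubmonoid S (nonZeroDivisors R)) N) ∧
      FlatCA.ass S N = Ideal.comap (algebraMap S (Localization (Algebra.algebraMapSubmonoid S (nonZeroDivisors R)))) '' FlatCA.ass (Localization (Algebra.algebraMapSubmonoid S (nonZeroDivisors R))) (LocalizedModule (Algebra.algebraMapSubmonoid S (nonZeroDivisors R)) N) := by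
  classical
  have hreg : ∀ t ∈ Algebra.algebraMapSubmonoid S (nonZeroDivisors R), IsSMulRegular N t := by
    rintro _ ⟨r, hr, rfl⟩
    have := Module.Flat.isSMulRegular_of_nonZeroDivisors (M := N) hr
    intro a b hab
    apply this
    simp only [algebraMap_smul] at hab
    exact hab
  have h1 := Groth.Agent.S9595.result _ N hreg
  refine ⟨h1, ?_⟩
  rw [h1]
  exact (Groth.Agent.S9594.result (Algebra.algebraMapSubmonoid S (nonZeroDivisors R)) N).1

end Groth.Agent.S9638
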