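import Groth.Statements.S9640
import Groth.Agent.S9590
import Mathlib.RingTheory.Flat.TorsionFree
import Mathlib.RingTheory.Ideal.MinimalPrime.Localization
-- import your own Groth.Agent.* helpers here

set_option autoImplicit false
universe u
open CAlg

namespace Groth.Agent.S9640

/-- Let R → S be a ring map with R a domain with fraction field K and N an S-module flat over R. Writing
T for the image in S of the nonzero elements of R, so that T⁻¹S = S ⊗_R K and T⁻¹N = N ⊗_R K, the
primes of S weakly associated to N are exactly the inverse images in S of the primes of T⁻¹S weakly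
associated to T⁻¹N. -/
theorem result {R S : Type u} [CommRing R] [IsDomain R] [CommRing S] [Algebra R S] (N : Type u) [AddCommGroup N] [Module S N] [Module R N] [IsScalarTower R S N] [Module.Flat R N] :
    FlatCA.weakAss S N = Ideal.comap (algebraMap S (Localization (Algebra.algebraMapSubmonoid S (nonZeroDivisors R)))) '' FlatCA.weakAss (Localization (Algebra.algebraMapSubmonoid S (nonZeroDivisors R))) (LocalizedModule (Algebra.algebraMapSubmonoid S (nonZeroDivisors R)) N) := by
  classical
  have hreg : ∀ t ∈ Algebra.algebraMapSubmonoid S (nonZeroDivisors R), IsSMulRegular N t := by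
    rintro _ ⟨r, hr, rfl⟩
    have := Module.Flat.isSMulRegular_of_nonZeroDivisors (M := N) hr
    intro a b hab
    apply this
    simp only [algebraMap_smul] at hab
    exact hab
  rw [Groth.Agent.S9590.result _ N hreg]
  have hann : ∀ x : LocalizedModule (Algebra.algebraMapSubmonoid S (nonZeroDivisors R)) N,
      (Submodule.span S {x}).annihilator = Ideal.comap (algebraMap S
        (Localization (Algebra.algebraMapSubmonoid S (nonZeroDivisors R))))
        (Submodule.span (Localization (Algebra.algebraMapSubmonoid S (nonZeroDivisors R))) {x}).annihilator := by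
    intro x; ext r
    rw [Ideal.mem_comap, Submodule.mem_annihilator_span_singleton,
      Submodule.mem_annihilator_span_singleton, algebraMap_smul]
  ext p
  constructor
  · rintro ⟨x, hx⟩
    rw [hann x, IsLocalization.minimalPrimes_comap (Algebra.algebraMapSubmonoid S (nonZeroDivisors R))] at hx
    obtain ⟨q, hq, rfl⟩ := hx
    exact ⟨q, ⟨x, hq⟩, rfl⟩
  · rintro ⟨q, ⟨x, hq⟩, rfl⟩
    refine ⟨x, ?_⟩
    rw [hann x, IsLocalization.minimalPrimes_comap (Algebra.algebraMapSubmonoid S (nonZeroDivisors R))]
    exact ⟨q, hq, rfl⟩

end Groth.Agent.S9640
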