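import Groth.Statements.S9641
import Mathlib.RingTheory.Flat.Basic
import Mathlib.LinearAlgebra.Basis.VectorSpace
-- import your own Groth.Agent.* helpers here

set_option autoImplicit false
universe u
open CAlg

namespace Groth.Agent.S9641

open TensorProduct in
/-- Let k be a field and R, S two k-algebras. If R ⊗_k S is not reduced then there are finitely
generated k-subalgebras R' ⊆ R and S' ⊆ S such that R' ⊗_k S' is not reduced. -/
theorem result {k R S : Type u} [Field k] [CommRing R] [CommRing S] [Algebra k R] [Algebra k S] (h : ¬ IsReduced (R ⊗[k] S)) :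
    ∃ (R' : Subalgebra k R) (S' : Subalgebra k S), R'.FG ∧ S'.FG ∧ ¬ IsReduced (R' ⊗[k] S') := by
  have step1 : ∃ S' : Subalgebra k S, S'.FG ∧ ¬ IsReduced (R ⊗[k] S') := by
    by_contra hcon
    push Not at hcon
    exact h (IsReduced.tensorProduct_of_flat_of_forall_fg hcon)
  obtain ⟨S', hS', hS'red⟩ := step1
  have step2 : ∃ R' : Subalgebra k R, R'.FG ∧ ¬ IsReduced (S' ⊗[k] R') := by
    by_contra hcon
    push Not at hcon
    apply hS'red
    have := IsReduced.tensorProduct_of_flat_of_forall_fg (C := S') (A := R) hcon
    exact isReduced_of_injective (Algebra.TensorProduct.comm k R S').toRingHom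
      (Algebra.TensorProduct.comm k R S').injective
  obtain ⟨R', hR', hR'red⟩ := step2
  refine ⟨R', S', hR', hS', fun hred => hR'red ?_⟩
  exact isReduced_of_injective (Algebra.TensorProduct.comm k S' R').toRingHom
    (Algebra.TensorProduct.comm k S' R').injective

end Groth.Agent.S9641
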