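import Groth.Statements.S9645
import Mathlib.RingTheory.Localization.Integral
-- import your own Groth.Agent.* helpers here

set_option autoImplicit false
universe u
open CAlg

namespace Groth.Agent.S9645

/-- Integral closure commutes with localization. Let A → B be a ring map, S a multiplicative subset of
A, and A_S, B_S the localizations of A at S and of B at the image of S. Then an element x of B_S is
integral over A_S if and only if x·s = b for some s ∈ S and some b ∈ B integral over A (images taken
in B_S); that is, the integral closure of A_S in B_S is S⁻¹B' for B' the integral closure of A in B. -/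
theorem result {A B As Bs : Type u} [CommRing A] [CommRing B] [CommRing As] [CommRing Bs] [Algebra A B] [Algebra A As] [Algebra B Bs] [Algebra As Bs] [Algebra A Bs] [IsScalarTower A B Bs] [IsScalarTower A As Bs]
    (S : Submonoid A) [IsLocalization S As] [IsLocalization (Algebra.algebraMapSubmonoid B S) Bs] (x : Bs) :
    IsIntegral As x ↔ ∃ b : B, IsIntegral A b ∧ ∃ s ∈ S, x * algebraMap A Bs s = algebraMap B Bs b := by
  constructor
  · intro hx
    obtain ⟨⟨m, hm⟩, hmx⟩ := IsIntegral.exists_multiple_integral_of_isLocalization S x hx
    -- write m • x as a fraction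
    obtain ⟨⟨y, t⟩, hyt⟩ := IsLocalization.surj (Algebra.algebraMapSubmonoid B S) (m • x)
    obtain ⟨t, ht⟩ := t
    obtain ⟨s', hs', rfl⟩ := ht
    have hy : IsIntegral A (algebraMap B Bs y) := by
      simp only at hyt
      rw [← hyt]
      refine hmx.mul ?_
      rw [← IsScalarTower.algebraMap_apply]
      exact isIntegral_algebraMap
    obtain ⟨m', hm', hm'y⟩ := IsLocalization.exists_isIntegral_smul_of_isIntegral_map S hy
    refine ⟨m' • y, hm'y, m * s' * m', S.mul_mem (S.mul_mem hm hs') hm', ?_⟩
    simp only at hyt
    have hyt' : algebraMap A Bs m * x * algebraMap A Bs s' = algebraMap B Bs y := by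
      rw [← hyt, ← IsScalarTower.algebraMap_apply A B Bs s', Algebra.smul_def]
    rw [Algebra.smul_def, (algebraMap B Bs).map_mul, ← IsScalarTower.algebraMap_apply A B Bs m',
      ← hyt']
    simp only [map_mul]
    ring
  · rintro ⟨b, hb, s, hs, hxs⟩
    have hb' : IsIntegral As (algebraMap B Bs b) := by
      have := hb.map (IsScalarTower.toAlgHom A B Bs)
      exact this.tower_top
    have hinv : algebraMap As Bs (IsLocalization.mk' As (1 : A) ⟨s, hs⟩) *
        algebraMap A Bs s = 1 := by
      rw [IsScalarTower.algebraMap_apply A As Bs s, ← map_mul, IsLocalization.mk'_spec,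
        map_one, map_one]
    have : x = algebraMap B Bs b * algebraMap As Bs (IsLocalization.mk' As (1 : A) ⟨s, hs⟩) := by
      rw [← hxs, mul_assoc, mul_comm (algebraMap A Bs s), hinv, mul_one]
    rw [this]
    exact hb'.mul isIntegral_algebraMap

end Groth.Agent.S9645
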