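import Groth.Statements.S9646
import Mathlib.RingTheory.Localization.Integral
-- import your own Groth.Agent.* helpers here

set_option autoImplicit false
universe u
open CAlg

namespace Groth.Agent.S9646

/-- (2) ⇒ (1): let R → S be a ring map and x ∈ S. If for every prime ideal p of R the image of x in S_p
(the localization of S at the image of R ∖ p) is integral over R_p, then x is integral over R. Here
R_p and S_p are any rings satisfying the localization universal properties. -/
theorem result {R S : Type u} [CommRing R] [CommRing S] [Algebra R S] (x : S)
    (h : ∀ (p : Ideal R) [p.IsPrime] (Rp Sp : Type u) [CommRing Rp] [CommRing Sp] [Algebra R Rp] [Algebra S Sp] [Algebra Rp Sp] [Algebra R Sp] [IsScalarTower R S Sp] [IsScalarTower R Rp Sp] [IsLocalization.AtPrime Rp p] [IsLocalization (Algebra.algebraMapSubmonoid S p.primeCompl) Sp], IsIntegral Rp (algebraMap S Sp x)) :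
    IsIntegral R x := by
  classical
  let I : Ideal R :=
    { carrier := {r | IsIntegral R (r • x)}
      add_mem' := fun {a b} ha hb => by
        show IsIntegral R ((a + b) • x)
        rw [add_smul]; exact ha.add hb
      zero_mem' := by
        show IsIntegral R ((0 : R) • x)
        rw [zero_smul]; exact isIntegral_zero
      smul_mem' := fun c r hr => by
        show IsIntegral R ((c • r) • x)
        rw [smul_eq_mul, mul_smul]; exact hr.smul c }
  have h1 : (1 : R) ∈ I := by
    by_contra h1
    have hI : I ≠ ⊤ := fun e => h1 (e ▸ Submodule.mem_top)
    obtain ⟨p, hp, hIp⟩ := Ideal.exists_le_maximal I hI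
    have hx := h p (Localization.AtPrime p) (Localization (Algebra.algebraMapSubmonoid S p.primeCompl))
    obtain ⟨⟨m, hm⟩, hmx⟩ := IsIntegral.exists_multiple_integral_of_isLocalization p.primeCompl
      (algebraMap S (Localization (Algebra.algebraMapSubmonoid S p.primeCompl)) x) hx
    have hy : IsIntegral R (algebraMap S (Localization (Algebra.algebraMapSubmonoid S p.primeCompl))
        (m • x)) := by
      have e : algebraMap S (Localization (Algebra.algebraMapSubmonoid S p.primeCompl)) (m • x) =
          (⟨m, hm⟩ : p.primeCompl) • algebraMap S
            (Localization (Algebra.algebraMapSubmonoid S p.primeCompl)) x := by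
        rw [Submonoid.smul_def, Algebra.smul_def, Algebra.smul_def, map_mul,
          ← IsScalarTower.algebraMap_apply]
      rw [e]; exact hmx
    obtain ⟨m', hm', hm'y⟩ := IsLocalization.exists_isIntegral_smul_of_isIntegral_map
      p.primeCompl hy
    have hmem : m' * m ∈ I := by
      show IsIntegral R ((m' * m) • x)
      rw [mul_smul]; exact hm'y
    have := hIp hmem
    rcases hp.isPrime.mem_or_mem this with h2 | h2
    · exact hm' h2
    · exact hm h2
  have : IsIntegral R ((1 : R) • x) := h1
  rwa [one_smul] at this

end Groth.Agent.S9646
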