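import Groth.Statements.S9650
import Mathlib.FieldTheory.FinTrdeg
import Mathlib.FieldTheory.PrimitiveElement
import Mathlib.FieldTheory.IntermediateField.Adjoin.Algebra
-- import your own Groth.Agent.* helpers here

set_option autoImplicit false
universe u
open CAlg

namespace Groth.Agent.S9650

/-- Let K/k be a finitely generated field extension that is separably generated, i.e. admits a
transcendence basis over whose generated subfield K is separable algebraic. Then K is generated over
k by finitely many elements x_1, …, x_r, y such that the x_i form a transcendence basis of K/k and y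
is separable over the subfield k(x_1, …, x_r). -/
theorem result {k K : Type u} [Field k] [Field K] [Algebra k K]
    (hfg : ∃ s : Finset K, IntermediateField.adjoin k (s : Set K) = ⊤)
    (hsep : ∃ (ι : Type u) (x : ι → K), IsTranscendenceBasis k x ∧ Algebra.IsSeparable (IntermediateField.adjoin k (Set.range x)) K) :
    ∃ (r : ℕ) (x : Fin r → K) (y : K), IsTranscendenceBasis k x ∧ IntermediateField.adjoin k (insert y (Set.range x)) = ⊤ ∧ IsSeparable (IntermediateField.adjoin k (Set.range x)) y := by
  obtain ⟨s, hs⟩ := hfg
  obtain ⟨ι, x, hx, hxs⟩ := hsep
  have hess : Algebra.EssFiniteType k K := IntermediateField.fg_top_iff.mp ⟨s, hs⟩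
  have hfin : Finite ι := finite_of_isTranscendenceBasis hx
  obtain ⟨r, ⟨e⟩⟩ := Finite.exists_equiv_fin ι
  have halg : Algebra.IsAlgebraic (IntermediateField.adjoin k (Set.range x)) K :=
    hx.isAlgebraic_field
  have h1 : IntermediateField.adjoin (IntermediateField.adjoin k (Set.range x)) (s : Set K) = ⊤ := by
    have hle : (⊤ : IntermediateField k K) ≤
        (IntermediateField.adjoin (IntermediateField.adjoin k (Set.range x)) (s : Set K)).restrictScalars k := by
      rw [← hs, IntermediateField.adjoin_le_iff]
      intro z hz
      rw [SetLike.mem_coe, IntermediateField.mem_restrictScalars]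
      exact IntermediateField.subset_adjoin (IntermediateField.adjoin k (Set.range x)) (s : Set K) hz
    rw [eq_top_iff]
    intro z _
    have := hle (show z ∈ (⊤ : IntermediateField k K) from trivial)
    rwa [IntermediateField.mem_restrictScalars] at this
  have hfd : FiniteDimensional (IntermediateField.adjoin k (Set.range x)) K := by
    have : FiniteDimensional (IntermediateField.adjoin k (Set.range x))
        (IntermediateField.adjoin (IntermediateField.adjoin k (Set.range x)) (s : Set K)) :=
      IntermediateField.finiteDimensional_adjoin (fun z _ => (halg.isAlgebraic z).isIntegral)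
    have h2 : FiniteDimensional (IntermediateField.adjoin k (Set.range x))
        (⊤ : IntermediateField (IntermediateField.adjoin k (Set.range x)) K) :=
      (IntermediateField.equivOfEq h1).toLinearEquiv.finiteDimensional
    exact (IntermediateField.topEquiv (F := IntermediateField.adjoin k (Set.range x)) (E := K)).toLinearEquiv.finiteDimensional
  obtain ⟨y, hy⟩ := Field.exists_primitive_element (IntermediateField.adjoin k (Set.range x)) K
  have hrange : Set.range (x ∘ e.symm) = Set.range x := EquivLike.range_comp x e.symm
  refine ⟨r, x ∘ e.symm, y, hx.comp_equiv e.symm, ?_, ?_⟩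
  · rw [hrange, Set.insert_eq, Set.union_comm, ← IntermediateField.adjoin_adjoin_left, hy]
    rfl
  · rw [hrange]
    exact Algebra.IsSeparable.isSeparable _ y

end Groth.Agent.S9650
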