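import Groth.Statements.S9656
-- import your own Groth.Agent.* helpers here

set_option autoImplicit false
universe u
open CAlg

namespace Groth.Agent.S9656

/-- Let R_i → S_i be ring maps indexed by a finite type ι, with product map R = Π R_i → S = Π S_i. Then
an element (s_i) of S is integral over R exactly when s_i is integral over R_i for every i; so
integral closure in a finite product is computed factor by factor. -/
theorem result {ι : Type u} [Fintype ι] {R S : ι → Type u} [∀ i, CommRing (R i)] [∀ i, CommRing (S i)] (f : ∀ i, R i →+* S i) (s : ∀ i, S i) :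
    (RingHom.pi fun i => (f i).comp (Pi.evalRingHom R i)).IsIntegralElem s ↔ ∀ i, (f i).IsIntegralElem (s i) := by
  classical
  have hcomp : ∀ i, (Pi.evalRingHom S i).comp (RingHom.pi fun i => (f i).comp (Pi.evalRingHom R i)) =
      (f i).comp (Pi.evalRingHom R i) := fun i => by ext x; rfl
  constructor
  · rintro ⟨P, hPm, hP⟩ i
    refine ⟨P.map (Pi.evalRingHom R i), hPm.map _, ?_⟩
    rw [Polynomial.eval₂_map, ← hcomp i]
    have := congrArg (Pi.evalRingHom S i) hP
    rw [Polynomial.hom_eval₂] at this
    simpa using this
  · intro h
    choose p hpm hp using h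
    let N : ℕ := Finset.univ.sup fun i => (p i).natDegree
    have hN : ∀ i, (p i).natDegree ≤ N := fun i => Finset.le_sup (f := fun i => (p i).natDegree)
      (Finset.mem_univ i)
    let q : ∀ i, Polynomial (R i) := fun i => p i * Polynomial.X ^ (N - (p i).natDegree)
    have hqN : ∀ i, (q i).coeff N = 1 := fun i => by
      simp only [q]
      rw [Polynomial.coeff_mul_X_pow', if_pos (Nat.sub_le _ _), Nat.sub_sub_self (hN i)]
      exact hpm i
    have hqlt : ∀ i n, N < n → (q i).coeff n = 0 := fun i n hn => by
      simp only [q]
      rw [Polynomial.coeff_mul_X_pow', if_pos (by omega)]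
      exact Polynomial.coeff_eq_zero_of_natDegree_lt (by have := hN i; omega)
    have hq0 : ∀ i, (q i).eval₂ (f i) (s i) = 0 := fun i => by
      simp only [q]
      rw [Polynomial.eval₂_mul, hp i, zero_mul]
    let P : Polynomial (∀ i, R i) := (Polynomial.piEquiv R).symm q
    have hPi : ∀ i, P.map (Pi.evalRingHom R i) = q i := fun i => by
      have := (Polynomial.piEquiv R).apply_symm_apply q
      exact congrFun this i
    have hPc : ∀ n i, P.coeff n i = (q i).coeff n := fun n i => by
      rw [← hPi i, Polynomial.coeff_map]; rfl
    refine ⟨P, ?_, ?_⟩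
    · apply Polynomial.monic_of_natDegree_le_of_coeff_eq_one N
      · rw [Polynomial.natDegree_le_iff_coeff_eq_zero]
        intro n hn
        funext i
        rw [hPc]
        exact hqlt i n (by exact_mod_cast hn)
      · funext i
        rw [hPc, hqN]; rfl
    · funext i
      have := Polynomial.hom_eval₂ P (RingHom.pi fun i => (f i).comp (Pi.evalRingHom R i))
        (Pi.evalRingHom S i) s
      simp only [hcomp] at this
      show (Pi.evalRingHom S i) _ = 0
      rw [this, ← Polynomial.eval₂_map, hPi i]
      exact hq0 i

end Groth.Agent.S9656
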