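import Groth.Statements.S9658
import Mathlib
-- import your own Groth.Agent.* helpers here

set_option autoImplicit false
universe u
open CAlg

namespace Groth.Agent.S9658

/-- Let R be a ring, f_1, …, f_n ∈ R generating the unit ideal and M an R-module. With M_i = M_{f_i},
M_ij = M_{f_i f_j} (any localizations, with the canonical compatible maps M → M_i → M_ij), the
sequence 0 → M → ⊕ M_i → ⊕ M_ij is exact: an element of M whose image vanishes in every M_i is zero,
and every family (m_i ∈ M_i) such that m_i and m_j have the same image in M_ij for all i, j is the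
image of an element of M. -/
theorem result {R : Type u} [CommRing R] {ι : Type u} [Fintype ι] (f : ι → R) (hf : Ideal.span (Set.range f) = ⊤)
    (M : Type u) [AddCommGroup M] [Module R M]
    (Mi : ι → Type u) [∀ i, AddCommGroup (Mi i)] [∀ i, Module R (Mi i)] (g : ∀ i, M →ₗ[R] Mi i) [∀ i, IsLocalizedModule (Submonoid.powers (f i)) (g i)]
    (Mij : ι → ι → Type u) [∀ i j, AddCommGroup (Mij i j)] [∀ i j, Module R (Mij i j)] (gij : ∀ i j, M →ₗ[R] Mij i j) [∀ i j, IsLocalizedModule (Submonoid.powers (f i * f j)) (gij i j)]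
    (ρ₁ : ∀ i j, Mi i →ₗ[R] Mij i j) (hρ₁ : ∀ i j, ρ₁ i j ∘ₗ g i = gij i j) (ρ₂ : ∀ i j, Mi j →ₗ[R] Mij i j) (hρ₂ : ∀ i j, ρ₂ i j ∘ₗ g j = gij i j) :
    (∀ m : M, (∀ i, g i m = 0) → m = 0) ∧
      ∀ s : ∀ i, Mi i, (∀ i j, ρ₁ i j (s i) = ρ₂ i j (s j)) → ∃ m : M, ∀ i, g i m = s i := by
  classical
  have hcancel : ∀ i (n : ℕ) (x y : Mi i), f i ^ n • x = f i ^ n • y → x = y := by
    intro i n x y hxy
    have hu := IsLocalizedModule.map_units (g i) (⟨f i ^ n, n, rfl⟩ : Submonoid.powers (f i))
    have hinj := ((Module.End.isUnit_iff _).mp hu).1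
    apply hinj
    show (algebraMap R (Module.End R (Mi i)) (f i ^ n)) x = (algebraMap R (Module.End R (Mi i)) (f i ^ n)) y
    rw [Module.algebraMap_end_apply, Module.algebraMap_end_apply]
    exact hxy
  have hkill : ∀ (m : M), (∀ i, ∃ n : ℕ, f i ^ n • m = 0) → m = 0 := by
    intro m hm
    choose n hn using hm
    let N := Finset.univ.sup n
    have hN : ∀ i, f i ^ N • m = 0 := fun i => by
      have : n i ≤ N := Finset.le_sup (Finset.mem_univ i)
      rw [← Nat.sub_add_cancel this, pow_add, mul_smul, hn i, smul_zero]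
    have hspan := Ideal.span_pow_eq_top (Set.range f) hf N
    have hle : Ideal.span ((fun x => x ^ N) '' Set.range f) ≤
        (Submodule.span R {m}).annihilator := by
      rw [Ideal.span_le]
      rintro _ ⟨_, ⟨i, rfl⟩, rfl⟩
      rw [SetLike.mem_coe, Submodule.mem_annihilator_span_singleton]
      exact hN i
    rw [hspan, top_le_iff] at hle
    have : (1 : R) ∈ (Submodule.span R {m}).annihilator := by rw [hle]; exact Submodule.mem_top
    rw [Submodule.mem_annihilator_span_singleton, one_smul] at this
    exact this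
  refine ⟨fun m hm => hkill m fun i => ?_, ?_⟩
  · have h1 : g i m = g i 0 := by rw [hm i, map_zero]
    obtain ⟨n, hn⟩ := IsLocalizedModule.Away.exists_of_eq (f := g i) (f i) h1
    exact ⟨n, by simpa using hn⟩
  · intro s hs
    have hsurj : ∀ i, ∃ (a : ℕ) (m : M), f i ^ a • s i = g i m := fun i =>
      IsLocalizedModule.Away.surj (g i) (f i) (s i)
    choose a m0 hm0 using hsurj
    let A := Finset.univ.sup a
    let m1 : ι → M := fun i => f i ^ (A - a i) • m0 i
    have hm1 : ∀ i, f i ^ A • s i = g i (m1 i) := fun i => by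
      have : a i ≤ A := Finset.le_sup (Finset.mem_univ i)
      simp only [m1, map_smul]
      rw [← hm0 i, smul_smul, ← pow_add, Nat.sub_add_cancel this]
    have hcomp : ∀ i j, ∃ k : ℕ, (f i * f j) ^ k • f j ^ A • m1 i =
        (f i * f j) ^ k • f i ^ A • m1 j := by
      intro i j
      have e1 : ∀ x, gij i j x = ρ₁ i j (g i x) := fun x => by rw [← hρ₁ i j]; rfl
      have e2 : ∀ x, gij i j x = ρ₂ i j (g j x) := fun x => by rw [← hρ₂ i j]; rfl
      have h1 : gij i j (f j ^ A • m1 i) = gij i j (f i ^ A • m1 j) := by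
        calc gij i j (f j ^ A • m1 i) = f j ^ A • ρ₁ i j (g i (m1 i)) := by rw [map_smul, e1]
          _ = f j ^ A • f i ^ A • ρ₁ i j (s i) := by rw [← hm1 i, map_smul]
          _ = f i ^ A • f j ^ A • ρ₂ i j (s j) := by rw [hs i j, smul_comm]
          _ = f i ^ A • ρ₂ i j (g j (m1 j)) := by rw [← hm1 j, map_smul]
          _ = gij i j (f i ^ A • m1 j) := by
              rw [e2 (f i ^ A • m1 j), map_smul (g j) (f i ^ A) (m1 j),
                map_smul (ρ₂ i j) (f i ^ A) (g j (m1 j))]
      exact IsLocalizedModule.Away.exists_of_eq (f := gij i j) (f i * f j) h1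
    choose k hk using hcomp
    let K := (Finset.univ : Finset (ι × ι)).sup fun p => k p.1 p.2
    have hK : ∀ i j, (f i * f j) ^ K • f j ^ A • m1 i = (f i * f j) ^ K • f i ^ A • m1 j := by
      intro i j
      have : k i j ≤ K := Finset.le_sup (f := fun p : ι × ι => k p.1 p.2)
        (Finset.mem_univ (i, j))
      rw [← Nat.sub_add_cancel this, pow_add, mul_smul, mul_smul (_ ^ (K - k i j)), hk i j]
    let h : ι → R := fun i => f i ^ (A + K)
    let n : ι → M := fun i => f i ^ K • m1 i
    have hrel : ∀ i j, h j • n i = h i • n j := by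
      intro i j
      calc h j • n i = ((f i * f j) ^ K * f j ^ A) • m1 i := by
            simp only [h, n, smul_smul]; congr 1; ring
        _ = (f i * f j) ^ K • f j ^ A • m1 i := by rw [mul_smul]
        _ = (f i * f j) ^ K • f i ^ A • m1 j := hK i j
        _ = h i • n j := by
            rw [← mul_smul]; simp only [h, n, smul_smul]; congr 1; ring
    have hspan := Ideal.span_pow_eq_top (Set.range f) hf (A + K)
    have hrange : (fun x => x ^ (A + K)) '' Set.range f = Set.range h := by
      rw [← Set.range_comp]; rfl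
    rw [hrange] at hspan
    have h1mem : (1 : R) ∈ Ideal.span (Set.range h) := by rw [hspan]; exact Submodule.mem_top
    obtain ⟨c, hc⟩ := (Submodule.mem_span_range_iff_exists_fun R).mp h1mem
    let m : M := ∑ j, c j • n j
    have hm : ∀ i, h i • m = n i := by
      intro i
      calc h i • m = ∑ j, c j • (h i • n j) := by
            simp only [m, Finset.smul_sum]
            refine Finset.sum_congr rfl fun j _ => smul_comm _ _ _
        _ = ∑ j, c j • (h j • n i) := by simp_rw [hrel]
        _ = (∑ j, c j • h j) • n i := by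
            rw [Finset.sum_smul]
            refine Finset.sum_congr rfl fun j _ => ?_
            rw [smul_assoc]
        _ = n i := by rw [hc, one_smul]
    refine ⟨m, fun i => hcancel i (A + K) _ _ ?_⟩
    calc f i ^ (A + K) • g i m = g i (h i • m) := by rw [map_smul]
      _ = g i (n i) := by rw [hm i]
      _ = f i ^ K • f i ^ A • s i := by simp only [n, map_smul, hm1 i]
      _ = f i ^ (A + K) • s i := by rw [smul_smul, ← pow_add, add_comm]

end Groth.Agent.S9658
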