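import Groth.Statements.S9660
import Mathlib.RingTheory.GradedAlgebra.Radical
-- import your own Groth.Agent.* helpers here

set_option autoImplicit false
universe u
open CAlg

namespace Groth.Agent.S9660

/-- Let S be an ℕ-graded ring and I a homogeneous ideal of S. Then V₊(I) ⊆ Proj(S) is empty if and only
if S₊ ⊆ √I. -/
theorem result {R S : Type u} [CommRing R] [CommRing S] [Algebra R S] (𝒜 : ℕ → Submodule R S) [GradedAlgebra 𝒜] (I : HomogeneousIdeal 𝒜) :
    ProjectiveSpectrum.zeroLocus 𝒜 (I : Set S) = ∅ ↔ (HomogeneousIdeal.irrelevant 𝒜).toIdeal ≤ I.toIdeal.radical := by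
  constructor
  · intro h
    rw [Ideal.IsHomogeneous.radical_eq (𝒜 := 𝒜) I.isHomogeneous]
    refine le_sInf ?_
    rintro J ⟨hJh, hIJ, hJp⟩
    by_contra hne
    have hx : (⟨⟨J, hJh⟩, hJp, hne⟩ : ProjectiveSpectrum 𝒜) ∈ ProjectiveSpectrum.zeroLocus 𝒜 (I : Set S) := by
      rw [ProjectiveSpectrum.mem_zeroLocus]
      exact hIJ
    rw [h] at hx
    exact hx
  · intro h
    rw [Set.eq_empty_iff_forall_notMem]
    intro x hx
    rw [ProjectiveSpectrum.mem_zeroLocus] at hx
    apply x.not_irrelevant_le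
    intro a ha
    have ha' := h ha
    have hle : I.toIdeal.radical ≤ x.asHomogeneousIdeal.toIdeal :=
      (Ideal.radical_mono (fun y hy => hx hy)).trans_eq x.isPrime.radical
    exact hle ha'

end Groth.Agent.S9660
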