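import Groth.Statements.S9664
-- import your own Groth.Agent.* helpers here

set_option autoImplicit false
universe u
open CAlg

namespace Groth.Agent.S9664

/-- Let R → S be a ring map, N an S-module, q a prime of S and p the prime of R below q; an associated
prime of a module is a prime ideal equal to the annihilator of some element. Then q is an associated
prime of the S-module N ⊗_R κ(p) (the fibre module of N over p, an S-module by restriction of
scalars along S → S ⊗_R κ(p)) if and only if q is the inverse image in S of an associated prime of N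
⊗_R κ(p) regarded as a module over the fibre ring S ⊗_R κ(p). -/
theorem result {R S : Type u} [CommRing R] [CommRing S] [Algebra R S] (N : Type u) [AddCommGroup N] [Module S N] [Module R N] [IsScalarTower R S N]
    (p : Ideal R) [p.IsPrime] (q : Ideal S) [q.IsPrime] (hq : q.comap (algebraMap R S) = p) :
    q ∈ FlatCA.ass S (FlatCA.fiberMod p S N) ↔
      ∃ Q ∈ FlatCA.ass (p.Fiber S) (FlatCA.fiberMod p S N),
        Q.comap (Algebra.TensorProduct.includeRight (R := R) (A := p.ResidueField) (B := S)).toRingHom = q := by
  classical
  set φ := (Algebra.TensorProduct.includeRight (R := R) (A := p.ResidueField) (B := S)).toRingHom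
    with hφ
  have hsmul : ∀ (s : S) (x : FlatCA.fiberMod p S N), s • x = φ s • x := by
    intro s x
    letI := Algebra.TensorProduct.rightAlgebra (R := R) (A := p.ResidueField) (B := S)
    haveI : IsScalarTower S (p.Fiber S) (FlatCA.fiberMod p S N) :=
      inferInstanceAs (IsScalarTower S (p.Fiber S) (TensorProduct S (p.Fiber S) N))
    rw [← algebraMap_smul (p.Fiber S) s x]
    rfl
  have hann : ∀ x : FlatCA.fiberMod p S N,
      Ideal.comap φ (Submodule.span (p.Fiber S) {x}).annihilator =
        (Submodule.span S {x}).annihilator := by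
    intro x; ext s
    rw [Ideal.mem_comap, Submodule.mem_annihilator_span_singleton,
      Submodule.mem_annihilator_span_singleton, hsmul]
  have hunit : ∀ r : R, r ∉ p → IsUnit (algebraMap R (p.Fiber S) r) := by
    intro r hr
    have h1 : IsUnit (algebraMap R p.ResidueField r) := by
      rw [isUnit_iff_ne_zero]; rwa [Ne, Ideal.algebraMap_residueField_eq_zero]
    rw [IsScalarTower.algebraMap_apply R p.ResidueField (p.Fiber S)]
    exact h1.map _
  have hphi : ∀ s : S, TensorProduct.tmul R (1 : p.ResidueField) s = φ s := fun s => rfl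
  have hcancel : ∀ (J : Ideal (p.Fiber S)) (r : R), r ∉ p → ∀ a : p.Fiber S, r • a ∈ J → a ∈ J := by
    intro J r hr a ha
    obtain ⟨u, hu⟩ := hunit r hr
    have : a = ((u⁻¹ : (p.Fiber S)ˣ) : p.Fiber S) * (r • a) := by
      rw [Algebra.smul_def, ← hu, ← mul_assoc, Units.inv_mul, one_mul]
    rw [this]; exact J.mul_mem_left _ ha
  constructor
  · rintro ⟨hqp, x, rfl⟩
    refine ⟨(Submodule.span (p.Fiber S) {x}).annihilator, ⟨?_, x, rfl⟩, hann x⟩
    refine ⟨?_, ?_⟩
    · intro htop
      apply hqp.ne_top
      rw [← hann x, htop, Ideal.comap_top]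
    · intro a b hab
      obtain ⟨ra, hra, sa, ha⟩ := Ideal.Fiber.exists_smul_eq_one_tmul p a
      obtain ⟨rb, hrb, sb, hb⟩ := Ideal.Fiber.exists_smul_eq_one_tmul p b
      have hmem : sa * sb ∈ Ideal.comap φ (Submodule.span (p.Fiber S) {x}).annihilator := by
        rw [Ideal.mem_comap, map_mul, ← hphi, ← hphi, ← ha, ← hb, smul_mul_smul_comm]
        exact Submodule.smul_of_tower_mem _ _ hab
      rw [hann x] at hmem
      rcases hqp.mem_or_mem hmem with h | h
      · left
        rw [← hann x, Ideal.mem_comap, ← hphi, ← ha] at h
        exact hcancel _ ra hra a h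
      · right
        rw [← hann x, Ideal.mem_comap, ← hphi, ← hb] at h
        exact hcancel _ rb hrb b h
  · rintro ⟨Q, ⟨hQ, x, rfl⟩, rfl⟩
    refine ⟨Ideal.comap_isPrime φ _, x, hann x⟩

end Groth.Agent.S9664
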