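import Groth.Statements.S9682
import Mathlib.AlgebraicGeometry.Morphisms.QuasiFinite
import Mathlib.AlgebraicGeometry.Noetherian
import Mathlib.AlgebraicGeometry.Fiber
-- import your own Groth.Agent.* helpers here

set_option autoImplicit false
universe u
open CategoryTheory CategoryTheory.Limits AlgebraicGeometry
open Mor

namespace Groth.Agent.S9682

theorem isOpen_singleton_of_noetherian_of_specializes_eq {α : Type*} [TopologicalSpace α]
    [TopologicalSpace.NoetherianSpace α] [QuasiSober α]
    (h : ∀ a b : α, a ⤳ b → a = b) (p : α) : IsOpen ({p} : Set α) := by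
  obtain ⟨C, hC, hpC⟩ :=
    exists_mem_irreducibleComponents_subset_of_isIrreducible _ (isIrreducible_singleton (x := p)).closure
  have hgen := hC.1.isGenericPoint_genericPoint (isClosed_of_mem_irreducibleComponents C hC)
  have hcp : hC.1.genericPoint ⤳ p := hgen.specializes (hpC (subset_closure rfl))
  have hCeq : C = closure {p} := by
    rw [← hgen.def, h _ _ hcp]
  obtain ⟨o, ho, ⟨q, hq⟩, hoC⟩ :=
    TopologicalSpace.NoetherianSpace.exists_isOpen_nonempty_subset_irreducibleComponent C hC
  have hmem : ∀ r ∈ o, r = p := fun r hr =>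
    (h p r (specializes_iff_mem_closure.2 (hCeq ▸ hoC hr))).symm
  have : o = {p} := by
    refine Set.eq_singleton_iff_unique_mem.2 ⟨?_, hmem⟩
    rw [← hmem q hq]; exact hq
  rw [← this]; exact ho

/-- Take f : X ⟶ Y locally of finite type and η the generic point of some irreducible component of Y.
Three conditions turn out to coincide: (1) each point of X mapping to η is the generic point of some
irreducible component of X; (2) f is quasi-finite at every point over η; (3) f is quasi-finite at
each point over η that is generic in some irreducible component of X. Stated as (1) iff (2) together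
with (1) iff (3). -/
theorem result {X Y : Scheme.{u}} (f : X ⟶ Y)
    [LocallyOfFiniteType f] (η : Y) (hη : closure {η} ∈ irreducibleComponents ↥Y) :
    ((∀ x : X, f.base x = η → closure {x} ∈ irreducibleComponents ↥X) ↔
      (∀ x : X, f.base x = η → f.QuasiFiniteAt x)) ∧
    ((∀ x : X, f.base x = η → closure {x} ∈ irreducibleComponents ↥X) ↔
      (∀ x : X, f.base x = η → closure {x} ∈ irreducibleComponents ↥X → f.QuasiFiniteAt x)) := by
  -- generizations of points over `η` lie over `η`
  have hG : ∀ ξ x : X, ξ ⤳ x → f x = η → f ξ = η := by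
    intro ξ x h hx
    have h1 : f ξ ⤳ η := hx ▸ h.map f.continuous
    have h2 : closure {f ξ} ⊆ closure {η} :=
      hη.2 isIrreducible_singleton.closure
        (closure_minimal (Set.singleton_subset_iff.2 (specializes_iff_mem_closure.1 h1))
          isClosed_closure)
    have h3 : η ⤳ f ξ := specializes_iff_mem_closure.2 (h2 (subset_closure rfl))
    exact (h1.antisymm h3).eq
  -- specialization inside a fibre
  have hS : ∀ (y : Y) (a b : X) (ha : f a = y) (hb : f b = y),
      (f.fiberHomeo y).symm ⟨a, ha⟩ ⤳ (f.fiberHomeo y).symm ⟨b, hb⟩ ↔ a ⤳ b := by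
    intro y a b ha hb
    rw [(f.fiberHomeo y).symm.isInducing.specializes_iff, subtype_specializes_iff]
  -- (2) ⇒ (1)
  have h21 : ∀ x : X, f x = η → f.QuasiFiniteAt x → closure {x} ∈ irreducibleComponents X := by
    intro x hx hq
    have hopen := Scheme.Hom.quasiFiniteAt_iff_isOpen_singleton_asFiber.1 hq
    refine ⟨isIrreducible_singleton.closure, fun T hT hxT => ?_⟩
    have hgen := hT.closure.isGenericPoint_genericPoint isClosed_closure
    set ξ := hT.closure.genericPoint
    have hξx : ξ ⤳ x := hgen.specializes (subset_closure (hxT (subset_closure rfl)))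
    have hfξ : f ξ = f x := (hG ξ x hξx hx).trans hx.symm
    have hsp := (hS (f x) ξ x hfξ rfl).2 hξx
    have hmem := hsp.mem_open hopen rfl
    have hξ : ξ = x := by
      have := congrArg (fun z => (f.fiberHomeo (f x) z).1) hmem
      simpa [Scheme.Hom.asFiber] using this
    calc T ⊆ closure T := subset_closure
      _ = closure {ξ} := hgen.def.symm
      _ = closure {x} := by rw [hξ]
  -- (1) ⇒ (2)
  have h12 : (∀ x : X, f x = η → closure {x} ∈ irreducibleComponents X) →
      ∀ x : X, f x = η → f.QuasiFiniteAt x := by
    intro H x hx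
    rw [Scheme.Hom.quasiFiniteAt_iff_isOpen_singleton_asFiber]
    have hover : ∀ p : f.fiber (f x), f (f.fiberι (f x) p) = f x := fun p => by
      have := f.range_fiberι (f x) ▸ Set.mem_range_self (f := f.fiberι (f x)) p
      exact this
    have hnogen : ∀ p q : f.fiber (f x), p ⤳ q → p = q := by
      intro p q hpq
      have hab := hpq.map (f.fiberι (f x)).continuous
      have hb := H _ ((hover q).trans hx)
      have h2 : closure {f.fiberι (f x) p} ⊆ closure {f.fiberι (f x) q} :=
        hb.2 isIrreducible_singleton.closure
          (closure_minimal (Set.singleton_subset_iff.2 (specializes_iff_mem_closure.1 hab))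
            isClosed_closure)
      have hba : f.fiberι (f x) q ⤳ f.fiberι (f x) p :=
        specializes_iff_mem_closure.2 (h2 (subset_closure rfl))
      exact (f.fiberι (f x)).isEmbedding.injective (hab.antisymm hba).eq
    have : LocallyOfFiniteType (f.fiberToSpecResidueField (f x)) := by
      set_option backward.isDefEq.respectTransparency.types false in
      exact MorphismProperty.pullback_snd (P := @LocallyOfFiniteType) _ _ inferInstance
    have : IsLocallyNoetherian (f.fiber (f x)) :=
      LocallyOfFiniteType.isLocallyNoetherian (f.fiberToSpecResidueField (f x))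
    obtain ⟨_, ⟨U, hU, rfl⟩, hxU, -⟩ := (f.fiber (f x)).isBasis_affineOpens.exists_subset_of_mem_open
      (Set.mem_univ (f.asFiber x)) isOpen_univ
    have : IsNoetherianRing Γ(f.fiber (f x), U) :=
      IsLocallyNoetherian.component_noetherian ⟨U, hU⟩
    have hN : TopologicalSpace.NoetherianSpace U := noetherianSpace_of_isAffineOpen U hU
    have hQ : QuasiSober U := U.isOpenEmbedding'.quasiSober
    have hU' : ∀ a b : U, a ⤳ b → a = b := fun a b hab =>
      Subtype.ext (hnogen _ _ ((subtype_specializes_iff a b).1 hab))
    have ho := @isOpen_singleton_of_noetherian_of_specializes_eq U _ hN hQ hU' ⟨f.asFiber x, hxU⟩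
    have := U.isOpenEmbedding'.isOpenMap _ ho
    convert this using 1
    ext z
    simp only [Set.mem_singleton_iff]
    constructor
    · rintro rfl; exact ⟨⟨f.asFiber x, hxU⟩, rfl, rfl⟩
    · rintro ⟨w, rfl, rfl⟩; rfl
  -- (3) ⇒ (1)
  have h31 : (∀ x : X, f x = η → closure {x} ∈ irreducibleComponents X → f.QuasiFiniteAt x) →
      ∀ x : X, f x = η → closure {x} ∈ irreducibleComponents X := by
    intro H x hx
    obtain ⟨C, hC, hxC⟩ :=
      exists_mem_irreducibleComponents_subset_of_isIrreducible _ (isIrreducible_singleton (x := x)).closure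
    have hgen := hC.1.isGenericPoint_genericPoint (isClosed_of_mem_irreducibleComponents C hC)
    set ξ := hC.1.genericPoint
    have hξx : ξ ⤳ x := hgen.specializes (hxC (subset_closure rfl))
    have hfξ : f ξ = η := hG ξ x hξx hx
    have hq := H ξ hfξ (hgen.def ▸ hC)
    have hcl := (Scheme.Hom.QuasiFiniteAt.isClopen_singleton_asFiber f hq).1
    have hsp := (hS (f ξ) ξ x rfl (hx.trans hfξ.symm)).2 hξx
    have hmem := hsp.mem_closed hcl rfl
    have hξ : x = ξ := by
      have := congrArg (fun z => (f.fiberHomeo (f ξ) z).1) hmem
      simpa [Scheme.Hom.asFiber] using this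
    rw [hξ, hgen.def]; exact hC
  refine ⟨⟨h12, fun H x hx => h21 x hx (H x hx)⟩, ⟨fun H x hx _ => h12 H x hx, h31⟩⟩

end Groth.Agent.S9682
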