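import Groth.Statements.S9709
import Mathlib.AlgebraicGeometry.Fiber
import Mathlib.AlgebraicGeometry.Morphisms.Integral
-- import your own Groth.Agent.* helpers here

set_option autoImplicit false
universe u
open CategoryTheory CategoryTheory.Limits AlgebraicGeometry
open Mor

namespace Groth.Agent.S9709

/-- Let f : X ⟶ S be an integral morphism. Then every point x of X is closed in its fibre: a point of
f⁻¹(f x) specialising from x equals x. -/
theorem result {X S : Scheme.{u}} (f : X ⟶ S) [IsIntegralHom f] (x : X) :
    closure {x} ∩ f.base ⁻¹' {f.base x} = {x} := by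
  have key : ∀ y : X, x ⤳ y → f y = f x → y = x := by
    intro y hxy hy
    have : IsIntegralHom (f.fiberToSpecResidueField (f x)) := by
      set_option backward.isDefEq.respectTransparency.types false in
      exact MorphismProperty.pullback_snd (P := @IsIntegralHom) _ _ inferInstance
    obtain ⟨ψ, hψ⟩ := Spec.map_surjective ((f.fiber (f x)).isoSpec.inv ≫ f.fiberToSpecResidueField (f x))
    have hint : ψ.hom.IsIntegral := by
      rw [← IsIntegralHom.SpecMap_iff, hψ]; infer_instance
    have hT1 : T1Space (Spec Γ(f.fiber (f x), ⊤)) := by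
      suffices H : ∀ q : PrimeSpectrum Γ(f.fiber (f x), ⊤), IsClosed ({q} : Set (PrimeSpectrum _)) from
        ⟨fun p => H p⟩
      intro p
      rw [PrimeSpectrum.isClosed_singleton_iff_isMaximal]
      refine Ideal.isMaximal_of_isIntegral_of_isMaximal_comap' ψ.hom hint _ ?_
      have hb : p.asIdeal.comap ψ.hom = ⊥ :=
        (Ideal.eq_bot_or_top _).resolve_right (Ideal.IsPrime.ne_top inferInstance)
      rw [hb]
      exact Ideal.bot_isMaximal
    have hT1F : T1Space (f.fiber (f x)) :=
      (f.fiber (f x)).isoSpec.hom.isOpenEmbedding.isEmbedding.t1Space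
    let e := f.fiberHomeo (f x)
    have h1 : (⟨x, rfl⟩ : f ⁻¹' {f x}) ⤳ ⟨y, hy⟩ := by
      rw [subtype_specializes_iff]
      exact hxy
    have h2 : e.symm ⟨x, rfl⟩ ⤳ e.symm ⟨y, hy⟩ := h1.map e.symm.continuous
    have h3 := h2.eq
    have h4 := congrArg (fun z => (e z).1) h3
    simpa [e] using h4.symm
  ext y
  simp only [Set.mem_inter_iff, Set.mem_preimage, Set.mem_singleton_iff]
  constructor
  · rintro ⟨hy1, hy2⟩
    exact key y (specializes_iff_mem_closure.2 hy1) hy2
  · rintro rfl
    exact ⟨subset_closure rfl, rfl⟩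

end Groth.Agent.S9709
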