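import Groth.Statements.S9683
import Groth.Agent.S9709
-- import your own Groth.Agent.* helpers here

set_option autoImplicit false
universe u
open CategoryTheory CategoryTheory.Limits AlgebraicGeometry
open Mor

namespace Groth.Agent.S9683

/-- For any integral morphism of schemes f : X ⟶ Y, the dimension of X is at most that of Y, and if f is
surjective then dim X = dim Y (dimensions of the underlying topological spaces). -/
theorem result {X Y : Scheme.{u}} (f : X ⟶ Y) [IsIntegralHom f] :
    topologicalKrullDim ↥X ≤ topologicalKrullDim ↥Y ∧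
      (Surjective f → topologicalKrullDim ↥X = topologicalKrullDim ↥Y) := by
  have key : ∀ x y : X, x ⤳ y → f y = f x → y = x := by
    intro x y hxy hy
    have : y ∈ closure {x} ∩ f.base ⁻¹' {f.base x} := ⟨specializes_iff_mem_closure.1 hxy, hy⟩
    rw [Groth.Agent.S9709.result f x] at this
    exact this
  let oX := specializationOrder X
  let oY := specializationOrder Y
  have eX : topologicalKrullDim X = Order.krullDim X :=
    Order.krullDim_eq_of_orderIso irreducibleSetEquivPoints
  have eY : topologicalKrullDim Y = Order.krullDim Y :=
    Order.krullDim_eq_of_orderIso irreducibleSetEquivPoints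
  have hmono : StrictMono (fun x : X => f x) := by
    intro a b hab
    obtain ⟨h1, h2⟩ := hab
    refine ⟨h1.map f.continuous, fun h3 => h2 ?_⟩
    have hfe : f a = f b := (h1.map f.continuous).antisymm h3 |>.eq |>.symm
    have := key b a h1 hfe
    rw [this]
  have h1 : topologicalKrullDim X ≤ topologicalKrullDim Y := by
    rw [eX, eY]
    exact Order.krullDim_le_of_strictMono _ hmono
  refine ⟨h1, fun hsurj => le_antisymm h1 ?_⟩
  rw [eX, eY]
  have hsp : SpecializingMap (fun x : X => f x) := f.isClosedMap.specializingMap
  -- lifting of smaller elements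
  have hlift : ∀ (x : X) (y' : Y), y' < f x → ∃ x' : X, x' < x ∧ f x' = y' := by
    intro x y' hy'
    obtain ⟨hy1, hy2⟩ := hy'
    obtain ⟨x', hx', hfx'⟩ := hsp hy1
    refine ⟨x', ⟨hx', fun h => hy2 ?_⟩, hfx'⟩
    rw [← hfx']
    exact h.map f.continuous
  have hheight : ∀ n : ℕ, ∀ x : X, (n : ℕ∞) ≤ Order.height (f x) → (n : ℕ∞) ≤ Order.height x := by
    intro n
    induction n with
    | zero => intro x _; simp
    | succ n ih =>
      intro x hx
      obtain ⟨p, hplast, hplen⟩ := Order.exists_series_of_le_height (f x) hx
      let i : Fin (p.length + 1) := ⟨n, by omega⟩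
      have hlt : p i < p.last :=
        p.strictMono (show i < Fin.last p.length by simp [Fin.lt_def, i, hplen])
      have hhi : (n : ℕ∞) ≤ Order.height (p i) := by
        have := Order.index_le_height p i
        simpa [i] using this
      rw [hplast] at hlt
      obtain ⟨x', hx'x, hfx'⟩ := hlift x (p i) hlt
      have := ih x' (by rw [hfx']; exact hhi)
      calc ((n + 1 : ℕ) : ℕ∞) = (n : ℕ∞) + 1 := by push_cast; rfl
        _ ≤ Order.height x' + 1 := by gcongr
        _ ≤ Order.height x := Order.height_add_one_le hx'x
  rw [Order.krullDim_eq_iSup_height (α := Y)]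
  refine iSup_le fun y => ?_
  obtain ⟨x, rfl⟩ := hsurj.surj y
  have : Order.height (f x) ≤ Order.height x :=
    ENat.forall_natCast_le_iff_le.1 fun n hn => hheight n x hn
  exact (WithBot.coe_le_coe.2 this).trans (Order.height_le_krullDim x)

end Groth.Agent.S9683
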