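import Groth.Statements.S9693
-- import your own Groth.Agent.* helpers here

set_option autoImplicit false
universe u
open CategoryTheory CategoryTheory.Limits AlgebraicGeometry
open Mor

namespace Groth.Agent.S9693

/-- A base change of an H-projective morphism (a closed immersion into some P^n over the base followed
by the projection) is H-projective. -/
theorem result {X S S' : Scheme.{u}} (f : X ⟶ S) (hf : RelProj.IsHProjective f)
    (g : S' ⟶ S) : RelProj.IsHProjective (pullback.snd f g) := by
  obtain ⟨n, i, hi, hif⟩ := hf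
  have hT : ∀ {Z : Scheme.{u}} (a b : Z ⟶ Spec (CommRingCat.of (ULift.{u} ℤ))), a = b :=
    fun a b => specULiftZIsTerminal.hom_ext a b
  let fS : CohB1.ProjSpaceOver n S ⟶ CohB1.ProjSpace n (ULift.{u} ℤ) := pullback.fst _ _
  let fS' : CohB1.ProjSpaceOver n S' ⟶ CohB1.ProjSpace n (ULift.{u} ℤ) := pullback.fst _ _
  let h : CohB1.ProjSpaceOver n S' ⟶ CohB1.ProjSpaceOver n S :=
    pullback.lift fS' (CohB1.ProjSpaceOver.toBase n S' ≫ g) (hT _ _)
  have hh1 : h ≫ fS = fS' := pullback.lift_fst _ _ _
  have hh2 : h ≫ CohB1.ProjSpaceOver.toBase n S = CohB1.ProjSpaceOver.toBase n S' ≫ g :=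
    pullback.lift_snd _ _ _
  have sqR : IsPullback fS (CohB1.ProjSpaceOver.toBase n S)
      (CohB1.ProjSpace.toSpec n (ULift.{u} ℤ)) (specULiftZIsTerminal.from S) :=
    IsPullback.of_hasPullback _ _
  have sqR' : IsPullback fS' (CohB1.ProjSpaceOver.toBase n S')
      (CohB1.ProjSpace.toSpec n (ULift.{u} ℤ)) (specULiftZIsTerminal.from S') :=
    IsPullback.of_hasPullback _ _
  have sqB : IsPullback h (CohB1.ProjSpaceOver.toBase n S') (CohB1.ProjSpaceOver.toBase n S) g := by
    refine IsPullback.of_right ?_ hh2 sqR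
    rw [hh1, hT (g ≫ specULiftZIsTerminal.from S) (specULiftZIsTerminal.from S')]
    exact sqR'
  let i' : pullback f g ⟶ CohB1.ProjSpaceOver n S' :=
    pullback.lift (pullback.fst f g ≫ i ≫ fS) (pullback.snd f g) (hT _ _)
  have hi'1 : i' ≫ fS' = pullback.fst f g ≫ i ≫ fS := pullback.lift_fst _ _ _
  have hi'2 : i' ≫ CohB1.ProjSpaceOver.toBase n S' = pullback.snd f g := pullback.lift_snd _ _ _
  have hcomm : pullback.fst f g ≫ i = i' ≫ h := by
    apply pullback.hom_ext
    · change (pullback.fst f g ≫ i) ≫ fS = (i' ≫ h) ≫ fS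
      rw [Category.assoc, Category.assoc, hh1, hi'1]
    · change (pullback.fst f g ≫ i) ≫ CohB1.ProjSpaceOver.toBase n S =
        (i' ≫ h) ≫ CohB1.ProjSpaceOver.toBase n S
      rw [Category.assoc, Category.assoc, hh2, ← Category.assoc i', hi'2, hif, pullback.condition]
  have sqT : IsPullback (pullback.fst f g) i' i h := by
    refine IsPullback.of_bot ?_ hcomm sqB
    rw [hi'2, hif]
    exact IsPullback.of_hasPullback f g
  exact ⟨n, i', MorphismProperty.of_isPullback (P := @IsClosedImmersion) sqT hi, hi'2⟩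

end Groth.Agent.S9693
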