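import Groth.Statements.S9723
import Mathlib.RingTheory.Spectrum.Prime.RingHom
-- import your own Groth.Agent.* helpers here

set_option autoImplicit false
universe u
open FlatMor

namespace Groth.Agent.S9723

open AlgebraicGeometry CategoryTheory in
theorem spec_mk_surj (A : Type u) [CommRing A] (I : Ideal A) (hI : I ^ 2 = ⊥) :
    Function.Surjective (Spec.map (CommRingCat.ofHom (Ideal.Quotient.mk I))) := by
  intro p
  have : p ∈ Set.range (PrimeSpectrum.comap (Ideal.Quotient.mk I)) := by
    rw [range_comap_of_surjective _ _ Ideal.Quotient.mk_surjective, Ideal.mk_ker]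
    show (I : Set A) ⊆ p.asIdeal
    intro x hx
    apply p.isPrime.mem_of_pow_mem 2
    have h2 : x ^ 2 ∈ I ^ 2 := Ideal.pow_mem_pow hx 2
    rw [hI, Ideal.mem_bot] at h2
    rw [h2]
    exact p.asIdeal.zero_mem
  obtain ⟨q, hq⟩ := this
  exact ⟨q, hq⟩

open AlgebraicGeometry CategoryTheory in
/-- Let f : X ⟶ S be formally étale (unique infinitesimal lifting against square-zero thickenings of
affine schemes), and let U be an open subscheme of X and V an open subscheme of S such that f maps U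
into V. Then the restricted morphism U ⟶ V is formally étale. -/
theorem result {X S : Scheme.{u}} (f : X ⟶ S) (hf : MoreMor.IsFormallyEtaleHom f)
    (U : X.Opens) (V : S.Opens) (h : U ≤ f ⁻¹ᵁ V) : MoreMor.IsFormallyEtaleHom (f.resLE V U h) := by
  intro A _ I hI a b hab
  have hab' : Spec.map (CommRingCat.ofHom (Ideal.Quotient.mk I)) ≫ (b ≫ V.ι) = (a ≫ U.ι) ≫ f := by
    rw [← Category.assoc, hab, Category.assoc, Scheme.Hom.resLE_comp_ι, Category.assoc]
  obtain ⟨l, ⟨hl1, hl2⟩, huniq⟩ := hf A I hI (a ≫ U.ι) (b ≫ V.ι) hab'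
  have hrange : Set.range l ⊆ Set.range U.ι := by
    rintro _ ⟨p, rfl⟩
    obtain ⟨q, rfl⟩ := spec_mk_surj A I hI p
    refine ⟨a q, ?_⟩
    rw [← Scheme.Hom.comp_apply, ← Scheme.Hom.comp_apply, hl1]
  let l' := IsOpenImmersion.lift U.ι l hrange
  have hl' : l' ≫ U.ι = l := IsOpenImmersion.lift_fac _ _ _
  refine ⟨l', ⟨?_, ?_⟩, ?_⟩
  · rw [← cancel_mono U.ι, Category.assoc, hl', hl1]
  · rw [← cancel_mono V.ι, Category.assoc, Scheme.Hom.resLE_comp_ι, ← Category.assoc, hl', hl2]
  · rintro m ⟨hm1, hm2⟩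
    rw [← cancel_mono U.ι, hl']
    apply huniq
    constructor
    · rw [← Category.assoc, hm1]
    · rw [Category.assoc, ← Scheme.Hom.resLE_comp_ι f h, ← Category.assoc, hm2]

end Groth.Agent.S9723
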