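import Groth.Statements.S9735
import Groth.Agent.Lib.Helper15.GeomFibre
-- import your own Groth.Agent.* helpers here

set_option autoImplicit false
universe u
open FlatMor

namespace Groth.Agent.S9735

open AlgebraicGeometry CategoryTheory Limits in
/-- Given a morphism f : X ⟶ Y and any g : Y' ⟶ Y, let f' : X' ⟶ Y' be obtained from f by pulling back
along g (a cartesian square with g' : X' ⟶ X). A point y' of Y' has geometrically reduced fibre
under f' exactly when g y' has geometrically reduced fibre under f. -/
theorem result {X Y X' Y' : Scheme.{u}} (f : X ⟶ Y) (g : Y' ⟶ Y) (f' : X' ⟶ Y') (g' : X' ⟶ X)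
    (hc : IsPullback g' f' f g) :
    {y' : ↑Y' | GeometricallyReduced (f'.fiberToSpecResidueField y')} =
      g ⁻¹' {y : ↑Y | GeometricallyReduced (f.fiberToSpecResidueField y)} := by
  ext y'
  simp only [Set.mem_ofPred_eq, Set.mem_preimage, geometricallyReduced_iff]
  exact Groth.Agent.Lib.Helper15.geometrically_fiber_baseChange_iff (fun X => IsReduced X)
    (fun p _ _ _ => Groth.Agent.Lib.Helper15.isReduced_of_flat_surjective p) f g f' g' hc y'

end Groth.Agent.S9735
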