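import Groth.Statements.S9740
import Groth.Agent.Lib.Helper15.Thick
-- import your own Groth.Agent.* helpers here

set_option autoImplicit false
universe u
open OmegaSh

namespace Groth.Agent.S9740

open AlgebraicGeometry CategoryTheory Limits in
/-- Let h : Z ⟶ X be formally unramified with universal first order thickening (i : Z ⟶ Z', h' : Z' ⟶
X), let V ⊆ Z and U ⊆ X be opens with h(V) ⊆ U, and let V' ⊆ Z' be the open with i⁻¹(V') = V (so
h'(V') ⊆ U). Then the restricted pair (V ⟶ V', V' ⟶ U) is a universal first-order thickening for the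
restriction V ⟶ U of h. The published statement also asserts that this restriction is formally
unramified and that the conormal sheaf of Z over X restricts on V to that of V over U; this row
states only the thickening part. -/
theorem result {Z Z' X : Scheme.{u}} (h : Z ⟶ X) [FormallyUnramified h] (i : Z ⟶ Z') (h' : Z' ⟶ X)
    (hu : OmegaSh.IsUnivThickening h i h') (V : Z.Opens) (U : X.Opens) (hVU : V ≤ h ⁻¹ᵁ U)
    (V' : Z'.Opens) (hV' : i ⁻¹ᵁ V' = V) (hV'U : V' ≤ h' ⁻¹ᵁ U) :
    OmegaSh.IsUnivThickening (h.resLE U V hVU) (i.resLE V' V hV'.ge) (h'.resLE U V' hV'U) := by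
  subst hV'
  have hres : i.resLE V' (i ⁻¹ᵁ V') le_rfl = i ∣_ V' := Scheme.Hom.resLE_eq_morphismRestrict i
  refine ⟨?_, ?_, ?_⟩
  · rw [hres]
    exact Groth.Agent.Lib.Helper15.isFirstOrderThickening_restrict i hu.1 V'
  · rw [← cancel_mono U.ι, Category.assoc, Scheme.Hom.resLE_comp_ι, ← Category.assoc,
      Scheme.Hom.resLE_comp_ι, Category.assoc, hu.2.1, Scheme.Hom.resLE_comp_ι]
  · intro T T' j b a hj hjab
    have hjab0 : j ≫ (b ≫ U.ι) = (a ≫ (i ⁻¹ᵁ V').ι) ≫ h := by
      rw [← Category.assoc, hjab, Category.assoc, Scheme.Hom.resLE_comp_ι, Category.assoc]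
    obtain ⟨c, ⟨hc1, hc2⟩, hcu⟩ := hu.2.2 T T' j (b ≫ U.ι) (a ≫ (i ⁻¹ᵁ V').ι) hj hjab0
    have hrange : Set.range c ⊆ Set.range V'.ι := by
      rintro _ ⟨t', rfl⟩
      obtain ⟨t, rfl⟩ := hj.1.2.surj t'
      have hmem : (a ≫ (i ⁻¹ᵁ V').ι ≫ i) t ∈ V' := by
        rw [Scheme.Hom.comp_apply, Scheme.Hom.comp_apply]
        exact (a t).2
      rw [Scheme.Opens.range_ι]
      rw [← Scheme.Hom.comp_apply, hc1]
      rw [Category.assoc]
      exact hmem
    let c' := IsOpenImmersion.lift V'.ι c hrange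
    have hc' : c' ≫ V'.ι = c := IsOpenImmersion.lift_fac _ _ _
    refine ⟨c', ⟨?_, ?_⟩, ?_⟩
    · rw [← cancel_mono V'.ι, Category.assoc, hc', hc1, Category.assoc, Category.assoc,
        Scheme.Hom.resLE_comp_ι]
    · rw [← cancel_mono U.ι, Category.assoc, Scheme.Hom.resLE_comp_ι, ← Category.assoc, hc', hc2]
    · rintro m ⟨hm1, hm2⟩
      rw [← cancel_mono V'.ι, hc']
      apply hcu
      constructor
      · rw [← Category.assoc, hm1, Category.assoc, Scheme.Hom.resLE_comp_ι, Category.assoc]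
      · rw [Category.assoc, ← Scheme.Hom.resLE_comp_ι h' hV'U, ← Category.assoc, hm2]

end Groth.Agent.S9740
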