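import Groth.Statements.S9741
import Mathlib.AlgebraicGeometry.IdealSheaf.Functorial
-- import your own Groth.Agent.* helpers here

set_option autoImplicit false
universe u
open OmegaSh

namespace Groth.Agent.S9741

open AlgebraicGeometry CategoryTheory Limits in
theorem firstOrder_of_comp {Z P Z' : Scheme.{u}} (a : Z ⟶ P) (ι : P ⟶ Z') [IsClosedImmersion ι]
    (h : MoreMor.IsFirstOrderThickening (a ≫ ι)) : MoreMor.IsFirstOrderThickening a := by
  obtain ⟨⟨h1, h2⟩, h3⟩ := h
  have := h1
  have : IsClosedImmersion a := IsClosedImmersion.of_comp_isClosedImmersion a ι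
  refine ⟨⟨inferInstance, ?_⟩, ?_⟩
  · constructor
    intro p
    obtain ⟨z, hz⟩ := (h2.surj : Function.Surjective (a ≫ ι).base) (ι.base p)
    refine ⟨z, ι.isClosedEmbedding.injective ?_⟩
    simpa using hz
  · have key : ∀ W0, (a ≫ ι).ker.ideal W0 * (a ≫ ι).ker.ideal W0 = ⊥ := fun W0 => by
      have := congrArg (fun I => Scheme.IdealSheafData.ideal I W0) h3
      simpa using this
    refine Scheme.IdealSheafData.ext_of_iSup_eq_top
      (fun U : Z'.affineOpens => (⟨ι ⁻¹ᵁ U.1, U.2.preimage ι⟩ : P.affineOpens)) ?_ ?_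
    · have : (⨆ U : Z'.affineOpens, ι ⁻¹ᵁ U.1) = ι ⁻¹ᵁ (⨆ U : Z'.affineOpens, U.1) := by
        rw [Scheme.Hom.preimage_iSup]
      simp only
      rw [this, iSup_affineOpens_eq_top Z']
      rfl
    · intro U
      have e := Scheme.IdealSheafData.ideal_map_of_isAffineHom a.ker ι U
      rw [← Scheme.Hom.ker_comp] at e
      have hs := ι.app_surjective U.1 U.2
      have : a.ker.ideal ⟨_, U.2.preimage ι⟩ = ((a ≫ ι).ker.ideal U).map (ι.app U).hom := by
        rw [e, Ideal.map_comap_of_surjective _ hs]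
      rw [Scheme.IdealSheafData.ideal_mul, Pi.mul_apply, Scheme.IdealSheafData.ideal_bot,
        Pi.bot_apply]
      simp only
      rw [this, ← Ideal.map_mul, key, Ideal.map_bot]

open AlgebraicGeometry CategoryTheory Limits in
/-- Let a : Z ⟶ Y and b : Y ⟶ X be formally unramified, let (i : Z ⟶ Z', c : Z' ⟶ X) be universal among
first order thickenings of Z relative to X (for a ≫ b), and (j : Y ⟶ Y', d : Y' ⟶ X) likewise for Y
relative to X (for b). Then there is a morphism of thickenings m : Z' ⟶ Y' over X (i ≫ m = a ≫ j and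
m ≫ d = c) such that Z ⟶ Y ×_{Y'} Z' (components a and i), together with the projection to Y, is
universal among first order thickenings of Z relative to Y (for a). The published statement also
asserts an exact sequence of conormal sheaves; this row states only the thickening assertion. -/
theorem result {Z Y X Z' Y' : Scheme.{u}} (a : Z ⟶ Y) (b : Y ⟶ X)
    [FormallyUnramified a] [FormallyUnramified b] (i : Z ⟶ Z') (c : Z' ⟶ X) (hZ : OmegaSh.IsUnivThickening (a ≫ b) i c)
    (j : Y ⟶ Y') (d : Y' ⟶ X) (hY : OmegaSh.IsUnivThickening b j d) :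
    ∃ (m : Z' ⟶ Y') (hm : i ≫ m = a ≫ j), m ≫ d = c ∧
      OmegaSh.IsUnivThickening a (pullback.lift a i hm.symm) (pullback.fst j m) := by
  obtain ⟨m, ⟨hm1, hm2⟩, -⟩ := hY.2.2 Z Z' i c a hZ.1 hZ.2.1
  have : IsClosedImmersion j := hY.1.1.1
  refine ⟨m, hm1, hm2, ?_, ?_, ?_⟩
  · apply firstOrder_of_comp _ (pullback.snd j m)
    rw [pullback.lift_snd]
    exact hZ.1
  · exact pullback.lift_fst _ _ _
  · intro T T' jT bT aT hjT hjab
    have hjab' : jT ≫ (bT ≫ b) = aT ≫ (a ≫ b) := by
      rw [← Category.assoc, hjab, Category.assoc]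
    obtain ⟨γ, ⟨hγ1, hγ2⟩, hγu⟩ := hZ.2.2 T T' jT (bT ≫ b) aT hjT hjab'
    have hjab'' : jT ≫ (bT ≫ b) = (aT ≫ a) ≫ b := by
      rw [hjab', Category.assoc]
    have hbm : bT ≫ j = γ ≫ m := by
      obtain ⟨_, _, hu⟩ := hY.2.2 T T' jT (bT ≫ b) (aT ≫ a) hjT hjab''
      have e1 := hu (bT ≫ j) ⟨by rw [← Category.assoc, hjab, Category.assoc],
        by rw [Category.assoc, hY.2.1]⟩
      have e2 := hu (γ ≫ m) ⟨by rw [← Category.assoc, hγ1, Category.assoc, hm1, Category.assoc],
        by rw [Category.assoc, hm2, hγ2]⟩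
      rw [e1, e2]
    refine ⟨pullback.lift bT γ hbm, ⟨?_, pullback.lift_fst _ _ _⟩, ?_⟩
    · apply pullback.hom_ext
      · rw [Category.assoc, pullback.lift_fst, Category.assoc, pullback.lift_fst, hjab]
      · rw [Category.assoc, pullback.lift_snd, Category.assoc, pullback.lift_snd, hγ1]
    · rintro a'' ⟨h1, h2⟩
      have hsnd : a'' ≫ pullback.snd j m = γ := by
        apply hγu
        refine ⟨?_, ?_⟩
        · rw [← Category.assoc, h1, Category.assoc, pullback.lift_snd]
        · rw [Category.assoc, ← hm2, ← Category.assoc (pullback.snd j m), ← pullback.condition,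
            Category.assoc, hY.2.1, ← Category.assoc, h2]
      apply pullback.hom_ext
      · rw [pullback.lift_fst, h2]
      · rw [pullback.lift_snd, hsnd]

end Groth.Agent.S9741
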