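import Groth.Statements.S9764
import Groth.Agent.Lib.Helper15.GeomFibre
-- import your own Groth.Agent.* helpers here

set_option autoImplicit false
universe u
open FlatMor

namespace Groth.Agent.S9764

open AlgebraicGeometry CategoryTheory Limits in
/-- For morphisms of schemes f : X ⟶ Y and g : Y' ⟶ Y, let f' : X' ⟶ Y' be obtained from f by pulling
back along g (a cartesian square with g' : X' ⟶ X). A point y' of Y' has geometrically irreducible
fibre under f' exactly when g y' has geometrically irreducible fibre under f. -/
theorem result {X Y X' Y' : Scheme.{u}} (f : X ⟶ Y) (g : Y' ⟶ Y) (f' : X' ⟶ Y') (g' : X' ⟶ X)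
    (hc : IsPullback g' f' f g) :
    {y' : ↑Y' | GeometricallyIrreducible (f'.fiberToSpecResidueField y')} =
      g ⁻¹' {y : ↑Y | GeometricallyIrreducible (f.fiberToSpecResidueField y)} := by
  ext y'
  simp only [Set.mem_ofPred_eq, Set.mem_preimage, geometricallyIrreducible_iff]
  exact Groth.Agent.Lib.Helper15.geometrically_fiber_baseChange_iff (fun X => IrreducibleSpace X)
    (fun p _ hs _ => Function.Surjective.irreducibleSpace p.continuous hs.surj) f g f' g' hc y'

end Groth.Agent.S9764
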