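import Groth.Statements.S9795
import Groth.Agent.Lib.Helper15.Sep
-- import your own Groth.Agent.* helpers here

set_option autoImplicit false
universe u
open CategoryTheory AlgebraicGeometry TopologicalSpace
open Props

namespace Groth.Agent.S9795

/-- A quasi-separated scheme of dimension at most zero is separated. -/
theorem result (X : Scheme.{u}) [QuasiSeparatedSpace X]
    (h : topologicalKrullDim X ≤ 0) : X.IsSeparated := by
  apply Groth.Agent.Lib.Helper15.isSeparated_of_specializes_eq X
  intro a b hab
  have hdim : Order.krullDim X ≤ 0 := by
    rw [← (Order.krullDim_eq_of_orderIso irreducibleSetEquivPoints :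
      topologicalKrullDim X = Order.krullDim X)]
    exact h
  have hmax := Order.krullDim_nonpos_iff_forall_isMax.1 hdim
  have hba : b ≤ a := hab
  have hab' : a ≤ b := hmax b hba
  exact (hab.antisymm hab').eq

end Groth.Agent.S9795
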