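import Groth.Statements.S9796
import Groth.Agent.Lib.Helper15.Zero
-- import your own Groth.Agent.* helpers here

set_option autoImplicit false
universe u
open CategoryTheory AlgebraicGeometry TopologicalSpace
open Props

namespace Groth.Agent.S9796

/-- (2) implies (3) with the complement on connected components: a separated scheme of dimension at most
zero is Hausdorff and totally disconnected. -/
theorem result (X : Scheme.{u}) [X.IsSeparated]
    (h : topologicalKrullDim X ≤ 0) : T2Space X ∧ TotallyDisconnectedSpace X := by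
  have hT2U := fun U hU => Groth.Agent.Lib.Helper15.t2Space_affineOpen_of_dim_le_zero' X h U hU
  have hex : ∀ x : X, ∃ U : X.Opens, IsAffineOpen U ∧ x ∈ U := by
    intro x
    obtain ⟨_, ⟨U, hU, rfl⟩, hxU, -⟩ :=
      X.isBasis_affineOpens.exists_subset_of_mem_open (Set.mem_univ x) isOpen_univ
    exact ⟨U, hU, hxU⟩
  have hsep : ∀ (U : X.Opens), IsAffineOpen U → ∀ x y : X, x ∈ U → y ∈ U → x ≠ y →
      ∃ u v : Set X, IsOpen u ∧ IsOpen v ∧ x ∈ u ∧ y ∈ v ∧ Disjoint u v := by
    intro U hU x y hx hy hxy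
    have := hT2U U hU
    obtain ⟨u, v, hu, hv, hxu, hyv, huv⟩ := t2_separation (x := (⟨x, hx⟩ : (U : Set X)))
      (y := (⟨y, hy⟩ : (U : Set X)))
      (fun h => hxy (congrArg Subtype.val h))
    refine ⟨Subtype.val '' u, Subtype.val '' v, U.isOpen.isOpenMap_subtype_val _ hu,
      U.isOpen.isOpenMap_subtype_val _ hv, ⟨_, hxu, rfl⟩, ⟨_, hyv, rfl⟩, ?_⟩
    exact (Set.disjoint_image_iff Subtype.val_injective).2 huv
  have hdiff : ∀ U V : X.Opens, IsAffineOpen U → IsAffineOpen V → IsOpen ((U : Set X) \ V) := by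
    intro U V hU hV
    have hW : IsAffineOpen (U ⊓ V) := hU.inf hV
    have hWc : IsCompact ((U ⊓ V : X.Opens) : Set X) := hW.isCompact
    have := hT2U U hU
    have hc : IsCompact ((Subtype.val : ↥(U : Set X) → X) ⁻¹' ((U ⊓ V : X.Opens) : Set X)) := by
      rw [Topology.IsInducing.subtypeVal.isCompact_preimage_iff]
      · exact hWc
      · intro z hz; exact ⟨⟨z, hz.1⟩, rfl⟩
    have ho := hc.isClosed.isOpen_compl
    have := U.isOpen.isOpenMap_subtype_val _ ho
    convert this using 1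
    ext z
    constructor
    · rintro ⟨hzU, hzV⟩
      exact ⟨⟨z, hzU⟩, fun hz => hzV hz.2, rfl⟩
    · rintro ⟨w, hw, rfl⟩
      exact ⟨w.2, fun hz => hw ⟨w.2, hz⟩⟩
  have hT2 : T2Space X := by
    refine ⟨fun x y hxy => ?_⟩
    obtain ⟨U, hU, hxU⟩ := hex x
    obtain ⟨V, hV, hyV⟩ := hex y
    by_cases hyU : y ∈ U
    · exact hsep U hU x y hxU hyU hxy
    by_cases hxV : x ∈ V
    · exact hsep V hV x y hxV hyV hxy
    refine ⟨(U : Set X) \ V, V, hdiff U V hU hV, V.isOpen, ⟨hxU, hxV⟩, hyV, ?_⟩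
    exact Set.disjoint_left.2 fun z hz hzV => hz.2 hzV
  refine ⟨hT2, ?_⟩
  have : TotallySeparatedSpace X := by
    rw [totallySeparatedSpace_iff_exists_isClopen]
    intro x y hxy
    have hopen : IsOpen ({y}ᶜ : Set X) := isClosed_singleton.isOpen_compl
    obtain ⟨_, ⟨W, hW, rfl⟩, hxW, hWy⟩ :=
      X.isBasis_affineOpens.exists_subset_of_mem_open (show x ∈ ({y}ᶜ : Set X) from hxy) hopen
    refine ⟨W, ⟨hW.isCompact.isClosed, W.isOpen⟩, hxW, fun hyW => hWy hyW rfl⟩
  infer_instance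

end Groth.Agent.S9796
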