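import Groth.Statements.S9797
import Groth.Agent.Lib.Helper15.Zero
import Groth.Agent.S9796
-- import your own Groth.Agent.* helpers here

set_option autoImplicit false
universe u
open CategoryTheory AlgebraicGeometry TopologicalSpace
open Props

namespace Groth.Agent.S9797

/-- In a separated scheme of dimension at most zero, every quasi-compact open is affine. -/
theorem result (X : Scheme.{u}) [X.IsSeparated]
    (h : topologicalKrullDim X ≤ 0) (U : X.Opens) (hU : IsCompact (U : Set X)) :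
    IsAffineOpen U := by
  classical
  have hT2 : T2Space X := (Groth.Agent.S9796.result X h).1
  have hclosed : ∀ W : X.Opens, IsAffineOpen W → IsClosed (W : Set X) :=
    fun W hW => hW.isCompact.isClosed
  have hcov : ∀ x ∈ U, ∃ W : X.Opens, IsAffineOpen W ∧ x ∈ W ∧ W ≤ U := by
    intro x hx
    obtain ⟨_, ⟨W, hW, rfl⟩, hxW, hWU⟩ :=
      X.isBasis_affineOpens.exists_subset_of_mem_open hx U.isOpen
    exact ⟨W, hW, hxW, hWU⟩
  choose! W hW hxW hWU using hcov
  obtain ⟨t, ht⟩ := hU.elim_finite_subcover (fun x : U => (W x.1 : Set X))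
    (fun x => (W x.1).isOpen) (fun x hx => Set.mem_iUnion.2 ⟨⟨x, hx⟩, hxW x hx⟩)
  have hUeq : U = ⨆ x ∈ t, W x.1 := by
    apply le_antisymm
    · intro z hz
      obtain ⟨x, hx, hzx⟩ := Set.mem_iUnion₂.1 (ht hz)
      simp only [TopologicalSpace.Opens.mem_iSup]
      exact ⟨x, hx, hzx⟩
    · exact iSup₂_le fun x _ => hWU x.1 x.2
  have hind : ∀ s : Finset U, IsAffineOpen (⨆ x ∈ s, W x.1) := by
    intro s
    induction s using Finset.induction_on with
    | empty =>
      simp only [Finset.notMem_empty, iSup_of_empty, iSup_bot]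
      exact isAffineOpen_bot X
    | insert a s ha ih =>
      rw [Finset.iSup_insert]
      set V := ⨆ x ∈ s, W x.1
      have hWa := hW a.1 a.2
      let Wc : X.Opens := ⟨(W a.1 : Set X)ᶜ, (hclosed _ hWa).isOpen_compl⟩
      have hVdecomp : (V ⊓ W a.1) ⊔ (V ⊓ Wc) = V := by
        ext z
        simp only [TopologicalSpace.Opens.coe_sup, TopologicalSpace.Opens.coe_inf, Set.mem_union,
          Set.mem_inter_iff, SetLike.mem_coe]
        change (z ∈ V ∧ z ∈ W a.1 ∨ z ∈ V ∧ z ∉ W a.1) ↔ z ∈ V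
        tauto
      have hdisj1 : (V ⊓ W a.1) ⊓ (V ⊓ Wc) = ⊥ := by
        ext z
        simp only [TopologicalSpace.Opens.coe_inf, Set.mem_inter_iff, SetLike.mem_coe,
          TopologicalSpace.Opens.coe_bot, Set.mem_empty_iff_false, iff_false]
        change ¬ ((z ∈ V ∧ z ∈ W a.1) ∧ z ∈ V ∧ z ∉ W a.1)
        tauto
      have hB : IsAffineOpen (V ⊓ Wc) :=
        Groth.Agent.Lib.Helper15.isAffineOpen_of_disjoint_of_sup X _ _ (by rw [hVdecomp]; exact ih) hdisj1
      have hWaB : W a.1 ⊔ (V ⊓ Wc) = W a.1 ⊔ V := by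
        ext z
        simp only [TopologicalSpace.Opens.coe_sup, TopologicalSpace.Opens.coe_inf, Set.mem_union,
          Set.mem_inter_iff, SetLike.mem_coe]
        change (z ∈ W a.1 ∨ z ∈ V ∧ z ∉ W a.1) ↔ (z ∈ W a.1 ∨ z ∈ V)
        tauto
      have hdisj2 : W a.1 ⊓ (V ⊓ Wc) = ⊥ := by
        ext z
        simp only [TopologicalSpace.Opens.coe_inf, Set.mem_inter_iff, SetLike.mem_coe,
          TopologicalSpace.Opens.coe_bot, Set.mem_empty_iff_false, iff_false]
        change ¬ (z ∈ W a.1 ∧ z ∈ V ∧ z ∉ W a.1)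
        tauto
      rw [← hWaB]
      exact Groth.Agent.Lib.Helper15.isAffineOpen_sup_of_disjoint X _ _ hWa hB hdisj2
  rw [hUeq]
  exact hind t

end Groth.Agent.S9797
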