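import Groth.Statements.S9798
import Mathlib.AlgebraicGeometry.Artinian
-- import your own Groth.Agent.* helpers here

set_option autoImplicit false
universe u
open CategoryTheory AlgebraicGeometry TopologicalSpace
open Props

namespace Groth.Agent.S9798

/-- A point of a locally Noetherian scheme has local dimension zero exactly when it is isolated. -/
theorem result (X : Scheme.{u}) [IsLocallyNoetherian X] (x : X) :
    FlatMor.localDim X x = 0 ↔ IsOpen ({x} : Set X) := by
  constructor
  · intro h
    have h1 : FlatMor.localDim X x < 1 := by rw [h]; decide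
    obtain ⟨⟨U, hxU⟩, hU⟩ := iInf_lt_iff.1 h1
    have hU0 : topologicalKrullDim (U : Set X) ≤ 0 := by
      rcases h : topologicalKrullDim (U : Set X) with _ | n
      · exact bot_le
      · rw [h] at hU
        have : n < 1 := WithBot.coe_lt_coe.1 hU
        have : n = 0 := Order.lt_one_iff.1 this
        subst this; exact le_rfl
    have : IsLocallyArtinian (Scheme.Opens.toScheme (X := X) U) :=
      IsLocallyArtinian.of_topologicalKrullDim_le_zero hU0
    have hopen : IsOpen ({⟨x, hxU⟩} : Set (Scheme.Opens.toScheme (X := X) U)) := isOpen_discrete _
    have hopen' : IsOpen ({⟨x, hxU⟩} : Set (U : Set X)) := hopen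
    have := U.isOpen.isOpenMap_subtype_val _ hopen'
    rwa [Set.image_singleton] at this
  · intro h
    apply le_antisymm
    · let U0 : TopologicalSpace.Opens X := ⟨{x}, h⟩
      refine (iInf_le _ ⟨U0, rfl⟩).trans ?_
      have : Subsingleton (U0 : Set X) :=
        Set.Subsingleton.coe_sort (s := ({x} : Set X)) Set.subsingleton_singleton
      have : DiscreteTopology (U0 : Set X) := inferInstance
      exact topologicalKrullDim_zero_of_discreteTopology _
    · refine le_iInf fun U => ?_
      have : Nonempty (TopologicalSpace.IrreducibleCloseds (U.1 : Set X)) :=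
        ⟨⟨closure {⟨x, U.2⟩}, isIrreducible_singleton.closure, isClosed_closure⟩⟩
      exact Order.krullDim_nonneg

end Groth.Agent.S9798
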