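import Groth.Statements.S9799
import Mathlib.AlgebraicGeometry.Stalk
import Mathlib.AlgebraicGeometry.AffineScheme
-- import your own Groth.Agent.* helpers here

set_option autoImplicit false
universe u
open CategoryTheory AlgebraicGeometry TopologicalSpace
open Props

namespace Groth.Agent.S9799

open AlgebraicGeometry in
theorem comp_eq_closure (X : Scheme.{u}) (hN : Pi1.IsNormalScheme X) (x : X)
    (Z : Set X) (hZ : Z ∈ irreducibleComponents X) (hxZ : x ∈ Z) :
    Z = closure (Set.range (X.fromSpecStalk x)) := by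
  have hG : IsIrreducible (Set.range (X.fromSpecStalk x)) := by
    have := (hN x).1
    have hirr : IsIrreducible (Set.univ : Set (Spec (X.presheaf.stalk x))) :=
      (inferInstance : IrreducibleSpace (PrimeSpectrum (X.presheaf.stalk x))).isIrreducible_univ
    have := hirr.image (X.fromSpecStalk x) (X.fromSpecStalk x).continuous.continuousOn
    rwa [Set.image_univ] at this
  obtain ⟨η, hη⟩ := QuasiSober.sober hZ.1 (isClosed_of_mem_irreducibleComponents Z hZ)
  have hηx : η ⤳ x := specializes_iff_mem_closure.2 (by rw [hη.def]; exact hxZ)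
  have hηG : η ∈ Set.range (X.fromSpecStalk x) := by
    rw [Scheme.range_fromSpecStalk]; exact hηx
  have hsub : Z ⊆ closure (Set.range (X.fromSpecStalk x)) := by
    rw [← hη.def]; exact closure_mono (Set.singleton_subset_iff.2 hηG)
  exact hZ.eq_of_subset hG.closure hsub

/-- Let X be a normal scheme (all local rings are integrally closed domains) such that every
quasi-compact open subset has finitely many irreducible components. Then the irreducible components
of X are open and pairwise disjoint; hence X is the disjoint union of its irreducible components,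
each an open subscheme which is normal and integral. -/
theorem result (X : Scheme.{u})
    (hfin : ∀ U : X.Opens, IsCompact (U : Set X) → (irreducibleComponents ↥U).Finite)
    (hN : Pi1.IsNormalScheme X) :
    (∀ Z ∈ irreducibleComponents X, IsOpen Z) ∧
      ∀ Z ∈ irreducibleComponents X, ∀ Z' ∈ irreducibleComponents X, Z ≠ Z' → Disjoint Z Z' := by
  have huniq : ∀ x : X, ∀ Z ∈ irreducibleComponents X, ∀ Z' ∈ irreducibleComponents X,
      x ∈ Z → x ∈ Z' → Z = Z' := fun x Z hZ Z' hZ' hx hx' =>
    (comp_eq_closure X hN x Z hZ hx).trans (comp_eq_closure X hN x Z' hZ' hx').symm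
  refine ⟨fun Z hZ => ?_, fun Z hZ Z' hZ' hne => ?_⟩
  · rw [isOpen_iff_forall_mem_open]
    intro z hzZ
    obtain ⟨_, ⟨U, hU, rfl⟩, hzU, -⟩ :=
      X.isBasis_affineOpens.exists_subset_of_mem_open (Set.mem_univ z) isOpen_univ
    have hfinU := hfin U hU.isCompact
    let K : Set U := ⋃₀ {C | C ∈ irreducibleComponents U ∧ (⟨z, hzU⟩ : U) ∉ C}
    have hK : IsClosed K := by
      change IsClosed (⋃₀ _)
      rw [Set.sUnion_eq_biUnion]
      exact Set.Finite.isClosed_biUnion (hfinU.subset (fun C hC => hC.1))
        (fun C hC => isClosed_of_mem_irreducibleComponents C hC.1)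
    refine ⟨Subtype.val '' Kᶜ, ?_, U.isOpen.isOpenMap_subtype_val _ hK.isOpen_compl, ?_⟩
    · rintro _ ⟨w, hwK, rfl⟩
      obtain ⟨C, hC, hwC⟩ := exists_mem_irreducibleComponents_subset_of_isIrreducible
        ({w} : Set U) isIrreducible_singleton
      have hzC : (⟨z, hzU⟩ : U) ∈ C := by
        by_contra hzC
        exact hwK ⟨C, ⟨hC, hzC⟩, hwC rfl⟩
      have hCirr : IsIrreducible (Subtype.val '' C) := hC.1.image _ continuous_subtype_val.continuousOn
      obtain ⟨Z', hZ', hCZ'⟩ := exists_mem_irreducibleComponents_subset_of_isIrreducible _ hCirr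
      have : Z' = Z := huniq z Z' hZ' Z hZ (hCZ' ⟨_, hzC, rfl⟩) hzZ
      rw [← this]
      exact hCZ' ⟨w, hwC rfl, rfl⟩
    · refine ⟨⟨z, hzU⟩, ?_, rfl⟩
      rintro ⟨C, ⟨_, hzC⟩, hzC'⟩
      exact hzC hzC'
  · rw [Set.disjoint_left]
    intro x hxZ hxZ'
    exact hne (huniq x Z hZ Z' hZ' hxZ hxZ')

end Groth.Agent.S9799
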