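import Groth.Statements.S9800
import Mathlib.AlgebraicGeometry.Properties
import Mathlib.RingTheory.RegularLocalRing.Defs
-- import your own Groth.Agent.* helpers here

set_option autoImplicit false
universe u
open CategoryTheory AlgebraicGeometry TopologicalSpace
open Props

namespace Groth.Agent.S9800

/-- A locally Noetherian normal scheme of dimension at most one is regular, that is, all of its local
rings are regular local rings. -/
theorem result (X : Scheme.{u})
    [IsLocallyNoetherian X] (hN : Pi1.IsNormalScheme X) (hd : topologicalKrullDim X ≤ 1) (x : X) :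
    IsRegularLocalRing (X.presheaf.stalk x) := by
  have hx := hN x
  have := hx.1
  have := hx.2
  have hdim : ringKrullDim (X.presheaf.stalk x) ≤ 1 := by
    rw [ringKrullDim_stalk_eq_coheight]
    calc (Order.coheight x : WithBot ℕ∞) ≤ Order.krullDim X := Order.coheight_le_krullDim x
      _ = topologicalKrullDim X := (Order.krullDim_eq_of_orderIso irreducibleSetEquivPoints).symm
      _ ≤ 1 := hd
  have : Ring.KrullDimLE 1 (X.presheaf.stalk x) := by
    rw [Ring.krullDimLE_iff]; exact_mod_cast hdim
  have : Ring.DimensionLEOne (X.presheaf.stalk x) := ⟨fun h hp => hp.isMaximal_of_ne_bot h⟩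
  have : IsDedekindDomain (X.presheaf.stalk x) :=
    { (inferInstance : IsIntegrallyClosed (X.presheaf.stalk x)) with }
  exact IsRegularLocalRing.of_isRegularRing_of_isLocalRing _

end Groth.Agent.S9800
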