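import Groth.Statements.S9812
import Mathlib.RingTheory.LocalRing.RingHom.Basic
-- import your own Groth.Agent.* helpers here

set_option autoImplicit false
universe u
open CAlg2

namespace Groth.Agent.S9812

/-- At the level of the local ring: an integrally closed local domain is geometrically unibranch.
Consequently a normal scheme is geometrically unibranch. -/
theorem result (A : Type u) [CommRing A] [IsLocalRing A]
    [IsDomain A] [IsIntegrallyClosed A] : CAlg2.IsGeomUnibranch A := by
  have hnil : nilradical A = ⊥ := nilradical_eq_zero A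
  have hprime : (nilradical A).IsPrime := by rw [hnil]; exact Ideal.isPrime_bot
  have : IsDomain (CAlg2.red A) := Ideal.Quotient.isDomain _
  let e : A ≃+* CAlg2.red A := (RingEquiv.quotientBot A).symm.trans (Ideal.quotEquivOfEq hnil.symm)
  have : IsIntegrallyClosed (CAlg2.red A) := IsIntegrallyClosed.of_equiv e
  have : IsLocalRing (CAlg2.red A) := e.isLocalRing
  have hsurj : Function.Surjective (algebraMap (CAlg2.red A) (CAlg2.normRed A)) := by
    rintro ⟨y, hy⟩
    obtain ⟨r, hr⟩ := IsIntegrallyClosed.isIntegral_iff.1 (mem_integralClosure_iff _ _ |>.1 hy)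
    exact ⟨r, Subtype.ext hr⟩
  have hinj : Function.Injective (algebraMap (CAlg2.red A) (CAlg2.normRed A)) := by
    intro a b hab
    apply IsFractionRing.injective (CAlg2.red A) (FractionRing (CAlg2.red A))
    exact congrArg Subtype.val hab
  let e2 : CAlg2.red A ≃+* CAlg2.normRed A := RingEquiv.ofBijective _ ⟨hinj, hsurj⟩
  have : IsLocalRing (CAlg2.normRed A) := e2.isLocalRing
  refine ⟨⟨inferInstance, inferInstance⟩, ?_⟩
  intro m' _ x
  refine ⟨0, ?_⟩
  rw [pow_zero, pow_one]
  obtain ⟨y, rfl⟩ := Ideal.Quotient.mk_surjective x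
  obtain ⟨r, rfl⟩ := hsurj y
  obtain ⟨a, rfl⟩ := Ideal.Quotient.mk_surjective r
  exact ⟨a, rfl⟩

end Groth.Agent.S9812
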