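import Groth.Statements.S9821
import Mathlib.RingTheory.LocalProperties.IntegrallyClosed
-- import your own Groth.Agent.* helpers here

set_option autoImplicit false
universe u
open CategoryTheory CategoryTheory.Limits AlgebraicGeometry TopologicalSpace Opposite
open Props

namespace Groth.Agent.S9821

/-- An integral scheme is normal if and only if the coordinate ring of every nonempty affine open is an
integrally closed domain. -/
theorem result (X : Scheme.{u}) [IsIntegral X] :
    Pi1.IsNormalScheme X ↔ ∀ (U : X.Opens) [Nonempty U], IsAffineOpen U → IsIntegrallyClosed Γ(X, U) := by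
  constructor
  · intro hN U _ hU
    let inst : ∀ y : PrimeSpectrum Γ(X, U), Algebra Γ(X, U) (X.presheaf.stalk (hU.fromSpec y)) :=
      fun y => TopCat.Presheaf.algebra_section_stalk X.presheaf _
    have hloc (P : Ideal Γ(X, U)) [hP : P.IsMaximal] :
        IsLocalization.AtPrime (X.presheaf.stalk (hU.fromSpec ⟨P, hP.isPrime⟩)) P :=
      hU.isLocalization_stalk' ⟨P, hP.isPrime⟩ (hU.isoSpec.inv _).2
    exact @IsIntegrallyClosed.of_isLocalization_maximal Γ(X, U) _
      (fun P hP ↦ X.presheaf.stalk (hU.fromSpec ⟨P, hP.isPrime⟩)) _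
      (fun P hP => inst ⟨P, hP.isPrime⟩) hloc _ (fun P hP => (hN _).2)
  · intro H x
    obtain ⟨_, ⟨U, hU, rfl⟩, hxU, -⟩ :=
      X.isBasis_affineOpens.exists_subset_of_mem_open (Set.mem_univ x) isOpen_univ
    have : Nonempty U := ⟨⟨x, hxU⟩⟩
    have hIC : IsIntegrallyClosed Γ(X, U) := H U hU
    let : Algebra Γ(X, U) (X.presheaf.stalk x) :=
      TopCat.Presheaf.algebra_section_stalk X.presheaf ⟨x, hxU⟩
    have : IsLocalization.AtPrime (X.presheaf.stalk x) (hU.primeIdealOf ⟨x, hxU⟩).asIdeal :=
      hU.isLocalization_stalk ⟨x, hxU⟩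
    have hle : (hU.primeIdealOf ⟨x, hxU⟩).asIdeal.primeCompl ≤ nonZeroDivisors Γ(X, U) :=
      Ideal.primeCompl_le_nonZeroDivisors _
    exact ⟨IsLocalization.isDomain_of_le_nonZeroDivisors _ hle,
      isIntegrallyClosed_of_isLocalization _ _ hle⟩

end Groth.Agent.S9821
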