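import Groth.Statements.S9822
import Mathlib.AlgebraicGeometry.Limits
-- import your own Groth.Agent.* helpers here

set_option autoImplicit false
universe u
open CategoryTheory CategoryTheory.Limits AlgebraicGeometry TopologicalSpace Opposite
open Props

namespace Groth.Agent.S9822

/-- A scheme is irreducible if and only if it is nonempty and every nonempty affine open subset is
irreducible. -/
theorem result (X : Scheme.{u}) :
    IrreducibleSpace X ↔ Nonempty X ∧ ∀ U : X.Opens, IsAffineOpen U → (U : Set X).Nonempty → IsIrreducible (U : Set X) := by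
  constructor
  · intro h
    refine ⟨inferInstance, fun U _ hU => ⟨hU, ?_⟩⟩
    exact (IrreducibleSpace.isIrreducible_univ X).isPreirreducible.open_subset U.isOpen
      (Set.subset_univ _)
  · rintro ⟨hne, H⟩
    suffices h : IsPreirreducible (Set.univ : Set X) by
      have : PreirreducibleSpace X := ⟨h⟩
      exact ⟨hne⟩
    rintro u v hu hv ⟨a, -, ha⟩ ⟨b, -, hb⟩
    obtain ⟨_, ⟨A, hA, rfl⟩, haA, hAu⟩ := X.isBasis_affineOpens.exists_subset_of_mem_open ha hu
    obtain ⟨_, ⟨B, hB, rfl⟩, hbB, hBv⟩ := X.isBasis_affineOpens.exists_subset_of_mem_open hb hv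
    by_cases hAB : ((A : Set X) ∩ B).Nonempty
    · obtain ⟨c, hcA, hcB⟩ := hAB
      exact ⟨c, Set.mem_univ _, hAu hcA, hBv hcB⟩
    · exfalso
      have hd : Disjoint A B := by
        rw [← TopologicalSpace.Opens.coe_disjoint, Set.disjoint_iff_inter_eq_empty]
        exact Set.not_nonempty_iff_eq_empty.1 hAB
      have hirr := H (A ⊔ B) (IsAffineOpen.sup_of_disjoint hA hB hd) ⟨a, Or.inl haA⟩
      obtain ⟨c, -, hcA, hcB⟩ := hirr.isPreirreducible A B A.isOpen B.isOpen
        ⟨a, Or.inl haA, haA⟩ ⟨b, Or.inr hbB, hbB⟩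
      exact hAB ⟨c, hcA, hcB⟩

end Groth.Agent.S9822
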