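import Groth.Statements.S9830
import Groth.Agent.Lib.Helper15.Sep
-- import your own Groth.Agent.* helpers here

set_option autoImplicit false
universe u
open CategoryTheory AlgebraicGeometry TopologicalSpace
open Props

namespace Groth.Agent.S9830

/-- A scheme whose underlying space is Hausdorff is separated. (The published statement assumes X of
dimension zero; a Hausdorff scheme always has dimension at most zero, so this row omits that
hypothesis.) -/
theorem result (X : Scheme.{u}) [T2Space X] : X.IsSeparated := by
  have : QuasiSeparatedSpace X := ⟨fun U V _ hU _ hV => hU.inter hV⟩
  exact Groth.Agent.Lib.Helper15.isSeparated_of_specializes_eq X (fun a b h => h.eq)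

end Groth.Agent.S9830
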