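import Groth.Statements.S9840
-- import your own Groth.Agent.* helpers here

set_option autoImplicit false
open CategoryTheory CategoryTheory.Limits AlgebraicGeometry Opposite
universe u
open Desc

namespace Groth.Agent.S9840

theorem stalkMap_injective_of_flat {X Y : Scheme.{u}} (f : X ⟶ Y) [Flat f] (x : X) :
    Function.Injective (f.stalkMap x).hom := by
  algebraize [(f.stalkMap x).hom]
  have : Module.FaithfullyFlat (Y.presheaf.stalk (f x)) (X.presheaf.stalk x) :=
    @Module.FaithfullyFlat.of_flat_of_isLocalHom _ _ _ _ _ _ _
      (Flat.stalkMap f x) (f.toLRSHom.prop x)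
  exact ‹RingHom.FaithfullyFlat _›.injective

/-- For a flat, surjective morphism of schemes f : X ⟶ Y, reducedness of X forces Y to be reduced. -/
theorem result {X Y : Scheme.{u}} (f : X ⟶ Y) [Flat f] [Surjective f] [IsReduced X] :
    IsReduced Y := by
  have : ∀ y : Y, _root_.IsReduced (Y.presheaf.stalk y) := by
    intro y
    obtain ⟨x, rfl⟩ := f.surjective y
    exact isReduced_of_injective (f.stalkMap x).hom (stalkMap_injective_of_flat f x)
  exact isReduced_of_isReduced_stalk Y

end Groth.Agent.S9840
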