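import Groth.Statements.S9843
import Groth.Agent.Lib.Helper15.Fppf
-- import your own Groth.Agent.* helpers here

set_option autoImplicit false
open CategoryTheory CategoryTheory.Limits AlgebraicGeometry Opposite
universe u
open Desc

namespace Groth.Agent.S9843

/-- Being dominant is fppf local on the base: for every fppf covering family Y i ⟶ Y (flat, locally of
finite presentation, jointly surjective), a morphism X ⟶ Y is dominant if and only if all its base
changes X ×_Y Y i ⟶ Y i are. -/
theorem result :
    MorphismProperty.IsLocalAtTarget (@IsDominant : MorphismProperty Scheme.{u}) Scheme.fppfPrecoverage := by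
  exact Groth.Agent.Lib.Helper15.isDominant_isLocalAtTarget_fppf

end Groth.Agent.S9843
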