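import Groth.Statements.S9845
import Groth.Agent.Lib.Helper15.Fppf
-- import your own Groth.Agent.* helpers here

set_option autoImplicit false
open CategoryTheory CategoryTheory.Limits AlgebraicGeometry Opposite
universe u
open Desc

namespace Groth.Agent.S9845

/-- Being an open morphism (open underlying map) is fppf local on the source: for every fppf covering
family g i : X i ⟶ X, a morphism f : X ⟶ Y has open underlying map if and only if every composite g
i ≫ f does. -/
theorem result :
    MorphismProperty.IsLocalAtSource (topologically (fun f => IsOpenMap f) : MorphismProperty Scheme.{u})
      Scheme.fppfPrecoverage := by
  exact Groth.Agent.Lib.Helper15.isOpenMap_isLocalAtSource_fppf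

end Groth.Agent.S9845
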