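import Groth.Statements.S9846
import Groth.Agent.Lib.Helper15.Fppf
-- import your own Groth.Agent.* helpers here

set_option autoImplicit false
open CategoryTheory CategoryTheory.Limits AlgebraicGeometry Opposite
universe u
open Desc

namespace Groth.Agent.S9846

/-- Being universally open is fppf local on the source: for every fppf covering family g i : X i ⟶ X, a
morphism f : X ⟶ Y is universally open if and only if every composite g i ≫ f is. -/
theorem result :
    MorphismProperty.IsLocalAtSource (@UniversallyOpen : MorphismProperty Scheme.{u}) Scheme.fppfPrecoverage := by
  exact Groth.Agent.Lib.Helper15.universallyOpen_isLocalAtSource_fppf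

end Groth.Agent.S9846
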