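import Groth.Statements.S9859
-- import your own Groth.Agent.* helpers here

set_option autoImplicit false
open CategoryTheory CategoryTheory.Limits AlgebraicGeometry Opposite
universe u
open Desc

namespace Groth.Agent.S9859

theorem of_comp_mono' (P : MorphismProperty Scheme.{u}) [P.IsStableUnderBaseChange]
    {X Y Z : Scheme.{u}} (f : X ⟶ Y) (g : Y ⟶ Z) [Mono g] (h : P (f ≫ g)) : P f := by
  have : f = (asIso (pullback.fst (f ≫ g) g)).inv ≫ pullback.snd (f ≫ g) g := by
    simp [← cancel_mono g, pullback.condition]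
  rw [this, P.cancel_left_of_respectsIso]
  exact P.pullback_snd _ _ h

theorem P_snd_iff {P : MorphismProperty Scheme.{u}} [P.RespectsIso] {A B C D : Scheme.{u}}
    {fst : A ⟶ B} {snd : A ⟶ C} {f : B ⟶ D} {g : C ⟶ D} (h : IsPullback fst snd f g) :
    P snd ↔ P (pullback.snd f g) := by
  rw [← h.isoPullback_hom_snd, P.cancel_left_of_respectsIso]

theorem pullbackSnd_of_flat (P : MorphismProperty Scheme.{u})
    [MorphismProperty.IsLocalAtTarget P Scheme.fppfPrecoverage] {X Y Z : Scheme.{u}} (f : X ⟶ Y)
    (h : Z ⟶ Y) [Flat h] [LocallyOfFinitePresentation h] (hf : P f) : P (pullback.snd f h) := by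
  let R : Presieve Y := Presieve.ofArrows (fun b : Bool => bif b then Z else Y)
    (fun b => match b with | true => h | false => 𝟙 Y)
  have hR : R ∈ Scheme.fppfPrecoverage Y := by
    rw [Scheme.fppfPrecoverage, Scheme.ofArrows_mem_precoverage_iff]
    refine ⟨fun y => ⟨false, y, by simp⟩, fun b => ?_⟩
    cases b
    · exact ⟨(inferInstance : Flat (𝟙 Y)), (inferInstance : LocallyOfFinitePresentation (𝟙 Y))⟩
    · exact ⟨(inferInstance : Flat h), (inferInstance : LocallyOfFinitePresentation h)⟩
  exact MorphismProperty.IsLocalAtTarget.pullbackSnd hR (Presieve.ofArrows.mk true) hf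

/-- Case τ = fppf: let P be a property of morphisms of schemes which is fppf local on the base and f : X
⟶ Y a morphism. There is a largest open W of Y such that the restriction of f over W has P;
moreover, first, if g : Y' ⟶ Y is flat and locally of finite presentation and the base change of f
to Y' has P, then the image of g lies in W; and second, for such g the largest open of Y' over which
the base change of f has P is exactly g⁻¹(W). -/
theorem result (P : MorphismProperty Scheme.{u})
    [MorphismProperty.IsLocalAtTarget P Scheme.fppfPrecoverage] {X Y : Scheme.{u}} (f : X ⟶ Y) :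
    ∃ W : Y.Opens, P (f ∣_ W) ∧ (∀ W₀ : Y.Opens, P (f ∣_ W₀) → W₀ ≤ W) ∧
      (∀ (Y' : Scheme.{u}) (g : Y' ⟶ Y), Flat g → LocallyOfFinitePresentation g →
        P (pullback.snd f g) → Set.range g.base ⊆ (W : Set Y)) ∧
      (∀ (Y' : Scheme.{u}) (g : Y' ⟶ Y), Flat g → LocallyOfFinitePresentation g →
        ∀ W' : Y'.Opens, P (pullback.snd f g ∣_ W') → (∀ W₀ : Y'.Opens, P (pullback.snd f g ∣_ W₀) → W₀ ≤ W') →
          W' = g ⁻¹ᵁ W) := by
  let ι := {W₀ : Y.Opens // P (f ∣_ W₀)}
  let W : Y.Opens := ⨆ i : ι, i.1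
  have hle : ∀ i : ι, i.1 ≤ W := fun i => le_iSup (fun i : ι => i.1) i
  -- (a)
  have hPW : P (f ∣_ W) := by
    let R : Presieve W.toScheme :=
      Presieve.ofArrows (fun i : ι => i.1.toScheme) (fun i => Y.homOfLE (hle i))
    have hR : R ∈ Scheme.fppfPrecoverage W.toScheme := by
      apply Scheme.zariskiPrecoverage_le_fppfPrecoverage
      rw [Scheme.ofArrows_mem_precoverage_iff]
      refine ⟨fun x => ?_, fun i => inferInstance⟩
      obtain ⟨y, hy⟩ := x
      obtain ⟨i, hi⟩ := TopologicalSpace.Opens.mem_iSup.1 hy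
      exact ⟨i, ⟨y, hi⟩, by rw [Scheme.homOfLE_apply']⟩
    have key : ∀ i : ι, P (pullback.snd (f ∣_ W) (Y.homOfLE (hle i))) := by
      intro i
      have sq := IsPullback.paste_horiz
        (IsPullback.of_hasPullback (f ∣_ W) (Y.homOfLE (U := i.1) (V := W) (hle i)))
        (isPullback_morphismRestrict f W).flip
      rw [Scheme.homOfLE_ι] at sq
      exact (P_snd_iff sq).2 ((P_snd_iff (isPullback_morphismRestrict f i.1).flip).1 i.2)
    refine MorphismProperty.IsLocalAtTarget.of_forall_pullbackSnd hR ?_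
    rintro _ _ _ ⟨i⟩
    exact key i
  -- (c)
  have hc : ∀ (Y' : Scheme.{u}) (g : Y' ⟶ Y), Flat g → LocallyOfFinitePresentation g →
      P (pullback.snd f g) → Set.range g.base ⊆ (W : Set Y) := by
    intro Y' g hfl hlfp hP
    have hopen : IsOpen (Set.range g) := g.isOpenMap.isOpen_range
    let V : Y.Opens := ⟨Set.range g, hopen⟩
    have hgV : Set.range g ⊆ Set.range V.ι := by simp [V]
    let g' : Y' ⟶ V.toScheme := IsOpenImmersion.lift V.ι g hgV
    have hg' : g' ≫ V.ι = g := IsOpenImmersion.lift_fac _ _ _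
    have : Flat g' := of_comp_mono' @Flat g' V.ι (by rw [hg']; exact hfl)
    have : LocallyOfFinitePresentation g' :=
      of_comp_mono' @LocallyOfFinitePresentation g' V.ι (by rw [hg']; exact hlfp)
    have : Surjective g' := by
      refine ⟨fun ⟨y, ⟨y', hy'⟩⟩ => ⟨y', ?_⟩⟩
      apply V.ι.isOpenEmbedding.injective
      rw [← Scheme.Hom.comp_apply, hg']
      exact hy'
    have hPV : P (f ∣_ V) := by
      refine MorphismProperty.IsLocalAtTarget.of_forall_pullbackSnd g'.singleton_mem_fppfPrecoverage ?_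
      rintro _ _ _ ⟨⟩
      have sq := (IsPullback.of_hasPullback (f ∣_ V) g').paste_horiz
        (isPullback_morphismRestrict f V).flip
      rw [hg'] at sq
      exact (P_snd_iff sq).2 hP
    intro y hy
    exact hle ⟨V, hPV⟩ hy
  refine ⟨W, hPW, fun W₀ hW₀ => hle ⟨W₀, hW₀⟩, hc, ?_⟩
  -- (d)
  intro Y' g hfl hlfp W' hW'P hW'max
  apply le_antisymm
  · have hP0 : P (pullback.snd f (W'.ι ≫ g)) := by
      have sq := ((isPullback_morphismRestrict (pullback.snd f g) W').flip).paste_horiz
        (IsPullback.of_hasPullback f g)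
      exact (P_snd_iff sq).1 hW'P
    have := hc W'.toScheme (W'.ι ≫ g) inferInstance inferInstance hP0
    intro y hy
    exact this ⟨⟨y, hy⟩, rfl⟩
  · apply hW'max
    have hflW : Flat (g ∣_ W) := inferInstance
    have hlfpW : LocallyOfFinitePresentation (g ∣_ W) := inferInstance
    have h1 : P (pullback.snd (f ∣_ W) (g ∣_ W)) := pullbackSnd_of_flat P (f ∣_ W) (g ∣_ W) hPW
    have sqA := (IsPullback.of_hasPullback (f ∣_ W) (g ∣_ W)).paste_horiz
      (isPullback_morphismRestrict f W).flip
    have sqB := ((isPullback_morphismRestrict (pullback.snd f g) (g ⁻¹ᵁ W)).flip).paste_horiz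
      (IsPullback.of_hasPullback f g)
    rw [← morphismRestrict_ι] at sqB
    exact ((P_snd_iff sqB).trans (P_snd_iff sqA).symm).2 h1

end Groth.Agent.S9859
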