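import Groth.Statements.S9874
import Groth.Agent.Lib.Helper15.AlgSpChart
-- import your own Groth.Agent.* helpers here

set_option autoImplicit false
universe u
open CategoryTheory CategoryTheory.Limits AlgebraicGeometry
open AlgSp

namespace Groth.Agent.S9874

/-- Let `H` be an fppf sheaf of sets over `S` whose diagonal `H ⟶ H × H` is representable by schemes,
let `X`, `Y` be algebraic spaces over `S` with maps `f : X ⟶ H`, `g : Y ⟶ H`, and let `P` with its
two projections be a fibre product `X ×_H Y` in sheaves. Then `P` is an algebraic space over `S`. -/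
theorem result (S : Scheme.{u}) (H : AlgSp.Sp S)
    (hH : AlgSp.Representable (Limits.diag H)) (X Y : AlgSp.Space S) (f : X.obj ⟶ H) (g : Y.obj ⟶ H)
    (P : AlgSp.Sp S) (fst : P ⟶ X.obj) (snd : P ⟶ Y.obj) (h : IsPullback fst snd f g) :
    AlgSp.IsAlgSpace P := by
  exact Groth.Agent.Lib.Helper15.AlgSpChart.isAlgSpace_of_isPullback hH X.property Y.property h

end Groth.Agent.S9874
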