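import Groth.Statements.S9875
import Groth.Agent.Lib.Helper15.AlgSpChart
-- import your own Groth.Agent.* helpers here

set_option autoImplicit false
universe u
open CategoryTheory CategoryTheory.Limits AlgebraicGeometry
open AlgSp

namespace Groth.Agent.S9875

/-- The category of algebraic spaces over `S` has fibre products, and the inclusion functor into fppf
sheaves of sets over `S` preserves them (the fibre product of sheaves of two algebraic spaces over a
third is an algebraic space and is their fibre product as algebraic spaces). -/
theorem result (S : Scheme.{u}) :
    HasPullbacks (AlgSp.Space S) ∧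
      PreservesLimitsOfShape WalkingCospan (ObjectProperty.ι (AlgSp.IsAlgSpace (S := S))) := by
  have hcl : ObjectProperty.IsClosedUnderLimitsOfShape (AlgSp.IsAlgSpace (S := S)) WalkingCospan := by
    apply ObjectProperty.IsClosedUnderLimitsOfShape.mk'
    rintro _ ⟨F, hF⟩
    have hpb := IsPullback.of_hasPullback (F.map WalkingCospan.Hom.inl)
      (F.map WalkingCospan.Hom.inr)
    have h := Groth.Agent.Lib.Helper15.AlgSpChart.isAlgSpace_of_isPullback
      (hF WalkingCospan.one).diag (hF WalkingCospan.left) (hF WalkingCospan.right) hpb
    exact h.of_iso (HasLimit.isoOfNatIso (diagramIsoCospan F)).symm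
  exact ⟨inferInstance, inferInstance⟩

end Groth.Agent.S9875
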