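import Groth.Statements.S9887
import Groth.Agent.Lib.Helper15.AlgSpChart
-- import your own Groth.Agent.* helpers here

set_option autoImplicit false
universe u
open CategoryTheory CategoryTheory.Limits AlgebraicGeometry
open AlgSp

namespace Groth.Agent.S9887

/-- Let `a : X ⟶ Y` be a morphism of algebraic spaces over `S` and `q : h_V ⟶ Y` representable etale and
surjective with `V` a scheme over `S`. Then there exist a scheme `U` over `S`, a representable etale
and surjective `p : h_U ⟶ X` and a morphism `α : U ⟶ V` with `p ≫ a = h_α ≫ q`. -/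
theorem result (S : Scheme.{u}) (X Y : AlgSp.Space S) (a : X ⟶ Y) {V : Over S}
    (q : (AlgSp.yon S).obj V ⟶ Y.obj) (hqe : AlgSp.RepWith @Etale q) (hqs : AlgSp.RepWith @Surjective q) :
    ∃ (U : Over S) (p : (AlgSp.yon S).obj U ⟶ X.obj) (α : U ⟶ V),
      AlgSp.RepWith @Etale p ∧ AlgSp.RepWith @Surjective p ∧ p ≫ a.hom = (AlgSp.yon S).map α ≫ q := by
  obtain ⟨W, p₀, hp₀e, hp₀s⟩ := X.property.atlas
  obtain ⟨U, snd, fst, hpb⟩ := hqe.1 (p₀ ≫ a.hom)
  have hse : Etale snd.left := hqe.2 _ _ _ hpb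
  have hss : Surjective snd.left := hqs.2 _ _ _ hpb
  obtain ⟨α, rfl⟩ := (AlgSp.yon S).map_surjective fst
  have := AlgSp.repWith_isMultiplicative (S := S) @Etale
  have := AlgSp.repWith_isMultiplicative (S := S) @Surjective
  refine ⟨U, (AlgSp.yon S).map snd ≫ p₀, α, ?_, ?_, ?_⟩
  · exact MorphismProperty.comp_mem _ _ _ ((AlgSp.repWith_yon_map_iff _ _).2 hse) hp₀e
  · exact MorphismProperty.comp_mem _ _ _ ((AlgSp.repWith_yon_map_iff _ _).2 hss) hp₀s
  · rw [Category.assoc, ← hpb.w]

end Groth.Agent.S9887
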