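import Groth.Statements.S9906
import Groth.Agent.Lib.Helper15.AlgSpChart
-- import your own Groth.Agent.* helpers here

set_option autoImplicit false
universe u
open CategoryTheory CategoryTheory.Limits AlgebraicGeometry
open AlgSp

namespace Groth.Agent.S9906

/-- For a morphism of algebraic spaces representable by schemes, representable surjectivity is
equivalent to surjectivity of the induced map on points. -/
theorem result {S : Scheme.{u}} {X Y : AlgSp.Space S} (f : X ⟶ Y)
    (hf : AlgSp.Representable f.hom) :
    AlgSp.RepWith @Surjective f.hom ↔ AlgSp.IsSurjectiveMor f.hom := by
  exact Groth.Agent.Lib.Helper15.AlgSpChart.repWith_surjective_iff hf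

end Groth.Agent.S9906
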