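import Groth.Statements.S9937
import Groth.Agent.Lib.Helper15.AlgSpChart
-- import your own Groth.Agent.* helpers here

set_option autoImplicit false
universe u
open CategoryTheory CategoryTheory.Limits AlgebraicGeometry
open AlgSp

namespace Groth.Agent.S9937

/-- Closed immersions between algebraic spaces are separated morphisms. -/
theorem result {S : Scheme.{u}} {X Y : AlgSp.Space S} (f : X ⟶ Y)
    (hf : AlgSp.RepWith @IsClosedImmersion f.hom) : AlgSp.IsSeparatedMor f.hom := by
  have hm : Mono f.hom := Groth.Agent.Lib.Helper15.AlgSpChart.mono_of_repWith
    (Q := @IsClosedImmersion) (fun g hg => by have := hg; infer_instance) hf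
  have : IsIso (pullback.diagonal f.hom) := inferInstance
  have := AlgSp.repWith_isMultiplicative (S := S) @IsClosedImmersion
  have : (AlgSp.RepWith (S := S) @IsClosedImmersion).RespectsIso :=
    MorphismProperty.relative_respectsIso _
  show AlgSp.RepWith @IsClosedImmersion (pullback.diagonal f.hom)
  exact MorphismProperty.of_isIso (AlgSp.RepWith (S := S) @IsClosedImmersion) _

end Groth.Agent.S9937
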