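import Groth.Statements.S9953
import Groth.Agent.Lib.Helper15.AlgSpChart
-- import your own Groth.Agent.* helpers here

set_option autoImplicit false
universe u
open CategoryTheory CategoryTheory.Limits AlgebraicGeometry
open AlgSp

namespace Groth.Agent.S9953

/-- An immersion of algebraic spaces is locally of finite type. -/
theorem result {S : Scheme.{u}} {X Y : AlgSp.Space S} (f : X ⟶ Y)
    (hf : AlgSp.RepWith @IsImmersion f.hom) : AlgSp.LocP @LocallyOfFiniteType f.hom := by
  exact Groth.Agent.Lib.Helper15.AlgSpChart.locP_of_repWith (P := @LocallyOfFiniteType)
    (fun g hg => by have := hg; infer_instance) (fun g hg => by have := hg; infer_instance) hf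

end Groth.Agent.S9953
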